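import Cfsg.Agent.H23.As9

/-!
Aschbacher's theorem, part 10: the quasisimple classical groups lie in no geometric subgroup.
-/

set_option autoImplicit false

namespace H23.As

open Matrix Module Cfsg.Geo
open scoped MatrixGroups commutatorElement Kronecker

variable {ι : Type} [Fintype ι] [DecidableEq ι] {F : Type*} [Field F]

/-- Unipotent of class at most three. -/
def Unip (g : GL ι F) : Prop := ((g : Matrix ι ι F) - 1) ^ 3 = 0

/-- Axioms satisfied by the quasisimple classical groups, `Rt` being the singular vectors. -/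
structure Amb (S : Subgroup (GL ι F)) (Rt : Set (ι → F)) : Prop where
  three : 3 ≤ Fintype.card ι
  perf : ⁅S, S⁆ = S
  qs : ∀ N ≤ S, NG S N → (∀ x ∈ N, ∀ y ∈ S, x * y = y * x) ∨ N = S
  span : ∀ W : Submodule F (ι → F), (∀ u ∈ Rt, u ∈ W) → W = ⊤
  mem : ∀ u ∈ Rt, ∀ W : Submodule F (ι → F), W ≠ ⊥ →
    (∀ g ∈ S, (g : Matrix ι ι F) *ᵥ u = u → ∀ w ∈ W, (g : Matrix ι ι F) *ᵥ w ∈ W) → u ∈ W
  big : ∀ W : Submodule F (ι → F), Fintype.card ι ≤ 2 * finrank F W → ∃ u ∈ Rt, u ∈ W ∧ u ≠ 0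
  root : ∃ (u y : ι → F) (a : (ι → F) →ₗ[F] F), u ≠ 0 ∧ y ∉ F ∙ u ∧ a ≠ 0 ∧
    (∀ c : F, ∃ g ∈ S, Unip g ∧ ∀ x, (g : Matrix ι ι F) *ᵥ x - x - (c * a x) • y ∈ F ∙ u) ∧
    ∃ g ∈ S, ∃ g' ∈ S, Unip g ∧ Unip g' ∧ ∃ b : (ι → F) →ₗ[F] F, b ≠ 0 ∧
      ∀ x, ((g : Matrix ι ι F) - 1) *ᵥ (((g' : Matrix ι ι F) - 1) *ᵥ x) = b x • u

theorem perf_of_commutator {Γ : Type*} [Group Γ] {S : Subgroup Γ} (h : commutator S = ⊤) :
    ⁅S, S⁆ = S := by
  rw [← Subgroup.map_subtype_commutator, h, ← MonoidHom.range_eq_map, Subgroup.range_subtype]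

theorem commutator_of_perf {Γ : Type*} [Group Γ] {S : Subgroup Γ} (h : ⁅S, S⁆ = S) :
    commutator S = ⊤ := by
  apply Subgroup.map_injective S.subtype_injective
  rw [Subgroup.map_subtype_commutator, h, ← MonoidHom.range_eq_map, Subgroup.range_subtype]

theorem hom_eq_one_of_perf {Γ A : Type*} [Group Γ] [Group A] (h : commutator Γ = ⊤) (f : Γ →* A)
    (hc : ∀ x y, f x * f y = f y * f x) (x : Γ) : f x = 1 := by
  have : commutator Γ ≤ f.ker := Subgroup.commutator_le.2 fun a _ b _ => by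
    rw [MonoidHom.mem_ker, map_commutatorElement, commutatorElement_eq_one_iff_mul_comm, hc]
  exact this (h ▸ Subgroup.mem_top x)

variable {S : Subgroup (GL ι F)} {Rt : Set (ι → F)}

theorem Amb.nonempty (h : Amb S Rt) : Nonempty ι :=
  Fintype.card_pos_iff.1 (by have := h.three; omega)

theorem Amb.irr (h : Amb S Rt) : Irr S := fun W hW => or_iff_not_imp_left.2 fun h0 =>
  h.span W fun u hu => h.mem u hu W h0 fun g hg _ => hW g hg

theorem Amb.ai [Finite F] (h : Amb S Rt) : AI S := by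
  haveI := h.nonempty
  refine AI.of_abs ⟨irr_iff.2 h.irr, fun M hM => ?_⟩
  have hM' : ∀ g ∈ S, M * g = g * M := fun g hg => hM _ ⟨g, hg, rfl⟩
  obtain ⟨u, hu, -, hu0⟩ := h.big ⊤ (by simp; omega)
  obtain ⟨c, hc⟩ : ∃ c : F, M *ᵥ u = c • u := by
    by_cases h0 : M *ᵥ u = 0
    · exact ⟨0, by simp [h0]⟩
    obtain ⟨c, hc⟩ := Submodule.mem_span_singleton.1 (h.mem u hu (F ∙ (M *ᵥ u)) (by simpa using h0)
      fun g hg hgu w hw => by
        obtain ⟨a, rfl⟩ := Submodule.mem_span_singleton.1 hw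
        rw [mulVec_smul, mulVec_mulVec, ← hM' g hg, ← mulVec_mulVec, hgu]
        exact hw)
    have hc0 : c ≠ 0 := by rintro rfl; exact hu0 (by simpa using hc.symm)
    exact ⟨c⁻¹, by conv_rhs => rw [← hc, smul_smul, inv_mul_cancel₀ hc0, one_smul]⟩
  refine ⟨c, ?_⟩
  have := (h.irr (LinearMap.ker (toLin' (M - c • 1))) fun g hg v hv => by
    simp only [LinearMap.mem_ker, toLin'_apply] at hv ⊢
    rw [mulVec_mulVec, Matrix.sub_mul, hM' g hg, Matrix.smul_mul, Matrix.one_mul,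
      ← Matrix.mul_one (g : Matrix ι ι F), Matrix.mul_assoc, ← Matrix.mul_smul, ← Matrix.mul_sub,
      ← mulVec_mulVec, Matrix.one_mul, hv, mulVec_zero]).resolve_left fun h0 => hu0 (by
        rw [← Submodule.mem_bot F, ← h0]
        simp [sub_mulVec, smul_mulVec, hc])
  rw [LinearMap.ker_eq_top, ← toLin'.map_zero, toLin'.injective.eq_iff] at this
  exact sub_eq_zero.1 this

theorem Amb.not_le_scalars (h : Amb S Rt) : ¬ S ≤ scalars ι F :=
  H23.As.not_le_scalars h.irr (by have := h.three; omega)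

theorem Unip.eq_one [Nonempty ι] {g : GL ι F} (h : Unip g) (hg : g ∈ scalars ι F) : g = 1 := by
  obtain ⟨c, rfl⟩ := exists_sc hg
  have : ((c : F) - 1) ^ 3 • (1 : Matrix ι ι F) = 0 := by
    rw [← h, sc_val, show (c : F) • (1 : Matrix ι ι F) - 1 = ((c : F) - 1) • 1 by
      rw [sub_smul, one_smul], smul_pow, one_pow]
  rw [sc_eq_one]
  exact Units.ext (sub_eq_zero.1 (pow_eq_zero_iff (by norm_num) |>.1
    ((smul_eq_zero.1 this).resolve_right one_ne_zero)))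

theorem Amb.exists_root (h : Amb S Rt) : ∃ t ∈ S, t ∉ scalars ι F ∧
    ∃ W : Submodule F (ι → F), finrank F W ≤ 2 ∧ ∀ x, (t : Matrix ι ι F) *ᵥ x - x ∈ W := by
  haveI := h.nonempty
  obtain ⟨u, y, a, -, hy, ha, h1, -⟩ := h.root
  obtain ⟨g, hg, hu, h2⟩ := h1 1
  refine ⟨g, hg, fun hz => ha ?_, Submodule.span F {u, y}, ?_, fun x => ?_⟩
  · refine LinearMap.ext fun x => ?_
    by_contra h0
    have := h2 x
    rw [hu.eq_one hz, Units.val_one, one_mulVec, sub_self, zero_sub, neg_mem_iff, one_mul,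
      Submodule.smul_mem_iff _ h0] at this
    exact hy this
  · classical
    exact (finrank_span_le_card _).trans (by simpa using Finset.card_le_two)
  · have := Submodule.add_mem _ (Submodule.span_mono (by simp : ({u} : Set (ι → F)) ⊆ {u, y}) (h2 x))
      (Submodule.smul_mem _ (1 * a x) (Submodule.subset_span (by simp : y ∈ ({u, y} : Set (ι → F)))))
    simpa using this

theorem Amb.not_le_stab (h : Amb S Rt) {W : Submodule F (ι → F)} (h0 : W ≠ ⊥) (h1 : W ≠ ⊤) :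
    ¬ S ≤ subspaceStabilizer W := fun hle =>
  (h.irr W fun g hg => invS_stab W g (hle hg)).elim h0 h1

theorem IsMDecomposition.card_eq {t m : ℕ} {D : Fin t → Submodule F (ι → F)}
    (h : IsMDecomposition m D) : Fintype.card ι = t * m := by
  have := (DirectSum.isInternal_submodule_of_iSupIndep_of_iSup_eq_top h.indep h.iSup_eq_top)
  have e := (LinearEquiv.ofBijective (DirectSum.coeLinearMap D) this).finrank_eq
  simpa [Module.finrank_directSum, h.finrank_eq] using e.symm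

theorem Amb.not_le_dec (h : Amb S Rt) {t m : ℕ} {D : Fin t → Submodule F (ι → F)}
    (hD : IsMDecomposition m D) : ¬ S ≤ decompositionStabilizer D := by
  classical
  intro hle
  have ht := hD.two_le
  let i₀ : Fin t := ⟨0, by omega⟩
  have hI := DirectSum.isInternal_submodule_of_iSupIndep_of_iSup_eq_top hD.indep hD.iSup_eq_top
  have hc : IsCompl (D i₀) (⨆ j ≠ i₀, D j) := ⟨hD.indep i₀, by
    rw [codisjoint_iff, ← hD.iSup_eq_top]; exact (iSup_split_single D i₀).symm⟩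
  obtain ⟨u, hu, huW, hu0⟩ := h.big (⨆ j ≠ i₀, D j) (by
    have := Submodule.finrank_add_eq_of_isCompl hc
    rw [hD.finrank_eq, finrank_fintype_fun_eq_card] at this
    have h1 := IsMDecomposition.card_eq hD
    nlinarith)
  -- the indices outside the support of `u`
  let A : Set (Fin t) := {i | u ∈ ⨆ j ≠ i, D j}
  have hmem := h.mem u hu (⨆ i ∈ A, D i) (fun h0 => by
    have : D i₀ = ⊥ := le_bot_iff.1 (h0 ▸ le_biSup D (show i₀ ∈ A from huW))
    have h1 := hD.finrank_eq i₀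
    rw [this, finrank_bot] at h1
    exact hD.pos.ne h1) fun g hg hgu w hw => by
      obtain ⟨σ, hσ⟩ := hle hg
      refine (show (⨆ i ∈ A, D i).map (toLin' (g : Matrix ι ι F)) ≤ _ from ?_) ⟨w, hw, rfl⟩
      simp only [Submodule.map_iSup, hσ]
      refine iSup₂_le fun i hi => le_biSup D (show u ∈ ⨆ j ≠ σ i, D j from ?_)
      have : (⨆ j ≠ i, D j).map (toLin' (g : Matrix ι ι F)) ≤ ⨆ j ≠ σ i, D j := by
        simp only [Submodule.map_iSup, hσ]
        exact iSup₂_le fun j hj => le_biSup D (σ.injective.ne hj)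
      exact hgu ▸ this ⟨u, hi, rfl⟩
  -- `u` lies in the span of the members outside its support, and of those in its support
  let π : ∀ i, (ι → F) →ₗ[F] D i := fun i =>
    DirectSum.component F _ (fun i => D i) i ∘ₗ
      (LinearEquiv.ofBijective (DirectSum.coeLinearMap D) hI).symm.toLinearMap
  have hπ : ∀ i j, j ≠ i → D j ≤ LinearMap.ker (π i) := fun i j hij x hx =>
    hI.ofBijective_coeLinearMap_of_mem_ne hij hx
  have h0 : ∀ i, π i u = 0 := fun i => by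
    by_cases hi : i ∈ A
    · exact (iSup₂_le (hπ i) : _ ≤ LinearMap.ker (π i)) hi
    · exact (iSup₂_le fun j hj => hπ i j (by rintro rfl; exact hi hj) :
        _ ≤ LinearMap.ker (π i)) hmem
  exact hu0 ((LinearEquiv.ofBijective (DirectSum.coeLinearMap D) hI).symm.map_eq_zero_iff.1
    (DirectSum.ext_component F h0))

theorem IsFieldSubalgebra.isField [Nonempty ι] {r : ℕ} {K : Subalgebra F (Matrix ι ι F)}
    (h : IsFieldSubalgebra r K) : IsField K :=
  ⟨⟨0, 1, zero_ne_one⟩, fun a b => Subtype.ext (h.comm _ a.2 _ b.2), fun {a} ha => by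
    obtain ⟨y, hy, e⟩ := h.inv _ a.2 fun h0 => ha (Subtype.ext h0)
    exact ⟨⟨y, hy⟩, Subtype.ext e⟩⟩

theorem IsFieldSubalgebra.exists_gen [Finite F] [Nonempty ι] {r : ℕ}
    {K : Subalgebra F (Matrix ι ι F)} (h : IsFieldSubalgebra r K) :
    ∃ γ ∈ K, γ ≠ 0 ∧ ∀ x ∈ K, x ≠ 0 → ∃ k : ℕ, x = γ ^ k := by
  letI := (IsFieldSubalgebra.isField h).toField
  obtain ⟨γ, hγ⟩ := IsCyclic.exists_monoid_generator (α := Kˣ)
  refine ⟨(γ : K), (γ : K).2, fun h0 => γ.ne_zero (Subtype.ext h0), fun x hx h0 => ?_⟩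
  obtain ⟨k, hk⟩ := hγ (Units.mk0 ⟨x, hx⟩ fun e => h0 (congrArg Subtype.val e))
  exact ⟨k, (congrArg (fun y : Kˣ => ((y : K) : Matrix ι ι F)) hk).symm⟩

/-- The elements centralising a set of matrices. -/
def centS (A : Set (Matrix ι ι F)) : Subgroup (GL ι F) := ⨅ M ∈ A, centG M

theorem mem_centS {A : Set (Matrix ι ι F)} {g : GL ι F} :
    g ∈ centS A ↔ ∀ M ∈ A, cj g M = M := by
  simp only [centS, Subgroup.mem_iInf, cj_eq_iff]
  exact forall₂_congr fun M _ => eq_comm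

theorem commutator_le_centS [Finite F] [Nonempty ι] {r : ℕ} {K : Subalgebra F (Matrix ι ι F)}
    (hK : IsFieldSubalgebra r K) {G : Subgroup (GL ι F)} (hG : Nrm G K) : ⁅G, G⁆ ≤ centS K := by
  obtain ⟨γ, hγ, h0, hgen⟩ := IsFieldSubalgebra.exists_gen hK
  refine Subgroup.commutator_le.2 fun a ha b hb => mem_centS.2 fun x hx => ?_
  have key : ∀ x ∈ K, cj a (cj b x) = cj b (cj a x) := fun x hx => by
    by_cases hx0 : x = 0
    · simp [hx0]
    obtain ⟨k, rfl⟩ := hgen x hx hx0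
    obtain ⟨i, hi⟩ := hgen _ (hG a ha γ hγ) (by simpa using h0)
    obtain ⟨j, hj⟩ := hgen _ (hG b hb γ hγ) (by simpa using h0)
    simp only [map_pow, hi, hj, ← pow_mul]; congr 1; ring
  rw [commutatorElement_def, cj_mul, cj_mul, cj_mul,
    key _ (hG _ (inv_mem ha) _ (hG _ (inv_mem hb) _ hx))]
  simp

theorem Amb.not_le_field [Finite F] (h : Amb S Rt) {r : ℕ} {K : Subalgebra F (Matrix ι ι F)}
    (hK : IsFieldSubalgebra r K) (hr : r ≠ 1) : ¬ S ≤ subalgebraNormalizer K := fun hle => by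
  haveI := h.nonempty
  have h1 := commutator_le_centS hK (G := S) fun g hg => nrm_normalizer K g (hle hg)
  rw [h.perf] at h1
  have : K = ⊥ := eq_bot_iff.2 fun x hx => by
    obtain ⟨c, rfl⟩ := h.ai.scalar fun g hg => (cj_eq_iff.1 (mem_centS.1 (h1 hg) x hx)).symm
    exact Subalgebra.smul_mem _ (one_mem _) c
  exact hr (by rw [← hK.finrank_eq, this, Subalgebra.finrank_bot])

section Tensor

variable {κ μ : Type} [Fintype κ] [DecidableEq κ] [Fintype μ] [DecidableEq μ]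

theorem two_mul_le_finrank (e : ι ≃ κ × μ) (P : GL ι F) {Y : Matrix κ κ F} {x₁ x₂ : κ → F}
    (hi : ∀ c d : F, c • Y *ᵥ x₁ + d • Y *ᵥ x₂ = 0 → c = 0 ∧ d = 0) {W : Submodule F (ι → F)}
    (hW : ∀ v, tr e P (Y ⊗ₖ (1 : Matrix μ μ F)) *ᵥ v ∈ W) : 2 * Fintype.card μ ≤ finrank F W := by
  let T : (κ → F) → (κ → F) → ((μ → F) × (μ → F) →ₗ[F] (κ × μ → F)) := fun y₁ y₂ =>
    { toFun := fun c p => c.1 p.2 * y₁ p.1 + c.2 p.2 * y₂ p.1
      map_add' := fun _ _ => by ext; simp; ring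
      map_smul' := fun _ _ => by ext; simp; ring }
  let L : (μ → F) × (μ → F) →ₗ[F] (ι → F) :=
    toLin' (P : Matrix ι ι F) ∘ₗ LinearMap.funLeft F F e ∘ₗ T (Y *ᵥ x₁) (Y *ᵥ x₂)
  have hL : ∀ c, L c = (P : Matrix ι ι F) *ᵥ (T (Y *ᵥ x₁) (Y *ᵥ x₂) c ∘ e) := fun _ => rfl
  have hinj : Function.Injective L := (injective_iff_map_eq_zero L).2 fun c hc => by
    have := coord_inj e P (y := 0) (by rw [← hL, hc]; simp)
    have h2 := fun j => hi (c.1 j) (c.2 j) (funext fun a => congrFun this (a, j))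
    exact Prod.ext (funext fun j => (h2 j).1) (funext fun j => (h2 j).2)
  have hle : LinearMap.range L ≤ W := by
    rintro _ ⟨c, rfl⟩
    convert hW ((P : Matrix ι ι F) *ᵥ (T x₁ x₂ c ∘ e)) using 1
    rw [tr_mulVec, hL]
    congr 2
    ext ⟨a, j⟩
    rw [kron_one_mulVec]
    simp [T, mulVec, dotProduct, Finset.mul_sum, mul_add, Finset.sum_add_distrib, mul_left_comm]
  have := Submodule.finrank_mono hle
  rw [LinearMap.finrank_range_of_inj hinj] at this
  simpa [two_mul] using this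

theorem exists_smul_of_forall {a : Matrix κ κ F} (h : ∀ x, a *ᵥ x ∈ F ∙ x) : ∃ c : F, a = c • 1 := by
  obtain ⟨c, hc⟩ := LinearMap.exists_eq_smul_id_of_forall_notLinearIndependent (f := toLin' a)
    fun v hv => by
      obtain ⟨c, hc⟩ := Submodule.mem_span_singleton.1 (h v)
      have := (LinearIndependent.pair_iff.1 hv c (-1) (by simp [hc])).2
      simp at this
  exact ⟨c, toLin'.injective (by simp [hc]; rfl)⟩

theorem exists_rank_two {a : GL κ F} (ha : ¬ ∃ c : F, (a : Matrix κ κ F) = c • 1) :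
    ∃ (X : Matrix κ κ F) (x₁ x₂ : κ → F), ∀ c d : F,
      c • (cj a X - X) *ᵥ x₁ + d • (cj a X - X) *ᵥ x₂ = 0 → c = 0 ∧ d = 0 := by
  obtain ⟨x, hx⟩ : ∃ x, (a : Matrix κ κ F) *ᵥ x ∉ F ∙ x := by
    by_contra h; push Not at h; exact ha (exists_smul_of_forall h)
  have hx0 : x ≠ 0 := by rintro rfl; simp at hx
  have hx' : ((a⁻¹ : GL κ F) : Matrix κ κ F) *ᵥ x ∉ F ∙ x := fun h => by
    obtain ⟨c, hc⟩ := Submodule.mem_span_singleton.1 h
    have h1 := congrArg ((a : Matrix κ κ F) *ᵥ ·) hc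
    simp only [mulVec_smul, val_mulVec_inv_mulVec] at h1
    have hc0 : c ≠ 0 := by rintro rfl; exact hx0 (by simpa using h1.symm)
    exact hx ((Submodule.smul_mem_iff _ hc0).1 (h1.symm ▸ Submodule.mem_span_singleton_self x))
  obtain ⟨φ, h0, h1, h2⟩ : ∃ φ : Dual F (κ → F), φ x = 0 ∧ φ ((a : Matrix κ κ F) *ᵥ x) ≠ 0 ∧
      φ (((a⁻¹ : GL κ F) : Matrix κ κ F) *ᵥ x) ≠ 0 := by
    obtain ⟨φ, h1, h2⟩ := Submodule.exists_dual_map_eq_bot_of_notMem hx inferInstance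
    obtain ⟨ψ, h3, h4⟩ := Submodule.exists_dual_map_eq_bot_of_notMem hx' inferInstance
    have h5 : φ x = 0 := h2.le ⟨x, Submodule.mem_span_singleton_self x, rfl⟩
    have h6 : ψ x = 0 := h4.le ⟨x, Submodule.mem_span_singleton_self x, rfl⟩
    by_cases h7 : φ (((a⁻¹ : GL κ F) : Matrix κ κ F) *ᵥ x) = 0
    · by_cases h8 : ψ ((a : Matrix κ κ F) *ᵥ x) = 0
      · exact ⟨φ + ψ, by simp [h5, h6], by simpa [h8] using h1,
          by rwa [LinearMap.add_apply, h7, zero_add]⟩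
      · exact ⟨ψ, h6, h8, h3⟩
    · exact ⟨φ, h5, h1, h7⟩
  let X : Matrix κ κ F := LinearMap.toMatrix' (φ.smulRight x)
  have hX : ∀ v, X *ᵥ v = φ v • x := fun v => by
    rw [← toLin'_apply, toLin'_toMatrix']; rfl
  refine ⟨X, x, (a : Matrix κ κ F) *ᵥ x, fun c d hcd => ?_⟩
  rw [sub_mulVec, sub_mulVec, cj_mulVec, cj_apply, ← mulVec_mulVec, ← mulVec_mulVec] at hcd
  simp only [hX, h0, zero_smul, mulVec_zero, mulVec_smul, sub_zero, zero_sub, smul_smul,
    smul_neg] at hcd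
  have hc : c = 0 := by
    by_contra hc
    refine hx ((Submodule.smul_mem_iff _ (mul_ne_zero hc h2)).1 ?_)
    rw [add_neg_eq_zero.1 hcd]
    exact Submodule.smul_mem _ _ (Submodule.mem_span_singleton_self x)
  simpa [hc, hx0, h1] using hcd

theorem Amb.not_nrm_range [Finite F] (h : Amb S Rt) (φ : Matrix κ κ F →ₐ[F] Matrix ι ι F)
    (h2 : 2 ≤ Fintype.card κ) (h3 : 3 * Fintype.card κ ≤ Fintype.card ι) : ¬ Nrm S φ.range := by
  intro hn
  haveI := h.nonempty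
  haveI : Nonempty κ := Fintype.card_pos_iff.1 (by omega)
  obtain ⟨t, ht, htZ, W, hW, hW'⟩ := h.exists_root
  obtain ⟨m, hm⟩ := card_dvd_of_algHom φ
  have hm3 : 3 ≤ m := by
    by_contra hh
    have : Fintype.card κ * m ≤ Fintype.card κ * 2 := Nat.mul_le_mul_left _ (by omega)
    omega
  let e : ι ≃ κ × Fin m := Fintype.equivOfCardEq (by simp [hm])
  obtain ⟨P, hP⟩ := exists_tr φ e
  have htc : t ∈ centS φ.range := by
    obtain ⟨a, ha⟩ := exists_cj_of_range ((cj t).toAlgHom.comp φ) φ fun X => by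
      obtain ⟨Y, hY⟩ := hn t ht _ ⟨X, rfl⟩; exact ⟨Y, hY.symm⟩
    by_cases hs : ∃ c : F, (a : Matrix κ κ F) = c • 1
    · obtain ⟨c, hc⟩ := hs
      rw [mem_centS]
      rintro _ ⟨X, rfl⟩
      exact (ha X).trans (by rw [cj_of_scalar (mem_scalars_of_val hc)]; rfl)
    obtain ⟨X, x₁, x₂, hX⟩ := exists_rank_two hs
    have := two_mul_le_finrank e P hX (W := W ⊔ W.map (toLin' (φ X))) fun v => by
      obtain ⟨w, rfl⟩ : ∃ w, v = (t : Matrix ι ι F) *ᵥ w := ⟨_, (val_mulVec_inv_mulVec t v).symm⟩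
      rw [← hP, map_sub, ← ha, sub_mulVec, show ((cj t).toAlgHom.comp φ) X = cj t (φ X) from rfl,
        cj_mulVec]
      have := Submodule.sub_mem _ (Submodule.mem_sup_left (T := W.map (toLin' (φ X)))
        (hW' (φ X *ᵥ w))) (Submodule.mem_sup_right ⟨_, hW' w, rfl⟩)
      simpa [mulVec_sub] using this
    have h4 := Submodule.finrank_add_le_finrank_add_finrank W (W.map (toLin' (φ X)))
    have h5 := Submodule.finrank_map_le (toLin' (φ X)) W
    simp at this; omega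
  rcases h.qs (S ⊓ centS φ.range) inf_le_left (fun g hg x hx => ⟨NG.self S g hg x hx.1,
      mem_centS.2 fun M hM => by
        rw [cj_mul, cj_mul, mem_centS.1 hx.2 _ (hn _ (inv_mem hg) M hM), cj_cj_inv]⟩) with h1 | h1
  · exact htZ (h.ai.mem_scalars (h1 t ⟨ht, htc⟩))
  · obtain ⟨i, j, hij⟩ := Fintype.exists_pair_of_one_lt_card h2
    obtain ⟨c, hc⟩ := h.ai.scalar (M := φ (single i j 1)) fun g hg =>
      (cj_eq_iff.1 (mem_centS.1 (h1.ge hg).2 _ ⟨_, rfl⟩)).symm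
    have := algHom_injective φ (hc.trans (by simp : _ = φ (c • 1)))
    simpa [hij] using congrFun (congrFun this i) j

theorem Amb.not_le_tensor [Finite F] (h : Amb S Rt) {n₁ n₂ : ℕ} (h1 : 2 ≤ n₁) (h2 : 3 ≤ n₂)
    (e : ι ≃ Fin n₁ × Fin n₂) (P : GL ι F) : ¬ S ≤ tensorProductSubgroup n₁ n₂ e P := fun hle => by
  refine h.not_nrm_range ((tr e P).toAlgHom.comp (kronL (Fin n₁) (Fin n₂) F)) (by simpa)
    (by rw [Fintype.card_congr e]; simp; nlinarith) ?_
  rintro g hg _ ⟨X, rfl⟩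
  obtain ⟨a, b, rfl⟩ := mem_tensorProductSubgroup_iff.1 (hle hg)
  exact ⟨cj a X, (by rw [cj_trG, cj_kronG, map_one] :
    tr e P (cj a X ⊗ₖ (1 : Matrix (Fin n₂) (Fin n₂) F)) =
      cj (trG e P (kronG a b)) (tr e P (X ⊗ₖ (1 : Matrix (Fin n₂) (Fin n₂) F))))⟩

theorem Amb.not_le_tensor' [Finite F] (h : Amb S Rt) {n₁ n₂ : ℕ} (h1 : 3 ≤ n₁) (h2 : 2 ≤ n₂)
    (e : ι ≃ Fin n₁ × Fin n₂) (P : GL ι F) : ¬ S ≤ tensorProductSubgroup n₁ n₂ e P := fun hle =>
  h.not_le_tensor h2 h1 _ P (hle.trans (tensor_le_swap e P))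

theorem exists_perm_of_mem_wreath {k t : ℕ} {e : ι ≃ (Fin t → Fin k)} {P g : GL ι F}
    (hg : g ∈ tensorWreathSubgroup k t e P) : ∃ σ : Equiv.Perm (Fin t), ∀ i X, ∃ Y,
      cj g (tr e P (slot i X)) = tr e P (slot (σ i) Y) := by
  let p : GL (Fin t → Fin k) F → Prop := fun g => ∃ σ : Equiv.Perm (Fin t), ∀ i X, ∃ Y,
    cj g (slot i X) = slot (σ i) Y
  have hp : ∀ a b, p a → p b → p (a * b) := by
    rintro a b ⟨σ, hσ⟩ ⟨τ, hτ⟩
    refine ⟨σ * τ, fun i X => ?_⟩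
    obtain ⟨Y, hY⟩ := hτ i X
    obtain ⟨Z, hZ⟩ := hσ (τ i) Y
    exact ⟨Z, by rw [cj_mul, hY, hZ]; rfl⟩
  let T : Subgroup (GL (Fin t → Fin k) F) :=
    { carrier := {g | p g ∧ p g⁻¹}
      mul_mem' := fun ha hb => ⟨hp _ _ ha.1 hb.1, by rw [_root_.mul_inv_rev]; exact hp _ _ hb.2 ha.2⟩
      one_mem' := ⟨⟨1, fun i X => ⟨X, by simp⟩⟩, ⟨1, fun i X => ⟨X, by simp⟩⟩⟩
      inv_mem' := fun ha => ⟨ha.2, by simpa using ha.1⟩ }
  obtain ⟨σ, hσ⟩ := (tensorWreathStandard_le (S := T)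
    (fun a => ⟨⟨1, fun i X => ⟨_, cj_ptensG_slot a i X⟩⟩, ⟨1, fun i X => ⟨_, cj_ptensG_slot a⁻¹ i X⟩⟩⟩)
    (fun σ => ⟨⟨σ, fun i X => ⟨_, cj_fperm_slot σ i X⟩⟩,
      ⟨σ.symm, fun i X => ⟨_, cj_fperm_slot σ.symm i X⟩⟩⟩) (mem_map_tr.1 hg)).1
  refine ⟨σ, fun i X => ?_⟩
  obtain ⟨Y, hY⟩ := hσ i X
  exact ⟨Y, by rw [← hY, ← cj_trG, MulEquiv.apply_symm_apply]⟩

theorem slot_index_eq {t : ℕ} (h2 : 2 ≤ Fintype.card κ) {A : Type*} [Ring A] [Algebra F A]
    {ψ : Matrix (Fin t → κ) (Fin t → κ) F →ₐ[F] A} (hψ : Function.Injective ψ)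
    {θ : Matrix κ κ F →ₐ[F] A} (hθ : Function.Injective θ) {i j : Fin t}
    (hi : ∀ X, ∃ Y, θ X = ψ (slot i Y)) (hj : ∀ X, ∃ Y, θ X = ψ (slot j Y)) : i = j := by
  by_contra hij
  obtain ⟨a, b, hab⟩ := Fintype.exists_pair_of_one_lt_card h2
  obtain ⟨Y, hY⟩ := hi (single a b 1)
  obtain ⟨Z, hZ⟩ := hj (single b a 1)
  have : single a b (1 : F) * single b a 1 = single b a 1 * single a b 1 := hθ (by
    rw [map_mul, map_mul, hY, hZ, ← map_mul, ← map_mul, (commute_slot hij Y Z).eq])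
  simpa [hab, hab.symm] using congrFun (congrFun this a) a

theorem perm_comm_of_sign {t : ℕ} (ht : t ≤ 3) (a b : Equiv.Perm (Fin t))
    (ha : Equiv.Perm.sign a = 1) (hb : Equiv.Perm.sign b = 1) : a * b = b * a := by
  interval_cases t <;> revert a b <;> decide

theorem Amb.not_le_wreath [Finite F] (h : Amb S Rt) {k t : ℕ} (hk : 2 ≤ k) (ht : t ≤ 3)
    (h3 : 3 * k ≤ k ^ t) (e : ι ≃ (Fin t → Fin k)) (P : GL ι F) :
    ¬ S ≤ tensorWreathSubgroup k t e P := fun hle => by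
  haveI := h.nonempty
  haveI : Nonempty (Fin k) := ⟨⟨0, by omega⟩⟩
  choose σ hσ using fun g : S => exists_perm_of_mem_wreath (hle g.2)
  have huniq : ∀ (g : GL ι F) (i j j' : Fin t),
      (∀ X, ∃ Y, cj g (tr e P (slot i X)) = tr e P (slot j Y)) →
      (∀ X, ∃ Y, cj g (tr e P (slot i X)) = tr e P (slot j' Y)) → j = j' := fun g i j j' h1 h2 =>
    slot_index_eq (by simpa) (ψ := (tr e P).toAlgHom) (tr e P).injective
      (θ := (cj g).toAlgHom.comp ((tr e P).toAlgHom.comp (slot i))) (algHom_injective _) h1 h2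
  let f : S →* Equiv.Perm (Fin t) := MonoidHom.mk' σ fun a b => Equiv.ext fun i =>
    huniq (a * b) i _ _ (hσ (a * b) i) fun X => by
      obtain ⟨Y, hY⟩ := hσ b i X
      obtain ⟨Z, hZ⟩ := hσ a (σ b i) Y
      exact ⟨Z, by rw [cj_mul, hY, hZ]; rfl⟩
  have hp := commutator_of_perf h.perf
  have h1 := hom_eq_one_of_perf hp (Equiv.Perm.sign.comp f) fun _ _ => mul_comm _ _
  have h2 := hom_eq_one_of_perf hp f fun a b => perm_comm_of_sign ht _ _ (h1 a) (h1 b)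
  let i₀ : Fin t := ⟨0, by rcases t with _ | t <;> simp at h3 ⊢; omega⟩
  refine h.not_nrm_range ((tr e P).toAlgHom.comp (slot i₀)) (by simpa)
    (by rw [Fintype.card_congr e]; simpa) ?_
  rintro g hg _ ⟨X, rfl⟩
  obtain ⟨Y, hY⟩ := hσ ⟨g, hg⟩ i₀ X
  rw [show σ ⟨g, hg⟩ = 1 from h2 _] at hY
  exact ⟨Y, hY.symm⟩

end Tensor

theorem Unip.rat [Fintype F] [Nonempty ι] {g P : GL ι F} (h : Unip g) {F₀ : Subfield F}
    (hg : g ∈ subfieldSubgroup F₀ P) : Rat F₀ (cj P⁻¹ (g : Matrix ι ι F)) := by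
  obtain ⟨c, hc, hr⟩ := mem_subfieldSubgroup_iff.1 hg
  obtain ⟨p, e, hp, hchar, he⟩ := exists_char_pow F
  haveI := Fact.mk hp
  have h1 : (g : Matrix ι ι F) ^ p ^ (2 * e) = 1 := by
    have h4 : 3 ≤ p ^ (2 * e) := by
      rw [mul_comm, pow_mul, ← he]; have := Fintype.one_lt_card (α := F); nlinarith
    have := add_pow_char_pow_of_commute p (2 * e) (Commute.one_right ((g : Matrix ι ι F) - 1))
    rwa [sub_add_cancel, one_pow, pow_eq_zero_of_le h4 h, zero_add] at this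
  have h2 : ∀ k, Rat F₀ ((c • cj P⁻¹ (g : Matrix ι ι F)) ^ (k + 1)) := fun k => by
    induction k with
    | zero => simpa using hr
    | succ k ih => rw [pow_succ]; exact ih.mul hr
  have h3 := h2 (p ^ (2 * e) - 1)
  rw [Nat.sub_add_cancel (Nat.one_le_pow _ _ hp.pos), smul_pow, ← map_pow, h1, map_one, mul_comm,
    pow_mul, ← he, FiniteField.pow_card_pow] at h3
  have hc' : c ∈ F₀ := by simpa using h3 (Classical.arbitrary ι) (Classical.arbitrary ι)
  intro i j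
  have := mul_mem (inv_mem hc') (hr i j)
  simpa [hc] using this

theorem mem_of_rat_comb {F₀ : Subfield F} {u w : ι → F} (hu : ∀ i, u i ∈ F₀) (hw : ∀ i, w i ∈ F₀)
    (hwu : w ∉ F ∙ u) {c β : F} (h : ∀ i, c * w i + β * u i ∈ F₀) : c ∈ F₀ := by
  obtain ⟨π, h1, h2⟩ := exists_proj F₀ (one_ne_zero (α := F))
  have e : ∀ a ∈ F₀, ∀ x, π (a * x) = a * π x := fun a ha x => π.map_smul ⟨a, ha⟩ x
  have : π c - c * π 1 = 0 := by
    by_contra h0
    refine hwu ((Submodule.smul_mem_iff _ h0).1 (Submodule.mem_span_singleton.2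
      ⟨β * π 1 - π β, funext fun i => ?_⟩))
    have h3 := e _ (h i) 1
    rw [mul_one, map_add, mul_comm c, mul_comm β, e _ (hw i), e _ (hu i)] at h3
    simp only [Pi.smul_apply, smul_eq_mul]
    linear_combination -h3
  rw [show c = π c / π 1 by field_simp; linear_combination -this]
  exact div_mem (h2 _) (h2 _)

theorem Amb.not_le_subfield [Fintype F] (h : Amb S Rt) {F₀ : Subfield F} (hF : F₀ ≠ ⊤)
    (P : GL ι F) : ¬ S ≤ subfieldSubgroup F₀ P := fun hle => by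
  haveI := h.nonempty
  obtain ⟨u, y, a, hu, hy, ha, h1, g₁, hg₁, g₂, hg₂, hu₁, hu₂, b, hb, h2⟩ := h.root
  let Q : Matrix ι ι F := ((P⁻¹ : GL ι F) : Matrix ι ι F)
  have hrat : ∀ g ∈ S, Unip g → ∀ v, (∀ i, (Q *ᵥ v) i ∈ F₀) →
      ∀ i, (Q *ᵥ (((g : Matrix ι ι F) - 1) *ᵥ v)) i ∈ F₀ := fun g hg hu v hv i => by
    rw [sub_mulVec, one_mulVec, mulVec_sub, ← cj_mulVec]
    exact sub_mem ((hu.rat (hle hg)).mulVec hv i) (hv i)
  have hex : ∀ b : (ι → F) →ₗ[F] F, b ≠ 0 → ∃ x, b x ≠ 0 ∧ ∀ i, (Q *ᵥ x) i ∈ F₀ := fun b hb => by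
    by_contra hh; push Not at hh
    refine hb (LinearMap.ext fun v => ?_)
    have : b ∘ₗ toLin' (P : Matrix ι ι F) = 0 := (Pi.basisFun F ι).ext fun j => by
      by_contra h0
      obtain ⟨i, hi⟩ := hh _ h0
      refine hi ?_
      rw [toLin'_apply, val_inv_mulVec_mulVec, Pi.basisFun_apply, Pi.single_apply]
      split_ifs; exacts [one_mem _, zero_mem _]
    rw [← val_mulVec_inv_mulVec P v]
    exact LinearMap.congr_fun this (Q *ᵥ v)
  obtain ⟨x₀, hx₀, hx₀'⟩ := hex b hb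
  have hu' := hrat g₁ hg₁ hu₁ _ (hrat g₂ hg₂ hu₂ _ hx₀')
  rw [h2] at hu'
  obtain ⟨x, hx, hx'⟩ := hex a ha
  have key : ∀ c : F, ∃ β : F, ∀ i, (Q *ᵥ ((c * a x) • y + β • b x₀ • u)) i ∈ F₀ := fun c => by
    obtain ⟨g, hg, hgu, hg'⟩ := h1 c
    obtain ⟨β, hβ⟩ := Submodule.mem_span_singleton.1 (hg' x)
    refine ⟨β / b x₀, ?_⟩
    have := hrat g hg hgu x hx'
    rwa [sub_mulVec, one_mulVec, ← sub_add_cancel (_ - x) ((c * a x) • y), ← hβ, add_comm,
      show β • u = (β / b x₀) • b x₀ • u by rw [smul_smul, div_mul_cancel₀ _ hx₀]] at this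
  obtain ⟨β₁, hβ₁⟩ := key 1
  refine hF (eq_top_iff.2 fun c _ => ?_)
  obtain ⟨β, hβ⟩ := key c
  refine mem_of_rat_comb hu' hβ₁ (fun hm => hy ?_) (β := β - c * β₁) fun i => ?_
  · obtain ⟨d, hd⟩ := Submodule.mem_span_singleton.1 hm
    have := congrArg ((P : Matrix ι ι F) *ᵥ ·) hd
    simp only [mulVec_smul, Q, val_mulVec_inv_mulVec, one_mul] at this
    rw [← Submodule.smul_mem_iff _ hx, ← sub_eq_iff_eq_add.2 this]
    exact sub_mem (Submodule.smul_mem _ _ (Submodule.smul_mem _ _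
      (Submodule.mem_span_singleton_self u))) (Submodule.smul_mem _ _ (Submodule.smul_mem _ _
      (Submodule.mem_span_singleton_self u)))
  · convert hβ i using 1
    simp only [mulVec_add, mulVec_smul, Pi.add_apply, Pi.smul_apply, smul_eq_mul]; ring

theorem ne_top_of_card [Fintype F] {F₀ : Subfield F} {r : ℕ} (hr : r.Prime)
    (h : Fintype.card F = Nat.card F₀ ^ r) : F₀ ≠ ⊤ := by
  rintro rfl
  rw [Nat.card_congr Subfield.topEquiv.toEquiv, Nat.card_eq_fintype_card] at h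
  have := (Nat.pow_lt_pow_iff_right (Fintype.one_lt_card (α := F))).2 hr.one_lt
  rw [pow_one, ← h] at this
  exact lt_irrefl _ this

theorem Amb.not_ng [Finite F] (h : Amb S Rt) {R : Subgroup (GL ι F)} (hR : NG R S)
    (hs : ¬ S ≤ R) (hz : ¬ R ≤ scalars ι F) : ¬ NG S R := fun hn => by
  haveI := h.nonempty
  rcases h.qs (S ⊓ R) inf_le_left (fun g hg x hx => ⟨NG.self S g hg x hx.1, hn g hg x hx.2⟩) with
    h1 | h1
  · refine hz fun x hx => h.ai.mem_scalars fun y hy => ?_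
    refine (cen_scalars.comm_of_commutator (T := S) (fun z hz => h.ai.mem_scalars (h1 _ ⟨?_, ?_⟩))
      y (by rwa [h.perf])).symm
    · exact S.mul_mem (hR x hx z hz) (S.inv_mem hz)
    · rw [commutatorElement_def, mul_assoc x, mul_assoc x]
      exact R.mul_mem hx (hn z hz _ (R.inv_mem hx))
  · exact hs (h1.ge.trans inf_le_right)

theorem Amb.not_le_of_pGroup [Finite F] (h : Amb S Rt) {R : Subgroup (GL ι F)} {r : ℕ}
    (hr : r.Prime) (hp : IsPGroup r R) : ¬ S ≤ R := fun hle => by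
  haveI := Fact.mk hr
  haveI : Finite (GL ι F) := inferInstance
  haveI := (hp.to_le hle).isNilpotent
  haveI : Nontrivial S := (Subgroup.nontrivial_iff_ne_bot S).2 fun h0 =>
    h.not_le_scalars (h0 ▸ bot_le)
  exact (Group.IsSolvable.commutator_lt_top_of_nontrivial S).ne (commutator_of_perf h.perf)

theorem Amb.not_le_normalizer [Finite F] (h : Amb S Rt) {R : Subgroup (GL ι F)} {r : ℕ}
    (hR : NG R S) (hr : IsSymplecticTypeGroup r R) (ha : ActsAbsolutelyIrreducibly (matrixSet R)) :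
    ¬ S ≤ subgroupNormalizer R := fun hle =>
  h.not_ng hR (h.not_le_of_pGroup hr.prime hr.pGroup)
    (H23.As.not_le_scalars (irr_iff.1 ha.1) (by have := h.three; omega))
    ((ng_normalizer R).mono hle)

theorem IsMaximalIn.eq_inf {Γ : Type*} [Group Γ] {S H M : Subgroup Γ} (h : IsMaximalIn S H)
    (h1 : H ≤ M) (h2 : ¬ S ≤ M) : H = M ⊓ S :=
  ((h.2 (M ⊓ S) (le_inf h1 h.1.le) inf_le_right).resolve_right
    fun e => h2 (e.ge.trans inf_le_left)).symm

end H23.As
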