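import Cfsg.Agent.H23.Fam

/-! Similarity groups of forms are maximal in `SL`; orthogonal groups in `Sp` in characteristic
two. -/

set_option autoImplicit false

namespace H23

open Module H22 Cfsg Cfsg.Geo Matrix

namespace Form

variable {F V : Type*} [Field F] {σ : F →+* F} [AddCommGroup V] [Module F V] (Φ : Form σ V)

/-- The similarity group of the sesquilinear form. -/
def Sim : Subgroup (V ≃ₗ[F] V) where
  carrier := {g | ∃ c : F, c ≠ 0 ∧ ∀ x y, Φ.B (g x) (g y) = c * Φ.B x y}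
  mul_mem' := by
    rintro a b ⟨c, hc, h1⟩ ⟨d, hd, h2⟩
    exact ⟨c * d, mul_ne_zero hc hd, fun x y => by simp [h1, h2, mul_assoc]⟩
  one_mem' := ⟨1, one_ne_zero, by simp⟩
  inv_mem' := by
    rintro a ⟨c, hc, h1⟩
    refine ⟨c⁻¹, inv_ne_zero hc, fun x y => ?_⟩
    have := h1 (a⁻¹ x) (a⁻¹ y)
    simp only [LinearEquiv.coe_inv, LinearEquiv.apply_symm_apply] at this ⊢
    simp [this, hc]

variable {Φ} {H : Subgroup (V ≃ₗ[F] V)}

theorem mem_Sim {g : V ≃ₗ[F] V} :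
    g ∈ Φ.Sim ↔ ∃ c : F, c ≠ 0 ∧ ∀ x y, Φ.B (g x) (g y) = c * Φ.B x y := Iff.rfl

theorem O_le_Sim : Φ.O ≤ Φ.Sim := fun _ hg => ⟨1, one_ne_zero, by simpa using hg.1⟩

variable [FiniteDimensional F V]

theorem exists_perp_eq_one' (hΦ : Φ.Nondeg) {S : Submodule F V} {x : V} (h : x ∉ S) :
    ∃ e, (∀ y ∈ S, Φ.B y e = 0) ∧ Φ.B x e = 1 := by
  obtain ⟨e, -, h1⟩ := exists_mem_perp_eq_one hΦ (D := ⊤) (S := S) (x := x)
    (by rwa [perp_top _ hΦ, bot_sup_eq])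
  exact ⟨e, h1⟩

theorem eq_top_of_sing_mem (hΦ : Φ.Nondeg) (hex : ∃ u, u ≠ 0 ∧ Sing Φ u) {U : Submodule F V}
    (h : ∀ x, Sing Φ x → x ∈ U) : U = ⊤ := by
  obtain ⟨u, h0, hu⟩ := hex
  obtain ⟨f, hf⟩ := exists_hyp hΦ hu h0
  exact eq_top_iff.2 (le_of_sing_mem hf trivial trivial fun x _ => h x)

theorem Iso3.exists_sing (h3 : Φ.Iso3) (hV : 3 ≤ finrank F V) : ∃ u, u ≠ 0 ∧ Sing Φ u :=
  let ⟨u, _, h⟩ := h3 ⊤ (by simpa); ⟨u, h⟩

theorem exists_map_E (hΦ : Φ.Nondeg) (h3 : Φ.Iso3) (hV : 7 ≤ finrank F V) {u w : V}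
    (hu : Sing Φ u) (hw : Sing Φ w) (h1 : u ≠ 0) (h2 : w ≠ 0) : ∃ k ∈ Φ.E, k u = w :=
  exists_map_ED hΦ h3 (by rw [perp_top _ hΦ, inf_bot_eq]; simpa) hu hw trivial trivial (by simpa [perp_top _ hΦ])
    (by simpa [perp_top _ hΦ])

theorem mem_TC_of_tv (hΦ : Φ.Nondeg) (h3 : Φ.Iso3) (hV : 9 ≤ finrank F V) (hE : Φ.E ≤ H) {u w : V}
    (hu : Sing Φ u) (hwu : w ∉ F ∙ u) (h : Φ.B w u = 0) (ht : tv (Φ.B w) u h ∈ H) : u ∈ TC H := by
  have key : ∀ {w x : V} (h : Φ.B w u = 0), tv (Φ.B w) u h ∈ H → Sing Φ x → Φ.B x u = 0 →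
      Φ.B x w = 0 → w ∉ (F ∙ u) ⊔ (F ∙ x) → ∀ (c : F) (h' : Φ.B (c • x) u = 0),
      tv (Φ.B (c • x)) u h' ∈ H := by
    intro w x h ht hx hxu hxw hw c h'
    obtain ⟨y, h1, h2⟩ := hΦ.exists_perp_eq_one hw
    have h4 := h1 u (Submodule.mem_sup_left (Submodule.mem_span_singleton_self u))
    have h5 := h1 x (Submodule.mem_sup_right (Submodule.mem_span_singleton_self x))
    obtain ⟨s, hs⟩ := exists_eichData hx (e := σ c • y) (by simp [Φ.B_eq_zero_symm h5])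
    obtain ⟨k, hk⟩ := exists_eich hΦ hs
    have hku : k u = u := by simp [hk, eichler_apply, B_smul_left, h4, hxu]
    have hkw : k w = w + c • x := by simp [hk, eichler_apply, B_smul_left, h2, hxw, Φ.invol]
    have h6 := tv_conj_mem ht (hE (mem_E hs hk)) (ψ := Φ.B (k w)) ((mem_O_of_eich hs hk).1 w)
      (by rw [(mem_O_of_eich hs hk).1, h])
    refine mem_of_eq_tv (mul_mem h6 (tv_neg_left_mem ht (by simp [h]))) h' fun v => ?_
    simp only [LinearEquiv.mul_apply, tv_apply, hku, hkw, map_add, LinearMap.add_apply,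
      LinearMap.neg_apply, map_smul, h, h', smul_eq_mul]
    module
  let U : Submodule F V :=
    { carrier := {w | Φ.B w u = 0 ∧ ∀ (c : F) (h' : Φ.B (c • w) u = 0), tv (Φ.B (c • w)) u h' ∈ H}
      add_mem' := fun {a b} ha hb => ⟨by simp [ha.1, hb.1], fun c h' => by
        simpa using tv_add_left_mem (ha.2 c (by simp [B_smul_left, ha.1]))
          (hb.2 c (by simp [B_smul_left, hb.1])) (by simpa using h')⟩
      zero_mem' := ⟨by simp, fun c h' => mem_of_eq_tv (one_mem _) h' (by simp)⟩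
      smul_mem' := fun c a ha => ⟨by simp [B_smul_left, ha.1], fun d h' => by
        simpa only [smul_smul] using ha.2 (d * c) (by simpa only [smul_smul] using h')⟩ }
  have hz : ∀ x, ∃ z, Sing Φ z ∧ Φ.B z u = 0 ∧ Φ.B x z = 0 ∧ z ∉ (F ∙ u) ⊔ (F ∙ x) ∧ z ∈ U := by
    intro x
    have e2 := finrank_span_triple_le (F := F) u w x
    obtain ⟨z, -, hz, h1, h2⟩ := h3.exists_perp hΦ (T := ⊤) (S := Submodule.span F {u, w, x})
      [u, w, x] (by simp; omega)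
    have h4 := Φ.B_eq_zero_symm (h2 u (by simp))
    refine ⟨z, hz, h4, h2 x (by simp), fun h => h1 ?_, h4, key h ht hz h4
      (Φ.B_eq_zero_symm (h2 w (by simp))) (notMem_sup_span_swap hwu fun h => h1 ?_)⟩ <;>
    exact (sup_le (Submodule.span_mono (by simp)) (Submodule.span_mono (by simp)) :
      _ ≤ Submodule.span F {u, w, x}) h
  have hU : Φ.perp (F ∙ u) ≤ U := by
    obtain ⟨z, hz1, hz2, -, hz3, -⟩ := hz 0
    have hz4 := Φ.mem_perp_span_singleton.2 (Φ.B_eq_zero_symm hz2)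
    obtain ⟨f, hf, hf'⟩ := exists_hyp_mem hΦ hz1 hz4 (by
      rw [hΦ.perp_perp]; exact fun h => hz3 (Submodule.mem_sup_left h))
    refine le_of_sing_mem hf' hz4 hf fun x hx hxs => ?_
    have hxu := Φ.B_eq_zero_symm (Φ.mem_perp_span_singleton.1 hx)
    obtain ⟨z, -, h1, h2, h4, h5⟩ := hz x
    exact ⟨hxu, key h1 (by simpa using h5.2 1 (by simpa using h1)) hxs hxu h2 h4⟩
  intro φ hφ
  obtain ⟨x, hx⟩ := hΦ.exists_repr φ
  obtain rfl : Φ.B x = φ := LinearMap.ext hx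
  simpa using (hU (Φ.mem_perp_span_singleton.2 (Φ.B_eq_zero_symm hφ))).2 1 (by simpa using hφ)

theorem mem_Sim_of_conj (hΦ : Φ.Nondeg) (h3 : Φ.Iso3) (hV : 7 ≤ finrank F V) {g : V ≃ₗ[F] V}
    (h : ∀ x y s, EichData Φ x y s → ∀ a b,
      Φ.B (g (Φ.eichler x y s a)) (g (Φ.eichler x y s b)) = Φ.B (g a) (g b)) : g ∈ Φ.Sim := by
  have h1 : ∀ x, Sing Φ x → ∃ c, ∀ v, Φ.B (g x) (g v) = c * Φ.B x v := by
    intro x hx
    have h2 : ∀ w, Φ.B x w = 0 → Φ.B (g x) (g w) = 0 := fun w hw => by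
      have e4 := finrank_span_le_card (R := F) ({x} : Set V)
      simp only [Set.toFinset_singleton, Finset.card_singleton] at e4
      obtain ⟨y, -, h4, h5⟩ := hΦ.exists_perp_notMem (T := ⊤) (S := F ∙ x) [x, w] (by simp; omega)
      obtain ⟨v, h6, h7⟩ := exists_perp_eq_one' hΦ h4
      obtain ⟨s, hs⟩ := exists_eichData hx (h5 x (by simp))
      have := h x y s hs v w
      simpa [eichler_apply, h6 x (Submodule.mem_span_singleton_self x), h7, hw,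
        Φ.B_eq_zero_symm (h5 w (by simp))] using this
    by_cases hx0 : x = 0
    · exact ⟨0, by simp [hx0]⟩
    obtain ⟨f, hf⟩ := hΦ.exists_ne hx0
    refine ⟨Φ.B (g x) (g f), fun v => ?_⟩
    have := h2 (v - Φ.B x v • f) (by simp [hf])
    simp only [map_sub, map_smul, smul_eq_mul] at this
    linear_combination this
  have h2 : ∀ x z c d, Sing Φ x → Sing Φ z → x ≠ 0 → z ∉ F ∙ x → Φ.B x z = 0 →
      (∀ v, Φ.B (g x) (g v) = c * Φ.B x v) → (∀ v, Φ.B (g z) (g v) = d * Φ.B z v) → c = d := by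
    intro x z c d hx hz hx0 hzx hxz hc hd
    obtain ⟨e, he⟩ := h1 (x + z) ⟨by simp [hx.1, hz.1, hxz, Φ.B_eq_zero_symm hxz],
      by simp [Φ.Q_add, hx.2, hz.2, hxz]⟩
    obtain ⟨v, h4, h5⟩ := exists_perp_eq_one' hΦ hzx
    obtain ⟨v', h6, h7⟩ := exists_perp_eq_one' hΦ (S := F ∙ z) (x := x)
      (by simpa using notMem_sup_span_swap (S := ⊥) hx0 (by simpa using hzx))
    have e1 := he v
    have e2 := he v'
    simp [hc, hd, h4 x (Submodule.mem_span_singleton_self x), h5, h7,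
      h6 z (Submodule.mem_span_singleton_self z)] at e1 e2
    rw [e1, e2]
  obtain ⟨u, hu0, hu⟩ := h3.exists_sing (by omega)
  obtain ⟨c, hc⟩ := h1 u hu
  let U : Submodule F V :=
    { carrier := {x | ∀ v, Φ.B (g x) (g v) = c * Φ.B x v}
      add_mem' := fun {a b} ha hb v => by simp [ha v, hb v, mul_add]
      zero_mem' := by simp
      smul_mem' := fun d a ha v => by simp only [map_smul, B_smul_left, ha v]; ring }
  have hU : U = ⊤ := eq_top_of_sing_mem hΦ ⟨u, hu0, hu⟩ fun x hx => by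
    by_cases hx0 : x = 0
    · simp [hx0]
    obtain ⟨d, hd⟩ := h1 x hx
    have e2 := finrank_span_pair_le (F := F) u x
    obtain ⟨z, -, hz, h4, h5⟩ := h3.exists_perp hΦ (T := ⊤) (S := Submodule.span F {u, x})
      [u, x] (by simp; omega)
    obtain ⟨e, he⟩ := h1 z hz
    have e1 := h2 u z c e hu hz hu0 (fun h => h4 (Submodule.span_mono (by simp) h))
      (h5 u (by simp)) hc he
    have e2 := h2 x z d e hx hz hx0 (fun h => h4 (Submodule.span_mono (by simp) h))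
      (h5 x (by simp)) hd he
    rw [e2, ← e1] at hd
    exact hd
  refine ⟨c, ?_, fun x => (hU.ge trivial : x ∈ U)⟩
  rintro rfl
  exact hu0 (g.injective (by
    rw [map_zero]; exact hΦ _ fun y => by simpa using hc (g.symm y)))

theorem SLv_le_of_E_le (hΦ : Φ.Nondeg) (h3 : Φ.Iso3) (hV : 9 ≤ finrank F V) (hE : Φ.E ≤ H)
    {g : V ≃ₗ[F] V} (hg : g ∈ H) (hg' : g ∉ Φ.Sim) : SLv F V ≤ H := by
  by_cases h : ∃ u, Sing Φ u ∧ u ≠ 0 ∧ ∃ w, ∃ h : Φ.B w u = 0, tv (Φ.B w) u h ∈ H ∧ w ∉ F ∙ u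
  · obtain ⟨u, hu, hu0, w, h, ht, hw⟩ := h
    refine SLv_le_of_TC (eq_top_of_sing_mem hΦ ⟨u, hu0, hu⟩ fun x hx => ?_)
    by_cases hx0 : x = 0
    · simp [hx0]
    obtain ⟨k, hk, rfl⟩ := exists_map_E hΦ h3 (by omega) hu hx hu0 hx0
    exact apply_mem_TC (mem_TC_of_tv hΦ h3 hV hE hu hw h ht) (hE hk)
  push Not at h
  refine absurd (mem_Sim_of_conj hΦ h3 (by omega) fun x y s hs a b => ?_) hg'
  obtain ⟨k, hk⟩ := exists_eich hΦ hs
  obtain ⟨x', hx'⟩ := hΦ.exists_repr (Φ.B x ∘ₗ g.symm.toLinearMap)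
  obtain ⟨y', hy'⟩ := hΦ.exists_repr (Φ.B y ∘ₗ g.symm.toLinearMap)
  obtain ⟨u, -, hu, hu0, h1⟩ := h3.exists_perp hΦ (T := ⊤) (S := ⊥)
    [x', y', g x, g y, g a, g b] (by simp; omega)
  simp only [List.mem_cons, List.not_mem_nil, or_false, forall_eq_or_imp, forall_eq, hx', hy',
    LinearMap.comp_apply, LinearEquiv.coe_coe] at h1
  obtain ⟨h1, h2, h4, h5, h6, h7⟩ := h1
  obtain ⟨T, hTH, hT⟩ : ∃ T ∈ H, ∀ v, T (g v) = g (k v) :=
    ⟨g * k * g⁻¹, mul_mem (mul_mem hg (hE (mem_E hs hk))) (inv_mem hg), fun v => by simp⟩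
  have hTu : T u = u := by
    obtain ⟨u, rfl⟩ := g.surjective u
    simp only [LinearEquiv.symm_apply_apply] at h1 h2
    simp [hT, hk, eichler_apply, h1, h2]
  have hTB : ∀ v, Φ.B u (T v) = Φ.B u v := fun v => by
    obtain ⟨v, rfl⟩ := g.surjective v
    simp [hT, hk, eichler_apply, Φ.B_eq_zero_symm h4, Φ.B_eq_zero_symm h5]
  rw [← hk, ← hk, ← hT, ← hT]
  generalize g a = a at *
  generalize g b = b at *
  obtain ⟨s1, hs1⟩ := exists_eichData hu (Φ.B_eq_zero_symm h6)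
  obtain ⟨s2, hs2⟩ := exists_eichData hu (e := -T a) (by simp [hTB, Φ.B_eq_zero_symm h6])
  obtain ⟨k1, hk1⟩ := exists_eich hΦ hs1
  obtain ⟨k2, hk2⟩ := exists_eich hΦ hs2
  obtain ⟨w, hw⟩ := hΦ.exists_repr (Φ.B a ∘ₗ T.symm.toLinearMap - Φ.B (T a) +
    (σ Φ.ε * Φ.B (T a) (T a) - σ s1 - σ s2) • Φ.B u)
  have hTa : Φ.B (T a) u = 0 := Φ.B_eq_zero_symm (by rw [hTB, Φ.B_eq_zero_symm h6])
  have hwu : Φ.B w u = 0 := by
    have : T.symm u = u := T.symm_apply_eq.2 hTu.symm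
    simp [hw, this, h6, hTa, hu.1]
  obtain ⟨c, rfl⟩ := Submodule.mem_span_singleton.1 (h u hu (by simpa using hu0) w hwu
    (mem_of_eq_tv (mul_mem (hE (mem_E hs2 hk2)) (mul_mem (mul_mem hTH (hE (mem_E hs1 hk1)))
      (inv_mem hTH))) hwu fun v => by
      obtain ⟨v, rfl⟩ := T.surjective v
      simp only [LinearEquiv.mul_apply, LinearEquiv.coe_inv, LinearEquiv.symm_apply_apply, hk1, hk2,
        eichler_apply, map_add, map_smul, hTu, hw, hTB, map_neg, LinearMap.neg_apply, hTa, hu.1,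
        Φ.B_eq_zero_symm h6, LinearMap.add_apply, LinearMap.sub_apply, LinearMap.comp_apply,
        LinearEquiv.coe_coe, LinearMap.smul_apply, smul_eq_mul]
      module))
  have := hw (T b)
  simp [B_smul_left, hTB, Φ.B_eq_zero_symm h7, sub_eq_zero] at this
  exact (sub_eq_zero.1 this.symm).symm

theorem isMaximalIn_Sim (hΦ : Φ.Nondeg) (h3 : Φ.Iso3) (hV : 9 ≤ finrank F V) :
    IsMaximalIn (SLv F V) (Φ.Sim ⊓ SLv F V) := by
  refine isMaximalIn_of inf_le_right ?_ fun H hMH hHE g hg hgM =>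
    SLv_le_of_E_le hΦ h3 hV ((le_inf (E_le_O.trans O_le_Sim) (E_le_SLv hΦ)).trans hMH) hg
      fun h => hgM ⟨h, hHE hg⟩
  obtain ⟨u, hu0, -⟩ := h3.exists_sing (by omega)
  obtain ⟨f, hf⟩ := hΦ.exists_ne hu0
  have e2 := finrank_span_pair_le (F := F) u f
  obtain ⟨a, -, h1, h2⟩ := hΦ.exists_perp_notMem (T := ⊤) (S := Submodule.span F {u, f}) [f]
    (by simp; omega)
  obtain ⟨φ, h4, h5⟩ := exists_dual_eq_one h1
  have h6 := h4 u (Submodule.subset_span (by simp))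
  refine ⟨tv φ u h6, tv_mem_SLv h6, ?_⟩
  rintro ⟨⟨c, -, hc⟩, -⟩
  have := hc a f
  simp [h5, h4 f (Submodule.subset_span (by simp)), hf, Φ.B_eq_zero_symm (h2 f (by simp))] at this

theorem isMaximalIn_O_Sp [Finite F] {Φ Ψ : Form (RingHom.id F) V} (hΦ : Φ.Nondeg) (hκ : Φ.κ = 1)
    (hε' : Ψ.ε = -1) (hκ' : Ψ.κ = 0) (hB : Ψ.B = Φ.B) (h2 : (2 : F) = 0)
    (hV : 7 ≤ finrank F V) : IsMaximalIn Ψ.E Φ.O := by
  have hΨ : Ψ.Nondeg := fun x hx => hΦ x (hB ▸ hx)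
  have h3 := iso3_quad hκ
  have hO : Φ.O ≤ Ψ.O := fun g hg => ⟨hB ▸ hg.1, by simp [Q_of_κ hκ']⟩
  have hei : ∀ u e s v, Ψ.eichler u e s v = Φ.eichler u e s v := fun u e s v => by
    have : Ψ.ε = Φ.ε := by rw [hε', eps_quad hκ]; linear_combination -h2
    simp only [eichler_apply, hB, this]
  have hd : ∀ u e s, Φ.B u e = 0 → EichData Ψ u e s := fun u e s h =>
    ⟨sing_alt hε' hκ' u, hB ▸ h, by simp [(sing_alt hε' hκ' e).1, hε'], by simp [hκ', Q_of_κ hκ']⟩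
  refine isMaximalIn_of (E_alt hΨ hε' hκ' ▸ hO) ?_ fun H hMH hHE g hg hgM => ?_
  · obtain ⟨u, hu0, hu⟩ := h3.exists_sing (by omega)
    obtain ⟨f, hf⟩ := exists_hyp hΦ hu hu0
    obtain ⟨g, hg⟩ := exists_eich hΨ (hd u 0 1 (by simp))
    refine ⟨g, mem_E (hd u 0 1 (by simp)) hg, fun h => ?_⟩
    have := h.2 f
    simp [hg, eichler_apply, hB, hf.one, ← sub_eq_add_neg, Φ.Q_sub, hu.2, hf.B_symm, hκ,
      Φ.eps_ne_zero] at this
  have hE := E_le_O.trans hMH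
  have hA : ∀ u e, Sing Φ u → Φ.B u e = 0 → Ψ.EIn H u e (Φ.Q e) := fun u e hu he => by
    obtain ⟨k, hk, h1⟩ := eIn_ED hΦ Submodule.mem_top Submodule.mem_top (eichData_quad hκ hu.2 he)
    exact ⟨k, hE hk, fun v => by rw [hei, h1]⟩
  by_cases h : ∃ u, Sing Φ u ∧ u ≠ 0 ∧ ∃ c, c ≠ 0 ∧ Ψ.EIn H u 0 c
  · obtain ⟨u, hu, hu0, c, hc, h⟩ := h
    have h0 : Ψ.AIn H u 0 := ⟨by simp, fun s _ => by
      by_cases hs : s = 0
      · exact hs ▸ eIn_zero H u
      obtain ⟨a, ha⟩ := isSquare_of_two_eq_zero h2 (s / c)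
      have ha0 : a ≠ 0 := by rintro rfl; simp [hs, hc] at ha
      obtain ⟨k, hk, h1⟩ := exists_map_E hΦ h3 hV hu (hu.smul a) hu0 (smul_ne_zero ha0 hu0)
      have := h.conj (hE hk) (hO (E_le_O hk))
      rw [h1, map_zero, eIn_smul_left, smul_zero, RingHom.id_apply, ← ha, div_mul_cancel₀ _ hc] at this
      exact this⟩
    have hQ : Ψ.QIn H u := qIn_iff.2 fun e he => h0.of_eIn (hd u e _ (hB ▸ he)) (hA u e hu (hB ▸ he))
    obtain ⟨f, hf⟩ := exists_hyp hΦ hu hu0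
    obtain ⟨k, hk, h1⟩ := exists_map_E hΦ h3 hV hu hf.right hu0 hf.right_ne
    exact E_le_of_qIn_of_mem hΨ (sing_alt hε' hκ' u) hQ (hE hk) (hO (E_le_O hk))
      (by simp [h1, hB, hf.one])
  push Not at h
  have hgO := E_le_O (hHE hg)
  have hgB : ∀ x y, Φ.B (g x) (g y) = Φ.B x y := hB ▸ hgO.1
  have key : ∀ x y s, EichData Φ x y s → ∀ a, Φ.Q (g (Φ.eichler x y s a)) = Φ.Q (g a) := by
    intro x y s hs a
    obtain ⟨k, hk⟩ := exists_eich hΦ hs
    obtain ⟨u, -, hu, hu0, h1⟩ := h3.exists_perp hΦ (T := ⊤) (S := ⊥) [g x, g y, g a]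
      (by simp; omega)
    simp only [List.mem_cons, List.not_mem_nil, or_false, forall_eq_or_imp, forall_eq] at h1
    obtain ⟨h1, h4, h5⟩ := h1
    have hT : g * k * g⁻¹ ∈ H := mul_mem (mul_mem hg (hE (mem_E hs hk))) (inv_mem hg)
    have h6 := (hA u (g a) hu (Φ.B_eq_zero_symm h5)).conj hT (E_le_O (hHE hT))
    have hTu : (g * k * g⁻¹) u = u := by
      obtain ⟨u, rfl⟩ := g.surjective u
      rw [hgB] at h1 h4
      simp [hk, eichler_apply, h1, h4]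
    have h7 : Φ.B u (g (k a)) = 0 := by
      simp [hk, eichler_apply, Φ.B_eq_zero_symm h1, Φ.B_eq_zero_symm h4, Φ.B_eq_zero_symm h5]
    rw [hTu, show (g * k * g⁻¹) (g a) = g (k a) by simp] at h6
    have h8 := h6.add ((hA u _ hu h7).neg (hB ▸ hu.1) (hB ▸ h7)) (hB ▸ hu.1) (hB ▸ h7)
      (by simp [hB, h7])
    by_contra hne
    refine h u hu (by simpa using hu0) (Φ.Q (g a) - Φ.Q (g (k a))) (sub_ne_zero.2 (hk a ▸ Ne.symm hne))
      ?_
    convert h8 using 1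
    · simp
    · simp; ring
  let U : Submodule F V :=
    { carrier := {x | Φ.Q (g x) = Φ.Q x}
      add_mem' := fun {a b} (ha : Φ.Q _ = _) (hb : Φ.Q _ = _) => by simp [Φ.Q_add, ha, hb, hgB]
      zero_mem' := by simp
      smul_mem' := fun d a (ha : Φ.Q _ = _) => by simp [Φ.Q_smul, ha] }
  have hU : U = ⊤ := eq_top_of_sing_mem hΦ (h3.exists_sing (by omega)) fun x hx => by
    have e4 := finrank_span_le_card (R := F) ({x} : Set V)
    simp only [Set.toFinset_singleton, Finset.card_singleton] at e4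
    obtain ⟨y, -, h4, h5⟩ := hΦ.exists_perp_notMem (T := ⊤) (S := F ∙ x) [x] (by simp; omega)
    obtain ⟨v, h6, h7⟩ := exists_perp_eq_one' hΦ h4
    obtain ⟨s, hs⟩ := exists_eichData hx (h5 x (by simp))
    have h8 := h6 x (Submodule.mem_span_singleton_self x)
    have := key x y s hs v
    change Φ.Q (g x) = Φ.Q x
    simpa [eichler_apply, h8, h7, Φ.Q_add, hgB, Φ.B_eq_zero_symm h8, hx.2] using this
  exact absurd ⟨hgB, fun x => (hU.ge trivial : x ∈ U)⟩ hgM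

end Form

open Form

variable {ι : Type} [Fintype ι] [DecidableEq ι] {F : Type*} [Field F]

theorem mem_similarityGroup_iff {σ : F →+* F} {Φ : Form σ (ι → F)} {f : (ι → F) → (ι → F) → F}
    (h : (∀ u v, f u v = Φ.B u v) ∨ ∀ u v, f u v = Φ.B v u) {g : GL ι F} :
    g ∈ similarityGroup f ↔ glE ι F g ∈ Φ.Sim := by
  constructor
  · rintro ⟨c, hc⟩
    rcases h with h | h
    · exact ⟨c, c.ne_zero, fun x y => by simpa [h] using hc x y⟩
    · exact ⟨c, c.ne_zero, fun x y => by simpa [h] using hc y x⟩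
  · rintro ⟨c, hc0, hc⟩
    rcases h with h | h
    · exact ⟨Units.mk0 c hc0, fun x y => by simpa [h] using hc x y⟩
    · exact ⟨Units.mk0 c hc0, fun x y => by simpa [h] using hc y x⟩

omit [Fintype ι] [DecidableEq ι] in
theorem exists_form_of_isSymplecticForm {f : (ι → F) → (ι → F) → F} (hf : IsSymplecticForm f) :
    ∃ Φ : Form (RingHom.id F) (ι → F), Φ.Nondeg ∧ Φ.ε = -1 ∧ Φ.κ = 0 ∧ ∀ u v, f u v = Φ.B u v := by
  refine ⟨ofAlt (LinearMap.mk₂ F f hf.bilinear.add_left hf.bilinear.smul_left hf.bilinear.add_right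
    hf.bilinear.smul_right) hf.alternating, fun x hx => ?_, rfl, rfl, fun _ _ => rfl⟩
  by_contra h0
  obtain ⟨y, hy⟩ := (hf.nondegenerate x h0).2
  exact hy (hx y)

omit [Fintype ι] [DecidableEq ι] in
theorem exists_form_of_isUnitaryForm {σ : F ≃+* F} {f : (ι → F) → (ι → F) → F}
    (hf : IsUnitaryForm σ f) : (σ : F →+* F) ≠ RingHom.id F ∧
    ∃ Φ : Form (σ : F →+* F) (ι → F), Φ.Nondeg ∧ Φ.ε = 1 ∧ ∀ u v, f u v = Φ.B v u := by
  have hσ : (σ : F →+* F) ≠ RingHom.id F := fun h => hf.ne_refl (RingEquiv.ext fun a =>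
    RingHom.congr_fun h a)
  refine ⟨hσ, ofHerm hσ hf.involutive (LinearMap.mk₂'ₛₗ (σ : F →+* F) (RingHom.id F)
    (fun u v => f v u) (fun u u' v => by rw [hf.herm, hf.add_left, map_add, ← hf.herm, ← hf.herm])
    (fun c u v => by rw [hf.herm, hf.smul_left, map_mul, ← hf.herm]; rfl)
    (fun u v v' => hf.add_left _ _ _) (fun c u v => hf.smul_left _ _ _))
    ⟨fun u v => (hf.herm _ _).symm⟩, fun x hx => ?_, rfl, fun _ _ => rfl⟩
  by_contra h0
  obtain ⟨y, hy⟩ := (hf.nondegenerate x h0).1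
  exact hy (hx y)

theorem mem_quadSimilarityGroup_iff (h2 : (2 : F) ≠ 0) {Q : QuadraticForm F (ι → F)} {g : GL ι F} :
    g ∈ quadSimilarityGroup Q ↔ glE ι F g ∈ (ofQuad Q).Sim := by
  constructor
  · rintro ⟨c, hc⟩
    refine ⟨c, c.ne_zero, fun x y => ?_⟩
    simp only [ofQuad_B, QuadraticMap.polar, glE_apply, ← Matrix.mulVec_add, hc]
    ring
  · rintro ⟨c, hc0, hc⟩
    refine ⟨Units.mk0 c hc0, fun x => mul_left_cancel₀ h2 ?_⟩
    have := hc x x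
    simp only [B_self_quad (ofQuad_κ Q), ofQuad_Q, glE_apply] at this
    simp only [Units.val_mk0]
    linear_combination this

end H23
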