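import Cfsg.Agent.H23.As10
import Cfsg.Agent.H23.C8

/-!
Aschbacher's theorem, part 11: the classical groups satisfy the axioms `Amb`.
-/

set_option autoImplicit false

namespace H23.As

open Matrix Module Cfsg Cfsg.Geo H22 H23.Form
open scoped MatrixGroups commutatorElement Kronecker

variable {ι : Type} [Fintype ι] [DecidableEq ι] {F : Type*} [Field F]

theorem perf_of_hom {Γ' Γ : Type*} [Group Γ'] [Group Γ] (ρ : Γ' →* Γ) {S : Subgroup Γ}
    (hS : ρ.range = S) (h : commutator Γ' = ⊤) : ⁅S, S⁆ = S := by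
  rw [← hS, MonoidHom.range_eq_map, ← Subgroup.map_commutator, ← commutator_def, h]

theorem qs_of_hom {Γ' Γ : Type*} [Group Γ'] [Group Γ] (ρ : Γ' →* Γ) {S : Subgroup Γ}
    (hS : ρ.range = S) (h : ∀ N : Subgroup Γ', N.Normal → N ≤ Subgroup.center Γ' ∨ N = ⊤) :
    ∀ N ≤ S, NG S N → (∀ x ∈ N, ∀ y ∈ S, x * y = y * x) ∨ N = S := by
  subst hS
  intro N hN hn
  refine (h (N.comap ρ) ⟨fun a ha g => by simpa using hn _ ⟨g, rfl⟩ _ ha⟩).imp (fun h x hx => ?_)
    fun h => le_antisymm hN ?_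
  · obtain ⟨a, rfl⟩ := hN hx
    rintro _ ⟨b, rfl⟩
    rw [← map_mul, ← map_mul, Subgroup.mem_center_iff.1 (h hx) b]
  · rintro _ ⟨a, rfl⟩
    exact (h ▸ Subgroup.mem_top a : a ∈ N.comap ρ)

theorem unip_of {g : GL ι F} (h : ∀ x, ((g : Matrix ι ι F) - 1) *ᵥ (((g : Matrix ι ι F) - 1) *ᵥ
    (((g : Matrix ι ι F) - 1) *ᵥ x)) = 0) : Unip g :=
  ext_mulVec fun x => by simpa [pow_succ, ← mulVec_mulVec] using h x

theorem exists_tv_SL {φ : Dual F (ι → F)} {u : ι → F} (h : φ u = 0) : ∃ g ∈ specialLinear ι F,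
    Unip g ∧ ∀ x, ((g : Matrix ι ι F) - 1) *ᵥ x = φ x • u := by
  have e : ∀ x, ((((glE ι F).symm (tv φ u h) : GL ι F) : Matrix ι ι F) - 1) *ᵥ x = φ x • u :=
    fun x => by simp [sub_mulVec, tv_apply]
  exact ⟨(glE ι F).symm (tv φ u h), mem_specialLinear_iff.2 (by simpa using tv_mem_SLv h),
    unip_of fun x => by simp [e, mulVec_smul, h], e⟩

theorem mulVec_eq_of_sub {g : Matrix ι ι F} {x y : ι → F} (h : (g - 1) *ᵥ x = y) :
    g *ᵥ x = x + y := by
  rw [← h, sub_mulVec, one_mulVec, add_sub_cancel]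

theorem amb_SL (hn : 3 ≤ Fintype.card ι) : Amb (specialLinear ι F) Set.univ where
  three := hn
  perf := perf_of_hom _ range_toGL (commutator_SL_eq_top hn)
  qs := qs_of_hom _ range_toGL fun N _ => SL_normal_le_center_or_eq_top (commutator_SL_eq_top hn) N
  span W h := eq_top_iff.2 fun u _ => h u trivial
  mem u _ W h0 h := by
    obtain ⟨w, hw, hw0⟩ := (Submodule.ne_bot_iff W).1 h0
    by_cases hwu : w ∈ F ∙ u
    · obtain ⟨c, rfl⟩ := Submodule.mem_span_singleton.1 hwu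
      exact (W.smul_mem_iff (left_ne_zero_of_smul hw0)).1 hw
    obtain ⟨φ, h1, h2⟩ := exists_dual_pair hwu
    obtain ⟨g, hg, -, e⟩ := exists_tv_SL h1
    have := h g hg (by simpa [h1] using mulVec_eq_of_sub (e u)) w hw
    rw [mulVec_eq_of_sub (e w), h2, one_smul] at this
    exact (W.add_mem_iff_right hw).1 this
  big W h := by
    obtain ⟨w, hw, hw0⟩ := (Submodule.ne_bot_iff W).1 (by rintro rfl; simp at h; omega)
    exact ⟨w, trivial, hw, hw0⟩
  root := by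
    obtain ⟨i, j, k, hij, hik, hjk⟩ := Fintype.two_lt_card_iff.1 hn
    have h0 : ∀ k : ι, (LinearMap.proj k : (ι → F) →ₗ[F] F) ≠ 0 := fun k h => by
      simpa using LinearMap.congr_fun h (Pi.single k 1)
    refine ⟨Pi.single i 1, Pi.single j 1, LinearMap.proj k, fun h => by simpa using congrFun h i,
      fun h => ?_, h0 k, fun c => ?_, ?_⟩
    · obtain ⟨c, hc⟩ := Submodule.mem_span_singleton.1 h
      simpa [hij.symm] using congrFun hc j
    · obtain ⟨g, hg, hu, e⟩ := exists_tv_SL (φ := c • LinearMap.proj k) (u := Pi.single j (1 : F))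
        (by simp [hjk.symm])
      exact ⟨g, hg, hu, fun x => by simp [mulVec_eq_of_sub (e x)]⟩
    · obtain ⟨g, hg, hu, e⟩ := exists_tv_SL (φ := LinearMap.proj j) (u := Pi.single i (1 : F))
        (by simp [hij.symm])
      obtain ⟨g', hg', hu', e'⟩ := exists_tv_SL (φ := LinearMap.proj k) (u := Pi.single j (1 : F))
        (by simp [hjk.symm])
      exact ⟨g, hg, g', hg', hu, hu', LinearMap.proj k, h0 k, fun x => by simp [e, e']⟩

section Form

variable {σ : F →+* F} {Φ : Form σ (ι → F)} {S : Subgroup (GL ι F)}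

theorem exists_eich_GL (hΦ : Φ.Nondeg) (hE : ∀ g, glE ι F g ∈ Φ.E → g ∈ S) {u e : ι → F}
    (hu : Sing Φ u) (he : Φ.B u e = 0) : ∃ g ∈ S, Unip g ∧ ∃ s, ∀ x, ((g : Matrix ι ι F) - 1) *ᵥ x =
      (Φ.B e x - s * Φ.B u x) • u + (-(σ Φ.ε * Φ.B u x)) • e := by
  obtain ⟨s, hs⟩ := exists_eichData hu he
  obtain ⟨g, hg⟩ := exists_eich hΦ hs
  have e1 : ∀ x, ((((glE ι F).symm g : GL ι F) : Matrix ι ι F) - 1) *ᵥ x =
      (Φ.B e x - σ s * Φ.B u x) • u + (-(σ Φ.ε * Φ.B u x)) • e := fun x => by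
    rw [sub_mulVec, glE_symm_mulVec, hg, eichler_apply, one_mulVec]; abel
  refine ⟨(glE ι F).symm g, hE _ (by simpa using mem_E hs hg), unip_of fun x => ?_, σ s, e1⟩
  simp [e1, he, hu.1, Φ.B_eq_zero_symm he]

theorem amb_of_form (hΦ : Φ.Nondeg) (hn : 3 ≤ Fintype.card ι) (hE : ∀ g, glE ι F g ∈ Φ.E → g ∈ S)
    (hp : ⁅S, S⁆ = S) (hq : ∀ N ≤ S, NG S N → (∀ x ∈ N, ∀ y ∈ S, x * y = y * x) ∨ N = S)
    (hb : ∀ W : Submodule F (ι → F), Fintype.card ι ≤ 2 * finrank F W →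
      ∃ u ∈ W, u ≠ 0 ∧ Sing Φ u) : Amb S {u | Sing Φ u} where
  three := hn
  perf := hp
  qs := hq
  span W h := by
    obtain ⟨u, -, h1⟩ := hb ⊤ (by simp; omega)
    exact eq_top_of_sing_mem hΦ ⟨u, h1⟩ h
  mem u hu W h0 h := by
    have key : ∀ w ∈ W, w ∉ F ∙ u → Φ.B u w = 0 → u ∈ W := fun w hw hwu hB => by
      obtain ⟨e, h1, h2⟩ := hΦ.exists_perp_eq_one hwu
      have h3 := h1 u (Submodule.mem_span_singleton_self u)
      obtain ⟨g, hg, -, s, e1⟩ := exists_eich_GL hΦ hE hu (Φ.B_eq_zero_symm h3)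
      have := h g hg (by simpa [h3, hu.1] using mulVec_eq_of_sub (e1 u)) w hw
      rw [mulVec_eq_of_sub (e1 w)] at this
      simpa [hB, h2] using (W.add_mem_iff_right hw).1 this
    obtain ⟨w, hw, hw0⟩ := (Submodule.ne_bot_iff W).1 h0
    by_cases hwu : w ∈ F ∙ u
    · obtain ⟨c, rfl⟩ := Submodule.mem_span_singleton.1 hwu
      exact (W.smul_mem_iff (left_ne_zero_of_smul hw0)).1 hw
    by_cases hB : Φ.B u w = 0
    · exact key w hw hwu hB
    obtain ⟨e, -, h1, h2⟩ := hΦ.exists_perp_notMem (T := ⊤) (S := F ∙ u) [u] (by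
      have := finrank_span_le_card (R := F) ({u} : Set (ι → F)); simp at this ⊢; omega)
    have h3 := h2 u (by simp)
    obtain ⟨g, hg, -, s, e1⟩ := exists_eich_GL hΦ hE hu h3
    have := h g hg (by simpa [Φ.B_eq_zero_symm h3, hu.1] using mulVec_eq_of_sub (e1 u)) w hw
    rw [mulVec_eq_of_sub (e1 w)] at this
    refine key _ ((W.add_mem_iff_right hw).1 this) (fun hm => h1 ?_) (by simp [hu.1, h3])
    rw [Submodule.add_mem_iff_right _ (Submodule.smul_mem _ _ (Submodule.mem_span_singleton_self u)),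
      Submodule.smul_mem_iff _ (neg_ne_zero.2 (mul_ne_zero σε_ne hB))] at hm
    exact hm
  big W h := by
    obtain ⟨u, h1, h2, h3⟩ := hb W h
    exact ⟨u, h3, h1, h2⟩
  root := by
    obtain ⟨u, -, h0, hu⟩ := hb ⊤ (by simp; omega)
    obtain ⟨y, -, h1, h2⟩ := hΦ.exists_perp_notMem (T := ⊤) (S := F ∙ u) [u] (by
      have := finrank_span_le_card (R := F) ({u} : Set (ι → F)); simp at this ⊢; omega)
    have h3 := h2 u (by simp)
    have ha : (-σ Φ.ε) • Φ.B u ≠ 0 := smul_ne_zero (neg_ne_zero.2 σε_ne) fun h =>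
      h0 (hΦ u fun y => by rw [h]; rfl)
    refine ⟨u, y, (-σ Φ.ε) • Φ.B u, h0, h1, ha, fun c => ?_, ?_⟩
    · obtain ⟨g, hg, hU, s, e1⟩ := exists_eich_GL hΦ hE hu (e := c • y) (by simp [h3])
      refine ⟨g, hg, hU, fun x => Submodule.mem_span_singleton.2
        ⟨Φ.B (c • y) x - s * Φ.B u x, ?_⟩⟩
      rw [mulVec_eq_of_sub (e1 x)]
      simp only [LinearMap.smul_apply, smul_eq_mul]
      module
    · obtain ⟨e, h4, h5⟩ := hΦ.exists_perp_eq_one h1
      have h6 := h4 u (Submodule.mem_span_singleton_self u)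
      obtain ⟨g, hg, hU, s, e1⟩ := exists_eich_GL hΦ hE hu (Φ.B_eq_zero_symm h6)
      obtain ⟨g', hg', hU', s', e2⟩ := exists_eich_GL hΦ hE hu h3
      exact ⟨g, hg, g', hg', hU, hU', _, ha, fun x => by simp [e1, e2, h3, h5, h6, hu.1]⟩

end Form

theorem amb_Sp [Fintype F] {m : ℕ} (hm : 2 ≤ m) (hex : ¬ (m = 2 ∧ Fintype.card F = 2)) :
    Amb (spGL m F) {u | Sing (H23.spForm m F) u} := by
  haveI : Nonempty (Fin m) := ⟨⟨0, by omega⟩⟩
  have hr : ((glE _ F).symm.toMonoidHom.comp (H23.spForm m F).O.subtype).range = spGL m F := by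
    ext g
    rw [mem_spGL_iff]
    exact ⟨by rintro ⟨a, rfl⟩; simp, fun h => ⟨⟨_, h⟩, by simp⟩⟩
  have hp : commutator (H23.spForm m F).O = ⊤ := commutator_eq_top_congr (spE m F)
    (commutator_Sp_eq_top m (by have := Fintype.one_lt_card (α := F); omega))
  refine amb_of_form (H23.spForm_nondeg m) (by simp; omega) (fun g => mem_spGL_iff_E.2)
    (perf_of_hom _ hr hp)
    (qs_of_hom _ hr (normal_le_center_or_eq_top_alt (H23.spForm_nondeg m) rfl rfl hp))
    fun W h => ?_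
  obtain ⟨w, hw, hw0⟩ := (Submodule.ne_bot_iff W).1 (by rintro rfl; simp at h; omega)
  exact ⟨w, hw, hw0, sing_alt rfl rfl w⟩

theorem amb_SU [Fintype F] {q n : ℕ} (hF : Fintype.card F = q ^ 2) (hn : 3 ≤ n)
    (hex : ¬ (n = 3 ∧ q = 2)) :
    Amb (GU n F q ⊓ specialLinear (Fin n) F) {u | Sing (huForm hF n) u} := by
  have hr : ((SpecialLinearGroup.toGL).comp (SU n F q).subtype).range =
      GU n F q ⊓ specialLinear (Fin n) F := by
    ext g
    refine ⟨?_, fun ⟨h1, h2⟩ => ?_⟩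
    · rintro ⟨a, rfl⟩
      exact ⟨a.2, range_toGL.le ⟨_, rfl⟩⟩
    · obtain ⟨a, rfl⟩ := range_toGL.ge h2
      exact ⟨⟨a, h1⟩, rfl⟩
  refine amb_of_form (huForm_nondeg hF n) (by simpa) (fun g hg => ⟨(mem_GU_iff hF).2 (E_le_O hg),
    mem_specialLinear_iff.2 (E_le_SLv (huForm_nondeg hF n) hg)⟩)
    (perf_of_hom _ hr (commutator_SU_eq_top hF n hn hex))
    (qs_of_hom _ hr (SU_normal_le_center_or_eq_top hF n hn hex)) fun W h =>
    exists_sing_of_herm (conj_ne_id hF) rfl (by simp at h; omega)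

theorem amb_omega [Finite F] {Q : QuadraticForm F (ι → F)} (hQ : (ofQuad Q).Nondeg)
    (hn : 5 ≤ Fintype.card ι) : Amb (omegaGL Q) {u | Sing (ofQuad Q) u} := by
  have hn' : 5 ≤ finrank F (ι → F) := by simpa
  have hr : ((glE _ F).symm.toMonoidHom.comp ((ofQuad Q).O.subtype.comp
      (commutator (ofQuad Q).O).subtype)).range = omegaGL Q := by
    ext g
    rw [mem_omegaGL_iff_E hQ hn]
    refine ⟨?_, fun h => ⟨⟨⟨_, E_le_O h⟩, (mem_E_quad hQ rfl hn').1 h⟩, by simp⟩⟩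
    rintro ⟨a, rfl⟩
    simpa using (mem_E_quad hQ rfl hn').2 a.2
  exact amb_of_form hQ (by omega) (fun g => (mem_omegaGL_iff_E hQ hn).2)
    (perf_of_hom _ hr (omega_perfect hQ rfl hn'))
    (qs_of_hom _ hr (omega_normal_le_center_or_eq_top hQ rfl hn')) fun W h =>
    iso3_quad rfl W (by omega)

theorem ng_SL (R : Subgroup (GL ι F)) : NG R (specialLinear ι F) := fun g _ x hx =>
  (MonoidHom.normal_ker _).conj_mem x hx g

theorem SL_not_le_sim (hn : 3 ≤ Fintype.card ι) {σ : F →+* F} {B : Matrix ι ι F} (hB : IsUnit B) :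
    ¬ specialLinear ι F ≤ similarityGroup (formOfGram σ B) := fun hle => by
  obtain ⟨u, -, -, hu⟩ := (amb_SL (F := F) hn).big ⊤ (by simp; omega)
  let φ : Dual F (ι → F) :=
    { toFun := fun x => formOfGram σ B x u
      map_add' := fun x y => fog_add_left B x y u
      map_smul' := fun c x => fog_smul_left B c x u }
  have hφ : ∀ x, φ x = formOfGram σ B x u := fun _ => rfl
  obtain ⟨v, hv, hvu⟩ : ∃ v ∈ LinearMap.ker φ, v ∉ F ∙ u := by
    by_contra hh; push Not at hh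
    have h1 := Submodule.finrank_mono (show LinearMap.ker φ ≤ F ∙ u from hh)
    have h2 := φ.finrank_range_add_finrank_ker
    have h3 := (LinearMap.range φ).finrank_le
    rw [finrank_span_singleton hu] at h1
    simp at h2 h3; omega
  obtain ⟨w, hw⟩ := exists_fog_left (σ := σ) hB hu
  -- a transvection fixing `u` and moving `v` out of the kernel
  obtain ⟨w, ψ, hw, h1, h2, h3⟩ : ∃ (w : ι → F) (ψ : Dual F (ι → F)), φ w ≠ 0 ∧ ψ u = 0 ∧
      ψ w = 0 ∧ ψ v = 1 := by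
    by_cases h0 : φ u = 0
    · obtain ⟨ψ, h1, h2⟩ := exists_dual_eq_one (W := (F ∙ u) ⊔ F ∙ w) (x := v) fun hm => by
        obtain ⟨_, ha, _, hb, rfl⟩ := Submodule.mem_sup.1 hm
        obtain ⟨a, rfl⟩ := Submodule.mem_span_singleton.1 ha
        obtain ⟨b, rfl⟩ := Submodule.mem_span_singleton.1 hb
        have : b = 0 := by simpa [h0, show φ w ≠ 0 from hw] using hv
        exact hvu (by simpa [this] using ha)
      exact ⟨w, ψ, hw, h1 _ (Submodule.mem_sup_left (Submodule.mem_span_singleton_self u)),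
        h1 _ (Submodule.mem_sup_right (Submodule.mem_span_singleton_self w)), h2⟩
    · obtain ⟨ψ, h1, h2⟩ := exists_dual_pair hvu
      exact ⟨u, ψ, h0, h1, h1, h2⟩
  obtain ⟨g, hg, -, e⟩ := exists_tv_SL h2
  obtain ⟨c, hc⟩ := hle hg
  have := hc v u
  rw [mulVec_eq_of_sub (e v), mulVec_eq_of_sub (e u), h1, h3, zero_smul, add_zero, one_smul, ← hφ,
    ← hφ, map_add, show φ v = 0 from hv] at this
  exact hw (by simpa using this)

end H23.As
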