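import Cfsg.Agent.H23.As11

/-!
Aschbacher's theorem, part 12: coordinates for decompositions, small-field containments.
-/

set_option autoImplicit false

namespace H23.As

open Matrix Module Cfsg Cfsg.Geo
open scoped MatrixGroups commutatorElement Kronecker

variable {ι : Type} [Fintype ι] [DecidableEq ι] {F : Type*} [Field F]

section Dec

variable {t m : ℕ} {D : Fin t → Submodule F (ι → F)}

/-- Coordinates adapted to a decomposition. -/
def DecC (D : Fin t → Submodule F (ι → F)) (e : ι ≃ Fin m × Fin t) (P : GL ι F) : Prop :=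
  ∀ i x, (P : Matrix ι ι F) *ᵥ (x ∘ e) ∈ D i ↔ ∀ p : Fin m × Fin t, p.2 ≠ i → x p = 0

theorem exists_decC_of_basis (hD : IsMDecomposition m D) (b : ∀ i, Basis (Fin m) F (D i)) :
    ∃ (e : ι ≃ Fin m × Fin t) (P : GL ι F), DecC D e P ∧
      ∀ k i, (P : Matrix ι ι F) *ᵥ ((Pi.single (k, i) 1 : Fin m × Fin t → F) ∘ e) = b i k := by
  have hI := DirectSum.isInternal_submodule_of_iSupIndep_of_iSup_eq_top hD.indep hD.iSup_eq_top
  let c : Basis (Fin m × Fin t) F (ι → F) := (hI.collectedBasis b).reindex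
    ((Equiv.sigmaEquivProd _ _).trans (Equiv.prodComm _ _))
  have hc : ∀ k i, c (k, i) = b i k := fun k i => by simp [c]; rfl
  let e : ι ≃ Fin m × Fin t :=
    Fintype.equivOfCardEq (by simp [IsMDecomposition.card_eq hD, mul_comm])
  obtain ⟨P, hP⟩ := exists_GL_of_equiv c.equivFun.symm e
  refine ⟨e, P, fun i x => ?_, fun k i => by rw [hP, ← hc]; simp [Pi.single_apply]⟩
  rw [hP]
  refine ⟨fun h ⟨k, j⟩ hj => ?_, fun h => ?_⟩
  · have := hI.collectedBasis_repr_of_mem_ne b hj.symm h (a := k)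
    have h2 : c.equivFun (c.equivFun.symm x) (k, j) = 0 := by
      rw [Basis.equivFun_apply, Basis.repr_reindex_apply]; exact this
    rwa [LinearEquiv.apply_symm_apply] at h2
  · rw [Basis.equivFun_symm_apply]
    refine Submodule.sum_mem _ fun ⟨k, j⟩ _ => ?_
    by_cases hj : j = i
    · subst hj; rw [hc]; exact Submodule.smul_mem _ _ (b j k).2
    · simp [h (k, j) hj]

theorem exists_decC (hD : IsMDecomposition m D) :
    ∃ (e : ι ≃ Fin m × Fin t) (P : GL ι F), DecC D e P := by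
  obtain ⟨e, P, h, -⟩ := exists_decC_of_basis hD fun i => finBasisOfFinrankEq F _ (hD.finrank_eq i)
  exact ⟨e, P, h⟩

/-- Block monomial matrices. -/
def blkM (a : Fin t → Matrix (Fin m) (Fin m) F) (s : Equiv.Perm (Fin t)) :
    Matrix (Fin m × Fin t) (Fin m × Fin t) F :=
  (blockDiagonal a).submatrix (Equiv.prodCongrRight fun _ => s.symm) id

theorem blkM_apply (a : Fin t → Matrix (Fin m) (Fin m) F) (s : Equiv.Perm (Fin t)) (p p') :
    blkM a s p p' = if p.2 = s p'.2 then a p'.2 p.1 p'.1 else 0 := by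
  obtain ⟨k, i⟩ := p
  simp only [blkM, submatrix_apply, blockDiagonal_apply, Equiv.prodCongrRight_apply, id,
    Equiv.symm_apply_eq]
  split_ifs with h
  · rw [h, Equiv.symm_apply_apply]
  · rfl

theorem det_blkM (a : Fin t → Matrix (Fin m) (Fin m) F) (s : Equiv.Perm (Fin t)) :
    (blkM a s).det = ((Equiv.Perm.sign s : ℤ) : F) ^ m * ∏ i, (a i).det := by
  rw [blkM, det_permute, det_blockDiagonal, Equiv.Perm.sign_prodCongrRight]
  simp

theorem blkM_conj {σ : F →+* F} (a B : Fin t → Matrix (Fin m) (Fin m) F) (s : Equiv.Perm (Fin t)) :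
    (blkM a s)ᵀ * blockDiagonal B * (blkM a s).map σ =
      blockDiagonal fun i => (a i)ᵀ * B (s i) * (a i).map σ := by
  have : blockDiagonal B = (blockDiagonal fun i => B (s i)).submatrix
      (Equiv.prodCongrRight fun _ => s.symm) (Equiv.prodCongrRight fun _ => s.symm) := by
    ext p p'; simp [blockDiagonal_apply]
  rw [this, blkM, transpose_submatrix, submatrix_mul_equiv, ← submatrix_map, submatrix_mul_equiv,
    submatrix_id_id, blockDiagonal_transpose, blockDiagonal_map _ _ (map_zero σ),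
    ← blockDiagonal_mul, ← blockDiagonal_mul]

variable {e : ι ≃ Fin m × Fin t} {P g : GL ι F}

theorem det_tr {κ : Type} [Fintype κ] [DecidableEq κ] (e : ι ≃ κ) (P : GL ι F) (Y : Matrix κ κ F) :
    (tr e P Y).det = Y.det := by
  rw [tr_apply, cj_apply, det_units_conj, det_submatrix_equiv_self]

theorem DecC.exists_blkM (h : DecC D e P) (hg : g ∈ decompositionStabilizer D) :
    ∃ (s : Equiv.Perm (Fin t)) (a : Fin t → GL (Fin m) F),
      (g : Matrix ι ι F) = tr e P (blkM (fun i => a i) s) := by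
  obtain ⟨s, hs⟩ := hg
  obtain ⟨X, hX⟩ := (tr e P).surjective g
  have h1 : X = blkM (fun i => Matrix.of fun r k => X (r, s i) (k, i)) s := by
    ext p p'
    rw [blkM_apply]
    split_ifs with h2
    · rw [of_apply, ← h2]
    · have := (h (s p'.2) (X *ᵥ Pi.single p' 1)).1 (by
        rw [← tr_mulVec, hX, ← hs]
        exact ⟨_, (h _ _).2 fun p hp => Pi.single_eq_of_ne (by rintro rfl; exact hp rfl) _, rfl⟩)
        p h2
      simpa using this
  have h2 : X.det ≠ 0 := by rw [← det_tr e P, hX]; exact g.det_ne_zero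
  rw [h1, det_blkM] at h2
  refine ⟨s, fun i => Matrix.GeneralLinearGroup.mkOfDetNeZero _
    (Finset.prod_ne_zero_iff.1 (right_ne_zero_of_mul h2) i (Finset.mem_univ i)), ?_⟩
  rw [← hX]; exact congrArg _ h1

theorem DecC.mem_dec (h : DecC D e P) {s : Equiv.Perm (Fin t)} {a : Fin t → Matrix (Fin m) (Fin m) F}
    (hm : ∀ i, finrank F (D i) = m) (hg : (g : Matrix ι ι F) = tr e P (blkM a s)) :
    g ∈ decompositionStabilizer D := by
  refine ⟨s, fun i => Submodule.eq_of_le_of_finrank_eq ?_ (by rw [finrank_map_val, hm, hm])⟩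
  rintro _ ⟨v, hv, rfl⟩
  obtain ⟨x, rfl⟩ := exists_coord e P v
  rw [toLin'_apply, hg, tr_mulVec, h]
  intro p hp
  refine Finset.sum_eq_zero fun p' _ => ?_
  simp only [blkM_apply]
  split_ifs with h1
  · rw [(h i x).1 hv p' (by rintro rfl; exact hp h1), mul_zero]
  · exact zero_mul _

theorem TrF.mem_sim {κ : Type} [Fintype κ] [DecidableEq κ] {σ : F →+* F} {e : ι ≃ κ}
    {B : Matrix ι ι F} {B₀ X : Matrix κ κ F} (h : TrF σ e P B B₀)
    (hg : (g : Matrix ι ι F) = tr e P X) (c : Fˣ) (hc : Xᵀ * B₀ * X.map σ = (c : F) • B₀) :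
    g ∈ similarityGroup (formOfGram σ B) :=
  mem_similarityGroup_fog.2 ⟨c, by rw [hg]; exact ((h.mul X X).eq_iff (h.smul c)).2 hc⟩

theorem isUnit_blockDiagonal {B : Fin t → Matrix (Fin m) (Fin m) F} (h : ∀ i, IsUnit (B i)) :
    IsUnit (blockDiagonal B) := by
  rw [isUnit_iff_isUnit_det, det_blockDiagonal]
  exact IsUnit.prod_univ_iff.2 fun i => (isUnit_iff_isUnit_det _).1 (h i)

theorem alt_blockDiagonal {B : Fin t → Matrix (Fin m) (Fin m) F} (h : ∀ i, Alt (B i)) :
    Alt (blockDiagonal B) :=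
  alt_of_skew (by rw [blockDiagonal_transpose, ← blockDiagonal_neg]; simp only [(h _).transpose]; rfl)
    fun p => by simp [blockDiagonal_apply, (h _).diag]

theorem alt_J2 : Alt (J2 F) := alt_of_skew J2_transpose J2_diag

theorem dec_le_sim (hD : IsMDecomposition m D) {σ : F →+* F} {B₁ : Matrix (Fin m) (Fin m) F}
    (h : ∀ a : GL (Fin m) F, (a : Matrix (Fin m) (Fin m) F)ᵀ * B₁ * a.1.map σ = B₁) :
    ∃ (e : ι ≃ Fin m × Fin t) (P : GL ι F) (B : Matrix ι ι F),
      TrF σ e P B (blockDiagonal fun _ => B₁) ∧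
        decompositionStabilizer D ≤ similarityGroup (formOfGram σ B) := by
  obtain ⟨e, P, hc⟩ := exists_decC hD
  obtain ⟨B, hB⟩ := exists_trF_left σ e P (blockDiagonal fun _ => B₁)
  refine ⟨e, P, B, hB, fun g hg => ?_⟩
  obtain ⟨s, a, ha⟩ := hc.exists_blkM hg
  exact hB.mem_sim ha 1 (by rw [blkM_conj]; simp only [h, Units.val_one, one_smul])

end Dec

/-! ### Quadratic subalgebras -/

/-- The subalgebra generated by a quadratic element. -/
def quadAlg (j : Matrix ι ι F) {α β : F} (h : j * j = α • j + β • 1) :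
    Subalgebra F (Matrix ι ι F) where
  carrier := {x | ∃ a b : F, x = a • 1 + b • j}
  mul_mem' := by
    rintro _ _ ⟨a, b, rfl⟩ ⟨c, d, rfl⟩
    refine ⟨a * c + b * d * β, a * d + b * c + b * d * α, ?_⟩
    simp only [add_mul, mul_add, smul_mul_smul_comm, one_mul, mul_one, h]; module
  add_mem' := by
    rintro _ _ ⟨a, b, rfl⟩ ⟨c, d, rfl⟩
    exact ⟨a + c, b + d, by module⟩
  algebraMap_mem' c := ⟨c, 0, by simp [Algebra.algebraMap_eq_smul_one]⟩

variable {j : Matrix ι ι F} {α β : F}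

theorem mem_quadAlg {h : j * j = α • j + β • 1} {x : Matrix ι ι F} :
    x ∈ quadAlg j h ↔ ∃ a b : F, x = a • 1 + b • j := Iff.rfl

theorem self_mem_quadAlg (h : j * j = α • j + β • 1) : j ∈ quadAlg j h := ⟨0, 1, by simp⟩

theorem quadAlg_comm (h : j * j = α • j + β • 1) :
    ∀ x ∈ quadAlg j h, ∀ y ∈ quadAlg j h, x * y = y * x := by
  rintro _ ⟨a, b, rfl⟩ _ ⟨c, d, rfl⟩
  simp only [add_mul, mul_add, smul_mul_smul_comm, one_mul, mul_one, h]; module

theorem nrm_quadAlg (h : j * j = α • j + β • 1) {G : Subgroup (GL ι F)}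
    (hG : ∀ g ∈ G, cj g j ∈ quadAlg j h) : Nrm G (quadAlg j h) := by
  rintro g hg _ ⟨a, b, rfl⟩
  rw [map_add, map_smul, map_smul, map_one]
  exact add_mem (Subalgebra.smul_mem _ (one_mem _) _) (Subalgebra.smul_mem _ (hG g hg) _)

theorem isField_quadAlg [Nonempty ι] (h : j * j = α • j + β • 1)
    (hirr : ∀ x : F, x * x ≠ α * x + β) : IsFieldSubalgebra 2 (quadAlg j h) := by
  have key : ∀ a b : F, (a • 1 + b • j) * ((a + b * α) • 1 + (-b) • j) =
      (a * a + a * b * α - b * b * β) • (1 : Matrix ι ι F) := fun a b => by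
    simp only [add_mul, mul_add, smul_mul_smul_comm, one_mul, mul_one, h]; module
  have key2 : ∀ a b : F, a * a + a * b * α - b * b * β = 0 → a = 0 ∧ b = 0 := fun a b h0 => by
    by_cases hb : b = 0
    · subst hb; simpa using h0
    · exact (hirr (-a / b) (by field_simp; linear_combination h0)).elim
  refine ⟨quadAlg_comm h, ?_, ?_⟩
  · rintro _ ⟨a, b, rfl⟩ h0
    have h1 : a * a + a * b * α - b * b * β ≠ 0 := fun h1 => h0 (by simp [key2 a b h1])
    refine ⟨_, Subalgebra.smul_mem _ (mem_quadAlg.2 ⟨a + b * α, -b, rfl⟩) (a * a + a * b * α - b * b * β)⁻¹, ?_⟩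
    rw [Matrix.mul_smul, key, smul_smul, inv_mul_cancel₀ h1, one_smul]
  · have hli : LinearIndependent F ![(1 : Matrix ι ι F), j] := LinearIndependent.pair_iff.2
      fun a b hab => key2 a b (by
        have := key a b
        rw [hab, Matrix.zero_mul] at this
        exact (smul_eq_zero.1 this.symm).resolve_right one_ne_zero)
    have : (quadAlg j h).toSubmodule = Submodule.span F (Set.range ![(1 : Matrix ι ι F), j]) := by
      ext x
      rw [Matrix.range_cons, Matrix.range_cons_empty, Set.singleton_union, Submodule.mem_span_pair]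
      simp only [Subalgebra.mem_toSubmodule, mem_quadAlg, eq_comm]
    rw [← Subalgebra.finrank_toSubmodule, this, finrank_span_eq_card hli, Fintype.card_fin]

/-! ### Small fields -/

variable [Fintype F]

theorem eq_zero_or_one (h : Fintype.card F = 2) (x : F) : x = 0 ∨ x = 1 := by
  have := FiniteField.pow_card x
  rw [h] at this
  exact (mul_eq_zero.1 (show x * (x - 1) = 0 by linear_combination this)).imp_right sub_eq_zero.1

theorem two_eq_zero_of_even (h : ¬ Odd (Fintype.card F)) : (2 : F) = 0 := by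
  by_contra h2; exact h (Nat.odd_iff.2 (odd_card_of_two_ne_zero h2))

theorem pow_card_pred {k : ℕ} (h : Fintype.card F = k + 1) {x : F} (hx : x ≠ 0) : x ^ k = 1 := by
  simpa [h] using FiniteField.pow_card_sub_one_eq_one x hx

theorem exists_field_of_range_two [Nonempty ι] (h : Fintype.card F = 2)
    (φ : Matrix (Fin 2) (Fin 2) F →ₐ[F] Matrix ι ι F) : ∃ K : Subalgebra F (Matrix ι ι F),
      IsFieldSubalgebra 2 K ∧ K ≤ φ.range ∧ ∀ G, Nrm G φ.range → Nrm G K := by
  have h2 := two_eq_zero_of_even (F := F) (by rw [h]; decide)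
  have h11 : (1 : F) + 1 = 0 := by rw [one_add_one_eq_two, h2]
  let w : Matrix (Fin 2) (Fin 2) F := !![0, 1; 1, 1]
  have hw : w * w = (1 : F) • w + (1 : F) • 1 := by
    ext i j; fin_cases i <;> fin_cases j <;> simp [w, Matrix.mul_apply]
  have hj : φ w * φ w = (1 : F) • φ w + (1 : F) • 1 := by rw [← map_mul, hw]; simp
  refine ⟨quadAlg _ hj, isField_quadAlg hj fun x => ?_, ?_, fun G hG => nrm_quadAlg hj fun g hg => ?_⟩
  · rcases eq_zero_or_one h x with rfl | rfl <;> simp [h11]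
  · rintro _ ⟨a, b, rfl⟩
    exact ⟨a • 1 + b • w, by simp⟩
  · obtain ⟨Y, hY⟩ := hG g hg _ ⟨w, rfl⟩
    replace hY : φ Y = cj g (φ w) := hY
    have h1 : Y * Y = Y + 1 := algHom_injective φ (by
      rw [map_mul, map_add, hY, ← map_mul, hj]; simp)
    refine ⟨Y 0 0, 1, ?_⟩
    rw [← hY, ← map_one φ, ← map_smul, ← map_smul, ← map_add]
    congr 1
    have e := fun i j => congrFun (congrFun h1 i) j
    have e1 := e 0 0; have e2 := e 0 1; have e3 := e 1 0; have e4 := e 1 1
    simp only [Matrix.mul_apply, Fin.sum_univ_two, Matrix.add_apply, one_apply_eq,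
      one_apply_ne (show (0 : Fin 2) ≠ 1 by decide), one_apply_ne (show (1 : Fin 2) ≠ 0 by decide)]
      at e1 e2 e3 e4
    ext i j
    rcases eq_zero_or_one h (Y 0 0) with a | a <;> rcases eq_zero_or_one h (Y 0 1) with b | b <;>
      rcases eq_zero_or_one h (Y 1 0) with c | c <;> rcases eq_zero_or_one h (Y 1 1) with d | d <;>
      simp only [a, b, c, d, h11, mul_one, mul_zero, add_zero, zero_add, zero_ne_one,
        one_ne_zero] at e1 e2 e3 e4 <;>
      fin_cases i <;> fin_cases j <;> simp [w, a, b, c, d, h11]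

theorem nrm_tensor {n₁ n₂ : ℕ} (e : ι ≃ Fin n₁ × Fin n₂) (P : GL ι F) :
    Nrm (tensorProductSubgroup n₁ n₂ e P)
      ((tr e P).toAlgHom.comp (kronL (Fin n₁) (Fin n₂) F)).range := by
  rintro g hg _ ⟨X, rfl⟩
  obtain ⟨a, b, rfl⟩ := mem_tensorProductSubgroup_iff.1 hg
  exact ⟨cj a X, (by rw [cj_trG, cj_kronG, map_one] :
    tr e P (cj a X ⊗ₖ (1 : Matrix (Fin n₂) (Fin n₂) F)) =
      cj (trG e P (kronG a b)) (tr e P (X ⊗ₖ (1 : Matrix (Fin n₂) (Fin n₂) F))))⟩

theorem dec_one_two (h : Fintype.card F = 2) {t : ℕ} {D : Fin t → Submodule F (ι → F)}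
    (hD : IsMDecomposition 1 D) :
    ∃ W : Submodule F (ι → F), W ≠ ⊥ ∧ W ≠ ⊤ ∧ decompositionStabilizer D ≤ subspaceStabilizer W := by
  obtain ⟨e, P, hc⟩ := exists_decC hD
  have ht := hD.two_le
  have h0 : (P : Matrix ι ι F) *ᵥ ((1 : Fin 1 × Fin t → F) ∘ e) ≠ 0 := by
    haveI : Nonempty (Fin t) := ⟨⟨0, by omega⟩⟩
    exact coord_ne_zero one_ne_zero
  refine ⟨F ∙ ((P : Matrix ι ι F) *ᵥ ((1 : Fin 1 × Fin t → F) ∘ e)), by simpa using h0, fun h1 => ?_,
    InvS.le_stab fun g hg v hv => ?_⟩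
  · have := finrank_span_singleton (K := F) h0
    rw [h1, finrank_top, finrank_fintype_fun_eq_card, IsMDecomposition.card_eq hD] at this
    omega
  · obtain ⟨s, a, ha⟩ := hc.exists_blkM hg
    obtain ⟨c, rfl⟩ := Submodule.mem_span_singleton.1 hv
    have : blkM (fun i => (a i : Matrix (Fin 1) (Fin 1) F)) s *ᵥ 1 = 1 := by
      ext p
      have := (eq_zero_or_one h _).resolve_left (a (s.symm p.2)).det_ne_zero
      rw [det_unique] at this
      simp [mulVec, dotProduct, blkM_apply, Fintype.sum_prod_type, ← Equiv.symm_apply_eq,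
        Subsingleton.elim p.1 0] at this ⊢
      exact this
    rw [mulVec_smul, ha, tr_mulVec, this]
    exact hv

/-- Containment in a geometric subgroup, linear case, with the small-field restrictions. -/
def LinG2 (G : Subgroup (GL ι F)) : Prop :=
  (∃ W : Submodule F (ι → F), W ≠ ⊥ ∧ W ≠ ⊤ ∧ G ≤ subspaceStabilizer W) ∨
  (∃ (t m : ℕ) (D : Fin t → Submodule F (ι → F)), IsMDecomposition m D ∧
    (m = 1 → 5 ≤ Fintype.card F) ∧ (m = 2 → 3 ≤ Fintype.card F) ∧
    G ≤ decompositionStabilizer D) ∨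
  (∃ (r : ℕ) (K : Subalgebra F (Matrix ι ι F)), r.Prime ∧ IsFieldSubalgebra r K ∧
    G ≤ subalgebraNormalizer K) ∨
  (∃ (n₁ n₂ : ℕ) (e : ι ≃ Fin n₁ × Fin n₂) (P : GL ι F), 2 ≤ n₁ ∧ n₁ < n₂ ∧
    (n₁ = 2 → 3 ≤ Fintype.card F) ∧ G ≤ tensorProductSubgroup n₁ n₂ e P) ∨
  (∃ (F₀ : Subfield F) (r : ℕ) (P : GL ι F), r.Prime ∧ Fintype.card F = Nat.card F₀ ^ r ∧
    G ≤ subfieldSubgroup F₀ P) ∨
  (∃ (r : ℕ) (R : Subgroup (GL ι F)) (k : ℕ), IsLinearSymplecticTypeData r R ∧
    Fintype.card ι = r ^ k ∧ G ≤ subgroupNormalizer R) ∨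
  (∃ (m t : ℕ) (e : ι ≃ (Fin t → Fin m)) (P : GL ι F), 3 ≤ m ∧ 2 ≤ t ∧
    G ≤ tensorWreathSubgroup m t e P) ∨
  (∃ f : (ι → F) → (ι → F) → F, IsSymplecticForm f ∧ G ≤ similarityGroup f) ∨
  (∃ (σ : F ≃+* F) (f : (ι → F) → (ι → F) → F), IsUnitaryForm σ f ∧ G ≤ similarityGroup f) ∨
  (Odd (Fintype.card F) ∧ ∃ Q : (ι → F) → F, IsNondegenerateQuadraticForm Q ∧
    G ≤ quadSimilarityGroup Q)

theorem conj_one_one {σ : F →+* F} (h : ∀ x : F, x ≠ 0 → x * σ x = 1) (a : GL (Fin 1) F) :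
    (a : Matrix (Fin 1) (Fin 1) F)ᵀ * 1 * a.1.map σ = 1 := by
  ext i j
  have := h _ a.det_ne_zero
  rw [det_unique] at this
  rw [Subsingleton.elim i 0, Subsingleton.elim j 0]
  simpa [Matrix.mul_apply] using this

theorem LinG.linG2 [Nonempty ι] {G : Subgroup (GL ι F)} (h : LinG G) : LinG2 G := by
  have hq := Fintype.one_lt_card (α := F)
  rcases h with h | ⟨t, m, D, h1, h⟩ | h | ⟨a, b, e, P, h1, h2, h⟩ | h
  · exact .inl h
  · by_cases hm : (m = 1 → 5 ≤ Fintype.card F) ∧ (m = 2 → 3 ≤ Fintype.card F)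
    · exact .inr (.inl ⟨t, m, D, h1, hm.1, hm.2, h⟩)
    obtain ⟨rfl, hq⟩ | ⟨rfl, hq⟩ | ⟨rfl, hq⟩ | ⟨rfl, hq⟩ : (m = 1 ∧ Fintype.card F = 2) ∨
      (m = 1 ∧ Fintype.card F = 3) ∨ (m = 1 ∧ Fintype.card F = 4) ∨ (m = 2 ∧ Fintype.card F = 2) := by
      omega
    · obtain ⟨W, h2, h3, h4⟩ := dec_one_two hq h1
      exact .inl ⟨W, h2, h3, h.trans h4⟩
    · obtain ⟨e, P, B, h2, h3⟩ := dec_le_sim h1 (conj_one_one (σ := RingHom.id F) fun x hx => by
        simpa [sq] using pow_card_pred hq hx)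
      have ho : Odd (Fintype.card F) := by rw [hq]; decide
      refine .inr (.inr (.inr (.inr (.inr (.inr (.inr (.inr (.inr ⟨ho, _,
        isNondeg_quad (two_ne_zero_of_odd_card ho) ((h2.transpose.eq_iff h2).2 ?_)
          (h2.isUnit_iff.2 (isUnit_blockDiagonal fun _ => isUnit_one)),
        (h.trans h3).trans (sim_le_quadSim _)⟩))))))))
      simp [blockDiagonal_transpose]
    · have hq' : Fintype.card F = 2 ^ 2 := hq
      obtain ⟨e, P, B, h2, h3⟩ := dec_le_sim h1 (conj_one_one (σ := conj hq') fun x hx => by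
        rw [← pow_card_pred hq hx, pow_succ']; rfl)
      refine .inr (.inr (.inr (.inr (.inr (.inr (.inr (.inr (.inl ⟨_, _,
        isUnitaryForm_fog (conj_conj hq') (conj_ne_id hq')
          (h2.isUnit_iff.2 (isUnit_blockDiagonal fun _ => isUnit_one))
          (((h2.swap (conj_conj hq')).eq_iff h2).2 ?_), h.trans h3⟩))))))))
      rw [blockDiagonal_map _ _ (map_zero _), blockDiagonal_transpose]; simp
    · obtain ⟨e, P, B, h2, h3⟩ := dec_le_sim h1 (σ := RingHom.id F) (B₁ := J2 F) fun a => by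
        have := J2_conj (a : Matrix (Fin 2) (Fin 2) F)
        rw [(eq_zero_or_one hq _).resolve_left a.det_ne_zero, one_smul] at this
        simpa using this
      exact .inr (.inr (.inr (.inr (.inr (.inr (.inr (.inl ⟨_, Alt.isSymplecticForm
        (h2.alt_iff.2 (alt_blockDiagonal fun _ => alt_J2))
        (h2.isUnit_iff.2 (isUnit_blockDiagonal fun _ => isUnit_J2)), h.trans h3⟩)))))))
  · exact .inr (.inr (.inl h))
  · by_cases ha : a = 2 → 3 ≤ Fintype.card F
    · exact .inr (.inr (.inr (.inl ⟨a, b, e, P, h1, h2, ha, h⟩)))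
    obtain ⟨rfl, hq⟩ : a = 2 ∧ Fintype.card F = 2 := by omega
    obtain ⟨K, h3, -, h4⟩ := exists_field_of_range_two hq
      ((tr e P).toAlgHom.comp (kronL (Fin 2) (Fin b) F))
    exact .inr (.inr (.inl ⟨2, K, Nat.prime_two, h3, h.trans (h4 _ (nrm_tensor e P)).le_normalizer⟩))
  · exact .inr (.inr (.inr (.inr h)))

end H23.As
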