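import Cfsg.Agent.H23.As12

/-!
Aschbacher's theorem, part 13: maximal subgroups of `SL`.
-/

set_option autoImplicit false

namespace H23.As

open Matrix Module Cfsg Cfsg.Geo
open scoped MatrixGroups commutatorElement Kronecker

variable {ι : Type} [Fintype ι] [DecidableEq ι] {F : Type*} [Field F] [Fintype F]

theorem minimal_spec {z p e : ℕ} (h : IsMinimalFieldFor z p e F) (hz : 1 < z) :
    0 < e ∧ (p % z) ^ e % z = 1 ∧ ∀ d, 0 < d → d < e → (p % z) ^ d % z ≠ 1 := by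
  obtain ⟨hp, -, h1, h2, h3⟩ := h
  have key : ∀ d, z ∣ p ^ d - 1 ↔ (p % z) ^ d % z = 1 := fun d => by
    rw [← Nat.pow_mod, ← Nat.modEq_iff_dvd' (Nat.one_le_pow _ _ hp.pos), Nat.ModEq,
      Nat.mod_eq_of_lt hz, eq_comm]
  refine ⟨Nat.pos_of_ne_zero ?_, (key e).1 h2, fun d h4 h5 => mt (key d).2 (h3 d h4 h5)⟩
  rintro rfl
  have := Fintype.one_lt_card (α := F)
  simp at h1; omega

theorem eq_of_minimal {z a e o : ℕ} (h0 : 0 < e) (h1 : a ^ e % z = 1)
    (h2 : ∀ d, 0 < d → d < e → a ^ d % z ≠ 1) (ho : 0 < o) (h3 : a ^ o % z = 1)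
    (h4 : ∀ d < o, 0 < d → a ^ d % z ≠ 1) : e = o := by
  rcases lt_trichotomy e o with h | h | h
  · exact (h4 e h h0 h1).elim
  · exact h
  · exact (h2 o ho h h3).elim

theorem minimal_three {p e : ℕ} (h : IsMinimalFieldFor 3 p e F) :
    (e = 1 ∧ p % 3 = 1) ∨ (e = 2 ∧ p % 3 = 2) := by
  obtain ⟨h0, h1, h2⟩ := minimal_spec h (by norm_num)
  have := Nat.mod_lt p (show 0 < 3 by norm_num)
  generalize p % 3 = a at *
  interval_cases a
  · simp [h0.ne'] at h1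
  · simp [eq_of_minimal h0 h1 h2 (o := 1) (by decide) (by decide) (by decide)]
  · simp [eq_of_minimal h0 h1 h2 (o := 2) (by decide) (by decide) (by decide)]

theorem minimal_four {p e : ℕ} (h : IsMinimalFieldFor 4 p e F) :
    (e = 1 ∧ p % 4 = 1) ∨ (e = 2 ∧ p % 4 = 3) := by
  obtain ⟨h0, h1, h2⟩ := minimal_spec h (by norm_num)
  have := Nat.mod_lt p (show 0 < 4 by norm_num)
  generalize p % 4 = a at *
  interval_cases a
  · simp [h0.ne'] at h1
  · simp [eq_of_minimal h0 h1 h2 (o := 1) (by decide) (by decide) (by decide)]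
  · obtain ⟨e, rfl⟩ := Nat.exists_eq_add_one_of_ne_zero h0.ne'
    rw [pow_succ] at h1; omega
  · simp [eq_of_minimal h0 h1 h2 (o := 2) (by decide) (by decide) (by decide)]

theorem minimal_five {p e : ℕ} (h : IsMinimalFieldFor 5 p e F) :
    (e = 1 ∧ p % 5 = 1) ∨ (e = 2 ∧ p % 5 = 4) ∨ (e = 4 ∧ (p % 5 = 2 ∨ p % 5 = 3)) := by
  obtain ⟨h0, h1, h2⟩ := minimal_spec h (by norm_num)
  have := Nat.mod_lt p (show 0 < 5 by norm_num)
  generalize p % 5 = a at *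
  interval_cases a
  · simp [h0.ne'] at h1
  · simp [eq_of_minimal h0 h1 h2 (o := 1) (by decide) (by decide) (by decide)]
  · simp [eq_of_minimal h0 h1 h2 (o := 4) (by decide) (by decide) (by decide)]
  · simp [eq_of_minimal h0 h1 h2 (o := 4) (by decide) (by decide) (by decide)]
  · simp [eq_of_minimal h0 h1 h2 (o := 2) (by decide) (by decide) (by decide)]

theorem minimal_seven {p e : ℕ} (h : IsMinimalFieldFor 7 p e F) :
    (e = 1 ∧ p % 7 = 1) ∨ (e = 2 ∧ p % 7 = 6) ∨ (e = 3 ∧ (p % 7 = 2 ∨ p % 7 = 4)) ∨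
      (e = 6 ∧ (p % 7 = 3 ∨ p % 7 = 5)) := by
  obtain ⟨h0, h1, h2⟩ := minimal_spec h (by norm_num)
  have := Nat.mod_lt p (show 0 < 7 by norm_num)
  generalize p % 7 = a at *
  interval_cases a
  · simp [h0.ne'] at h1
  · simp [eq_of_minimal h0 h1 h2 (o := 1) (by decide) (by decide) (by decide)]
  · simp [eq_of_minimal h0 h1 h2 (o := 3) (by decide) (by decide) (by decide)]
  · simp [eq_of_minimal h0 h1 h2 (o := 6) (by decide) (by decide) (by decide)]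
  · simp [eq_of_minimal h0 h1 h2 (o := 3) (by decide) (by decide) (by decide)]
  · simp [eq_of_minimal h0 h1 h2 (o := 6) (by decide) (by decide) (by decide)]
  · simp [eq_of_minimal h0 h1 h2 (o := 2) (by decide) (by decide) (by decide)]

theorem minimal_eleven {p e : ℕ} (h : IsMinimalFieldFor 11 p e F) :
    (e = 1 ∧ p % 11 = 1) ∨ (e = 2 ∧ p % 11 = 10) ∨
      (e = 5 ∧ (p % 11 = 3 ∨ p % 11 = 4 ∨ p % 11 = 5 ∨ p % 11 = 9)) ∨
      (e = 10 ∧ (p % 11 = 2 ∨ p % 11 = 6 ∨ p % 11 = 7 ∨ p % 11 = 8)) := by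
  obtain ⟨h0, h1, h2⟩ := minimal_spec h (by norm_num)
  have := Nat.mod_lt p (show 0 < 11 by norm_num)
  generalize p % 11 = a at *
  interval_cases a
  · simp [h0.ne'] at h1
  · simp [eq_of_minimal h0 h1 h2 (o := 1) (by decide) (by decide) (by decide)]
  · simp [eq_of_minimal h0 h1 h2 (o := 10) (by decide) (by decide) (by decide)]
  · simp [eq_of_minimal h0 h1 h2 (o := 5) (by decide) (by decide) (by decide)]
  · simp [eq_of_minimal h0 h1 h2 (o := 5) (by decide) (by decide) (by decide)]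
  · simp [eq_of_minimal h0 h1 h2 (o := 5) (by decide) (by decide) (by decide)]
  · simp [eq_of_minimal h0 h1 h2 (o := 10) (by decide) (by decide) (by decide)]
  · simp [eq_of_minimal h0 h1 h2 (o := 10) (by decide) (by decide) (by decide)]
  · simp [eq_of_minimal h0 h1 h2 (o := 10) (by decide) (by decide) (by decide)]
  · simp [eq_of_minimal h0 h1 h2 (o := 5) (by decide) (by decide) (by decide)]
  · simp [eq_of_minimal h0 h1 h2 (o := 2) (by decide) (by decide) (by decide)]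

omit [Fintype F] in
theorem IsFieldSubalgebra.dvd_card [Nonempty ι] {r : ℕ} {K : Subalgebra F (Matrix ι ι F)}
    (h : IsFieldSubalgebra r K) : r ∣ Fintype.card ι := by
  letI := (IsFieldSubalgebra.isField h).toField
  have := Module.finrank_mul_finrank F K (ι → F)
  rw [h.finrank_eq, finrank_fintype_fun_eq_card] at this
  exact Dvd.intro _ this

theorem prime_eq_of_pow {n r s k : ℕ} (hr : r.Prime) (hs : s.Prime) (h : n = r ^ k) (hd : s ∣ n) :
    r = s := ((Nat.prime_dvd_prime_iff_eq hs hr).1 (hs.dvd_of_dvd_pow (h ▸ hd))).symm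

/-- The field data of an odd symplectic-type group in the linear case. -/
theorem IsLinearSymplecticTypeData.odd {r : ℕ} {R : Subgroup (GL ι F)}
    (h : IsLinearSymplecticTypeData r R) (hr : r ≠ 2) :
    ∃ p e, IsMinimalFieldFor r p e F ∧ Odd e := by
  obtain ⟨p, e, -, h1, ⟨-, h2, h3, -⟩ | ⟨h2, -⟩ | ⟨h2, -⟩⟩ := h.field
  · exact ⟨p, e, h3 ▸ h1, h2⟩
  · exact (hr h2).elim
  · exact (hr h2).elim

theorem IsLinearSymplecticTypeData.two {R : Subgroup (GL ι F)}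
    (h : IsLinearSymplecticTypeData 2 R) (hn : 3 ≤ Fintype.card ι) :
    ∃ p : ℕ, p.Prime ∧ Fintype.card F = p ∧ p % 4 = 1 := by
  obtain ⟨p, e, -, h1, ⟨h2, -⟩ | ⟨-, rfl, h2, -⟩ | ⟨-, -, h2, -⟩⟩ := h.field
  · exact absurd h2 (by decide)
  · rw [h2] at h1
    exact ⟨p, h1.1, by simpa using h1.2.2.1, by simpa using minimal_four h1⟩
  · omega

/-- The geometric maximal subgroups of `SL`. -/
def LinE (H : Subgroup (GL ι F)) : Prop :=
  (∃ W : Submodule F (ι → F), W ≠ ⊥ ∧ W ≠ ⊤ ∧ H = subspaceStabilizer W ⊓ specialLinear ι F) ∨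
  (∃ (t m : ℕ) (D : Fin t → Submodule F (ι → F)), IsMDecomposition m D ∧ 2 ≤ t ∧
    Fintype.card ι = t * m ∧ (m = 1 → 5 ≤ Fintype.card F) ∧ (m = 2 → 3 ≤ Fintype.card F) ∧
    H = decompositionStabilizer D ⊓ specialLinear ι F) ∨
  (∃ (r : ℕ) (K : Subalgebra F (Matrix ι ι F)), r.Prime ∧ r ∣ Fintype.card ι ∧
    IsFieldSubalgebra r K ∧ H = subalgebraNormalizer K ⊓ specialLinear ι F) ∨
  (∃ (n₁ n₂ : ℕ) (e : ι ≃ Fin n₁ × Fin n₂) (P : GL ι F), 2 ≤ n₁ ∧ n₁ < n₂ ∧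
    Fintype.card ι = n₁ * n₂ ∧
    (n₁ = 2 → 3 ≤ Fintype.card F) ∧ H = tensorProductSubgroup n₁ n₂ e P ⊓ specialLinear ι F) ∨
  (∃ (F₀ : Subfield F) (r : ℕ) (P : GL ι F), r.Prime ∧ Fintype.card F = Nat.card F₀ ^ r ∧
    H = subfieldSubgroup F₀ P ⊓ specialLinear ι F) ∨
  (∃ (r : ℕ) (R : Subgroup (GL ι F)) (k : ℕ), IsLinearSymplecticTypeData r R ∧ r.Prime ∧
    Fintype.card ι = r ^ k ∧ H = subgroupNormalizer R ⊓ specialLinear ι F) ∨
  (∃ (e : ι ≃ (Fin 2 → Fin 3)) (P : GL ι F), Fintype.card ι = 9 ∧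
    H = tensorWreathSubgroup 3 2 e P ⊓ specialLinear ι F) ∨
  (Even (Fintype.card ι) ∧ ∃ f : (ι → F) → (ι → F) → F, IsSymplecticForm f ∧
    H = similarityGroup f ⊓ specialLinear ι F) ∨
  (∃ (σ : F ≃+* F) (f : (ι → F) → (ι → F) → F), IsUnitaryForm σ f ∧
    H = similarityGroup f ⊓ specialLinear ι F) ∨
  (Odd (Fintype.card F) ∧ ∃ Q : (ι → F) → F, IsNondegenerateQuadraticForm Q ∧
    H = quadSimilarityGroup Q ⊓ specialLinear ι F)

theorem wreath_small {m t n : ℕ} (hm : 3 ≤ m) (ht : 2 ≤ t) (h : n = m ^ t) (hn : n ≤ 15) :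
    m = 3 ∧ t = 2 := by
  have h1 : m ^ 2 ≤ m ^ t := Nat.pow_le_pow_right (by omega) ht
  obtain rfl : m = 3 := by nlinarith
  refine ⟨rfl, by_contra fun h2 => ?_⟩
  have : 3 ^ 3 ≤ 3 ^ t := Nat.pow_le_pow_right (by omega) (by omega)
  omega

theorem LinG2.linE (hn : 3 ≤ Fintype.card ι) (hn' : Fintype.card ι ≤ 15) {H : Subgroup (GL ι F)}
    (hH : IsMaximalIn (specialLinear ι F) H) (h : LinG2 H) : LinE H := by
  have hA := amb_SL (F := F) hn
  haveI := hA.nonempty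
  rcases h with ⟨W, h1, h2, h⟩ | ⟨t, m, D, h1, h2, h3, h⟩ | ⟨r, K, h1, h2, h⟩ |
    ⟨a, b, e, P, h1, h2, h3, h⟩ | ⟨F₀, r, P, h1, h2, h⟩ | ⟨r, R, k, h1, h2, h⟩ |
    ⟨a, b, e, P, h1, h2, h⟩ | ⟨f, h1, h⟩ | ⟨σ, f, h1, h⟩ | ⟨h0, Q, h1, h⟩
  · exact .inl ⟨W, h1, h2, IsMaximalIn.eq_inf hH h (hA.not_le_stab h1 h2)⟩
  · exact .inr (.inl ⟨t, m, D, h1, h1.two_le, IsMDecomposition.card_eq h1, h2, h3,
      IsMaximalIn.eq_inf hH h (hA.not_le_dec h1)⟩)
  · exact .inr (.inr (.inl ⟨r, K, h1, IsFieldSubalgebra.dvd_card h2, h2,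
      IsMaximalIn.eq_inf hH h (hA.not_le_field h2 h1.ne_one)⟩))
  · exact .inr (.inr (.inr (.inl ⟨a, b, e, P, h1, h2, by simp [Fintype.card_congr e], h3,
      IsMaximalIn.eq_inf hH h (hA.not_le_tensor h1 (by omega) e P)⟩)))
  · exact .inr (.inr (.inr (.inr (.inl ⟨F₀, r, P, h1, h2,
      IsMaximalIn.eq_inf hH h (hA.not_le_subfield (ne_top_of_card h1 h2) P)⟩))))
  · exact .inr (.inr (.inr (.inr (.inr (.inl ⟨r, R, k, h1, h1.symplecticType.prime, h2,
      IsMaximalIn.eq_inf hH h (hA.not_le_normalizer (ng_SL R) h1.symplecticType h1.absIrred)⟩)))))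
  · obtain ⟨rfl, rfl⟩ := wreath_small h1 h2 (by simp [Fintype.card_congr e]) hn'
    exact .inr (.inr (.inr (.inr (.inr (.inr (.inl ⟨e, P, by simp [Fintype.card_congr e],
      IsMaximalIn.eq_inf hH h (hA.not_le_wreath (by omega) (by omega) (by omega) e P)⟩))))))
  · refine .inr (.inr (.inr (.inr (.inr (.inr (.inr (.inl ⟨even_card_of_symplectic h1, f, h1,
      IsMaximalIn.eq_inf hH h ?_⟩)))))))
    obtain ⟨B, h2, -, rfl⟩ := IsSymplecticForm.gram h1
    exact SL_not_le_sim hn h2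
  · refine .inr (.inr (.inr (.inr (.inr (.inr (.inr (.inr (.inl ⟨σ, f, h1,
      IsMaximalIn.eq_inf hH h ?_⟩))))))))
    obtain ⟨B, h2, -, rfl⟩ := IsUnitaryForm.gram h1
    exact SL_not_le_sim hn h2
  · refine .inr (.inr (.inr (.inr (.inr (.inr (.inr (.inr (.inr ⟨h0, Q, h1,
      IsMaximalIn.eq_inf hH h fun hle => ?_⟩))))))))
    obtain ⟨B, h2, -, h3⟩ := IsNondegenerateQuadraticForm.gram h1
    exact SL_not_le_sim hn h2 (h3 ▸ hle.trans (quadSim_le_sim Q) :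
      _ ≤ similarityGroup (fb B))

theorem linE_or_residual (hn : 3 ≤ Fintype.card ι) (hn' : Fintype.card ι ≤ 15)
    {H : Subgroup (GL ι F)} (hH : IsMaximalIn (specialLinear ι F) H) :
    LinE H ∨ InLinearResidualClass H :=
  haveI := (amb_SL (F := F) hn).nonempty
  (linG_or_residual hn H).imp_left fun h => h.linG2.linE hn hn' hH

end H23.As
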