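import Cfsg.Agent.H23.As13

/-!
Aschbacher's theorem, part 14: adjoints, reducible and imprimitive groups preserving a form.
-/

set_option autoImplicit false

namespace H23.As

open Matrix Module Cfsg Cfsg.Geo
open scoped MatrixGroups commutatorElement Kronecker

variable {ι : Type} [Fintype ι] [DecidableEq ι] {F : Type*} [Field F]

/-- A nondegenerate `ε`-hermitian Gram matrix. -/
structure FD (σ : F →+* F) (B : Matrix ι ι F) (ε : F) : Prop where
  invol : ∀ a, σ (σ a) = a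
  unit : IsUnit B
  herm : (B.map σ)ᵀ = ε • B
  eps : ε ≠ 0

/-- The adjoint of a matrix. -/
noncomputable def adj (σ : F →+* F) (B X : Matrix ι ι F) : Matrix ι ι F := (B⁻¹ * Xᵀ * B).map σ

/-- The isometry group of a form. -/
def Iso (f : (ι → F) → (ι → F) → F) : Subgroup (GL ι F) :=
  preserving (Units.coeHom (Matrix ι ι F)) f

theorem mem_Iso {f : (ι → F) → (ι → F) → F} {g : GL ι F} :
    g ∈ Iso f ↔ ∀ u v, f ((g : Matrix ι ι F) *ᵥ u) ((g : Matrix ι ι F) *ᵥ v) = f u v := Iff.rfl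

theorem Iso_le_sim (f : (ι → F) → (ι → F) → F) : Iso f ≤ similarityGroup f :=
  fun _ hg => ⟨1, fun u v => by simpa using hg u v⟩

variable {σ : F →+* F} {B : Matrix ι ι F} {ε : F}

theorem inv_iff_le_Iso {N : Subgroup (GL ι F)} : Inv σ B N ↔ N ≤ Iso (formOfGram σ B) :=
  inv_iff_fixes.trans ⟨fun h x hx => h _ ⟨x, hx, rfl⟩, by rintro h _ ⟨x, hx, rfl⟩; exact h hx⟩

theorem mem_Iso_fog {g : GL ι F} : g ∈ Iso (formOfGram σ B) ↔
    (g : Matrix ι ι F)ᵀ * B * (g : Matrix ι ι F).map σ = B := by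
  simp only [mem_Iso, fog_mulVec]
  exact ⟨fog_inj, fun h _ _ => by rw [h]⟩

theorem scalars_le_sim (σ : F →+* F) (B : Matrix ι ι F) :
    scalars ι F ≤ similarityGroup (formOfGram σ B) := fun g hg => by
  obtain ⟨c, rfl⟩ := exists_sc hg
  refine ⟨c * Units.map (σ : F →* F) c, fun u v => ?_⟩
  simp [sc_val, smul_mulVec, fog_smul_left, fog_smul_right, mul_assoc, mul_left_comm]

theorem sc_mem_Iso [Nonempty ι] (hB : IsUnit B) {c : Fˣ} :
    (sc c : GL ι F) ∈ Iso (formOfGram σ B) ↔ σ c * c = 1 := by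
  simp only [mem_Iso, sc_val, smul_mulVec, fog_smul_left, fog_smul_right, one_mulVec]
  refine ⟨fun h => ?_, fun h u v => by linear_combination formOfGram σ B u v * h⟩
  obtain ⟨v, hv⟩ := exists_ne (0 : ι → F)
  obtain ⟨u, hu⟩ := exists_fog_left (σ := σ) hB hv
  exact mul_right_cancel₀ hu (by linear_combination h u v)

theorem ng_Iso (f : (ι → F) → (ι → F) → F) : NG (similarityGroup f) (Iso f) := by
  rintro g ⟨c, hc⟩ x hx
  refine mem_Iso.2 fun u v => ?_
  simp only [Units.val_mul, ← mulVec_mulVec]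
  rw [hc, mem_Iso.1 hx, ← hc, val_mulVec_inv_mulVec, val_mulVec_inv_mulVec]

theorem commutator_mem_Iso {f : (ι → F) → (ι → F) → F} {x y : GL ι F} (hx : x ∈ similarityGroup f)
    (hy : y ∈ similarityGroup f) : ⁅x, y⁆ ∈ Iso f := by
  obtain ⟨c, hc⟩ := hx
  obtain ⟨d, hd⟩ := hy
  refine mem_Iso.2 fun u v => ?_
  simp only [commutatorElement_def, Units.val_mul, ← mulVec_mulVec]
  conv_rhs => rw [← val_mulVec_inv_mulVec y u, ← val_mulVec_inv_mulVec y v, hd,
    ← val_mulVec_inv_mulVec x (_ *ᵥ u), ← val_mulVec_inv_mulVec x (_ *ᵥ v), hc]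
  rw [hc, hd]; ring

theorem commutator_le_Iso {f : (ι → F) → (ι → F) → F} {G : Subgroup (GL ι F)}
    (h : G ≤ similarityGroup f) : ⁅G, G⁆ ≤ Iso f :=
  Subgroup.commutator_le.2 fun _ hx _ hy => commutator_mem_Iso (h hx) (h hy)

theorem adj_one' (hB : IsUnit B) : adj σ B 1 = 1 := by
  rw [adj, transpose_one, Matrix.mul_one, nonsing_inv_mul _ ((isUnit_iff_isUnit_det _).1 hB)]; simp

theorem adj_add (X Y : Matrix ι ι F) : adj σ B (X + Y) = adj σ B X + adj σ B Y := by
  rw [adj, transpose_add, Matrix.mul_add, Matrix.add_mul, Matrix.map_add _ (map_add σ)]; rfl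

theorem adj_smul (c : F) (X : Matrix ι ι F) : adj σ B (c • X) = σ c • adj σ B X := by
  rw [adj, adj, transpose_smul, Matrix.mul_smul, Matrix.smul_mul]
  ext i j; simp only [map_apply, Matrix.smul_apply, smul_eq_mul, map_mul]

theorem adj_zero : adj σ B (0 : Matrix ι ι F) = 0 := by simp [adj]

theorem adj_neg (X : Matrix ι ι F) : adj σ B (-X) = - adj σ B X := by
  simpa using adj_smul (σ := σ) (B := B) (-1) X

theorem adj_sub (X Y : Matrix ι ι F) : adj σ B (X - Y) = adj σ B X - adj σ B Y := by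
  rw [sub_eq_add_neg, adj_add, adj_neg, sub_eq_add_neg]

namespace FD

variable (h : FD σ B ε)
include h

theorem swap (u v : ι → F) : σ (formOfGram σ B u v) = ε * formOfGram σ B v u := by
  rw [fog_swap h.invol, h.herm, fog_smul]

theorem eq_zero_comm {u v : ι → F} : formOfGram σ B u v = 0 ↔ formOfGram σ B v u = 0 := by
  rw [← map_eq_zero σ, h.swap, mul_eq_zero, or_iff_right h.eps]

theorem map_map (X : Matrix ι ι F) : (X.map σ).map σ = X := by ext; simp [h.invol]

theorem mul_adj (X : Matrix ι ι F) : B * (adj σ B X).map σ = Xᵀ * B := by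
  rw [adj, h.map_map, ← Matrix.mul_assoc, ← Matrix.mul_assoc,
    mul_nonsing_inv _ ((isUnit_iff_isUnit_det _).1 h.unit), Matrix.one_mul]

theorem fog_adj (X : Matrix ι ι F) (u v : ι → F) :
    formOfGram σ B (X *ᵥ u) v = formOfGram σ B u (adj σ B X *ᵥ v) := by
  rw [fog_mulVec_left, fog_mulVec_right, h.mul_adj]

theorem adj_eq_of_mul {X Y : Matrix ι ι F} (e : Xᵀ * B = B * Y.map σ) : adj σ B X = Y := by
  rw [← h.map_map Y, ← h.map_map (adj σ B X), h.unit.mul_left_cancel ((h.mul_adj X).trans e)]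

theorem adj_eq {X Y : Matrix ι ι F}
    (e : ∀ u v, formOfGram σ B (X *ᵥ u) v = formOfGram σ B u (Y *ᵥ v)) : adj σ B X = Y :=
  h.adj_eq_of_mul (fog_inj (σ := σ) fun u v => by rw [← fog_mulVec_left, e, fog_mulVec_right])

theorem fog_adj' (X : Matrix ι ι F) (u v : ι → F) :
    formOfGram σ B (adj σ B X *ᵥ u) v = formOfGram σ B u (X *ᵥ v) :=
  mul_left_cancel₀ h.eps (by rw [← h.swap, ← h.fog_adj, h.swap])

theorem adj_adj (X : Matrix ι ι F) : adj σ B (adj σ B X) = X := h.adj_eq (h.fog_adj' X)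

theorem adj_mul (X Y : Matrix ι ι F) : adj σ B (X * Y) = adj σ B Y * adj σ B X :=
  h.adj_eq fun u v => by rw [← mulVec_mulVec, h.fog_adj, h.fog_adj, mulVec_mulVec]

theorem adj_one : adj σ B 1 = 1 := adj_one' h.unit

theorem adj_pow (X : Matrix ι ι F) (k : ℕ) : adj σ B (X ^ k) = adj σ B X ^ k := by
  induction k with
  | zero => simp [h.adj_one]
  | succ k ih => rw [pow_succ, h.adj_mul, ih, pow_succ']

theorem adj_eq_zero {X : Matrix ι ι F} : adj σ B X = 0 ↔ X = 0 :=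
  ⟨fun e => by rw [← h.adj_adj X, e, adj_zero], fun e => by rw [e, adj_zero]⟩

theorem adj_of_sim {g : GL ι F} {c : F}
    (hc : ∀ u v, formOfGram σ B ((g : Matrix ι ι F) *ᵥ u) ((g : Matrix ι ι F) *ᵥ v) =
      c * formOfGram σ B u v) : adj σ B g = σ c • ((g⁻¹ : GL ι F) : Matrix ι ι F) :=
  h.adj_eq fun u v => by
    rw [smul_mulVec, fog_smul_right, h.invol, ← hc, val_mulVec_inv_mulVec]

theorem adj_of_Iso {g : GL ι F} (hg : g ∈ Iso (formOfGram σ B)) :
    adj σ B g = ((g⁻¹ : GL ι F) : Matrix ι ι F) := by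
  simpa using h.adj_of_sim (c := 1) fun u v => by simpa using hg u v

theorem mem_Iso_of_adj {g : GL ι F} (e : adj σ B g * g = 1) : g ∈ Iso (formOfGram σ B) :=
  mem_Iso.2 fun u v => by rw [h.fog_adj, mulVec_mulVec, e, one_mulVec]

theorem mem_sim_of_adj [Nonempty ι] {g : GL ι F} {c : F} (e : adj σ B g * g = c • 1) :
    g ∈ similarityGroup (formOfGram σ B) := by
  have hc : c ≠ 0 := by
    rintro rfl
    rw [zero_smul, g.isUnit.mul_left_eq_zero, h.adj_eq_zero] at e
    exact g.ne_zero e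
  exact ⟨Units.mk0 (σ c) (by simpa), fun u v => by
    rw [h.fog_adj, mulVec_mulVec, e, smul_mulVec, one_mulVec, fog_smul_right]; rfl⟩

theorem adj_cj {g : GL ι F} (hg : g ∈ similarityGroup (formOfGram σ B)) (X : Matrix ι ι F) :
    adj σ B (cj g X) = cj g (adj σ B X) := by
  obtain ⟨c, hc⟩ := hg
  refine h.adj_eq fun u v => ?_
  rw [← val_mulVec_inv_mulVec g u, ← val_mulVec_inv_mulVec g v, cj_mulVec, cj_mulVec, hc, hc,
    h.fog_adj]

theorem mult_fixed [Nonempty ι] {g : GL ι F} {c : F}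
    (hc : ∀ u v, formOfGram σ B ((g : Matrix ι ι F) *ᵥ u) ((g : Matrix ι ι F) *ᵥ v) =
      c * formOfGram σ B u v) : σ c = c := by
  obtain ⟨v, hv⟩ := exists_ne (0 : ι → F)
  obtain ⟨u, hu⟩ := exists_fog_left (σ := σ) h.unit hv
  have := h.swap ((g : Matrix ι ι F) *ᵥ v) ((g : Matrix ι ι F) *ᵥ u)
  rw [hc, hc, map_mul, h.swap] at this
  exact mul_right_cancel₀ (mul_ne_zero h.eps hu) (by linear_combination this)

end FD

/-- Closed under adjoints. -/
def AC (σ : F →+* F) (B : Matrix ι ι F) (A : Subalgebra F (Matrix ι ι F)) : Prop :=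
  ∀ X ∈ A, adj σ B X ∈ A

theorem FD.ac_alg (h : FD σ B ε) {N : Subgroup (GL ι F)}
    (hN : N ≤ similarityGroup (formOfGram σ B)) : AC σ B (alg N) := fun _ hX =>
  algK_induction (p := fun X => adj σ B X ∈ alg N) (fun x hx => by
    obtain ⟨c, hc⟩ := hN hx
    rw [h.adj_of_sim hc]
    exact Subalgebra.smul_mem _ (mem_algK (inv_mem hx)) _) (by rw [adj_zero]; exact zero_mem _)
    (fun X Y h1 h2 => by rw [adj_add]; exact add_mem h1 h2)
    (fun c X h1 => by rw [adj_smul]; exact Subalgebra.smul_mem _ h1 _) hX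

theorem FD.adj_comm (h : FD σ B ε) {A : Subalgebra F (Matrix ι ι F)} (hA : AC σ B A)
    {z : Matrix ι ι F} (hz : ∀ a ∈ A, z * a = a * z) : ∀ a ∈ A, adj σ B z * a = a * adj σ B z :=
  fun a ha => by rw [← h.adj_adj a, ← h.adj_mul, ← h.adj_mul, hz _ (hA a ha)]

theorem FD.ac_ctr (h : FD σ B ε) {A : Subalgebra F (Matrix ι ι F)} (hA : AC σ B A) :
    AC σ B (ctr A) := fun z hz =>
  mem_ctr.2 ⟨hA z (mem_ctr.1 hz).1, h.adj_comm hA (mem_ctr.1 hz).2⟩

theorem FD.isAdjointClosedFor (h : FD σ B ε) {A : Subalgebra F (Matrix ι ι F)} (hA : AC σ B A) :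
    IsAdjointClosedFor (formOfGram σ B) A := fun k hk => ⟨_, hA k hk, h.fog_adj k⟩

theorem FD.isSelfAdjointFor_iff (h : FD σ B ε) {A : Subalgebra F (Matrix ι ι F)} :
    IsSelfAdjointFor (formOfGram σ B) A ↔ ∀ k ∈ A, adj σ B k = k :=
  forall₂_congr fun k _ => ⟨h.adj_eq, fun e u v => by rw [h.fog_adj, e]⟩

/-- Primitivity relative to a form. -/
def Prim (σ : F →+* F) (B : Matrix ι ι F) (G : Subgroup (GL ι F)) : Prop :=
  ∀ C : Subalgebra F (Matrix ι ι F), AC σ B C → Nrm G C → (∀ x ∈ C, ∀ y ∈ C, x * y = y * x) →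
    ∀ z ∈ C, ∃ c : F, z = c • 1

theorem Prim.ctr_scalar (h : FD σ B ε) {G : Subgroup (GL ι F)} (hP : Prim σ B G)
    {A : Subalgebra F (Matrix ι ι F)} (hA : AC σ B A) (hn : Nrm G A) :
    ∀ z ∈ A, (∀ a ∈ A, z * a = a * z) → ∃ c : F, z = c • 1 := fun z h1 h2 =>
  hP _ (h.ac_ctr hA) hn.ctr (ctr_comm A) z (mem_ctr.2 ⟨h1, h2⟩)

theorem Prim.cs (h : FD σ B ε) {G : Subgroup (GL ι F)} (hP : Prim σ B G)
    (hG : G ≤ similarityGroup (formOfGram σ B)) : CS G := fun _ hN hn =>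
  hP.ctr_scalar h (h.ac_alg (hN.trans hG)) hn.nrm

theorem Prim.le_scalars [Nonempty ι] (h : FD σ B ε) {G : Subgroup (GL ι F)} (hP : Prim σ B G)
    {A : Subgroup (GL ι F)} (hA : A ≤ similarityGroup (formOfGram σ B)) (hn : NG G A)
    (hc : ∀ x ∈ A, ∀ y ∈ A, x * y = y * x) : A ≤ scalars ι F := fun x hx => by
  obtain ⟨c, hc⟩ := hP _ (h.ac_alg hA) hn.nrm (alg_comm hc) x (mem_algK hx)
  exact mem_scalars_of_val hc

/-! ### Orthogonal complements -/

/-- The orthogonal complement. -/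
def prp (σ : F →+* F) (B : Matrix ι ι F) (W : Submodule F (ι → F)) : Submodule F (ι → F) where
  carrier := {v | ∀ w ∈ W, formOfGram σ B v w = 0}
  add_mem' hu hv w hw := by rw [fog_add_left, hu w hw, hv w hw, add_zero]
  zero_mem' w _ := fog_zero_left _ _
  smul_mem' c v hv w hw := by rw [fog_smul_left, hv w hw, mul_zero]

theorem mem_prp {W : Submodule F (ι → F)} {v : ι → F} :
    v ∈ prp σ B W ↔ ∀ w ∈ W, formOfGram σ B v w = 0 := Iff.rfl

theorem card_le_finrank_prp (W : Submodule F (ι → F)) :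
    Fintype.card ι ≤ finrank F (prp σ B W) + finrank F W := by
  let b := finBasis F W
  let L : (ι → F) →ₗ[F] (Fin (finrank F W) → F) :=
    { toFun := fun v i => formOfGram σ B v (b i)
      map_add' := fun _ _ => funext fun _ => fog_add_left _ _ _ _
      map_smul' := fun _ _ => funext fun _ => fog_smul_left _ _ _ _ }
  have hle : LinearMap.ker L ≤ prp σ B W := fun v hv w hw => by
    have h1 : w = ∑ i, b.repr ⟨w, hw⟩ i • (b i : ι → F) := by
      have := congrArg Subtype.val (b.sum_repr ⟨w, hw⟩).symm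
      simpa only [Submodule.coe_sum, Submodule.coe_smul] using this
    rw [h1]
    refine Finset.sum_induction _ (fun x => formOfGram σ B v x = 0) (fun x y hx hy => ?_) ?_
      fun i _ => ?_
    · rw [fog_add_right, hx, hy, add_zero]
    · exact fog_zero_right _ _
    · rw [fog_smul_right, show formOfGram σ B v (b i) = 0 from congrFun hv i, mul_zero]
  have h1 := Submodule.finrank_mono hle
  have h2 := L.finrank_range_add_finrank_ker
  have h3 := (LinearMap.range L).finrank_le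
  simp at h2 h3; omega

theorem InvS.prp {G : Subgroup (GL ι F)} (hG : G ≤ similarityGroup (formOfGram σ B))
    {W : Submodule F (ι → F)} (hW : InvS G W) : InvS G (prp σ B W) := fun g hg v hv w hw => by
  obtain ⟨c, hc⟩ := hG hg
  rw [← val_mulVec_inv_mulVec g w, hc, hv _ (hW _ (inv_mem hg) w hw), mul_zero]

theorem FD.nondegOn_iff (h : FD σ B ε) {W : Submodule F (ι → F)} :
    IsNondegenerateOn (formOfGram σ B) W ↔ Disjoint W (prp σ B W) := by
  rw [Submodule.disjoint_def]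
  refine forall₂_congr fun w _ => ⟨fun h1 h2 => by_contra fun h0 => ?_, fun h1 h0 => ?_⟩
  · obtain ⟨x, hx, hx'⟩ := (h1 h0).2
    exact hx' (h2 x hx)
  · have : ∃ x ∈ W, formOfGram σ B w x ≠ 0 := by
      by_contra hh; push Not at hh; exact h0 (h1 hh)
    exact ⟨this.imp fun x hx => ⟨hx.1, mt h.eq_zero_comm.1 hx.2⟩, this⟩

theorem isCompl_prp {W : Submodule F (ι → F)} (hW : Disjoint W (prp σ B W)) :
    IsCompl W (prp σ B W) :=
  Submodule.isCompl_iff_disjoint _ _ (by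
    have := card_le_finrank_prp (σ := σ) (B := B) W; simp; omega) |>.2 hW

theorem FD.disjoint_prp (h : FD σ B ε) {W : Submodule F (ι → F)} (hW : Disjoint W (prp σ B W)) :
    Disjoint (prp σ B W) (prp σ B (prp σ B W)) := by
  refine Submodule.disjoint_def.2 fun v h1 h2 => by_contra fun h0 => ?_
  obtain ⟨x, hx⟩ := exists_fog_right (σ := σ) h.unit h0
  obtain ⟨a, ha, b, hb, rfl⟩ := Submodule.mem_sup.1
    ((isCompl_prp hW).sup_eq_top ▸ Submodule.mem_top : x ∈ W ⊔ prp σ B W)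
  rw [fog_add_right, h1 a ha, h2 b hb, add_zero] at hx
  exact hx rfl

theorem FD.prp_ne_top (h : FD σ B ε) {W : Submodule F (ι → F)} (hW : W ≠ ⊥) : prp σ B W ≠ ⊤ :=
  fun e => by
    obtain ⟨w, hw, h0⟩ := (Submodule.ne_bot_iff W).1 hW
    obtain ⟨x, hx⟩ := exists_fog_left (σ := σ) h.unit h0
    exact hx ((e ▸ Submodule.mem_top : x ∈ prp σ B W) w hw)

theorem prp_ne_bot {W : Submodule F (ι → F)} (hW : W ≠ ⊤) : prp σ B W ≠ ⊥ := fun e => by
  have := card_le_finrank_prp (σ := σ) (B := B) W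
  rw [e, finrank_bot, zero_add] at this
  exact hW (Submodule.eq_top_of_finrank_eq (le_antisymm W.finrank_le (by simpa using this)))

theorem FD.red (h : FD σ B ε) {G : Subgroup (GL ι F)} (hG : G ≤ similarityGroup (formOfGram σ B))
    (hi : ¬ Irr G) :
    (∃ W : Submodule F (ι → F), W ≠ ⊥ ∧ IsTotallySingularFor (formOfGram σ B) W ∧ InvS G W ∧
      ∀ U ≤ W, InvS G U → U = ⊥ ∨ U = W) ∨
    ∃ W : Submodule F (ι → F), W ≠ ⊥ ∧ W ≠ ⊤ ∧ Disjoint W (prp σ B W) ∧ InvS G W := by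
  simp only [Irr, not_forall, not_or] at hi
  obtain ⟨W₀, h1, h2, h3⟩ := hi
  obtain ⟨W, h4, ⟨h5, h6⟩, h7⟩ := exists_minimal_sub (fun W => InvS G W ∧ W ≤ W₀) h2 ⟨h1, le_rfl⟩
  rcases h7 (W ⊓ prp σ B W) inf_le_left ⟨fun g hg v hv =>
    ⟨h5 g hg v hv.1, h5.prp hG g hg v hv.2⟩, inf_le_left.trans h6⟩ with h8 | h8
  · exact .inr ⟨W, h4, fun e => h3 (top_le_iff.1 (e ▸ h6)), disjoint_iff.2 h8, h5⟩
  · exact .inl ⟨W, h4, fun u hu => (h8.ge hu).2, h5, fun U hU hU' => h7 U hU ⟨hU', hU.trans h6⟩⟩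

theorem isMDecomposition_two {W U : Submodule F (ι → F)} (hc : IsCompl W U) (h0 : W ≠ ⊥)
    (he : finrank F W = finrank F U) : IsMDecomposition (finrank F W) ![W, U] :=
  ⟨le_rfl, Nat.pos_of_ne_zero (by simpa using h0), fun i => by fin_cases i; exacts [rfl, he.symm],
    (iSupIndep_pair (i := 0) (j := 1) (by simp) (by decide)).2 hc.disjoint,
    top_le_iff.1 (hc.sup_eq_top.ge.trans (sup_le (le_iSup ![W, U] 0) (le_iSup ![W, U] 1)))⟩

theorem InvS.le_dec {G : Subgroup (GL ι F)} {t : ℕ} {D : Fin t → Submodule F (ι → F)}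
    (h : ∀ i, InvS G (D i)) : G ≤ decompositionStabilizer D :=
  fun _ hg => ⟨1, fun i => (h i).map_eq hg⟩

theorem FD.nondegDec_two (h : FD σ B ε) {W : Submodule F (ι → F)} (h0 : W ≠ ⊥)
    (hW : Disjoint W (prp σ B W)) (he : finrank F W = finrank F (prp σ B W)) :
    IsNondegenerateMDecomposition (formOfGram σ B) (finrank F W) ![W, prp σ B W] :=
  ⟨isMDecomposition_two (isCompl_prp hW) h0 he, fun i => by
    fin_cases i
    · exact h.nondegOn_iff.2 hW
    · exact h.nondegOn_iff.2 (h.disjoint_prp hW), fun i j hij => by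
    fin_cases i <;> fin_cases j
    · exact (hij rfl).elim
    · exact fun u hu v hv => h.eq_zero_comm.1 (hv u hu)
    · exact fun u hu v hv => hu v hv
    · exact (hij rfl).elim⟩

theorem FD.nondeg_cases (h : FD σ B ε) {G : Subgroup (GL ι F)}
    (hG : G ≤ similarityGroup (formOfGram σ B)) {W : Submodule F (ι → F)} (h0 : W ≠ ⊥) (h1 : W ≠ ⊤)
    (hW : Disjoint W (prp σ B W)) (hi : InvS G W) :
    (∃ W : Submodule F (ι → F), W ≠ ⊥ ∧ IsNondegenerateOn (formOfGram σ B) W ∧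
      2 * finrank F W < Fintype.card ι ∧ G ≤ subspaceStabilizer W) ∨
    ∃ (k : ℕ) (D : Fin 2 → Submodule F (ι → F)),
      IsNondegenerateMDecomposition (formOfGram σ B) k D ∧ G ≤ decompositionStabilizer D := by
  have e := Submodule.finrank_add_eq_of_isCompl (isCompl_prp hW)
  rw [finrank_fintype_fun_eq_card] at e
  rcases lt_trichotomy (finrank F W) (finrank F (prp σ B W)) with h2 | h2 | h2
  · exact .inl ⟨W, h0, h.nondegOn_iff.2 hW, by omega, hi.le_stab⟩
  · exact .inr ⟨_, _, h.nondegDec_two h0 hW h2, InvS.le_dec fun i => by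
      fin_cases i; exacts [hi, hi.prp hG]⟩
  · exact .inl ⟨_, prp_ne_bot h1, h.nondegOn_iff.2 (h.disjoint_prp hW), by omega,
      (hi.prp hG).le_stab⟩

/-- Transitivity on the members of a decomposition. -/
def TrDec (G : Subgroup (GL ι F)) {t : ℕ} (D : Fin t → Submodule F (ι → F)) : Prop :=
  ∀ i j, ∃ g ∈ G, (D i).map (toLin' (g : Matrix ι ι F)) = D j

theorem FD.dec_of_selfadj [Finite F] (h : FD σ B ε) {G : Subgroup (GL ι F)} (hI : Irr G)
    (hG : G ≤ similarityGroup (formOfGram σ B)) {e : Matrix ι ι F} (hi : e * e = e) (h0 : e ≠ 0)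
    (h1 : e ≠ 1) (hb : ∀ g ∈ G, cj g e = e ∨ cj g e * e = 0) (ha : adj σ B e = e) :
    ∃ (t k : ℕ) (D : Fin t → Submodule F (ι → F)),
      IsNondegenerateMDecomposition (formOfGram σ B) k D ∧ G ≤ decompositionStabilizer D ∧
        TrDec G D := by
  obtain ⟨t, m, η, h2, h3, h4, h5⟩ := exists_decomp hI hi h0 h1 hb
  have h6 : ∀ i, adj σ B (η i) = η i := fun i => by
    obtain ⟨g, hg, e⟩ := h2 i; rw [e, h.adj_cj (hG hg), ha]
  have h7 : ∀ i, η i * η i = η i := fun i => by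
    obtain ⟨g, hg, e⟩ := h2 i; rw [e, ← map_mul, hi]
  refine ⟨t, m, _, ⟨h4, fun i => h.nondegOn_iff.2 (Submodule.disjoint_def.2 ?_), ?_⟩, h5,
    fun i j => ?_⟩
  · rintro _ ⟨v, rfl⟩ hv
    by_contra h8
    obtain ⟨x, hx⟩ := exists_fog_right (σ := σ) h.unit h8
    refine hx ?_
    rw [toLin'_apply, ← h7, ← mulVec_mulVec, h.fog_adj, h6]
    exact hv _ ⟨x, rfl⟩
  · rintro i j hij _ ⟨u, rfl⟩ _ ⟨v, rfl⟩
    rw [toLin'_apply, toLin'_apply, h.fog_adj, h6, mulVec_mulVec, h3 i j hij]; simp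
  · obtain ⟨g, hg, e⟩ := h2 i
    obtain ⟨k, hk, e'⟩ := h2 j
    exact ⟨k * g⁻¹, mul_mem hk (inv_mem hg), by
      show (LinearMap.range (toLin' (η i))).map _ = LinearMap.range (toLin' (η j))
      rw [← range_cj, e, e', cj_mul, cj_inv_cj]⟩

theorem FD.PI_adj (h : FD σ B ε) {C : Subalgebra F (Matrix ι ι F)} (hC : AC σ B C)
    (hc : ∀ x ∈ C, ∀ y ∈ C, x * y = y * x) {e : Matrix ι ι F} (he : PI C e) : PI C (adj σ B e) :=
  ⟨hC e he.mem, by rw [← h.adj_mul, he.idem], mt h.adj_eq_zero.1 he.ne, fun e' h1 h2 => by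
    have := he.prim _ (hC e' h1) (by rw [← h.adj_mul, h2])
    rw [hc _ (hC e' h1) _ he.mem] at this
    refine this.imp (fun h3 => ?_) fun h3 => ?_
    · rw [← h.adj_adj e', ← h.adj_mul, h3, adj_zero]
    · rw [← h.adj_adj e', ← h.adj_mul, h3]⟩

theorem FD.imprim [Finite F] [Nonempty ι] (h : FD σ B ε) {G : Subgroup (GL ι F)} (hI : Irr G)
    (hG : G ≤ similarityGroup (formOfGram σ B)) {C : Subalgebra F (Matrix ι ι F)} (hC : AC σ B C)
    (hn : Nrm G C) (hc : ∀ x ∈ C, ∀ y ∈ C, x * y = y * x) :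
    (∃ (t k : ℕ) (D : Fin t → Submodule F (ι → F)),
      IsNondegenerateMDecomposition (formOfGram σ B) k D ∧ G ≤ decompositionStabilizer D ∧
        TrDec G D) ∨
    (∃ (k : ℕ) (D : Fin 2 → Submodule F (ι → F)), IsMDecomposition k D ∧
      (∀ i, IsTotallySingularFor (formOfGram σ B) (D i)) ∧ G ≤ decompositionStabilizer D ∧
      ∃ e, e + adj σ B e = 1 ∧ ∀ g ∈ G, cj g e = e ∨ cj g e = adj σ B e) ∨
    ∀ x ∈ C, x ≠ 0 → ∃ y ∈ C, x * y = 1 := by
  rcases field_or_PI hI hn hc with hf | ⟨e, he, he1⟩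
  · exact .inr (.inr hf)
  have hb := fun g hg => he.eq_or hc (he.cj hn (g := g) hg)
  have he' := h.PI_adj hC hc he
  rcases he.eq_or hc he' with h1 | h1
  · exact .inl (h.dec_of_selfadj hI hG he.idem he.ne he1 hb h1)
  have h1' : e * adj σ B e = 0 := by rw [hc _ he.mem _ he'.mem, h1]
  by_cases h2 : e + adj σ B e = 1
  · obtain ⟨t, m, η, h3, h4, h5, h6⟩ := exists_decomp hI he.idem he.ne he1 hb
    have h7' : ∀ g ∈ G, cj g e = e ∨ cj g e = adj σ B e := fun g hg => by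
      have h8 := he.cj hn hg
      rcases he.eq_or hc h8 with h9 | h9
      · exact .inl h9
      · refine .inr ((he'.eq_or hc h8).resolve_right fun h10 => h8.ne ?_)
        rw [← Matrix.mul_one (cj g e), ← h2, Matrix.mul_add, h9, h10, add_zero]
    have h7 : ∀ i, η i = e ∨ η i = adj σ B e := fun i => by
      obtain ⟨g, hg, e1⟩ := h3 i
      rw [e1]; exact h7' g hg
    have h8 : ∀ i j, η i = η j → i = j := fun i j hij => by
      by_contra hne
      have := h4 i j hne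
      rw [← hij] at this
      rcases h7 i with h9 | h9 <;> rw [h9] at this
      · exact he.ne (he.idem.symm.trans this)
      · exact he'.ne (he'.idem.symm.trans this)
    obtain rfl : t = 2 := le_antisymm (by
      by_contra hlt
      obtain ⟨i, j, k, hij, hik, hjk⟩ := (Fintype.two_lt_card_iff (α := Fin t)).1 (by simp; omega)
      rcases h7 i with a | a <;> rcases h7 j with b | b <;> rcases h7 k with c | c <;>
        first | exact hij (h8 _ _ (a.trans b.symm)) | exact hik (h8 _ _ (a.trans c.symm)) |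
          exact hjk (h8 _ _ (b.trans c.symm))) h5.two_le
    refine .inr (.inl ⟨m, _, h5, fun i => ?_, h6, e, h2, h7'⟩)
    rintro _ ⟨u, rfl⟩ _ ⟨v, rfl⟩
    rw [toLin'_apply, toLin'_apply, h.fog_adj, mulVec_mulVec]
    rcases h7 i with h9 | h9 <;> rw [h9]
    · rw [h1]; simp
    · rw [h.adj_adj, h1']; simp
  · refine .inl (h.dec_of_selfadj hI hG (e := e + adj σ B e) ?_ (fun h3 => he.ne ?_) h2
      (fun g hg => ?_) (by rw [adj_add, h.adj_adj, add_comm]))
    · simp only [Matrix.mul_add, Matrix.add_mul, he.idem, he'.idem, h1, h1', add_zero, zero_add]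
    · have := congrArg (e * ·) h3
      simpa [Matrix.mul_add, he.idem, h1'] using this
    · have h8 := he.cj hn hg
      rw [map_add, ← h.adj_cj (hG hg)]
      rcases he.eq_or hc h8 with h9 | h9
      · exact .inl (by rw [h9])
      rcases he'.eq_or hc h8 with h10 | h10
      · exact .inl (by rw [h10, h.adj_adj, add_comm])
      have h11 : adj σ B (cj g e) * adj σ B e = 0 := by
        rw [← h.adj_mul, hc _ he.mem _ h8.mem, h9, adj_zero]
      have h12 : adj σ B (cj g e) * e = 0 := by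
        rw [← h.adj_adj e, ← h.adj_mul, h.adj_adj, hc _ he'.mem _ h8.mem, h10, adj_zero]
      exact .inr (by simp only [Matrix.mul_add, Matrix.add_mul, h9, h10, h11, h12, add_zero])

end H23.As
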