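import Cfsg.Agent.H23.As14

/-!
Aschbacher's theorem, part 15: primitive groups preserving a form; fields and subfields.
-/

set_option autoImplicit false

namespace H23.As

open Matrix Module Cfsg Cfsg.Geo
open scoped MatrixGroups commutatorElement Kronecker

variable {ι : Type} [Fintype ι] [DecidableEq ι] {F : Type*} [Field F]
variable {σ : F →+* F} {B : Matrix ι ι F} {ε : F} {G : Subgroup (GL ι F)}

/-- An irreducible primitive group of similarities containing the scalars. -/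
structure PG (σ : F →+* F) (B : Matrix ι ι F) (G : Subgroup (GL ι F)) : Prop where
  sc : scalars ι F ≤ G
  sim : G ≤ similarityGroup (formOfGram σ B)
  irr : Irr G
  prim : Prim σ B G

/-- A normalised adjoint-closed extension field. -/
structure FldD (σ : F →+* F) (B : Matrix ι ι F) (G : Subgroup (GL ι F))
    (C : Subalgebra F (Matrix ι ι F)) : Prop where
  ac : AC σ B C
  nrm : Nrm G C
  comm : ∀ x ∈ C, ∀ y ∈ C, x * y = y * x
  inv : ∀ x ∈ C, x ≠ 0 → ∃ y ∈ C, x * y = 1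
  ex : ∃ z ∈ C, ¬ ∃ c : F, z = c • 1

theorem FD.level1 [Finite F] [Nonempty ι] (h : FD σ B ε) (hZ : scalars ι F ≤ G)
    (hG : G ≤ similarityGroup (formOfGram σ B)) (hI : Irr G) :
    (∃ (t k : ℕ) (D : Fin t → Submodule F (ι → F)),
      IsNondegenerateMDecomposition (formOfGram σ B) k D ∧ G ≤ decompositionStabilizer D ∧
        TrDec G D) ∨
    (∃ (k : ℕ) (D : Fin 2 → Submodule F (ι → F)), IsMDecomposition k D ∧
      (∀ i, IsTotallySingularFor (formOfGram σ B) (D i)) ∧ G ≤ decompositionStabilizer D ∧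
      ∃ e, e + adj σ B e = 1 ∧ ∀ g ∈ G, cj g e = e ∨ cj g e = adj σ B e) ∨
    (∃ C, FldD σ B G C) ∨ PG σ B G := by
  by_cases hP : Prim σ B G
  · exact .inr (.inr (.inr ⟨hZ, hG, hI, hP⟩))
  simp only [Prim, not_forall] at hP
  obtain ⟨C, h1, h2, h3, z, hz, hz'⟩ := hP
  exact (h.imprim hI hG h1 h2 h3).imp_right fun h4 => h4.imp_right fun h4 =>
    .inl ⟨C, h1, h2, h3, h4, z, hz, hz'⟩

theorem PG.mono {G' : Subgroup (GL ι F)} (h : PG σ B G) (hle : G ≤ G')
    (hs : G' ≤ similarityGroup (formOfGram σ B)) : PG σ B G' :=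
  ⟨h.sc.trans hle, hs, h.irr.mono hle, fun C h1 h2 => h.prim C h1 fun g hg => h2 g (hle hg)⟩

theorem PG.core [Finite F] (hF : FD σ B ε) (h : PG σ B G) (hn : 2 ≤ Fintype.card ι) :
    (∃ (d m : ℕ) (e : ι ≃ Fin d × Fin m) (P : GL ι F) (N : Subgroup (GL ι F)), TensD G e P N) ∨
    (∃ N ≤ G, MinN (scalars ι F) G N ∧ Ext N) ∨ (∃ P, QD G P) ∨
    ∃ (k t : ℕ) (e : ι ≃ (Fin t → Fin k)) (P : GL ι F), WrD G e P :=
  H23.As.core hn h.irr h.sc (h.prim.cs hF h.sim)

theorem Irr.isUnit_of_comm (hG : Irr G) {M : Matrix ι ι F} (hM : ∀ g ∈ G, M * g = g * M)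
    (h0 : M ≠ 0) : IsUnit M := by
  rcases hG (LinearMap.ker (toLin' M)) (fun g hg v hv => by
    simp only [LinearMap.mem_ker, toLin'_apply] at hv ⊢
    rw [mulVec_mulVec, hM g hg, ← mulVec_mulVec, hv, mulVec_zero]) with h | h
  · exact isUnit_toLin'_iff.1 ((LinearMap.isUnit_iff_ker_eq_bot _).2 h)
  · rw [LinearMap.ker_eq_top, ← toLin'.map_zero, toLin'.injective.eq_iff] at h
    exact (h0 h).elim

theorem Irr.ai_of_cs [Finite F] [Nonempty ι] (hG : Irr G) (hC : CS G) : AI G := by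
  obtain ⟨d, hd, φ, hφ⟩ := exists_range_eq hG (NG.self G).nrm (hC G le_rfl (NG.self G))
  haveI : Nonempty (Fin d) := ⟨⟨0, hd⟩⟩
  obtain ⟨m, hm⟩ := card_dvd_of_algHom φ
  rw [Fintype.card_fin] at hm
  have hι := Fintype.card_pos (α := ι)
  refine ai_of_card (show d = _ from ?_) hφ
  match m, hm with
  | 0, hm => omega
  | 1, hm => omega
  | m + 2, hm =>
    let e : ι ≃ Fin d × Fin (m + 2) := Fintype.equivOfCardEq (by simp [hm])
    obtain ⟨P, hP⟩ := exists_tr φ e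
    let E : Matrix (Fin (m + 2)) (Fin (m + 2)) F := single 0 0 1
    have h1 := hG.isUnit_of_comm (M := tr e P (1 ⊗ₖ E)) (fun g hg => by
      obtain ⟨Y, hY⟩ : (g : Matrix ι ι F) ∈ φ.range := hφ ▸ mem_algK hg
      rw [← hY]
      change _ * φ Y = φ Y * _
      rw [hP, ← map_mul, ← map_mul, ← mul_kronecker_mul, ← mul_kronecker_mul]; simp) (by
        rw [Ne, map_eq_zero_iff _ (tr e P).injective, ← kronecker_zero (1 : Matrix (Fin d) (Fin d) F)]
        exact fun h => by simpa [E] using congrFun (congrFun (one_kron_injective h) 0) 0)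
    have h2 : tr e P (1 ⊗ₖ E) * tr e P (1 ⊗ₖ E) = tr e P (1 ⊗ₖ E) * tr e P (1 ⊗ₖ 1) := by
      rw [← map_mul, ← map_mul, ← mul_kronecker_mul, ← mul_kronecker_mul]; simp [E]
    have := congrFun (congrFun (one_kron_injective ((tr e P).injective (h1.mul_left_cancel h2))) 1) 1
    simp [E] at this

theorem PG.ai [Finite F] [Nonempty ι] (hF : FD σ B ε) (h : PG σ B G) : AI G :=
  h.irr.ai_of_cs (h.prim.cs hF h.sim)

/-- A matrix normalised up to scalars, whose adjoint is a multiple of it, is a scalar. -/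
theorem Prim.scalar_of_smul (hF : FD σ B ε) (h : Prim σ B G) {j : Matrix ι ι F} {a : F}
    (h1 : adj σ B j = a • j) (h2 : ∀ g ∈ G, ∃ c : F, cj g j = c • j) : ∃ c : F, j = c • 1 := by
  have hj : j ∈ Algebra.adjoin F {j} := Algebra.subset_adjoin rfl
  refine h (Algebra.adjoin F {j}) (fun x hx => ?_) (fun g hg x hx => ?_) (fun x hx y hy => ?_) j hj
  · induction hx using Algebra.adjoin_induction with
    | mem x hx => rw [hx, h1]; exact Subalgebra.smul_mem _ hj _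
    | algebraMap c =>
      rw [Algebra.algebraMap_eq_smul_one, adj_smul, hF.adj_one]
      exact Subalgebra.smul_mem _ (one_mem _) _
    | add x y _ _ hx hy => rw [adj_add]; exact add_mem hx hy
    | mul x y _ _ hx hy => rw [hF.adj_mul]; exact mul_mem hy hx
  · obtain ⟨c, hc⟩ := h2 g hg
    have : (Algebra.adjoin F {j}).map (cj g).toAlgHom ≤ Algebra.adjoin F {j} := by
      rw [AlgHom.map_adjoin, Algebra.adjoin_le_iff]
      rintro _ ⟨y, hy, rfl⟩
      rw [hy]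
      exact (show cj g j ∈ Algebra.adjoin F {j} from hc ▸ Subalgebra.smul_mem _ hj _)
    exact this ⟨x, hx, rfl⟩
  · exact Algebra.commute_of_mem_adjoin_of_forall_mem_commute hy fun b hb =>
      (Algebra.commute_of_mem_adjoin_of_forall_mem_commute hx fun c hc => by
        rw [hb, hc]; exact Commute.refl _).symm

theorem fog_ratio (hB : IsUnit B) (B' : Matrix ι ι F) (u v : ι → F) :
    formOfGram σ B ((B' * B⁻¹)ᵀ *ᵥ u) v = formOfGram σ B' u v := by
  rw [fog_mulVec_left, transpose_transpose, Matrix.mul_assoc,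
    nonsing_inv_mul _ ((isUnit_iff_isUnit_det _).1 hB), Matrix.mul_one]

theorem eq_of_fog (hB : IsUnit B) {X Y : Matrix ι ι F}
    (h : ∀ u v, formOfGram σ B (X *ᵥ u) v = formOfGram σ B (Y *ᵥ u) v) : X = Y :=
  transpose_injective (hB.mul_right_cancel (fog_inj (σ := σ) fun u v => by
    rw [← fog_mulVec_left, ← fog_mulVec_left, h]))

/-- The multiplier relation. -/
def Mul (σ : F →+* F) (B : Matrix ι ι F) (g : GL ι F) (c : F) : Prop :=
  ∀ u v, formOfGram σ B ((g : Matrix ι ι F) *ᵥ u) ((g : Matrix ι ι F) *ᵥ v) = c * formOfGram σ B u v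

theorem mul_iff {g : GL ι F} {c : F} :
    Mul σ B g c ↔ (g : Matrix ι ι F)ᵀ * B * (g : Matrix ι ι F).map σ = c • B := by
  simp only [Mul, fog_mulVec, ← fog_smul]
  exact ⟨fog_inj, fun h _ _ => by rw [h]⟩

theorem cj_ratio (hB : IsUnit B) {B' : Matrix ι ι F} {g : GL ι F} {a b : F} (ha : Mul σ B g a)
    (hb : Mul σ B' g b) : b • cj g (B' * B⁻¹)ᵀ = a • (B' * B⁻¹)ᵀ :=
  eq_of_fog (σ := σ) hB fun u v => by
    rw [smul_mulVec, smul_mulVec, fog_smul_left, fog_smul_left, fog_ratio hB,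
      ← val_mulVec_inv_mulVec g u, ← val_mulVec_inv_mulVec g v, cj_mulVec, ha, hb, fog_ratio hB]
    ring

theorem eq_smul_of_ratio (hB : IsUnit B) {B' : Matrix ι ι F} {c : F} (h : (B' * B⁻¹)ᵀ = c • 1) :
    B' = c • B := fog_inj (σ := RingHom.id F) fun u v => by
  rw [← fog_ratio hB, h, smul_mulVec, one_mulVec, fog_smul_left, fog_smul]

/-- Two forms for the same automorphism preserved by a primitive group are proportional. -/
theorem PG.eq_smul (hF : FD σ B ε) (h : PG σ B G) {B' : Matrix ι ι F} {ε' : F}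
    (h1 : (B'.map σ)ᵀ = ε' • B') (h2 : G ≤ similarityGroup (formOfGram σ B')) :
    ∃ c : F, B' = c • B := by
  obtain ⟨c, hc⟩ := h.prim.scalar_of_smul hF (j := (B' * B⁻¹)ᵀ) (a := σ (σ ε' * ε))
    (hF.adj_eq fun u v => by
      rw [fog_ratio hF.unit, smul_mulVec, fog_smul_right, hF.invol,
        ← hF.invol (formOfGram σ B' u v), fog_swap hF.invol, h1, fog_smul, map_mul,
        ← fog_ratio hF.unit, hF.swap, mul_assoc]) fun g hg => by
    obtain ⟨a, ha⟩ := h.sim hg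
    obtain ⟨b, hb⟩ := h2 hg
    exact ⟨(b : F)⁻¹ * a, by
      rw [mul_smul, ← cj_ratio hF.unit ha hb, smul_smul, inv_mul_cancel₀ b.ne_zero, one_smul]⟩
  exact ⟨c, eq_smul_of_ratio hF.unit hc⟩

theorem AI.eq_smul' {N : Subgroup (GL ι F)} (h : AI N) (hB : IsUnit B) {B' : Matrix ι ι F}
    (h1 : ∀ x ∈ N, ∃ c, c ≠ 0 ∧ Mul σ B x c ∧ Mul σ B' x c) : ∃ c : F, B' = c • B := by
  obtain ⟨c, hc⟩ := h.scalar (M := (B' * B⁻¹)ᵀ) fun x hx => by
    obtain ⟨c, h0, h2, h3⟩ := h1 x hx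
    exact (cj_eq_iff.1 (smul_right_injective _ h0 (cj_ratio hB h2 h3))).symm
  exact ⟨c, eq_smul_of_ratio hB hc⟩

theorem Mul.ne_zero [Nonempty ι] (hB : IsUnit B) {g : GL ι F} {c : F} (h : Mul σ B g c) : c ≠ 0 := by
  rintro rfl
  have : IsUnit ((g : Matrix ι ι F)ᵀ * B * (g : Matrix ι ι F).map σ) :=
    (((isUnit_transpose _).2 g.isUnit).mul hB).mul (g.isUnit.map σ.mapMatrix)
  rw [mul_iff.1 h, zero_smul] at this
  exact not_isUnit_zero this

theorem Mul.pow {g : GL ι F} {c : F} (h : Mul σ B g c) (k : ℕ) : Mul σ B (g ^ k) (c ^ k) := by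
  induction k with
  | zero => intro u v; simp
  | succ k ih => intro u v; rw [pow_succ, Units.val_mul, ← mulVec_mulVec, ← mulVec_mulVec, ih, h]; ring

theorem Mul.unique [Nonempty ι] (hB : IsUnit B) {g : GL ι F} {c d : F} (h : Mul σ B g c)
    (h' : Mul σ B g d) : c = d :=
  smul_left_injective F hB.ne_zero ((mul_iff.1 h).symm.trans (mul_iff.1 h'))

theorem mul_one' : Mul σ B 1 1 := fun u v => by simp

theorem mul_of_Iso {g : GL ι F} (h : g ∈ Iso (formOfGram σ B)) : Mul σ B g 1 :=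
  fun u v => by rw [one_mul]; exact h u v

theorem trace_adj (hB : IsUnit B) (X : Matrix ι ι F) : (adj σ B X).trace = σ X.trace := by
  rw [adj, ← AddMonoidHom.map_trace σ, trace_mul_cycle,
    mul_nonsing_inv _ ((isUnit_iff_isUnit_det _).1 hB), Matrix.one_mul, trace_transpose]

theorem det_adj (hB : IsUnit B) (X : Matrix ι ι F) : (adj σ B X).det = σ X.det := by
  have := (isUnit_iff_isUnit_det _).1 hB
  rw [adj, ← RingHom.mapMatrix_apply, ← RingHom.map_det, det_mul, det_mul, det_transpose,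
    mul_right_comm, ← det_mul, nonsing_inv_mul _ this, det_one, one_mul]

theorem trace_fixed [Nonempty ι] (hF : FD σ B ε) {B' : Matrix ι ι F} {ε' : F}
    (hF' : FD (RingHom.id F) B' ε') {x : GL ι F} {c : F} (h1 : Mul σ B x c)
    (h2 : Mul (RingHom.id F) B' x c) : σ (x : Matrix ι ι F).trace = (x : Matrix ι ι F).trace := by
  rw [← trace_adj hF.unit, hF.adj_of_sim h1, hF.mult_fixed h1]
  exact (congrArg trace (hF'.adj_of_sim h2)).symm.trans (trace_adj hF'.unit _)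

/-! ### Extension fields -/

variable [Fintype F] [Nonempty ι] {C : Subalgebra F (Matrix ι ι F)}

theorem FldD.sub (hF : FD σ B ε) (h : FldD σ B G C) {d : ℕ} (hd : d ∣ finrank F C) :
    ∃ K : Subalgebra F (Matrix ι ι F), IsFieldSubalgebra d K ∧ Nrm G K ∧ AC σ B K ∧ K ≤ C ∧
      ∀ x ∈ K, x ^ (Fintype.card F ^ d) = x := by
  obtain ⟨K, h1, h2, h3⟩ := h.nrm.exists_field h.comm h.inv hd
  exact ⟨K, h1, h2, fun x hx => (h3 _).2 ⟨h.ac x ((h3 x).1 hx).1, by
    rw [← hF.adj_pow, ((h3 x).1 hx).2]⟩, fun x hx => ((h3 x).1 hx).1, fun x hx => ((h3 x).1 hx).2⟩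

omit [Fintype F] in
theorem FldD.exists_prime (h : FldD σ B G C) : ∃ r, r.Prime ∧ r ∣ finrank F C := by
  obtain ⟨z, hz, hz'⟩ := h.ex
  exact Nat.exists_prime_and_dvd (finrank_ne_one hz hz')

theorem not_ac_two (hF : FD σ B ε) (hσ : σ ≠ RingHom.id F) {K : Subalgebra F (Matrix ι ι F)}
    (hK : IsFieldSubalgebra 2 K) : ¬ AC σ B K := fun h => by
  letI := (IsFieldSubalgebra.isField hK).toField
  letI := Fintype.ofFinite K
  let τ : K →+* K :=
    { toFun := fun x => ⟨adj σ B x, h x x.2⟩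
      map_one' := Subtype.ext hF.adj_one
      map_mul' := fun x y => Subtype.ext ((hF.adj_mul _ _).trans (hK.comm _ (h _ y.2) _ (h _ x.2)))
      map_zero' := Subtype.ext adj_zero
      map_add' := fun x y => Subtype.ext (adj_add _ _) }
  obtain ⟨a, ha⟩ : ∃ a, σ a ≠ a := by
    by_contra hh; push Not at hh; exact hσ (RingHom.ext hh)
  have h1 : τ (algebraMap F K a) = algebraMap F K (σ a) := Subtype.ext (by
    change adj σ B (algebraMap F _ a) = algebraMap F _ _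
    rw [Algebra.algebraMap_eq_smul_one, Algebra.algebraMap_eq_smul_one, adj_smul, hF.adj_one])
  obtain ⟨s, h2, h3⟩ := exists_card_eq_sq_of_invol (σ := τ)
    (fun e => ha ((algebraMap F K).injective (by rw [← h1, e]; rfl)))
    fun x => Subtype.ext (hF.adj_adj _)
  rw [Module.card_eq_pow_finrank (K := F), hK.finrank_eq] at h2
  rw [h3, ← Nat.pow_left_injective two_ne_zero h2, ← map_pow, FiniteField.pow_card] at h1
  exact ha ((algebraMap F K).injective h1).symm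

theorem FldD.unitary (hF : FD σ B ε) (hσ : σ ≠ RingHom.id F) (h : FldD σ B G C) :
    ∃ (r : ℕ) (K : Subalgebra F (Matrix ι ι F)), r.Prime ∧ Odd r ∧ IsFieldSubalgebra r K ∧
      AC σ B K ∧ Nrm G K := by
  obtain ⟨r, hr, hd⟩ := h.exists_prime
  obtain ⟨K, h1, h2, h3, -⟩ := h.sub hF hd
  exact ⟨r, K, hr, hr.eq_two_or_odd'.resolve_left fun e => not_ac_two hF hσ (e ▸ h1) h3, h1, h3, h2⟩

/-- The self-adjoint part of a commutative algebra. -/
def saPart (hF : FD (RingHom.id F) B ε) (C : Subalgebra F (Matrix ι ι F))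
    (hc : ∀ x ∈ C, ∀ y ∈ C, x * y = y * x) : Subalgebra F (Matrix ι ι F) where
  carrier := {x | x ∈ C ∧ adj (RingHom.id F) B x = x}
  mul_mem' hx hy := ⟨mul_mem hx.1 hy.1, by rw [hF.adj_mul, hx.2, hy.2, hc _ hx.1 _ hy.1]⟩
  add_mem' hx hy := ⟨add_mem hx.1 hy.1, by rw [adj_add, hx.2, hy.2]⟩
  algebraMap_mem' c := ⟨C.algebraMap_mem c, by
    rw [Algebra.algebraMap_eq_smul_one, adj_smul, hF.adj_one]; rfl⟩

theorem FldD.bilin (hF : FD (RingHom.id F) B ε) (hG : G ≤ similarityGroup (fb B))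
    (h : FldD (RingHom.id F) B G C) :
    (∃ (r : ℕ) (K : Subalgebra F (Matrix ι ι F)), r.Prime ∧ IsFieldSubalgebra r K ∧ Nrm G K ∧
      (∀ k ∈ K, adj (RingHom.id F) B k = k) ∧ ∀ k ∈ K, k ^ (Fintype.card F ^ r) = k) ∨
    (IsFieldSubalgebra 2 C ∧ ∀ x ∈ C, adj (RingHom.id F) B x = x → ∃ c : F, x = c • 1) := by
  by_cases h0 : ∀ x ∈ C, adj (RingHom.id F) B x = x → ∃ c : F, x = c • 1
  · refine .inr ⟨⟨h.comm, h.inv, ?_⟩, h0⟩
    obtain ⟨z, hz, hz'⟩ := h.ex
    have hw : z - adj (RingHom.id F) B z ∈ C := sub_mem hz (h.ac z hz)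
    obtain ⟨w, hw1, hw2⟩ := h.inv _ hw fun e => hz' (h0 z hz (sub_eq_zero.1 e).symm)
    have hw3 : adj (RingHom.id F) B w = -w := by
      have := congrArg (adj (RingHom.id F) B) hw2
      rw [hF.adj_mul, adj_sub, hF.adj_adj, hF.adj_one, ← neg_sub, Matrix.mul_neg] at this
      rw [← Matrix.mul_one (adj _ B w), ← hw2, ← Matrix.mul_assoc, neg_eq_iff_eq_neg.1 this]; simp
    have hli : LinearIndependent F ![(1 : Matrix ι ι F), z] := LinearIndependent.pair_iff.2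
      fun a b hab => by
        have hb : b = 0 := by
          by_contra hb
          exact hz' ⟨-(b⁻¹ * a), smul_right_injective _ hb (by
            simp only [smul_neg, smul_smul, mul_inv_cancel_left₀ hb, neg_smul]
            exact eq_neg_of_add_eq_zero_right hab)⟩
        simpa [hb] using hab
    have : C.toSubmodule = Submodule.span F (Set.range ![(1 : Matrix ι ι F), z]) := by
      ext x
      rw [Matrix.range_cons, Matrix.range_cons_empty, Set.singleton_union, Submodule.mem_span_pair]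
      refine ⟨fun hx => ?_, ?_⟩
      · have hx' : x - adj (RingHom.id F) B x ∈ C := sub_mem hx (h.ac x hx)
        obtain ⟨a, ha⟩ := h0 _ (mul_mem hx' hw1) (by
          rw [hF.adj_mul, hw3, adj_sub, hF.adj_adj, ← neg_sub x, neg_mul_neg, h.comm _ hw1 _ hx'])
        have h1 : x - adj (RingHom.id F) B x = a • (z - adj (RingHom.id F) B z) := by
          rw [← Matrix.mul_one (x - _), ← hw2, h.comm _ hw _ hw1, ← Matrix.mul_assoc, ha]; simp
        obtain ⟨b, hb⟩ := h0 (x - a • z) (sub_mem hx (C.smul_mem hz a)) (by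
          rw [adj_sub, adj_smul, RingHom.id_apply]; linear_combination (norm := module) -h1)
        exact ⟨b, a, by rw [← hb]; simp⟩
      · rintro ⟨a, b, rfl⟩
        exact add_mem (C.smul_mem (one_mem _) a) (C.smul_mem hz b)
    rw [← Subalgebra.finrank_toSubmodule, this, finrank_span_eq_card hli, Fintype.card_fin]
  push Not at h0
  obtain ⟨z, hz1, hz2, hz3⟩ := h0
  have h1 : FldD (RingHom.id F) B G (saPart hF C h.comm) :=
    ⟨fun x hx => by rwa [hx.2], fun g hg x hx => ⟨h.nrm g hg x hx.1, by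
      rw [hF.adj_cj (hG hg), hx.2]⟩, fun x hx y hy => h.comm x hx.1 y hy.1, fun x hx h0 => by
        obtain ⟨y, hy, e⟩ := h.inv x hx.1 h0
        refine ⟨y, ⟨hy, ?_⟩, e⟩
        have := congrArg (adj (RingHom.id F) B) e
        rw [hF.adj_mul, hx.2, hF.adj_one] at this
        rw [← Matrix.mul_one (adj _ B y), ← e, ← Matrix.mul_assoc, this, Matrix.one_mul],
      z, ⟨hz1, hz2⟩, fun ⟨c, hc⟩ => hz3 c hc⟩
  obtain ⟨r, hr, hd⟩ := h1.exists_prime
  obtain ⟨K, h2, h3, -, h4, h5⟩ := h1.sub hF hd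
  exact .inl ⟨r, K, hr, h2, h3, fun k hk => (h4 hk).2, h5⟩

/-! ### Subfields -/

/-- The Gram matrix in the basis given by the columns of `P`. -/
def gP (σ : F →+* F) (B : Matrix ι ι F) (P : GL ι F) : Matrix ι ι F :=
  (P : Matrix ι ι F)ᵀ * B * (P : Matrix ι ι F).map σ

omit [Fintype F] [Nonempty ι] in
theorem fog_gP (P : GL ι F) (u v : ι → F) : formOfGram σ (gP σ B P) u v =
    formOfGram σ B ((P : Matrix ι ι F) *ᵥ u) ((P : Matrix ι ι F) *ᵥ v) := (fog_mulVec _ _ _ _ _).symm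

omit [Fintype F] [Nonempty ι] in
theorem FD.gP (h : FD σ B ε) (P : GL ι F) : FD σ (gP σ B P) ε :=
  ⟨h.invol, (((isUnit_transpose _).2 P.isUnit).mul h.unit).mul (P.isUnit.map σ.mapMatrix),
    fog_inj (σ := σ) fun u v => by rw [← fog_swap h.invol, fog_smul, fog_gP, fog_gP, h.swap], h.eps⟩

omit [Fintype F] [Nonempty ι] in
theorem Mul.gP {g : GL ι F} {c : F} (h : Mul σ B g c) (P : GL ι F) :
    Mul σ (gP σ B P) (P⁻¹ * g * P) c := fun u v => by
  simp only [fog_gP, Units.val_mul, ← mulVec_mulVec, val_mulVec_inv_mulVec, h _ _]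

omit [Fintype F] [Nonempty ι] in
theorem AI.cg {N : Subgroup (GL ι F)} (h : AI N) (g : GL ι F) : AI (cg g N) :=
  eq_top_iff.2 fun X _ => mem_alg_cg.2 ⟨cj g⁻¹ X, h ▸ Algebra.mem_top, by simp⟩

omit [Fintype F] [Nonempty ι] in
theorem Irr.cg (h : Irr G) (g : GL ι F) : Irr (cg g G) := fun W hW => by
  rcases h (W.comap (toLin' (g : Matrix ι ι F))) (fun x hx v hv => by
    have := hW _ (conj_mem_cg (g := g) hx) _ hv
    rwa [toLin'_apply, Units.val_mul, Units.val_mul, ← mulVec_mulVec, ← mulVec_mulVec,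
      val_inv_mulVec_mulVec] at this) with h1 | h1
  · refine .inl (eq_bot_iff.2 fun v hv => ?_)
    have : ((g⁻¹ : GL ι F) : Matrix ι ι F) *ᵥ v ∈ W.comap (toLin' (g : Matrix ι ι F)) := by
      rwa [Submodule.mem_comap, toLin'_apply, val_mulVec_inv_mulVec]
    rw [h1, Submodule.mem_bot] at this
    rw [← val_mulVec_inv_mulVec g v, this, mulVec_zero]; exact zero_mem _
  · refine .inr (eq_top_iff.2 fun v _ => ?_)
    have : ((g⁻¹ : GL ι F) : Matrix ι ι F) *ᵥ v ∈ W.comap (toLin' (g : Matrix ι ι F)) :=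
      h1 ▸ Submodule.mem_top
    rwa [Submodule.mem_comap, toLin'_apply, val_mulVec_inv_mulVec] at this

omit [Nonempty ι] in
theorem map_mem_subfield (hσ : ∀ a, σ (σ a) = a) (F₀ : Subfield F) {x : F} (hx : x ∈ F₀) :
    σ x ∈ F₀ := by
  by_cases h : σ = RingHom.id F
  · rwa [h]
  · obtain ⟨q, -, hq⟩ := exists_card_eq_sq_of_invol h hσ
    rw [hq]; exact pow_mem hx q

theorem AI.descent (hF : FD σ B ε) {N : Subgroup (GL ι F)} (h : AI N) {F₀ : Subfield F}
    {P : GL ι F} (hP : ∀ x ∈ N, Rat F₀ (cj P⁻¹ (x : Matrix ι ι F)))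
    (hm : ∀ x ∈ N, ∃ c ∈ F₀, Mul σ B x c) : ∃ ζ : F, ζ ≠ 0 ∧ Rat F₀ (ζ • gP σ B P) := by
  have hu := (hF.gP P).unit
  obtain ⟨i, j, hij⟩ : ∃ i j, gP σ B P i j ≠ 0 := by
    by_contra hh; push Not at hh; exact hu.ne_zero (Matrix.ext hh)
  obtain ⟨π, h1, h2⟩ := exists_proj F₀ hij
  obtain ⟨ζ, hζ⟩ := (h.cg P⁻¹).eq_smul' (σ := σ) hu (B' := (gP σ B P).map π) (by
    rintro _ ⟨x, hx, rfl⟩
    obtain ⟨c, hc, h3⟩ := hm x hx
    have h4 := h3.gP P
    have h5 := hP x hx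
    rw [cj_val, inv_inv] at h5
    refine ⟨c, h3.ne_zero hF.unit, by simpa using h4, mul_iff.2 ?_⟩
    simp only [MulEquiv.coe_toMonoidHom, MulAut.conj_apply, inv_inv]
    rw [← map_rat_mul π _ h5.transpose,
      ← map_mul_rat (N := Matrix.map _ σ) π _ fun i j => map_mem_subfield hF.invol F₀ (h5 i j),
      mul_iff.1 h4]
    ext i j
    exact π.map_smul ⟨c, hc⟩ _)
  refine ⟨ζ, ?_, fun i j => by rw [← hζ]; exact h2 _⟩
  rintro rfl
  exact h1 (by simpa using congrFun (congrFun hζ i) j)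

/-- The subfield class. -/
def C5D (σ : F →+* F) (B : Matrix ι ι F) (G : Subgroup (GL ι F)) : Prop :=
  ∃ (F₁ : Subfield F) (r : ℕ) (P : GL ι F) (ζ : F), r.Prime ∧ Fintype.card F = Nat.card F₁ ^ r ∧
    ζ ≠ 0 ∧ Rat F₁ (ζ • gP σ B P) ∧ G ≤ subfieldSubgroup F₁ P

theorem AI.c5D (hF : FD σ B ε) {N : Subgroup (GL ι F)} (h : AI N) (hn : NG G N) {F₀ : Subfield F}
    (h0 : F₀ ≠ ⊤) {P : GL ι F} (hP : ∀ x ∈ N, Rat F₀ (cj P⁻¹ (x : Matrix ι ι F)))
    (hm : ∀ x ∈ N, ∃ c ∈ F₀, Mul σ B x c) : C5D σ B G := by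
  obtain ⟨F₁, r, h1, h2, h3, h4⟩ := h.exists_c5 hn h0 hP
  obtain ⟨ζ, h5, h6⟩ := h.descent hF hP hm
  exact ⟨F₁, r, P, ζ, h1, h2, h5, fun i j => h3 (h6 i j), h4⟩

/-- The fixed field. -/
def fixF (σ : F →+* F) : Subfield F := σ.eqLocusField (RingHom.id F)

omit [Fintype F] in
theorem mem_fixF {x : F} : x ∈ fixF σ ↔ σ x = x := Iff.rfl

omit [Fintype F] in
theorem fixF_ne_top (h : σ ≠ RingHom.id F) : fixF σ ≠ ⊤ :=
  fun e => h (RingHom.ext fun x => (e ▸ Subfield.mem_top x : x ∈ fixF σ))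

theorem AI.c5D_herm (hF : FD σ B ε) (hσ : σ ≠ RingHom.id F) {B' : Matrix ι ι F} {ε' : F}
    (hF' : FD (RingHom.id F) B' ε') {N : Subgroup (GL ι F)} (h : AI N) (hn : NG G N)
    (hm : ∀ x ∈ N, ∃ c, Mul σ B x c ∧ Mul (RingHom.id F) B' x c) : C5D σ B G := by
  obtain ⟨P, hP⟩ := h.exists_rat (F₀ := fixF σ) fun x hx => by
    obtain ⟨c, h1, h2⟩ := hm x hx; exact trace_fixed hF hF' h1 h2
  exact h.c5D hF hn (fixF_ne_top hσ) hP fun x hx => by
    obtain ⟨c, h1, -⟩ := hm x hx; exact ⟨c, hF.mult_fixed h1, h1⟩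

theorem AI.c5D_bilin (hF : FD σ B ε) (hσ : σ ≠ RingHom.id F) {B' : Matrix ι ι F} {ε' : F}
    (hF' : FD (RingHom.id F) B' ε') {N : Subgroup (GL ι F)} (h : AI N) (hn : NG G N)
    (hm : ∀ x ∈ N, ∃ c, Mul σ B x c ∧ Mul (RingHom.id F) B' x c) : C5D (RingHom.id F) B' G := by
  obtain ⟨P, hP⟩ := h.exists_rat (F₀ := fixF σ) fun x hx => by
    obtain ⟨c, h1, h2⟩ := hm x hx; exact trace_fixed hF hF' h1 h2
  exact h.c5D hF' hn (fixF_ne_top hσ) hP fun x hx => by
    obtain ⟨c, h1, h2⟩ := hm x hx; exact ⟨c, hF.mult_fixed h1, h2⟩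

omit [Nonempty ι] in
theorem Rat.fog (hσ : ∀ a, σ (σ a) = a) {F₀ : Subfield F} (h : Rat F₀ B) {u v : ι → F}
    (hu : ∀ i, u i ∈ F₀) (hv : ∀ i, v i ∈ F₀) : formOfGram σ B u v ∈ F₀ :=
  sum_mem fun i _ => sum_mem fun j _ =>
    mul_mem (mul_mem (hu i) (h i j)) (map_mem_subfield hσ F₀ (hv j))

omit [Nonempty ι] in
theorem Rat.formRat (hσ : ∀ a, σ (σ a) = a) {F₀ : Subfield F} {ζ : F} {P : GL ι F}
    (h : Rat F₀ (ζ • gP σ B P)) : IsFormRationalStructure (formOfGram σ B) F₀ ζ P :=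
  fun u v hu hv => by rw [← fog_gP, ← fog_smul]; exact h.fog hσ hu hv

omit [Fintype F] [Nonempty ι] in
theorem gP_sc (c : Fˣ) (P : GL ι F) : gP σ B (sc c * P) = ((c : F) * σ c) • gP σ B P :=
  fog_inj (σ := σ) fun u v => by
    simp only [fog_gP, fog_smul, Units.val_mul, sc_val, ← mulVec_mulVec, smul_mulVec, one_mulVec,
      fog_smul_left, fog_smul_right]
    ring

omit [Fintype F] [Nonempty ι] in
theorem subfieldSubgroup_sc (F₀ : Subfield F) (c : Fˣ) (P : GL ι F) :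
    subfieldSubgroup F₀ (sc c * P) = subfieldSubgroup F₀ P := by
  ext g
  simp only [mem_subfieldSubgroup_iff, _root_.mul_inv_rev, cj_mul,
    cj_of_scalar (inv_mem (sc_mem c))]

end H23.As
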