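import Cfsg.Agent.H23.As15

/-!
Aschbacher's theorem, part 16: tensor factorisation of forms and factor groups.
-/

set_option autoImplicit false

namespace H23.As

open Matrix Module Cfsg Cfsg.Geo
open scoped MatrixGroups commutatorElement Kronecker

variable {ι : Type} [Fintype ι] [DecidableEq ι] {F : Type*} [Field F]
variable {κ μ : Type} [Fintype κ] [DecidableEq κ] [Fintype μ] [DecidableEq μ]
variable {σ : F →+* F} {B : Matrix ι ι F} {ε : F} {G : Subgroup (GL ι F)}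

theorem FD.mem_sim_of_cj [Nonempty ι] (h : FD σ B ε) {g : GL ι F}
    (hg : ∀ X, adj σ B (cj g X) = cj g (adj σ B X)) : g ∈ similarityGroup (formOfGram σ B) := by
  obtain ⟨c, hc⟩ := eq_smul_one_of_comm (M := adj σ B g * (g : Matrix ι ι F)) fun X => by
    have := congrArg (adj σ B) (cj_mul_val g (adj σ B X))
    rw [h.adj_mul, h.adj_mul, hg, h.adj_adj] at this
    rw [Matrix.mul_assoc, ← cj_mul_val, ← Matrix.mul_assoc, this, Matrix.mul_assoc]
  exact h.mem_sim_of_adj hc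

theorem adj_smul_form (hB : IsUnit B) {c : F} (hc : c ≠ 0) (X : Matrix ι ι F) :
    adj σ (c • B) X = adj σ B X := by
  have := (isUnit_iff_isUnit_det _).1 hB
  rw [adj, adj, inv_eq_left_inv (A := c • B) (B := c⁻¹ • B⁻¹) (by
    rw [smul_mul_smul_comm, inv_mul_cancel₀ hc, nonsing_inv_mul _ this, one_smul])]
  simp [smul_smul, hc]

theorem eq_smul_of_adj {B' : Matrix ι ι F} (hB : IsUnit B) (hB' : IsUnit B')
    (h : ∀ X, adj σ B X = adj σ B' X) : ∃ c : F, B' = c • B := by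
  have h1 := (isUnit_iff_isUnit_det _).1 hB
  have h2 := (isUnit_iff_isUnit_det _).1 hB'
  obtain ⟨c, hc⟩ := eq_smul_one_of_comm (M := B' * B⁻¹) fun X => by
    have : B⁻¹ * X * B = B'⁻¹ * X * B' := by
      ext i j; exact σ.injective (congrFun (congrFun (h Xᵀ) i) j)
    rw [← mul_nonsing_inv_cancel_right B (B' * B⁻¹ * X) h1, Matrix.mul_assoc B',
      Matrix.mul_assoc B', this]
    simp only [← Matrix.mul_assoc, mul_nonsing_inv _ h2, Matrix.one_mul]
  exact ⟨c, by rw [← nonsing_inv_mul_cancel_right B B' h1, hc]; simp⟩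

/-! ### Factor groups -/

/-- The embedding of general linear groups induced by an algebra map. -/
def uH (ψ : Matrix κ κ F →ₐ[F] Matrix ι ι F) : GL κ F →* GL ι F :=
  Units.map (ψ : Matrix κ κ F →* Matrix ι ι F)

@[simp] theorem uH_val (ψ : Matrix κ κ F →ₐ[F] Matrix ι ι F) (a : GL κ F) :
    ((uH ψ a : GL ι F) : Matrix ι ι F) = ψ a := rfl

theorem uH_sc (ψ : Matrix κ κ F →ₐ[F] Matrix ι ι F) (c : Fˣ) : uH ψ (sc c) = sc c :=
  Units.ext (by simp [sc_val])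

theorem uH_injective [Nonempty ι] (ψ : Matrix κ κ F →ₐ[F] Matrix ι ι F) :
    Function.Injective (uH ψ) := Units.map_injective (algHom_injective ψ)

theorem cj_uH (ψ : Matrix κ κ F →ₐ[F] Matrix ι ι F) (a : GL κ F) (X : Matrix κ κ F) :
    cj (uH ψ a) (ψ X) = ψ (cj a X) := by
  rw [cj_apply, cj_apply, ← map_inv, uH_val, uH_val, map_mul, map_mul]

theorem AI.range_le {R : Subgroup (GL κ F)} (h : AI R) {ψ : Matrix κ κ F →ₐ[F] Matrix ι ι F}
    {S : Subgroup (GL ι F)} (hS : ∀ a ∈ R, uH ψ a ∈ S) (X : Matrix κ κ F) : ψ X ∈ alg S :=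
  h.induction (p := fun X => ψ X ∈ alg S) (fun a ha => mem_algK (hS a ha)) (by simp)
    (fun X Y h1 h2 => by rw [map_add]; exact add_mem h1 h2)
    (fun c X h1 => by rw [map_smul]; exact Subalgebra.smul_mem _ h1 c) X

theorem exists_comap [Nonempty ι] {ψ : Matrix κ κ F →ₐ[F] Matrix ι ι F} {T : Subgroup (GL ι F)}
    (h : ∀ X, X ∈ alg T ↔ ∃ Y, X = ψ Y) : (T.comap (uH ψ)).map (uH ψ) = T ∧ AI (T.comap (uH ψ)) := by
  have key : ∀ x ∈ T, ∃ y, uH ψ y = x := fun x hx => by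
    obtain ⟨Y, hY⟩ := (h _).1 (mem_algK hx)
    obtain ⟨Y', hY'⟩ := (h _).1 (mem_algK (inv_mem hx))
    exact ⟨⟨Y, Y', algHom_injective ψ (by rw [map_mul, ← hY, ← hY']; simp),
      algHom_injective ψ (by rw [map_mul, ← hY, ← hY']; simp)⟩, Units.ext hY.symm⟩
  refine ⟨Subgroup.map_comap_eq_self key, eq_top_iff.2 fun Y _ => ?_⟩
  obtain ⟨Y', h1, h2⟩ := algK_induction (p := fun X => ∃ Y ∈ alg (T.comap (uH ψ)), X = ψ Y)
    (fun x hx => by
      obtain ⟨y, rfl⟩ := key x hx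
      exact ⟨y, mem_algK hx, rfl⟩) ⟨0, zero_mem _, by simp⟩
    (by rintro _ _ ⟨X, h1, rfl⟩ ⟨Y, h2, rfl⟩; exact ⟨X + Y, add_mem h1 h2, by simp⟩)
    (by rintro c _ ⟨X, h1, rfl⟩; exact ⟨c • X, Subalgebra.smul_mem _ h1 c, by simp⟩)
    ((h _).2 ⟨Y, rfl⟩)
  rwa [algHom_injective ψ h2]

/-- The group induced on a normalised matrix subalgebra. -/
def fac (G : Subgroup (GL ι F)) (ψ : Matrix κ κ F →ₐ[F] Matrix ι ι F) : Subgroup (GL κ F) where
  carrier := {a | ∃ g ∈ G, ∀ X, cj g (ψ X) = ψ (cj a X)}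
  mul_mem' := by
    rintro a b ⟨g, hg, h1⟩ ⟨k, hk, h2⟩
    exact ⟨g * k, mul_mem hg hk, fun X => by rw [cj_mul, cj_mul, h2, h1]⟩
  one_mem' := ⟨1, one_mem _, by simp⟩
  inv_mem' := by
    rintro a ⟨g, hg, h1⟩
    exact ⟨g⁻¹, inv_mem hg, fun X => by rw [← cj_cj_inv a X, ← h1]; simp⟩

theorem Nrm.exists_fac [Nonempty ι] {ψ : Matrix κ κ F →ₐ[F] Matrix ι ι F} (h : Nrm G ψ.range)
    {g : GL ι F} (hg : g ∈ G) : ∃ a ∈ fac G ψ, ∀ X, cj g (ψ X) = ψ (cj a X) := by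
  obtain ⟨a, ha⟩ := exists_cj_of_range ((cj g).toAlgHom.comp ψ) ψ fun X =>
    (h g hg _ ⟨X, rfl⟩).imp fun _ => Eq.symm
  exact ⟨a, ⟨g, hg, ha⟩, ha⟩

theorem PG.fac [Nonempty ι] [Nonempty κ] (hF : FD σ B ε) (h : PG σ B G) {B₁ : Matrix κ κ F} {ε₁ : F}
    (hF₁ : FD σ B₁ ε₁) {ψ : Matrix κ κ F →ₐ[F] Matrix ι ι F}
    (ha : ∀ X, adj σ B (ψ X) = ψ (adj σ B₁ X)) (hn : Nrm G ψ.range) : PG σ B₁ (fac G ψ) where
  sc a ha := ⟨1, one_mem _, fun X => by rw [cj_one, cj_of_scalar ha]⟩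
  sim a := fun ⟨g, hg, h1⟩ => hF₁.mem_sim_of_cj fun X => algHom_injective ψ (by
    rw [← ha, ← h1, ← h1, ← ha, hF.adj_cj (h.sim hg)])
  irr W hW := by
    rcases h.irr (Submodule.span F {w | ∃ X v, (∀ u, X *ᵥ u ∈ W) ∧ w = ψ X *ᵥ v}) (fun g hg v hv => by
      obtain ⟨a, h1, h2⟩ := hn.exists_fac hg
      refine Submodule.mem_comap.1
        ((Submodule.span_le (p := Submodule.comap (toLin' (g : Matrix ι ι F)) _)).2 ?_ hv)
      rintro _ ⟨X, v, h3, rfl⟩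
      refine Submodule.subset_span ⟨cj a X, _, fun u => ?_, by rw [toLin'_apply, ← cj_mulVec, h2]⟩
      rw [← val_mulVec_inv_mulVec a u, cj_mulVec]
      exact hW a h1 _ (h3 _)) with h1 | h1
    · refine .inl (eq_bot_iff.2 fun w hw => ?_)
      have : ψ (vecMulVec w 1) = ψ 0 := ext_mulVec fun v => by
        rw [map_zero, zero_mulVec, ← Submodule.mem_bot F, ← h1]
        exact Submodule.subset_span ⟨_, v, fun u => by
          rw [vecMulVec_mulVec, op_smul_eq_smul]; exact W.smul_mem _ hw, rfl⟩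
      ext i
      simpa using congrFun (congrFun (algHom_injective ψ this) i) (Classical.arbitrary κ)
    · refine .inr (by_contra fun h2 => ?_)
      obtain ⟨φ, h3, h4⟩ := W.exists_dual_map_eq_bot_of_lt_top (lt_top_iff_ne_top.2 h2)
        inferInstance
      let Y : Matrix κ κ F := LinearMap.toMatrix' (φ.smulRight 1)
      have h5 : ψ Y = ψ 0 := ext_mulVec fun v => by
        refine (Submodule.span_le (p := LinearMap.ker (toLin' (ψ Y))) |>.2 ?_
          (h1 ▸ Submodule.mem_top : v ∈ _) : v ∈ LinearMap.ker (toLin' (ψ Y))).trans (by simp)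
        rintro _ ⟨X, v, h6, rfl⟩
        have : Y * X = 0 := ext_mulVec fun u => by
          have : φ (X *ᵥ u) = 0 := by rw [← Submodule.mem_bot F, ← h4]; exact ⟨_, h6 u, rfl⟩
          rw [← mulVec_mulVec, LinearMap.toMatrix'_mulVec]; simp [this]
        simp [← map_mul, this]
      refine h3 (LinearMap.ext fun v => ?_)
      have := congrFun (congrArg (· *ᵥ v) (algHom_injective ψ h5)) (Classical.arbitrary κ)
      simpa [Y] using this
  prim C h1 h2 h3 z hz := by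
    obtain ⟨c, hc⟩ := h.prim (C.map ψ) (by rintro _ ⟨X, hX, rfl⟩; exact ⟨_, h1 X hX, (ha X).symm⟩)
      (by
        rintro g hg _ ⟨X, hX, rfl⟩
        obtain ⟨a, h4, h5⟩ := hn.exists_fac hg
        exact ⟨_, h2 a h4 X hX, (h5 X).symm⟩)
      (by
        rintro _ ⟨X, hX, rfl⟩ _ ⟨Y, hY, rfl⟩
        exact (map_mul ψ X Y).symm.trans ((congrArg ψ (h3 X hX Y hY)).trans (map_mul ψ Y X)))
      _ ⟨z, hz, rfl⟩
    exact ⟨c, algHom_injective ψ (hc.trans (by simp))⟩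

/-! ### Transport and Kronecker products -/

section Tr

variable {e : ι ≃ κ} {P : GL ι F} {B₀ : Matrix κ κ F}

theorem TrF.fd (h : TrF σ e P B B₀) (hF : FD σ B ε) : FD σ B₀ ε :=
  ⟨hF.invol, h.isUnit_iff.1 hF.unit, ((h.swap hF.invol).eq_iff (h.smul ε)).1 hF.herm, hF.eps⟩

theorem TrF.adj (h : TrF σ e P B B₀) (hF : FD σ B ε) (X : Matrix κ κ F) :
    adj σ B (tr e P X) = tr e P (adj σ B₀ X) := hF.adj_eq fun u v => by
  obtain ⟨x, rfl⟩ := exists_coord e P u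
  obtain ⟨y, rfl⟩ := exists_coord e P v
  rw [tr_mulVec, tr_mulVec, h, h, (h.fd hF).fog_adj]

theorem TrF.change (h : TrF σ e P B B₀) (a : GL κ F) : TrF σ e (trG e P a * P) B (gP σ B₀ a) :=
  fun x y => by
    rw [Units.val_mul, ← mulVec_mulVec, ← mulVec_mulVec, trG_val, tr_mulVec, tr_mulVec, h, fog_gP]

theorem tr_change (a : GL κ F) (X : Matrix κ κ F) : tr e (trG e P a * P) X = tr e P (cj a X) := by
  rw [← cj_trG, tr_apply, tr_apply, cj_mul]

end Tr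

theorem FD.cj_inv (hF : FD σ B ε) (X : Matrix ι ι F) :
    cj hF.unit.unit⁻¹ X = (adj σ B Xᵀ).map σ := by
  rw [adj, hF.map_map, cj_apply, inv_inv, coe_units_inv, IsUnit.unit_spec, transpose_transpose]

omit [Fintype κ] [DecidableEq κ] [Fintype μ] [DecidableEq μ] in
theorem kron_map (X : Matrix κ κ F) (Y : Matrix μ μ F) : (X ⊗ₖ Y).map σ = X.map σ ⊗ₖ Y.map σ := by
  ext; simp

omit [Fintype κ] [DecidableEq κ] [Fintype μ] [DecidableEq μ] in
theorem exists_smul_of_kron {A C : Matrix κ κ F} {A' C' : Matrix μ μ F} (h : A ⊗ₖ A' = C ⊗ₖ C')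
    (h0 : A' ≠ 0) : ∃ c : F, A = c • C := by
  obtain ⟨i, j, hij⟩ : ∃ i j, A' i j ≠ 0 := by
    by_contra hh; push Not at hh; exact h0 (Matrix.ext hh)
  refine ⟨C' i j / A' i j, Matrix.ext fun a b => ?_⟩
  have := congrFun (congrFun h (a, i)) (b, j)
  simp only [kroneckerMap_apply] at this
  rw [Matrix.smul_apply, smul_eq_mul]; field_simp; linear_combination this

theorem adj_kron (B₁ X : Matrix κ κ F) (B₂ Y : Matrix μ μ F) :
    adj σ (B₁ ⊗ₖ B₂) (X ⊗ₖ Y) = adj σ B₁ X ⊗ₖ adj σ B₂ Y := by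
  rw [adj, adj, adj, inv_kronecker, ← kroneckerMap_transpose, ← mul_kronecker_mul,
    ← mul_kronecker_mul, kron_map]

/-- A tensor decomposition compatible with the form. -/
structure TenF (σ : F →+* F) (B : Matrix ι ι F) (G : Subgroup (GL ι F)) (e : ι ≃ κ × μ)
    (P : GL ι F) (B₁ : Matrix κ κ F) (B₂ : Matrix μ μ F) (ε₁ ε₂ : F) : Prop where
  fd₁ : FD σ B₁ ε₁
  fd₂ : FD σ B₂ ε₂
  trf : TrF σ e P B (B₁ ⊗ₖ B₂)
  le : ∀ g ∈ G, ∃ a b, g = trG e P (kronG a b)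

/-- The left tensor factor. -/
def tL (e : ι ≃ κ × μ) (P : GL ι F) : Matrix κ κ F →ₐ[F] Matrix ι ι F :=
  (tr e P).toAlgHom.comp (kronL κ μ F)

/-- The right tensor factor. -/
def tR (e : ι ≃ κ × μ) (P : GL ι F) : Matrix μ μ F →ₐ[F] Matrix ι ι F :=
  (tr e P).toAlgHom.comp (kronR κ μ F)

theorem tL_apply (e : ι ≃ κ × μ) (P : GL ι F) (X : Matrix κ κ F) :
    tL e P X = tr e P (X ⊗ₖ (1 : Matrix μ μ F)) := rfl

theorem tR_apply (e : ι ≃ κ × μ) (P : GL ι F) (Y : Matrix μ μ F) :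
    tR e P Y = tr e P ((1 : Matrix κ κ F) ⊗ₖ Y) := rfl

theorem tL_mul_tR (e : ι ≃ κ × μ) (P : GL ι F) (X : Matrix κ κ F) (Y : Matrix μ μ F) :
    tL e P X * tR e P Y = tr e P (X ⊗ₖ Y) := by
  rw [tL_apply, tR_apply, ← map_mul, ← mul_kronecker_mul]; simp

theorem tR_mul_tL (e : ι ≃ κ × μ) (P : GL ι F) (X : Matrix κ κ F) (Y : Matrix μ μ F) :
    tR e P Y * tL e P X = tr e P (X ⊗ₖ Y) := by
  rw [tL_apply, tR_apply, ← map_mul, ← mul_kronecker_mul]; simp

theorem TensD.tenF (hF : FD σ B ε) (hG : G ≤ similarityGroup (formOfGram σ B)) {d m : ℕ}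
    {e : ι ≃ Fin d × Fin m} {P : GL ι F} {N : Subgroup (GL ι F)} (h : TensD G e P N) :
    ∃ B₁ B₂ ε₁ ε₂, TenF σ B G e P B₁ B₂ ε₁ ε₂ := by
  haveI : Nonempty (Fin d) := ⟨⟨0, by have := h.two_d; omega⟩⟩
  haveI : Nonempty (Fin m) := ⟨⟨0, by have := h.two_m; omega⟩⟩
  obtain ⟨B₀, hT⟩ := exists_trF_right σ e P B
  have h0 := hT.fd hF
  obtain ⟨a, b, hab⟩ := exists_kronG (g := h0.unit.unit⁻¹) fun X => by
    obtain ⟨Y, hY⟩ := (h.alg_eq _).1 (hF.ac_alg (h.le.trans hG) _ ((h.alg_eq _).2 ⟨Xᵀ, rfl⟩))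
    rw [hT.adj hF, (tr e P).injective.eq_iff] at hY
    refine ⟨Y.map σ, ?_⟩
    rw [h0.cj_inv, ← kroneckerMap_transpose, transpose_one, hY, kron_map]; simp
  have h1 : B₀ = ((a⁻¹ : GL _ F) : Matrix _ _ F) ⊗ₖ ((b⁻¹ : GL _ F) : Matrix _ _ F) := by
    rw [← h0.unit.unit_spec, ← inv_inv h0.unit.unit, hab]; rfl
  have h2 := h0.herm
  rw [h1, kron_map, ← kroneckerMap_transpose] at h2
  have hu : ∀ {α : Type} [Fintype α] [DecidableEq α] [Nonempty α] (a : GL α F),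
      ((a : Matrix α α F).map σ)ᵀ ≠ 0 :=
    fun a => ((isUnit_transpose _).2 (a.isUnit.map σ.mapMatrix)).ne_zero
  obtain ⟨ε₁, h3⟩ := exists_smul_of_kron (h2.trans (kronecker_smul _ _ _).symm) (hu _)
  obtain ⟨ε₂, h4⟩ := exists_smul_of_kron (κ := Fin m) (μ := Fin d) (Matrix.ext fun p p' => by
    have := congrFun (congrFun (h2.trans (smul_kronecker _ _ _).symm) p.swap) p'.swap
    exact (mul_comm _ _).trans (this.trans (mul_comm _ _))) (hu _)
  exact ⟨_, _, ε₁, ε₂, ⟨hF.invol, Units.isUnit _, h3, by rintro rfl; exact hu _ (h3.trans (zero_smul _ _))⟩,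
    ⟨hF.invol, Units.isUnit _, h4, by rintro rfl; exact hu _ (h4.trans (zero_smul _ _))⟩, h1 ▸ hT,
    fun g hg => mem_tensorProductSubgroup_iff.1 (h.le_tensor hg)⟩

namespace TenF

variable {e : ι ≃ κ × μ} {P : GL ι F} {B₁ : Matrix κ κ F} {B₂ : Matrix μ μ F} {ε₁ ε₂ : F}
variable (h : TenF σ B G e P B₁ B₂ ε₁ ε₂)
include h

theorem swap : TenF σ B G (e.trans (Equiv.prodComm κ μ)) P B₂ B₁ ε₂ ε₁ :=
  ⟨h.fd₂, h.fd₁, fun x y => by
    rw [← fog_submatrix (Equiv.prodComm κ μ)]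
    exact (h.trf (x ∘ Equiv.prodComm κ μ) (y ∘ Equiv.prodComm κ μ)).trans
      (by congr 1; ext; simp [mul_comm]), fun g hg => by
    obtain ⟨a, b, rfl⟩ := h.le g hg
    exact ⟨b, a, Units.ext (tr_kron_swap _ _ _ _)⟩⟩

theorem eps_mul [Nonempty κ] [Nonempty μ] (hF : FD σ B ε) : ε₁ * ε₂ = ε := by
  have h0 := h.trf.fd hF
  have := h0.herm
  rw [kron_map, ← kroneckerMap_transpose, h.fd₁.herm, h.fd₂.herm, smul_kronecker, kronecker_smul,
    smul_smul] at this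
  exact smul_left_injective F h0.unit.ne_zero this

theorem adj_tL (hF : FD σ B ε) (X : Matrix κ κ F) : adj σ B (tL e P X) = tL e P (adj σ B₁ X) := by
  rw [tL_apply, h.trf.adj hF, adj_kron, h.fd₂.adj_one, tL_apply]

theorem adj_tR (hF : FD σ B ε) (Y : Matrix μ μ F) : adj σ B (tR e P Y) = tR e P (adj σ B₂ Y) := by
  rw [tR_apply, h.trf.adj hF, adj_kron, h.fd₁.adj_one, tR_apply]

theorem nrm_tL : Nrm G (tL e P).range := by
  rintro g hg _ ⟨X, rfl⟩
  obtain ⟨a, b, rfl⟩ := h.le g hg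
  refine ⟨cj a X, ?_⟩
  change tL e P _ = cj _ (tL e P _)
  rw [tL_apply, tL_apply, cj_trG, cj_kronG, map_one]

theorem nrm_tR : Nrm G (tR e P).range := by
  rintro g hg _ ⟨X, rfl⟩
  obtain ⟨a, b, rfl⟩ := h.le g hg
  refine ⟨cj b X, ?_⟩
  change tR e P _ = cj _ (tR e P _)
  rw [tR_apply, tR_apply, cj_trG, cj_kronG, map_one]

variable [Nonempty κ] [Nonempty μ]

theorem pgL (hF : FD σ B ε) (hG : PG σ B G) : PG σ B₁ (fac G (tL e P)) :=
  haveI := e.nonempty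
  hG.fac hF h.fd₁ (h.adj_tL hF) h.nrm_tL

theorem pgR (hF : FD σ B ε) (hG : PG σ B G) : PG σ B₂ (fac G (tR e P)) :=
  haveI := e.nonempty
  hG.fac hF h.fd₂ (h.adj_tR hF) h.nrm_tR

omit h [Nonempty κ] [Nonempty μ] in
theorem mem_fac {a : GL κ F} {b : GL μ F} (hg : trG e P (kronG a b) ∈ G) :
    a ∈ fac G (tL e P) ∧ b ∈ fac G (tR e P) :=
  ⟨⟨_, hg, fun X => by rw [tL_apply, tL_apply, cj_trG, cj_kronG, map_one]⟩,
    ⟨_, hg, fun X => by rw [tR_apply, tR_apply, cj_trG, cj_kronG, map_one]⟩⟩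

omit [Nonempty κ] [Nonempty μ] in
theorem change (a : GL κ F) (b : GL μ F) :
    TenF σ B G e (trG e P (kronG a b) * P) (gP σ B₁ a) (gP σ B₂ b) ε₁ ε₂ :=
  ⟨h.fd₁.gP a, h.fd₂.gP b, by
    have := h.trf.change (kronG a b)
    rwa [gP, kronG_val, kron_map, ← kroneckerMap_transpose, ← mul_kronecker_mul,
      ← mul_kronecker_mul] at this, fun g hg => by
    obtain ⟨x, y, rfl⟩ := h.le g hg
    refine ⟨a⁻¹ * x * a, b⁻¹ * y * b, Units.ext ?_⟩
    rw [trG_val, trG_val, tr_change, kronG_val, kronG_val, cj_kronG, cj_val, cj_val]; simp [mul_assoc]⟩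

omit [Nonempty κ] [Nonempty μ] in
theorem tensorForm {B₁' : Matrix κ κ F} {B₂' : Matrix μ μ F} {c d : F} (h1 : B₁ = c • B₁')
    (h2 : B₂ = d • B₂') (x y : κ × μ → F) :
    formOfGram σ B ((P : Matrix ι ι F) *ᵥ (x ∘ e)) ((P : Matrix ι ι F) *ᵥ (y ∘ e)) =
      c * d * formOfGram σ (gramMatrix (formOfGram σ B₁') ⊗ₖ gramMatrix (formOfGram σ B₂')) x y := by
  rw [h.trf, h1, h2, gram_fog, gram_fog, smul_kronecker, kronecker_smul, smul_smul, fog_smul]

end TenF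

theorem TenF.le_tensor {d m : ℕ} {e : ι ≃ Fin d × Fin m} {P : GL ι F} {B₁ B₂} {ε₁ ε₂ : F}
    (h : TenF σ B G e P B₁ B₂ ε₁ ε₂) : G ≤ tensorProductSubgroup d m e P :=
  fun g hg => mem_tensorProductSubgroup_iff.2 (h.le g hg)

theorem TenF.powerForm {d : ℕ} {e : ι ≃ Fin d × Fin d} {P : GL ι F} {B₁ B₂} {ε₁ ε₂ : F}
    (h : TenF σ B G e P B₁ B₂ ε₁ ε₂) {B' : Matrix (Fin d) (Fin d) F} {c c' : F} (hc : c ≠ 0)
    (hc' : c' ≠ 0) (h1 : B₁ = c • B') (h2 : B₂ = c' • B') :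
    IsTensorPowerFormStructure σ (formOfGram σ B) (formOfGram σ B')
      (e.trans (finTwoArrowEquiv _).symm) P :=
  ⟨c * c', mul_ne_zero hc hc', fun x y => by
    have := h.trf (x ∘ (finTwoArrowEquiv _).symm) (y ∘ (finTwoArrowEquiv _).symm)
    rw [h1, h2, smul_kronecker, kronecker_smul, smul_smul, fog_smul] at this
    refine this.trans (congrArg _ ?_)
    rw [gram_fog]
    refine Eq.trans ?_ (fog_submatrix (finTwoArrowEquiv _).symm (ptens fun _ => B') x y)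
    congr 1; ext; simp [ptens_apply, Fin.prod_univ_two]⟩

/-! ### Tensor powers -/

variable {t : ℕ}

theorem ptens_inv {B : Fin t → Matrix κ κ F} (h : ∀ i, IsUnit (B i)) :
    (ptens B)⁻¹ = ptens fun i => (B i)⁻¹ :=
  inv_eq_left_inv (by
    simp only [ptens_mul, fun i => nonsing_inv_mul _ ((isUnit_iff_isUnit_det _).1 (h i)), ptens_one])

theorem adj_slot {B : Fin t → Matrix κ κ F} (h : ∀ i, IsUnit (B i)) (i : Fin t) (X : Matrix κ κ F) :
    adj σ (ptens B) (slot i X) = slot i (adj σ (B i) X) := by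
  rw [adj, ptens_inv h, slot_apply, ptens_transpose, ptens_mul, ptens_mul, ptens_map, slot_apply]
  congr 1
  ext1 j
  by_cases hj : j = i
  · subst hj; simp [adj]
  · simp [Function.update_of_ne hj, nonsing_inv_mul _ ((isUnit_iff_isUnit_det _).1 (h j))]

theorem slot_transpose (i : Fin t) (X : Matrix κ κ F) : (slot i X)ᵀ = slot i Xᵀ := by
  rw [slot_apply, slot_apply, ptens_transpose]
  congr 1
  ext1 j
  by_cases hj : j = i
  · subst hj; simp
  · simp [Function.update_of_ne hj]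

theorem slot_map (i : Fin t) (X : Matrix κ κ F) : (slot i X).map σ = slot i (X.map σ) := by
  rw [slot_apply, slot_apply, ptens_map]
  congr 1
  ext1 j
  by_cases hj : j = i
  · subst hj; simp
  · simp [Function.update_of_ne hj]

/-- A tensor power decomposition compatible with the form. -/
structure WrF (σ : F →+* F) (B : Matrix ι ι F) (e : ι ≃ (Fin t → κ)) (P : GL ι F)
    (B₁ : Matrix κ κ F) (ε₁ c : F) : Prop where
  fd : FD σ B₁ ε₁
  ne : c ≠ 0
  trf : TrF σ e P B (c • ptens fun _ => B₁)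
  perf : ∃ T ≤ Iso (formOfGram σ B₁), ⁅T, T⁆ = T ∧ AI T

theorem WrD.wrF (hF : FD σ B ε) (hG : G ≤ similarityGroup (formOfGram σ B)) {k : ℕ}
    {e : ι ≃ (Fin t → Fin k)} {P : GL ι F} (h : WrD G e P) : ∃ B₁ ε₁ c, WrF σ B e P B₁ ε₁ c := by
  haveI : Nonempty (Fin k) := ⟨⟨0, by have := h.two_k; omega⟩⟩
  haveI := e.nonempty
  let i₀ : Fin t := ⟨0, by have := h.two_t; omega⟩
  obtain ⟨B₀, hT⟩ := exists_trF_right σ e P B
  have h0 := hT.fd hF
  obtain ⟨c, a, hab⟩ := exists_ptensG (g := h0.unit.unit⁻¹) 1 fun i X => by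
    obtain ⟨T, h1, -, h2⟩ := h.comp i
    obtain ⟨Y, hY⟩ := (h2 _).1 (hF.ac_alg (h1.trans ((commutator_le_Iso hG).trans (Iso_le_sim _))) _
      ((h2 _).2 ⟨Xᵀ, rfl⟩))
    rw [hT.adj hF, (tr e P).injective.eq_iff] at hY
    exact ⟨Y.map σ, by rw [h0.cj_inv, slot_transpose, hY, slot_map]; rfl⟩
  have h1 : B₀ = ((c⁻¹ : Fˣ) : F) • ptens fun i => (((a i)⁻¹ : GL _ F) : Matrix _ _ F) := by
    have : fperm (Fin k) F (1 : Equiv.Perm (Fin t)) = 1 :=
      Units.ext (by ext x y; simp [fperm, fpermM, one_apply, eq_comm])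
    rw [← h0.unit.unit_spec, ← inv_inv h0.unit.unit, hab, this, one_mul, _root_.mul_inv_rev,
      ← sc_inv, Units.val_mul, sc_val, Matrix.mul_smul, Matrix.mul_one]
    rfl
  have h2 : ∀ i X, adj σ B (tr e P (slot i X)) =
      tr e P (slot i (adj σ (((a i)⁻¹ : GL _ F) : Matrix _ _ F) X)) := fun i X => by
    rw [hT.adj hF, h1, adj_smul_form (isUnit_ptens fun _ => Units.isUnit _) (Units.ne_zero _),
      adj_slot fun _ => Units.isUnit _]
  have hinj : ∀ i : Fin t, Function.Injective fun X : Matrix (Fin k) (Fin k) F => tr e P (slot i X) :=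
    fun i => algHom_injective ((tr e P).toAlgHom.comp (slot i))
  choose d hd using fun i => eq_smul_of_adj (σ := σ) (a i₀)⁻¹.isUnit (a i)⁻¹.isUnit fun X => by
    obtain ⟨g, hg, h3⟩ := h.trans i₀ i
    exact hinj i (by simp only; rw [← h2, ← h3, ← h3, ← h2, hF.adj_cj (hG hg)])
  set B₁ := (((a i₀)⁻¹ : GL (Fin k) F) : Matrix (Fin k) (Fin k) F)
  have hB₁ : IsUnit B₁ := Units.isUnit _
  have hu : IsUnit (B₁.map σ)ᵀ := (isUnit_transpose _).2 (hB₁.map σ.mapMatrix)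
  have hd1 := (isUnit_iff_isUnit_det _).1 hB₁
  obtain ⟨ε₁, h3⟩ := eq_smul_of_adj (σ := σ) hB₁ hu fun X => by
    have h4 : adj σ B₁ (adj σ B₁ (adj σ (B₁.map σ)ᵀ X)) = adj σ (B₁.map σ)ᵀ X :=
      hinj i₀ (by simp only; rw [← h2, ← h2, hF.adj_adj])
    rw [← h4]
    congr 1
    have hmm : ∀ X : Matrix (Fin k) (Fin k) F, (X.map σ).map σ = X := fun X => by
      ext; simp [hF.invol]
    have h5 : (B₁.map σ)⁻¹ = B₁⁻¹.map σ := inv_eq_left_inv (by
      rw [← Matrix.map_mul, nonsing_inv_mul _ hd1]; simp)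
    rw [adj, adj, ← transpose_nonsing_inv, ← transpose_mul, ← transpose_mul, h5, transpose_map,
      transpose_transpose, Matrix.map_mul (L := B₁.map σ), Matrix.map_mul (L := X), hmm, hmm]
    simp only [Matrix.mul_assoc, nonsing_inv_mul _ hd1, nonsing_inv_mul_cancel_left _ _ hd1,
      Matrix.mul_one, hmm]
  have hF₁ : FD σ B₁ ε₁ := ⟨hF.invol, hB₁, h3, by rintro rfl; exact hu.ne_zero (by simpa using h3)⟩
  have h4 : B₀ = (((c⁻¹ : Fˣ) : F) * ∏ i, d i) • ptens fun _ => B₁ := by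
    rw [h1, mul_smul, ← ptens_smul]; simp only [← hd]
  obtain ⟨T, h5, h6, h7⟩ := h.comp i₀
  obtain ⟨h8, h9⟩ := exists_comap (ψ := (tr e P).toAlgHom.comp (slot i₀)) h7
  refine ⟨B₁, ε₁, _, hF₁, fun h0' => h0.unit.ne_zero (by rw [h4, h0', zero_smul]), h4 ▸ hT, _,
    fun y hy => hF₁.mem_Iso_of_adj (hinj i₀ ?_), Subgroup.map_injective
      (uH_injective ((tr e P).toAlgHom.comp (slot i₀))) ?_, h9⟩
  · have := hF.adj_of_Iso (h5.trans (commutator_le_Iso hG) hy)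
    simp only [map_mul, map_one]
    rw [← h2]
    exact (congrArg (· * _) this).trans (Units.inv_mul _)
  · rw [Subgroup.map_commutator, h8, h6]

theorem WrF.powerForm {k : ℕ} {e : ι ≃ (Fin t → Fin k)} {P : GL ι F} {B₁} {ε₁ c : F}
    (h : WrF σ B e P B₁ ε₁ c) {B₁' : Matrix (Fin k) (Fin k) F} {d : F} (hd : d ≠ 0)
    (h1 : B₁ = d • B₁') :
    IsTensorPowerFormStructure σ (formOfGram σ B) (formOfGram σ B₁') e P :=
  ⟨c * d ^ t, mul_ne_zero h.ne (pow_ne_zero _ hd), fun x y => by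
    rw [h.trf, h1, ptens_smul, smul_smul, fog_smul, gram_fog, Finset.prod_const, Finset.card_univ,
      Fintype.card_fin]; rfl⟩

theorem WrF.eps [Nonempty κ] {e : ι ≃ (Fin t → κ)} {P : GL ι F} {B₁} {ε₁ c : F}
    (h : WrF (RingHom.id F) B e P B₁ ε₁ c) (hF : FD (RingHom.id F) B ε) : ε₁ ^ t = ε := by
  have h0 := h.trf.fd hF
  have h1 := h0.herm
  have h2 := h.fd.herm
  simp only [RingHom.coe_id, Matrix.map_id, transpose_smul, ptens_transpose] at h1 h2
  rw [h2, ptens_smul, smul_comm] at h1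
  simpa using smul_left_injective F h0.unit.ne_zero h1

theorem ptens_mem {A : Subalgebra F (Matrix (Fin t → κ) (Fin t → κ) F)} (h : ∀ i X, slot i X ∈ A)
    (f : Fin t → Matrix κ κ F) : ptens f ∈ A := by
  have key : ∀ s : Finset (Fin t), ptens (fun i => if i ∈ s then f i else 1) ∈ A := fun s => by
    induction s using Finset.induction_on with
    | empty => simp [ptens_one]
    | insert i s hi ih =>
      convert mul_mem ih (h i (f i)) using 1
      rw [ptens_mul_slot]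
      congr 1
      ext1 j
      by_cases hj : j = i
      · subst hj; simp [hi]
      · simp [hj]
  simpa using key Finset.univ

theorem WrD.ai {k : ℕ} {e : ι ≃ (Fin t → Fin k)} {P : GL ι F} (h : WrD G e P) : AI ⁅G, G⁆ := by
  refine eq_top_iff.2 fun X _ => ?_
  obtain ⟨X, rfl⟩ := (tr e P).surjective X
  refine matrix_induction (p := fun X => X ∈ (alg ⁅G, G⁆).comap (tr e P).toAlgHom) (fun x y => ?_)
    (zero_mem _) (fun _ _ => add_mem) (fun c X h => Subalgebra.smul_mem _ h c) X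
  rw [← ptens_single]
  refine ptens_mem (fun i X => ?_) _
  obtain ⟨T, h1, -, h2⟩ := h.comp i
  exact alg_mono h1 ((h2 _).2 ⟨X, rfl⟩)

theorem ai_of_tL_tR {e : ι ≃ κ × μ} {P : GL ι F} {S : Subgroup (GL ι F)}
    (h1 : ∀ X, tL e P X ∈ alg S) (h2 : ∀ Y, tR e P Y ∈ alg S) : AI S := by
  refine eq_top_iff.2 fun X _ => ?_
  obtain ⟨X, rfl⟩ := (tr e P).surjective X
  refine matrix_induction (p := fun X => tr e P X ∈ alg S) (fun x y => ?_) (by simp)
    (fun X Y h h' => by rw [map_add]; exact add_mem h h')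
    (fun c X h => by rw [map_smul]; exact Subalgebra.smul_mem _ h c) X
  have := mul_mem (h1 (single x.1 y.1 1)) (h2 (single x.2 y.2 1))
  rwa [tL_mul_tR, single_kronecker_single, mul_one] at this

end H23.As
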