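import Cfsg.Agent.H23.As16
import Cfsg.Agent.H22.Orders
import Cfsg.Agent.S0144

/-!
Aschbacher's theorem, part 17: frames, small soluble groups, extraspecial data.
-/

set_option autoImplicit false

namespace H23.As

open Matrix Module Cfsg Cfsg.Geo
open scoped MatrixGroups commutatorElement Kronecker

variable {ι : Type} [Fintype ι] [DecidableEq ι] {F : Type*} [Field F]
variable {κ μ : Type} [Fintype κ] [DecidableEq κ] [Fintype μ] [DecidableEq μ]
variable {σ : F →+* F} {B : Matrix ι ι F} {ε : F} {G : Subgroup (GL ι F)}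

/-! ### Frames -/

theorem isMDecomposition_frame {n : ℕ} (hn : 2 ≤ n) (b : Basis (Fin n) F (ι → F)) :
    IsMDecomposition 1 fun i => F ∙ b i :=
  ⟨hn, one_pos, fun i => finrank_span_singleton (b.ne_zero i),
    b.linearIndependent.iSupIndep_span_singleton, by
      rw [← Submodule.span_range_eq_iSup, b.span_eq]⟩

theorem mem_dec_frame {n : ℕ} (b : Basis (Fin n) F (ι → F)) {g : GL ι F}
    (h : ∀ i, ∃ j, (g : Matrix ι ι F) *ᵥ b i ∈ F ∙ b j) :
    g ∈ decompositionStabilizer fun i => F ∙ b i := by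
  choose s hs using h
  have h1 : ∀ i, (F ∙ b i).map (toLin' (g : Matrix ι ι F)) = F ∙ b (s i) := fun i =>
    Submodule.eq_of_le_of_finrank_eq (by
      rw [Submodule.map_span, Set.image_singleton, Submodule.span_singleton_le_iff_mem]
      exact hs i) (by
        rw [finrank_map_val, finrank_span_singleton (b.ne_zero _),
          finrank_span_singleton (b.ne_zero _)])
  have h2 : Function.Injective s := fun i j hij => by
    have h3 : F ∙ b i = F ∙ b j := Submodule.map_injective_of_injective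
      (f := toLin' (g : Matrix ι ι F)) (glE ι F g).injective (by rw [h1, h1, hij])
    by_contra hne
    have := b.linearIndependent.iSupIndep_span_singleton.pairwiseDisjoint hne
    simp only [Function.onFun, h3, disjoint_self, Submodule.span_singleton_eq_bot] at this
    exact b.ne_zero j this
  exact ⟨Equiv.ofBijective s h2.bijective_of_finite, h1⟩

theorem nondegDec_frame {n : ℕ} (hn : 2 ≤ n) (b : Basis (Fin n) F (ι → F))
    (h1 : ∀ i, formOfGram σ B (b i) (b i) ≠ 0) (h2 : ∀ i j, i ≠ j → formOfGram σ B (b i) (b j) = 0) :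
    IsNondegenerateMDecomposition (formOfGram σ B) 1 fun i => F ∙ b i := by
  refine ⟨isMDecomposition_frame hn b, fun i w hw h0 => ?_, fun i j hij u hu v hv => ?_⟩
  · obtain ⟨c, rfl⟩ := Submodule.mem_span_singleton.1 hw
    have hc : c ≠ 0 := by rintro rfl; simp at h0
    exact ⟨⟨_, Submodule.mem_span_singleton_self _, by simp [fog_smul_right, hc, h1]⟩,
      ⟨_, Submodule.mem_span_singleton_self _, by simp [fog_smul_left, hc, h1]⟩⟩
  · obtain ⟨c, rfl⟩ := Submodule.mem_span_singleton.1 hu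
    obtain ⟨d, rfl⟩ := Submodule.mem_span_singleton.1 hv
    simp [fog_smul_left, fog_smul_right, h2 i j hij]

theorem exists_collected {t m : ℕ} {D : Fin t → Submodule F (ι → F)} (hD : IsMDecomposition m D)
    (b : ∀ i, Basis (Fin m) F (D i)) : ∃ (e : Fin (m * t) ≃ Fin m × Fin t)
      (β : Basis (Fin (m * t)) F (ι → F)), ∀ j, β j = b (e j).2 (e j).1 := by
  have hI := DirectSum.isInternal_submodule_of_iSupIndep_of_iSup_eq_top hD.indep hD.iSup_eq_top
  exact ⟨finProdFinEquiv.symm, (hI.collectedBasis b).reindex (((Equiv.sigmaEquivProd _ _).trans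
    (Equiv.prodComm _ _)).trans finProdFinEquiv), fun j => by simp; rfl⟩

/-- Refining a decomposition to a frame. -/
theorem refine_frame {t m : ℕ} {D : Fin t → Submodule F (ι → F)}
    (hD : IsNondegenerateMDecomposition (formOfGram σ B) m D) (b : ∀ i, Basis (Fin m) F (D i))
    (h1 : ∀ i k, formOfGram σ B (b i k) (b i k) ≠ 0)
    (h2 : ∀ i k l, k ≠ l → formOfGram σ B (b i k) (b i l) = 0) (hG : G ≤ decompositionStabilizer D)
    (h3 : ∀ g ∈ G, ∀ i k j, (g : Matrix ι ι F) *ᵥ b i k ∈ D j → ∃ l,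
      (g : Matrix ι ι F) *ᵥ b i k ∈ F ∙ (b j l : ι → F)) :
    ∃ D' : Fin (m * t) → Submodule F (ι → F), IsNondegenerateMDecomposition (formOfGram σ B) 1 D' ∧
      G ≤ decompositionStabilizer D' ∧ ∀ j, ∃ i k, D' j = F ∙ (b i k : ι → F) := by
  obtain ⟨e, β, hβ⟩ := exists_collected hD.decomp b
  refine ⟨_, nondegDec_frame ?_ β (fun i => by rw [hβ]; exact h1 _ _) fun i j hij => ?_,
    fun g hg => mem_dec_frame β fun i => ?_, fun j => ⟨_, _, by rw [hβ]⟩⟩
  · have := hD.decomp.two_le; have := hD.decomp.pos; nlinarith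
  · rw [hβ, hβ]
    by_cases h : (e i).2 = (e j).2
    · rw [h]; exact h2 _ _ _ fun h' => hij (e.injective (Prod.ext h' h))
    · exact hD.orthogonal _ _ h _ (Subtype.property _) _ (Subtype.property _)
  · obtain ⟨s, hs⟩ := hG hg
    obtain ⟨l, hl⟩ := h3 g hg (e i).2 (e i).1 (s (e i).2) (hs _ ▸ ⟨_, Subtype.property _, rfl⟩)
    exact ⟨e.symm (l, s (e i).2), by rw [hβ, hβ, Equiv.apply_symm_apply]; exact hl⟩

theorem exists_gP_of_basis (b : Basis ι F (ι → F)) : ∃ P : GL ι F,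
    (∀ i, (P : Matrix ι ι F) *ᵥ Pi.single i 1 = b i) ∧
      ∀ i j, gP σ B P i j = formOfGram σ B (b i) (b j) := by
  obtain ⟨P, hP⟩ := exists_GL_of_equiv b.equivFun.symm (Equiv.refl ι)
  have : ∀ i, (P : Matrix ι ι F) *ᵥ Pi.single i 1 = b i := fun i =>
    (hP (Pi.single i 1)).trans (by simp [Pi.single_apply])
  exact ⟨P, this, fun i j => by rw [← fog_single (σ := σ) (gP σ B P), fog_gP, this, this]⟩

theorem FD.exists_form (h : FD σ B 1) (hσ : σ ≠ RingHom.id F) : ∃ Φ : Form σ (ι → F),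
    Φ.Nondeg ∧ Φ.ε = 1 ∧ ∀ u v, formOfGram σ B u v = Φ.B v u :=
  (exists_form_of_isUnitaryForm (isUnitaryForm_fog h.invol hσ h.unit (by simpa using h.herm))).2

theorem FD.exists_gP_one [Finite F] (h : FD σ B 1) (hσ : σ ≠ RingHom.id F) :
    ∃ P : GL ι F, H23.As.gP σ B P = 1 := by
  obtain ⟨Φ, h1, h2, h3⟩ := h.exists_form hσ
  obtain ⟨b, hb⟩ := exists_orthonormal_basis_herm hσ h2 h1 (finrank_fintype_fun_eq_card F)
  obtain ⟨P, -, hP⟩ := exists_gP_of_basis (σ := σ) (B := B) (b.reindex (Fintype.equivFin ι).symm)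
  exact ⟨P, Matrix.ext fun i j => by simp [hP, h3, hb, one_apply, eq_comm]⟩

theorem FD.exists_herm (h : FD σ B ε) (hσ : σ ≠ RingHom.id F) :
    ∃ (c : F) (B' : Matrix ι ι F), c ≠ 0 ∧ FD σ B' 1 ∧ B = c • B' := by
  obtain ⟨l, h1, h2⟩ := herm_smul h.invol hσ h.herm
  exact ⟨l⁻¹, l • B, inv_ne_zero h1, ⟨h.invol, isUnit_smul h1 h.unit, by rw [h2, one_smul],
    one_ne_zero⟩, by rw [smul_smul, inv_mul_cancel₀ h1, one_smul]⟩

theorem Iso_smul {c : F} (hc : c ≠ 0) : Iso (formOfGram σ (c • B)) = Iso (formOfGram σ B) := by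
  ext g; simp only [mem_Iso, fog_smul, mul_right_inj' hc]

/-! ### Groups without perfect subgroups -/

/-- No nontrivial perfect subgroup. -/
def NoP {Γ : Type*} [Group Γ] (S : Subgroup Γ) : Prop := ∀ T ≤ S, ⁅T, T⁆ = T → T = ⊥

theorem NoP.mono {Γ : Type*} [Group Γ] {S S' : Subgroup Γ} (h : NoP S) (hle : S' ≤ S) : NoP S' :=
  fun T hT => h T (hT.trans hle)

theorem noP_of_solvable {Γ : Type*} [Group Γ] {S : Subgroup Γ} (h : Group.IsSolvable S) : NoP S :=
  fun T hT hp => by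
    haveI : Group.IsSolvable T :=
      Group.isSolvable_of_isSolvable_injective (Subgroup.inclusion_injective hT)
    by_contra h0
    haveI := (Subgroup.nontrivial_iff_ne_bot T).2 h0
    exact (Group.IsSolvable.commutator_lt_top_of_nontrivial T).ne (commutator_of_perf hp)

theorem noP_of_card {Γ Γ' : Type*} [Group Γ] [Group Γ'] [Finite Γ'] {S : Subgroup Γ} (f : S →* Γ')
    (hf : Function.Injective f) {a b : ℕ} (h : Nat.card Γ' = 2 ^ a * 3 ^ b) : NoP S :=
  haveI : Group.IsSolvable Γ' := Cfsg.Agent.S0144.result 2 3 a b Nat.prime_two Nat.prime_three h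
  noP_of_solvable (Group.isSolvable_of_isSolvable_injective hf)

theorem noP_of_form [Finite F] {S : Subgroup (GL ι F)} (Φ : Form σ (ι → F))
    (hS : ∀ g ∈ S, glE ι F g ∈ Φ.O) {a b : ℕ} (h : Nat.card Φ.O = 2 ^ a * 3 ^ b) : NoP S :=
  haveI : Finite ((ι → F) ≃ₗ[F] (ι → F)) := Finite.of_equiv _ (glE ι F).toEquiv
  noP_of_card (((glE ι F).toMonoidHom.comp S.subtype).codRestrict _ fun g => hS g g.2)
    (fun _ _ e => Subtype.ext ((glE ι F).injective (congrArg Subtype.val e))) h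

variable [Fintype F]

theorem noP_GL2 (h : Fintype.card F ≤ 3) (S : Subgroup (GL (Fin 2) F)) : NoP S := by
  have := card_GL_field (𝔽 := F) 2
  have h2 := Fintype.one_lt_card (α := F)
  rcases (show Fintype.card F = 2 ∨ Fintype.card F = 3 by omega) with h | h <;>
    simp [h, Fin.prod_univ_two] at this
  · exact noP_of_card S.subtype S.subtype_injective (a := 1) (b := 1) (by simpa using this)
  · exact noP_of_card S.subtype S.subtype_injective (a := 4) (b := 1) (by simpa using this)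

theorem eq_conj (hσ : σ ≠ RingHom.id F) (hσ2 : ∀ a, σ (σ a) = a) {q : ℕ}
    (hF : Fintype.card F = q ^ 2) : σ = conj hF := by
  obtain ⟨q', h1, h2⟩ := exists_card_eq_sq_of_invol hσ hσ2
  obtain rfl : q' = q := Nat.pow_left_injective two_ne_zero (h1.symm.trans hF)
  exact RingHom.ext h2

theorem noP_herm (h' : FD σ B ε) (hσ : σ ≠ RingHom.id F) (h4 : Fintype.card F = 4)
    (hn : Fintype.card ι ≤ 3) : NoP (Iso (formOfGram σ B)) := by
  obtain ⟨c, B, hc, h, rfl⟩ := h'.exists_herm hσ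
  obtain ⟨Φ, h1, h2, h3⟩ := h.exists_form hσ
  have hF : Fintype.card F = 2 ^ 2 := h4
  obtain rfl := eq_conj hσ h.invol hF
  have hκ := Form.κ_of_ne_id (Φ := Φ) hσ
  have := H22.card_O_herm hF _ Φ h1 h2 hκ (finrank_fintype_fun_eq_card F)
  have hS : ∀ g ∈ Iso (formOfGram (conj hF) (c • B)), glE ι F g ∈ Φ.O := fun g hg =>
    ⟨fun x y => by rw [Iso_smul hc] at hg; rw [← h3, ← h3]; exact hg _ _,
      fun x => by rw [Form.Q_of_κ hκ, Form.Q_of_κ hκ]⟩
  generalize Fintype.card ι = n at this hn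
  interval_cases n
  · exact noP_of_form Φ hS (a := 0) (b := 0) (by simpa using this)
  · exact noP_of_form Φ hS (a := 0) (b := 1) (by simpa using this)
  · exact noP_of_form Φ hS (a := 1) (b := 2) (by simpa [Finset.prod_range_succ] using this)
  · exact noP_of_form Φ hS (a := 3) (b := 4) (by simpa [Finset.prod_range_succ] using this)

theorem noP_O3 (hB : IsUnit B) (hs : Bᵀ = B) (h3 : Fintype.card F = 3) (hn : Fintype.card ι = 3) :
    NoP (Iso (fb B)) := by
  obtain ⟨Q, h1, h2⟩ := exists_quad (isNondeg_quad (two_ne_zero_of_odd_card (by rw [h3]; decide)) hs hB)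
  have := (H22.nsing_card_O_quad_odd 1 Q h2 (by simp [hn])).2
  exact noP_of_form (Form.ofQuad Q) (fun g hg => Form.mem_O_ofQuad.2 fun v => by rw [h1]; exact hg v v)
    (a := 4) (b := 1) (by simpa [h3] using this)

omit [Fintype F] in
theorem QD.not_noP (hG : G ≤ similarityGroup (formOfGram σ B)) {P : Subgroup (GL ι F)} (h : QD G P) :
    ¬ NoP (Iso (formOfGram σ B)) := fun hN => by
  have := hN P (h.le.trans (commutator_le_Iso hG)) h.perfect
  subst this
  haveI := h.simple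
  exact false_of_nontrivial_of_subsingleton
    ((⊥ : Subgroup (GL ι F)) ⧸ (scalars ι F).subgroupOf ⊥)

omit [Fintype F] in
theorem WrF.not_noP {t : ℕ} {e : ι ≃ (Fin t → κ)} {P : GL ι F} {B₁} {ε₁ c : F}
    (h : WrF σ B e P B₁ ε₁ c) (h2 : 2 ≤ Fintype.card κ) : ¬ NoP (Iso (formOfGram σ B₁)) := fun hN => by
  obtain ⟨T, h1, h3, h4⟩ := h.perf
  exact not_le_scalars h4.irr h2 (by rw [hN T h1 h3]; exact bot_le)

theorem PG.core_prime (hF : FD σ B ε) (h : PG σ B G) (hn : (Fintype.card ι).Prime) :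
    (∃ N ≤ G, MinN (scalars ι F) G N ∧ Ext N) ∨ ∃ P, QD G P := by
  rcases h.core hF hn.two_le with ⟨d, m, e, P, N, hT⟩ | h1 | h1 | ⟨k, t, e, P, hW⟩
  · have := Fintype.card_congr e
    simp only [Fintype.card_prod, Fintype.card_fin] at this
    exact (Nat.not_prime_mul (by have := hT.two_d; omega) (by have := hT.two_m; omega)
      (this ▸ hn)).elim
  · exact .inl h1
  · exact .inr h1
  · have := Fintype.card_congr e
    simp only [Fintype.card_fun, Fintype.card_fin] at this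
    exact (Nat.Prime.not_prime_pow hW.two_t (this ▸ hn)).elim

/-- In prime dimension equal to the characteristic, no soluble primitive group exists. -/
theorem PG.not_noP (hF : FD σ B ε) (h : PG σ B G) (hn : (Fintype.card ι).Prime)
    (h0 : (Fintype.card ι : F) = 0) : ¬ NoP (Iso (formOfGram σ B)) := fun hN => by
  haveI : Nonempty ι := Fintype.card_pos_iff.1 hn.pos
  rcases h.core_prime hF hn with ⟨N, -, -, h1⟩ | ⟨P, h1⟩
  · exact h1.card_ne_zero h0
  · exact h1.not_noP h.sim hN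

theorem cast_eq_zero_of_card {p k : ℕ} (h : Fintype.card F = p ^ k) : (p : F) = 0 := by
  have := FiniteField.cast_card_eq_zero F
  rw [h, Nat.cast_pow] at this
  exact eq_zero_of_pow_eq_zero this

theorem PG.not_O3 (h : PG (RingHom.id F) B G) (hF : FD (RingHom.id F) B 1)
    (h3 : Fintype.card F = 3) : Fintype.card ι ≠ 3 := fun hn =>
  h.not_noP hF (by rw [hn]; norm_num) (by rw [hn]; exact cast_eq_zero_of_card (k := 1) h3)
    (noP_O3 hF.unit (by simpa using hF.herm) h3 hn)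

/-! ### Extraspecial data -/

/-- A normalised group of symplectic type. -/
structure ExtD (σ : F →+* F) (B : Matrix ι ι F) (G : Subgroup (GL ι F)) (r : ℕ)
    (R : Subgroup (GL ι F)) : Prop where
  prime : r.Prime
  sim : R ≤ similarityGroup (formOfGram σ B)
  ng : NG G R
  ext : Ext R
  pow : ∀ x ∈ R, x ^ (r * Nat.gcd 2 r) = 1
  sc : ∀ c : Fˣ, c ^ (r * Nat.gcd 2 r) = 1 → sc c ∈ R
  root : ∃ c : Fˣ, orderOf c = r ∧ σ c * c = 1

theorem MinN.extD [Nonempty ι] (hB : IsUnit B) (hG : G ≤ similarityGroup (formOfGram σ B))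
    {N : Subgroup (GL ι F)} (hNG : N ≤ G) (hN : MinN (scalars ι F) G N) (h : Ext N) :
    ∃ r R, ExtD σ B G r R := by
  obtain ⟨r, R, hr, hR, -, hE, hGR, -, x, hx, y, hy, c, hc, hxy⟩ := hN.ext_data h
  have hs : R ≤ similarityGroup (formOfGram σ B) := fun x hx => hG (hNG ((hR x).1 hx).1)
  exact ⟨r, R, hr, hs, hGR, hE, fun x hx => ((hR x).1 hx).2,
    fun c hc => (hR _).2 ⟨hN.lt.le (sc_mem c), by rw [← sc_pow, hc]; exact sc_eq_one.2 rfl⟩,
    c, hc, (sc_mem_Iso hB).1 (hxy ▸ commutator_mem_Iso (hs hy) (hs hx))⟩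

theorem ExtD.pGroup {r : ℕ} {R : Subgroup (GL ι F)} (h : ExtD σ B G r R) : IsPGroup r R := by
  intro x
  refine ⟨2, Subtype.ext ?_⟩
  obtain ⟨k, hk⟩ : r * Nat.gcd 2 r ∣ r ^ 2 := by
    rw [sq]; refine Nat.mul_dvd_mul_left _ (Nat.gcd_dvd_right _ _)
  rw [hk, pow_mul]
  simp [h.pow x x.2]

theorem ExtD.card [Nonempty ι] {r : ℕ} {R : Subgroup (GL ι F)} (h : ExtD σ B G r R) :
    ∃ k, Fintype.card ι = r ^ k := h.ext.exists_card_eq h.prime h.pGroup

omit [Fintype F] in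
theorem mem_sim_uH [Nonempty ι] [Nonempty κ] (hF : FD σ B ε) {B₁ : Matrix κ κ F} {ε₁ : F}
    (hF₁ : FD σ B₁ ε₁) {ψ : Matrix κ κ F →ₐ[F] Matrix ι ι F}
    (ha : ∀ X, adj σ B (ψ X) = ψ (adj σ B₁ X)) {a : GL κ F}
    (h : a ∈ similarityGroup (formOfGram σ B₁)) : uH ψ a ∈ similarityGroup (formOfGram σ B) := by
  obtain ⟨c, hc⟩ := h
  refine hF.mem_sim_of_adj (c := σ c) ?_
  rw [uH_val, ha, hF₁.adj_of_sim hc, ← map_mul]; simp

omit [Fintype F] in
theorem TenF.extD [Nonempty κ] [Nonempty μ] {e : ι ≃ κ × μ} {P : GL ι F} {B₁ B₂} {ε₁ ε₂ : F}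
    (h : TenF σ B G e P B₁ B₂ ε₁ ε₂) (hF : FD σ B ε) {r : ℕ} {R₁ R₂}
    (h1 : ExtD σ B₁ (fac G (tL e P)) r R₁) (h2 : ExtD σ B₂ (fac G (tR e P)) r R₂) :
    ∃ R, ExtD σ B G r R := by
  haveI := e.nonempty
  let φ := (uH (tL e P)).noncommCoprod (uH (tR e P)) fun a b =>
    Units.ext ((tL_mul_tR e P _ _).trans (tR_mul_tL e P _ _).symm)
  have hφ' : ∀ a b, φ (a, b) = uH (tL e P) a * uH (tR e P) b := fun a b => rfl
  have hφ : ∀ a b, φ (a, b) = trG e P (kronG a b) := fun a b => Units.ext (tL_mul_tR e P _ _)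
  refine ⟨(R₁.prod R₂).map φ, h1.prime, ?_, ?_, ⟨ai_of_tL_tR (e := e) (P := P)
    (h1.ext.ai.range_le fun a ha => ⟨(a, 1), ⟨ha, one_mem _⟩, by simp [hφ']⟩)
    (h2.ext.ai.range_le fun a ha => ⟨(1, a), ⟨one_mem _, ha⟩, by simp [hφ']⟩), ?_⟩, ?_,
    fun c hc => ⟨(sc c, 1), ⟨h1.sc c hc, one_mem _⟩, by simp [hφ', uH_sc]⟩, h1.root⟩
  · rintro _ ⟨⟨a, b⟩, ⟨ha, hb⟩, rfl⟩
    exact mul_mem (mem_sim_uH hF h.fd₁ (h.adj_tL hF) (h1.sim ha))
      (mem_sim_uH hF h.fd₂ (h.adj_tR hF) (h2.sim hb))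
  · rintro g hg _ ⟨⟨a, b⟩, ⟨ha, hb⟩, rfl⟩
    obtain ⟨x, y, rfl⟩ := h.le g hg
    obtain ⟨h3, h4⟩ := TenF.mem_fac hg
    exact ⟨(x, y) * (a, b) * (x, y)⁻¹, ⟨h1.ng x h3 a ha, h2.ng y h4 b hb⟩, by
      rw [map_mul, map_mul, map_inv, hφ x y]⟩
  · rintro _ ⟨⟨a, b⟩, ⟨ha, hb⟩, rfl⟩ _ ⟨⟨a', b'⟩, ⟨ha', hb'⟩, rfl⟩
    obtain ⟨c, hc⟩ := exists_sc (h1.ext.comm a ha a' ha')
    obtain ⟨d, hd⟩ := exists_sc (h2.ext.comm b hb b' hb')
    have : ⁅(a, b), (a', b')⁆ = (sc c, sc d) := Prod.ext hc hd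
    rw [← map_commutatorElement, this]
    simp only [hφ', uH_sc]
    exact mul_mem (sc_mem c) (sc_mem d)
  · rintro _ ⟨⟨a, b⟩, ⟨ha, hb⟩, rfl⟩
    rw [← map_pow, Prod.pow_mk, h1.pow a ha, h2.pow b hb]; exact map_one φ

theorem Mul.exists_unit [Nonempty ι] (hB : IsUnit B) {g : GL ι F} {c : F} (h : Mul σ B g c) {z : ℕ}
    (hz : g ^ z = 1) : c ^ z = 1 := (h.pow z).unique hB (hz ▸ mul_one')

theorem ExtD.c5D [Nonempty ι] (hF : FD σ B ε) {r : ℕ} {R : Subgroup (GL ι F)} (h : ExtD σ B G r R)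
    {F₀ : Subfield F} (h0 : F₀ ≠ ⊤) (h1 : ∀ d : Fˣ, d ^ (r * Nat.gcd 2 r) = 1 → (d : F) ∈ F₀) :
    C5D σ B G := by
  obtain ⟨P, hP⟩ := h.ext.exists_rat fun d hd =>
    h1 d (sc_eq_one.1 ((sc_pow d _).trans (h.pow _ hd)))
  refine h.ext.ai.c5D hF h.ng h0 hP fun x hx => ?_
  obtain ⟨c, hc⟩ := h.sim hx
  exact ⟨c, h1 c (Units.ext (Mul.exists_unit hF.unit hc (h.pow x hx))), hc⟩

end H23.As
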