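import Cfsg.Agent.H23.As17

/-!
Aschbacher's theorem, part 18: the unitary case.
-/

set_option autoImplicit false

namespace H23.As

open Matrix Module Cfsg Cfsg.Geo
open scoped MatrixGroups commutatorElement Kronecker

variable {ι : Type} [Fintype ι] [DecidableEq ι] {F : Type*} [Field F]
variable {σ : F →+* F} {B : Matrix ι ι F} {ε : F} {G : Subgroup (GL ι F)}

theorem hilbert90 (hσ : ∀ a, σ (σ a) = a) {F₁ : Subfield F} (h1 : ∀ x ∈ F₁, σ x ∈ F₁)
    (ht : ∃ t ∈ F₁, σ t ≠ t) {η : F} (hη : η ∈ F₁) (h2 : σ η * η = 1) :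
    ∃ c ∈ F₁, c ≠ 0 ∧ σ c = η * c := by
  have key : ∀ t, σ (t + σ t * σ η) = η * (t + σ t * σ η) := fun t => by
    rw [map_add, map_mul, hσ, hσ]; linear_combination -σ t * h2
  by_cases h : 1 + σ η = 0
  · obtain ⟨t, h3, h4⟩ := ht
    exact ⟨_, add_mem h3 (mul_mem (h1 t h3) (h1 η hη)), fun h0 => h4 (by
      linear_combination -h0 + σ t * h), key t⟩
  · exact ⟨_, add_mem F₁.one_mem (mul_mem (h1 1 F₁.one_mem) (h1 η hη)), by simpa using h, key 1⟩

theorem gP_smul (c : F) (P : GL ι F) : gP σ (c • B) P = c • gP σ B P := by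
  rw [gP, gP, Matrix.mul_smul, Matrix.smul_mul]

theorem Mul.sc {g : GL ι F} {c : F} (h : Mul σ B g c) (d : Fˣ) :
    Mul σ B (sc d * g) (d * σ d * c) := fun u v => by
  simp only [Units.val_mul, sc_val, ← mulVec_mulVec, smul_mulVec, one_mulVec, fog_smul_left,
    fog_smul_right, h u v]
  ring

theorem TrF.mul_kronG {κ μ : Type} [Fintype κ] [DecidableEq κ] [Fintype μ] [DecidableEq μ]
    {e : ι ≃ κ × μ} {P : GL ι F} {B₁ B₂} (h : TrF σ e P B (B₁ ⊗ₖ B₂)) {a : GL κ F} {b : GL μ F}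
    {c d : F} (ha : Mul σ B₁ a c) (hb : Mul σ B₂ b d) : Mul σ B (trG e P (kronG a b)) (c * d) :=
  mul_iff.2 (((h.mul _ _).eq_iff (h.smul _)).2 (by
    rw [kronG_val, kron_map, ← kroneckerMap_transpose, ← mul_kronecker_mul, ← mul_kronecker_mul,
      mul_iff.1 ha, mul_iff.1 hb, smul_kronecker, kronecker_smul, smul_smul]))

theorem Mul.det (hB : IsUnit B) {g : GL ι F} {c : F} (h : Mul σ B g c) :
    σ (g : Matrix ι ι F).det * (g : Matrix ι ι F).det = c ^ Fintype.card ι := by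
  have := congrArg Matrix.det (mul_iff.1 h)
  rw [det_mul, det_mul, det_transpose, ← RingHom.mapMatrix_apply, ← RingHom.map_det, det_smul] at this
  exact mul_right_cancel₀ ((isUnit_iff_isUnit_det _).1 hB).ne_zero (by linear_combination this)

theorem mul_J2 (a : GL (Fin 2) F) : 
    Mul (RingHom.id F) (J2 F) a (a : Matrix (Fin 2) (Fin 2) F).det :=
  mul_iff.2 (by simpa using J2_conj _)

theorem Mul.mul {g k : GL ι F} {c d : F} (h : Mul σ B g c) (h' : Mul σ B k d) :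
    Mul σ B (g * k) (c * d) := fun u v => by
  rw [Units.val_mul, ← mulVec_mulVec, ← mulVec_mulVec, h, h', mul_assoc]

theorem Mul.inv {g : GL ι F} {c : F} (hc : c ≠ 0) (h : Mul σ B g c) : Mul σ B g⁻¹ c⁻¹ :=
  fun u v => by
    rw [eq_inv_mul_iff_mul_eq₀ hc, ← h, val_mulVec_inv_mulVec, val_mulVec_inv_mulVec]

variable [Fintype F]

/-- Two forms preserved with compatible multipliers give a subfield structure. -/
theorem AI.c5D_of_mul [Nonempty ι] (hF : FD σ B ε) (hσ : σ ≠ RingHom.id F) {B' : Matrix ι ι F}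
    {ε' : F} (hF' : FD (RingHom.id F) B' ε') (h : AI G) (hZ : scalars ι F ≤ G)
    (hm : ∀ g ∈ G, ∃ c d, Mul σ B g c ∧ Mul (RingHom.id F) B' g d ∧ σ d * d = c ^ 2) :
    C5D σ B G := by
  let N : Subgroup (GL ι F) :=
    { carrier := {x | x ∈ G ∧ ∃ c, Mul σ B x c ∧ Mul (RingHom.id F) B' x c}
      mul_mem' := fun ⟨h1, c, h2, h3⟩ ⟨h4, d, h5, h6⟩ => ⟨mul_mem h1 h4, _, h2.mul h5, h3.mul h6⟩
      one_mem' := ⟨one_mem _, 1, mul_one', mul_one'⟩
      inv_mem' := fun ⟨h1, c, h2, h3⟩ =>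
        ⟨inv_mem h1, _, h2.inv (h2.ne_zero hF.unit), h3.inv (h2.ne_zero hF.unit)⟩ }
  refine AI.c5D_herm hF hσ hF' (N := N) (h.of_le_sup fun g hg => ?_) (fun g hg x hx => ?_)
    fun x hx => hx.2
  · obtain ⟨c, d, h1, h2, h3⟩ := hm g hg
    have hc := h1.ne_zero hF.unit
    obtain ⟨a, -, h4, h5⟩ := hilbert90 hF.invol (F₁ := ⊤) (fun _ _ => trivial) (by
      by_contra hh; push Not at hh; exact hσ (RingHom.ext fun x => hh x trivial)) (η := d / c)
      trivial (by rw [map_div₀, hF.mult_fixed h1]; field_simp; linear_combination h3)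
    refine cen_scalars.mem_sup.2 ⟨sc (Units.mk0 a h4) * g, ⟨mul_mem (hZ (sc_mem _)) hg, _,
      h1.sc _, ?_⟩, _, inv_mem (sc_mem (Units.mk0 a h4)), by rw [sc_comm]; simp⟩
    convert h2.sc (Units.mk0 a h4) using 1
    simp only [Units.val_mk0, h5, RingHom.id_apply]; field_simp
  · obtain ⟨c, d, h1, h2, -⟩ := hm g hg
    obtain ⟨h3, a, h4, h5⟩ := hx
    have hc := h1.ne_zero hF.unit
    have hd := h2.ne_zero hF'.unit
    refine ⟨mul_mem (mul_mem hg h3) (inv_mem hg), a, ?_, ?_⟩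
    · convert (h1.mul h4).mul (h1.inv hc) using 1; field_simp
    · convert (h2.mul h5).mul (h2.inv hd) using 1; field_simp

theorem rat_scale (hσ : σ ≠ RingHom.id F) (hσ2 : ∀ a, σ (σ a) = a) {F₁ : Subfield F} {P : GL ι F}
    {ζ : F} (h0 : ζ ≠ 0) (h1 : σ ζ = ζ) (h : Rat F₁ (ζ • gP σ B P)) :
    ∃ P', IsFormRationalStructure (formOfGram σ B) F₁ 1 P' ∧
      subfieldSubgroup F₁ P' = subfieldSubgroup F₁ P := by
  obtain ⟨x, hx⟩ := exists_norm_eq_of_invol hσ hσ2 h1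
  have hx0 : x ≠ 0 := by rintro rfl; exact h0 (by simpa using hx.symm)
  refine ⟨sc (Units.mk0 x hx0) * P, Rat.formRat hσ2 ?_, subfieldSubgroup_sc _ _ _⟩
  rwa [gP_sc, Units.val_mk0, mul_comm, hx, one_smul]

theorem two_le_card_subfield (F₁ : Subfield F) : 2 ≤ Nat.card F₁ := Finite.one_lt_card

theorem exists_not_fixed (hσ : σ ≠ RingHom.id F) (hσ2 : ∀ a, σ (σ a) = a) {F₁ : Subfield F} {r : ℕ}
    (hr : Odd r) (h : Fintype.card F = Nat.card F₁ ^ r) : ∃ t ∈ F₁, σ t ≠ t := by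
  by_contra hh
  push Not at hh
  obtain ⟨q, h1, h2⟩ := exists_card_eq_sq_of_invol hσ hσ2
  have h3 : Nat.card (fixF σ) = q := by
    rw [← card_fixed h1]; exact Nat.card_congr (Equiv.subtypeEquivRight fun x => by rw [← h2]; rfl)
  letI : Algebra F₁ (fixF σ) := (Subfield.inclusion (show F₁ ≤ fixF σ from hh)).toAlgebra
  rw [h1, ← h3, Module.natCard_eq_pow_finrank (K := F₁) (V := fixF σ), ← pow_mul] at h
  have := Nat.pow_right_injective (two_le_card_subfield F₁) h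
  exact Nat.not_even_iff_odd.2 hr ⟨_, by rw [← this, mul_two]⟩

theorem fixed_of_card (hσ : σ ≠ RingHom.id F) (hσ2 : ∀ a, σ (σ a) = a) {F₁ : Subfield F}
    (h : Fintype.card F = Nat.card F₁ ^ 2) {x : F} (hx : x ∈ F₁) : σ x = x := by
  obtain ⟨q, h1, h2⟩ := exists_card_eq_sq_of_invol hσ hσ2
  letI := Fintype.ofFinite F₁
  rw [h2, Nat.pow_left_injective two_ne_zero (h1.symm.trans h), Nat.card_eq_fintype_card]
  exact congrArg Subtype.val (FiniteField.pow_card (⟨x, hx⟩ : F₁))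

/-- The geometric subgroups in the unitary case. -/
def UniC (σ : F →+* F) (B : Matrix ι ι F) (M : Subgroup (GL ι F)) : Prop :=
  (∃ W : Submodule F (ι → F), W ≠ ⊥ ∧ IsTotallySingularFor (formOfGram σ B) W ∧
    M = subspaceStabilizer W) ∨
  (∃ W : Submodule F (ι → F), W ≠ ⊥ ∧ IsNondegenerateOn (formOfGram σ B) W ∧
    2 * finrank F W < Fintype.card ι ∧ M = subspaceStabilizer W) ∨
  (∃ (t k : ℕ) (D : Fin t → Submodule F (ι → F)),
    IsNondegenerateMDecomposition (formOfGram σ B) k D ∧ (k = 2 → Fintype.card F ≠ 4) ∧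
      M = decompositionStabilizer D) ∨
  (∃ (k : ℕ) (D : Fin 2 → Submodule F (ι → F)), IsMDecomposition k D ∧
    (∀ i, IsTotallySingularFor (formOfGram σ B) (D i)) ∧ M = decompositionStabilizer D) ∨
  (∃ (F₀ : Subfield F) (r : ℕ) (P : GL ι F), r.Prime ∧ Odd r ∧ Fintype.card F = Nat.card F₀ ^ r ∧
    IsFormRationalStructure (formOfGram σ B) F₀ 1 P ∧ M = subfieldSubgroup F₀ P) ∨
  (∃ (F₀ : Subfield F) (P : GL ι F), (2 : F) ≠ 0 ∧ Fintype.card F = Nat.card F₀ ^ 2 ∧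
    IsFormRationalStructure (formOfGram σ B) F₀ 1 P ∧ M = subfieldSubgroup F₀ P) ∨
  (∃ (F₀ : Subfield F) (P : GL ι F) (ζ : F), Even (Fintype.card ι) ∧
    Fintype.card F = Nat.card F₀ ^ 2 ∧ ζ ≠ 0 ∧ ζ + σ ζ = 0 ∧
    IsFormRationalStructure (formOfGram σ B) F₀ ζ P ∧ (∀ u : ι → F, (∀ i, u i ∈ F₀) →
      formOfGram σ B ((P : Matrix ι ι F) *ᵥ u) ((P : Matrix ι ι F) *ᵥ u) = 0) ∧
    M = subfieldSubgroup F₀ P) ∨
  (∃ (r : ℕ) (R : Subgroup (GL ι F)) (p e k : ℕ), IsSymplecticTypeGroup r R ∧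
    ActsAbsolutelyIrreducibly (matrixSet R) ∧ R ≤ similarityGroup (formOfGram σ B) ∧
    (Odd r → R ≤ Iso (formOfGram σ B)) ∧ r ≠ p ∧
    IsMinimalFieldFor (Nat.card (Subgroup.center R)) p e F ∧ Even e ∧ Fintype.card ι = r ^ k ∧
    ((Odd r ∧ Nat.card (Subgroup.center R) = r ∧ 1 ≤ k ∧ Nat.card R = r ^ (1 + 2 * k)) ∨
      (r = 2 ∧ e = 2 ∧ Nat.card (Subgroup.center R) = 4 ∧ Nat.card R = 2 ^ (2 + 2 * k))) ∧
    M = subgroupNormalizer R) ∨
  (∃ (r : ℕ) (K : Subalgebra F (Matrix ι ι F)), r.Prime ∧ Odd r ∧ IsFieldSubalgebra r K ∧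
    IsAdjointClosedFor (formOfGram σ B) K ∧ M = subalgebraNormalizer K) ∨
  (∃ (n₁ n₂ : ℕ) (e : ι ≃ Fin n₁ × Fin n₂) (P : GL ι F) (B₁ : Matrix (Fin n₁) (Fin n₁) F)
    (B₂ : Matrix (Fin n₂) (Fin n₂) F), 2 ≤ n₁ ∧ n₁ < n₂ ∧ (n₁ = 2 → Fintype.card F ≠ 4) ∧
    FD σ B₁ 1 ∧ FD σ B₂ 1 ∧
    IsTensorFormStructure σ (formOfGram σ B) (formOfGram σ B₁) (formOfGram σ B₂) e P ∧
    M = tensorProductSubgroup n₁ n₂ e P) ∨
  ∃ (k t : ℕ) (e : ι ≃ (Fin t → Fin k)) (P : GL ι F) (B₁ : Matrix (Fin k) (Fin k) F),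
    3 ≤ k ∧ 2 ≤ t ∧ ¬ (Fintype.card F = 4 ∧ k = 3) ∧ FD σ B₁ 1 ∧
    IsTensorPowerFormStructure σ (formOfGram σ B) (formOfGram σ B₁) e P ∧
    M = tensorWreathSubgroup k t e P

theorem C5D.unitary (hF : FD σ B 1) (hσ : σ ≠ RingHom.id F) (hI : Irr G)
    (hG : G ≤ similarityGroup (formOfGram σ B)) (hn : 2 ≤ Fintype.card ι) (h : C5D σ B G) :
    ∃ M, UniC σ B M ∧ G ≤ M := by
  haveI : Nonempty ι := Fintype.card_pos_iff.1 (by omega)
  obtain ⟨F₁, r, P, ζ, hr, h1, h2, h3, h4⟩ := h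
  have hP := hF.gP P
  have h5 : ((ζ • gP σ B P).map σ)ᵀ = σ ζ • gP σ B P := by
    conv_rhs => rw [← one_smul F (gP σ B P), ← hP.herm]
    ext; simp
  obtain ⟨i, j, hij⟩ : ∃ i j, gP σ B P i j ≠ 0 := by
    by_contra hh; push Not at hh; exact hP.unit.ne_zero (Matrix.ext hh)
  rcases hr.eq_two_or_odd' with rfl | ho
  · have h6 : (ζ • gP σ B P).map σ = ζ • gP σ B P :=
      Matrix.ext fun i j => fixed_of_card hσ hF.invol h1 (h3 i j)
    rw [h6] at h5
    have hu := isUnit_smul h2 hP.unit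
    rcases (hI.cg P⁻¹).symm_or_alt hn (eq_or_of_transpose_eq_smul hu.ne_zero (c := σ ζ / ζ)
      (by rw [h5, smul_smul, div_mul_cancel₀ _ h2])) (by
        rintro _ ⟨g, hg, rfl⟩
        obtain ⟨c, h7, h8⟩ := mem_subfieldSubgroup_iff.1 (h4 hg)
        obtain ⟨a, ha⟩ := hG hg
        have h9 := mul_iff.1 (Mul.gP ha P)
        rw [cj_val, inv_inv] at h8
        have h10 : ((P⁻¹ * g * P : GL ι F) : Matrix ι ι F).map σ =
            (c / σ c) • ((P⁻¹ * g * P : GL ι F) : Matrix ι ι F) := Matrix.ext fun i j => by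
          have := fixed_of_card hσ hF.invol h1 (h8 i j)
          simp only [Matrix.smul_apply, smul_eq_mul, map_mul, map_apply] at this ⊢
          have : σ c ≠ 0 := by simpa
          field_simp; linear_combination ‹σ c * _ = _›
        refine mem_similarityGroup_fog.2 ⟨Units.mk0 (σ c / c) (by simpa) * a, ?_⟩
        simp only [MulEquiv.coe_toMonoidHom, MulAut.conj_apply, inv_inv, RingHom.coe_id,
          Matrix.map_id, Units.val_mul (Units.mk0 _ _), Units.val_mk0]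
        rw [h10, Matrix.mul_smul] at h9
        rw [mul_smul, smul_comm (a : F), ← h9, Matrix.mul_smul, Matrix.smul_mul, smul_comm _ ζ,
          smul_smul (σ c / c), div_mul_div_cancel₀ h7, div_self (by simpa), one_smul])
      with ⟨h7, h8⟩ | h7
    · obtain ⟨P', h9, h10⟩ := rat_scale hσ hF.invol h2
        (smul_left_injective F hP.unit.ne_zero (h5.symm.trans h8)) h3
      exact ⟨_, .inr (.inr (.inr (.inr (.inr (.inl ⟨F₁, P', h7, h1, h9, rfl⟩))))), h10 ▸ h4⟩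
    · refine ⟨_, .inr (.inr (.inr (.inr (.inr (.inr (.inl ⟨F₁, P, ζ, h7.even_card hu, h1, h2, ?_,
        h3.formRat hF.invol, fun u hu => mul_left_cancel₀ h2 ?_, rfl⟩)))))), h4⟩
      · have := h5.symm.trans h7.transpose
        rw [← neg_smul] at this
        rw [smul_left_injective F hP.unit.ne_zero this, add_neg_cancel]
      · rw [← fog_gP, ← fog_smul, mul_zero, ← h7 u, fb, fog_eq, fog_eq]
        congr 2; ext i; exact fixed_of_card hσ hF.invol h1 (hu i)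
  · have hσ1 := fun x => map_mem_subfield hF.invol F₁ (x := x)
    have h6 : ζ / σ ζ ∈ F₁ := by
      have h7 := hσ1 _ (h3 j i)
      have h8 := congrFun (congrFun h5 i) j
      simp only [transpose_apply, map_apply] at h8
      rw [h8] at h7
      convert div_mem (h3 i j) h7 using 1
      simp [mul_div_mul_right _ _ hij]
    obtain ⟨c, h7, h8, h9⟩ := hilbert90 hF.invol hσ1 (exists_not_fixed hσ hF.invol ho h1) h6 (by
      rw [map_div₀, hF.invol, div_mul_div_cancel₀ h2, div_self (by simpa)])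
    obtain ⟨P', h10, h11⟩ := rat_scale (B := B) (F₁ := F₁) (P := P) hσ hF.invol (mul_ne_zero h8 h2)
      (by rw [map_mul, h9]; have : σ ζ ≠ 0 := by simpa
          field_simp) fun i j => by rw [mul_smul]; exact mul_mem h7 (h3 i j)
    exact ⟨_, .inr (.inr (.inr (.inr (.inl ⟨F₁, r, P', hr, ho, h1, h10, rfl⟩)))), h11 ▸ h4⟩

theorem exists_orderOf_four (h2 : (2 : F) ≠ 0) (h : Fintype.card F % 4 ≠ 3) :
    ∃ d : Fˣ, orderOf d = 4 := by
  obtain ⟨i, hi⟩ := FiniteField.isSquare_neg_one_iff.2 h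
  have h0 : i ≠ 0 := by rintro rfl; simp at hi
  haveI := Fact.mk Nat.prime_two
  refine ⟨Units.mk0 i h0, orderOf_eq_prime_pow (p := 2) (n := 1) (fun e => h2 ?_) (Units.ext ?_)⟩
  · have := congrArg Units.val e
    simp only [pow_one, Units.val_pow_eq_pow_val, Units.val_mk0, Units.val_one] at this
    linear_combination -hi - this
  · simp only [Units.val_pow_eq_pow_val, Units.val_mk0, Units.val_one]
    linear_combination (1 - i * i) * hi

omit [Fintype F] in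
theorem two_ne_zero_of_orderOf {c : Fˣ} (h : orderOf c = 2) : (2 : F) ≠ 0 := fun h2 => by
  have h1 := congrArg Units.val (pow_orderOf_eq_one c)
  rw [h, Units.val_pow_eq_pow_val] at h1
  have : c = 1 := Units.ext (sub_eq_zero.1 (eq_zero_of_pow_eq_zero (n := 2) (by
    simp only [Units.val_one] at h1 ⊢; linear_combination h1 + (1 - c) * h2)))
  simp [this] at h

theorem ExtD.unitary (hF : FD σ B 1) (hσ : σ ≠ RingHom.id F) (hG : PG σ B G)
    (hn : 2 ≤ Fintype.card ι) {r : ℕ} {R : Subgroup (GL ι F)} (h : ExtD σ B G r R) :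
    ∃ M, UniC σ B M ∧ G ≤ M := by
  haveI : Nonempty ι := Fintype.card_pos_iff.1 (by omega)
  obtain ⟨p, e, hp, hchar, he⟩ := exists_char_pow F
  obtain ⟨q, hq, -⟩ := exists_card_eq_sq_of_invol hσ hF.invol
  obtain ⟨c, hc, hc'⟩ := h.root
  have hr := h.prime
  have hev : Even e := by
    have := congrArg (fun n => n.factorization p) (he.symm.trans hq)
    simp only [Nat.factorization_pow, Finsupp.smul_apply, hp.factorization_self, smul_eq_mul] at this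
    exact ⟨_, by rw [← two_mul, ← this, mul_one]⟩
  obtain ⟨d, hd⟩ : ∃ d : Fˣ, orderOf d = r * Nat.gcd 2 r := by
    rcases hr.eq_two_or_odd' with rfl | ho
    · refine exists_orderOf_four (two_ne_zero_of_orderOf hc) ?_
      rw [hq, Nat.pow_mod]
      have : q % 4 < 4 := Nat.mod_lt _ (by norm_num)
      generalize q % 4 = a at this; interval_cases a <;> simp
    · exact ⟨c, by rw [(Nat.coprime_two_left.2 ho).gcd_eq_one, mul_one, hc]⟩
  have hdR : As.sc d ∈ R := h.sc d (by rw [← hd, pow_orderOf_eq_one])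
  have hST := isSymplecticTypeGroup h.ng (fun A hA => hG.prim.le_scalars hF (hA.trans h.sim)) hr
    h.pow hdR ((orderOf_injective (Units.map _) sc_injective d).trans hd)
  have hZ := h.ext.ai.card_center
    (fun d hd => sc_eq_one.1 ((sc_pow d _).trans (h.pow _ hd))) hdR hd
  obtain ⟨k, hk⟩ := h.card
  rcases subfield_or_minimal hp he hd with ⟨F₀, h1, h2⟩ | hmin
  · exact (h.c5D hF h1 h2).unitary hF hσ hG.irr hG.sim hn
  refine ⟨_, .inr (.inr (.inr (.inr (.inr (.inr (.inr (.inl ⟨r, R, p, e, k, hST, h.ext.ai.abs, h.sim,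
    fun ho x hx => ?_, ne_char_of_orderOf hr hc, hZ ▸ hmin, hev, hk, ?_, rfl⟩))))))),
    h.ng.le_normalizer⟩
  · obtain ⟨a, ha⟩ := h.sim hx
    have h1 := Mul.exists_unit hF.unit ha (h.pow x hx)
    rw [(Nat.coprime_two_left.2 ho).gcd_eq_one, mul_one] at h1
    haveI : NeZero r := ⟨hr.ne_zero⟩
    obtain ⟨j, -, hj⟩ := (IsPrimitiveRoot.coe_units_iff.2 (hc ▸ IsPrimitiveRoot.orderOf c)
      ).eq_pow_of_pow_eq_one h1
    have h2 : (a : F) ^ 2 = 1 := by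
      rw [sq]; nth_rw 1 [← hF.mult_fixed ha]; rw [← hj, map_pow, ← mul_pow, hc', one_pow]
    obtain ⟨i, rfl⟩ := ho
    rw [pow_succ, pow_mul, h2, one_pow, one_mul] at h1
    exact fun u v => by simpa [h1] using ha u v
  have hcard := h.ext.card_eq
  rw [hZ, hk] at hcard
  rcases hr.eq_two_or_odd' with rfl | ho
  · refine .inr ⟨rfl, ?_, hZ, by rw [hcard]; ring⟩
    rcases eq_one_of_minimal_four hmin with rfl | rfl
    · exact absurd hev (by decide)
    · rfl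
  · rw [(Nat.coprime_two_left.2 ho).gcd_eq_one, mul_one] at hZ hcard
    refine .inl ⟨ho, hZ, ?_, by rw [hcard]; ring⟩
    rcases k with _ | k
    · simp at hk; omega
    · omega

omit [Fintype F] in
theorem exists_orthonormal_of_nondeg [Finite F] (hF : FD σ B 1) (hσ : σ ≠ RingHom.id F)
    {W : Submodule F (ι → F)} (hW : IsNondegenerateOn (formOfGram σ B) W) {k : ℕ}
    (hk : finrank F W = k) : ∃ b : Basis (Fin k) F W,
      ∀ i j, formOfGram σ B (b i) (b j) = if j = i then 1 else 0 := by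
  obtain ⟨Φ, h1, h2, h3⟩ := hF.exists_form hσ
  obtain ⟨b, hb⟩ := exists_orthonormal_basis_herm hσ (Φ := Φ.restrict W) h2 (fun x hx => by
    by_contra h0
    obtain ⟨y, hy, hy'⟩ := (hW x x.2 (by simpa using h0)).1
    exact hy' ((h3 _ _).trans (hx ⟨y, hy⟩))) hk
  exact ⟨b, fun i j => (h3 _ _).trans (hb j i)⟩

theorem uniC_of_dec (hF : FD σ B 1) (hσ : σ ≠ RingHom.id F)
    (hG : G ≤ similarityGroup (formOfGram σ B)) {t k : ℕ} {D : Fin t → Submodule F (ι → F)}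
    (hD : IsNondegenerateMDecomposition (formOfGram σ B) k D) (h : G ≤ decompositionStabilizer D) :
    ∃ M, UniC σ B M ∧ G ≤ M := by
  by_cases h1 : k = 2 → Fintype.card F ≠ 4
  · exact ⟨_, .inr (.inr (.inl ⟨t, k, D, hD, h1, rfl⟩)), h⟩
  push Not at h1
  obtain ⟨rfl, h4⟩ := h1
  choose b hb using fun i => exists_orthonormal_of_nondeg hF hσ (hD.nondegenerate i)
    (hD.decomp.finrank_eq i)
  obtain ⟨D', h2, h3, -⟩ := refine_frame hD b (by simp [hb]) (fun i k l hkl => by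
    simp [hb, hkl.symm]) h fun g hg i k j hj => by
      obtain ⟨a, ha⟩ := hG hg
      have h5 := ha (b i k) (b i k)
      have h6 := congrArg Subtype.val ((b j).sum_repr ⟨_, hj⟩)
      simp only [Fin.sum_univ_two, Submodule.coe_add, Submodule.coe_smul] at h6
      rw [← h6] at h5 ⊢
      generalize (b j).repr _ 0 = x at h5 ⊢
      generalize (b j).repr _ 1 = y at h5 ⊢
      by_cases hx : x = 0
      · exact ⟨1, by simp [hx, Submodule.smul_mem, Submodule.mem_span_singleton_self]⟩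
      by_cases hy : y = 0
      · exact ⟨0, by simp [hy, Submodule.smul_mem, Submodule.mem_span_singleton_self]⟩
      have hF' : Fintype.card F = 2 ^ 2 := h4
      obtain rfl := eq_conj hσ hF.invol hF'
      have h7 := pow_card_pred (k := 3) h4 hx
      have h8 := pow_card_pred (k := 3) h4 hy
      have h9 : (2 : F) = 0 := cast_eq_zero_of_card hF'
      simp [fog_add_left, fog_add_right, fog_smul_left, fog_smul_right, hb] at h5
      exact (a.ne_zero (by linear_combination -h5 + h7 + h8 + h9)).elim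
  exact ⟨_, .inr (.inr (.inl ⟨_, 1, D', h2, by simp, rfl⟩)), h3⟩

theorem TenF.uniC_lt (hF : FD σ B 1) (hσ : σ ≠ RingHom.id F) (hG : PG σ B G) {d m : ℕ}
    {e : ι ≃ Fin d × Fin m} {P : GL ι F} {B₁ B₂} {ε₁ ε₂ : F} (h : TenF σ B G e P B₁ B₂ ε₁ ε₂)
    (hd : 2 ≤ d) (hm : d < m) : ∃ M, UniC σ B M ∧ G ≤ M := by
  haveI : Nonempty (Fin d) := ⟨⟨0, by omega⟩⟩
  haveI : Nonempty (Fin m) := ⟨⟨0, by omega⟩⟩
  obtain ⟨c₁, B₁', h1, h2, h3⟩ := h.fd₁.exists_herm hσ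
  obtain ⟨c₂, B₂', h4, h5, h6⟩ := h.fd₂.exists_herm hσ
  refine ⟨_, .inr (.inr (.inr (.inr (.inr (.inr (.inr (.inr (.inr (.inl ⟨d, m, e, P, B₁', B₂', hd, hm,
    ?_, h2, h5, ⟨_, mul_ne_zero h1 h4, h.tensorForm h3 h6⟩, rfl⟩))))))))), h.le_tensor⟩
  rintro rfl h7
  exact (h.pgL hF hG).not_noP h.fd₁ (by simpa using Nat.prime_two)
    (by simpa using cast_eq_zero_of_card (p := 2) (k := 2) h7) (noP_herm h.fd₁ hσ h7 (by simp))

theorem PG.extD_three (hF : FD σ B ε) (hσ : σ ≠ RingHom.id F) (hG : PG σ B G)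
    (h4 : Fintype.card F = 4) (h3 : Fintype.card ι = 3) : ∃ R, ExtD σ B G 3 R := by
  haveI : Nonempty ι := Fintype.card_pos_iff.1 (by omega)
  rcases hG.core_prime hF (by rw [h3]; norm_num) with ⟨N, h1, h2, h5⟩ | ⟨P, h1⟩
  · obtain ⟨r, R, h⟩ := h2.extD hF.unit hG.sim h1 h5
    obtain ⟨k, hk⟩ := h.card
    obtain rfl := prime_eq_of_pow h.prime Nat.prime_three hk (by rw [h3])
    exact ⟨R, h⟩
  · exact (h1.not_noP hG.sim (noP_herm hF hσ h4 h3.le)).elim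

theorem TenF.uniC (hF : FD σ B 1) (hσ : σ ≠ RingHom.id F) (hG : PG σ B G) {d m : ℕ}
    {e : ι ≃ Fin d × Fin m} {P : GL ι F} {B₁ B₂} {ε₁ ε₂ : F} (h : TenF σ B G e P B₁ B₂ ε₁ ε₂)
    (hd : 2 ≤ d) (hm : 2 ≤ m) : ∃ M, UniC σ B M ∧ G ≤ M := by
  rcases lt_trichotomy d m with h1 | rfl | h1
  · exact h.uniC_lt hF hσ hG hd h1
  swap
  · exact h.swap.uniC_lt hF hσ hG hm h1
  haveI : Nonempty (Fin d) := ⟨⟨0, by omega⟩⟩
  haveI := e.nonempty
  have hn : 2 ≤ Fintype.card ι := by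
    rw [Fintype.card_congr e, Fintype.card_prod, Fintype.card_fin]; nlinarith
  rcases hd.eq_or_lt with rfl | hd
  · obtain ⟨B', hB'⟩ := exists_trF_left (RingHom.id F) e P (J2 F ⊗ₖ J2 F)
    refine (AI.c5D_of_mul hF hσ (B' := B') (ε' := 1) ⟨fun _ => rfl, hB'.isUnit_iff.2
      (kronG isUnit_J2.unit isUnit_J2.unit).isUnit, ?_, one_ne_zero⟩ (hG.ai hF) hG.sc
      fun g hg => ?_).unitary hF hσ hG.irr hG.sim hn
    · rw [RingHom.coe_id, Matrix.map_id, one_smul, hB'.transpose.eq_iff hB',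
        ← kroneckerMap_transpose, J2_transpose]
      ext; simp
    · obtain ⟨a, b, rfl⟩ := h.le g hg
      obtain ⟨c, hc⟩ := (h.pgL hF hG).sim (TenF.mem_fac hg).1
      obtain ⟨c', hc'⟩ := (h.pgR hF hG).sim (TenF.mem_fac hg).2
      refine ⟨_, _, h.trf.mul_kronG hc hc', hB'.mul_kronG (mul_J2 a) (mul_J2 b), ?_⟩
      have h1 := Mul.det h.fd₁.unit hc
      have h2 := Mul.det h.fd₂.unit hc'
      rw [Fintype.card_fin] at h1 h2
      rw [map_mul, mul_pow, ← h1, ← h2]; ring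
  by_cases h1 : Fintype.card F = 4 ∧ d = 3
  · obtain ⟨h1, rfl⟩ := h1
    obtain ⟨R₁, h2⟩ := (h.pgL hF hG).extD_three h.fd₁ hσ h1 (by simp)
    obtain ⟨R₂, h3⟩ := (h.pgR hF hG).extD_three h.fd₂ hσ h1 (by simp)
    obtain ⟨R, h4⟩ := h.extD hF h2 h3
    exact h4.unitary hF hσ hG hn
  obtain ⟨c₁, B₁', h2, h3, rfl⟩ := h.fd₁.exists_herm hσ
  obtain ⟨c₂, B₂', h4, h5, rfl⟩ := h.fd₂.exists_herm hσ
  obtain ⟨a, ha⟩ := h3.exists_gP_one hσ
  obtain ⟨b, hb⟩ := h5.exists_gP_one hσ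
  have h6 := h.change a b
  exact ⟨_, .inr (.inr (.inr (.inr (.inr (.inr (.inr (.inr (.inr (.inr ⟨d, 2, _, _, 1, hd, le_rfl, h1,
    ha ▸ h3.gP a, h6.powerForm h2 h4 (by rw [gP_smul, ha]) (by rw [gP_smul, hb]), rfl⟩))))))))),
    h6.le_tensor.trans (tensor_le_wreath _ _)⟩

omit [Fintype F] in
theorem fd_of_symm_or_alt {B' : Matrix ι ι F} (hB : IsUnit B')
    (h : ((2 : F) ≠ 0 ∧ B'ᵀ = B') ∨ Alt B') : ∃ ε', FD (RingHom.id F) B' ε' := by
  rcases h with ⟨-, h⟩ | h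
  · exact ⟨1, fun _ => rfl, hB, by simpa using h, one_ne_zero⟩
  · exact ⟨-1, fun _ => rfl, hB, by simpa using h.transpose, by simp⟩

/-- Aschbacher's theorem, unitary case. -/
theorem uniC_or_residual (hF : FD σ B 1) (hσ : σ ≠ RingHom.id F) (hn : 2 ≤ Fintype.card ι)
    {H : Subgroup (GL ι F)} (hH : H ≤ similarityGroup (formOfGram σ B)) :
    (∃ M, UniC σ B M ∧ H ≤ M) ∨ InUnitaryResidualClass H := by
  haveI : Nonempty ι := Fintype.card_pos_iff.1 (by omega)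
  rw [or_iff_not_imp_left]
  intro h0
  have h : ¬ ∃ M, UniC σ B M ∧ H ⊔ scalars ι F ≤ M := fun ⟨M, h1, h2⟩ =>
    h0 ⟨M, h1, le_sup_left.trans h2⟩
  have hG := sup_le hH (scalars_le_sim σ B)
  have hI : Irr (H ⊔ scalars ι F) := by
    by_contra hI
    rcases hF.red hG hI with ⟨W, h1, h2, h3, -⟩ | ⟨W, h1, h2, h3, h4⟩
    · exact h ⟨_, .inl ⟨W, h1, h2, rfl⟩, h3.le_stab⟩
    rcases hF.nondeg_cases hG h1 h2 h3 h4 with ⟨W, h1, h2, h3, h4⟩ | ⟨k, D, h1, h2⟩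
    · exact h ⟨_, .inr (.inl ⟨W, h1, h2, h3, rfl⟩), h4⟩
    · exact h (uniC_of_dec hF hσ hG h1 h2)
  rcases hF.level1 le_sup_right hG hI with ⟨t, k, D, h1, h2, -⟩ | ⟨k, D, h1, h2, h3, -⟩ |
    ⟨C, hC⟩ | hP
  · exact (h (uniC_of_dec hF hσ hG h1 h2)).elim
  · exact (h ⟨_, .inr (.inr (.inr (.inl ⟨k, D, h1, h2, rfl⟩))), h3⟩).elim
  · obtain ⟨r, K, h1, h2, h3, h4, h5⟩ := hC.unitary hF hσ
    exact (h ⟨_, .inr (.inr (.inr (.inr (.inr (.inr (.inr (.inr (.inl ⟨r, K, h1, h2, h3,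
      hF.isAdjointClosedFor h4, rfl⟩)))))))), h5.le_normalizer⟩).elim
  have h5 := fun h' => h (C5D.unitary hF hσ hI hG hn h')
  rcases hP.core hF hn with ⟨d, m, e, P, N, hT⟩ | ⟨N, h1, h2, h3⟩ | ⟨P, hQ⟩ | ⟨k, t, e, P, hW⟩
  · obtain ⟨B₁, B₂, ε₁, ε₂, h1⟩ := hT.tenF hF hG
    exact (h (h1.uniC hF hσ hP hT.two_d hT.two_m)).elim
  · obtain ⟨r, R, h4⟩ := h2.extD hF.unit hG h1 h3
    exact (h (h4.unitary hF hσ hP hn)).elim
  · have h1 : ∀ x ∈ P, Mul σ B x 1 := fun x hx =>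
      mul_of_Iso (hQ.le.trans (commutator_le_Iso hG) hx)
    refine ⟨P, hQ.core fun F₀ h2 hr => ?_, ?_, ?_⟩
    · obtain ⟨P', hP'⟩ := exists_rat_of_realisable hr
      exact h5 (hQ.ai.c5D hF hQ.ng h2 hP' fun x hx => ⟨1, F₀.one_mem, h1 x hx⟩)
    · rintro ⟨Q, h2, h3⟩
      obtain ⟨B', h4, h6, h7⟩ := IsNondegenerateQuadraticForm.gram h2
      have := fixes_polar h3
      rw [h7] at this
      exact h5 (hQ.ai.c5D_herm hF hσ (B' := B') ⟨fun _ => rfl, h4, by simpa using h6, one_ne_zero⟩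
        hQ.ng fun x hx => ⟨1, h1 x hx, mul_of_Iso (this _ ⟨x, hx, rfl⟩)⟩)
    · rintro ⟨f, h2, h3⟩
      obtain ⟨B', h4, h6, rfl⟩ := IsSymplecticForm.gram h2
      obtain ⟨ε', h7⟩ := fd_of_symm_or_alt h4 (.inr h6)
      exact h5 (hQ.ai.c5D_herm hF hσ h7 hQ.ng fun x hx =>
        ⟨1, h1 x hx, mul_of_Iso (h3 _ ⟨x, hx, rfl⟩)⟩)
  rcases hW.two_k.eq_or_lt with rfl | hk
  · haveI : NeZero t := ⟨by have := hW.two_t; omega⟩
    obtain ⟨B', h1, h2, h3⟩ := wreath_two_le_sim e P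
    obtain ⟨ε', h7⟩ := fd_of_symm_or_alt h1 h2
    exact (h5 (hW.ai.c5D_herm hF hσ h7 (NG.self _).commutator fun x hx =>
      ⟨1, mul_of_Iso (commutator_le_Iso hG hx),
        mul_of_Iso (commutator_le_Iso (hW.le_wreath.trans h3) hx)⟩)).elim
  obtain ⟨B₁, ε₁, c, h1⟩ := hW.wrF hF hG
  obtain ⟨c₁, B₁', h2, h3, h4⟩ := h1.fd.exists_herm hσ
  exact (h ⟨_, .inr (.inr (.inr (.inr (.inr (.inr (.inr (.inr (.inr (.inr ⟨k, t, e, P, B₁', hk,
    hW.two_t, fun ⟨h6, h7⟩ => h1.not_noP (by simpa using hk.le)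
      (noP_herm h1.fd hσ h6 (by simp [h7])), h3, h1.powerForm h2 h4, rfl⟩))))))))),
    hW.le_wreath⟩).elim

end H23.As
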