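import Cfsg.Agent.H23.As18

/-!
Aschbacher's theorem, part 19: the standard unitary form.
-/

set_option autoImplicit false

namespace H23.As

open Matrix Module Cfsg Cfsg.Geo
open scoped MatrixGroups commutatorElement Kronecker

variable {ι : Type} [Fintype ι] [DecidableEq ι] {F : Type*} [Field F]

theorem FD.ne_top_of_ts [Nonempty ι] {σ : F →+* F} {B : Matrix ι ι F} (hB : IsUnit B)
    {W : Submodule F (ι → F)} (hW : IsTotallySingularFor (formOfGram σ B) W) : W ≠ ⊤ := by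
  rintro rfl
  obtain ⟨v, hv⟩ := exists_ne (0 : ι → F)
  obtain ⟨u, hu⟩ := exists_fog_left (σ := σ) hB hv
  exact hu (hW u trivial v trivial)

theorem ne_top_of_finrank_lt {W : Submodule F (ι → F)} (h : finrank F W < Fintype.card ι) :
    W ≠ ⊤ := by
  rintro rfl; simp at h

theorem NG.inf {Γ : Type*} [Group Γ] {G S S' : Subgroup Γ} (h : NG G S) (h' : NG G S') :
    NG G (S ⊓ S') := fun g hg x hx => ⟨h g hg x hx.1, h' g hg x hx.2⟩

variable [Fintype F] {q n : ℕ}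

theorem hermForm_eq (hF : Fintype.card F = q ^ 2) (n : ℕ) :
    hermForm n F q = formOfGram (conj hF) 1 := by
  ext u v; rw [fog_eq, one_mulVec]; rfl

theorem fd_one (hF : Fintype.card F = q ^ 2) : FD (conj hF) (1 : Matrix ι ι F) 1 :=
  ⟨conj_conj hF, isUnit_one, by rw [Matrix.map_one _ (map_zero _) (map_one _)]; simp, one_ne_zero⟩

theorem FD.unitaryPow (hF : Fintype.card F = q ^ 2) {B : Matrix ι ι F} (h : FD (conj hF) B 1) :
    IsUnitaryFormPow q (formOfGram (conj hF) B) :=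
  ⟨fog_add_left B, fog_smul_left B, fun v w => by simpa using (h.swap w v).symm, nondeg_fog h.unit⟩

theorem three_le_of_ne_four (hF : Fintype.card F = q ^ 2) (h : Fintype.card F ≠ 4) : 3 ≤ q := by
  have := two_le_of_card_eq_sq hF
  rcases this.eq_or_lt with rfl | h1
  · exact (h hF).elim
  · exact h1

theorem eq_pow_of_minimal (hF : Fintype.card F = q ^ 2) {z p e : ℕ} (h : IsMinimalFieldFor z p e F)
    {a : ℕ} (he : e = 2 * a) : q = p ^ a :=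
  Nat.pow_left_injective two_ne_zero (by
    simp only; rw [← hF, h.2.2.1, he, ← pow_mul, mul_comm])

/-- The geometric subgroups for the standard unitary form. -/
def UniS (n : ℕ) (F : Type*) [Field F] [Fintype F] (q : ℕ) (p : Subgroup (GL (Fin n) F) → Prop) :
    Prop :=
  (∃ W : Submodule F (Fin n → F), W ≠ ⊥ ∧ IsTotallySingularFor (hermForm n F q) W ∧
    p (subspaceStabilizer W)) ∨
  (∃ W : Submodule F (Fin n → F), W ≠ ⊥ ∧ IsNondegenerateOn (hermForm n F q) W ∧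
    2 * finrank F W < n ∧ p (subspaceStabilizer W)) ∨
  (∃ (t k : ℕ) (D : Fin t → Submodule F (Fin n → F)),
    IsNondegenerateMDecomposition (hermForm n F q) k D ∧ 2 ≤ t ∧ n = t * k ∧ (k = 2 → 3 ≤ q) ∧
      p (decompositionStabilizer D)) ∨
  (∃ (k : ℕ) (D : Fin 2 → Submodule F (Fin n → F)), 2 * k = n ∧ IsMDecomposition k D ∧
    (∀ i, IsTotallySingularFor (hermForm n F q) (D i)) ∧ p (decompositionStabilizer D)) ∨
  (∃ (F₀ : Subfield F) (r : ℕ) (P : GL (Fin n) F), r.Prime ∧ Odd r ∧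
    Fintype.card F = Nat.card F₀ ^ r ∧ IsFormRationalStructure (hermForm n F q) F₀ 1 P ∧
    p (subfieldSubgroup F₀ P)) ∨
  (Odd q ∧ ∃ (F₀ : Subfield F) (P : GL (Fin n) F), Fintype.card F = Nat.card F₀ ^ 2 ∧
    IsFormRationalStructure (hermForm n F q) F₀ 1 P ∧ p (subfieldSubgroup F₀ P)) ∨
  (Even n ∧ ∃ (F₀ : Subfield F) (P : GL (Fin n) F) (ζ : F),
    Fintype.card F = Nat.card F₀ ^ 2 ∧ ζ ≠ 0 ∧ ζ + ζ ^ q = 0 ∧
    IsFormRationalStructure (hermForm n F q) F₀ ζ P ∧ (∀ u : Fin n → F, (∀ i, u i ∈ F₀) →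
      hermForm n F q ((P : Matrix _ _ F) *ᵥ u) ((P : Matrix _ _ F) *ᵥ u) = 0) ∧
    p (subfieldSubgroup F₀ P)) ∨
  (∃ (r : ℕ) (R : Subgroup (GL (Fin n) F)) (p' e k : ℕ), IsSymplecticTypeGroup r R ∧
    ActsAbsolutelyIrreducibly (matrixSet R) ∧ R ≤ similarityGroup (hermForm n F q) ∧
    (Odd r → R ≤ GU n F q) ∧ r ≠ p' ∧
    IsMinimalFieldFor (Nat.card (Subgroup.center R)) p' e F ∧ Even e ∧ n = r ^ k ∧
    ((Odd r ∧ Nat.card (Subgroup.center R) = r ∧ 1 ≤ k ∧ Nat.card R = r ^ (1 + 2 * k)) ∨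
      (r = 2 ∧ e = 2 ∧ Nat.card (Subgroup.center R) = 4 ∧ Nat.card R = 2 ^ (2 + 2 * k))) ∧
    p (subgroupNormalizer R)) ∨
  (∃ (r : ℕ) (K : Subalgebra F (Matrix (Fin n) (Fin n) F)), r.Prime ∧ Odd r ∧ r ∣ n ∧
    IsFieldSubalgebra r K ∧ IsAdjointClosedFor (hermForm n F q) K ∧ p (subalgebraNormalizer K)) ∨
  (∃ (n₁ n₂ : ℕ) (e : Fin n ≃ Fin n₁ × Fin n₂) (P : GL (Fin n) F)
    (f₁ : (Fin n₁ → F) → (Fin n₁ → F) → F) (f₂ : (Fin n₂ → F) → (Fin n₂ → F) → F),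
    2 ≤ n₁ ∧ n₁ < n₂ ∧ n = n₁ * n₂ ∧ (n₁ = 2 → 3 ≤ q) ∧ IsUnitaryFormPow q f₁ ∧
    IsUnitaryFormPow q f₂ ∧ IsTensorFormStructure (fun x : F => x ^ q) (hermForm n F q) f₁ f₂ e P ∧
    p (tensorProductSubgroup n₁ n₂ e P)) ∨
  ∃ (k t : ℕ) (e : Fin n ≃ (Fin t → Fin k)) (P : GL (Fin n) F)
    (f₁ : (Fin k → F) → (Fin k → F) → F), 3 ≤ k ∧ 2 ≤ t ∧ n = k ^ t ∧ ¬ (q = 2 ∧ k = 3) ∧
    IsUnitaryFormPow q f₁ ∧
    IsTensorPowerFormStructure (fun x : F => x ^ q) (hermForm n F q) f₁ e P ∧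
    p (tensorWreathSubgroup k t e P)

theorem uniS_or_residual (hF : Fintype.card F = q ^ 2) (hn : 2 ≤ n) {H : Subgroup (GL (Fin n) F)}
    (hH : H ≤ GU n F q) : UniS n F q (H ≤ ·) ∨ InUnitaryResidualClass H := by
  haveI : Nonempty (Fin n) := ⟨⟨0, by omega⟩⟩
  refine (uniC_or_residual (fd_one hF) (conj_ne_id hF) (by simpa) (H := H)
    (hH.trans (by rw [← hermForm_eq]; exact Iso_le_sim _))).imp_left fun ⟨M, h, hM⟩ => ?_
  rw [UniC, ← hermForm_eq, Fintype.card_fin] at h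
  rcases h with ⟨W, h1, h2, rfl⟩ | ⟨W, h1, h2, h3, rfl⟩ | ⟨t, k, D, h1, h2, rfl⟩ |
    ⟨k, D, h1, h2, rfl⟩ | ⟨F₀, r, P, h1, h2, h3, h4, rfl⟩ | ⟨F₀, P, h1, h2, h3, rfl⟩ |
    ⟨F₀, P, ζ, h1, h2, h3, h4, h5, h6, rfl⟩ | ⟨r, R, p, e, k, h1, h2, h3, h4, h5, h6, h7, h8, h9, rfl⟩ |
    ⟨r, K, h1, h2, h3, h4, rfl⟩ | ⟨a, b, e, P, B₁, B₂, h1, h2, h3, h4, h5, h6, rfl⟩ |
    ⟨k, t, e, P, B₁, h1, h2, h3, h4, h5, rfl⟩
  · exact .inl ⟨W, h1, h2, hM⟩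
  · exact .inr (.inl ⟨W, h1, h2, h3, hM⟩)
  · exact .inr (.inr (.inl ⟨t, k, D, h1, h1.decomp.two_le,
      by simpa using IsMDecomposition.card_eq h1.decomp, fun h => three_le_of_ne_four hF (h2 h), hM⟩))
  · exact .inr (.inr (.inr (.inl ⟨k, D, by simpa using (IsMDecomposition.card_eq h1).symm, h1, h2,
      hM⟩)))
  · exact .inr (.inr (.inr (.inr (.inl ⟨F₀, r, P, h1, h2, h3, h4, hM⟩))))
  · refine .inr (.inr (.inr (.inr (.inr (.inl ⟨?_, F₀, P, h2, h3, hM⟩)))))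
    have := Nat.odd_iff.2 (odd_card_of_two_ne_zero h1)
    rw [hF] at this
    exact (Nat.odd_pow_iff two_ne_zero).1 this
  · exact .inr (.inr (.inr (.inr (.inr (.inr (.inl ⟨h1, F₀, P, ζ, h2, h3, h4, h5, h6, hM⟩))))))
  · exact .inr (.inr (.inr (.inr (.inr (.inr (.inr (.inl
      ⟨r, R, p, e, k, h1, h2, h3, h4, h5, h6, h7, h8, h9, hM⟩)))))))
  · exact .inr (.inr (.inr (.inr (.inr (.inr (.inr (.inr (.inl ⟨r, K, h1, h2,
      by simpa using IsFieldSubalgebra.dvd_card h3, h3, h4, hM⟩))))))))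
  · exact .inr (.inr (.inr (.inr (.inr (.inr (.inr (.inr (.inr (.inl ⟨a, b, e, P, _, _, h1, h2,
      by simpa using Fintype.card_congr e, fun h => three_le_of_ne_four hF (h3 h),
      h4.unitaryPow hF, h5.unitaryPow hF, h6, hM⟩)))))))))
  · exact .inr (.inr (.inr (.inr (.inr (.inr (.inr (.inr (.inr (.inr ⟨k, t, e, P, _, h1, h2,
      by simpa using Fintype.card_congr e, fun h => h3 ⟨by rw [hF, h.1]; rfl, h.2⟩,
      h4.unitaryPow hF, h5, hM⟩)))))))))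

theorem uniS_max (hF : Fintype.card F = q ^ 2) (hn : 3 ≤ n) (hn' : n ≤ 15)
    (hex : ¬ (n = 3 ∧ q = 2)) {H : Subgroup (GL (Fin n) F)}
    (hH : IsMaximalIn (GU n F q ⊓ specialLinear (Fin n) F) H) :
    UniS n F q (fun M => H = M ⊓ (GU n F q ⊓ specialLinear (Fin n) F)) ∨
      InUnitaryResidualClass H := by
  have hA := amb_SU hF hn hex
  haveI := hA.nonempty
  refine (uniS_or_residual hF (by omega) (hH.1.le.trans inf_le_left)).imp_left fun h => ?_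
  have E := fun {M} => IsMaximalIn.eq_inf (M := M) hH
  rcases h with ⟨W, h1, h2, h⟩ | ⟨W, h1, h2, h3, h⟩ | ⟨t, k, D, h1, h2, h3, h4, h⟩ |
    ⟨k, D, h1, h2, h3, h⟩ | ⟨F₀, r, P, h1, h2, h3, h4, h⟩ | ⟨h1, F₀, P, h2, h3, h⟩ |
    ⟨h1, F₀, P, ζ, h2, h3, h4, h5, h6, h⟩ | ⟨r, R, p, e, k, h1, h2, h3, h4, h5, h6, h7, h8, h9, h⟩ |
    ⟨r, K, h1, h2, h3, h4, h5, h⟩ | ⟨a, b, e, P, B₁, B₂, h1, h2, h3, h4, h5, h6, h7, h⟩ |
    ⟨k, t, e, P, B₁, h1, h2, h3, h4, h5, h6, h⟩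
  · exact .inl ⟨W, h1, h2, E h (hA.not_le_stab h1 (FD.ne_top_of_ts isUnit_one (hermForm_eq hF n ▸ h2)))⟩
  · exact .inr (.inl ⟨W, h1, h2, h3, E h (hA.not_le_stab h1 (ne_top_of_finrank_lt (by simp; omega)))⟩)
  · exact .inr (.inr (.inl ⟨t, k, D, h1, h2, h3, h4, E h (hA.not_le_dec h1.decomp)⟩))
  · exact .inr (.inr (.inr (.inl ⟨k, D, h1, h2, h3, E h (hA.not_le_dec h2)⟩)))
  · exact .inr (.inr (.inr (.inr (.inl ⟨F₀, r, P, h1, h2, h3, h4,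
      E h (hA.not_le_subfield (ne_top_of_card h1 h3) P)⟩))))
  · exact .inr (.inr (.inr (.inr (.inr (.inl ⟨h1, F₀, P, h2, h3,
      E h (hA.not_le_subfield (ne_top_of_card Nat.prime_two h2) P)⟩)))))
  · exact .inr (.inr (.inr (.inr (.inr (.inr (.inl ⟨h1, F₀, P, ζ, h2, h3, h4, h5, h6,
      E h (hA.not_le_subfield (ne_top_of_card Nat.prime_two h2) P)⟩))))))
  · exact .inr (.inr (.inr (.inr (.inr (.inr (.inr (.inl ⟨r, R, p, e, k, h1, h2, h3, h4, h5, h6, h7,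
      h8, h9, E h (hA.not_le_normalizer (((ng_Iso _).mono h3).inf (ng_SL R)) h1 h2)⟩)))))))
  · exact .inr (.inr (.inr (.inr (.inr (.inr (.inr (.inr (.inl ⟨r, K, h1, h2, h3, h4, h5,
      E h (hA.not_le_field h4 h1.ne_one)⟩))))))))
  · exact .inr (.inr (.inr (.inr (.inr (.inr (.inr (.inr (.inr (.inl ⟨a, b, e, P, _, _, h1, h2, h3,
      h4, h5, h6, h7, E h (hA.not_le_tensor h1 (by omega) e P)⟩)))))))))
  · obtain ⟨rfl, rfl⟩ := wreath_small h1 h2 h3 hn'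
    exact .inr (.inr (.inr (.inr (.inr (.inr (.inr (.inr (.inr (.inr ⟨_, _, e, P, _, h1, h2, h3, h4,
      h5, h6, E h (hA.not_le_wreath (by omega) (by omega) (by omega) e P)⟩)))))))))

end H23.As
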