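import Cfsg.Agent.H23.As19

/-!
Aschbacher's theorem, part 20: bilinear forms; quadratic forms in characteristic two.
-/

set_option autoImplicit false

namespace H23.As

open Matrix Module Cfsg Cfsg.Geo
open scoped MatrixGroups commutatorElement Kronecker

variable {ι : Type} [Fintype ι] [DecidableEq ι] {F : Type*} [Field F]
variable {κ μ : Type} [Fintype κ] [DecidableEq κ] [Fintype μ] [DecidableEq μ]
variable {σ : F →+* F} {B : Matrix ι ι F} {ε : F} {G : Subgroup (GL ι F)}

theorem FD.finrank_prp (h : FD σ B ε) (W : Submodule F (ι → F)) :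
    finrank F (prp σ B W) + finrank F W = Fintype.card ι := by
  refine le_antisymm ?_ (card_le_finrank_prp W)
  let b := finBasis F W
  let L : (ι → F) →ₗ[F] (Fin (finrank F W) → F) :=
    { toFun := fun v i => formOfGram σ B v (b i)
      map_add' := fun _ _ => funext fun _ => fog_add_left _ _ _ _
      map_smul' := fun _ _ => funext fun _ => fog_smul_left _ _ _ _ }
  have hle : prp σ B W ≤ LinearMap.ker L := fun v hv => funext fun i => hv _ (b i).2
  have hr : LinearMap.range L = ⊤ := by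
    by_contra h1
    obtain ⟨φ, h3, h4⟩ := Submodule.exists_dual_map_eq_bot_of_lt_top (lt_top_iff_ne_top.2 h1)
      inferInstance
    have h5 : ∑ i, σ (φ (Pi.single i 1)) • b i = 0 := by
      by_contra h5
      obtain ⟨v, hv⟩ := exists_fog_left (σ := σ) h.unit (mt Submodule.coe_eq_zero.1 h5)
      have h6 : φ (L v) = 0 := by rw [← Submodule.mem_bot F, ← h4]; exact ⟨_, ⟨v, rfl⟩, rfl⟩
      rw [LinearMap.pi_apply_eq_sum_univ] at h6
      refine hv (Eq.trans ?_ h6)
      rw [Submodule.coe_sum]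
      refine (map_sum (AddMonoidHom.mk' (formOfGram σ B v) (fog_add_right B v)) _ _).trans
        (Finset.sum_congr rfl fun i _ => ?_)
      simp only [AddMonoidHom.mk'_apply, Submodule.coe_smul, fog_smul_right, h.invol, smul_eq_mul]
      rw [mul_comm]; congr 2; ext j; simp [Pi.single_apply, eq_comm]
    refine h3 ((Pi.basisFun F _).ext fun i => ?_)
    simpa using Fintype.linearIndependent_iff.1 b.linearIndependent _ h5 i
  have h1 := Submodule.finrank_mono hle
  have h2 := L.finrank_range_add_finrank_ker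
  rw [hr] at h2
  simp at h2; omega

theorem FD.two_mul_le_of_ts (h : FD σ B ε) {W : Submodule F (ι → F)}
    (hW : IsTotallySingularFor (formOfGram σ B) W) : 2 * finrank F W ≤ Fintype.card ι := by
  have := Submodule.finrank_mono (show W ≤ prp σ B W from hW)
  have := h.finrank_prp W
  omega

theorem Alt.fd (h : Alt B) (hB : IsUnit B) : FD (RingHom.id F) B (-1) :=
  ⟨fun _ => rfl, hB, by simpa using h.transpose, by simp⟩

theorem FD.transpose (h : FD (RingHom.id F) B ε) : Bᵀ = ε • B := by simpa using h.herm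

theorem FD.eps_or [Nonempty ι] (h : FD (RingHom.id F) B ε) : ε = 1 ∨ ε = -1 :=
  (eq_or_of_transpose_eq_smul h.unit.ne_zero h.transpose).imp
    (fun e => smul_left_injective F h.unit.ne_zero (by simp [← h.transpose, e]))
    fun e => smul_left_injective F h.unit.ne_zero (by simp [← h.transpose, e])

theorem FD.alt (h : FD (RingHom.id F) B (-1)) (h2 : (2 : F) ≠ 0) : Alt B :=
  alt_of_skew' h2 (by simpa using h.transpose)

theorem FD.symmForm (h : FD (RingHom.id F) B 1) : IsSymmetricForm (fb B) :=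
  ⟨bilin_fog B, fun u v => (h.swap u v).trans (one_mul _), nondeg_fog h.unit⟩

theorem neg_eq_of_two (h2 : (2 : F) = 0) (x : F) : -x = x := by linear_combination -x * h2

theorem PG.alt_of_two [Finite F] (hF : FD (RingHom.id F) B ε) (h : PG (RingHom.id F) B G)
    (hn : 2 ≤ Fintype.card ι) (h2 : (2 : F) = 0) : Alt B := by
  haveI : Nonempty ι := Fintype.card_pos_iff.1 (by omega)
  refine h.irr.alt_of_two hn h2 ?_ h.sim
  rcases hF.eps_or with rfl | rfl
  · simpa using hF.transpose
  · rw [hF.transpose, neg_eq_of_two h2, one_smul]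

theorem PG.not_O2 {B : Matrix (Fin 2) (Fin 2) F} {G : Subgroup (GL (Fin 2) F)}
    (hF : FD (RingHom.id F) B 1) (h2 : (2 : F) ≠ 0) : ¬ PG (RingHom.id F) B G := fun h => by
  obtain ⟨c, hc⟩ := h.eq_smul hF (B' := J2 F) (ε' := -1) (by simpa using J2_transpose)
    fun a _ => mem_sim_J2 a
  have h1 : (J2 F)ᵀ = J2 F := by rw [hc, transpose_smul, hF.transpose, one_smul]
  have := congrFun (congrFun h1 0) 1
  simp only [J2, transpose_apply, of_apply, cons_val', cons_val_zero, cons_val_one] at this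
  exact h2 (by linear_combination -this)

/-! ### Quadratic forms -/

/-- The quadratic form of a matrix. -/
abbrev qf (B' : Matrix ι ι F) (v : ι → F) : F := fb B' v v

theorem polar_qf {B' : Matrix ι ι F} (h : B' + B'ᵀ = B) (u v : ι → F) :
    QuadraticMap.polar (qf B') u v = fb B u v := by
  simp only [QuadraticMap.polar, qf, fb, fog_add_left, fog_add_right, ← h, fog_add]
  rw [show formOfGram (RingHom.id F) B' v u = _ from fb_swap B' v u]; ring

theorem isNondeg_qf {B' : Matrix ι ι F} (h : B' + B'ᵀ = B) (hB : IsUnit B) :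
    IsNondegenerateQuadraticForm (qf B') := by
  have : QuadraticMap.polar (qf B') = fb B := by ext u v; exact polar_qf h u v
  refine ⟨fun c v => ?_, this ▸ bilin_fog B, this ▸ nondeg_fog hB⟩
  simp only [qf, fb, fog_smul_left, fog_smul_right, RingHom.id_apply]; ring

theorem alt_of_span {X : Matrix ι ι F} (hX : Xᵀ = -X) {S : Set (ι → F)}
    (hS : Submodule.span F S = ⊤) (h : ∀ s ∈ S, fb X s s = 0) : Alt X := fun v => by
  have hv : v ∈ Submodule.span F S := hS ▸ Submodule.mem_top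
  induction hv using Submodule.span_induction with
  | mem s hs => exact h s hs
  | zero => simp
  | add u v _ _ hu hv =>
    have := fb_swap X u v
    simp only [fb, hX, fog_neg, fog_add_left, fog_add_right] at *
    linear_combination hu + hv + this
  | smul c v _ hv => simp only [fb, fog_smul_left, fog_smul_right] at *; rw [hv, mul_zero, mul_zero]

theorem mem_quadSim_of_span [Nonempty ι] (hB : IsUnit B) {B' : Matrix ι ι F} (h : B' + B'ᵀ = B)
    {g : GL ι F} {c : F} (hg : Mul (RingHom.id F) B g c) {S : Set (ι → F)}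
    (hS : Submodule.span F S = ⊤) (h1 : ∀ s ∈ S, qf B' ((g : Matrix ι ι F) *ᵥ s) = c * qf B' s) :
    g ∈ quadSimilarityGroup (qf B') := by
  have key : ∀ v, fb ((g : Matrix ι ι F)ᵀ * B' * (g : Matrix ι ι F) + -(c • B')) v v =
      qf B' ((g : Matrix ι ι F) *ᵥ v) - c * qf B' v := fun v => by
    rw [qf, qf, fb, fb, fog_add, fog_neg, fog_smul, fog_mulVec, sub_eq_add_neg]; rfl
  have := alt_of_span (X := (g : Matrix ι ι F)ᵀ * B' * (g : Matrix ι ι F) + -(c • B')) (by
    have := mul_iff.1 hg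
    rw [← h] at this
    simp only [transpose_add, transpose_mul, transpose_transpose, transpose_neg, transpose_smul,
      RingHom.coe_id, Matrix.map_id, Matrix.mul_add, Matrix.add_mul, Matrix.mul_assoc] at this ⊢
    linear_combination (norm := module) this) hS fun s hs => by rw [key, h1 s hs, sub_self]
  exact ⟨Units.mk0 c (hg.ne_zero hB), fun v => sub_eq_zero.1 ((key v).symm.trans (this v))⟩

theorem span_coord (e : ι ≃ κ) (P : GL ι F) : Submodule.span F
    (Set.range fun p => (P : Matrix ι ι F) *ᵥ ((Pi.single p 1 : κ → F) ∘ e)) = ⊤ := by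
  refine eq_top_iff.2 fun v _ => ?_
  obtain ⟨x, rfl⟩ := exists_coord e P v
  have : x ∘ e = ∑ p, x p • ((Pi.single p 1 : κ → F) ∘ e) := by
    ext i; simp [Pi.single_apply]
  rw [this, mulVec_sum]
  exact Submodule.sum_mem _ fun p _ => by
    rw [mulVec_smul]; exact Submodule.smul_mem _ _ (Submodule.subset_span ⟨p, rfl⟩)

theorem exists_half (h2 : (2 : F) = 0) (hA : Alt B) (a : ι → F) :
    ∃ U : Matrix ι ι F, U + Uᵀ = B ∧ ∀ p, U p p = a p := by
  let n := Fintype.equivFin ι
  refine ⟨Matrix.of fun p p' => if p = p' then a p else if n p < n p' then B p p' else 0,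
    Matrix.ext fun p p' => ?_, fun p => by simp⟩
  by_cases h : p = p'
  · subst h; simp only [Matrix.add_apply, transpose_apply, of_apply, if_true, hA.diag]
    linear_combination a p * h2
  have h1 := congrFun (congrFun hA.transpose p) p'
  simp only [transpose_apply, Matrix.neg_apply, neg_eq_of_two h2] at h1
  rcases lt_or_gt_of_ne (n.injective.ne h) with h3 | h3 <;> simp [h, Ne.symm h, h3, h3.not_gt, h1]

theorem TrF.add {e : ι ≃ κ} {P : GL ι F} {B' : Matrix ι ι F} {B₀ B₀' : Matrix κ κ F}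
    (h : TrF σ e P B B₀) (h' : TrF σ e P B' B₀') : TrF σ e P (B + B') (B₀ + B₀') :=
  fun x y => by rw [fog_add, fog_add, h, h']

/-- The class of stabilisers of quadratic forms polarising to the given form. -/
def C8D (B : Matrix ι ι F) (G : Subgroup (GL ι F)) : Prop :=
  ∃ Q, IsNondegenerateQuadraticForm Q ∧ (∀ u v, QuadraticMap.polar Q u v = fb B u v) ∧
    G ≤ quadSimilarityGroup Q

theorem c8D_of_coord [Nonempty ι] (hB : IsUnit B) (hG : G ≤ similarityGroup (fb B)) {e : ι ≃ κ}
    {P : GL ι F} {B₀ U : Matrix κ κ F} (hT : TrF (RingHom.id F) e P B B₀) (hU : U + Uᵀ = B₀)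
    (h0 : ∀ p, U p p = 0) (h : ∀ g ∈ G, ∃ y : Matrix κ κ F, (g : Matrix ι ι F) = tr e P y ∧
      ∀ p, (yᵀ * U * y) p p = 0) : C8D B G := by
  obtain ⟨B', hB'⟩ := exists_trF_left (RingHom.id F) e P U
  have h1 : B' + B'ᵀ = B := ((hB'.add hB'.transpose).eq_iff hT).2 hU
  refine ⟨qf B', isNondeg_qf h1 hB, polar_qf h1, fun g hg => ?_⟩
  obtain ⟨c, hc⟩ := hG hg
  obtain ⟨y, h2, h3⟩ := h g hg
  refine mem_quadSim_of_span hB h1 hc (span_coord e P) ?_
  rintro _ ⟨p, rfl⟩
  simp only [qf, fb, h2, tr_mulVec, hB' _ _, fog_mulVec, fog_single, h0, mul_zero]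
  exact h3 p

theorem c8D_of_k [Nonempty ι] (hB : IsUnit B) (hA : Alt B) (h2 : (2 : F) = 0)
    (hG : G ≤ similarityGroup (fb B)) {k : Matrix ι ι F} (hk : k + adj (RingHom.id F) B k = 1)
    (h : ∀ g ∈ G, ∃ c : F, cj g k = k + c • 1) : C8D B G := by
  have h1 : kᵀ * B + (kᵀ * B)ᵀ = B := fog_inj (σ := RingHom.id F) fun u v => by
    rw [fog_add, show formOfGram _ (kᵀ * B)ᵀ u v = _ from (fb_swap _ v u).symm, ← fog_mulVec_left, fb,
      ← fog_mulVec_left, (hA.fd hB).fog_adj,
      show formOfGram _ B (k *ᵥ v) u = _ from hA.skew _ _, neg_eq_of_two h2, fb, ← fog_add_right,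
      ← add_mulVec, add_comm, hk, one_mulVec]
  refine ⟨qf (kᵀ * B), isNondeg_qf h1 hB, polar_qf h1, fun g hg => ?_⟩
  obtain ⟨a, ha⟩ := hG hg
  obtain ⟨c, hc⟩ := h _ (inv_mem hg)
  refine ⟨a, fun v => ?_⟩
  have := hA v
  simp only [qf, fb, ← fog_mulVec_left] at this ha ⊢
  rw [← cj_cj_inv g k, cj_mulVec, ha, cj_cj_inv, hc, add_mulVec, fog_add_left, smul_mulVec,
    one_mulVec, fog_smul_left, this, mul_zero, add_zero]

theorem Irr.add_quad [Finite F] (hI : Irr G) (hn : 2 ≤ Fintype.card ι) (h2 : (2 : F) = 0)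
    {D : (ι → F) → F} (ha : ∀ u v, D (u + v) = D u + D v) (hs : ∀ (c : F) v, D (c • v) = c ^ 2 * D v)
    (hi : ∀ g ∈ G, ∀ v, D v = 0 → D ((g : Matrix ι ι F) *ᵥ v) = 0) (v : ι → F) : D v = 0 := by
  let W : Submodule F (ι → F) :=
    { carrier := {v | D v = 0}
      add_mem' := fun hu hv => by simp only [Set.mem_ofPred_eq, ha] at *; rw [hu, hv, add_zero]
      zero_mem' := by simpa using hs 0 0
      smul_mem' := fun c v hv => by simp only [Set.mem_ofPred_eq, hs] at *; rw [hv, mul_zero] }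
  refine (((hI W hi).resolve_left fun h0 => ?_) ▸ Submodule.mem_top : v ∈ W)
  obtain ⟨i, j, hij⟩ := Fintype.exists_pair_of_one_lt_card hn
  haveI : CharP F 2 := CharTwo.of_one_ne_zero_of_two_eq_zero one_ne_zero h2
  obtain ⟨a, ha'⟩ := FiniteField.isSquare_of_char_two (ringChar.eq F 2) (D (Pi.single i 1))
  obtain ⟨b, hb⟩ := FiniteField.isSquare_of_char_two (ringChar.eq F 2) (D (Pi.single j 1))
  have h1 : b • (Pi.single i 1 : ι → F) + a • Pi.single j 1 ∈ W := by
    show D _ = 0
    rw [ha, hs, hs, ha', hb]; linear_combination a ^ 2 * b ^ 2 * h2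
  have h3 : (Pi.single i 1 : ι → F) ∉ W := by simp [h0]
  rw [h0, Submodule.mem_bot] at h1
  have := congrFun h1 j
  simp [hij.symm] at this
  exact h3 (show D _ = 0 by rw [ha', this, mul_zero])

theorem AI.le_quadSim [Finite F] {N : Subgroup (GL ι F)} (h : AI N) (hn : 2 ≤ Fintype.card ι)
    (h2 : (2 : F) = 0) (hN : NG G N) {Q : (ι → F) → F} (hQ : IsNondegenerateQuadraticForm Q)
    (hf : FixesQuadForm (matrixSet N) Q) (hG : G ≤ similarityGroup (QuadraticMap.polar Q)) :
    G ≤ quadSimilarityGroup Q := fun g hg => by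
  obtain ⟨c, hc⟩ := hG hg
  refine ⟨c, fun v => sub_eq_zero.1 (h.irr.add_quad hn h2
    (D := fun v => Q ((g : Matrix ι ι F) *ᵥ v) - c * Q v) (fun u v => ?_) (fun a v => ?_)
    (fun x hx v hv => ?_) v)⟩
  · have := hc u v
    simp only [QuadraticMap.polar, mulVec_add] at this ⊢
    linear_combination this
  · simp only [mulVec_smul, hQ.smul]; ring
  · have := hf _ ⟨_, hN g hg x hx, rfl⟩ ((g : Matrix ι ι F) *ᵥ v)
    simp only [Units.val_mul, ← mulVec_mulVec, val_inv_mulVec_mulVec] at this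
    simp only [this, hf _ ⟨x, hx, rfl⟩ v, hv]

theorem TenF.c8D [Finite F] [Nonempty κ] [Nonempty μ] {e : ι ≃ κ × μ} {P : GL ι F} {B₁ B₂}
    {ε₁ ε₂ : F} (h : TenF (RingHom.id F) B G e P B₁ B₂ ε₁ ε₂) (hB : IsUnit B)
    (hG : G ≤ similarityGroup (fb B)) (h2 : (2 : F) = 0) (h3 : Alt B₁) (h4 : Alt B₂) : C8D B G := by
  haveI := e.nonempty
  obtain ⟨U, h5, -⟩ := exists_half h2 h3 0
  refine c8D_of_coord hB hG h.trf (U := U ⊗ₖ B₂) ?_ (fun p => by simp [h4.diag]) fun g hg => ?_
  · rw [← kroneckerMap_transpose, h4.transpose, ← h5, add_kronecker]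
    ext; simp [neg_eq_of_two h2]
  · obtain ⟨a, b, rfl⟩ := h.le g hg
    refine ⟨_, rfl, fun p => ?_⟩
    rw [kronG_val, ← kroneckerMap_transpose, ← mul_kronecker_mul, ← mul_kronecker_mul,
      kroneckerMap_apply, ← fog_single (σ := RingHom.id F) (_ * B₂ * _)]
    have := h4 ((b : Matrix μ μ F) *ᵥ Pi.single p.2 1)
    rw [fb, fog_mulVec] at this
    exact mul_eq_zero_of_right _ this

theorem fperm_transpose {t : ℕ} (s : Equiv.Perm (Fin t)) :
    (fperm κ F s : Matrix (Fin t → κ) (Fin t → κ) F)ᵀ = ((fperm κ F s)⁻¹ : GL _ F) := by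
  ext x y
  change (if x = y ∘ s then 1 else 0) = if y = x ∘ s.symm then (1 : F) else 0
  congr 1
  exact propext ⟨by rintro rfl; ext; simp, by rintro rfl; ext; simp⟩

theorem fperm_inv {t : ℕ} (s : Equiv.Perm (Fin t)) : (fperm κ F s)⁻¹ = fperm κ F s.symm := rfl

theorem WrF.c8D {k t : ℕ} {e : ι ≃ (Fin t → Fin k)} {P : GL ι F} {B₁} {ε₁ c : F}
    (h : WrF (RingHom.id F) B e P B₁ ε₁ c) (hW : WrD G e P) (hB : IsUnit B)
    (hG : G ≤ similarityGroup (fb B)) (h2 : (2 : F) = 0) (h3 : Alt B₁) : C8D B G := by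
  haveI : Nonempty (Fin k) := ⟨⟨0, by have := hW.two_k; omega⟩⟩
  haveI := e.nonempty
  obtain ⟨i, j, hij⟩ := Fintype.exists_pair_of_one_lt_card (α := Fin t) (by have := hW.two_t; simp; omega)
  obtain ⟨U, h5, -⟩ := exists_half h2 h3 0
  have h6 : B₁ᵀ = B₁ := by rw [h3.transpose]; ext; simp [neg_eq_of_two h2]
  refine c8D_of_coord hB hG h.trf (U := c • ptens (Function.update (fun _ => B₁) i U)) ?_
    (fun p => ?_) fun g hg => ?_
  · rw [transpose_smul, ← smul_add, ptens_transpose]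
    have : (fun l => (Function.update (fun _ => B₁) i U l)ᵀ) = Function.update (fun _ => B₁) i Uᵀ := by
      ext1 l; by_cases hl : l = i
      · subst hl; simp
      · simp [hl, h6]
    rw [this]; congr 1; ext x y
    rw [Matrix.add_apply, ptens_update_apply, ptens_update_apply, ← add_mul, ptens_apply,
      ← Finset.mul_prod_erase _ _ (Finset.mem_univ i), ← h5]; rfl
  · rw [Matrix.smul_apply, ptens_apply, Finset.prod_eq_zero (Finset.mem_univ j), smul_zero]
    simp [hij.symm, h3.diag]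
  · obtain ⟨s, d, a, rfl⟩ := hW.exists_eq hg
    refine ⟨_, rfl, fun p => ?_⟩
    have := cj_fperm (κ := Fin k) s.symm (Function.update (fun _ => B₁) i U)
    rw [cj_apply, ← fperm_inv, inv_inv, ← fperm_transpose] at this
    simp only [Units.val_mul, sc_val, Matrix.smul_mul, Matrix.one_mul, transpose_smul, transpose_mul,
      Matrix.mul_smul, Matrix.smul_apply]
    rw [Matrix.mul_assoc, Matrix.mul_assoc, ← Matrix.mul_assoc (ptens _), ← Matrix.mul_assoc _ (_ * _),
      ← Matrix.mul_assoc _ (ptens _), this, ptensG_val, ptens_transpose, ptens_mul, ptens_mul,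
      ptens_apply, Finset.prod_eq_zero (Finset.mem_univ (s.symm j)), smul_zero, smul_zero, smul_zero]
    have := h3 ((a (s.symm j) : Matrix _ _ F) *ᵥ Pi.single (p (s.symm j)) 1)
    rw [fb, fog_mulVec, fog_single] at this
    simpa [hij.symm, Matrix.mul_assoc] using this

/-! ### Extraspecial groups of isometries -/

variable [Fintype F] [Nonempty ι]

omit [Fintype F] in
theorem ExtD.eq_two {r : ℕ} {R : Subgroup (GL ι F)} (h : ExtD (RingHom.id F) B G r R) :
    r = 2 ∧ (2 : F) ≠ 0 := by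
  obtain ⟨c, hc, hc'⟩ := h.root
  obtain rfl : r = 2 := (Nat.prime_dvd_prime_iff_eq h.prime Nat.prime_two).1
    (hc ▸ orderOf_dvd_of_pow_eq_one (Units.ext (by simpa [sq] using hc')))
  exact ⟨rfl, two_ne_zero_of_orderOf hc⟩

/-- An extraspecial group of isometries. -/
structure ExtI (B : Matrix ι ι F) (G R : Subgroup (GL ι F)) : Prop where
  two : (2 : F) ≠ 0
  iso : R ≤ Iso (fb B)
  ng : NG G R
  ext : Ext R
  pow : ∀ x ∈ R, x ^ 4 = 1
  neg : sc (-1) ∈ R

theorem ExtD.extI (hF : FD (RingHom.id F) B ε) (hG : PG (RingHom.id F) B G)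
    (hn : 2 ≤ Fintype.card ι) {r : ℕ} {R : Subgroup (GL ι F)} (h : ExtD (RingHom.id F) B G r R) :
    ∃ R, ExtI B G R := by
  obtain ⟨rfl, h2⟩ := h.eq_two
  refine ⟨R ⊓ Iso (fb B), h2, inf_le_right, h.ng.inf ((ng_Iso _).mono hG.sim),
    h.ext.of_le inf_le_left ?_, fun x hx => h.pow x hx.1,
    h.sc _ (by norm_num), (sc_mem_Iso hF.unit).2 (by simp)⟩
  by_cases h4 : ∃ d : Fˣ, (d : F) * d = -1
  · obtain ⟨d, hd⟩ := h4
    intro x hx
    obtain ⟨c, hc⟩ := h.sim hx
    obtain ⟨y, hy⟩ : ∃ y : Fˣ, x * x = As.sc y := by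
      refine exists_sc (h.ext.ai.mem_scalars fun y hy => ?_)
      have := cen_scalars.commutator_pow (r := 4) (h.ext.comm y hy x hx) (h.pow x hx ▸ one_mem _)
      obtain ⟨a, ha⟩ := exists_sc (h.ext.comm y hy x hx)
      have h5 := (sc_mem_Iso hF.unit).1 (ha ▸ commutator_mem_Iso (h.sim hy) (h.sim hx))
      have h6 : y * x = As.sc a * (x * y) := by rw [← ha]; group
      have h7 : (As.sc a : GL ι F) * As.sc a = 1 := by rw [← sc_mul, sc_eq_one]; exact Units.ext h5
      calc x * x * y = As.sc a * (x * (As.sc a * (x * y))) := by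
            rw [← mul_assoc x (As.sc a), ← sc_comm, mul_assoc (As.sc a) x, ← mul_assoc (As.sc a), h7]; group
        _ = y * (x * x) := by rw [← h6, ← mul_assoc x, ← mul_assoc (As.sc a), ← h6, mul_assoc]
    have h5 : (c : F) * c = 1 := by
      have h6 := (Mul.mul hc hc).unique hF.unit (d := y * y * 1)
        (by rw [hy, ← mul_one (As.sc y)]; exact Mul.sc mul_one' y)
      have h7 : y * y = 1 := (sc_eq_one (ι := ι)).1 (by 
        rw [sc_mul, ← hy, ← h.pow x hx]; simp only [Nat.gcd_self, pow_succ, pow_zero, one_mul, mul_assoc])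
      rw [h6]; simpa using congrArg Units.val h7
    rcases mul_self_eq_one_iff.1 h5 with h6 | h6
    · exact Subgroup.mem_sup_left ⟨hx, fun u v => (hc u v).trans (by rw [h6, one_mul])⟩
    · refine cen_scalars.mem_sup.2 ⟨As.sc d * x, ⟨mul_mem (h.sc d (Units.ext ?_)) hx, fun u v => ?_⟩, _,
        inv_mem (sc_mem d), by rw [sc_comm]; simp⟩
      · simp only [Units.val_pow_eq_pow_val, Units.val_one]
        norm_num; linear_combination ((d : F) * d - 1) * hd
      · exact (Mul.sc hc d u v).trans (by rw [RingHom.id_apply, hd, h6]; ring)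
  · obtain ⟨B', h5, h6⟩ := h.ext.exists_inv (σ := RingHom.id F) (fun _ => rfl) fun d hd => by
      have h7 : ((d : F) * d) * (d * d) = 1 := by
        have := congrArg Units.val (sc_eq_one.1 ((sc_pow d _).trans (h.pow _ hd)))
        norm_num at this; linear_combination this
      exact (mul_self_eq_one_iff.1 h7).resolve_right fun e => h4 ⟨d, e⟩
    obtain ⟨ε', h7⟩ := fd_of_symm_or_alt h5 (h.ext.ai.symm_or_alt hn h5 h6)
    obtain ⟨c, rfl⟩ := hG.eq_smul hF h7.herm fun g hg => h.ext.ai.mem_sim h5 h6 (h.ng g hg)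
    refine le_sup_of_le_left (le_inf le_rfl ?_)
    rw [← Iso_smul (c := c) (by rintro rfl; exact h5.ne_zero (zero_smul _ _))]
    exact inv_iff_le_Iso.1 h6

omit [Fintype F] in
theorem ExtI.sq {R : Subgroup (GL ι F)} (hB : IsUnit B) (h : ExtI B G R) {c : Fˣ} (hc : sc c ∈ R) :
    c ^ 2 = 1 := Units.ext (by rw [Units.val_pow_eq_pow_val, pow_two]; exact (sc_mem_Iso hB).1 (h.iso hc))

theorem ExtI.card_center {R : Subgroup (GL ι F)} (hB : IsUnit B) (h : ExtI B G R) :
    Nat.card (Subgroup.center R) = 2 :=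
  h.ext.ai.card_center (fun _ => h.sq hB) h.neg (orderOf_eq_prime (by simp) fun e => h.two (by
    have := congrArg Units.val e
    simp only [Units.val_neg, Units.val_one] at this; linear_combination -this))

theorem ExtI.symp (hF : FD (RingHom.id F) B ε) (hG : PG (RingHom.id F) B G)
    (hn : 2 ≤ Fintype.card ι) {R : Subgroup (GL ι F)} (h : ExtI B G R) :
    IsSymplecticTypeGroup 2 R := by
  have hs := h.iso.trans (Iso_le_sim _)
  obtain ⟨x, hx, hx'⟩ : ∃ x ∈ R, x ^ 2 ≠ 1 := by
    by_contra hh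
    push Not at hh
    refine not_le_scalars h.ext.ai.irr hn (hG.prim.le_scalars hF hs h.ng fun x hx y hy => ?_)
    have h1 : ∀ x ∈ R, x⁻¹ = x := fun x hx => inv_eq_of_mul_eq_one_right (pow_two x ▸ hh x hx)
    rw [← h1 _ (mul_mem hx hy), _root_.mul_inv_rev, h1 x hx, h1 y hy]
  haveI := Fact.mk Nat.prime_two
  exact isSymplecticTypeGroup h.ng (fun A hA => hG.prim.le_scalars hF (hA.trans hs)) Nat.prime_two
    h.pow hx (orderOf_eq_prime_pow (p := 2) (n := 1) hx' (h.pow x hx))

theorem exists_bot_or_prime (F : Type*) [Field F] [Fintype F] :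
    (⊥ : Subfield F) ≠ ⊤ ∨ (Fintype.card F).Prime := by
  rw [or_iff_not_imp_left, not_not]
  intro h
  obtain ⟨p, e, hp, hc, he⟩ := exists_char_pow F
  haveI := Fact.mk hp
  have : Fintype.card F ≤ Fintype.card (ZMod p) := Fintype.card_le_of_surjective
    (ZMod.castHom dvd_rfl F) fun x =>
      (bot_le (a := (ZMod.castHom (dvd_refl p) F).fieldRange) (h ▸ Subfield.mem_top x) : _)
  rw [ZMod.card] at this
  have h1 := Fintype.one_lt_card (α := F)
  match e, he with
  | 0, he => simp at he; omega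
  | 1, he => simpa [he]
  | e + 2, he =>
    have := hp.two_le
    have : p ^ 1 < p ^ (e + 2) := Nat.pow_lt_pow_right (by omega) (by omega)
    rw [pow_one] at this; omega

theorem ExtI.c5D (hF : FD (RingHom.id F) B ε) {R : Subgroup (GL ι F)} (h : ExtI B G R) :
    C5D (RingHom.id F) B G ∨ (Fintype.card F).Prime := by
  refine (exists_bot_or_prime F).imp_left fun h0 => ?_
  obtain ⟨P, hP⟩ := h.ext.exists_rat (F₀ := ⊥) fun d hd => by
    rcases sq_eq_one_iff.1 (show (d : F) ^ 2 = 1 from congrArg Units.val (h.sq hF.unit hd))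
      with e | e <;> rw [e]
    exacts [one_mem _, neg_mem (one_mem _)]
  exact h.ext.ai.c5D hF h.ng h0 hP fun x hx => ⟨1, one_mem _, mul_of_Iso (h.iso hx)⟩

theorem ExtI.card {R : Subgroup (GL ι F)} (hB : IsUnit B) (h : ExtI B G R) :
    ∃ k, Fintype.card ι = 2 ^ k ∧ Nat.card R = 2 ^ (1 + 2 * k) := by
  obtain ⟨k, hk⟩ := h.ext.exists_card_eq Nat.prime_two fun x => ⟨2, Subtype.ext (h.pow x x.2)⟩
  exact ⟨k, hk, by rw [h.ext.card_eq, h.card_center hB, hk]; ring⟩

theorem Ext.index_le {R A : Subgroup (GL ι F)} (h : Ext R) (hA : A ≤ R) :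
    ((scalars ι F).subgroupOf A).index ≤ finrank F (alg A) := by
  classical
  letI := Fintype.ofFinite (A ⧸ (scalars ι F).subgroupOf A)
  let v : A ⧸ (scalars ι F).subgroupOf A → alg A := fun q => ⟨_, mem_algK q.out.2⟩
  have h1 : LinearIndependent F v := by
    rw [Fintype.linearIndependent_iff]
    intro c hc q
    have := congrArg (fun M : alg A =>
      ((((q.out : A) : GL ι F)⁻¹ : GL ι F) * M : Matrix ι ι F).trace) hc
    simp only [AddSubmonoidClass.coe_finsetSum, SetLike.val_smul, ZeroMemClass.coe_zero,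
      Finset.mul_sum, trace_sum, mul_smul_comm, trace_smul, mul_zero, trace_zero, v] at this
    rw [Finset.sum_eq_single q, Units.inv_mul, trace_one, smul_eq_mul, mul_eq_zero] at this
    · exact this.resolve_right h.card_ne_zero
    · intro q' _ hq
      rw [← Units.val_mul, h.trace_eq_zero (hA (mul_mem (inv_mem q.out.2) q'.out.2)), smul_zero]
      intro h2
      apply hq
      rw [← q.out_eq, ← q'.out_eq, eq_comm]
      exact QuotientGroup.eq.2 h2
    · simp
  rw [Subgroup.index, Nat.card_eq_fintype_card]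
  exact h1.fintype_card_le_finrank

theorem exists_faithful (hG : Irr G) {C : Subalgebra F (Matrix ι ι F)} (hn : Nrm G C)
    (hc : ∀ x ∈ C, ∀ y ∈ C, x * y = y * x) : ∃ v : ι → F, ∀ x ∈ C, x *ᵥ v = 0 → x = 0 := by
  have hred := eq_zero_of_nil hG C
    { carrier := {s | s ∈ C ∧ IsNilpotent s}
      add_mem' := fun ha hb => ⟨add_mem ha.1 hb.1,
        Commute.isNilpotent_add (hc _ ha.1 _ hb.1) ha.2 hb.2⟩
      zero_mem' := ⟨zero_mem _, IsNilpotent.zero⟩
      smul_mem' := fun c s hs => ⟨C.smul_mem hs.1 c, hs.2.smul c⟩ }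
    (fun s hs => hs.1)
    (fun a ha s hs => ⟨mul_mem ha hs.1, Commute.isNilpotent_mul_left (hc _ ha _ hs.1) hs.2⟩)
    (fun s hs => hs.2) (fun g hg s hs => ⟨hn g hg s hs.1, hs.2.map (cj g)⟩)
  obtain ⟨v, -, hv⟩ := Set.Finite.exists_minimalFor (fun v : ι → F => {x | x ∈ C ∧ x *ᵥ v = 0})
    Set.univ Set.finite_univ Set.univ_nonempty
  refine ⟨v, fun x hx h0 => by_contra fun h1 => ?_⟩
  obtain ⟨k, hk, hi⟩ := exists_idem_pow x
  have h2 : x ^ k *ᵥ v = 0 := by
    obtain ⟨k, rfl⟩ := Nat.exists_eq_succ_of_ne_zero hk.ne'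
    rw [pow_succ, ← mulVec_mulVec, h0, mulVec_zero]
  have h3 := pow_mem hx k
  obtain ⟨u, hu⟩ : ∃ u, x ^ k *ᵥ u ≠ 0 := by
    by_contra hh; push Not at hh
    exact h1 (hred x ⟨hx, k, ext_mulVec fun u => by simp [hh]⟩)
  have := hv (Set.mem_univ (v + x ^ k *ᵥ u)) (fun y hy => ⟨hy.1, by
    have h4 := congrArg ((1 - x ^ k) *ᵥ ·) hy.2
    simp only [mulVec_mulVec, mulVec_zero] at h4
    rw [hc _ (sub_mem (one_mem _) h3) _ hy.1, ← mulVec_mulVec, mulVec_add, mulVec_mulVec u,
      Matrix.sub_mul, hi.eq, sub_mulVec, h2] at h4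
    simpa using h4⟩) ⟨h3, h2⟩
  rw [Set.mem_ofPred_eq, mulVec_add, h2, mulVec_mulVec, hi.eq, zero_add] at this
  exact hu this.2

theorem ExtI.minus (hB : IsUnit B) (hA : Alt B) {R : Subgroup (GL ι F)} (h : ExtI B G R) {k : ℕ}
    (hk : Fintype.card ι = 2 ^ k) : IsOfMinusType k R := fun A hc hA2 => by
  have hF := hA.fd hB
  have hle : A.map R.subtype ≤ R := Subgroup.map_subtype_le _
  have hcomm := alg_comm (S := A.map R.subtype) (S' := A.map R.subtype) (by
    rintro _ ⟨x, hx, rfl⟩ _ ⟨y, hy, rfl⟩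
    exact congrArg (fun z : A => ((z : R) : GL ι F)) (hc.is_comm.comm ⟨x, hx⟩ ⟨y, hy⟩))
  have hsa : ∀ X ∈ alg (A.map R.subtype), adj (RingHom.id F) B X = X := fun X hX =>
    algK_induction (p := fun X => adj (RingHom.id F) B X = X) (by
      rintro _ ⟨x, hx, rfl⟩
      change adj _ B ((x : GL ι F) : Matrix ι ι F) = ((x : GL ι F) : Matrix ι ι F)
      rw [hF.adj_of_Iso (h.iso x.2), inv_eq_of_mul_eq_one_right (congrArg Subtype.val (hA2 x hx))])
      adj_zero (fun X Y h1 h2 => by rw [adj_add, h1, h2])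
      (fun c X h1 => by rw [adj_smul, h1]; rfl) hX
  obtain ⟨v, hv⟩ := exists_faithful h.ext.ai.irr (C := alg (A.map R.subtype)) (fun y hy X hX =>
    algK_induction (p := fun X => cj y X ∈ alg (A.map R.subtype)) (fun x hx => by
      obtain ⟨c, hc⟩ := exists_sc (h.ext.comm y hy x (hle hx))
      rw [cj_val, show y * x * y⁻¹ = sc c * x by rw [← hc]; group, Units.val_mul, sc_val,
        Matrix.smul_mul, Matrix.one_mul]
      exact Subalgebra.smul_mem _ (mem_algK hx) _) (by simp)
      (fun X Y h1 h2 => by rw [map_add]; exact add_mem h1 h2)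
      (fun c X h1 => by rw [map_smul]; exact Subalgebra.smul_mem _ h1 c) hX) hcomm
  let L : alg (A.map R.subtype) →ₗ[F] (ι → F) :=
    { toFun := fun X => (X : Matrix ι ι F) *ᵥ v
      map_add' := fun X Y => add_mulVec _ _ _
      map_smul' := fun c X => smul_mulVec _ _ _ }
  have h1 := hF.two_mul_le_of_ts (W := LinearMap.range L) (by
    rintro _ ⟨X, rfl⟩ _ ⟨Y, rfl⟩
    have h1 := hF.fog_adj (X * Y) v v
    rw [hsa _ (mul_mem X.2 Y.2), show formOfGram _ B (_ *ᵥ v) v = _ from hA.skew _ _] at h1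
    refine (hF.fog_adj _ _ _).trans ?_
    rw [hsa _ X.2]
    exact mul_left_cancel₀ h.two (by
      simp only [L, LinearMap.coe_mk, AddHom.coe_mk, mulVec_mulVec, fb] at *
      linear_combination -h1))
  rw [LinearMap.finrank_range_of_inj ((LinearMap.ker_eq_bot (f := L)).1 (eq_bot_iff.2 fun X hX =>
    Subtype.ext (hv _ X.2 hX)))] at h1
  have h2 := h.ext.index_le hle
  have h3 := ((scalars ι F).subgroupOf (A.map R.subtype)).card_mul_index
  haveI := isCyclic_of_le_scalars ((A.map R.subtype).subtype.comp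
    ((scalars ι F).subgroupOf (A.map R.subtype)).subtype)
    (Subtype.val_injective.comp Subtype.val_injective) fun a => a.2
  have h4 : Nat.card ((scalars ι F).subgroupOf (A.map R.subtype)) ≤ 2 := by
    rw [← IsCyclic.exponent_eq_card]
    refine Nat.le_of_dvd two_pos (Monoid.exponent_dvd_of_forall_pow_eq_one ?_)
    rintro ⟨⟨_, x, hx, rfl⟩, -⟩
    exact Subtype.ext (Subtype.ext ((pow_two _).trans (congrArg Subtype.val (hA2 x hx))))
  rw [Subgroup.card_map_of_injective R.subtype_injective] at h3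
  rw [← h3, pow_succ, ← hk]
  nlinarith [Fintype.card_pos (α := ι)]

end H23.As
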