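import Cfsg.Agent.H23.As20
import Cfsg.Agent.H23.Disc

/-!
Aschbacher's theorem, part 21: discriminants, the four-dimensional plus type orthogonal group,
blocks of decompositions.
-/

set_option autoImplicit false

namespace H23.As

open Matrix Module Cfsg Cfsg.Geo
open scoped MatrixGroups commutatorElement Kronecker

variable {ι : Type} [Fintype ι] [DecidableEq ι] {F : Type*} [Field F]
variable {κ μ : Type} [Fintype κ] [DecidableEq κ] [Fintype μ] [DecidableEq μ]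
variable {σ : F →+* F} {B : Matrix ι ι F} {ε : F} {G : Subgroup (GL ι F)}

theorem noP_of_pow {Γ : Type*} [Group Γ] [Finite Γ] {S : Subgroup Γ} {a b : ℕ}
    (h : ∀ x ∈ S, x ^ (2 ^ a * 3 ^ b) = 1) : NoP S := by
  refine noP_of_card (MonoidHom.id S) Function.injective_id (a := (Nat.card S).factorization 2)
    (b := (Nat.card S).factorization 3) ?_
  conv_lhs => rw [← Nat.prod_factorization_pow_eq_self (Nat.card_pos (α := S)).ne']
  rw [Finsupp.prod_of_support_subset _ (s := {2, 3}) (fun p hp => ?_) _ (by simp)]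
  · simp
  have hp' := Nat.prime_of_mem_primeFactors hp
  haveI := Fact.mk hp'
  obtain ⟨x, hx⟩ := exists_prime_orderOf_dvd_card' (G := S) p (Nat.dvd_of_mem_primeFactors hp)
  have := orderOf_dvd_of_pow_eq_one (show x ^ _ = 1 from Subtype.ext (h x x.2))
  rw [hx, hp'.dvd_mul] at this
  rcases this with h1 | h1
  · simp [(Nat.prime_dvd_prime_iff_eq hp' Nat.prime_two).1 (hp'.dvd_of_dvd_pow h1)]
  · simp [(Nat.prime_dvd_prime_iff_eq hp' Nat.prime_three).1 (hp'.dvd_of_dvd_pow h1)]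

/-! ### Discriminants -/

theorem toBilin'_eq (B : Matrix ι ι F) (u v : ι → F) : Matrix.toBilin' B u v = fb B u v := by
  simp [toBilin'_apply, formOfGram]

theorem FD.isSymm (h : FD (RingHom.id F) B 1) : (Matrix.toBilin' B).IsSymm :=
  ⟨fun u v => by rw [toBilin'_eq, toBilin'_eq]; exact h.symmForm.symm u v⟩

theorem toBilin'_nondeg (h : IsUnit B) : (Matrix.toBilin' B).Nondegenerate :=
  LinearMap.BilinForm.nondegenerate_toBilin'_of_det_ne_zero' B
    ((isUnit_iff_isUnit_det _).1 h).ne_zero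

theorem toMatrix_toBilin' (B : Matrix ι ι F) :
    LinearMap.BilinForm.toMatrix (Pi.basisFun F ι) (Matrix.toBilin' B) = B := by
  ext i j; simp [LinearMap.BilinForm.toMatrix_apply]

theorem FD.exists_trF [Finite F] (h : FD (RingHom.id F) B 1) (h2 : (2 : F) ≠ 0) {B₀ : Matrix κ κ F}
    (h₀ : FD (RingHom.id F) B₀ 1) (e : ι ≃ κ) (hs : IsSquare (B₀.det * B.det)) :
    ∃ P, TrF (RingHom.id F) e P B B₀ := by
  obtain ⟨L, hL⟩ := exists_isometry_of_disc h2 h₀.isSymm h.isSymm (toBilin'_nondeg h₀.unit)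
    (toBilin'_nondeg h.unit) (Pi.basisFun F κ) (Pi.basisFun F ι) (Fintype.card_congr e.symm)
    (by rwa [toMatrix_toBilin', toMatrix_toBilin'])
  obtain ⟨P, hP⟩ := exists_GL_of_equiv L e
  exact ⟨P, fun x y => by rw [hP, hP]; simpa only [toBilin'_eq] using hL x y⟩

theorem FD.plus_iff [Finite F] (h : FD (RingHom.id F) B 1) (h2 : (2 : F) ≠ 0) {m : ℕ}
    (hm : Fintype.card ι = 2 * m) :
    IsPlusTypeOn (fun v => fb B v v) ⊤ ↔ IsSquare ((-1) ^ m * B.det) := by
  have := plus_iff_isSquare_disc h2 h.isSymm (toBilin'_nondeg h.unit) (Pi.basisFun F ι) (m := m)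
    (by simpa)
  rw [toMatrix_toBilin'] at this
  rw [← this]
  refine ⟨fun ⟨U, _, h1, h3⟩ => ⟨U, by simp at h3; omega, fun x hx y hy => ?_⟩,
    fun ⟨U, h1, h3⟩ => ⟨U, le_top, fun x hx => (toBilin'_eq _ _ _).symm.trans (h3 x hx x hx),
      by simp; omega⟩⟩
  have h4 := h1 _ (add_mem hx hy)
  have h5 := h.symmForm.symm x y
  simp only [fb, fog_add_left, fog_add_right] at h4 h5
  rw [show formOfGram _ B x x = 0 from h1 x hx, show formOfGram _ B y y = 0 from h1 y hy] at h4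
  rw [toBilin'_eq]
  exact mul_left_cancel₀ h2 (by simp only [fb]; linear_combination h4 + h5)

theorem trF_iff_gP {P : GL ι F} {B₀ : Matrix ι ι F} :
    TrF σ (Equiv.refl ι) P B B₀ ↔ gP σ B P = B₀ :=
  ⟨fun h => fog_inj (σ := σ) fun x y => (fog_mulVec _ _ _ _ _).symm.trans (h x y),
    fun h x y => h ▸ fog_mulVec _ _ _ _ _⟩

theorem TrF.det {e : ι ≃ κ} {P : GL ι F} {B₀ : Matrix κ κ F} (h : TrF (RingHom.id F) e P B B₀) :
    B₀.det = (P : Matrix ι ι F).det ^ 2 * B.det := by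
  have : gP (RingHom.id F) B P = B₀.submatrix e e := trF_iff_gP.1 fun x y => by
    have := h (x ∘ e.symm) (y ∘ e.symm)
    rw [← fog_submatrix e] at this
    simpa [Function.comp_assoc] using this
  rw [← det_submatrix_equiv_self e, ← this, gP]
  simp; ring

theorem TenF.reindex {e : ι ≃ κ × μ} {P : GL ι F} {B₁ B₂} {ε₁ ε₂ : F}
    (h : TenF σ B G e P B₁ B₂ ε₁ ε₂) {μ' : Type} [Fintype μ'] [DecidableEq μ'] (e' : μ ≃ μ') :
    TenF σ B G (e.trans (Equiv.prodCongr (Equiv.refl κ) e')) P B₁ (B₂.submatrix e'.symm e'.symm)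
      ε₁ ε₂ := by
  have h1 : TrF σ e' 1 B₂ (B₂.submatrix e'.symm e'.symm) := fun x y => by
    rw [← fog_submatrix e']; simp
  refine ⟨h.fd₁, h1.fd h.fd₂, fun x y => ?_, fun g hg => ?_⟩
  · rw [← fog_submatrix (Equiv.prodCongr (Equiv.refl κ) e')]
    exact (h.trf (x ∘ Equiv.prodCongr (Equiv.refl κ) e') (y ∘ Equiv.prodCongr (Equiv.refl κ) e')).trans
      (by congr 1; ext; simp)
  · obtain ⟨a, b, rfl⟩ := h.le g hg
    refine ⟨a, trG e'.symm 1 b, Units.ext ?_⟩
    simp only [trG_val, tr_apply, kronG_val, cj_one]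
    congr 1; ext; simp

theorem TenF.smul_left {e : ι ≃ κ × μ} {P : GL ι F} {B₁ B₂} {ε₁ ε₂ c : F}
    (h : TenF σ B G e P (c • B₁) B₂ ε₁ ε₂) (h1 : FD σ B₁ ε₁) (h2 : FD σ (c • B₂) ε₂) :
    TenF σ B G e P B₁ (c • B₂) ε₁ ε₂ :=
  ⟨h1, h2, by have := h.trf; rwa [smul_kronecker, ← kronecker_smul] at this, h.le⟩

theorem FD.smul (h : FD (RingHom.id F) B ε) {c : F} (hc : c ≠ 0) : FD (RingHom.id F) (c • B) ε :=
  ⟨h.invol, isUnit_smul hc h.unit, by
    rw [RingHom.coe_id, Matrix.map_id, transpose_smul, h.transpose, smul_comm], h.eps⟩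

theorem Alt.eq_J2 {B : Matrix (Fin 2) (Fin 2) F} (h : Alt B) : B = B 0 1 • J2 F := by
  have h1 := congrFun (congrFun h.transpose 0) 1
  ext i j
  fin_cases i <;> fin_cases j <;> simp_all [J2, h.diag]

theorem fd_J2 : FD (RingHom.id F) (J2 F) (-1) := alt_J2.fd isUnit_J2

theorem FD.kron {B₁ : Matrix κ κ F} {B₂ : Matrix μ μ F} {ε₁ ε₂ : F} (h₁ : FD σ B₁ ε₁)
    (h₂ : FD σ B₂ ε₂) : FD σ (B₁ ⊗ₖ B₂) (ε₁ * ε₂) :=
  ⟨h₁.invol, (kronG h₁.unit.unit h₂.unit.unit).isUnit, by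
    rw [kron_map, ← kroneckerMap_transpose, h₁.herm, h₂.herm, smul_kronecker, kronecker_smul,
      smul_smul], mul_ne_zero h₁.eps h₂.eps⟩

theorem fd_JJ : FD (RingHom.id F) (J2 F ⊗ₖ J2 F) 1 := by
  simpa using (fd_J2 (F := F)).kron fd_J2

/-! ### The plus type orthogonal group in dimension four -/

/-- The swap of two tensor factors. -/
def swapG (κ : Type) [Fintype κ] [DecidableEq κ] (F : Type*) [Field F] : GL (κ × κ) F where
  val := (1 : Matrix (κ × κ) (κ × κ) F).submatrix (Equiv.prodComm κ κ) id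
  inv := (1 : Matrix (κ × κ) (κ × κ) F).submatrix id (Equiv.prodComm κ κ)
  val_inv := by rw [← Equiv.coe_refl, submatrix_mul_equiv, mul_one, submatrix_one_equiv]
  inv_val := by rw [submatrix_mul_equiv]; simp

theorem cj_swapG (X Y : Matrix κ κ F) : cj (swapG κ F) (X ⊗ₖ Y) = Y ⊗ₖ X := by
  rw [cj_apply]
  change (1 : Matrix _ _ F).submatrix (Equiv.prodComm κ κ) (Equiv.refl _) * _ *
    (1 : Matrix _ _ F).submatrix (Equiv.refl _) (Equiv.prodComm κ κ) = _
  rw [one_submatrix_mul, mul_submatrix_one]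
  ext; simp [mul_comm]

theorem det_swapG : (swapG (Fin 2) F).1.det = -1 := by
  change ((1 : Matrix _ _ F).submatrix (Equiv.prodComm (Fin 2) (Fin 2)) id).det = _
  rw [det_permute, show Equiv.prodComm (Fin 2) (Fin 2) = Equiv.swap (0, 1) (1, 0) by decide]
  simp

theorem adj_J2 (X : Matrix (Fin 2) (Fin 2) F) :
    adj (RingHom.id F) (J2 F) X = X.trace • 1 - X := fd_J2.adj_eq_of_mul (by
  ext i j; fin_cases i <;> fin_cases j <;> simp [J2, Matrix.mul_apply, Fin.sum_univ_two, trace_fin_two])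

theorem mul_self_two (X : Matrix (Fin 2) (Fin 2) F) : X * X = X.trace • X - X.det • 1 := by
  ext i j
  fin_cases i <;> fin_cases j <;> simp [Matrix.mul_apply, trace_fin_two, det_fin_two] <;> ring

theorem skew_JJ (h2 : (2 : F) ≠ 0) {M : Matrix (Fin 2 × Fin 2) (Fin 2 × Fin 2) F}
    (h : adj (RingHom.id F) (J2 F ⊗ₖ J2 F) M = -M) : ∃ x y : Matrix (Fin 2) (Fin 2) F,
      x.trace = 0 ∧ y.trace = 0 ∧ M = x ⊗ₖ 1 + 1 ⊗ₖ y := by
  have h1 := fd_JJ.mul_adj M
  rw [h] at h1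
  have E := fun a i b j => congrFun (congrFun h1 (a, i)) (b, j)
  simp only [Fin.forall_fin_two, Matrix.mul_apply, Fintype.sum_prod_type, Fin.sum_univ_two, J2] at E
  simp at E
  refine ⟨(2 : F)⁻¹ • Matrix.of fun a b => M (a, 0) (b, 0) + M (a, 1) (b, 1),
    (2 : F)⁻¹ • Matrix.of fun a b => M (0, a) (0, b) + M (1, a) (1, b), ?_, ?_, ?_⟩
  · simp only [trace_smul, trace_fin_two, of_apply, smul_eq_mul]; grind
  · simp only [trace_smul, trace_fin_two, of_apply, smul_eq_mul]; grind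
  · ext ⟨a, i⟩ ⟨b, j⟩
    fin_cases a <;> fin_cases i <;> fin_cases b <;> fin_cases j <;> simp <;> grind

theorem o4_cases (h2 : (2 : F) ≠ 0) {g : GL (Fin 2 × Fin 2) F}
    (hg : g ∈ similarityGroup (fb (J2 F ⊗ₖ J2 F))) :
    (∃ a b, g = kronG a b) ∨ ∃ a b, g = swapG (Fin 2) F * kronG a b := by
  have key : ∀ X, cj g (kronL _ _ F X) ∈ (kronL (Fin 2) (Fin 2) F).range ∨
      cj g (kronL _ _ F X) ∈ (kronR (Fin 2) (Fin 2) F).range := fun X => by
    obtain ⟨Y, c, hY, rfl⟩ : ∃ (Y : Matrix _ _ F) (c : F), Y.trace = 0 ∧ X = Y + c • 1 :=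
      ⟨X - (X.trace / 2) • 1, X.trace / 2, by simp; field_simp; ring, by simp⟩
    obtain ⟨x, y, hx, hy, h1⟩ := skew_JJ h2 (M := cj g (Y ⊗ₖ 1)) (by
      rw [fd_JJ.adj_cj hg, adj_kron, fd_J2.adj_one, adj_J2, hY, ← map_neg]; congr 1; ext; simp)
    have h3 := congrArg (fun M => M * M) h1
    simp only [← map_mul, ← mul_kronecker_mul, add_mul, mul_add, mul_one, one_mul,
      mul_self_two, hx, hy, hY, zero_smul, zero_sub, ← neg_smul, smul_kronecker, kronecker_smul,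
      one_kronecker_one, map_smul, map_one] at h3
    have h4 : (2 : F) • x ⊗ₖ y = (x.det + y.det - Y.det) • 1 := by
      linear_combination (norm := module) -h3
    have h5 := congrArg trace h4
    rw [trace_smul, trace_kronecker, hx, trace_smul, trace_one, zero_mul, smul_zero, eq_comm,
      smul_eq_mul, mul_eq_zero] at h5
    rw [h5.resolve_right (by
      rw [show ((Fintype.card (Fin 2 × Fin 2) : ℕ) : F) = 2 * 2 by norm_num]
      exact mul_ne_zero h2 h2), zero_smul, smul_eq_zero_iff_right h2] at h4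
    simp only [map_add, map_smul, map_one, kronL_apply, h1]
    by_cases hx0 : y = 0
    · exact .inl (add_mem ⟨x, by simp [hx0]⟩ (Subalgebra.smul_mem _ (one_mem _) _))
    obtain rfl : x = 0 := by
      by_contra hh
      obtain ⟨a, b, h6⟩ : ∃ a b, x a b ≠ 0 := by by_contra hh'; push Not at hh'; exact hh (ext hh')
      exact hx0 (ext fun i j => by simpa [h6] using congrFun (congrFun h4 (a, i)) (b, j))
    exact .inr (add_mem ⟨y, by simp⟩ (Subalgebra.smul_mem _ (one_mem _) _))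
  by_cases h : ∀ X, cj g (kronL _ _ F X) ∈ (kronL (Fin 2) (Fin 2) F).range
  · exact .inl (exists_kronG fun X => (h X).imp fun _ => Eq.symm)
  push Not at h
  obtain ⟨X₀, h0⟩ := h
  obtain ⟨a, b, h⟩ := exists_kronG (g := (swapG (Fin 2) F)⁻¹ * g) fun X => by
    obtain ⟨Y, hY⟩ : cj g (kronL _ _ F X) ∈ (kronR (Fin 2) (Fin 2) F).range := by
      refine (key X).elim (fun h1 => ?_) id
      have h3 := (key X₀).resolve_left h0
      refine (key (X + X₀)).elim (fun h4 => (h0 ?_).elim) fun h4 => ?_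
      · simpa only [map_add, add_sub_cancel_left] using sub_mem h4 h1
      · simpa only [map_add, add_sub_cancel_right] using sub_mem h4 h3
    refine ⟨Y, ?_⟩
    rw [cj_mul, show cj g (X ⊗ₖ 1) = 1 ⊗ₖ Y from hY.symm, ← cj_swapG, cj_inv_cj]
  exact .inr ⟨a, b, by rw [← h, mul_inv_cancel_left]⟩

theorem kronG_mul (a c : GL κ F) (b d : GL μ F) : kronG a b * kronG c d = kronG (a * c) (b * d) :=
  Units.ext (by simp [kronG_val, mul_kronecker_mul])

theorem kronG_pow (a : GL κ F) (b : GL μ F) (k : ℕ) : kronG a b ^ k = kronG (a ^ k) (b ^ k) := by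
  induction k with
  | zero => exact Units.ext (by simp [kronG_val])
  | succ k ih => rw [pow_succ, ih, kronG_mul, pow_succ, pow_succ]

theorem swapG_mul (a b : GL κ F) : swapG κ F * kronG a b = kronG b a * swapG κ F :=
  Units.ext (cj_eq_iff.1 (cj_swapG _ _))

theorem swapG_sq : swapG κ F * swapG κ F = 1 := Units.ext (by
  change (1 : Matrix _ _ F).submatrix (Equiv.prodComm κ κ) (Equiv.refl _) * _ = _
  rw [one_submatrix_mul]
  ext; simp [swapG, one_apply])

theorem TenF.o4 [Finite F] {e : ι ≃ κ × μ} {P : GL ι F} {B₁ B₂} {ε₁ : F}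
    (h : TenF (RingHom.id F) B G e P B₁ B₂ ε₁ 1) (h2 : (2 : F) ≠ 0) (h4 : Fintype.card μ = 4)
    (hp : IsPlusTypeOn (fun v => fb B₂ v v) ⊤) : ∃ (e' : ι ≃ κ × Fin 2 × Fin 2) (P' : GL ι F),
      TenF (RingHom.id F) B G e' P' B₁ (J2 F ⊗ₖ J2 F) ε₁ 1 := by
  have h1 := h.reindex (Fintype.equivOfCardEq (β := Fin 2 × Fin 2) (by simpa))
  obtain ⟨b, hb⟩ := h1.fd₂.exists_trF h2 fd_JJ (Equiv.refl _) (by
    simpa [det_kronecker, J2, det_fin_two] using (h.fd₂.plus_iff h2 (m := 2) h4).1 hp)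
  have := h1.change 1 b
  rw [trF_iff_gP.1 hb, show gP _ B₁ 1 = B₁ by simp [gP]] at this
  exact ⟨_, _, this⟩

/-- Three tensor factors. -/
def e3 (κ : Type) : κ × κ × κ ≃ (Fin 3 → κ) where
  toFun p := ![p.1, p.2.1, p.2.2]
  invFun x := (x 0, x 1, x 2)
  left_inv _ := rfl
  right_inv x := by ext i; fin_cases i <;> rfl

theorem tr_e3 (e : ι ≃ κ × κ × κ) (P : GL ι F) (f : Fin 3 → Matrix κ κ F) :
    tr (e.trans (e3 κ)) P (ptens f) = tr e P (f 0 ⊗ₖ (f 1 ⊗ₖ f 2)) := by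
  rw [tr_apply, tr_apply]; congr 1; ext; simp [ptens_apply, Fin.prod_univ_three, mul_assoc]; rfl

theorem TenF.wreath3 {e : ι ≃ Fin 2 × Fin 2 × Fin 2} {P : GL ι F} {B₁}
    (h : TenF (RingHom.id F) B G e P B₁ (J2 F ⊗ₖ J2 F) (-1) 1) (hF : FD (RingHom.id F) B ε)
    (hG : PG (RingHom.id F) B G) (h2 : (2 : F) ≠ 0) :
    IsTensorPowerFormStructure id (fb B) (fb (J2 F)) (e.trans (e3 _)) P ∧
      G ≤ tensorWreathSubgroup 2 3 (e.trans (e3 _)) P := by
  have h1 := (h.fd₁.alt h2).eq_J2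
  refine ⟨⟨B₁ 0 1, fun h0 => h.fd₁.unit.ne_zero (by rw [h1, h0, zero_smul]), fun x y => ?_⟩,
    fun g hg => ?_⟩
  · have := h.trf (x ∘ e3 _) (y ∘ e3 _)
    rw [h1, smul_kronecker, fog_smul] at this
    refine this.trans (congrArg _ ?_)
    rw [gram_fog]
    refine Eq.trans ?_ (fog_submatrix (σ := RingHom.id F) (e3 _) (ptens fun _ => J2 F) x y)
    congr 1; ext; simp [ptens_apply, Fin.prod_univ_three, mul_assoc]; rfl
  obtain ⟨a, b, rfl⟩ := h.le g hg
  rcases o4_cases h2 ((h.pgR hF hG).sim (TenF.mem_fac hg).2) with ⟨c, d, rfl⟩ | ⟨c, d, rfl⟩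
  · obtain ⟨_, _, h3⟩ := exists_trG_ptensG (e := e.trans (e3 _)) (P := P)
      (g := trG e P (kronG a (kronG c d))) 1 fun i X => ⟨cj (![a, c, d] i) X, by
        fin_cases i <;> simp [slot_apply, tr_e3, cj_trG, cj_kronG]⟩
    exact h3 ▸ trG_mem_tensorWreathSubgroup _ _ _ _ _
  · obtain ⟨_, _, h3⟩ := exists_trG_ptensG (e := e.trans (e3 _)) (P := P)
      (g := trG e P (kronG a (swapG _ F * kronG c d))) (Equiv.swap 1 2) fun i X =>
      ⟨cj (![a, c, d] i) X, by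
        fin_cases i <;> simp [slot_apply, tr_e3, cj_trG, cj_kronG, cj_mul, cj_swapG,
          Equiv.swap_apply_of_ne_of_ne]⟩
    exact h3 ▸ trG_mem_tensorWreathSubgroup _ _ _ _ _

/-! ### Blocks of a non-degenerate decomposition -/

theorem isUnit_block {t : ℕ} {A : Fin t → Matrix κ κ F} (h : IsUnit (blockDiagonal A)) (i : Fin t) :
    IsUnit (A i) := by
  rw [isUnit_iff_isUnit_det, det_blockDiagonal, isUnit_iff_ne_zero, Finset.prod_ne_zero_iff] at h
  exact (isUnit_iff_isUnit_det _).2 (h i (Finset.mem_univ _)).isUnit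

theorem FD.block {t : ℕ} {A : Fin t → Matrix κ κ F} (h : FD σ (blockDiagonal A) ε) (i : Fin t) :
    FD σ (A i) ε := ⟨h.invol, isUnit_block h.unit i, Matrix.ext fun a b => by
  simpa using congrFun (congrFun h.herm (a, i)) (b, i), h.eps⟩

theorem Alt.block {t : ℕ} {A : Fin t → Matrix κ κ F} (h : Alt (blockDiagonal A)) (i : Fin t) :
    Alt (A i) := alt_of_skew (Matrix.ext fun a b => by
  simpa using congrFun (congrFun h.transpose (a, i)) (b, i)) fun a => by simpa using h.diag (a, i)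

theorem DecC.single_mem {t m : ℕ} {D : Fin t → Submodule F (ι → F)} {e : ι ≃ Fin m × Fin t}
    {P : GL ι F} (h : DecC D e P) (p : Fin m × Fin t) :
    (P : Matrix ι ι F) *ᵥ ((Pi.single p 1 : Fin m × Fin t → F) ∘ e) ∈ D p.2 :=
  (h _ _).2 fun p' hp => Pi.single_eq_of_ne (by rintro rfl; exact hp rfl) _

theorem DecC.trF {t m : ℕ} {D : Fin t → Submodule F (ι → F)} {e : ι ≃ Fin m × Fin t} {P : GL ι F}
    (h : DecC D e P) (hD : ∀ i j, i ≠ j → AreOrthogonalFor (formOfGram σ B) (D i) (D j)) :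
    ∃ A, TrF σ e P B (blockDiagonal A) := by
  obtain ⟨B₀, h1⟩ := exists_trF_right σ e P B
  refine ⟨fun i => Matrix.of fun a b => B₀ (a, i) (b, i), ?_⟩
  convert h1 using 1
  ext ⟨a, i⟩ ⟨b, j⟩
  rw [blockDiagonal_apply]
  split_ifs with hij
  · subst hij; rfl
  · exact (hD i j hij _ (h.single_mem (a, i)) _ (h.single_mem (b, j))).symm.trans
      ((h1 _ _).trans (fog_single _ _ _))

theorem Alt.even_dec (hA : Alt B) (hB : IsUnit B) {t m : ℕ} {D : Fin t → Submodule F (ι → F)}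
    (hD : IsNondegenerateMDecomposition (fb B) m D) : Even m := by
  obtain ⟨e, P, h⟩ := exists_decC hD.decomp
  obtain ⟨A, h1⟩ := h.trF hD.orthogonal
  let i : Fin t := ⟨0, by have := hD.decomp.two_le; omega⟩
  simpa using ((h1.alt_iff.1 hA).block i).even_card (isUnit_block (h1.isUnit_iff.1 hB) i)

/-! ### Self-adjoint fields -/

theorem IsFieldSubalgebra.dvd_finrank [Nonempty ι] {r : ℕ} {K : Subalgebra F (Matrix ι ι F)}
    (h : IsFieldSubalgebra r K) {W : Submodule F (ι → F)} (hW : ∀ k ∈ K, ∀ w ∈ W, k *ᵥ w ∈ W) :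
    r ∣ finrank F W := by
  letI := (IsFieldSubalgebra.isField h).toField
  let W' : Submodule K (ι → F) := { W.toAddSubmonoid with smul_mem' := fun k w => hW k k.2 w }
  have := Module.finrank_mul_finrank F K W'
  rw [h.finrank_eq] at this
  exact Dvd.intro _ this

theorem FD.two_mul_dvd [Nonempty ι] (hF : FD (RingHom.id F) B ε) {r : ℕ}
    {K : Subalgebra F (Matrix ι ι F)} (h : IsFieldSubalgebra r K) (hK : AC (RingHom.id F) B K)
    (h0 : ∀ k ∈ K, ∀ v, fb B (k *ᵥ v) v = 0) : 2 * r ∣ Fintype.card ι := by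
  obtain ⟨W, ⟨h1, h2⟩, h3⟩ := exists_maximal_of_wellFoundedGT (fun W : Submodule F (ι → F) =>
    (∀ k ∈ K, ∀ w ∈ W, k *ᵥ w ∈ W) ∧ W ≤ prp (RingHom.id F) B W) ⟨⊥, by simp, bot_le⟩
  have h4 : prp (RingHom.id F) B W ≤ W := fun v hv => by
    let L : K →ₗ[F] (ι → F) :=
      { toFun := fun X => (X : Matrix ι ι F) *ᵥ v
        map_add' := fun X Y => add_mulVec _ _ _
        map_smul' := fun c X => smul_mulVec _ _ _ }
    refine h3 (y := W ⊔ LinearMap.range L) ⟨fun k hk w hw => ?_, fun x hx y hy => ?_⟩ le_sup_left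
      (Submodule.mem_sup_right ⟨1, one_mulVec v⟩)
    · obtain ⟨a, ha, _, ⟨l, rfl⟩, rfl⟩ := Submodule.mem_sup.1 hw
      rw [mulVec_add]
      exact Submodule.add_mem_sup (h1 k hk a ha) ⟨⟨k, hk⟩ * l, (mulVec_mulVec _ _ _).symm⟩
    · obtain ⟨a, ha, _, ⟨l, rfl⟩, rfl⟩ := Submodule.mem_sup.1 hx
      obtain ⟨b, hb, _, ⟨l', rfl⟩, rfl⟩ := Submodule.mem_sup.1 hy
      have e1 : ∀ (l : K), ∀ b ∈ W, formOfGram (RingHom.id F) B (L l) b = 0 := fun l b hb =>
        (hF.fog_adj _ _ _).trans (hv _ (h1 _ (hK _ l.2) b hb))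
      rw [fog_add_left, fog_add_right, fog_add_right, h2 ha b hb, e1 l b hb,
        hF.eq_zero_comm.1 (e1 l' a ha), zero_add, zero_add, zero_add]
      refine (hF.fog_adj' _ _ _).symm.trans ?_
      exact (congrArg (fb B · v) (mulVec_mulVec _ _ _)).trans (h0 _ (mul_mem (hK _ l'.2) l.2) v)
  have h5 := hF.finrank_prp W
  rw [le_antisymm h4 h2, ← two_mul] at h5
  exact h5 ▸ Nat.mul_dvd_mul_left 2 (IsFieldSubalgebra.dvd_finrank h h1)

/-! ### The field with three elements -/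

variable [Fintype F]

theorem PG.extD_of_noP (hF : FD (RingHom.id F) B ε) (h : PG (RingHom.id F) B G)
    (hn : (Fintype.card ι).Prime) (hN : NoP (Iso (fb B))) : ∃ R, ExtD (RingHom.id F) B G 2 R := by
  haveI : Nonempty ι := Fintype.card_pos_iff.1 hn.pos
  rcases h.core_prime hF hn with ⟨N, h1, h2, h3⟩ | ⟨P, h1⟩
  · obtain ⟨r, R, h4⟩ := h2.extD hF.unit h.sim h1 h3
    exact ⟨R, h4.eq_two.1 ▸ h4⟩
  · exact (h1.not_noP h.sim hN).elim

theorem noP_JJ (h3 : Fintype.card F = 3) : NoP (Iso (fb (J2 F ⊗ₖ J2 F))) := by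
  have h1 : ∀ a : GL (Fin 2) F, a ^ 48 = 1 := fun a => by
    have := card_GL_field (𝔽 := F) 2
    simp only [h3, Fin.prod_univ_two] at this
    exact (congrArg (a ^ ·) this.symm).trans pow_card_eq_one'
  have h2 : ∀ a b : GL (Fin 2) F, kronG a b ^ 48 = 1 := fun a b => by
    rw [kronG_pow, h1, h1]; exact Units.ext (by simp [kronG_val])
  refine noP_of_pow (a := 5) (b := 1) fun x hx => ?_
  rw [show 2 ^ 5 * 3 ^ 1 = 2 * 48 by norm_num, pow_mul]
  rcases o4_cases (two_ne_zero_of_odd_card (by rw [h3]; decide)) (Iso_le_sim _ hx) with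
    ⟨a, b, rfl⟩ | ⟨a, b, rfl⟩
  · rw [kronG_pow, h2]
  · rw [pow_two, mul_assoc, ← mul_assoc (kronG a b), ← swapG_mul, ← mul_assoc, ← mul_assoc, swapG_sq,
      one_mul, kronG_mul, h2]

theorem PG.extD_JJ (h3 : Fintype.card F = 3) {G : Subgroup (GL (Fin 2 × Fin 2) F)}
    (h : PG (RingHom.id F) (J2 F ⊗ₖ J2 F) G) : ∃ R, ExtD (RingHom.id F) (J2 F ⊗ₖ J2 F) G 2 R := by
  rcases h.core fd_JJ (by simp) with ⟨d, m, e, P, N, hT⟩ | ⟨N, h1, h2, h4⟩ | ⟨P, hQ⟩ |
    ⟨k, t, e, P, hW⟩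
  · obtain ⟨B₁, B₂, ε₁, ε₂, h1⟩ := hT.tenF fd_JJ h.sim
    have := Fintype.card_congr e
    simp only [Fintype.card_prod, Fintype.card_fin] at this
    have h5 := hT.two_d
    have h6 := hT.two_m
    obtain rfl : d = 2 := by nlinarith
    obtain rfl : m = 2 := by omega
    obtain ⟨R₁, h7⟩ := (h1.pgL fd_JJ h).extD_of_noP h1.fd₁ (by simpa using Nat.prime_two)
      (noP_GL2 h3.le _)
    obtain ⟨R₂, h8⟩ := (h1.pgR fd_JJ h).extD_of_noP h1.fd₂ (by simpa using Nat.prime_two)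
      (noP_GL2 h3.le _)
    exact h1.extD fd_JJ h7 h8
  · obtain ⟨r, R, h5⟩ := h2.extD fd_JJ.unit h.sim h1 h4
    exact ⟨R, h5.eq_two.1 ▸ h5⟩
  · exact (hQ.not_noP h.sim (noP_JJ h3)).elim
  · obtain ⟨B₁, ε₁, c, h1⟩ := hW.wrF fd_JJ h.sim
    have := Fintype.card_congr e
    simp only [Fintype.card_prod, Fintype.card_fin, Fintype.card_fun] at this
    have h5 := hW.two_k
    obtain rfl : k = 2 := by
      have := Nat.pow_le_pow_right (n := k) (by omega) hW.two_t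
      nlinarith
    exact (h1.not_noP (by simp) (noP_GL2 h3.le _)).elim

end H23.As
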