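import Cfsg.Agent.H23.As21

/-!
Aschbacher's theorem, part 22: the symplectic case.
-/

set_option autoImplicit false

namespace H23.As

open Matrix Module Cfsg Cfsg.Geo
open scoped MatrixGroups commutatorElement Kronecker

variable {ι : Type} [Fintype ι] [DecidableEq ι] {F : Type*} [Field F] [Fintype F]
variable {B : Matrix ι ι F} {G : Subgroup (GL ι F)} {ε : F}

/-- The geometric subgroups in the symplectic case. -/
inductive SpC (f : (ι → F) → (ι → F) → F) : Subgroup (GL ι F) → Prop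
  | ts (W : Submodule F (ι → F)) (h0 : W ≠ ⊥) (h : IsTotallySingularFor f W) :
    SpC f (subspaceStabilizer W)
  | nd (W : Submodule F (ι → F)) (h0 : W ≠ ⊥) (h : IsNondegenerateOn f W)
    (hd : 2 * finrank F W < Fintype.card ι) : SpC f (subspaceStabilizer W)
  | dec (t k : ℕ) (D : Fin t → Submodule F (ι → F)) (h : IsNondegenerateMDecomposition f k D)
    (ht : 2 ≤ t) (hn : Fintype.card ι = t * k) (he : Even k) (h2 : k = 2 → 3 ≤ Fintype.card F) :
    SpC f (decompositionStabilizer D)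
  | pair (k : ℕ) (D : Fin 2 → Submodule F (ι → F)) (ho : Odd (Fintype.card F))
    (hn : Fintype.card ι = 2 * k) (h : IsMDecomposition k D) (hs : ∀ i, IsTotallySingularFor f (D i)) :
    SpC f (decompositionStabilizer D)
  | fld (r : ℕ) (K : Subalgebra F (Matrix ι ι F)) (hr : r.Prime) (hn : 2 * r ∣ Fintype.card ι)
    (h : IsFieldSubalgebra r K) (hs : IsSelfAdjointFor f K) (h0 : ∀ k ∈ K, ∀ v, f (k *ᵥ v) v = 0) :
    SpC f (subalgebraNormalizer K)
  | uni (K : Subalgebra F (Matrix ι ι F)) (ho : Odd (Fintype.card F)) (h : IsFieldSubalgebra 2 K)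
    (ha : IsAdjointClosedFor f K) (hs : ¬ IsSelfAdjointFor f K) : SpC f (subalgebraNormalizer K)
  | ten (a b : ℕ) (e : ι ≃ Fin a × Fin b) (P : GL ι F) (f₁ : (Fin a → F) → (Fin a → F) → F)
    (f₂ : (Fin b → F) → (Fin b → F) → F) (ho : Odd (Fintype.card F)) (hn : Fintype.card ι = a * b)
    (ha : 2 ≤ a) (he : Even a) (hb : 3 ≤ b) (h3 : b = 3 → 5 ≤ Fintype.card F)
    (h4 : a = 2 → b = 4 → ¬ IsPlusTypeOn (fun v => f₂ v v) ⊤) (h₁ : IsSymplecticForm f₁)
    (h₂ : IsSymmetricForm f₂) (h : IsTensorFormStructure id f f₁ f₂ e P) :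
    SpC f (tensorProductSubgroup a b e P)
  | sub (F₀ : Subfield F) (r : ℕ) (P : GL ι F) (ζ : F) (hr : r.Prime)
    (hF : Fintype.card F = Nat.card F₀ ^ r) (h0 : ζ ≠ 0) (h : IsFormRationalStructure f F₀ ζ P) :
    SpC f (subfieldSubgroup F₀ P)
  | ext (R : Subgroup (GL ι F)) (k : ℕ) (h : IsSymplecticTypeGroup 2 R)
    (ha : ActsAbsolutelyIrreducibly (matrixSet R)) (hs : R ≤ similarityGroup f)
    (hp : (Fintype.card F).Prime) (ho : Odd (Fintype.card F)) (hn : Fintype.card ι = 2 ^ k)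
    (hc : Nat.card R = 2 ^ (1 + 2 * k)) (hz : Nat.card (Subgroup.center R) = 2)
    (hm : IsOfMinusType k R) : SpC f (subgroupNormalizer R)
  | wr (k t : ℕ) (e : ι ≃ (Fin t → Fin k)) (P : GL ι F) (f₁ : (Fin k → F) → (Fin k → F) → F)
    (ho : Odd (Fintype.card F)) (hn : Fintype.card ι = k ^ t) (hk : 2 ≤ k) (ht : Odd t) (h3 : 3 ≤ t)
    (h2 : k = 2 → 5 ≤ Fintype.card F) (h₁ : IsSymplecticForm f₁)
    (h : IsTensorPowerFormStructure id f f₁ e P) : SpC f (tensorWreathSubgroup k t e P)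
  | quad (Q : (ι → F) → F) (he : ¬ Odd (Fintype.card F)) (h : IsNondegenerateQuadraticForm Q)
    (hp : ∀ u v, QuadraticMap.polar Q u v = f u v) : SpC f (quadSimilarityGroup Q)

theorem odd_of_two (h : (2 : F) ≠ 0) : Odd (Fintype.card F) :=
  Nat.odd_iff.2 (odd_card_of_two_ne_zero h)

theorem five_le_of_ne_three (h : (2 : F) ≠ 0) (h3 : Fintype.card F ≠ 3) : 5 ≤ Fintype.card F := by
  have := odd_card_of_two_ne_zero h
  have := Fintype.one_lt_card (α := F)
  omega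

theorem C8D.spC (h2 : (2 : F) = 0) (h : C8D B G) : ∃ M, SpC (fb B) M ∧ G ≤ M :=
  h.elim fun Q h => ⟨_, .quad Q (fun ho => two_ne_zero_of_odd_card ho h2) h.1 h.2.1, h.2.2⟩

theorem C5D.spC (h : C5D (RingHom.id F) B G) : ∃ M, SpC (fb B) M ∧ G ≤ M := by
  obtain ⟨F₁, r, P, ζ, h1, h2, h3, h4, h5⟩ := h
  exact ⟨_, .sub F₁ r P ζ h1 h2 h3 (h4.formRat fun _ => rfl), h5⟩

theorem spC_of_dec (hA : Alt B) (hB : IsUnit B) (hG : G ≤ similarityGroup (fb B)) {t k : ℕ}
    {D : Fin t → Submodule F (ι → F)} (hD : IsNondegenerateMDecomposition (fb B) k D)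
    (h : G ≤ decompositionStabilizer D) : ∃ M, SpC (fb B) M ∧ G ≤ M := by
  have hn := IsMDecomposition.card_eq hD.decomp
  have ht := hD.decomp.two_le
  by_cases h1 : k = 2 → 3 ≤ Fintype.card F
  · exact ⟨_, .dec t k D hD ht hn (hA.even_dec hB hD) h1, h⟩
  push Not at h1
  obtain ⟨rfl, h1⟩ := h1
  have hF : Fintype.card F = 2 := by have := Fintype.one_lt_card (α := F); omega
  have h2 : (2 : F) = 0 := cast_eq_zero_of_card (k := 1) hF
  haveI : Nonempty ι := Fintype.card_pos_iff.1 (by omega)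
  obtain ⟨e, P, h3⟩ := exists_decC hD.decomp
  obtain ⟨A, h4⟩ := h3.trF hD.orthogonal
  have h5 : ∀ i, A i = J2 F := fun i => by
    have h5 := ((h4.alt_iff.1 hA).block i).eq_J2
    rcases eq_zero_or_one hF (A i 0 1) with h6 | h6 <;> rw [h6] at h5
    · exact ((isUnit_block (h4.isUnit_iff.1 hB) i).ne_zero (by simpa using h5)).elim
    · simpa using h5
  obtain ⟨B', h6⟩ := exists_trF_left (RingHom.id F) e P (blockDiagonal fun _ => !![1, 1; 0, 1])
  have h7 : B' + B'ᵀ = B := ((h6.add h6.transpose).eq_iff h4).2 (by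
    rw [blockDiagonal_transpose, ← blockDiagonal_add]
    congr 1; ext i a b
    fin_cases a <;> fin_cases b <;> simp [h5, J2, neg_eq_of_two h2, one_add_one_eq_two, h2])
  refine C8D.spC h2 ⟨qf B', isNondeg_qf h7 hB, polar_qf h7, fun g hg => ?_⟩
  obtain ⟨c, hc⟩ := hG hg
  obtain ⟨s, a, h8⟩ := h3.exists_blkM (h hg)
  refine mem_quadSim_of_span hB h7 hc (span_coord e P) ?_
  rintro _ ⟨⟨k, i⟩, rfl⟩
  simp only [qf, fb, h8, tr_mulVec, h6 _ _, fog_mulVec, fog_single, blkM_conj,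
    (eq_zero_or_one hF c).resolve_left c.ne_zero, blockDiagonal_apply_eq]
  have h9 := (a i).det_ne_zero
  rw [det_fin_two] at h9
  fin_cases k
  · rcases eq_zero_or_one hF ((a i).1 0 0) with x | x <;> rcases eq_zero_or_one hF ((a i).1 1 0) with
      y | y <;> simp_all [Matrix.mul_apply, vecMul, dotProduct, one_add_one_eq_two]
  · rcases eq_zero_or_one hF ((a i).1 0 1) with x | x <;> rcases eq_zero_or_one hF ((a i).1 1 1) with
      y | y <;> simp_all [Matrix.mul_apply, vecMul, dotProduct, one_add_one_eq_two]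

theorem alt_mul_of_selfadj (hA : Alt B) (hB : IsUnit B) {k : Matrix ι ι F} {r : ℕ} (hr : r ≠ 0)
    (h : adj (RingHom.id F) B k = k) (hk : k ^ (Fintype.card F ^ r) = k) (v : ι → F) :
    fb B (k *ᵥ v) v = 0 := by
  have hF := hA.fd hB
  by_cases h2 : (2 : F) = 0
  · obtain ⟨a, ha⟩ : Even (Fintype.card F ^ r) := (Nat.even_pow' hr).2
      (Nat.not_odd_iff_even.1 fun ho => two_ne_zero_of_odd_card ho h2)
    rw [← hk, ha, pow_add, ← mulVec_mulVec, fb, hF.fog_adj, hF.adj_pow, h]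
    exact hA _
  · have h1 := hF.fog_adj k v v
    rw [h, show formOfGram _ B v _ = _ from hA.skew _ _] at h1
    exact mul_left_cancel₀ h2 (by simp only [fb] at *; linear_combination h1)

omit [Fintype F] in
theorem FldD.exists_k (hF : FD (RingHom.id F) B ε) (hG : G ≤ similarityGroup (fb B))
    (h2 : (2 : F) = 0) {C : Subalgebra F (Matrix ι ι F)} (h : FldD (RingHom.id F) B G C)
    (hs : ∀ x ∈ C, adj (RingHom.id F) B x = x → ∃ c : F, x = c • 1) :
    ∃ k ∈ C, k + adj (RingHom.id F) B k = 1 ∧ ∀ g ∈ G, ∃ c : F, cj g k = k + c • 1 := by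
  have hneg : ∀ X : Matrix ι ι F, -X = X := fun X => Matrix.ext fun i j => neg_eq_of_two h2 _
  obtain ⟨z, hz, hz'⟩ := h.ex
  obtain ⟨c, hc⟩ := hs _ (add_mem hz (h.ac z hz)) (by rw [adj_add, hF.adj_adj, add_comm])
  have h0 : c ≠ 0 := by
    rintro rfl
    exact hz' (hs z hz (by rw [eq_neg_of_add_eq_zero_right (hc.trans (zero_smul _ _)), hneg]))
  have h1 : c⁻¹ • z + adj (RingHom.id F) B (c⁻¹ • z) = 1 := by
    rw [adj_smul, RingHom.id_apply, ← smul_add, hc, smul_smul, inv_mul_cancel₀ h0, one_smul]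
  refine ⟨_, C.smul_mem hz _, h1, fun g hg => ?_⟩
  obtain ⟨d, hd⟩ := hs _ (sub_mem (h.nrm g hg _ (C.smul_mem hz c⁻¹)) (C.smul_mem hz c⁻¹)) (by
    rw [adj_sub, hF.adj_cj (hG hg), eq_sub_of_add_eq' h1, map_sub, map_one, ← hneg (_ - _)]; abel)
  exact ⟨d, by rw [← hd]; abel⟩

theorem FldD.spC [Nonempty ι] (hA : Alt B) (hB : IsUnit B) (hG : G ≤ similarityGroup (fb B))
    {C : Subalgebra F (Matrix ι ι F)} (h : FldD (RingHom.id F) B G C) :
    ∃ M, SpC (fb B) M ∧ G ≤ M := by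
  have hF := hA.fd hB
  rcases h.bilin hF hG with ⟨r, K, h1, h2, h3, h4, h5⟩ | ⟨h1, h3⟩
  · have h6 := fun k hk => alt_mul_of_selfadj hA hB h1.ne_zero (h4 k hk) (h5 k hk)
    exact ⟨_, .fld r K h1 (hF.two_mul_dvd h2 (fun k hk => by rwa [h4 k hk]) h6) h2
      (hF.isSelfAdjointFor_iff.2 h4) h6, h3.le_normalizer⟩
  by_cases h2 : (2 : F) = 0
  · obtain ⟨k, -, h4, h5⟩ := h.exists_k hF hG h2 h3
    exact (c8D_of_k hB hA h2 hG h4 h5).spC h2
  · obtain ⟨z, hz, hz'⟩ := h.ex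
    exact ⟨_, .uni C (odd_of_two h2) h1 (hF.isAdjointClosedFor h.ac)
      fun h4 => hz' (h3 z hz (hF.isSelfAdjointFor_iff.1 h4 z hz)), h.nrm.le_normalizer⟩

theorem ExtD.spC (hA : Alt B) (hB : IsUnit B) (hG : PG (RingHom.id F) B G)
    (hn : 2 ≤ Fintype.card ι) {r : ℕ} {R : Subgroup (GL ι F)} (h : ExtD (RingHom.id F) B G r R) :
    ∃ M, SpC (fb B) M ∧ G ≤ M := by
  haveI : Nonempty ι := Fintype.card_pos_iff.1 (by omega)
  have hF := hA.fd hB
  obtain ⟨R, h⟩ := h.extI hF hG hn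
  rcases h.c5D hF with h1 | h1
  · exact h1.spC
  obtain ⟨k, h2, h3⟩ := h.card hB
  exact ⟨_, .ext R k (h.symp hF hG hn) h.ext.ai.abs (h.iso.trans (Iso_le_sim _)) h1
    (odd_of_two h.two) h2 h3 (h.card_center hB) (h.minus hB hA h2), h.ng.le_normalizer⟩

theorem TenF.spC' (hA : Alt B) (hB : IsUnit B) (hG : PG (RingHom.id F) B G) (h2 : (2 : F) ≠ 0)
    {d m : ℕ} {e : ι ≃ Fin d × Fin m} {P : GL ι F} {B₁ B₂}
    (h : TenF (RingHom.id F) B G e P B₁ B₂ (-1) 1) (hd : 2 ≤ d) (hm : 2 ≤ m) :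
    ∃ M, SpC (fb B) M ∧ G ≤ M := by
  haveI : Nonempty (Fin d) := ⟨⟨0, by omega⟩⟩
  haveI : Nonempty (Fin m) := ⟨⟨0, by omega⟩⟩
  have hF := hA.fd hB
  have hn : Fintype.card ι = d * m := by simpa using Fintype.card_congr e
  have h1 := h.fd₁.alt h2
  by_cases h4 : d = 2 → m = 4 → ¬ IsPlusTypeOn (fun v => fb B₂ v v) ⊤
  · refine ⟨_, .ten d m e P _ _ (odd_of_two h2) hn hd (by simpa using h1.even_card h.fd₁.unit)
      (hm.lt_of_ne ?_) (fun h3 => five_le_of_ne_three h2 fun h5 => ?_) h4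
      (h1.isSymplecticForm h.fd₁.unit) h.fd₂.symmForm ⟨1 * 1, by simp, h.tensorForm
        (one_smul _ _).symm (one_smul _ _).symm⟩, h.le_tensor⟩
    · rintro rfl; exact PG.not_O2 h.fd₂ h2 (h.pgR hF hG)
    · exact (h.pgR hF hG).not_O3 h.fd₂ h5 (by simpa)
  push Not at h4
  obtain ⟨rfl, rfl, h4⟩ := h4
  obtain ⟨e', P', h5⟩ := h.o4 h2 (by simp) h4
  by_cases h3 : Fintype.card F = 3
  · obtain ⟨R₁, h6⟩ := (h5.pgL hF hG).extD_of_noP h5.fd₁ (by simpa using Nat.prime_two)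
      (noP_GL2 h3.le _)
    obtain ⟨R₂, h7⟩ := (h5.pgR hF hG).extD_JJ h3
    obtain ⟨R, h8⟩ := h5.extD hF h6 h7
    exact h8.spC hA hB hG (by omega)
  obtain ⟨h6, h7⟩ := h5.wreath3 hF hG h2
  exact ⟨_, .wr 2 3 _ P' _ (odd_of_two h2) hn le_rfl (by decide) le_rfl
    (fun _ => five_le_of_ne_three h2 h3) (alt_J2.isSymplecticForm isUnit_J2) h6, h7⟩

theorem TenF.spC (hA : Alt B) (hB : IsUnit B) (hG : PG (RingHom.id F) B G)
    {d m : ℕ} {e : ι ≃ Fin d × Fin m} {P : GL ι F} {B₁ B₂} {ε₁ ε₂ : F}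
    (h : TenF (RingHom.id F) B G e P B₁ B₂ ε₁ ε₂) (hd : 2 ≤ d) (hm : 2 ≤ m) :
    ∃ M, SpC (fb B) M ∧ G ≤ M := by
  haveI : Nonempty (Fin d) := ⟨⟨0, by omega⟩⟩
  haveI : Nonempty (Fin m) := ⟨⟨0, by omega⟩⟩
  have hF := hA.fd hB
  by_cases h2 : (2 : F) = 0
  · exact (h.c8D hB hG.sim h2 ((h.pgL hF hG).alt_of_two h.fd₁ (by simpa) h2)
      ((h.pgR hF hG).alt_of_two h.fd₂ (by simpa) h2)).spC h2
  have := h.eps_mul hF
  rcases h.fd₁.eps_or with rfl | rfl
  · obtain rfl : ε₂ = -1 := by simpa using this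
    exact h.swap.spC' hA hB hG h2 hm hd
  · obtain rfl : ε₂ = 1 := by simpa using this
    exact h.spC' hA hB hG h2 hd hm

theorem WrD.spC (hA : Alt B) (hB : IsUnit B) (hG : G ≤ similarityGroup (fb B)) {k t : ℕ}
    {e : ι ≃ (Fin t → Fin k)} {P : GL ι F} (h : WrD G e P) : ∃ M, SpC (fb B) M ∧ G ≤ M := by
  have hF := hA.fd hB
  have hk := h.two_k
  haveI : Nonempty (Fin k) := ⟨⟨0, by omega⟩⟩
  obtain ⟨B₁, ε₁, c, h1⟩ := h.wrF hF hG
  by_cases h2 : (2 : F) = 0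
  · obtain ⟨T, h3, -, h4⟩ := h1.perf
    refine (h1.c8D h hB hG h2 (h4.irr.alt_of_two (by simpa) h2 ?_ (h3.trans (Iso_le_sim _)))).spC h2
    rcases h1.fd.eps_or with rfl | rfl
    · simpa using h1.fd.transpose
    · rw [h1.fd.transpose, neg_eq_of_two h2, one_smul]
  have h3 := h1.eps hF
  have h4 : (1 : F) ≠ -1 := fun e => h2 (by linear_combination e)
  obtain rfl := h1.fd.eps_or.resolve_left (by rintro rfl; exact h4 (by simpa using h3))
  have ht : Odd t := Nat.not_even_iff_odd.1 fun he => h4 (he.neg_one_pow.symm.trans h3)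
  exact ⟨_, .wr k t e P _ (odd_of_two h2) (by simpa using Fintype.card_congr e) hk ht
    (by have := h.two_t; obtain ⟨a, rfl⟩ := ht; omega)
    (by rintro rfl; exact five_le_of_ne_three h2 fun h5 => h1.not_noP (by simp) (noP_GL2 h5.le _))
    ((h1.fd.alt h2).isSymplecticForm h1.fd.unit) (h1.powerForm one_ne_zero (one_smul _ _).symm),
    h.le_wreath⟩

theorem QD.not_unitary [Nonempty ι] (hF : FD (RingHom.id F) B ε) (hG : G ≤ similarityGroup (fb B))
    {P : Subgroup (GL ι F)} (h : QD G P) (h5 : ¬ C5D (RingHom.id F) B G) :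
    ¬ ∃ (σ : F ≃+* F) (f : (ι → F) → (ι → F) → F), IsUnitaryForm σ f ∧ FixesForm (matrixSet P) f := by
  rintro ⟨σ, f, h1, h2⟩
  obtain ⟨B', h3, h4, rfl⟩ := IsUnitaryForm.gram h1
  exact h5 (h.ai.c5D_bilin (σ := σ) (ε := 1) ⟨h1.involutive, h3, by simpa using h4, one_ne_zero⟩
    (fun e => h1.ne_refl (RingEquiv.ext (RingHom.congr_fun e))) hF h.ng fun x hx =>
      ⟨1, mul_of_Iso (mem_Iso.2 (h2 _ ⟨x, hx, rfl⟩)), mul_of_Iso (h.le.trans (commutator_le_Iso hG) hx)⟩)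

theorem QD.not_rat [Nonempty ι] {σ : F →+* F} (hF : FD σ B ε)
    (hG : G ≤ similarityGroup (formOfGram σ B)) {P : Subgroup (GL ι F)} (h : QD G P)
    (h5 : ¬ C5D σ B G) (F₀ : Subfield F) (h0 : F₀ ≠ ⊤) : ¬ RealisableOver F₀ (matrixSet P) :=
  fun hr => (exists_rat_of_realisable hr).elim fun _ hP => h5 (h.ai.c5D hF h.ng h0 hP fun _ hx =>
    ⟨1, F₀.one_mem, mul_of_Iso (h.le.trans (commutator_le_Iso hG) hx)⟩)

/-- Aschbacher's theorem, symplectic case. -/
theorem spC_or_residual (hA : Alt B) (hB : IsUnit B) (hn : 2 ≤ Fintype.card ι)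
    {H : Subgroup (GL ι F)} (hH : H ≤ similarityGroup (fb B)) :
    (∃ M, SpC (fb B) M ∧ H ≤ M) ∨ InSymplecticResidualClass H := by
  haveI : Nonempty ι := Fintype.card_pos_iff.1 (by omega)
  have hF := hA.fd hB
  rw [or_iff_not_imp_left]
  intro h0
  have h : ¬ ∃ M, SpC (fb B) M ∧ H ⊔ scalars ι F ≤ M := fun ⟨M, h1, h2⟩ =>
    h0 ⟨M, h1, le_sup_left.trans h2⟩
  have hG := sup_le hH (scalars_le_sim _ B)
  have hI : Irr (H ⊔ scalars ι F) := by
    by_contra hI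
    rcases hF.red hG hI with ⟨W, h1, h2, h3, -⟩ | ⟨W, h1, h2, h3, h4⟩
    · exact h ⟨_, .ts W h1 h2, h3.le_stab⟩
    rcases hF.nondeg_cases hG h1 h2 h3 h4 with ⟨W, h1, h2, h3, h4⟩ | ⟨k, D, h1, h2⟩
    · exact h ⟨_, .nd W h1 h2 h3, h4⟩
    · exact h (spC_of_dec hA hB hG h1 h2)
  rcases hF.level1 le_sup_right hG hI with ⟨t, k, D, h1, h2, -⟩ | ⟨k, D, h1, h2, h3, e, h4, h5⟩ |
    ⟨C, hC⟩ | hP
  · exact (h (spC_of_dec hA hB hG h1 h2)).elim
  · by_cases h6 : (2 : F) = 0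
    · refine (h ((c8D_of_k hB hA h6 hG h4 fun g hg => ?_).spC h6)).elim
      rcases h5 g hg with h7 | h7
      · exact ⟨0, by simpa using h7⟩
      · exact ⟨1, by rw [h7, eq_sub_of_add_eq' h4]; ext; simp [sub_eq_neg_add, neg_eq_of_two h6]⟩
    · exact (h ⟨_, .pair k D (odd_of_two h6) (IsMDecomposition.card_eq h1) h1 h2, h3⟩).elim
  · exact (h (hC.spC hA hB hG)).elim
  rcases hP.core hF hn with ⟨d, m, e, P, N, hT⟩ | ⟨N, h1, h2, h3⟩ | ⟨P, hQ⟩ | ⟨k, t, e, P, hW⟩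
  · obtain ⟨B₁, B₂, ε₁, ε₂, h1⟩ := hT.tenF hF hG
    exact (h (h1.spC hA hB hP hT.two_d hT.two_m)).elim
  · obtain ⟨r, R, h4⟩ := h2.extD hB hG h1 h3
    exact (h (h4.spC hA hB hP hn)).elim
  swap
  · exact (h (hW.spC hA hB hG)).elim
  have h5 : ¬ C5D _ B _ := fun h' => h h'.spC
  refine ⟨P, hQ.core (hQ.not_rat hF hG h5), ?_, hQ.not_unitary hF hG h5⟩
  rintro ⟨Q, h1, h2⟩
  obtain ⟨B', h3, h4, h6⟩ := IsNondegenerateQuadraticForm.gram h1
  have h7 := fixes_polar h2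
  rw [h6] at h7
  obtain ⟨c, rfl⟩ := hQ.ai.eq_smul h3 (inv_iff_fixes.2 h7)
    (inv_iff_le_Iso.2 (hQ.le.trans (commutator_le_Iso hG)))
  have hc : c ≠ 0 := by rintro rfl; exact hB.ne_zero (zero_smul _ _)
  have h8 : (2 : F) = 0 := by
    by_contra h8
    have := hA.transpose
    rw [transpose_smul, h4, eq_neg_iff_add_eq_zero, ← two_smul F] at this
    exact hB.ne_zero ((smul_eq_zero_iff_right h8).1 this)
  have h9 := hQ.ai.le_quadSim hn h8 hQ.ng h1 h2 (by rw [h6, ← sim_smul hc]; exact hG)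
  have h10 : ∀ u v, QuadraticMap.polar (fun v => c * Q v) u v = fb (c • B') u v := fun u v => by
    rw [fb, fog_smul, ← show _ = formOfGram _ B' u v from congrFun (congrFun h6 u) v]
    simp only [QuadraticMap.polar]; ring
  have h11 : QuadraticMap.polar (fun v => c * Q v) = fb (c • B') := funext₂ h10
  exact h (C8D.spC h8 ⟨fun v => c * Q v, ⟨fun a v => by rw [h1.smul]; ring, h11 ▸ bilin_fog _,
    h11 ▸ nondeg_fog hB⟩, h10, fun g hg => (h9 hg).imp fun a ha v => by simp only [ha]; ring⟩)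

omit [Fintype F] in
theorem Iso_not_le_quadSim (hA : Alt B) (hB : IsUnit B) (hn : 3 ≤ Fintype.card ι)
    {Q : (ι → F) → F} (hQ : IsNondegenerateQuadraticForm Q)
    (hp : ∀ u v, QuadraticMap.polar Q u v = fb B u v) : ¬ Iso (fb B) ≤ quadSimilarityGroup Q := by
  intro hle
  haveI : Nonempty ι := Fintype.card_pos_iff.1 (by omega)
  have key : ∀ u, u ≠ 0 → Q u = -1 := fun u hu => by
    have h0 : formOfGram (RingHom.id F) B u u = 0 := hA u
    have h1 : ∀ (c : F) v, (1 + c • vecMulVec u (B *ᵥ u)) *ᵥ v = v + (c * fb B v u) • u :=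
      fun c v => by
        rw [add_mulVec, one_mulVec, smul_mulVec, vecMulVec_mulVec, fb, fog_eq, dotProduct_comm,
          op_smul_eq_smul, smul_smul]; rfl
    have h3 : ∀ c : F, (1 + c • vecMulVec u (B *ᵥ u)) * (1 + -c • vecMulVec u (B *ᵥ u)) = 1 :=
      fun c => ext_mulVec fun v => by
        rw [← mulVec_mulVec, h1, h1, fb, fog_add_left, fog_smul_left, h0, one_mulVec]; module
    let t : GL ι F := ⟨_, _, h3 1, by simpa using h3 (-1)⟩
    have h4 : t ∈ Iso (fb B) := mem_Iso.2 fun x y => by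
      have := hA.skew u y
      simp only [t, h1, fb, fog_add_left, fog_add_right, fog_smul_left, fog_smul_right,
        RingHom.id_apply, h0] at *
      rw [this]; ring
    obtain ⟨c, hc⟩ := hle h4
    have h5 : (c : F) = 1 := Mul.unique hB (fun x y => by
      have := hp x y
      have := hp (t.1 *ᵥ x) (t.1 *ᵥ y)
      simp only [QuadraticMap.polar, ← mulVec_add, hc, fb] at *
      grind) (mul_of_Iso h4)
    obtain ⟨v, hv⟩ := exists_fog_left (σ := RingHom.id F) hB hu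
    have h6 := hp v (fb B v u • u)
    have h7 := hc v
    simp only [t, h1, QuadraticMap.polar, hQ.smul, fb, fog_smul_right, h5, one_mul,
      RingHom.id_apply] at h6 h7
    exact mul_left_cancel₀ (pow_ne_zero 2 hv) (by linear_combination h7 - h6)
  obtain ⟨u, hu⟩ := exists_ne (0 : ι → F)
  have h1 := (hA.fd hB).finrank_prp (F ∙ u)
  rw [finrank_span_singleton hu] at h1
  obtain ⟨w, hw, h2⟩ := SetLike.not_le_iff_exists.1 fun h : prp (RingHom.id F) B (F ∙ u) ≤ F ∙ u => by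
    have := Submodule.finrank_mono h
    rw [finrank_span_singleton hu] at this; omega
  have h3 := hp w u
  rw [QuadraticMap.polar, key u hu, key w (by rintro rfl; exact h2 (zero_mem _)), key _ fun e => h2 (by
    rw [eq_neg_of_add_eq_zero_left e]; exact neg_mem (Submodule.mem_span_singleton_self _)),
    show fb B w u = 0 from hw u (Submodule.mem_span_singleton_self _)] at h3
  simp at h3

theorem SpC.not_le (hA : Alt B) (hB : IsUnit B) {Rt : Set (ι → F)} (h : Amb (Iso (fb B)) Rt)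
    (hn : Fintype.card ι < 32) {M : Subgroup (GL ι F)} (hM : SpC (fb B) M) : ¬ Iso (fb B) ≤ M := by
  haveI := h.nonempty
  cases hM with
  | ts W h0 h1 => exact h.not_le_stab h0 (FD.ne_top_of_ts hB h1)
  | nd W h0 _ h1 => exact h.not_le_stab h0 (ne_top_of_finrank_lt (by omega))
  | dec t k D h1 => exact h.not_le_dec h1.decomp
  | pair k D _ _ h1 => exact h.not_le_dec h1
  | fld r K h0 _ h1 => exact h.not_le_field h1 h0.ne_one
  | uni K _ h1 => exact h.not_le_field h1 (by decide)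
  | ten a b e P _ _ _ _ ha _ hb => exact h.not_le_tensor ha hb e P
  | sub F₀ r P ζ h0 h1 => exact h.not_le_subfield (ne_top_of_card h0 h1) P
  | ext R k h0 h1 h2 => exact h.not_le_normalizer ((ng_Iso _).mono h2) h0 h1
  | wr k t e P _ _ h0 hk ht h3 =>
    obtain rfl : t = 3 := by
      by_contra h4
      have := (Nat.pow_le_pow_right two_pos (show 5 ≤ t by obtain ⟨a, rfl⟩ := ht; omega)).trans
        (Nat.pow_le_pow_left hk t)
      omega
    exact h.not_le_wreath hk le_rfl (by nlinarith [Nat.mul_le_mul hk hk]) e P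
  | quad Q _ h1 h2 => exact Iso_not_le_quadSim hA hB h.three h1 h2

omit [Fintype F] in
theorem sympForm_eq (m : ℕ) : sympForm m F = fb (J (Fin m) F) := by
  ext u v; rw [fb, fog_eq]; rfl

omit [Fintype F] in
theorem alt_J (m : ℕ) : Alt (J (Fin m) F) :=
  alt_of_skew (J_transpose _ _) (by rintro (i | i) <;> simp [J])

omit [Fintype F] in
theorem isUnit_J (m : ℕ) : IsUnit (J (Fin m) F) := (isUnit_iff_isUnit_det _).2 (isUnit_det_J _ _)

theorem spC_or_residual' {m : ℕ} (hm : 1 ≤ m) {H : Subgroup (GL (Fin m ⊕ Fin m) F)}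
    (hH : H ≤ spGL m F) : (∃ M, SpC (sympForm m F) M ∧ H ≤ M) ∨ InSymplecticResidualClass H := by
  rw [sympForm_eq]
  exact spC_or_residual (alt_J m) (isUnit_J m) (by simp; omega)
    (hH.trans (sympForm_eq (F := F) m ▸ Iso_le_sim _))

theorem spC_not_le {m : ℕ} (hm : 2 ≤ m) (hm' : m < 16) (hex : ¬ (m = 2 ∧ Fintype.card F = 2))
    {M : Subgroup (GL (Fin m ⊕ Fin m) F)} (hM : SpC (sympForm m F) M) : ¬ spGL m F ≤ M := by
  have := amb_Sp hm hex
  change Amb (Iso (sympForm m F)) _ at this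
  change ¬ Iso (sympForm m F) ≤ M
  rw [sympForm_eq] at *
  exact hM.not_le (alt_J m) (isUnit_J m) this (by simp; omega)

theorem spC_max {m : ℕ} (hm : 2 ≤ m) (hm' : m < 16) (hex : ¬ (m = 2 ∧ Fintype.card F = 2))
    {H : Subgroup (GL (Fin m ⊕ Fin m) F)} (hH : IsMaximalIn (spGL m F) H) :
    (∃ M, SpC (sympForm m F) M ∧ H = M ⊓ spGL m F) ∨ InSymplecticResidualClass H :=
  (spC_or_residual' (by omega) hH.1.le).imp_left fun ⟨M, h1, h2⟩ =>
    ⟨M, h1, IsMaximalIn.eq_inf hH h2 (spC_not_le hm hm' hex h1)⟩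

end H23.As
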