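import Cfsg.Agent.H23.As22

/-!
Aschbacher's theorem, part 23: small auxiliary facts.
-/

set_option autoImplicit false

namespace H23.As

open Matrix Module Cfsg Cfsg.Geo

variable {F : Type*} [Field F]

theorem not_nd_of_lt {m : ℕ} {W : Submodule F (Fin m ⊕ Fin m → F)} (h0 : W ≠ ⊥)
    (h : IsNondegenerateOn (sympForm m F) W) (hd : finrank F W < 2) : False := by
  obtain ⟨w, hw, hw0⟩ := (Submodule.ne_bot_iff W).1 h0
  obtain ⟨x, hx, h1⟩ := (h w hw hw0).1
  rw [← Submodule.eq_of_le_of_finrank_le ((Submodule.span_singleton_le_iff_mem w W).2 hw)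
    (by rw [finrank_span_singleton hw0]; omega)] at hx
  obtain ⟨c, rfl⟩ := Submodule.mem_span_singleton.1 hx
  rw [sympForm_eq, fb, fog_smul_left, show formOfGram _ _ w w = 0 from alt_J m w] at h1
  simp at h1

theorem wreath_small' {k t n : ℕ} (hk : 2 ≤ k) (ht : 3 ≤ t) (h : n = k ^ t) (hn : n ≤ 15) :
    k = 2 ∧ t = 3 := by
  have h1 := Nat.pow_le_pow_right (n := k) (by omega) ht
  obtain rfl : k = 2 := by
    by_contra h2
    have := Nat.pow_le_pow_left (show 3 ≤ k by omega) 3
    omega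
  refine ⟨rfl, by_contra fun h2 => ?_⟩
  have := Nat.pow_le_pow_right two_pos (show 4 ≤ t by omega)
  omega

end H23.As
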