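import Cfsg.Agent.H23.As23
import Cfsg.Agent.H23.Fam
import Cfsg.Agent.H22.OrthB

/-!
Aschbacher's theorem, part 24: quadratic forms and their types.
-/

set_option autoImplicit false

namespace H23.As

open Matrix Module Cfsg Cfsg.Geo H23.Form
open scoped MatrixGroups commutatorElement Kronecker

variable {ι : Type} [Fintype ι] [DecidableEq ι] {F : Type*} [Field F]
variable {κ μ : Type} [Fintype κ] [DecidableEq κ] [Fintype μ] [DecidableEq μ]
variable {B : Matrix ι ι F} {G H : Subgroup (GL ι F)} {Q : QuadraticForm F (ι → F)}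
variable {W W' U : Submodule F (ι → F)}

/-- A non-degenerate quadratic form with the Gram matrix of its polar form. -/
structure QF (Q : QuadraticForm F (ι → F)) (B : Matrix ι ι F) : Prop where
  unit : IsUnit B
  polar : QuadraticMap.polar Q = fb B

theorem exists_QF {Q : (ι → F) → F} (hQ : IsNondegenerateQuadraticForm Q) :
    ∃ (Q' : QuadraticForm F (ι → F)) (B : Matrix ι ι F), ⇑Q' = Q ∧ QF Q' B := by
  obtain ⟨Q', rfl, -⟩ := exists_quad hQ
  obtain ⟨B, h1, -, h2⟩ := IsNondegenerateQuadraticForm.gram hQ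
  exact ⟨Q', B, rfl, h1, h2⟩

theorem mem_isoQ {Q : (ι → F) → F} {g : GL ι F} :
    g ∈ isometryGroup F Q ↔ ∀ v, Q ((g : Matrix ι ι F) *ᵥ v) = Q v := H22.mem_isometryGroup

theorem isoQ_le_qs (Q : (ι → F) → F) : isometryGroup F Q ≤ quadSimilarityGroup Q :=
  fun _ hg => ⟨1, fun v => by simpa using mem_isoQ.1 hg v⟩

theorem Q_smul (c : F) (v : ι → F) : Q (c • v) = c ^ 2 * Q v := by
  rw [Q.map_smul, smul_eq_mul, sq]

theorem scalars_le_qs : scalars ι F ≤ quadSimilarityGroup Q := fun g hg => by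
  obtain ⟨c, rfl⟩ := exists_sc hg
  exact ⟨c ^ 2, fun v => by simp [sc_val, smul_mulVec, Q_smul]⟩

theorem omegaGL_le (Q : (ι → F) → F) : omegaGL Q ≤ isometryGroup F Q := Subgroup.map_subtype_le _

theorem omegaGL_eq (Q : (ι → F) → F) : omegaGL Q = ⁅isometryGroup F Q, isometryGroup F Q⁆ :=
  Subgroup.map_subtype_commutator _

theorem det_of_mem_commutator {S : Subgroup (GL ι F)} {g : GL ι F} (h : g ∈ ⁅S, S⁆) :
    (g : Matrix ι ι F).det = 1 := by
  have : ⁅S, S⁆ ≤ (GeneralLinearGroup.det (n := ι) (R := F)).ker :=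
    Subgroup.commutator_le.2 fun a _ b _ => by
      rw [MonoidHom.mem_ker, map_commutatorElement, commutatorElement_eq_one_iff_mul_comm, mul_comm]
  exact congrArg Units.val (this h)

theorem det_of_omegaGL {Q : (ι → F) → F} {g : GL ι F} (h : g ∈ omegaGL Q) :
    (g : Matrix ι ι F).det = 1 := det_of_mem_commutator (omegaGL_eq Q ▸ h)

omit [DecidableEq ι] in
theorem finrank_sup_disj (h : Disjoint W W') :
    finrank F ↥(W ⊔ W') = finrank F W + finrank F W' := by
  rw [← Submodule.finrank_sup_add_finrank_inf_eq, h.eq_bot, finrank_bot, add_zero]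

namespace QF

variable (h : QF Q B)
include h

theorem add (u v : ι → F) : Q (u + v) = Q u + Q v + fb B u v := by
  rw [← h.polar, QuadraticMap.polar]; ring

theorem symm (u v : ι → F) : fb B u v = fb B v u := by rw [← h.polar, QuadraticMap.polar_comm]

theorem fd : FD (RingHom.id F) B 1 := ⟨fun _ => rfl, h.unit, by
  simpa using fog_inj (σ := RingHom.id F) fun u v => (fb_swap B v u).symm.trans (h.symm v u),
  one_ne_zero⟩

theorem nd : IsNondegenerateQuadraticForm Q :=
  ⟨Q_smul, h.polar ▸ bilin_fog B, h.polar ▸ nondeg_fog h.unit⟩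

theorem B_eq (u v : ι → F) : (ofQuad Q).B u v = fb B u v := by rw [← h.polar]; rfl

theorem nondeg : (ofQuad Q).Nondeg := fun x hx => by
  by_contra h0
  obtain ⟨y, hy⟩ := exists_fog_right (σ := RingHom.id F) h.unit h0
  exact hy ((h.B_eq x y).symm.trans (hx y))

theorem two_mul (v : ι → F) : 2 * Q v = fb B v v := by
  rw [← h.polar, QuadraticMap.polar_self, two_smul, _root_.two_mul]

theorem alt (h2 : (2 : F) = 0) : Alt B := fun v => by rw [← h.two_mul, h2, zero_mul]

theorem perp_eq (W : Submodule F (ι → F)) : (ofQuad Q).perp W = prp (RingHom.id F) B W := by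
  ext v; simp only [mem_perp', h.B_eq, mem_prp]

theorem ts_for (hW : IsTotallySingularQuad Q W) : IsTotallySingularFor (fb B) W :=
  fun u hu v hv => by simpa [hW _ hu, hW _ hv, hW _ (add_mem hu hv)] using (h.add u v).symm

theorem ts_quad (h2 : (2 : F) ≠ 0) (hW : IsTotallySingularFor (fb B) W) :
    IsTotallySingularQuad Q W := fun v hv =>
  mul_left_cancel₀ h2 (by rw [h.two_mul, hW v hv v hv, mul_zero])

theorem mul_of {g : GL ι F} {c : F} (hg : ∀ v, Q ((g : Matrix ι ι F) *ᵥ v) = c * Q v) :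
    Mul (RingHom.id F) B g c := fun u v => by
  have h1 := h.add (g.1 *ᵥ u) (g.1 *ᵥ v)
  rw [← mulVec_add, hg, hg, hg, h.add] at h1
  simp only [fb] at h1; linear_combination -h1

theorem qs_le : quadSimilarityGroup Q ≤ similarityGroup (fb B) := h.polar ▸ quadSim_le_sim Q

theorem isoQ_le : isometryGroup F Q ≤ Iso (fb B) := fun _ hg u v =>
  (h.mul_of (c := 1) (fun v => by rw [one_mul, mem_isoQ.1 hg]) u v).trans (one_mul _)

theorem of_mul (h2 : (2 : F) ≠ 0) {g : GL ι F} {c : F} (hg : Mul (RingHom.id F) B g c) (v : ι → F) :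
    Q ((g : Matrix ι ι F) *ᵥ v) = c * Q v :=
  mul_left_cancel₀ h2 (by rw [h.two_mul, mul_left_comm, h.two_mul]; exact hg v v)

theorem ndOn_iff : IsNondegenerateOn (fb B) W ↔ Disjoint W ((ofQuad Q).perp W) := by
  rw [h.perp_eq]; exact h.fd.nondegOn_iff

theorem nondeg_comp (hW : IsNondegenerateOn (fb B) W) : (ofQuad (Q.comp W.subtype)).Nondeg := by
  rw [← H22.restrict_ofQuad]; exact (nondeg_restrict_iff _).2 (h.ndOn_iff.1 hW)

theorem even_finrank (h2 : (2 : F) = 0) (hW : IsNondegenerateOn (fb B) W) : Even (finrank F W) :=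
  even_finrank_of_alt (B := QuadraticMap.polarBilin (Q.comp W.subtype))
    (fun v => by simp [two_smul, ← _root_.two_mul, h2]) (h.nondeg_comp hW)

theorem two_ne_zero (hW : IsNondegenerateOn (fb B) W) (ho : Odd (finrank F W)) : (2 : F) ≠ 0 :=
  fun h2 => Nat.not_even_iff_odd.2 ho (h.even_finrank h2 hW)

theorem two_ne_zero' (ho : Odd (Fintype.card ι)) : (2 : F) ≠ 0 :=
  fun h2 => Nat.not_even_iff_odd.2 ho ((h.alt h2).even_card h.unit)

theorem exists_qf : ∃ U : Matrix ι ι F, U + Uᵀ = B ∧ ∀ v, Q v = fb U v v := by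
  let n := Fintype.equivFin ι
  have h0 : ∀ p p', B p' p = B p p' := fun p p' => by
    simpa using congrFun (congrFun h.fd.transpose p) p'
  let U : Matrix ι ι F := Matrix.of fun p p' =>
    if p = p' then Q (Pi.single p 1) else if n p < n p' then B p p' else 0
  have h1 : U + Uᵀ = B := Matrix.ext fun p p' => by
    by_cases e : p = p'
    · subst e; simp [U, ← _root_.two_mul, h.two_mul, fog_single]
    rcases lt_or_gt_of_ne (n.injective.ne e) with h3 | h3 <;>
      simp [U, e, Ne.symm e, h3, h3.not_gt, h0 p]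
  refine ⟨U, h1, fun v => ?_⟩
  have hv := (span_coord (F := F) (Equiv.refl ι) 1).ge (Submodule.mem_top (x := v))
  induction hv using Submodule.span_induction with
  | mem s hs =>
    obtain ⟨p, rfl⟩ := hs
    simp only [Units.val_one, one_mulVec, Equiv.coe_refl, Function.comp_id, fog_single]
    simp [U]
  | zero => simp
  | add u v _ _ hu hv =>
    have := polar_qf h1 u v
    simp only [QuadraticMap.polar, qf] at this
    rw [h.add, hu, hv]; linear_combination -this
  | smul c v _ hv => simp only [Q_smul, hv, fb, fog_smul_left, fog_smul_right]; simp; ring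

end QF

/-! ### Types -/

/-- The subspace contains a totally singular subspace of the given dimension. -/
def PlN (Q : (ι → F) → F) (W : Submodule F (ι → F)) (n : ℕ) : Prop :=
  ∃ U ≤ W, IsTotallySingularQuad Q U ∧ finrank F U = n

theorem PlN.plus {n : ℕ} (h : PlN Q W n) (hn : 2 * n = finrank F W) : IsPlusTypeOn Q W :=
  have ⟨U, h0, h1, h2⟩ := h
  ⟨U, h0, h1, h2 ▸ hn⟩

theorem PlN.plus_top {n : ℕ} (h : PlN Q W n) (hn : Fintype.card ι = 2 * n) : IsPlusTypeOn Q ⊤ :=
  have ⟨U, _, h1, h2⟩ := h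
  ⟨U, le_top, h1, by simp [h2, hn]⟩

theorem plN_of_plus {n : ℕ} (h : IsPlusTypeOn Q W) (hn : finrank F W = 2 * n) : PlN Q W n :=
  h.imp fun _ h => ⟨h.1, h.2.1, by omega⟩

theorem PlN.mono {n : ℕ} (h : PlN Q W n) (hW : W ≤ W') : PlN Q W' n :=
  h.imp fun _ h => ⟨h.1.trans hW, h.2⟩

theorem PlN.sup (hQ : QF Q B) {n n' : ℕ} (h : PlN Q W n) (h' : PlN Q W' n') (hd : Disjoint W W')
    (ho : AreOrthogonalFor (fb B) W W') : PlN Q (W ⊔ W') (n + n') := by
  obtain ⟨U, h1, h2, rfl⟩ := h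
  obtain ⟨U', h3, h4, rfl⟩ := h'
  refine ⟨U ⊔ U', sup_le_sup h1 h3, fun v hv => ?_,
    finrank_sup_disj (hd.mono h1 h3)⟩
  obtain ⟨a, ha, b, hb, rfl⟩ := Submodule.mem_sup.1 hv
  rw [hQ.add, h2 a ha, h4 b hb, ho a (h1 ha) b (h3 hb)]; simp

theorem AreIsometricFor.symm (h : AreIsometricFor Q W W') : AreIsometricFor Q W' W :=
  h.elim fun e h => ⟨e.symm, fun w => by rw [← h, e.apply_symm_apply]⟩

theorem AreIsometricFor.plus (h : AreIsometricFor Q W W') (hW : IsPlusTypeOn Q W) :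
    IsPlusTypeOn Q W' := by
  obtain ⟨e, h⟩ := h
  obtain ⟨U, h1, h2, h3⟩ := hW
  refine ⟨((U.comap W.subtype).map e.toLinearMap).map W'.subtype, Submodule.map_subtype_le _ _, ?_, ?_⟩
  · rintro _ ⟨_, ⟨w, hw, rfl⟩, rfl⟩; exact (h w).trans (h2 _ hw)
  · rw [Submodule.finrank_map_subtype_eq, LinearEquiv.finrank_map_eq,
      (Submodule.comapSubtypeEquivOfLe h1).finrank_eq, h3, e.finrank_eq]

theorem isometric_of_map {g : GL ι F} (hg : g ∈ isometryGroup F Q)
    (h : W.map (toLin' (g : Matrix ι ι F)) = W') : AreIsometricFor Q W W' :=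
  ⟨(glE ι F g).ofSubmodules W W' h, fun w => mem_isoQ.1 hg w⟩

theorem isometric_of_model {V : Type*} [AddCommGroup V] [Module F V] {q : V → F} (e : V ≃ₗ[F] W)
    (e' : V ≃ₗ[F] W') (h : ∀ x, Q (e x) = q x) (h' : ∀ x, Q (e' x) = q x) : AreIsometricFor Q W W' :=
  ⟨e.symm.trans e', fun w => by rw [LinearEquiv.trans_apply, h', ← h, e.apply_symm_apply]⟩

theorem plus_comp_iff : IsPlusTypeOn Q W ↔ ∃ X : Submodule F W, (∀ x ∈ X, Q.comp W.subtype x = 0) ∧
    2 * finrank F X = finrank F W :=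
  ⟨fun ⟨U, h1, h2, h3⟩ => ⟨U.comap W.subtype, fun x hx => h2 _ hx, by
    rwa [(Submodule.comapSubtypeEquivOfLe h1).finrank_eq]⟩,
    fun ⟨X, h1, h2⟩ => ⟨X.map W.subtype, Submodule.map_subtype_le _ _,
      by rintro _ ⟨x, hx, rfl⟩; exact h1 x hx, by rwa [Submodule.finrank_map_subtype_eq]⟩⟩

theorem QF.plus_prp (hQ : QF Q B) (h : IsPlusTypeOn Q ⊤) (hW : IsNondegenerateOn (fb B) W)
    (hp : IsPlusTypeOn Q W) : IsPlusTypeOn Q (prp (RingHom.id F) B W) := by
  obtain ⟨A, -, h1, h2⟩ := h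
  obtain ⟨X, h3, h4, h5⟩ := hp
  have h6 := hQ.fd.finrank_prp W
  have h7 := hQ.fd.finrank_prp X
  simp only [finrank_top, finrank_fintype_fun_eq_card] at h2
  obtain ⟨A', h8, h9, h10⟩ := exists_totSing_ge hQ.nondeg (totSing_ofQuad.2 h4)
    (totSing_ofQuad.2 h1) (by omega)
  have h11 := hQ.fd.nondegOn_iff.1 hW
  have h12 : X ⊔ prp (RingHom.id F) B W = prp (RingHom.id F) B X :=
    Submodule.eq_of_le_of_finrank_eq (sup_le (hQ.ts_for h4) fun v hv w hw => hv w (h3 hw)) (by
      rw [finrank_sup_disj (h11.mono_left h3)]; omega)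
  have h13 : X ⊔ A' ⊓ prp (RingHom.id F) B W = A' := by
    rw [inf_comm, ← sup_inf_assoc_of_le _ h10, h12, inf_eq_right, ← hQ.perp_eq]
    exact h8.le_perp.trans (perp_anti _ h10)
  have h14 := finrank_sup_disj
    (h11.mono h3 (inf_le_right (a := A')))
  rw [h13] at h14
  exact ⟨A' ⊓ _, inf_le_right, fun v hv => h8.2 v hv.1, by omega⟩

variable [Finite F]

theorem QF.plN_pair (hQ : QF Q B) (hW : IsNondegenerateOn (fb B) W) (he : Even (finrank F W))
    (ho : AreOrthogonalFor (fb B) W W') (h : AreIsometricFor Q W W') :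
    PlN Q (W ⊔ W') (finrank F W) := by
  obtain ⟨e, he⟩ := exists_neg_isometry (Φ := ofQuad Q) rfl (hQ.ndOn_iff.1 hW) he
  obtain ⟨φ, hφ⟩ := h
  let f : W →ₗ[F] (ι → F) := W.subtype + W'.subtype ∘ₗ φ.toLinearMap ∘ₗ e.toLinearMap
  refine ⟨LinearMap.range f, ?_, ?_, LinearMap.finrank_range_of_inj ?_⟩
  · rintro _ ⟨w, rfl⟩; exact Submodule.add_mem_sup w.2 (φ (e w)).2
  · rintro _ ⟨w, rfl⟩
    change Q (w + φ (e w)) = 0
    rw [hQ.add, hφ, show Q (e w) = _ from he w, ho _ w.2 _ (φ (e w)).2]; simp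
  · rw [← LinearMap.ker_eq_bot, LinearMap.ker_eq_bot']
    intro w hw
    have : (w : ι → F) = -φ (e w) := eq_neg_of_add_eq_zero_left hw
    exact Subtype.ext (Submodule.disjoint_def.1 (hQ.fd.nondegOn_iff.1 hW) w w.2 fun x hx =>
      (hQ.symm _ _).trans (ho x hx _ (this ▸ neg_mem (φ (e w)).2)))

theorem QF.isometric (hQ : QF Q B) (hW : IsNondegenerateOn (fb B) W)
    (hW' : IsNondegenerateOn (fb B) W') (he : Even (finrank F W)) (hd : finrank F W = finrank F W')
    (h : IsPlusTypeOn Q W ↔ IsPlusTypeOn Q W') : AreIsometricFor Q W W' := by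
  obtain ⟨m, hm⟩ := he
  by_cases hp : IsPlusTypeOn Q W
  · obtain ⟨X, h1, h2⟩ := plus_comp_iff.1 hp
    obtain ⟨X', h3, h4⟩ := plus_comp_iff.1 (h.1 hp)
    obtain ⟨e, h5⟩ := H22.exists_equiv_plus (hQ.nondeg_comp hW) (m := m) (by omega) h1 (by omega)
    obtain ⟨e', h6⟩ := H22.exists_equiv_plus (hQ.nondeg_comp hW') (m := m) (by omega) h3 (by omega)
    exact isometric_of_model e e' h5 h6
  obtain _ | m := m
  · exact (hp ⟨⊥, bot_le, by simp [IsTotallySingularQuad], by simp [hm]⟩).elim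
  have key : ∀ W : Submodule F (ι → F), IsNondegenerateOn (fb B) W → finrank F W = 2 * (m + 1) →
      ¬ IsPlusTypeOn Q W → ∀ X : Submodule F W, (∀ x ∈ X, Q.comp W.subtype x = 0) →
      finrank F X ≤ m := fun W hW h1 h2 X hX => by
    have := (hQ.nondeg_comp hW).two_mul_finrank_le (totSing_ofQuad.2 hX)
    by_contra h3
    exact h2 (plus_comp_iff.2 ⟨X, hX, by omega⟩)
  obtain ⟨e, h1⟩ | ⟨ζ, h1, e, h2⟩ := H22.exists_equiv_even (hQ.nondeg_comp hW) (m := m) (by omega)
  · have := key W hW (by omega) hp ((H22.kerR F (m + 1)).map e.toLinearMap) (by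
      rintro _ ⟨x, hx, rfl⟩; exact (h1 x).trans ((H22.totSing_kerR _).2 x hx))
    rw [LinearEquiv.finrank_map_eq, H22.finrank_kerR] at this; omega
  obtain ⟨e', h3⟩ := H22.exists_equiv_minus (hQ.nondeg_comp hW') (m := m) (by omega)
    (key W' hW' (by omega) (mt h.2 hp)) (H22.aniso_of_no_root h1)
  exact isometric_of_model e e' h2 h3

variable {t k : ℕ} {D : Fin t → Submodule F (ι → F)}

omit [Finite F] in
theorem orth_iSup (hD : IsNondegenerateMDecomposition (fb B) k D) {s : Finset (Fin t)} {i : Fin t}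
    (hi : i ∉ s) : AreOrthogonalFor (fb B) (D i) (⨆ j ∈ s, D j) := fun u hu v hv => by
  rw [iSup_subtype'] at hv
  refine Submodule.iSup_induction _ (motive := fun v => fb B u v = 0) hv
    (fun j v hv => hD.orthogonal i j (by rintro rfl; exact hi j.2) u hu v hv) (by simp)
    fun x y hx hy => ?_
  simp only [fb, fog_add_right] at *; rw [hx, hy, add_zero]

omit [Finite F] [DecidableEq ι] [Fintype ι] in
theorem disj_iSup (hD : iSupIndep D) {s : Finset (Fin t)} {i : Fin t} (hi : i ∉ s) :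
    Disjoint (D i) (⨆ j ∈ s, D j) := hD.disjoint_biSup (y := s) hi

theorem QF.plN_dec (hQ : QF Q B) {a : ℕ} (hD : IsOrthogonalMDecomposition Q (2 * a) D)
    (s : Finset (Fin t)) (h : (∀ i, IsPlusTypeOn Q (D i)) ∨ Even s.card) :
    PlN Q (⨆ j ∈ s, D j) (s.card * a) := by
  have h0 := hD.decomp
  rw [hQ.polar] at h0
  rcases h with h | ⟨n, h⟩
  · induction s using Finset.induction_on with
    | empty => exact ⟨⊥, bot_le, by simp [IsTotallySingularQuad], by simp⟩
    | insert i s hi ih =>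
      rw [Finset.iSup_insert, Finset.card_insert_of_notMem hi, add_mul, one_mul, add_comm]
      exact (plN_of_plus (h i) (h0.decomp.finrank_eq i)).sup hQ ih (disj_iSup h0.decomp.indep hi)
        (orth_iSup h0 hi)
  induction n generalizing s with
  | zero => exact ⟨⊥, bot_le, by simp [IsTotallySingularQuad], by simp [h]⟩
  | succ n ih =>
    obtain ⟨i, s, hi, rfl, h1⟩ := Finset.card_eq_succ.1 (show s.card = (n + n + 1) + 1 by omega)
    obtain ⟨j, s, hj, rfl, h2⟩ := Finset.card_eq_succ.1 h1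
    have h3 : i ≠ j := by rintro rfl; simp at hi
    have h4 : i ∉ s := fun e => hi (by simp [e])
    have := (hQ.plN_pair (h0.nondegenerate i) (by rw [h0.decomp.finrank_eq]; simp)
      (h0.orthogonal i j h3) (hD.isometric i j)).sup hQ (ih s h2) (by
        have h5 := disj_iSup h0.decomp.indep hi
        rw [Finset.iSup_insert] at h5
        exact (disj_iSup h0.decomp.indep hj).disjoint_sup_left_of_disjoint_sup_right h5)
      fun u hu v hv => by
        obtain ⟨x, hx, y, hy, rfl⟩ := Submodule.mem_sup.1 hu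
        exact (fog_add_left ..).trans (by
          rw [show formOfGram _ B x v = 0 from orth_iSup h0 h4 x hx v hv,
            show formOfGram _ B y v = 0 from orth_iSup h0 hj y hy v hv, add_zero])
    rw [h0.decomp.finrank_eq, h2] at this
    rw [h, Finset.iSup_insert, Finset.iSup_insert, ← sup_assoc]
    convert this using 1; ring

theorem QF.plus_dec (hQ : QF Q B) (hD : IsOrthogonalMDecomposition Q k D) (hk : Even k)
    (h : (∀ i, IsPlusTypeOn Q (D i)) ∨ Even t) : IsPlusTypeOn Q ⊤ := by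
  obtain ⟨a, rfl⟩ := hk.two_dvd
  refine (hQ.plN_dec hD Finset.univ (by simpa)).plus_top ?_
  rw [IsMDecomposition.card_eq hD.decomp.decomp]; simp; ring

theorem QF.plus_block (hQ : QF Q B) (hD : IsOrthogonalMDecomposition Q k D) (hk : Even k)
    (ht : Odd t) (h : IsPlusTypeOn Q ⊤) (i : Fin t) : IsPlusTypeOn Q (D i) := by
  obtain ⟨a, rfl⟩ := hk.two_dvd
  have h0 := hD.decomp
  rw [hQ.polar] at h0
  have h1 := hQ.fd.nondegOn_iff.1 (h0.nondegenerate i)
  have h2 := hQ.fd.finrank_prp (D i)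
  rw [IsMDecomposition.card_eq h0.decomp, h0.decomp.finrank_eq] at h2
  obtain ⟨b, rfl⟩ := ht
  have h3 := hQ.plus_prp h (hQ.fd.nondegOn_iff.2 (hQ.fd.disjoint_prp h1))
    (((hQ.plN_dec hD (Finset.univ.erase i) (.inr (by simp))).mono
      (W' := prp (RingHom.id F) B (D i)) fun v hv u hu =>
      (hQ.symm _ _).trans (orth_iSup h0 (by simp) u hu v hv)).plus (by simp; nlinarith))
  rwa [← hQ.perp_eq, ← hQ.perp_eq, hQ.nondeg.perp_perp] at h3

theorem QF.prp_zero (hQ : QF Q B) {D : Fin 2 → Submodule F (ι → F)}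
    (hD : IsNondegenerateMDecomposition (fb B) k D) (i j : Fin 2) (h : i ≠ j) :
    prp (RingHom.id F) B (D i) = D j := by
  have h2 := hQ.fd.finrank_prp (D i)
  rw [IsMDecomposition.card_eq hD.decomp, hD.decomp.finrank_eq] at h2
  exact (Submodule.eq_of_le_of_finrank_eq (hD.orthogonal j i h.symm)
    (by rw [hD.decomp.finrank_eq]; omega)).symm

theorem QF.isometric_of_plus (hQ : QF Q B) {D : Fin 2 → Submodule F (ι → F)}
    (hD : IsNondegenerateMDecomposition (fb B) k D) (hk : Even k) (h : IsPlusTypeOn Q ⊤) :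
    AreIsometricFor Q (D 0) (D 1) :=
  hQ.isometric (hD.nondegenerate 0) (hD.nondegenerate 1) (by rwa [hD.decomp.finrank_eq])
    (by simp [hD.decomp.finrank_eq])
    ⟨fun h1 => hQ.prp_zero hD 0 1 (by simp) ▸ hQ.plus_prp h (hD.nondegenerate 0) h1,
      fun h1 => hQ.prp_zero hD 1 0 (by simp) ▸ hQ.plus_prp h (hD.nondegenerate 1) h1⟩

end H23.As
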