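import Cfsg.Agent.H23.As24

/-!
Aschbacher's theorem, part 25: orthogonal decompositions into small blocks.
-/

set_option autoImplicit false

namespace H23.As

open Matrix Module Cfsg Cfsg.Geo H23.Form
open scoped MatrixGroups commutatorElement Kronecker

variable {ι : Type} [Fintype ι] [DecidableEq ι] {F : Type*} [Field F]
variable {B : Matrix ι ι F} {G H : Subgroup (GL ι F)} {Q : QuadraticForm F (ι → F)}
variable {W W' U : Submodule F (ι → F)} {t k : ℕ} {D : Fin t → Submodule F (ι → F)}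

theorem InvS.sup_sc (h : InvS H W) : InvS (H ⊔ scalars ι F) W := fun g hg v hv => by
  obtain ⟨s, hs, z, hz, rfl⟩ := cen_scalars.mem_sup.1 hg
  obtain ⟨c, rfl⟩ := exists_sc hz
  rw [Units.val_mul, ← mulVec_mulVec, sc_val, smul_mulVec, one_mulVec]
  exact h s hs _ (W.smul_mem _ hv)

theorem Irr.of_sup (h : Irr (H ⊔ scalars ι F)) : Irr H := fun W hW => h W hW.sup_sc

theorem invS_span {S : Set (ι → F)} (h : ∀ g ∈ H, ∀ v ∈ S, (g : Matrix ι ι F) *ᵥ v ∈ S) :
    InvS H (Submodule.span F S) := fun g hg _ hv =>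
  (Submodule.span_le (p := (Submodule.span F S).comap (toLin' (g : Matrix ι ι F)))).2
    (fun v hv => Submodule.subset_span (h g hg v hv)) hv

theorem nondegDec_of_orth {σ : F →+* F} {ε : F} (hF : FD σ B ε) (ht : 2 ≤ t) (hk : 0 < k)
    (h1 : ∀ i, finrank F (D i) = k) (h2 : iSup D = ⊤)
    (h3 : ∀ i j, i ≠ j → AreOrthogonalFor (formOfGram σ B) (D i) (D j)) :
    IsNondegenerateMDecomposition (formOfGram σ B) k D := by
  have h4 : ∀ i, Disjoint (D i) (prp σ B (D i)) := fun i => Submodule.disjoint_def.2 fun x hx hx' => by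
    by_contra h0
    obtain ⟨y, hy⟩ := exists_fog_right (σ := σ) hF.unit h0
    have : y ∈ iSup D := h2 ▸ Submodule.mem_top
    refine hy (Submodule.iSup_induction _ (motive := fun y => formOfGram σ B x y = 0) this
      (fun j v hv => ?_) (by simp) fun u v hu hv => by rw [fog_add_right, hu, hv, add_zero])
    by_cases h : i = j
    · exact hx' v (h ▸ hv)
    · exact h3 i j h x hx v hv
  exact ⟨⟨ht, hk, h1, fun i => (h4 i).mono_right (iSup₂_le fun j hj => h3 j i hj), h2⟩,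
    fun i => hF.nondegOn_iff.2 (h4 i), h3⟩

theorem mem_dec_of_le (hD : IsMDecomposition k D) {g : GL ι F}
    (h : ∀ i, ∃ j, ∀ v ∈ D i, (g : Matrix ι ι F) *ᵥ v ∈ D j) : g ∈ decompositionStabilizer D :=
  mem_decL_of_le (g := glE ι F g) hD.finrank_eq (hD.indep.injective fun i e => by
    have := hD.finrank_eq i; have := hD.pos; rw [e, finrank_bot] at *; omega)
    fun i => (h i).imp fun _ h => Submodule.map_le_iff_le_comap.2 h

theorem exists_mem_of_dec {g : GL ι F} (h : g ∈ decompositionStabilizer D) (i : Fin t) :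
    ∃ j, ∀ v ∈ D i, (g : Matrix ι ι F) *ᵥ v ∈ D j :=
  h.elim fun s hs => ⟨s i, fun v hv => hs i ▸ ⟨v, hv, rfl⟩⟩

theorem scalars_le_dec : scalars ι F ≤ decompositionStabilizer D :=
  InvS.le_dec fun i => fun g hg => (show InvS ⊥ (D i) by
    rintro _ rfl v hv; simpa using hv).sup_sc g (Subgroup.mem_sup_right hg)

theorem QF.orthDec (hQ : QF Q B) (hH : H ≤ isometryGroup F Q)
    (hD : IsNondegenerateMDecomposition (fb B) k D) (hT : TrDec (H ⊔ scalars ι F) D) :
    IsOrthogonalMDecomposition Q k D := ⟨hQ.polar ▸ hD, fun i j => by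
  obtain ⟨g, hg, h⟩ := hT i j
  obtain ⟨s, hs, z, hz, rfl⟩ := cen_scalars.mem_sup.1 hg
  refine isometric_of_map (hH hs) ?_
  rw [← h, Units.val_mul, toLin'_mul, Submodule.map_comp, ((show InvS ⊥ (D i) by
    rintro _ rfl v hv; simpa using hv).sup_sc).map_eq (Subgroup.mem_sup_right hz)]⟩

theorem QF.nondegDec (hQ : QF Q B) (hD : IsOrthogonalMDecomposition Q k D) :
    IsNondegenerateMDecomposition (fb B) k D := hQ.polar ▸ hD.decomp

/-! ### Models -/

section Models

variable {V V' : Type*} [AddCommGroup V] [Module F V] [AddCommGroup V'] [Module F V']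
variable {q : V → F} {q' : V' → F}

/-- The subspace is isometric to the given model. -/
def Mdl (Q : (ι → F) → F) (W : Submodule F (ι → F)) (q : V → F) : Prop :=
  ∃ e : V ≃ₗ[F] W, ∀ x, Q (e x) = q x

theorem Mdl.iso (h : Mdl Q W q) (h' : AreIsometricFor Q W W') : Mdl Q W' q :=
  have ⟨e, h⟩ := h
  have ⟨e', h'⟩ := h'
  ⟨e.trans e', fun x => (h' _).trans (h x)⟩

theorem Mdl.change [FiniteDimensional F V] [FiniteDimensional F V'] (h : Mdl Q W q)
    (L : V' →ₗ[F] V) (hd : finrank F V' = finrank F V) (hq : ∀ x, q (L x) = q' x)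
    (hn : ∀ x, (∀ y, q' (x + y) = q' y) → x = 0) : Mdl Q W q' :=
  have ⟨e, h⟩ := h
  ⟨(L.linearEquivOfInjective (LinearMap.ker_eq_bot.1 (LinearMap.ker_eq_bot'.2 fun x hx => hn x
    fun y => by rw [← hq, map_add, hx, zero_add, hq])) hd).trans e, fun x => (h _).trans (hq x)⟩

theorem QF.refine [FiniteDimensional F V] (hQ : QF Q B) (hD : IsOrthogonalMDecomposition Q k D)
    (hH : H ≤ isometryGroup F Q) (h : H ≤ decompositionStabilizer D) {s : ℕ} (hs : 0 < s)
    {i₀ : Fin t} (hM : Mdl Q (D i₀) fun x : Fin s → V => ∑ a, q (x a)) (h0 : q 0 = 0) {v₀ : V}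
    (hv : q v₀ ≠ 0) (h1 : ∀ x : Fin s → V, ∑ a, q (x a) = q v₀ → ∃ a v, x = Pi.single a v)
    (h2 : ∀ U : Submodule F V, v₀ ∈ U →
      (∀ v, q v = q v₀ → q (v + v₀) ≠ q v₀ + q v₀ → v ∈ U) → U = ⊤) :
    ∃ D' : Fin (t * s) → Submodule F (ι → F), IsOrthogonalMDecomposition Q (finrank F V) D' ∧
      H ≤ decompositionStabilizer D' := by
  choose φ hφ using fun i => hM.iso (hD.isometric i₀ i)
  have hD' := hQ.nondegDec hD
  let ψ : Fin t × Fin s → V →ₗ[F] (ι → F) := fun p =>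
    (D p.1).subtype ∘ₗ (φ p.1).toLinearMap ∘ₗ LinearMap.single F (fun _ => V) p.2
  have hψ : ∀ p v, ψ p v = φ p.1 (Pi.single p.2 v) := fun _ _ => rfl
  have h3 : ∀ (a : Fin s) v, ∑ b, q ((Pi.single a v : Fin s → V) b) = q v := fun a v => by
    rw [Finset.sum_eq_single a (fun b _ hb => by simp [hb, h0]) (by simp), Pi.single_eq_same]
  have h4 : ∀ p v, Q (ψ p v) = q v := fun p v => (hφ _ _).trans (h3 _ _)
  have h5 : ∀ p, Function.Injective (ψ p) := fun p =>
    (D p.1).injective_subtype.comp ((φ p.1).injective.comp (Pi.single_injective (M := fun _ => V) _))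
  have h6 : ∀ p p', p ≠ p' → ∀ v v', Q (ψ p v + ψ p' v') = q v + q v' := by
    rintro ⟨i, a⟩ ⟨j, b⟩ hp v v'
    by_cases hij : i = j
    · subst hij
      rw [hψ, hψ, ← Submodule.coe_add, ← map_add, hφ, ← h3 a v, ← h3 b v', ← Finset.sum_add_distrib]
      refine Finset.sum_congr rfl fun c _ => ?_
      by_cases hc : c = a
      · subst hc; simp [show c ≠ b from fun e => hp (by rw [e]), h0]
      · simp [hc, h0]
    · rw [hQ.add, h4, h4, hD'.orthogonal i j hij (ψ (i, a) v) (φ i _).2 (ψ (j, b) v') (φ j _).2,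
        add_zero]
  let e : Fin (t * s) ≃ Fin t × Fin s := finProdFinEquiv.symm
  have h7 : IsNondegenerateMDecomposition (fb B) (finrank F V)
      fun j => LinearMap.range (ψ (e j)) := by
    refine nondegDec_of_orth hQ.fd (by have := hD'.decomp.two_le; nlinarith)
      (finrank_pos_iff_exists_ne_zero.2 ⟨v₀, by rintro rfl; exact hv h0⟩)
      (fun j => LinearMap.finrank_range_of_inj (h5 _)) ?_ ?_
    · rw [eq_top_iff, ← hD'.decomp.iSup_eq_top]
      refine iSup_le fun i w hw => ?_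
      obtain ⟨x, hx⟩ := (φ i).surjective ⟨w, hw⟩
      rw [show w = φ i x from (congrArg Subtype.val hx).symm, ← Finset.univ_sum_single x, map_sum,
        Submodule.coe_sum]
      exact Submodule.sum_mem _ fun a _ => Submodule.mem_iSup_of_mem (e.symm (i, a))
        ⟨x a, by rw [e.apply_symm_apply]; rfl⟩
    · rintro i j hij _ ⟨v, rfl⟩ _ ⟨v', rfl⟩
      have := hQ.add (ψ (e i) v) (ψ (e j) v')
      rw [h6 _ _ (e.injective.ne hij), h4, h4] at this
      exact (add_eq_left.1 this.symm)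
  refine ⟨_, ⟨hQ.polar ▸ h7, fun i j => isometric_of_model (LinearEquiv.ofInjective _ (h5 _))
    (LinearEquiv.ofInjective _ (h5 _)) (h4 _) (h4 _)⟩, fun g hg => mem_dec_of_le h7.decomp fun i => ?_⟩
  obtain ⟨j, hj⟩ := exists_mem_of_dec (h hg) (e i).1
  have h8 : ∀ v, q v = q v₀ → ∃ a v', (g : Matrix ι ι F) *ᵥ ψ (e i) v = ψ (j, a) v' := fun v hv => by
    obtain ⟨x, hx⟩ := (φ j).surjective ⟨_, hj (ψ (e i) v) (φ _ _).2⟩
    obtain ⟨a, v', rfl⟩ := h1 x ((hφ j x).symm.trans (by rw [hx, mem_isoQ.1 (hH hg), h4, hv]))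
    exact ⟨a, v', (congrArg Subtype.val hx).symm⟩
  obtain ⟨a, v', h9⟩ := h8 v₀ rfl
  refine ⟨e.symm (j, a), ?_⟩
  rintro _ ⟨v, rfl⟩
  rw [e.apply_symm_apply]
  refine (h2 ((LinearMap.range (ψ (j, a))).comap (toLin' (g : Matrix ι ι F) ∘ₗ ψ (e i)))
    ⟨v', h9.symm⟩ fun w hw hw' => ?_).ge (Submodule.mem_top (x := v))
  obtain ⟨b, w', h10⟩ := h8 w hw
  obtain rfl : b = a := by
    by_contra hb
    apply hw'
    rw [← h4 (e i), ← mem_isoQ.1 (hH hg), map_add, mulVec_add, h9, h10, h6 _ _ (by simp [hb]),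
      ← h4 (j, b), ← h4 (j, a), ← h9, ← h10, mem_isoQ.1 (hH hg), mem_isoQ.1 (hH hg), h4, h4, hw]
  exact ⟨w', h10.symm⟩

theorem QF.refine_one (hQ : QF Q B) (h2 : (2 : F) ≠ 0) (hD : IsOrthogonalMDecomposition Q k D)
    (hH : H ≤ isometryGroup F Q) (h : H ≤ decompositionStabilizer D) {i₀ : Fin t} {c : F}
    (hc : c ≠ 0) [FiniteDimensional F V] (hM : Mdl Q (D i₀) q) (L : (Fin k → F) →ₗ[F] V)
    (hL : ∀ x, q (L x) = ∑ a, c * x a ^ 2)
    (h1 : ∀ x : Fin k → F, ∑ a, x a ^ 2 = 1 → ∃ a v, x = Pi.single a v) :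
    ∃ D' : Fin (t * k) → Submodule F (ι → F), IsOrthogonalMDecomposition Q 1 D' ∧
      H ≤ decompositionStabilizer D' := by
  have := hQ.refine (V := F) (q := fun x => c * x ^ 2) hD hH h hD.decomp.decomp.pos
    (hM.change L (by obtain ⟨e, -⟩ := hM; simp [e.finrank_eq, hD.decomp.decomp.finrank_eq]) hL
      fun x hx => funext fun a => ?_) (by simp) (v₀ := 1) (by simpa)
    (fun x hx => h1 x (mul_left_cancel₀ hc (by simpa [Finset.mul_sum] using hx)))
    fun U hU _ => eq_top_iff.2 fun x _ => by simpa using U.smul_mem x hU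
  · simpa using this
  have h3 := hx (Pi.single a 1)
  have h4 := hx 0
  rw [← sub_eq_zero, ← Finset.sum_sub_distrib] at h3 h4
  rw [← h4, ← sub_eq_zero, ← Finset.sum_sub_distrib,
    Finset.sum_eq_single a (fun b _ hb => by simp [hb]) (by simp)] at h3
  exact mul_left_cancel₀ (mul_ne_zero h2 hc) (by
    simp only [Pi.add_apply, Pi.single_eq_same, Pi.zero_apply] at h3 ⊢; linear_combination h3)

end Models

theorem c5D_of_basis [Fintype F] {κ : Type} (β : Basis κ F (ι → F)) {F₀ : Subfield F} (h0 : F₀ ≠ ⊤)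
    {ζ : F} (hζ : ζ ≠ 0) (h1 : ∀ i j, ζ * fb B (β i) (β j) ∈ F₀)
    (h2 : ∀ g ∈ H, ∀ i, (g : Matrix ι ι F) *ᵥ β i ∈ Submodule.span F₀ (Set.range β)) :
    C5D (RingHom.id F) B (H ⊔ scalars ι F) := by
  obtain ⟨F₁, r, h3, h4, h5⟩ := exists_subfield_prime h0
  let e := β.indexEquiv (Pi.basisFun F ι)
  obtain ⟨P, hP⟩ := exists_GL_of_equiv (β.reindex e).equivFun.symm (Equiv.refl ι)
  have h6 : ∀ i, (P : Matrix ι ι F) *ᵥ Pi.single i 1 = β (e.symm i) := fun i =>
    (hP (Pi.single i 1)).trans (by simp [Pi.single_apply])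
  refine ⟨F₁, r, P, ζ, h4, h5, hζ, fun i j => h3 ?_, sup_le (fun g hg => mem_subfieldSubgroup_iff.2
    ⟨1, one_ne_zero, fun i j => h3 ?_⟩) fun g hg => ?_⟩
  · rw [Matrix.smul_apply, ← fog_single (σ := RingHom.id F) (gP _ B P), fog_gP, h6, h6]
    exact h1 _ _
  · obtain ⟨a, ha⟩ := ((β.mem_span_iff_repr_mem F₀ _).1 (h2 g hg (e.symm j))) (e.symm i)
    have h7 : (β.reindex e).equivFun.symm (cj P⁻¹ (g : Matrix ι ι F) *ᵥ Pi.single j 1) =
        (g : Matrix ι ι F) *ᵥ β (e.symm j) := by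
      rw [← hP, ← h6, cj_apply, inv_inv]
      simp only [← mulVec_mulVec, val_mulVec_inv_mulVec, Equiv.coe_refl, Function.comp_id]
    rw [LinearEquiv.symm_apply_eq] at h7
    have := congrFun h7 i
    simp only [mulVec_single_one, col_apply, Basis.equivFun_apply, Basis.repr_reindex_apply] at this
    rw [one_smul, this, ← ha]; exact a.2
  · obtain ⟨c, rfl⟩ := exists_sc hg
    refine mem_subfieldSubgroup_iff.2 ⟨(c : F)⁻¹, by simp, fun i j => ?_⟩
    rw [sc_val, map_smul, map_one, smul_smul, inv_mul_cancel₀ c.ne_zero, one_smul, one_apply]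
    split_ifs; exacts [F₁.one_mem, F₁.zero_mem]

theorem QF.c5D_of_mdl [Fintype F] (hQ : QF Q B) (hD : IsOrthogonalMDecomposition Q k D)
    (hH : H ≤ isometryGroup F Q) (h : H ≤ decompositionStabilizer D) {i₀ : Fin t}
    {q : (Fin k → F) → F} (hM : Mdl Q (D i₀) q) {F₀ : Subfield F} (h0 : F₀ ≠ ⊤) {ζ : F} (hζ : ζ ≠ 0)
    (h1 : ∀ x, (∀ a, x a ∈ F₀) → ζ * q x ∈ F₀)
    (h2 : ∀ x a, q x = q (Pi.single a 1) → ∀ l, x l ∈ F₀) :
    C5D (RingHom.id F) B (H ⊔ scalars ι F) := by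
  choose φ hφ using fun i => hM.iso (hD.isometric i₀ i)
  have hD' := hQ.nondegDec hD
  obtain ⟨e, β, hβ⟩ := exists_collected hD'.decomp fun i => (Pi.basisFun F (Fin k)).map (φ i)
  simp only [Basis.map_apply, Pi.basisFun_apply] at hβ
  have h3 : ∀ a l : Fin k, (Pi.single a 1 : Fin k → F) l ∈ F₀ := fun a l => by
    rw [Pi.single_apply]; split_ifs; exacts [F₀.one_mem, F₀.zero_mem]
  refine c5D_of_basis β h0 hζ (fun i j => ?_) fun g hg i => ?_
  · rw [hβ, hβ]
    by_cases hij : (e i).2 = (e j).2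
    · have := hQ.add (φ (e i).2 (Pi.single (e i).1 1)) (φ (e i).2 (Pi.single (e j).1 1))
      rw [← Submodule.coe_add, ← map_add, hφ, hφ, hφ, ← sub_eq_iff_eq_add'] at this
      rw [← hij, ← this, mul_sub, mul_add]
      exact sub_mem (h1 _ fun l => add_mem (h3 _ l) (h3 _ l)) (add_mem (h1 _ (h3 _)) (h1 _ (h3 _)))
    · rw [hD'.orthogonal _ _ hij _ (φ _ _).2 _ (φ _ _).2, mul_zero]; exact F₀.zero_mem
  · obtain ⟨j, hj⟩ := exists_mem_of_dec (h hg) (e i).2
    obtain ⟨x, hx⟩ := (φ j).surjective ⟨_, hj _ (φ (e i).2 (Pi.single (e i).1 1)).2⟩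
    have h4 := h2 x (e i).1 (by rw [← hφ j, hx, mem_isoQ.1 (hH hg), hφ])
    rw [hβ, ← show (φ j x : ι → F) = g.1 *ᵥ _ from congrArg Subtype.val hx, pi_eq_sum_univ' x,
       map_sum, Submodule.coe_sum]
    refine Submodule.sum_mem _ fun l _ => ?_
    rw [map_smul, Submodule.coe_smul]
    exact Submodule.smul_mem _ (⟨x l, h4 l⟩ : F₀) (Submodule.subset_span
      ⟨e.symm (l, j), by rw [hβ, e.apply_symm_apply]⟩)

variable [Finite F]

theorem QF.mdl_plus (hQ : QF Q B) (hW : IsNondegenerateOn (fb B) W) {m : ℕ}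
    (hm : finrank F W = 2 * m) (h : IsPlusTypeOn Q W) : Mdl Q W (quadFormPlus m F) :=
  have ⟨_, h1, h2⟩ := plus_comp_iff.1 h
  H22.exists_equiv_plus (hQ.nondeg_comp hW) hm h1 (by omega)

theorem QF.mdl_minus (hQ : QF Q B) (hW : IsNondegenerateOn (fb B) W) {m : ℕ}
    (hm : finrank F W = 2 * (m + 1)) (h : ¬ IsPlusTypeOn Q W) {a b : F}
    (hab : ∀ z₁ z₂ : F, z₁ ^ 2 + a * z₁ * z₂ + b * z₂ ^ 2 = 0 → z₁ = 0 ∧ z₂ = 0) :
    Mdl Q W (quadFormMinus m F a b) :=
  H22.exists_equiv_minus (hQ.nondeg_comp hW) hm (fun X hX => by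
    have := (hQ.nondeg_comp hW).two_mul_finrank_le (totSing_ofQuad.2 hX)
    by_contra h3
    exact h (plus_comp_iff.2 ⟨X, hX, by omega⟩)) hab

theorem QF.mdl_odd (hQ : QF Q B) (hW : IsNondegenerateOn (fb B) W) {m : ℕ}
    (hm : finrank F W = 2 * m + 1) : ∃ c : F, c ≠ 0 ∧ Mdl Q W fun x => c * quadFormOdd m F x :=
  H22.exists_equiv_odd (hQ.nondeg_comp hW) hm

/-! ### Small fields -/

omit [Finite F]
variable [Fintype F]

theorem sq_eq_one_of_le_three (h : Fintype.card F ≤ 3) {x : F} (hx : x ≠ 0) : x ^ 2 = 1 := by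
  have := Fintype.one_lt_card (α := F)
  rcases (show Fintype.card F = 1 + 1 ∨ Fintype.card F = 2 + 1 by omega) with h | h
  · rw [sq, ← pow_one x, pow_card_pred h hx, one_mul]
  · exact pow_card_pred h hx

theorem QF.plane (hQ : QF Q B) (h3 : Fintype.card F ≤ 3) (hW : IsNondegenerateOn (fb B) W)
    (h2 : finrank F W = 2) (h : IsPlusTypeOn Q W) : ∃ v ∈ W, Q v = 1 ∧
      (∀ x ∈ W, Q x = 1 → x ∈ F ∙ v) ∧ ∃ z ∈ W, z ≠ 0 ∧ fb B v z = 0 := by
  obtain ⟨e, he⟩ := hQ.mdl_plus hW (m := 1) h2 h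
  simp only [quadFormPlus, Fin.sum_univ_one] at he
  refine ⟨e 1, (e 1).2, by simp [he], fun x hx h1 => ?_, e (Sum.elim 1 (-1)), (e _).2, fun h1 => ?_, ?_⟩
  · obtain ⟨y, hy⟩ := e.surjective ⟨x, hx⟩
    obtain rfl : (e y : ι → F) = x := congrArg Subtype.val hy
    rw [he] at h1
    have h4 := sq_eq_one_of_le_three h3 (left_ne_zero_of_mul_eq_one h1)
    refine Submodule.mem_span_singleton.2 ⟨y (.inl 0), ?_⟩
    rw [← Submodule.coe_smul, ← map_smul]
    congr 2
    ext (i | i) <;> rw [Subsingleton.elim i 0]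
    · simp
    · simp only [Pi.smul_apply, Pi.one_apply, smul_eq_mul]
      linear_combination -y (.inl 0) * h1 + y (.inr 0) * h4
  · simpa using congrFun (e.map_eq_zero_iff.1 (Subtype.ext h1)) (.inl 0)
  · have := hQ.add (e 1) (e (Sum.elim 1 (-1)))
    rw [← Submodule.coe_add, ← map_add, he, he, he] at this
    simpa using this.symm

theorem QF.not_irr_planes (hQ : QF Q B) (h3 : Fintype.card F ≤ 3)
    (hD : IsOrthogonalMDecomposition Q 2 D) (hp : ∀ i, IsPlusTypeOn Q (D i))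
    (hH : H ≤ isometryGroup F Q) (h : H ≤ decompositionStabilizer D) : ¬ Irr H := fun hI => by
  have hD' := hQ.nondegDec hD
  let i : Fin t := ⟨0, by have := hD'.decomp.two_le; omega⟩
  obtain ⟨v, h1, h2, h4, z, h5, h6, h7⟩ :=
    hQ.plane h3 (hD'.nondegenerate i) (hD'.decomp.finrank_eq i) (hp i)
  rcases hI _ (invS_span (S := {v | (∃ j, v ∈ D j) ∧ Q v = 1}) fun g hg v ⟨⟨j, hj⟩, hv⟩ =>
    ⟨(exists_mem_of_dec (h hg) j).imp fun _ h => h v hj, (mem_isoQ.1 (hH hg) v).trans hv⟩) with h8 | h8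
  · rw [Submodule.span_eq_bot.1 h8 v ⟨⟨i, h1⟩, h2⟩] at h2
    simp at h2
  refine hQ.fd.prp_ne_top (W := F ∙ z) (by simpa) (eq_top_iff.2 (h8.ge.trans (Submodule.span_le.2 ?_)))
  rintro x ⟨⟨j, hj⟩, hx⟩ w hw
  obtain ⟨a, rfl⟩ := Submodule.mem_span_singleton.1 hw
  by_cases hij : j = i
  · obtain ⟨b, rfl⟩ := Submodule.mem_span_singleton.1 (h4 x (hij ▸ hj) hx)
    rw [fog_smul_left, fog_smul_right, show formOfGram _ B v z = 0 from h7]; simp
  · exact hD'.orthogonal j i hij x hj _ ((D i).smul_mem a h5)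

theorem QF.c5D_one (hQ : QF Q B) (hD : IsOrthogonalMDecomposition Q 1 D)
    (hH : H ≤ isometryGroup F Q) (h : H ≤ decompositionStabilizer D) :
    C5D (RingHom.id F) B (H ⊔ scalars ι F) ∨ (Fintype.card F).Prime := by
  refine (exists_bot_or_prime F).imp_left fun h0 => ?_
  have hD' := hQ.nondegDec hD
  let i : Fin t := ⟨0, by have := hD'.decomp.two_le; omega⟩
  obtain ⟨c, hc, hM⟩ := hQ.mdl_odd (hD'.nondegenerate i) (m := 0) (hD'.decomp.finrank_eq i)
  refine hQ.c5D_of_mdl hD hH h (q := fun x => c * x 0 ^ 2) (hM.change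
    (LinearMap.funLeft F F fun _ => 0) (by simp) (fun x => by simp [quadFormOdd]) fun x hx => ?_)
    h0 (inv_ne_zero hc) (fun x hx => ?_) fun x a hx l => ?_
  · ext a; rw [Subsingleton.elim a 0]; simpa [hc] using hx 0
  · rw [inv_mul_cancel_left₀ hc]; exact pow_mem (hx 0) 2
  · rw [Subsingleton.elim a 0, Pi.single_eq_same, mul_right_inj' hc, sq_eq_sq_iff_eq_or_eq_neg] at hx
    rw [Subsingleton.elim l 0]
    rcases hx with hx | hx <;> simp [hx, one_mem, neg_mem]

theorem QF.c5D_four (hQ : QF Q B) (h4 : Fintype.card F = 4) (hD : IsOrthogonalMDecomposition Q 2 D)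
    (hp : ∀ i, IsPlusTypeOn Q (D i)) (hH : H ≤ isometryGroup F Q)
    (h : H ≤ decompositionStabilizer D) : C5D (RingHom.id F) B (H ⊔ scalars ι F) := by
  have hD' := hQ.nondegDec hD
  let i : Fin t := ⟨0, by have := hD'.decomp.two_le; omega⟩
  have h2 : (2 : F) = 0 := cast_eq_zero_of_card (k := 2) h4
  have h3 : ∀ x : F, x ≠ 0 → x ^ 3 = 1 := fun x hx => pow_card_pred h4 hx
  obtain ⟨ω, h0, h1⟩ : ∃ ω : F, ω ≠ 0 ∧ ω ≠ 1 := by
    classical
    by_contra! hc
    have := Finset.card_le_card (show Finset.univ ⊆ ({0, 1} : Finset F) from fun x _ => by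
      by_cases hx : x = 0 <;> simp [hx, hc x])
    have := Finset.card_le_two (a := (0 : F)) (b := 1)
    simp only [Finset.card_univ] at *; omega
  have h5 : ω ^ 2 + ω + 1 = 0 :=
    mul_left_cancel₀ (sub_ne_zero.2 h1) (by linear_combination h3 ω h0)
  refine hQ.c5D_of_mdl hD hH h (q := fun x => x 0 ^ 2 + x 0 * x 1 + x 1 ^ 2)
    ((hQ.mdl_plus (hD'.nondegenerate i) (m := 1) (hD'.decomp.finrank_eq i) (hp i)).change
      (toLin' (Matrix.of (Sum.elim (fun _ => ![1, ω]) fun _ => ![1, ω ^ 2]))) (by simp)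
      (fun x => ?_) fun x hx => ?_) ((exists_bot_or_prime F).resolve_right (by rw [h4]; decide))
    one_ne_zero (fun x hx => ?_) fun x a hx l => ?_
  · simp [quadFormPlus, mulVec, dotProduct]
    linear_combination x 0 * x 1 * h5 + x 1 ^ 2 * h3 ω h0 - x 0 * x 1 * h2
  · have h6 := hx 0
    have h7 := hx ![1, 0]
    have h8 := hx ![0, 1]
    simp at h6 h7 h8
    ext a; fin_cases a
    · simp; linear_combination h8 - h6 - x 1 * h2
    · simp; linear_combination h7 - h6 - x 0 * h2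
  · rw [one_mul]; exact add_mem (add_mem (pow_mem (hx 0) 2) (mul_mem (hx 0) (hx 1))) (pow_mem (hx 1) 2)
  · have h6 : x 0 ^ 2 + x 0 * x 1 + x 1 ^ 2 = 1 := by fin_cases a <;> simpa using hx
    have h7 : ∀ y : F, y ^ 2 = 1 → y = 1 := fun y hy =>
      sub_eq_zero.1 (pow_eq_zero_iff (n := 2) (by decide) |>.1 (by linear_combination hy + (1 - y) * h2))
    suffices (x 0 = 0 ∨ x 0 = 1) ∧ (x 1 = 0 ∨ x 1 = 1) by
      fin_cases l
      · rcases this.1 with h | h <;> simp [h, one_mem, zero_mem]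
      · rcases this.2 with h | h <;> simp [h, one_mem, zero_mem]
    by_cases h8 : x 0 = 0
    · exact ⟨.inl h8, .inr (h7 _ (by simpa [h8] using h6))⟩
    by_cases h9 : x 1 = 0
    · exact ⟨.inr (h7 _ (by simpa [h9] using h6)), .inl h9⟩
    have h10 : x 0 = x 1 := by linear_combination h3 _ h8 - h3 _ h9 - (x 0 - x 1) * h6
    rw [← h10] at h6 ⊢
    have := h7 (x 0) (by linear_combination h6 - x 0 ^ 2 * h2)
    exact ⟨.inr this, .inr this⟩

omit [Fintype F] in
theorem single_of_two {x : Fin 2 → F} (h : x 0 = 0 ∨ x 1 = 0) : ∃ a v, x = Pi.single a v :=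
  h.elim (fun h => ⟨1, x 1, by ext a; fin_cases a <;> simp [h]⟩)
    fun h => ⟨0, x 0, by ext a; fin_cases a <;> simp [h]⟩

theorem QF.refine_five (hQ : QF Q B) (h5 : Fintype.card F = 5)
    (hD : IsOrthogonalMDecomposition Q 2 D) (hp : ∀ i, IsPlusTypeOn Q (D i))
    (hH : H ≤ isometryGroup F Q) (h : H ≤ decompositionStabilizer D) :
    ∃ D' : Fin (t * 2) → Submodule F (ι → F), IsOrthogonalMDecomposition Q 1 D' ∧
      H ≤ decompositionStabilizer D' := by
  have hD' := hQ.nondegDec hD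
  let i : Fin t := ⟨0, by have := hD'.decomp.two_le; omega⟩
  have h0 : (5 : F) = 0 := cast_eq_zero_of_card (k := 1) h5
  refine hQ.refine_one (two_ne_zero_of_odd_card (by rw [h5]; decide)) hD hH h one_ne_zero
    (hQ.mdl_plus (hD'.nondegenerate i) (m := 1) (hD'.decomp.finrank_eq i) (hp i))
    (toLin' (Matrix.of (Sum.elim (fun _ => ![1, 2]) fun _ => ![1, 3]))) (fun x => ?_)
    fun x hx => single_of_two ?_
  · simp [quadFormPlus, mulVec, dotProduct]
    linear_combination (x 0 * x 1 + x 1 ^ 2) * h0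
  · by_contra! hc
    have h1 := pow_card_pred (k := 4) h5 hc.1
    have h2 := pow_card_pred (k := 4) h5 hc.2
    rw [Fin.sum_univ_two] at hx
    exact one_ne_zero (α := F) (by
      have h3 : 2 * x 0 ^ 2 = 1 := by linear_combination h1 - h2 - (x 0 ^ 2 - x 1 ^ 2 - 1) * hx
      linear_combination (2 * (2 * x 0 ^ 2 + 1)) * h3 - 8 * h1 - h0)

theorem QF.refine_three_two (hQ : QF Q B) (h3 : Fintype.card F = 3)
    (hD : IsOrthogonalMDecomposition Q 2 D) {i : Fin t} (hp : ¬ IsPlusTypeOn Q (D i))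
    (hH : H ≤ isometryGroup F Q) (h : H ≤ decompositionStabilizer D) :
    ∃ D' : Fin (t * 2) → Submodule F (ι → F), IsOrthogonalMDecomposition Q 1 D' ∧
      H ≤ decompositionStabilizer D' := by
  have hD' := hQ.nondegDec hD
  have h2 : (2 : F) ≠ 0 := two_ne_zero_of_odd_card (by rw [h3]; decide)
  have h4 := @sq_eq_one_of_le_three F _ _ h3.le
  refine hQ.refine_one h2 hD hH h one_ne_zero (hQ.mdl_minus (hD'.nondegenerate i) (m := 0)
    (hD'.decomp.finrank_eq i) hp (a := 0) (b := 1) fun x y hxy => ?_)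
    (LinearMap.funLeft F F (Sum.elim (fun _ => 0) id)) (fun x => by simp [quadFormMinus])
    fun x hx => single_of_two ?_
  · by_cases hx : x = 0
    · simpa [hx] using hxy
    by_cases hy : y = 0
    · simpa [hy] using hxy
    exact (h2 (by linear_combination hxy - h4 hx - h4 hy)).elim
  · by_contra! hc
    rw [Fin.sum_univ_two, h4 hc.1, h4 hc.2] at hx
    simp at hx

theorem QF.refine_three_three (hQ : QF Q B) (h3 : Fintype.card F = 3)
    (hD : IsOrthogonalMDecomposition Q 3 D) (hH : H ≤ isometryGroup F Q)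
    (h : H ≤ decompositionStabilizer D) :
    ∃ D' : Fin (t * 3) → Submodule F (ι → F), IsOrthogonalMDecomposition Q 1 D' ∧
      H ≤ decompositionStabilizer D' := by
  have hD' := hQ.nondegDec hD
  let i : Fin t := ⟨0, by have := hD'.decomp.two_le; omega⟩
  have h0 : (3 : F) = 0 := cast_eq_zero_of_card (k := 1) h3
  have h4 := @sq_eq_one_of_le_three F _ _ h3.le
  obtain ⟨c, hc, hM⟩ := hQ.mdl_odd (hD'.nondegenerate i) (m := 1) (hD'.decomp.finrank_eq i)
  refine hQ.refine_one (two_ne_zero_of_odd_card (by rw [h3]; decide)) hD hH h (neg_ne_zero.2 hc) hM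
    (toLin' (Matrix.of (Sum.elim (fun _ => ![0, 1, 1]) (Sum.elim (fun _ => ![1, 1, -1])
      fun _ => ![-1, 1, -1])))) (fun x => ?_) fun x hx => ?_
  · simp [quadFormOdd, mulVec, dotProduct, Fin.sum_univ_three]
    linear_combination c * (x 1 ^ 2 + x 2 ^ 2) * h0
  · rw [Fin.sum_univ_three] at hx
    by_cases h5 : x 0 = 0 <;> by_cases h6 : x 1 = 0 <;> by_cases h7 : x 2 = 0
    · simp [h5, h6, h7] at hx
    · exact ⟨2, x 2, by ext a; fin_cases a <;> simp [h5, h6]⟩
    · exact ⟨1, x 1, by ext a; fin_cases a <;> simp [h5, h7]⟩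
    · simp [h5, h4 h6, h4 h7] at hx
    · exact ⟨0, x 0, by ext a; fin_cases a <;> simp [h6, h7]⟩
    · simp [h6, h4 h5, h4 h7] at hx
    · simp [h7, h4 h5, h4 h6] at hx
    · exact (one_ne_zero (α := F) (by linear_combination h0 - hx + h4 h5 + h4 h6 + h4 h7)).elim

theorem QF.refine_four (hQ : QF Q B) (h2 : Fintype.card F = 2)
    (hD : IsOrthogonalMDecomposition Q 4 D) {i : Fin t} (hp : IsPlusTypeOn Q (D i))
    (hH : H ≤ isometryGroup F Q) (h : H ≤ decompositionStabilizer D) :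
    ∃ D' : Fin (t * 2) → Submodule F (ι → F), IsOrthogonalMDecomposition Q 2 D' ∧
      H ≤ decompositionStabilizer D' := by
  have hD' := hQ.nondegDec hD
  have h0 : (2 : F) = 0 := cast_eq_zero_of_card (k := 1) h2
  have h1 := eq_zero_or_one h2
  let L : (Fin 2 → Fin 2 → F) →ₗ[F] (Fin 2 ⊕ Fin 2 → F) :=
    { toFun := fun x => Sum.elim ![x 0 0 + x 0 1 + x 1 1, x 0 1 + x 1 0 + x 1 1]
        ![x 0 0 + x 1 1, x 0 1 + x 1 0]
      map_add' := fun x y => by ext (a | a) <;> fin_cases a <;> simp <;> ring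
      map_smul' := fun c x => by ext (a | a) <;> fin_cases a <;> simp <;> ring }
  have h3 : ∀ v : Fin 2 → F, v ≠ 0 → v 0 ^ 2 + v 0 * v 1 + v 1 ^ 2 = 1 := fun v hv => by
    rcases h1 (v 0) with h | h <;> rcases h1 (v 1) with h' | h' <;> simp [h, h', one_add_one_eq_two, h0]
    exact hv (by ext a; fin_cases a <;> simpa)
  simpa using hQ.refine (V := Fin 2 → F) (q := fun v => v 0 ^ 2 + v 0 * v 1 + v 1 ^ 2) hD hH h two_pos
    ((hQ.mdl_plus (hD'.nondegenerate i) (m := 2) (hD'.decomp.finrank_eq i) hp).change L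
      (by simp [finrank_pi_fintype]) (fun x => by
        simp [quadFormPlus, L]
        linear_combination (x 0 0 * x 1 1 + x 0 1 * x 1 1 + x 0 1 * x 1 0) * h0) fun x hx => by
      have h4 := hx 0
      have h5 := hx ![![1, 0], 0]
      have h6 := hx ![![0, 1], 0]
      have h7 := hx ![0, ![1, 0]]
      have h8 := hx ![0, ![0, 1]]
      simp at h4 h5 h6 h7 h8
      ext a b; fin_cases a <;> fin_cases b <;> simp
      · linear_combination h6 - h4 - x 0 1 * h0
      · linear_combination h5 - h4 - x 0 0 * h0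
      · linear_combination h8 - h4 - x 1 1 * h0
      · linear_combination h7 - h4 - x 1 0 * h0) (by simp) (v₀ := ![1, 0]) (by simp)
    (fun x hx => by
      by_cases h4 : x 0 = 0
      · exact ⟨1, x 1, by ext a; fin_cases a <;> simp [h4]⟩
      by_cases h5 : x 1 = 0
      · exact ⟨0, x 0, by ext a; fin_cases a <;> simp [h5]⟩
      simp [h3 _ h4, h3 _ h5] at hx) fun U h4 h5 => eq_top_iff.2 fun v _ => by
    convert U.add_mem (U.smul_mem (v 0) h4) (U.smul_mem (v 1) (h5 ![0, 1] (by simp)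
      (by simp [one_add_one_eq_two, h0]))) using 1
    ext a; fin_cases a <;> simp

end H23.As
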