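import Cfsg.Agent.H23.As25

/-!
Aschbacher's theorem, part 26: discriminants and rational structures of quadratic forms.
-/

set_option autoImplicit false

namespace H23.As

open Matrix Module Cfsg Cfsg.Geo H23.Form
open scoped MatrixGroups commutatorElement Kronecker

variable {ι : Type} [Fintype ι] [DecidableEq ι] {F : Type*} [Field F]
variable {κ : Type} [Fintype κ] [DecidableEq κ]
variable {B : Matrix ι ι F} {G H : Subgroup (GL ι F)} {Q : QuadraticForm F (ι → F)}
variable {W W' U : Submodule F (ι → F)} {t k : ℕ} {D : Fin t → Submodule F (ι → F)}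

/-! ### Discriminants -/

/-- The Gram matrix of a basis of a subspace. -/
noncomputable def gd (B : Matrix ι ι F) (b : Basis κ F W) : Matrix κ κ F :=
  Matrix.of fun a a' => fb B (b a) (b a')

theorem toMatrix_restrict (b : Basis κ F W) :
    LinearMap.BilinForm.toMatrix b ((Matrix.toBilin' B).restrict W) = gd B b := by
  ext; simp [gd, toBilin'_eq]

theorem QF.nondeg_restrict (hQ : QF Q B) (hW : IsNondegenerateOn (fb B) W) :
    ((Matrix.toBilin' B).restrict W).Nondegenerate :=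
  (hQ.fd.isSymm.isRefl.domRestrict W).nondegenerate_iff_separatingLeft.2 fun x hx => by
    by_contra h0
    obtain ⟨y, hy, h⟩ := (hW x x.2 (by simpa using h0)).2
    exact h ((toBilin'_eq _ _ _).symm.trans (hx ⟨y, hy⟩))

theorem QF.isometric_iff [Finite F] (hQ : QF Q B) (h2 : (2 : F) ≠ 0)
    (hW : IsNondegenerateOn (fb B) W) (hW' : IsNondegenerateOn (fb B) W') (b : Basis κ F W)
    (b' : Basis κ F W') : AreIsometricFor Q W W' ↔ IsSquare ((gd B b).det * (gd B b').det) := by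
  refine ⟨fun ⟨e, he⟩ => ?_, fun h => ?_⟩
  · obtain ⟨r, -, h⟩ := gram_det_change ((Matrix.toBilin' B).restrict W') b' (b.map e)
    have : gd B (b.map e) = gd B b := Matrix.ext fun i j => by
      have h1 := hQ.add (e (b i)) (e (b j))
      rw [← Submodule.coe_add, ← map_add, he, he, he, Submodule.coe_add, hQ.add] at h1
      simpa [gd] using h1.symm
    rw [toMatrix_restrict, toMatrix_restrict, this] at h
    exact ⟨r * (gd B b').det, by rw [h]; ring⟩
  · obtain ⟨e, he⟩ := exists_isometry_of_disc h2 (hQ.fd.isSymm.restrict W) (hQ.fd.isSymm.restrict W')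
      (hQ.nondeg_restrict hW) (hQ.nondeg_restrict hW') b b' rfl (by simpa [toMatrix_restrict])
    exact ⟨e, fun w => mul_left_cancel₀ h2 (by simpa [hQ.two_mul, toBilin'_eq] using he w w)⟩

theorem det_dec (hD : IsNondegenerateMDecomposition (fb B) k D) (b : ∀ i, Basis (Fin k) F (D i)) :
    ∃ r : F, r ≠ 0 ∧ ∏ i, (gd B (b i)).det = r ^ 2 * B.det := by
  obtain ⟨e, P, h1, h2⟩ := exists_decC_of_basis hD.decomp b
  obtain ⟨A, h3⟩ := h1.trF hD.orthogonal
  refine ⟨_, P.det_ne_zero, ?_⟩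
  rw [← h3.det, det_blockDiagonal]
  refine Finset.prod_congr rfl fun i _ => congrArg det (Matrix.ext fun a a' => ?_)
  have := h3 (Pi.single (a, i) 1) (Pi.single (a', i) 1)
  rwa [h2, h2, fog_single, blockDiagonal_apply_eq] at this

theorem QF.plus_iff [Finite F] (hQ : QF Q B) (h2 : (2 : F) ≠ 0) {m : ℕ}
    (hm : Fintype.card ι = 2 * m) : IsPlusTypeOn Q ⊤ ↔ IsSquare ((-1) ^ m * B.det) := by
  rw [← hQ.fd.plus_iff h2 hm]
  simp only [IsPlusTypeOn, IsTotallySingularQuad, ← hQ.two_mul, mul_eq_zero, h2, false_or]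

theorem IsUnit.det_ne (h : IsUnit B) : B.det ≠ 0 := ((isUnit_iff_isUnit_det _).1 h).ne_zero

theorem QF.isSquare_det [Finite F] (hQ : QF Q B) (h2 : (2 : F) ≠ 0)
    (hD : IsOrthogonalMDecomposition Q k D) (ht : Even t) : IsSquare B.det := by
  have hD' := hQ.nondegDec hD
  let b := fun i => finBasisOfFinrankEq F (D i) (hD'.decomp.finrank_eq i)
  let i : Fin t := ⟨0, by have := hD'.decomp.two_le; omega⟩
  obtain ⟨r, hr, h⟩ := det_dec hD' b
  have h1 : IsSquare (∏ j, (gd B (b j)).det * (gd B (b i)).det) :=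
    Finset.prod_induction _ IsSquare (fun _ _ => IsSquare.mul) IsSquare.one fun j _ =>
      (hQ.isometric_iff h2 (hD'.nondegenerate j) (hD'.nondegenerate i) _ _).1 (hD.isometric j i)
  have h3 : (gd B (b i)).det ≠ 0 := fun e => mul_ne_zero (pow_ne_zero 2 hr) (IsUnit.det_ne hQ.unit)
    (h ▸ Finset.prod_eq_zero (Finset.mem_univ i) e)
  obtain ⟨a, ha⟩ := ht
  rw [Finset.prod_mul_distrib, h, Finset.prod_const, Finset.card_univ, Fintype.card_fin,
    show _ ^ t = _ ^ (a + a) by rw [ha]] at h1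
  exact (isSquare_sq_mul_iff (mul_ne_zero hr (pow_ne_zero a h3))).1 (by convert h1 using 1; ring)

variable [Fintype F]

theorem isSquare_neg_one (h2 : (2 : F) ≠ 0) : IsSquare (-1 : F) ↔ Fintype.card F % 4 = 1 := by
  have := odd_card_of_two_ne_zero h2
  rw [FiniteField.isSquare_neg_one_iff]; omega

theorem QF.plus_iff_dec (hQ : QF Q B) (h2 : (2 : F) ≠ 0) (hD : IsOrthogonalMDecomposition Q k D)
    (ht : Even t) : IsPlusTypeOn Q ⊤ ↔ 4 ∣ Fintype.card ι ∨ Fintype.card F % 4 = 1 := by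
  obtain ⟨r, hr⟩ := hQ.isSquare_det h2 hD ht
  obtain ⟨m, hm⟩ : 2 ∣ Fintype.card ι :=
    IsMDecomposition.card_eq hD.decomp.decomp ▸ ht.two_dvd.mul_right k
  rw [hQ.plus_iff h2 hm, hr, ← sq, mul_comm,
    isSquare_sq_mul_iff fun e => IsUnit.det_ne hQ.unit (by simp [hr, e]), ← isSquare_neg_one h2]
  rcases Nat.even_or_odd m with h | h
  · simp [h.neg_one_pow, show 4 ∣ Fintype.card ι by obtain ⟨a, rfl⟩ := h; omega]
  · simp [h.neg_one_pow, show ¬ 4 ∣ Fintype.card ι by obtain ⟨a, rfl⟩ := h; omega]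

theorem isSquare_mul_of_not {a b : F} (ha : ¬ IsSquare a) (hb : ¬ IsSquare b) : IsSquare (a * b) := by
  classical
  rw [← quadraticChar_one_iff_isSquare (mul_ne_zero (by rintro rfl; simp at ha)
    (by rintro rfl; simp at hb)), map_mul, quadraticChar_neg_one_iff_not_isSquare.2 ha,
    quadraticChar_neg_one_iff_not_isSquare.2 hb]
  simp

theorem QF.plus_iff_half (hQ : QF Q B) {D : Fin 2 → Submodule F (ι → F)}
    (hD : IsNondegenerateMDecomposition (fb B) k D) (hk : Odd k)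
    (h : ¬ AreIsometricFor Q (D 0) (D 1)) :
    (IsPlusTypeOn Q ⊤ → Fintype.card F % 4 = 3) ∧ (¬ IsPlusTypeOn Q ⊤ → Fintype.card F % 4 = 1) := by
  have h2 := hQ.two_ne_zero (hD.nondegenerate 0) (by rwa [hD.decomp.finrank_eq])
  obtain ⟨r, hr, h1⟩ := det_dec hD fun i => finBasisOfFinrankEq F (D i) (hD.decomp.finrank_eq i)
  rw [Fin.prod_univ_two] at h1
  rw [hQ.isometric_iff h2 (hD.nondegenerate 0) (hD.nondegenerate 1)
    (finBasisOfFinrankEq F _ (hD.decomp.finrank_eq 0))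
    (finBasisOfFinrankEq F _ (hD.decomp.finrank_eq 1)), h1, isSquare_sq_mul_iff hr] at h
  have h3 := isSquare_neg_one h2
  have := odd_card_of_two_ne_zero h2
  rw [hQ.plus_iff h2 (IsMDecomposition.card_eq hD.decomp), hk.neg_one_pow]
  exact ⟨fun h4 => by_contra fun h5 => h (by simpa using (h3.2 (by omega)).mul h4),
    fun h4 => h3.1 (by_contra fun h5 => h4 (isSquare_mul_of_not h5 h))⟩

/-! ### Rational structures -/

omit [Fintype F] in
theorem Rat.det {F₀ : Subfield F} (h : Rat F₀ B) : B.det ∈ F₀ := by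
  obtain ⟨M, rfl⟩ := h.exists_map
  rw [← RingHom.mapMatrix_apply, ← RingHom.map_det]; exact M.det.2

theorem QF.exists_ratU (hQ : QF Q B) (hG : G ≤ quadSimilarityGroup Q) (hI : (2 : F) = 0 → Irr G)
    (hn : 2 ≤ Fintype.card ι) {F₁ : Subfield F} {P : GL ι F} {ζ : F} (hζ : ζ ≠ 0)
    (h1 : Rat F₁ (ζ • gP (RingHom.id F) B P)) (h2 : G ≤ subfieldSubgroup F₁ P) :
    ∃ U, Rat F₁ U ∧ U + Uᵀ = ζ • gP (RingHom.id F) B P ∧
      ∀ v, ζ * Q ((P : Matrix ι ι F) *ᵥ v) = fb U v v := by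
  haveI : Nonempty ι := Fintype.card_pos_iff.1 (by omega)
  have hF := (hQ.fd.gP P).smul hζ
  by_cases h0 : (2 : F) = 0
  swap
  · refine ⟨(2 : F)⁻¹ • ζ • gP (RingHom.id F) B P, fun i j => mul_mem (inv_mem (ofNat_mem F₁ 2))
      (h1 i j), ?_, fun v => ?_⟩
    · rw [transpose_smul, hF.transpose, one_smul, ← add_smul, ← _root_.two_mul, mul_inv_cancel₀ h0,
        one_smul]
    · rw [fb, fog_smul, fog_smul, fog_gP, ← show _ = formOfGram _ B _ _ from hQ.two_mul _]
      field_simp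
  obtain ⟨U, h3, h4⟩ := hQ.exists_qf
  obtain ⟨π₀, h5, h6⟩ := exists_proj F₁ (one_ne_zero (α := F))
  let π : F →ₗ[F₁] F := (⟨π₀ 1, h6 1⟩ : F₁)⁻¹ • π₀
  have h7 : ∀ x, π x ∈ F₁ := fun x => mul_mem (inv_mem (h6 1)) (h6 x)
  have h8 : ∀ x ∈ F₁, ∀ y, π (x * y) = x * π y := fun x hx y => π.map_smul (⟨x, hx⟩ : F₁) y
  have h9 : ∀ x ∈ F₁, π x = x := fun x hx => by
    rw [← mul_one x, h8 x hx, show π 1 = 1 from inv_mul_cancel₀ h5]
  set U₀ := ζ • gP (RingHom.id F) U P with hU₀
  have h10 : ∀ v, fb U₀ v v = ζ * Q ((P : Matrix ι ι F) *ᵥ v) := fun v => by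
    rw [fb, fog_smul, fog_gP, h4]
  have h11 : U₀ + U₀ᵀ = ζ • gP (RingHom.id F) B P := by
    simp [hU₀, gP, ← h3, Matrix.mul_add, Matrix.add_mul, Matrix.mul_assoc]
  have h12 : U₀.map π + (U₀.map π)ᵀ = ζ • gP (RingHom.id F) B P := Matrix.ext fun i j => by
    rw [← h9 _ (h1 i j), ← h11]; simp
  refine ⟨U₀.map π, fun i j => h7 _, h12, fun v => sub_eq_zero.1 ?_⟩
  have := (hI h0).add_quad hn h0
    (D := fun v => ζ * Q v - qf (U₀.map π) (((P⁻¹ : GL ι F) : Matrix ι ι F) *ᵥ v))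
    (fun u v => ?_) (fun c v => ?_) (fun g hg v hv => ?_) (P.1 *ᵥ v)
  · simpa only [val_inv_mulVec_mulVec] using this
  · have := polar_qf h12 (P⁻¹.1 *ᵥ u) (P⁻¹.1 *ᵥ v)
    simp only [fog_smul, fog_gP, val_mulVec_inv_mulVec, QuadraticMap.polar] at this
    simp only [hQ.add, mulVec_add, fb] at this ⊢
    linear_combination -this
  · simp only [Q_smul, mulVec_smul, qf, fog_smul_left, fog_smul_right, RingHom.id_apply]; ring
  obtain ⟨c, hc, h13⟩ := mem_subfieldSubgroup_iff.1 (h2 hg)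
  obtain ⟨m, hm⟩ := hG hg
  set y := c • cj P⁻¹ (g : Matrix ι ι F) with hy
  have h14 : ∀ x, (P : Matrix ι ι F) *ᵥ (y *ᵥ x) = c • g.1 *ᵥ (P.1 *ᵥ x) := fun x => by
    simp only [hy, cj_apply, inv_inv, smul_mulVec, mulVec_smul, ← mulVec_mulVec,
      val_mulVec_inv_mulVec]
  have h15 : Alt (yᵀ * U₀ * y + -((c ^ 2 * m) • U₀)) := fun x => by
    rw [fb, fog_add, fog_neg, fog_smul, ← show _ = formOfGram _ (yᵀ * U₀ * y) x x from
      fog_mulVec (σ := RingHom.id F) U₀ y y x x]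
    simp only [h10, h14, Q_smul, hm]; ring
  have h16 : c ^ 2 * m ∈ F₁ := by
    obtain ⟨i, j, hij⟩ : ∃ i j, (ζ • gP (RingHom.id F) B P) i j ≠ 0 := by
      by_contra! h; exact hF.unit.ne_zero (Matrix.ext h)
    have h17 : yᵀ * (U₀ + U₀ᵀ) * y = (c ^ 2 * m) • (U₀ + U₀ᵀ) := by
      have := h15.transpose
      simp only [transpose_add, transpose_mul, transpose_transpose, transpose_neg, transpose_smul,
        Matrix.mul_add, Matrix.add_mul, Matrix.mul_assoc] at this ⊢
      linear_combination (norm := module) this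
    have := (h13.transpose.mul h1).mul h13 i j
    rw [← h11, h17, h11, Matrix.smul_apply] at this
    have := mul_mem this (inv_mem (h1 i j))
    rwa [smul_eq_mul, mul_inv_cancel_right₀ hij] at this
  have h18 : Alt (yᵀ * U₀.map π * y + -((c ^ 2 * m) • U₀.map π)) := by
    have : yᵀ * U₀.map π * y + -((c ^ 2 * m) • U₀.map π) =
        (yᵀ * U₀ * y + -((c ^ 2 * m) • U₀)).map π := by
      rw [← map_rat_mul π _ h13.transpose, ← map_mul_rat π _ h13]
      ext i j; simp [h8 _ h16]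
    rw [this]
    exact alt_of_skew (by rw [← transpose_map, h15.transpose]; ext; simp)
      fun i => by rw [map_apply, h15.diag, map_zero]
  have h19 := h18 (P⁻¹.1 *ᵥ v)
  rw [fb, fog_add, fog_neg, fog_smul, ← show _ = formOfGram _ (yᵀ * _ * y) _ _ from
    fog_mulVec (σ := RingHom.id F) _ y y _ _, hy, smul_mulVec, cj_mulVec, fog_smul_left,
    fog_smul_right] at h19
  simp only [hm, qf, fb, RingHom.id_apply] at hv h19 ⊢
  exact mul_left_cancel₀ (pow_ne_zero 2 hc) (by linear_combination c ^ 2 * m * hv - h19)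

open Polynomial in
theorem exists_root_of_card_sq {F₁ : Subfield F} (h : Fintype.card F = Nat.card F₁ ^ 2) {ζ : F₁}
    (hζ : ∀ t : F₁, t ^ 2 + t + ζ ≠ 0) : ∃ a : F, a ^ 2 + a + ζ = 0 := by
  let p : F₁[X] := X ^ 2 + X + C ζ
  have hd : p.natDegree = 2 := by unfold p; compute_degree!
  have hi : Irreducible p := irreducible_of_degree_le_three_of_not_isRoot (by simp [hd])
    (by simpa [p] using hζ)
  haveI := Fact.mk hi
  obtain ⟨f⟩ := FiniteField.nonempty_algHom_of_finrank_dvd (F := F₁) (K := AdjoinRoot p) (L := F) (by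
    rw [(AdjoinRoot.powerBasis hi.ne_zero).finrank, AdjoinRoot.powerBasis_dim, hd]
    rw [← Nat.card_eq_fintype_card, Module.natCard_eq_pow_finrank (K := F₁)] at h
    rw [Nat.pow_right_injective Finite.one_lt_card h])
  have : aeval (f (AdjoinRoot.root p)) p = 0 := by rw [aeval_algHom_apply]; simp
  generalize f (AdjoinRoot.root p) = a at this
  simp only [p, map_add, map_pow, aeval_X, aeval_C] at this
  exact ⟨a, this⟩

omit [Fintype F] in
theorem QF.plus_of_family (hQ : QF Q B) (hn : Fintype.card ι = 2 * Fintype.card κ)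
    {e f : κ → ι → F} (h1 : ∀ i, Q (e i) = 0) (h2 : ∀ i j, i ≠ j → fb B (e i) (e j) = 0)
    (h3 : ∀ i j, fb B (e i) (f j) = 0 ↔ i ≠ j) : IsPlusTypeOn Q ⊤ := by
  have h4 : LinearIndependent F e := Fintype.linearIndependent_iff.2 fun c hc j => by
    have := congrArg (fun v => Matrix.toBilin' B v (f j)) hc
    simp only [map_sum, map_smul, LinearMap.sum_apply, LinearMap.smul_apply, toBilin'_eq, map_zero,
      LinearMap.zero_apply] at this
    rw [Finset.sum_eq_single j (fun i _ hi => by rw [(h3 i j).2 hi, smul_zero]) (by simp)] at this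
    simpa [h3] using this
  refine PlN.plus_top (W := ⊤) ⟨Submodule.span F (Set.range e), le_top, totSing_ofQuad.1 ?_,
    finrank_span_eq_card h4⟩ hn
  refine totSing_span ?_ ?_
  · rintro _ ⟨i, rfl⟩ _ ⟨j, rfl⟩
    rw [hQ.B_eq]
    by_cases h : i = j
    · rw [h, ← hQ.two_mul, h1, mul_zero]
    · exact h2 i j h
  · rintro _ ⟨i, rfl⟩; exact h1 i

theorem QF.plus_of_ratU (hQ : QF Q B) (hn : Even (Fintype.card ι)) (h0 : 0 < Fintype.card ι)
    {F₁ : Subfield F} (hF : Fintype.card F = Nat.card F₁ ^ 2) {P : GL ι F} {ζ : F} (hζ : ζ ≠ 0)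
    {U : Matrix ι ι F} (h1 : Rat F₁ U) (h2 : U + Uᵀ = ζ • gP (RingHom.id F) B P)
    (h3 : ∀ v, ζ * Q ((P : Matrix ι ι F) *ᵥ v) = fb U v v) : IsPlusTypeOn Q ⊤ := by
  obtain ⟨U, rfl⟩ := h1.exists_map
  obtain ⟨m, hm⟩ := hn.two_dvd
  obtain ⟨Q₁, h4, h5⟩ := exists_quad (isNondeg_qf (B' := U) rfl ((isUnit_iff_isUnit_det _).2
    (Ne.isUnit fun e => IsUnit.det_ne ((hQ.fd.gP P).smul hζ).unit (by
      rw [← h2, ← transpose_map, ← Matrix.map_add _ (map_add _), ← RingHom.mapMatrix_apply,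
        ← RingHom.map_det, e, map_zero]))))
  let T : (ι → F₁) → ι → F := fun u => (P : Matrix ι ι F) *ᵥ (F₁.subtype ∘ u)
  have h6 : ∀ u, Q (T u) = ζ⁻¹ * ((ofQuad Q₁).Q u : F₁) := fun u => by
    rw [eq_inv_mul_iff_mul_eq₀ hζ, h3, show (ofQuad Q₁).Q u = qf U u from congrFun h4 u]
    simp [formOfGram]
  have h7 : ∀ u v, fb B (T u) (T v) = ζ⁻¹ * ((ofQuad Q₁).B u v : F₁) := fun u v => by
    have := hQ.add (T u) (T v)
    rw [show T u + T v = T (u + v) by rw [← mulVec_add]; congr 1, h6, h6, h6,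
      (ofQuad Q₁).Q_add, show (ofQuad Q₁).κ = 1 from rfl] at this
    simp only [one_mul, Subfield.coe_add] at this
    linear_combination -this
  have h8 := H22.exists_basis_even h5 rfl (m := m) (by omega) (by simpa using hm)
  generalize ofQuad Q₁ = Φ at *
  clear_value T
  obtain ⟨b, h8, h9, h10⟩ | ⟨b, η, h8, h9, h10, h11, h12, h13, h14, h15⟩ := h8
  · exact hQ.plus_of_family (e := fun i => T (b (.inl i))) (f := fun i => T (b (.inr i)))
      (by simpa) (fun i => by simp [h6, (h8 i).1]) (fun i j _ => by simp [h7, (h10 i j).1])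
      fun i j => by simp [h7, h9, hζ]
  obtain ⟨a, ha⟩ := exists_root_of_card_sq hF h8
  have h16 : 2 * a + 1 ≠ 0 := fun e => h8 (-(η + η)) (Subtype.ext (by
    push_cast; linear_combination 4 * η * ha - η * (2 * a + 1) * e))
  have h17 := hQ.symm
  refine hQ.plus_of_family (κ := Option (Fin (m - 1)))
    (e := fun i => i.elim (a • T (b (.inr 0)) + T (b (.inr 1))) fun i => T (b (.inl (.inl i))))
    (f := fun i => i.elim (T (b (.inr 0))) fun i => T (b (.inl (.inr i)))) (by simp; omega) ?_ ?_ ?_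
  · rintro (_ | i)
    · simp only [Option.elim, hQ.add, Q_smul, fog_smul_left, h6, h7, h13, h14, h15]
      push_cast; linear_combination ζ⁻¹ * ha
    · simp [h6, (h9 i).1]
  · rintro (_ | i) (_ | j) h
    · simp at h
    · simp [-RingHom.coe_id, h17 _ (T (b (.inl _))), fog_add_right, fog_smul_right, h7, (h12 j _).1]
    · simp [-RingHom.coe_id, fog_add_right, fog_smul_right, h7, (h12 i _).1]
    · simp [h7, (h11 i j).1]
  · rintro (_ | i) (_ | j)
    · simp only [Option.elim, fog_add_left, fog_smul_left, ← hQ.two_mul, h17 (T (b (.inr 1))), h6,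
        h7, h13, h14, ne_eq, not_true, iff_false]
      push_cast
      exact fun e => mul_ne_zero (inv_ne_zero hζ) h16 (by linear_combination e)
    · simp [-RingHom.coe_id, h17 _ (T (b (.inl _))), fog_add_right, fog_smul_right, h7, (h12 j _).2]
    · simp [h7, (h12 i _).1]
    · simp [h7, h10, hζ]

end H23.As
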