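import Cfsg.Agent.H23.As26

/-!
Aschbacher's theorem, part 27: extension fields in the orthogonal case.
-/

set_option autoImplicit false

namespace H23.As

open Matrix Module Cfsg Cfsg.Geo H23.Form
open scoped MatrixGroups commutatorElement Kronecker

variable {ι : Type} [Fintype ι] [DecidableEq ι] {F : Type*} [Field F]
variable {B : Matrix ι ι F} {G H : Subgroup (GL ι F)} {Q : QuadraticForm F (ι → F)}
variable {r : ℕ} {K : Subalgebra F (Matrix ι ι F)} {ε : F}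

theorem FD.exists_fixed (hF : FD (RingHom.id F) B ε) (h2 : (2 : F) ≠ 0) (ho : Odd (Fintype.card ι))
    {g : GL ι F} (hg : g ∈ Iso (fb B)) (hd : (g : Matrix ι ι F).det = 1) :
    LinearMap.ker (toLin' ((g : Matrix ι ι F) - 1)) ≠ ⊥ := by
  have h1 := det_adj (σ := RingHom.id F) hF.unit ((g : Matrix ι ι F) - 1)
  have h3 := det_mul (g : Matrix ι ι F) (adj (RingHom.id F) B ((g : Matrix ι ι F) - 1))
  rw [h1, adj_sub, hF.adj_of_Iso hg, hF.adj_one, Matrix.mul_sub, Units.mul_inv, Matrix.mul_one,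
    ← neg_sub, det_neg, ho.neg_one_pow, hd] at h3
  obtain ⟨v, h4, h5⟩ := exists_mulVec_eq_zero_iff.2 (mul_left_cancel₀ h2
    (show 2 * ((g : Matrix ι ι F) - 1).det = 2 * 0 by simp only [RingHom.id_apply] at h3; linear_combination -h3))
  exact (Submodule.ne_bot_iff _).2 ⟨v, h5, h4⟩

theorem eq_one_of_ker {g : GL ι F} (h : LinearMap.ker (toLin' ((g : Matrix ι ι F) - 1)) = ⊤) :
    g = 1 := Units.ext (sub_eq_zero.1 (toLin'.map_eq_zero_iff.1 (LinearMap.ker_eq_top.1 h)))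

theorem QF.not_field_card [Finite F] (hQ : QF Q B) (hH : H ≤ isometryGroup F Q)
    (hd : ∀ g ∈ H, (g : Matrix ι ι F).det = 1) (hI : Irr H) (ho : Odd (Fintype.card ι))
    (hn : 2 ≤ Fintype.card ι) (hK : IsFieldSubalgebra (Fintype.card ι) K) : ¬ Nrm H K := fun h => by
  haveI : Nonempty ι := Fintype.card_pos_iff.1 (by omega)
  have h2 := hQ.two_ne_zero' ho
  have h1 : ∀ x ∈ H, ∀ y ∈ H, x * y = y * x := fun x hx y hy => by
    have h3 : ⁅x, y⁆ ∈ H := mul_mem (mul_mem (mul_mem hx hy) (inv_mem hx)) (inv_mem hy)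
    refine commutatorElement_eq_one_iff_mul_comm.1 (eq_one_of_ker (Submodule.eq_top_of_finrank_eq ?_))
    have h4 := IsFieldSubalgebra.dvd_finrank hK
      (W := LinearMap.ker (toLin' ((⁅x, y⁆ : GL ι F).1 - 1))) fun k hk w hw => by
        have := cj_eq_iff.1 (mem_centS.1 (commutator_le_centS hK h
          (Subgroup.commutator_mem_commutator hx hy)) k hk)
        simp only [LinearMap.mem_ker, toLin'_apply] at hw ⊢
        rw [mulVec_mulVec, Matrix.sub_mul, this, Matrix.one_mul, ← mul_sub_one, ← mulVec_mulVec,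
          hw, mulVec_zero]
    have h5 := Submodule.finrank_le (LinearMap.ker (toLin' ((⁅x, y⁆ : GL ι F).1 - 1)))
    rw [finrank_fintype_fun_eq_card] at h5 ⊢
    exact h5.antisymm (Nat.le_of_dvd (Nat.pos_of_ne_zero fun e => hQ.fd.exists_fixed h2 ho
      (hQ.isoQ_le (hH h3)) (hd _ h3) (Submodule.finrank_eq_zero.1 e)) h4)
  refine not_le_scalars hI hn fun x hx => ?_
  rw [eq_one_of_ker ((hI _ fun y hy w hw => ?_).resolve_left
    (hQ.fd.exists_fixed h2 ho (hQ.isoQ_le (hH hx)) (hd _ hx)))]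
  · exact one_mem _
  simp only [LinearMap.mem_ker, toLin'_apply] at hw ⊢
  rw [mulVec_mulVec, Matrix.sub_mul, ← Units.val_mul, h1 x hx y hy, Units.val_mul, Matrix.one_mul,
    ← mul_sub_one, ← mulVec_mulVec, hw, mulVec_zero]

/-- The orbit of a vector under a subalgebra. -/
def orb (K : Subalgebra F (Matrix ι ι F)) (v : ι → F) : K →ₗ[F] (ι → F) where
  toFun X := (X : Matrix ι ι F) *ᵥ v
  map_add' _ _ := add_mulVec _ _ _
  map_smul' _ _ := smul_mulVec _ _ _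

theorem mem_orb {v u : ι → F} : u ∈ LinearMap.range (orb K v) ↔ ∃ k ∈ K, u = k *ᵥ v :=
  ⟨fun ⟨k, h⟩ => ⟨k, k.2, h.symm⟩, fun ⟨k, hk, h⟩ => ⟨⟨k, hk⟩, h.symm⟩⟩

theorem IsFieldSubalgebra.eq_zero (hK : IsFieldSubalgebra r K) {k : Matrix ι ι F} (hk : k ∈ K)
    {v : ι → F} (hv : v ≠ 0) (h : k *ᵥ v = 0) : k = 0 := by
  by_contra h0
  obtain ⟨y, hy, h1⟩ := hK.inv k hk h0
  exact hv (by rw [← one_mulVec v, ← h1, hK.comm k hk y hy, ← mulVec_mulVec, h, mulVec_zero])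

theorem finrank_orb (hK : IsFieldSubalgebra r K) {v : ι → F} (hv : v ≠ 0) :
    finrank F (LinearMap.range (orb K v)) = r :=
  (LinearMap.finrank_range_of_inj (LinearMap.ker_eq_bot.1 (LinearMap.ker_eq_bot'.2 fun k h =>
    Subtype.ext (IsFieldSubalgebra.eq_zero hK k.2 hv h)))).trans hK.finrank_eq

theorem IsFieldSubalgebra.indep (hK : IsFieldSubalgebra r K) {v w : ι → F} (hv : v ≠ 0)
    (hw : w ∉ LinearMap.range (orb K v)) {k l : Matrix ι ι F} (hk : k ∈ K) (hl : l ∈ K)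
    (h : k *ᵥ v + l *ᵥ w = 0) : k = 0 ∧ l = 0 := by
  obtain rfl : l = 0 := by
    by_contra h0
    obtain ⟨y, hy, h1⟩ := hK.inv l hl h0
    exact hw (mem_orb.2 ⟨-(y * k), neg_mem (mul_mem hy hk), by
      rw [← one_mulVec w, ← h1, hK.comm l hl y hy, ← mulVec_mulVec, eq_neg_of_add_eq_zero_right h,
        neg_mulVec, mulVec_neg, mulVec_mulVec]⟩)
  exact ⟨IsFieldSubalgebra.eq_zero hK hk hv (by simpa using h), rfl⟩

theorem exists_cent (hK : IsFieldSubalgebra r K) (hn : Fintype.card ι = 2 * r) {v w : ι → F}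
    (hv : v ≠ 0) (hw : w ∉ LinearMap.range (orb K v)) :
    (∀ u, ∃ k ∈ K, ∃ l ∈ K, u = k *ᵥ v + l *ᵥ w) ∧ ∀ v' w' : ι → F, ∃ x : Matrix ι ι F,
      (∀ k ∈ K, x * k = k * x) ∧ x *ᵥ v = v' ∧ x *ᵥ w = w' := by
  let e := ((orb K v).coprod (orb K w)).linearEquivOfInjective (LinearMap.ker_eq_bot.1
    (LinearMap.ker_eq_bot'.2 fun p h => Prod.ext
      (Subtype.ext (IsFieldSubalgebra.indep hK hv hw p.1.2 p.2.2 h).1)
      (Subtype.ext (IsFieldSubalgebra.indep hK hv hw p.1.2 p.2.2 h).2)))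
    (by simp [hK.finrank_eq, hn, two_mul])
  have h1 : ∀ u, ∃ k ∈ K, ∃ l ∈ K, u = k *ᵥ v + l *ᵥ w := fun u =>
    (e.surjective u).elim fun p h => ⟨p.1, p.1.2, p.2, p.2.2, h.symm⟩
  refine ⟨h1, fun v' w' => ?_⟩
  let x := LinearMap.toMatrix' ((orb K v').coprod (orb K w') ∘ₗ e.symm.toLinearMap)
  have h2 : ∀ k ∈ K, ∀ l ∈ K, x *ᵥ (k *ᵥ v + l *ᵥ w) = k *ᵥ v' + l *ᵥ w' := fun k hk l hl => by
    rw [show k *ᵥ v + l *ᵥ w = e (⟨k, hk⟩, ⟨l, hl⟩) from rfl, ← toLin'_apply, toLin'_toMatrix']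
    simp [orb]
  refine ⟨x, fun m hm => ext_mulVec fun u => ?_, by simpa using h2 1 K.one_mem 0 K.zero_mem,
    by simpa using h2 0 K.zero_mem 1 K.one_mem⟩
  obtain ⟨k, hk, l, hl, rfl⟩ := h1 u
  rw [← mulVec_mulVec, ← mulVec_mulVec, h2 k hk l hl, mulVec_add m, mulVec_add m]
  simp only [mulVec_mulVec _ m, h2 _ (mul_mem hm hk) _ (mul_mem hm hl)]

theorem exists_notMem_orb (hK : IsFieldSubalgebra r K) (hn : r < Fintype.card ι) {v : ι → F}
    (hv : v ≠ 0) : ∃ w, w ∉ LinearMap.range (orb K v) := by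
  by_contra! h
  have := finrank_orb hK hv
  rw [show LinearMap.range (orb K v) = ⊤ from eq_top_iff.2 fun w _ => h w, finrank_top,
    finrank_fintype_fun_eq_card] at this
  omega

theorem adjoin_props {σ : F →+* F} (hF : FD σ B ε) {S : Set (Matrix ι ι F)}
    (h1 : ∀ x ∈ S, adj σ B x ∈ Algebra.adjoin F S) (h2 : ∀ g ∈ G, ∀ x ∈ S, cj g x ∈ S)
    (h3 : ∀ x ∈ S, ∀ y ∈ S, x * y = y * x) : AC σ B (Algebra.adjoin F S) ∧
      Nrm G (Algebra.adjoin F S) ∧ ∀ x ∈ Algebra.adjoin F S, ∀ y ∈ Algebra.adjoin F S,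
        x * y = y * x := by
  refine ⟨fun x hx => ?_, fun g hg x hx => ?_, fun x hx y hy => ?_⟩
  · induction hx using Algebra.adjoin_induction with
    | mem x hx => exact h1 x hx
    | algebraMap c =>
      rw [Algebra.algebraMap_eq_smul_one, adj_smul, hF.adj_one]
      exact Subalgebra.smul_mem _ (one_mem _) _
    | add x y _ _ hx hy => rw [adj_add]; exact add_mem hx hy
    | mul x y _ _ hx hy => rw [hF.adj_mul]; exact mul_mem hy hx
  · have : (Algebra.adjoin F S).map (cj g).toAlgHom ≤ Algebra.adjoin F S := by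
      rw [AlgHom.map_adjoin]
      exact Algebra.adjoin_mono (by rintro _ ⟨y, hy, rfl⟩; exact h2 g hg y hy)
    exact this ⟨x, hx, rfl⟩
  · exact Algebra.commute_of_mem_adjoin_of_forall_mem_commute hy fun b hb =>
      (Algebra.commute_of_mem_adjoin_of_forall_mem_commute hx fun c hc => h3 b hb c hc).symm

/-- The matrices commuting with `K` and representing the quadratic form. -/
def RepS (Q : QuadraticForm F (ι → F)) (B : Matrix ι ι F) (K : Subalgebra F (Matrix ι ι F)) :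
    Set (Matrix ι ι F) := {x | (∀ k ∈ K, x * k = k * x) ∧ ∀ u, fb B (x *ᵥ u) u = Q u}

theorem QF.adj_rep (hQ : QF Q B) {x : Matrix ι ι F} (h : ∀ u, fb B (x *ᵥ u) u = Q u) :
    adj (RingHom.id F) B x = 1 - x := hQ.fd.adj_eq fun u v => by
  have h1 := hQ.add u v
  have h2 := hQ.symm u (x *ᵥ v)
  simp only [← h, mulVec_add, fb, fog_add_left, fog_add_right] at h1 h2
  rw [sub_eq_add_neg, add_mulVec, one_mulVec, fog_add_right, neg_mulVec, ← neg_one_smul F,
    fog_smul_right]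
  simp only [RingHom.id_apply]
  linear_combination h1 + h2

theorem QF.repS_odd (hQ : QF Q B) (h2 : (2 : F) ≠ 0) (hK : IsFieldSubalgebra r K)
    (hn : Fintype.card ι = 2 * r) (hr : 0 < r) (hs : ∀ k ∈ K, adj (RingHom.id F) B k = k) :
    (∀ x ∈ RepS Q B K, ∀ y ∈ RepS Q B K, x * y = y * x) ∧ ∃ x ∈ RepS Q B K, x ∉ K := by
  haveI : Nonempty ι := Fintype.card_pos_iff.1 (by omega)
  have hF := hQ.fd
  have h0 : ∀ k ∈ K, ∀ u v, fb B (k *ᵥ u) v = fb B u (k *ᵥ v) := fun k hk u v => by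
    rw [fb, hF.fog_adj, hs k hk]
  obtain ⟨v, hv⟩ : ∃ v, fb B v v ≠ 0 := by
    by_contra! h
    have := Alt.transpose h
    rw [hF.transpose, one_smul, eq_neg_iff_add_eq_zero, ← two_smul F] at this
    exact hQ.unit.ne_zero ((smul_eq_zero_iff_right h2).1 this)
  have hv0 : v ≠ 0 := by rintro rfl; simp at hv
  let T : Set (Matrix ι ι F) := {j | (∀ k ∈ K, j * k = k * j) ∧ adj (RingHom.id F) B j = -j}
  have h1 : ∀ j : Matrix ι ι F, adj (RingHom.id F) B j = -j → ∀ u, fb B (j *ᵥ u) u = 0 :=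
    fun j hj u => mul_left_cancel₀ h2 (by
      have := hF.fog_adj j u u
      rw [hj, neg_mulVec, ← neg_one_smul F, fog_smul_right, ← show _ = formOfGram _ B u _ from
        hQ.symm (j *ᵥ u) u] at this
      simp only [RingHom.id_apply, fb] at this ⊢
      linear_combination this)
  have h3 : ∀ j ∈ T, ∀ k ∈ K, ∀ u, fb B (j *ᵥ u) (k *ᵥ u) = 0 := fun j hj k hk u => by
    rw [← h0 k hk, mulVec_mulVec]
    exact h1 _ (by rw [hF.adj_mul, hj.2, hs k hk, Matrix.neg_mul, hj.1 k hk]) u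
  obtain ⟨w, hw, hw0⟩ := (Submodule.ne_bot_iff _).1 (prp_ne_bot (σ := RingHom.id F) (B := B)
    (W := LinearMap.range (orb K v)) fun e => by
      obtain ⟨w, hw⟩ := exists_notMem_orb hK (by omega) hv0
      exact hw (e ▸ Submodule.mem_top))
  have h4 : ∀ k ∈ K, fb B w (k *ᵥ v) = 0 := fun k hk => hw _ (mem_orb.2 ⟨k, hk, rfl⟩)
  have h5 : ∀ k ∈ K, (∀ l ∈ K, fb B (k *ᵥ v) (l *ᵥ v) = 0) → k = 0 := fun k hk h => by
    by_contra e
    obtain ⟨y, hy, h6⟩ := hK.inv k hk e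
    exact hv (by simpa [h0 k hk, h6] using h y hy)
  have h6 : w ∉ LinearMap.range (orb K v) := fun h => by
    obtain ⟨k, hk, rfl⟩ := mem_orb.1 h
    exact hw0 (by rw [h5 k hk h4, zero_mulVec])
  obtain ⟨h7, h8⟩ := exists_cent hK hn hv0 h6
  have h9 : ∀ j ∈ T, ∃ l ∈ K, j *ᵥ v = l *ᵥ w := fun j hj => by
    obtain ⟨k, hk, l, hl, h⟩ := h7 (j *ᵥ v)
    suffices k = 0 from ⟨l, hl, by rw [h, this, zero_mulVec, zero_add]⟩
    refine h5 k hk fun m hm => ?_
    have := h3 j hj m hm v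
    rwa [h, fb, fog_add_left, show formOfGram _ B (l *ᵥ w) _ = 0 from (h0 l hl _ _).trans (by
      rw [mulVec_mulVec]; exact h4 _ (mul_mem hl hm)), add_zero] at this
  have h10 : ∀ j ∈ T, j *ᵥ v = 0 → j = 0 := fun j hj h => by
    have h11 : j *ᵥ w = 0 := by
      by_contra e
      obtain ⟨u, hu⟩ := exists_fog_right (σ := RingHom.id F) hQ.unit e
      obtain ⟨k, hk, l, hl, rfl⟩ := h7 u
      rw [fog_add_right, show formOfGram _ B _ (l *ᵥ w) = 0 from h3 j hj l hl w, hF.fog_adj, hj.2,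
        neg_mulVec, mulVec_mulVec, hj.1 k hk, ← mulVec_mulVec, h] at hu
      simp [-RingHom.coe_id] at hu
    refine ext_mulVec fun u => ?_
    obtain ⟨k, hk, l, hl, rfl⟩ := h7 u
    rw [mulVec_add, mulVec_mulVec, mulVec_mulVec, hj.1 k hk, hj.1 l hl, ← mulVec_mulVec,
      ← mulVec_mulVec, h, h11]
    simp
  have h11 : ∀ j ∈ T, ∀ j' ∈ T, j * j' = j' * j := fun j hj j' hj' => by
    obtain ⟨l, hl, h⟩ := h9 j hj
    obtain ⟨l', hl', h'⟩ := h9 j' hj'
    by_cases e : l = 0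
    · rw [h10 j hj (by rw [h, e, zero_mulVec])]; simp
    obtain ⟨y, hy, h12⟩ := hK.inv l hl e
    have h13 := mul_mem hl' hy
    suffices j' - l' * y * j = 0 by rw [sub_eq_zero.1 this, ← Matrix.mul_assoc, hj.1 _ h13]
    refine h10 _ ⟨fun k hk => ?_, ?_⟩ ?_
    · rw [Matrix.sub_mul, Matrix.mul_sub, hj'.1 k hk, Matrix.mul_assoc _ j, hj.1 k hk,
        ← Matrix.mul_assoc, hK.comm _ h13 k hk, Matrix.mul_assoc k]
    · rw [adj_sub, hF.adj_mul, hj.2, hj'.2, hs _ h13, Matrix.neg_mul, hj.1 _ h13]; abel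
    · rw [sub_mulVec, ← mulVec_mulVec, h, h', mulVec_mulVec, Matrix.mul_assoc, hK.comm y hy l hl, h12,
        Matrix.mul_one, sub_self]
  have h12 : (2 : F)⁻¹ • (1 : Matrix ι ι F) + (2 : F)⁻¹ • 1 = 1 := by
    rw [← add_smul, ← _root_.two_mul, mul_inv_cancel₀ h2, one_smul]
  refine ⟨fun x hx y hy => ?_, ?_⟩
  · have h13 : ∀ x ∈ RepS Q B K, x - (2 : F)⁻¹ • 1 ∈ T := fun x hx =>
      ⟨fun k hk => by simp [Matrix.sub_mul, Matrix.mul_sub, hx.1 k hk], by
        rw [adj_sub, adj_smul, hF.adj_one, hQ.adj_rep hx.2, RingHom.id_apply]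
        linear_combination (norm := abel) -h12⟩
    have := h11 _ (h13 x hx) _ (h13 y hy)
    simp only [Matrix.sub_mul, Matrix.mul_sub, Matrix.mul_smul, Matrix.smul_mul, Matrix.mul_one,
      Matrix.one_mul] at this
    linear_combination (norm := module) this
  obtain ⟨e, h13, h14, h15⟩ := h8 w 0
  have h16 : adj (RingHom.id F) B (e - adj (RingHom.id F) B e) = -(e - adj (RingHom.id F) B e) := by
    rw [adj_sub, hF.adj_adj, neg_sub]
  refine ⟨(2 : F)⁻¹ • 1 + (e - adj (RingHom.id F) B e), ⟨fun k hk => ?_, fun u => ?_⟩, fun h => ?_⟩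
  · have := congrArg (adj (RingHom.id F) B) (h13 k hk)
    rw [hF.adj_mul, hF.adj_mul, hs k hk] at this
    simp [Matrix.add_mul, Matrix.mul_add, Matrix.sub_mul, Matrix.mul_sub, h13 k hk, this]
  · rw [add_mulVec, fb, fog_add_left, show formOfGram _ B _ u = 0 from h1 _ h16 u, smul_mulVec,
      one_mulVec, fog_smul_left, ← show _ = formOfGram _ B u u from hQ.two_mul u]
    field_simp; simp
  · have h17 := hs _ (sub_mem h (K.smul_mem K.one_mem (2 : F)⁻¹))
    rw [add_sub_cancel_left, h16, neg_eq_iff_add_eq_zero, ← two_smul F, smul_eq_zero_iff_right h2,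
      sub_eq_zero] at h17
    obtain ⟨u, hu⟩ := exists_fog_right (σ := RingHom.id F) hQ.unit hw0
    obtain ⟨k, hk, l, hl, rfl⟩ := h7 u
    rw [fog_add_right, show formOfGram _ B w _ = 0 from h4 k hk, zero_add, ← h14, hF.fog_adj, ← h17,
      h14, mulVec_mulVec, h13 l hl, ← mulVec_mulVec, h15] at hu
    simp [-RingHom.coe_id] at hu

theorem QF.repS_two [Fintype F] (hQ : QF Q B) (h2 : (2 : F) = 0) (hK : IsFieldSubalgebra r K)
    (hn : Fintype.card ι = 2 * r) (hr : 0 < r) (hs : ∀ k ∈ K, adj (RingHom.id F) B k = k) :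
    (∀ x ∈ RepS Q B K, ∀ y ∈ RepS Q B K, x * y = y * x) ∧ ∃ x ∈ RepS Q B K, x ∉ K := by
  haveI : Nonempty ι := Fintype.card_pos_iff.1 (by omega)
  have hF := hQ.fd
  have hA := hQ.alt h2
  have hneg : ∀ X : Matrix ι ι F, -X = X := fun X => Matrix.ext fun i j => neg_eq_of_two h2 _
  have h0 : ∀ k ∈ K, ∀ u v, fb B (k *ᵥ u) v = fb B u (k *ᵥ v) := fun k hk u v => by
    rw [fb, hF.fog_adj, hs k hk]
  have h1 : Function.Injective fun k : K => k * k := fun k l h => Subtype.ext (by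
    by_contra e
    obtain ⟨y, hy, h3⟩ := hK.inv _ (sub_mem k.2 l.2) (sub_ne_zero.2 e)
    have h4 : (k.1 - l.1) * (k.1 - l.1) = 0 := by
      rw [Matrix.sub_mul, Matrix.mul_sub, Matrix.mul_sub, show k.1 * k.1 = l.1 * l.1 from
        congrArg Subtype.val h, hK.comm _ k.2 _ l.2, ← neg_sub (l.1 * l.1), hneg, sub_self]
    exact e (sub_eq_zero.1 (by rw [← Matrix.mul_one (k.1 - l.1), ← h3, ← Matrix.mul_assoc, h4]; simp)))
  choose ρ hρ using Finite.injective_iff_surjective.1 h1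
  have h3 : ∀ y : Matrix ι ι F, (∀ k ∈ K, y * k = k * y) → (∀ u, fb B (y *ᵥ u) u = 0) →
      ∀ k ∈ K, ∀ u, fb B (y *ᵥ u) (k *ᵥ u) = 0 := fun y hy h k hk u => by
    rw [show k = (ρ ⟨k, hk⟩).1 * (ρ ⟨k, hk⟩).1 from (congrArg Subtype.val (hρ ⟨k, hk⟩)).symm,
      ← mulVec_mulVec, ← h0 _ (ρ _).2, mulVec_mulVec, ← hy _ (ρ _).2, ← mulVec_mulVec, h]
  have h4 : ∀ k ∈ K, ∀ l ∈ K, ∀ u, fb B (k *ᵥ u) (l *ᵥ u) = 0 := fun k hk l hl u => by
    rw [h0 k hk, mulVec_mulVec, ← one_mulVec u, mulVec_mulVec, Matrix.mul_one]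
    exact h3 1 (by simp) (fun u => by rw [one_mulVec]; exact hA u) _ (mul_mem hk hl) u
  have h5 : ∀ u, u ≠ 0 → ∀ z, (∀ k ∈ K, fb B z (k *ᵥ u) = 0) → ∃ k ∈ K, z = k *ᵥ u := fun u hu z h => by
    have h6 := hF.finrank_prp (LinearMap.range (orb K u))
    rw [← mem_orb, Submodule.eq_of_le_of_finrank_eq (show LinearMap.range (orb K u) ≤
      prp (RingHom.id F) B (LinearMap.range (orb K u)) from ?_) (by rw [finrank_orb hK hu] at *; omega)]
    · rintro _ ⟨k, rfl⟩; exact h k k.2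
    · rintro _ ⟨k, rfl⟩ _ ⟨l, rfl⟩; exact h4 k k.2 l l.2 u
  obtain ⟨v, hv⟩ := exists_ne (0 : ι → F)
  obtain ⟨w, hw⟩ := exists_notMem_orb hK (by omega) hv
  have hw0 : w ≠ 0 := by rintro rfl; exact hw (zero_mem _)
  obtain ⟨h7, h8⟩ := exists_cent hK hn hv hw
  refine ⟨fun x hx y hy => ?_, ?_⟩
  · have h9 : ∀ k ∈ K, (x - y) * k = k * (x - y) := fun k hk => by
      rw [Matrix.sub_mul, Matrix.mul_sub, hx.1 k hk, hy.1 k hk]
    have h10 := fun u hu => h5 u hu _ (h3 _ h9 (fun u => by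
      rw [sub_eq_add_neg, hneg, add_mulVec, fb, fog_add_left, show formOfGram _ B _ _ = _ from hx.2 u,
        show formOfGram _ B _ _ = _ from hy.2 u, ← _root_.two_mul, h2, zero_mul]) · · u)
    obtain ⟨k, hk, h11⟩ := h10 v hv
    obtain ⟨l, hl, h12⟩ := h10 w hw0
    obtain ⟨m, hm, h13⟩ := h10 (v + w) fun e => hw (by
      rw [eq_neg_of_add_eq_zero_right e]; exact neg_mem (mem_orb.2 ⟨1, K.one_mem, by simp⟩))
    obtain ⟨h14, h15⟩ := IsFieldSubalgebra.indep hK hv hw (sub_mem hk hm) (sub_mem hl hm) (by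
      rw [mulVec_add, h11, h12, mulVec_add] at h13
      rw [sub_mulVec, sub_mulVec]; linear_combination (norm := abel) h13)
    rw [sub_eq_zero] at h14 h15
    have h16 : x - y = m := ext_mulVec fun u => by
      obtain ⟨a, ha, b, hb, rfl⟩ := h7 u
      rw [mulVec_add, mulVec_add, mulVec_mulVec, mulVec_mulVec, mulVec_mulVec, mulVec_mulVec, h9 a ha,
        h9 b hb, hK.comm m hm a ha, hK.comm m hm b hb]
      simp only [← mulVec_mulVec, h11, h12, h14, h15]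
    rw [sub_eq_iff_eq_add.1 h16, Matrix.add_mul, Matrix.mul_add, hy.1 m hm]
  have h9 : ∀ v w, v ≠ 0 → (∀ u, ∃ k ∈ K, ∃ l ∈ K, u = k *ᵥ v + l *ᵥ w) →
      ∃ s ∈ K, ∀ m ∈ K, fb B (m *ᵥ (s *ᵥ w)) (m *ᵥ v) = Q (m *ᵥ v) := fun v w hv h => by
    haveI : CharP F 2 := CharTwo.of_one_ne_zero_of_two_eq_zero one_ne_zero h2
    let φ : K →ₗ[F] F :=
      { toFun := fun k => Q ((ρ k).1 *ᵥ v)
        map_add' := fun k l => by
          rw [show ρ (k + l) = ρ k + ρ l from h1 (Subtype.ext ?_), Subalgebra.coe_add, add_mulVec,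
            hQ.add, h4 _ (ρ k).2 _ (ρ l).2, add_zero]
          have h10 := congrArg Subtype.val (hρ k)
          have h11 := congrArg Subtype.val (hρ l)
          rw [hρ]
          simp only [MulMemClass.coe_mul, Subalgebra.coe_add, Matrix.add_mul, Matrix.mul_add] at *
          rw [h10, h11, hK.comm _ (ρ k).2 _ (ρ l).2]
          linear_combination (norm := abel) hneg ((ρ l).1 * (ρ k).1)
        map_smul' := fun c k => by
          obtain ⟨d, rfl⟩ := FiniteField.isSquare_of_char_two (ringChar.eq F 2) c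
          rw [show ρ ((d * d) • k) = d • ρ k from h1 (by simp only [hρ, smul_mul_smul_comm]),
            Subalgebra.coe_smul, smul_mulVec, Q_smul, sq]; rfl }
    have hi : Function.Injective (orb K v) := LinearMap.ker_eq_bot.1 (LinearMap.ker_eq_bot'.2
      fun k h => Subtype.ext (IsFieldSubalgebra.eq_zero hK k.2 hv h))
    obtain ⟨ψ, hψ⟩ := LinearMap.exists_extend (φ ∘ₗ (LinearEquiv.ofInjective _ hi).symm.toLinearMap)
    obtain ⟨z, rfl⟩ := (LinearMap.BilinForm.toDual _ (toBilin'_nondeg hQ.unit)).surjective ψ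
    obtain ⟨k, hk, s, hs, rfl⟩ := h z
    refine ⟨s, hs, fun m hm => ?_⟩
    have := LinearMap.congr_fun hψ (LinearEquiv.ofInjective _ hi (⟨m, hm⟩ * ⟨m, hm⟩))
    simp only [LinearMap.comp_apply, LinearEquiv.coe_coe, LinearEquiv.symm_apply_apply,
      LinearMap.BilinForm.toDual_def, toBilin'_eq, fog_add_left] at this
    rw [h0 m hm, mulVec_mulVec]
    refine Eq.trans ?_ (this.trans (congrArg (fun k : K => Q (k.1 *ᵥ v)) (h1 (hρ _))))
    exact (zero_add _).symm.trans (congrArg (· + _) (h4 k hk _ (mul_mem hm hm) v).symm)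
  obtain ⟨s, hs', h10⟩ := h9 v w hv h7
  obtain ⟨t, ht, h11⟩ := h9 w v hw0 fun u => by
    obtain ⟨k, hk, l, hl, rfl⟩ := h7 u
    exact ⟨l, hl, k, hk, add_comm _ _⟩
  obtain ⟨x, h12, h13, h14⟩ := h8 (s *ᵥ w) (t *ᵥ v + w)
  have h15 : ∀ u, fb B (x *ᵥ u) u = Q u := fun u => by
    obtain ⟨k, hk, l, hl, rfl⟩ := h7 u
    have h15 := h4 _ (mul_mem hk hs') l hl w
    have h16 := h4 _ (mul_mem hl ht) k hk v
    have h17 := h4 l hl l hl w
    have h18 := hQ.symm (k *ᵥ v) (l *ᵥ w)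
    rw [mulVec_add, mulVec_mulVec, mulVec_mulVec, h12 k hk, h12 l hl, ← mulVec_mulVec, ← mulVec_mulVec,
      h13, h14, hQ.add, ← h10 k hk, ← h11 l hl]
    simp only [← mulVec_mulVec, mulVec_add, fb, fog_add_left, fog_add_right] at *
    linear_combination h15 + h16 + h17 - h18
  refine ⟨x, ⟨h12, h15⟩, fun h => one_ne_zero (α := Matrix ι ι F) ?_⟩
  rw [← sub_add_cancel 1 x, ← hQ.adj_rep h15, hs x h, ← hneg x, neg_add_eq_zero, hneg]

theorem QF.exists_comm [Fintype F] (hQ : QF Q B) (hG : G ≤ quadSimilarityGroup Q)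
    (hK : IsFieldSubalgebra r K) (hn : Fintype.card ι = 2 * r) (hr : 0 < r) (hN : Nrm G K)
    (hs : ∀ k ∈ K, adj (RingHom.id F) B k = k) : ∃ C : Subalgebra F (Matrix ι ι F),
      K < C ∧ AC (RingHom.id F) B C ∧ Nrm G C ∧ ∀ x ∈ C, ∀ y ∈ C, x * y = y * x := by
  obtain ⟨h1, x, h2, h3⟩ := (em ((2 : F) = 0)).elim (hQ.repS_two · hK hn hr hs)
    (hQ.repS_odd · hK hn hr hs)
  refine ⟨Algebra.adjoin F (K ∪ RepS Q B K), lt_of_le_of_ne
    (fun k hk => Algebra.subset_adjoin (.inl hk)) fun e => h3 (e ▸ Algebra.subset_adjoin (.inr h2)),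
    adjoin_props hQ.fd ?_ ?_ ?_⟩
  · rintro y (hy | hy)
    · rw [hs y hy]; exact Algebra.subset_adjoin (.inl hy)
    · rw [hQ.adj_rep hy.2]; exact sub_mem (one_mem _) (Algebra.subset_adjoin (.inr hy))
  · rintro g hg y (hy | hy)
    · exact .inl (hN g hg y hy)
    refine .inr ⟨fun k hk => ?_, fun u => ?_⟩
    · rw [← cj_cj_inv g k, ← map_mul, ← map_mul, hy.1 _ (hN _ (inv_mem hg) k hk)]
    · obtain ⟨c, hc⟩ := hG hg
      rw [← val_mulVec_inv_mulVec g u, cj_mulVec, hc, ← hy.2]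
      exact hQ.mul_of hc _ _
  · rintro y (hy | hy) z (hz | hz)
    exacts [hK.comm y hy z hz, (hz.1 y hy).symm, hy.1 z hz, h1 y hy z hz]

end H23.As
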