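import Cfsg.Agent.H23.As27

/-!
Aschbacher's theorem, part 28: uniqueness of invariant quadratic forms; tensor products.
-/

set_option autoImplicit false

namespace H23.As

open Matrix Module Cfsg Cfsg.Geo H23.Form
open scoped MatrixGroups commutatorElement Kronecker

variable {ι : Type} [Fintype ι] [DecidableEq ι] {F : Type*} [Field F]
variable {κ μ : Type} [Fintype κ] [DecidableEq κ] [Fintype μ] [DecidableEq μ]
variable {B : Matrix ι ι F} {G H : Subgroup (GL ι F)} {Q : QuadraticForm F (ι → F)}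

theorem QF.eq_qf [Finite F] (hQ : QF Q B) (hG : G ≤ quadSimilarityGroup Q) (hI : Irr G)
    (hn : 2 ≤ Fintype.card ι) {U : Matrix ι ι F} (hU : U + Uᵀ = B)
    (h : G ≤ quadSimilarityGroup (qf U)) (v : ι → F) : Q v = qf U v := by
  haveI : Nonempty ι := Fintype.card_pos_iff.1 (by omega)
  have h1 := polar_qf hU
  by_cases h2 : (2 : F) = 0
  swap
  · refine mul_left_cancel₀ h2 ?_
    rw [hQ.two_mul, ← hU, fb, fog_add, ← show _ = formOfGram _ Uᵀ v v from fb_swap U v v,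
      _root_.two_mul]
  refine sub_eq_zero.1 (hI.add_quad hn h2 (D := fun v => Q v - qf U v) (fun u v => ?_)
    (fun c v => ?_) (fun g hg v hv => ?_) v)
  · have := h1 u v
    simp only [QuadraticMap.polar, hQ.add] at this ⊢
    linear_combination -this
  · simp only [Q_smul, qf, fog_smul_left, fog_smul_right, RingHom.id_apply]; ring
  obtain ⟨c, hc⟩ := hG hg
  obtain ⟨d, hd⟩ := h hg
  have h3 : (c : F) = d := (hQ.mul_of hc).unique hQ.unit fun x y => by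
    have h4 := h1 x y
    have h5 := h1 (g.1 *ᵥ x) (g.1 *ᵥ y)
    simp only [QuadraticMap.polar, ← mulVec_add, hd, fb] at *
    linear_combination d * h4 - h5
  simp only [hc, hd, h3] at hv ⊢
  linear_combination d * hv

theorem QF.eq_of_coord [Finite F] (hQ : QF Q B) (hG : G ≤ quadSimilarityGroup Q) (hI : Irr G)
    (hn : 2 ≤ Fintype.card ι) {e : ι ≃ κ} {P : GL ι F} {B₀ U : Matrix κ κ F}
    (hT : TrF (RingHom.id F) e P B B₀) (hU : U + Uᵀ = B₀) (h0 : ∀ p, U p p = 0)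
    (h : ∀ g ∈ G, ∃ y : Matrix κ κ F, (g : Matrix ι ι F) = tr e P y ∧ ∀ p, (yᵀ * U * y) p p = 0)
    (x : κ → F) : Q ((P : Matrix ι ι F) *ᵥ (x ∘ e)) = fb U x x := by
  haveI : Nonempty ι := Fintype.card_pos_iff.1 (by omega)
  obtain ⟨B', hB'⟩ := exists_trF_left (RingHom.id F) e P U
  have h1 : B' + B'ᵀ = B := ((hB'.add hB'.transpose).eq_iff hT).2 hU
  refine (hQ.eq_qf hG hI hn h1 (fun g hg => ?_) _).trans (hB' _ _)
  obtain ⟨c, hc⟩ := hQ.qs_le (hG hg)
  obtain ⟨y, h2, h3⟩ := h g hg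
  refine mem_quadSim_of_span hQ.unit h1 hc (span_coord e P) ?_
  rintro _ ⟨p, rfl⟩
  simp only [qf, fb, h2, tr_mulVec, hB' _ _, fog_mulVec, fog_single, h0, mul_zero]
  exact h3 p

theorem QF.plus_of_coord {ν : Type} [Fintype ν] [DecidableEq ν] (hQ : QF Q B) {e : ι ≃ κ}
    {P : GL ι F} {B₀ : Matrix κ κ F} (hT : TrF (RingHom.id F) e P B B₀) {j : ν → κ}
    (hj : Function.Injective j) (hn : Fintype.card ι = 2 * Fintype.card ν)
    (h1 : ∀ i, Q ((P : Matrix ι ι F) *ᵥ ((Pi.single (j i) 1 : κ → F) ∘ e)) = 0)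
    (h2 : ∀ i i', B₀ (j i) (j i') = 0) : IsPlusTypeOn Q ⊤ := by
  refine hQ.plus_of_family hn h1 (f := fun i => P.1 *ᵥ ((B₀⁻¹ *ᵥ Pi.single (j i) 1) ∘ e))
    (fun i i' _ => (hT _ _).trans ((fog_single _ _ _).trans (h2 _ _))) fun i i' => ?_
  rw [fb, hT, fog_mulVec_right, fog_single, show B₀⁻¹.map (RingHom.id F) = B₀⁻¹ from rfl,
    mul_nonsing_inv _ ((isUnit_iff_isUnit_det _).1 (hT.isUnit_iff.1 hQ.unit))]
  simp [one_apply, hj.eq_iff]

theorem fb_kron (B₁ : Matrix κ κ F) (B₂ : Matrix μ μ F) (x x' : κ → F) (y y' : μ → F) :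
    fb (B₁ ⊗ₖ B₂) (fun a => x a.1 * y a.2) (fun a => x' a.1 * y' a.2) = fb B₁ x x' * fb B₂ y y' := by
  simp only [formOfGram, Fintype.sum_prod_type, kroneckerMap_apply, RingHom.id_apply,
    Finset.sum_mul_sum]
  exact Finset.sum_congr rfl fun a _ => Finset.sum_congr rfl fun b _ =>
    Finset.sum_congr rfl fun c _ => Finset.sum_congr rfl fun d _ => by ring

theorem exists_half' (hA : Alt B) : ∃ U : Matrix ι ι F, U - Uᵀ = B ∧ ∀ p, U p p = 0 := by
  by_cases h2 : (2 : F) = 0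
  · obtain ⟨U, h1, h3⟩ := exists_half h2 hA 0
    exact ⟨U, h1 ▸ Matrix.ext fun i j => by simp [sub_eq_add_neg, neg_eq_of_two h2], h3⟩
  · refine ⟨(2 : F)⁻¹ • B, ?_, fun p => by simp [hA.diag]⟩
    rw [transpose_smul, hA.transpose, ← smul_sub, sub_neg_eq_add, ← two_smul F, smul_smul,
      inv_mul_cancel₀ h2, one_smul]

theorem TenF.exists_U [Finite F] {e : ι ≃ κ × μ} {P : GL ι F} {B₁ B₂} {ε₁ ε₂ : F}
    (h : TenF (RingHom.id F) B G e P B₁ B₂ ε₁ ε₂) (hQ : QF Q B) (hG : G ≤ quadSimilarityGroup Q)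
    (hI : Irr G) (hn : 2 ≤ Fintype.card ι) (h3 : Alt B₁) (h4 : Alt B₂) : ∃ U : Matrix κ κ F,
      (∀ p, U p p = 0) ∧ ∀ x, Q ((P : Matrix ι ι F) *ᵥ (x ∘ e)) = fb (U ⊗ₖ B₂) x x := by
  obtain ⟨U, h5, h6⟩ := exists_half' h3
  refine ⟨U, h6, hQ.eq_of_coord hG hI hn h.trf ?_ (fun p => by simp [h4.diag]) fun g hg => ?_⟩
  · rw [← kroneckerMap_transpose, h4.transpose, ← h5]
    ext; simp; ring
  · obtain ⟨a, b, rfl⟩ := h.le g hg
    refine ⟨_, rfl, fun p => ?_⟩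
    rw [kronG_val, ← kroneckerMap_transpose, ← mul_kronecker_mul, ← mul_kronecker_mul,
      kroneckerMap_apply, ← fog_single (σ := RingHom.id F) (_ * B₂ * _)]
    have := h4 ((b : Matrix μ μ F) *ᵥ Pi.single p.2 1)
    rw [fb, fog_mulVec] at this
    exact mul_eq_zero_of_right _ this

theorem TenF.pure [Finite F] {e : ι ≃ κ × μ} {P : GL ι F} {B₁ B₂} {ε₁ ε₂ : F}
    (h : TenF (RingHom.id F) B G e P B₁ B₂ ε₁ ε₂) (hQ : QF Q B) (hG : G ≤ quadSimilarityGroup Q)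
    (hI : Irr G) (hn : 2 ≤ Fintype.card ι) (h3 : Alt B₁) (h4 : Alt B₂) (x : κ → F) (y : μ → F) :
    Q ((P : Matrix ι ι F) *ᵥ ((fun a : κ × μ => x a.1 * y a.2) ∘ e)) = 0 := by
  obtain ⟨U, -, h5⟩ := h.exists_U hQ hG hI hn h3 h4
  rw [h5, fb_kron, h4, mul_zero]

theorem TenF.plus [Finite F] {e : ι ≃ Fin 2 × μ} {P : GL ι F} {B₁ B₂} {ε₁ ε₂ : F}
    (h : TenF (RingHom.id F) B G e P B₁ B₂ ε₁ ε₂) (hQ : QF Q B) (hG : G ≤ quadSimilarityGroup Q)
    (hI : Irr G) (hn : 2 ≤ Fintype.card ι) (h3 : Alt B₁) (h4 : Alt B₂) : IsPlusTypeOn Q ⊤ := by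
  obtain ⟨U, h6, h5⟩ := h.exists_U hQ hG hI hn h3 h4
  exact hQ.plus_of_coord h.trf (j := fun i => (0, i)) (fun _ _ e => congrArg Prod.snd e)
    (by simpa using Fintype.card_congr e) (fun i => by rw [h5, fb, fog_single]; simp [h6])
    fun i i' => by simp [h3.diag]

theorem WrF.plus [Finite F] {e : ι ≃ (Fin 3 → Fin 2)} {P : GL ι F} {B₁} {ε₁ c : F}
    (h : WrF (RingHom.id F) B e P B₁ ε₁ c) (hW : WrD G e P) (hQ : QF Q B)
    (hG : G ≤ quadSimilarityGroup Q) (hI : Irr G) (h2 : (2 : F) = 0) (h3 : Alt B₁) :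
    IsPlusTypeOn Q ⊤ := by
  have hn : Fintype.card ι = 2 * Fintype.card (Fin 2 × Fin 2) := by
    simpa using Fintype.card_congr e
  obtain ⟨U, h5, -⟩ := exists_half h2 h3 0
  have h6 : B₁ᵀ = B₁ := by rw [h3.transpose]; ext; simp [neg_eq_of_two h2]
  have h0 : ∀ p, (c • ptens (Function.update (fun _ : Fin 3 => B₁) 1 U)) p p = 0 := fun p => by
    rw [Matrix.smul_apply, ptens_apply, Finset.prod_eq_zero (Finset.mem_univ 0), smul_zero]
    simp [h3.diag]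
  have := hQ.eq_of_coord hG hI (by simp at hn; omega) h.trf ?_ h0 fun g hg => ?_
  · refine hQ.plus_of_coord h.trf (j := fun p : Fin 2 × Fin 2 => ![0, p.1, p.2]) (fun p p' e =>
      Prod.ext (congrFun e 1) (congrFun e 2)) hn (fun i => by rw [this, fb, fog_single, h0]) fun i i' => ?_
    rw [Matrix.smul_apply, ptens_apply, Finset.prod_eq_zero (Finset.mem_univ 0), smul_zero]
    exact h3.diag _
  · rw [transpose_smul, ← smul_add, ptens_transpose]
    have : (fun l => (Function.update (fun _ : Fin 3 => B₁) 1 U l)ᵀ) =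
        Function.update (fun _ => B₁) 1 Uᵀ := by
      ext1 l; by_cases hl : l = 1
      · subst hl; simp
      · simp [hl, h6]
    rw [this]; congr 1; ext x y
    rw [Matrix.add_apply, ptens_update_apply, ptens_update_apply, ← add_mul, ptens_apply,
      ← Finset.mul_prod_erase _ _ (Finset.mem_univ 1), ← h5]; rfl
  · obtain ⟨s, d, a, rfl⟩ := hW.exists_eq hg
    refine ⟨_, rfl, fun p => ?_⟩
    have := cj_fperm (κ := Fin 2) s.symm (Function.update (fun _ => B₁) 1 U)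
    rw [cj_apply, ← fperm_inv, inv_inv, ← fperm_transpose] at this
    simp only [Units.val_mul, sc_val, Matrix.smul_mul, Matrix.one_mul, transpose_smul, transpose_mul,
      Matrix.mul_smul, Matrix.smul_apply]
    rw [Matrix.mul_assoc, Matrix.mul_assoc, ← Matrix.mul_assoc (ptens _), ← Matrix.mul_assoc _ (_ * _),
      ← Matrix.mul_assoc _ (ptens _), this, ptensG_val, ptens_transpose, ptens_mul, ptens_mul,
      ptens_apply, Finset.prod_eq_zero (Finset.mem_univ (s.symm 0)), smul_zero, smul_zero, smul_zero]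
    have := h3 ((a (s.symm 0) : Matrix _ _ F) *ᵥ Pi.single (p (s.symm 0)) 1)
    rw [fb, fog_mulVec, fog_single] at this
    simpa [Matrix.mul_assoc] using this

theorem TenF.reassoc {e : ι ≃ κ × Fin 2 × Fin 2} {P : GL ι F} {B₁} [Nonempty κ]
    (h : TenF (RingHom.id F) B G e P B₁ (J2 F ⊗ₖ J2 F) 1 1) (hF : FD (RingHom.id F) B 1)
    (hG : PG (RingHom.id F) B G) (h2 : (2 : F) ≠ 0) (h3 : Fintype.card κ = 3)
    (hd : ∀ g ∈ G, ∀ c, Mul (RingHom.id F) B g c → (g : Matrix ι ι F).det = c ^ 6) :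
    ∃ e' : ι ≃ Fin 2 × κ × Fin 2, TenF (RingHom.id F) B G e' P (J2 F) (B₁ ⊗ₖ J2 F) (-1) (-1) := by
  let s : κ × Fin 2 × Fin 2 ≃ Fin 2 × κ × Fin 2 :=
    ⟨fun p => (p.2.1, p.1, p.2.2), fun p => (p.2.1, p.1, p.2.2), fun _ => rfl, fun _ => rfl⟩
  refine ⟨e.trans s, fd_J2, by simpa using h.fd₁.kron fd_J2, fun x y => ?_, fun g hg => ?_⟩
  · rw [← fog_submatrix s]
    exact (h.trf (x ∘ s) (y ∘ s)).trans (by congr 1; ext; simp [s, mul_left_comm])
  obtain ⟨a, b, rfl⟩ := h.le g hg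
  rcases o4_cases h2 ((h.pgR hF hG).sim (TenF.mem_fac hg).2) with ⟨c, d, rfl⟩ | ⟨c, d, rfl⟩
  · refine ⟨c, kronG a d, Units.ext ?_⟩
    simp only [trG_val, tr_apply, kronG_val]
    congr 1; ext; simp [s, mul_left_comm]
  obtain ⟨m, hm⟩ := (h.pgL hF hG).sim (TenF.mem_fac hg).1
  have h4 : Mul (RingHom.id F) (J2 F ⊗ₖ J2 F) (swapG (Fin 2) F) 1 := mul_iff.2 (by
    ext ⟨i, j⟩ ⟨k, l⟩
    fin_cases i <;> fin_cases j <;> fin_cases k <;> fin_cases l <;>
      simp [swapG, J2, Matrix.mul_apply, Fintype.sum_prod_type, one_apply])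
  have h5 : Mul (RingHom.id F) (J2 F ⊗ₖ J2 F) (kronG c d) (c.1.det * d.1.det) := mul_iff.2 (by
    rw [kronG_val, ← kroneckerMap_transpose, show ∀ X : Matrix _ _ F, X.map (RingHom.id F) = X from
      fun _ => rfl, ← mul_kronecker_mul, ← mul_kronecker_mul, J2_conj, J2_conj, smul_kronecker,
      kronecker_smul, smul_smul])
  have h6 := hd _ hg _ (h.trf.mul_kronG hm (h4.mul h5))
  have h7 := Mul.det h.fd₁.unit hm
  simp only [trG_val, det_tr, kronG_val, det_kronecker, Units.val_mul, det_mul, det_swapG, h3,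
    Fintype.card_prod, Fintype.card_fin, RingHom.id_apply] at h6 h7
  refine (mul_ne_zero h2 (pow_ne_zero 6 (mul_ne_zero m.ne_zero
    (mul_ne_zero c.det_ne_zero d.det_ne_zero))) ?_).elim
  linear_combination -h6 - (c.1.det * d.1.det) ^ 6 * (a.1.det ^ 2 + m ^ 3) * h7

theorem TenF.exists_power [Finite F] {d : ℕ} {e : ι ≃ Fin d × Fin d} {P : GL ι F} {B₁ B₂}
    (h : TenF (RingHom.id F) B G e P B₁ B₂ 1 1) (h2 : (2 : F) ≠ 0) (hd : Odd d) :
    ∃ P', IsTensorPowerFormStructure id (fb B) (fb B₁) (e.trans (finTwoArrowEquiv _).symm) P' ∧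
      G ≤ tensorWreathSubgroup d 2 (e.trans (finTwoArrowEquiv _).symm) P' := by
  have hc := mul_ne_zero (IsUnit.det_ne h.fd₁.unit) (IsUnit.det_ne h.fd₂.unit)
  obtain ⟨k, rfl⟩ := hd
  obtain ⟨b, hb⟩ := h.fd₂.exists_trF h2 (h.fd₁.smul hc) (Equiv.refl _)
    ⟨(B₁.det * B₂.det) ^ (k + 1), by rw [det_smul, Fintype.card_fin]; ring⟩
  have h1 := h.change 1 b
  exact ⟨_, h1.powerForm one_ne_zero hc (by simp [gP]) (trF_iff_gP.1 hb),
    h1.le_tensor.trans (tensor_le_wreath _ _)⟩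

theorem TenF.plus_iff [Finite F] {e : ι ≃ κ × μ} {P : GL ι F} {B₁ B₂}
    (h : TenF (RingHom.id F) B G e P B₁ B₂ 1 1) (hQ : QF Q B) (h2 : (2 : F) ≠ 0)
    (h3 : Fintype.card κ = 3) (h4 : Fintype.card μ = 4) (hp : IsPlusTypeOn Q ⊤) :
    IsPlusTypeOn (fun v => fb B₂ v v) ⊤ := by
  obtain ⟨x, hx⟩ := (hQ.plus_iff h2 (m := 6) (by simp [Fintype.card_congr e, h3, h4])).1 hp
  have h5 := h.trf.det
  rw [det_kronecker, h3, h4] at h5
  have h6 := IsUnit.det_ne h.fd₁.unit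
  have h7 := IsUnit.det_ne h.fd₂.unit
  refine (h.fd₂.plus_iff h2 (m := 2) h4).2 ⟨P.1.det * x / (B₁.det ^ 2 * B₂.det), ?_⟩
  field_simp
  linear_combination h5 + P.1.det ^ 2 * hx

theorem WrF.not_O2 {t : ℕ} {e : ι ≃ (Fin t → Fin 2)} {P : GL ι F} {B₁} {c : F}
    (h : WrF (RingHom.id F) B e P B₁ 1 c) : (2 : F) = 0 := by
  obtain ⟨T, h1, h2, h3⟩ := h.perf
  obtain ⟨d, hd⟩ := h3.eq_smul' h.fd.unit (B' := J2 F) fun x hx => ⟨1, one_ne_zero,
    mul_of_Iso (h1 hx), det_of_mem_commutator (h2.ge hx) ▸ mul_J2 x⟩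
  have h1 : (J2 F)ᵀ = J2 F := by rw [hd, transpose_smul, h.fd.transpose, one_smul]
  have := congrFun (congrFun h1 0) 1
  simp only [J2, transpose_apply, of_apply, cons_val', cons_val_zero, cons_val_one] at this
  linear_combination -this

/-! ### Fields -/

theorem FldD.uni_mul [Fintype F] (hQ : QF Q B) (hG : G ≤ quadSimilarityGroup Q) (hI : Irr G)
    (hn : 2 ≤ Fintype.card ι) {C : Subalgebra F (Matrix ι ι F)} (h : FldD (RingHom.id F) B G C)
    (hs : ∀ x ∈ C, adj (RingHom.id F) B x = x → ∃ c : F, x = c • 1) :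
    ∀ k ∈ C, ∃ c : F, ∀ v, Q (k *ᵥ v) = c * Q v := by
  have hF := hQ.fd
  obtain ⟨k₀, h0, h1⟩ : ∃ k₀ ∈ C, ∀ v, Q v = fb B (k₀ *ᵥ v) v := by
    by_cases h2 : (2 : F) = 0
    swap
    · refine ⟨(2 : F)⁻¹ • 1, C.smul_mem (one_mem _) _, fun v => ?_⟩
      rw [smul_mulVec, one_mulVec, fb, fog_smul_left, ← show _ = formOfGram _ B _ _ from
        hQ.two_mul _, inv_mul_cancel_left₀ h2]
    obtain ⟨k, h3, hk, h5⟩ := h.exists_k hF (hG.trans hQ.qs_le) h2 hs
    have h1 : kᵀ * B + (kᵀ * B)ᵀ = B := fog_inj (σ := RingHom.id F) fun u v => by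
      rw [fog_add, show formOfGram _ (kᵀ * B)ᵀ u v = _ from (fb_swap _ v u).symm, ← fog_mulVec_left,
        fb, ← fog_mulVec_left, hF.fog_adj, show formOfGram _ B (k *ᵥ v) u = _ from hQ.symm _ _, fb,
        ← fog_add_right, ← add_mulVec, add_comm, hk, one_mulVec]
    refine ⟨k, h3, fun v => (hQ.eq_qf hG hI hn h1 (fun g hg => ?_) v).trans
      (fog_mulVec_left _ _ _ _).symm⟩
    obtain ⟨a, ha⟩ := hQ.qs_le (hG hg)
    obtain ⟨c, hc⟩ := h5 _ (inv_mem hg)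
    refine ⟨a, fun v => ?_⟩
    have := hQ.alt h2 v
    simp only [qf, fb, ← fog_mulVec_left] at this ha ⊢
    rw [← cj_cj_inv g k, cj_mulVec, ha, cj_cj_inv, hc, add_mulVec, fog_add_left, smul_mulVec,
      one_mulVec, fog_smul_left, this, mul_zero, add_zero]
  intro k hk
  obtain ⟨c, hc⟩ := hs _ (mul_mem (h.ac k hk) hk) (by rw [hF.adj_mul, hF.adj_adj])
  refine ⟨c, fun v => ?_⟩
  rw [h1, h1, fb, ← hF.fog_adj', mulVec_mulVec, mulVec_mulVec, h.comm _ (h.ac k hk) _ h0,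
    Matrix.mul_assoc, hc, Matrix.mul_smul, Matrix.mul_one, smul_mulVec, fog_smul_left]

theorem QF.two_mul_dvd [Nonempty ι] (hQ : QF Q B) {r : ℕ} {K : Subalgebra F (Matrix ι ι F)}
    (h : IsFieldSubalgebra r K) (hK : AC (RingHom.id F) B K)
    (h0 : ∀ k ∈ K, ∃ c : F, ∀ v, Q (k *ᵥ v) = c * Q v) (hp : IsPlusTypeOn Q ⊤) :
    2 * r ∣ Fintype.card ι := by
  obtain ⟨W, ⟨h1, h2⟩, h3⟩ := exists_maximal_of_wellFoundedGT (fun W : Submodule F (ι → F) =>
    (∀ k ∈ K, ∀ w ∈ W, k *ᵥ w ∈ W) ∧ IsTotallySingularQuad Q W) ⟨⊥, by simp, by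
      simp [IsTotallySingularQuad]⟩
  obtain ⟨U, -, h4, h5⟩ := hp
  simp only [finrank_top, finrank_fintype_fun_eq_card] at h5
  have h6 := hQ.fd.two_mul_le_of_ts (hQ.ts_for h2)
  obtain ⟨A, h7, h8, h9⟩ := exists_totSing_ge hQ.nondeg (totSing_ofQuad.2 h2)
    (totSing_ofQuad.2 h4) (by omega)
  have h10 := totSing_ofQuad.1 h7
  have h11 : A ≤ W := fun v hv => by
    refine h3 (y := W ⊔ LinearMap.range (orb K v)) ⟨fun k hk w hw => ?_, fun x hx => ?_⟩ le_sup_left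
      (Submodule.mem_sup_right ⟨1, one_mulVec v⟩)
    · obtain ⟨a, ha, _, ⟨l, rfl⟩, rfl⟩ := Submodule.mem_sup.1 hw
      rw [mulVec_add]
      exact Submodule.add_mem_sup (h1 k hk a ha) ⟨⟨k, hk⟩ * l, (mulVec_mulVec _ _ _).symm⟩
    · obtain ⟨a, ha, _, ⟨l, rfl⟩, rfl⟩ := Submodule.mem_sup.1 hx
      obtain ⟨c, hc⟩ := h0 l l.2
      rw [hQ.add, h2 a ha, show Q (orb K v l) = _ from hc v, h10 v hv,
        show fb B a (orb K v l) = 0 from (hQ.fd.fog_adj' _ _ _).symm.trans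
          (hQ.ts_for h10 _ (h9 (h1 _ (hK _ l.2) a ha)) v hv)]
      simp
  rw [← h5, ← h8, le_antisymm h11 h9]
  exact Nat.mul_dvd_mul_left 2 (IsFieldSubalgebra.dvd_finrank h h1)

theorem sa_two (hF : FD (RingHom.id F) B 1) {K : Subalgebra F (Matrix ι ι F)}
    (hK : IsFieldSubalgebra 2 K) : (∀ k ∈ K, adj (RingHom.id F) B k = k) ∨
      ∀ x ∈ K, adj (RingHom.id F) B x = x → ∃ c : F, x = c • 1 := by
  refine or_iff_not_imp_right.2 fun h => ?_
  push Not at h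
  obtain ⟨x, h1, h2, h3⟩ := h
  have h4 : saPart hF K hK.comm ≤ K := fun _ h => h.1
  have h5 := finrank_ne_one (C := saPart hF K hK.comm) ⟨h1, h2⟩ (by simpa using h3)
  have h6 : finrank F (saPart hF K hK.comm) ≠ 0 := fun e => h3 0 (by
    simpa using congrArg Subtype.val (finrank_zero_iff_forall_zero.1 e ⟨x, h1, h2⟩))
  have h7 : finrank F (saPart hF K hK.comm) ≤ 2 := (Submodule.finrank_mono
    (s := (saPart hF K hK.comm).toSubmodule) (t := K.toSubmodule) h4).trans_eq hK.finrank_eq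
  have := Subalgebra.eq_of_le_of_finrank_eq h4 (by rw [hK.finrank_eq]; omega)
  exact fun k hk => (this.ge hk).2

/-! ### Extraspecial groups -/

theorem QF.plus_of_skew (hQ : QF Q B) (h2 : (2 : F) ≠ 0) {z : Matrix ι ι F}
    (h1 : adj (RingHom.id F) B z = -z) (h3 : z * z = 1) : IsPlusTypeOn Q ⊤ := by
  have hF := hQ.fd
  have h4 : adj (RingHom.id F) B (1 + z) = 1 - z := by rw [adj_add, hF.adj_one, h1, sub_eq_add_neg]
  have h5 : IsTotallySingularFor (fb B) (LinearMap.range (toLin' (1 + z))) := by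
    rintro _ ⟨u, rfl⟩ _ ⟨v, rfl⟩
    rw [toLin'_apply, toLin'_apply, fb, hF.fog_adj, h4, mulVec_mulVec, sub_mul, mul_add, mul_add, h3]
    simp [-RingHom.coe_id, add_comm]
  have h6 := hF.two_mul_le_of_ts (W := LinearMap.ker (toLin' (1 + z))) fun u hu v hv => by
    have h7 := hF.fog_adj (1 + z) u v
    rw [show (1 + z) *ᵥ u = 0 from hu, h4, show 1 - z = (2 : F) • 1 - (1 + z) by module, sub_mulVec,
      show (1 + z) *ᵥ v = 0 from hv, smul_mulVec, one_mulVec, sub_zero, fog_smul_right] at h7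
    simpa [-RingHom.coe_id, h2] using h7
  have h7 := hF.two_mul_le_of_ts h5
  have h8 := LinearMap.finrank_range_add_finrank_ker (toLin' (1 + z))
  refine ⟨_, le_top, hQ.ts_quad h2 h5, ?_⟩
  simp only [finrank_top, finrank_fintype_fun_eq_card] at h8 ⊢
  omega

theorem ExtI.cj_or [Fintype F] [Nonempty ι] {R : Subgroup (GL ι F)} (hB : IsUnit B)
    (h : ExtI B G R) {g x : GL ι F} (hg : g ∈ R) (hx : x ∈ R) :
    cj g x.1 = x.1 ∨ cj g x.1 = -x.1 := by
  obtain ⟨c, hc⟩ := exists_sc (h.ext.comm g hg x hx)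
  have h1 := congrArg Units.val (h.sq hB (c := c) (hc ▸ mul_mem (mul_mem (mul_mem hg hx)
    (inv_mem hg)) (inv_mem hx)))
  rw [cj_val, show g * x * g⁻¹ = sc c * x by rw [← hc]; group, Units.val_mul, sc_val,
    Matrix.smul_mul, Matrix.one_mul]
  rcases sq_eq_one_iff.1 h1 with h2 | h2 <;> simp [h2]

theorem ExtI.plus [Fintype F] {R : Subgroup (GL ι F)} (hQ : QF Q B) (h : ExtI B G R)
    (hn : Fintype.card ι = 8) : IsPlusTypeOn Q ⊤ := by
  haveI : Nonempty ι := Fintype.card_pos_iff.1 (by omega)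
  have hF := hQ.fd
  have h2 := h.two
  by_cases h1 : ∃ x ∈ R, x ∉ scalars ι F ∧ x.1 * x.1 = 1
  · obtain ⟨x, hx, h1, h3⟩ := h1
    have h4 : ∀ y : Matrix ι ι F, y * y = 1 → ∀ c : F, ((2 : F)⁻¹ • (1 + c • y)) * ((2 : F)⁻¹ • (1 + y))
        = ((2 : F)⁻¹ * (1 + c)) • (2 : F)⁻¹ • (1 + y) := fun y hy c => by
      simp only [Matrix.smul_mul, Matrix.mul_smul, mul_add, add_mul, hy, one_mul, mul_one]; module
    obtain ⟨t, k, D, h5, -, h6⟩ := hF.dec_of_selfadj h.ext.ai.irr (h.iso.trans (Iso_le_sim _))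
      (e := (2 : F)⁻¹ • (1 + x.1)) (by
        simpa [one_add_one_eq_two, h2] using h4 _ h3 1)
      (fun e => h1 (mem_scalars_of_val (c := -1) (by
        simpa using eq_neg_of_add_eq_zero_right ((smul_eq_zero_iff_right (inv_ne_zero h2)).1 e))))
      (fun e => h1 (mem_scalars_of_val (c := 1) (by
        rw [inv_smul_eq_iff₀ h2] at e; linear_combination (norm := module) e)))
      (fun g hg => (h.cj_or hQ.unit hg hx).imp (fun e => by simp [e]) fun e => by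
        simpa [e] using h4 _ h3 (-1))
      (by rw [adj_smul, adj_add, hF.adj_one, hF.adj_of_Iso (h.iso hx),
        show ((x⁻¹ : GL ι F) : Matrix ι ι F) = x from by
          rw [inv_eq_of_mul_eq_one_right (Units.ext h3 : x * x = 1)]]; rfl)
    have h7 := IsMDecomposition.card_eq h5.decomp
    have h8 := h5.decomp.two_le
    refine ((hQ.plus_iff_dec h2 (hQ.orthDec (H := R) (fun g hg => mem_isoQ.2 fun v => by
      simpa using hQ.of_mul h2 (mul_of_Iso (h.iso hg)) v) h5 fun i j => (h6 i j).imp fun g hg =>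
        ⟨Subgroup.mem_sup_left hg.1, hg.2⟩) ?_)).2 (.inl (by omega))
    have : t ∣ 2 ^ 3 := ⟨k, by omega⟩
    obtain ⟨i, -, rfl⟩ := (Nat.dvd_prime_pow Nat.prime_two).1 this
    exact (Nat.even_pow' (by rintro rfl; omega)).2 even_two
  have h3 : ∀ x ∈ R, x ∉ scalars ι F → x.1 * x.1 = -1 := fun x hx h3 => by
    obtain ⟨c, hc⟩ := h.ext.ai.scalar (M := x.1 * x.1) fun y hy => (cj_eq_iff.1 (by
      rcases h.cj_or hQ.unit hy hx with e | e <;> simp [e])).symm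
    obtain ⟨c, rfl, h4⟩ := exists_sc_of_val (g := x * x) hc
    rcases sq_eq_one_iff.1 (congrArg Units.val (h.sq hQ.unit (h4 ▸ mul_mem hx hx)))
      with h5 | h5
    · exact (h1 ⟨x, hx, h3, by simpa [h5] using hc⟩).elim
    · simpa [h5] using hc
  have h4 : ∀ x ∈ R, x ∉ scalars ι F → adj (RingHom.id F) B x.1 = -x.1 := fun x hx h4 => by
    rw [hF.adj_of_Iso (h.iso hx), coe_units_inv, inv_eq_left_inv (B := -x.1) (by simp [h3 x hx h4])]
  obtain ⟨x, hx, h5⟩ := SetLike.not_le_iff_exists.1 (not_le_scalars h.ext.ai.irr (by omega))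
  obtain ⟨y, hy, h6⟩ : ∃ y ∈ R, cj y x.1 ≠ x.1 := by
    by_contra! h6
    exact h5 (h.ext.ai.mem_scalars fun y hy => Units.ext (cj_eq_iff.1 (h6 y hy)).symm)
  have h7 := cj_eq_iff.1 ((h.cj_or hQ.unit hy hx).resolve_left h6)
  have h8 : y ∉ scalars ι F := fun e => h6 (cj_of_scalar e _)
  obtain ⟨p, hp⟩ := CharP.exists F
  haveI := NeZero.mk (CharP.char_ne_zero_of_finite F p)
  obtain ⟨a, b, h9⟩ := CharP.sq_add_sq F p (-1)
  refine hQ.plus_of_skew h2 (z := (a : F) • x.1 + (b : F) • y.1) (by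
    simp [adj_add, adj_smul, h4 x hx h5, h4 y hy h8, add_comm]) ?_
  simp only [mul_add, add_mul, Matrix.smul_mul, Matrix.mul_smul, h3 x hx h5, h3 y hy h8, h7, neg_mul]
  push_cast at h9
  linear_combination (norm := module) h9 • (-1 : Matrix ι ι F)

end H23.As
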