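import Cfsg.Agent.H23.As28

/-!
Aschbacher's theorem, part 29: the orthogonal case.
-/

set_option autoImplicit false

namespace H23.As

open Matrix Module Cfsg Cfsg.Geo H23.Form
open scoped MatrixGroups commutatorElement Kronecker

variable {ι : Type} [Fintype ι] [DecidableEq ι] {F : Type*} [Field F] [Fintype F]

/-- The geometric subgroups in the orthogonal case. -/
inductive OrC (Q : (ι → F) → F) : Subgroup (GL ι F) → Prop
  | ts (W : Submodule F (ι → F)) (h0 : W ≠ ⊥) (h : IsTotallySingularQuad Q W) :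
    OrC Q (subspaceStabilizer W)
  | pt (v : ι → F) (he : ¬ Odd (Fintype.card F)) (h : Q v ≠ 0) :
    OrC Q (subspaceStabilizer (Submodule.span F {v}))
  | nd (W : Submodule F (ι → F)) (h0 : W ≠ ⊥) (h1 : W ≠ ⊤)
    (h : IsNondegenerateOn (QuadraticMap.polar Q) W)
    (hd : (Odd (Fintype.card ι) ∧ Even (finrank F W)) ∨ (Even (Fintype.card ι) ∧
      (2 * finrank F W < Fintype.card ι ∨ (2 * finrank F W = Fintype.card ι ∧ Even (finrank F W) ∧
        ¬ IsPlusTypeOn Q ⊤))))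
    (ho : Odd (finrank F W) → Odd (Fintype.card F))
    (h2 : finrank F W = 2 → IsPlusTypeOn Q W → 4 ≤ Fintype.card F) : OrC Q (subspaceStabilizer W)
  | half (k : ℕ) (D : Fin 2 → Submodule F (ι → F)) (hk : Odd k) (hn : Fintype.card ι = 2 * k)
    (h : IsNondegenerateMDecomposition (QuadraticMap.polar Q) k D)
    (hi : ¬ AreIsometricFor Q (D 0) (D 1)) (hp : IsPlusTypeOn Q ⊤ → Fintype.card F % 4 = 3)
    (hm : ¬ IsPlusTypeOn Q ⊤ → Fintype.card F % 4 = 1) : OrC Q (decompositionStabilizer D)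
  | dec (t k : ℕ) (D : Fin t → Submodule F (ι → F)) (h : IsOrthogonalMDecomposition Q k D)
    (ht : 2 ≤ t) (hk : 0 < k) (hn : Fintype.card ι = t * k) (h1 : k = 1 → (Fintype.card F).Prime)
    (h2 : k = 2 → Fintype.card F ≠ 3 ∧ ((∀ i, IsPlusTypeOn Q (D i)) → 7 ≤ Fintype.card F))
    (h3 : k = 3 → 5 ≤ Fintype.card F)
    (h4 : k = 4 → (∀ i, IsPlusTypeOn Q (D i)) → 3 ≤ Fintype.card F)
    (he : Even k → (IsPlusTypeOn Q ⊤ ↔ Even t ∨ ∀ i, IsPlusTypeOn Q (D i)))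
    (ha : (∀ i, IsPlusTypeOn Q (D i)) ∨ ∀ i, ¬ IsPlusTypeOn Q (D i))
    (ho : Odd k → Odd (Fintype.card F) ∧ (Even t → (IsPlusTypeOn Q ⊤ ↔ 4 ∣ Fintype.card ι ∨
      Fintype.card F % 4 = 1))) : OrC Q (decompositionStabilizer D)
  | pair (k : ℕ) (D : Fin 2 → Submodule F (ι → F)) (hn : Fintype.card ι = 2 * k)
    (h : IsMDecomposition k D) (hs : ∀ i, IsTotallySingularQuad Q (D i)) (hp : IsPlusTypeOn Q ⊤) :
    OrC Q (decompositionStabilizer D)
  | fld (r : ℕ) (K : Subalgebra F (Matrix ι ι F)) (hr : r.Prime) (hd : r ∣ Fintype.card ι)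
    (hn : r ≠ Fintype.card ι) (ho : Odd r → 2 * r ≠ Fintype.card ι)
    (he : ¬ Odd (Fintype.card F) → 2 * r ∣ Fintype.card ι) (h : IsFieldSubalgebra r K)
    (hs : IsSelfAdjointFor (QuadraticMap.polar Q) K) : OrC Q (subalgebraNormalizer K)
  | uni (K : Subalgebra F (Matrix ι ι F)) (he : Even (Fintype.card ι)) (h : IsFieldSubalgebra 2 K)
    (ha : IsAdjointClosedFor (QuadraticMap.polar Q) K)
    (hs : ¬ IsSelfAdjointFor (QuadraticMap.polar Q) K)
    (hm : ∀ k ∈ K, ∃ c : F, ∀ v, Q (k *ᵥ v) = c * Q v) (hp : IsPlusTypeOn Q ⊤ → 4 ∣ Fintype.card ι) :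
    OrC Q (subalgebraNormalizer K)
  | tenS (a b : ℕ) (e : ι ≃ Fin a × Fin b) (P : GL ι F) (f₁ : (Fin a → F) → (Fin a → F) → F)
    (f₂ : (Fin b → F) → (Fin b → F) → F) (ho : Odd (Fintype.card F)) (hn : Fintype.card ι = a * b)
    (ha : 3 ≤ a) (hb : a < b) (h3 : a = 3 → 5 ≤ Fintype.card F)
    (h4 : b = 4 → ¬ IsPlusTypeOn (fun v => f₂ v v) ⊤ ∧ ¬ IsPlusTypeOn Q ⊤) (h₁ : IsSymmetricForm f₁)
    (h₂ : IsSymmetricForm f₂) (h : IsTensorFormStructure id (QuadraticMap.polar Q) f₁ f₂ e P) :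
    OrC Q (tensorProductSubgroup a b e P)
  | tenA (b : ℕ) (e : ι ≃ Fin 2 × Fin b) (P : GL ι F) (f₁ : (Fin 2 → F) → (Fin 2 → F) → F)
    (f₂ : (Fin b → F) → (Fin b → F) → F) (h3 : 3 ≤ Fintype.card F) (hn : Fintype.card ι = 2 * b)
    (hb : Even b) (hp : IsPlusTypeOn Q ⊤) (h₁ : IsSymplecticForm f₁) (h₂ : IsSymplecticForm f₂)
    (h : IsTensorFormStructure id (QuadraticMap.polar Q) f₁ f₂ e P)
    (h0 : ∀ (x₁ : Fin 2 → F) (x₂ : Fin b → F),
      Q ((P : Matrix ι ι F) *ᵥ ((fun a : Fin 2 × Fin b => x₁ a.1 * x₂ a.2) ∘ e)) = 0) :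
    OrC Q (tensorProductSubgroup 2 b e P)
  | sub (F₀ : Subfield F) (r : ℕ) (P : GL ι F) (ζ : F) (hr : r.Prime)
    (hF : Fintype.card F = Nat.card F₀ ^ r) (h0 : ζ ≠ 0)
    (h : IsQuadFormRationalStructure (fun v => ζ * Q v) F₀ P) (ho : Odd (Fintype.card ι) → ζ = 1)
    (h2 : r = 2 → Even (Fintype.card ι) → IsPlusTypeOn Q ⊤) : OrC Q (subfieldSubgroup F₀ P)
  | wr (k t : ℕ) (e : ι ≃ (Fin t → Fin k)) (P : GL ι F) (f₁ : (Fin k → F) → (Fin k → F) → F)
    (ho : Odd (Fintype.card F)) (hn : Fintype.card ι = k ^ t) (hk : 3 ≤ k) (ht : 2 ≤ t)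
    (h3 : ¬ (Fintype.card F = 3 ∧ k = 3)) (h₁ : IsSymmetricForm f₁)
    (h : IsTensorPowerFormStructure id (QuadraticMap.polar Q) f₁ e P) :
    OrC Q (tensorWreathSubgroup k t e P)

/-- The standing hypotheses in the orthogonal case. -/
structure OH (Q : QuadraticForm F (ι → F)) (B : Matrix ι ι F) (H : Subgroup (GL ι F)) : Prop where
  qf : QF Q B
  iso : H ≤ isometryGroup F Q
  det : ∀ g ∈ H, (g : Matrix ι ι F).det = 1
  seven : 7 ≤ Fintype.card ι
  small : Even (Fintype.card ι) → Fintype.card ι ≤ 15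
  eight : Fintype.card ι = 8 → ¬ IsPlusTypeOn Q ⊤
  rat : Odd (Fintype.card ι) → ∀ F₁ : Subfield F, B.det ∈ F₁

/-- Containment in a geometric subgroup. -/
def OG (Q : (ι → F) → F) (H : Subgroup (GL ι F)) : Prop := ∃ M, OrC Q M ∧ H ≤ M

variable {B : Matrix ι ι F} {G H : Subgroup (GL ι F)} {Q : QuadraticForm F (ι → F)}
variable {W : Submodule F (ι → F)} {t k : ℕ} {D : Fin t → Submodule F (ι → F)}

theorem card_ne_six : Fintype.card F ≠ 6 := fun h => by
  have := FiniteField.isPrimePow_card F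
  rw [h] at this
  exact absurd this (by decide)

omit [Fintype F] in
/-- The singular vectors of a totally isotropic subspace. -/
def QF.sing (hQ : QF Q B) (h : IsTotallySingularFor (fb B) W) : Submodule F (ι → F) where
  carrier := {v | v ∈ W ∧ Q v = 0}
  add_mem' hu hv := ⟨add_mem hu.1 hv.1, by rw [hQ.add, hu.2, hv.2, h _ hu.1 _ hv.1]; simp⟩
  zero_mem' := ⟨zero_mem _, map_zero _⟩
  smul_mem' c v hv := ⟨W.smul_mem c hv.1, by rw [Q_smul, hv.2, mul_zero]⟩

namespace OH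

variable (h : OH Q B H)
include h

theorem nonempty : Nonempty ι := Fintype.card_pos_iff.1 (by have := h.seven; omega)

theorem two_le : 2 ≤ Fintype.card ι := by have := h.seven; omega

theorem qs : H ⊔ scalars ι F ≤ quadSimilarityGroup Q :=
  sup_le (h.iso.trans (isoQ_le_qs _)) scalars_le_qs

theorem sim : H ⊔ scalars ι F ≤ similarityGroup (fb B) := h.qs.trans h.qf.qs_le

theorem c5D (hI : Irr H) (h5 : C5D (RingHom.id F) B (H ⊔ scalars ι F)) : OG Q H := by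
  haveI := h.nonempty
  obtain ⟨F₁, r, P, ζ, h1, h2, h3, h4, h5⟩ := h5
  obtain ⟨U, h6, h7, h8⟩ := h.qf.exists_ratU h.qs (fun _ => hI.mono le_sup_left) h.two_le h3 h4 h5
  have h9 : IsQuadFormRationalStructure (fun v => ζ * Q v) F₁ P := fun u hu =>
    Set.mem_of_eq_of_mem (h8 u) (h6.fog (σ := RingHom.id F) (fun _ => rfl) hu hu)
  rcases Nat.even_or_odd (Fintype.card ι) with hn | ⟨m, hm⟩
  · exact ⟨_, .sub F₁ r P ζ h1 h2 h3 h9 (fun h => absurd hn (Nat.not_even_iff_odd.2 h))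
      (by rintro rfl -; exact h.qf.plus_of_ratU hn Fintype.card_pos h2 h3 h6 h7 h8),
      le_sup_left.trans h5⟩
  have h10 := h4.det
  rw [det_smul, gP, det_mul, det_mul, det_transpose, hm,
    show P.1.map (RingHom.id F) = P.1 from rfl] at h10
  have h11 := mul_mem h10 (inv_mem (h.rat ⟨m, hm⟩ F₁))
  have h12 := IsUnit.det_ne h.qf.unit
  refine ⟨_, .sub F₁ r (sc (Units.mk0 _ (mul_ne_zero (pow_ne_zero (m + 1) h3) P.det_ne_zero)) * P) 1
    h1 h2 one_ne_zero (fun u hu => ?_) (fun _ => rfl) (fun _ he => absurd ⟨m, hm⟩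
      (Nat.not_odd_iff_even.2 he)), (le_sup_left.trans h5).trans (subfieldSubgroup_sc _ _ _).ge⟩
  convert mul_mem h11 (h9 u hu) using 1
  simp only [Units.val_mul, sc_val, Units.val_mk0, Matrix.smul_mul, Matrix.one_mul, smul_mulVec,
    Q_smul]
  field_simp
  ring

theorem dec' (hD : IsOrthogonalMDecomposition Q k D) (hle : H ≤ decompositionStabilizer D)
    (h1 : k = 1 → (Fintype.card F).Prime)
    (h2 : k = 2 → Fintype.card F ≠ 3 ∧ ((∀ i, IsPlusTypeOn Q (D i)) → 7 ≤ Fintype.card F))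
    (h3 : k = 3 → 5 ≤ Fintype.card F)
    (h4 : k = 4 → (∀ i, IsPlusTypeOn Q (D i)) → 3 ≤ Fintype.card F) : OG Q H := by
  have hn := IsMDecomposition.card_eq hD.decomp.decomp
  have ht := hD.decomp.decomp.two_le
  have h7 := h.seven
  refine ⟨_, .dec t k D hD ht (Nat.pos_of_ne_zero (by rintro rfl; omega)) hn h1 h2 h3 h4
    (fun hk => ⟨fun hp => (Nat.even_or_odd t).imp_right fun ho => h.qf.plus_block hD hk ho hp,
      fun hp => h.qf.plus_dec hD hk hp.symm⟩) (or_iff_not_imp_right.2 fun hp i => ?_)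
    (fun hk => ?_), hle⟩
  · push Not at hp
    obtain ⟨j, hj⟩ := hp
    exact AreIsometricFor.plus (hD.isometric j i) hj
  · have h5 := h.qf.two_ne_zero ((h.qf.nondegDec hD).nondegenerate ⟨0, by omega⟩)
      (by rwa [hD.decomp.decomp.finrank_eq])
    exact ⟨odd_of_two h5, fun ht => h.qf.plus_iff_dec h5 hD ht⟩

theorem dec_one (hI : Irr H) (hD : IsOrthogonalMDecomposition Q 1 D)
    (hle : H ≤ decompositionStabilizer D) : OG Q H :=
  (h.qf.c5D_one hD h.iso hle).elim (h.c5D hI) fun hp =>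
    h.dec' hD hle (fun _ => hp) (by omega) (by omega) (by omega)

theorem dec_two (hI : Irr H) (hD : IsOrthogonalMDecomposition Q 2 D)
    (hle : H ≤ decompositionStabilizer D) : OG Q H := by
  by_cases hp : ∀ i, IsPlusTypeOn Q (D i)
  · have h1 : ¬ Fintype.card F ≤ 3 := fun h1 => h.qf.not_irr_planes h1 hD hp h.iso hle hI
    by_cases h4 : Fintype.card F = 4
    · exact h.c5D hI (h.qf.c5D_four h4 hD hp h.iso hle)
    by_cases h5 : Fintype.card F = 5
    · obtain ⟨D', h2, h3⟩ := h.qf.refine_five h5 hD hp h.iso hle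
      exact h.dec_one hI h2 h3
    have := card_ne_six (F := F)
    exact h.dec' hD hle (by omega) (fun _ => ⟨by omega, fun _ => by omega⟩) (by omega) (by omega)
  by_cases h3 : Fintype.card F = 3
  · push Not at hp
    obtain ⟨i, hi⟩ := hp
    obtain ⟨D', h2, h3⟩ := h.qf.refine_three_two h3 hD hi h.iso hle
    exact h.dec_one hI h2 h3
  exact h.dec' hD hle (by omega) (fun _ => ⟨h3, fun h => absurd h hp⟩) (by omega) (by omega)

theorem dec (hI : Irr H) (hD : IsOrthogonalMDecomposition Q k D)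
    (hle : H ≤ decompositionStabilizer D) : OG Q H := by
  have ht := hD.decomp.decomp.two_le
  by_cases h1 : k = 1
  · subst h1; exact h.dec_one hI hD hle
  by_cases h2 : k = 2
  · subst h2; exact h.dec_two hI hD hle
  by_cases h3 : k = 3 ∧ Fintype.card F = 3
  · obtain ⟨rfl, h3⟩ := h3
    obtain ⟨D', h2, h3⟩ := h.qf.refine_three_three h3 hD h.iso hle
    exact h.dec_one hI h2 h3
  by_cases h4 : k = 4 ∧ Fintype.card F = 2 ∧ IsPlusTypeOn Q (D ⟨0, by omega⟩)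
  · obtain ⟨rfl, h4, h5⟩ := h4
    obtain ⟨D', h2, h3⟩ := h.qf.refine_four h4 hD h5 h.iso hle
    exact h.dec_two hI h2 h3
  refine h.dec' hD hle (by omega) (by omega) (fun e => five_le_of_ne_three (h.qf.two_ne_zero
    ((h.qf.nondegDec hD).nondegenerate ⟨0, by omega⟩) (by
      rw [hD.decomp.decomp.finrank_eq, e]; decide)) fun e' => h3 ⟨e, e'⟩) fun e hp => ?_
  have := Fintype.one_lt_card (α := F)
  by_contra h5
  exact h4 ⟨e, by omega, hp _⟩

theorem pair (hI : Irr H) {D : Fin 2 → Submodule F (ι → F)} (hD : IsMDecomposition k D)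
    (hs : ∀ i, IsTotallySingularFor (fb B) (D i)) (hle : H ≤ decompositionStabilizer D) :
    OG Q H := by
  have hn := IsMDecomposition.card_eq hD
  have h7 := h.seven
  have h1 : ∀ i, h.qf.sing (hs i) ≤ D i := fun i _ hv => hv.1
  have h2 : ∀ i, ∀ g ∈ H, ∀ v ∈ h.qf.sing (hs i),
      (g : Matrix ι ι F) *ᵥ v ∈ h.qf.sing (hs 0) ⊔ h.qf.sing (hs 1) := fun i g hg v hv => by
    obtain ⟨j, hj⟩ := exists_mem_of_dec (hle hg) i
    have : g.1 *ᵥ v ∈ h.qf.sing (hs j) := ⟨hj v hv.1, (mem_isoQ.1 (h.iso hg) v).trans hv.2⟩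
    fin_cases j
    exacts [Submodule.mem_sup_left this, Submodule.mem_sup_right this]
  have h3 := (hI (h.qf.sing (hs 0) ⊔ h.qf.sing (hs 1)) fun g hg v hv => by
    obtain ⟨a, ha, b, hb, rfl⟩ := Submodule.mem_sup.1 hv
    rw [mulVec_add]; exact add_mem (h2 0 g hg a ha) (h2 1 g hg b hb)).resolve_left fun e => by
      obtain ⟨v, h3, h4, h5⟩ := iso3_quad (Φ := ofQuad Q) rfl (D 0) (by rw [hD.finrank_eq]; omega)
      exact h4 ((eq_bot_iff.1 e) (Submodule.mem_sup_left ⟨h3, h5.2⟩))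
  have h4 := Submodule.finrank_add_le_finrank_add_finrank (h.qf.sing (hs 0)) (h.qf.sing (hs 1))
  rw [h3, finrank_top, finrank_fintype_fun_eq_card] at h4
  have h5 := fun i => (Submodule.finrank_mono (h1 i)).trans_eq (hD.finrank_eq i)
  have h6 : ∀ i, IsTotallySingularQuad Q (D i) := fun i v hv =>
    ((Submodule.eq_of_le_of_finrank_eq (h1 i) (by
      have := h5 0; have := h5 1
      rw [hD.finrank_eq]; fin_cases i <;> simp only [Fin.zero_eta, Fin.mk_one] <;> omega)).ge hv).2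
  exact ⟨_, .pair k D hn hD h6 ⟨D 0, le_top, h6 0, by simp [hD.finrank_eq, hn]⟩, hle⟩

theorem sim' : H ≤ similarityGroup (fb B) := le_sup_left.trans h.sim

theorem line {v : ι → F} (hv : Q v ≠ 0) (hi : InvS H (F ∙ v)) : OG Q H := by
  by_cases ho : Odd (Fintype.card F)
  swap
  · exact ⟨_, .pt v ho hv, hi.le_stab⟩
  have h2 := two_ne_zero_of_odd_card ho
  have h0 : v ≠ 0 := by rintro rfl; exact hv (map_zero _)
  have h7 := h.seven
  have h1 := finrank_span_singleton (K := F) h0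
  have h3 : Disjoint (F ∙ v) (prp (RingHom.id F) B (F ∙ v)) :=
    .symm ((Submodule.disjoint_span_singleton' h0).2 fun e => mul_ne_zero h2 hv
      ((h.qf.two_mul v).trans (e v (Submodule.mem_span_singleton_self v))))
  have h4 : F ∙ v ≠ ⊥ := by simpa
  rcases Nat.even_or_odd (Fintype.card ι) with hn | hn
  · exact ⟨_, .nd _ h4 (ne_top_of_finrank_lt (by omega)) (h.qf.polar ▸ h.qf.fd.nondegOn_iff.2 h3)
      (.inr ⟨hn, .inl (by omega)⟩) (fun _ => ho) (by omega), hi.le_stab⟩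
  have h5 := h.qf.fd.finrank_prp (F ∙ v)
  exact ⟨_, .nd _ (prp_ne_bot (ne_top_of_finrank_lt (by omega))) (h.qf.fd.prp_ne_top h4)
    (h.qf.polar ▸ h.qf.fd.nondegOn_iff.2 (h.qf.fd.disjoint_prp h3))
    (.inl ⟨hn, by grind⟩) (fun _ => ho) (by omega), (hi.prp h.sim').le_stab⟩

theorem nd' (hi : InvS H W) (h0 : W ≠ ⊥) (h1 : W ≠ ⊤) (hW : Disjoint W (prp (RingHom.id F) B W))
    (hd : (Odd (Fintype.card ι) ∧ Even (finrank F W)) ∨ (Even (Fintype.card ι) ∧
      (2 * finrank F W < Fintype.card ι ∨ (2 * finrank F W = Fintype.card ι ∧ Even (finrank F W) ∧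
        ¬ IsPlusTypeOn Q ⊤)))) : OG Q H := by
  have h3 := h.qf.fd.nondegOn_iff.2 hW
  by_cases h2 : finrank F W = 2 → IsPlusTypeOn Q W → 4 ≤ Fintype.card F
  · exact ⟨_, .nd W h0 h1 (h.qf.polar ▸ h3) hd (fun ho => odd_of_two (h.qf.two_ne_zero h3 ho)) h2,
      hi.le_stab⟩
  push Not at h2
  obtain ⟨v, h4, h5, h6, -⟩ := h.qf.plane (by omega) h3 h2.1 h2.2.1
  refine h.line (v := v) (by simp [h5]) fun g hg w hw => ?_
  obtain ⟨c, rfl⟩ := Submodule.mem_span_singleton.1 hw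
  rw [mulVec_smul]
  exact Submodule.smul_mem _ _ (h6 _ (hi g hg v h4) ((mem_isoQ.1 (h.iso hg) v).trans h5))

theorem nd (hi : InvS H W) (h0 : W ≠ ⊥) (h1 : W ≠ ⊤) (hW : Disjoint W (prp (RingHom.id F) B W)) :
    OG Q H := by
  have hF := h.qf.fd
  have h2 := hF.finrank_prp W
  have h3 := h.nd' hi h0 h1 hW
  have h4 := h.nd' (hi.prp h.sim') (prp_ne_bot h1) (hF.prp_ne_top h0) (hF.disjoint_prp hW)
  rcases Nat.even_or_odd (Fintype.card ι) with hn | hn
  swap
  · rcases Nat.even_or_odd (finrank F W) with h5 | h5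
    · exact h3 (.inl ⟨hn, h5⟩)
    · exact h4 (.inl ⟨hn, by grind⟩)
  rcases lt_trichotomy (finrank F W) (finrank F (prp (RingHom.id F) B W)) with h5 | h5 | h5
  · exact h3 (.inr ⟨hn, .inl (by omega)⟩)
  swap
  · exact h4 (.inr ⟨hn, .inl (by omega)⟩)
  have h6 := hF.nondegDec_two h0 hW h5
  have h7 : H ≤ decompositionStabilizer ![W, prp (RingHom.id F) B W] := InvS.le_dec fun i => by
    fin_cases i; exacts [hi, hi.prp h.sim']
  have h8 := h.seven
  by_cases h9 : AreIsometricFor Q W (prp (RingHom.id F) B W)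
  · have h10 : IsOrthogonalMDecomposition Q _ ![W, prp (RingHom.id F) B W] :=
      ⟨by rw [h.qf.polar]; exact h6, fun i j => by
        fin_cases i <;> fin_cases j
        exacts [⟨.refl _ _, fun _ => rfl⟩, h9, AreIsometricFor.symm h9, ⟨.refl _ _, fun _ => rfl⟩]⟩
    exact h.dec' h10 h7 (by omega) (by omega) (by omega) fun e => absurd (h.qf.plus_dec h10
      (by rw [e]; decide) (.inr even_two)) (h.eight (by omega))
  rcases Nat.even_or_odd (finrank F W) with h10 | h10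
  · exact h3 (.inr ⟨hn, .inr ⟨by omega, h10, fun hp => h9 (h.qf.isometric_of_plus h6 h10 hp)⟩⟩)
  · obtain ⟨h11, h12⟩ := h.qf.plus_iff_half h6 h10 h9
    exact ⟨_, .half _ _ h10 (by omega) (h.qf.polar ▸ h6) h9 h11 h12, h7⟩

theorem red (hI : ¬ Irr H) : OG Q H := by
  rcases h.qf.fd.red h.sim' hI with ⟨W, h1, h2, h3, h4⟩ | ⟨W, h1, h2, h3, h4⟩
  swap
  · exact h.nd h4 h1 h2 h3
  rcases h4 (h.qf.sing h2) (fun _ hv => hv.1) (fun g hg v hv =>
    ⟨h3 g hg v hv.1, (mem_isoQ.1 (h.iso hg) v).trans hv.2⟩) with h5 | h5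
  swap
  · exact ⟨_, .ts W h1 fun v hv => (h5.ge hv).2, h3.le_stab⟩
  have h6 : ∀ v ∈ W, Q v = 0 → v = 0 := fun v hv h6 => (eq_bot_iff.1 h5) ⟨hv, h6⟩
  obtain ⟨v, hv, h0⟩ := (Submodule.ne_bot_iff _).1 h1
  have h7 : Q v ≠ 0 := fun e => h0 (h6 v hv e)
  have h8 : (2 : F) = 0 := by
    by_contra h8; exact h7 (h.qf.ts_quad h8 h2 v hv)
  refine h.line h7 fun g hg w hw => ?_
  have h9 := h3 g hg w ((Submodule.span_singleton_le_iff_mem _ _).2 hv hw)
  generalize g.1 *ᵥ w = x at h9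
  haveI : CharP F 2 := CharTwo.of_one_ne_zero_of_two_eq_zero one_ne_zero h8
  obtain ⟨c, hc⟩ := FiniteField.isSquare_of_char_two (ringChar.eq F 2) (Q x / Q v)
  have := h6 _ (add_mem h9 (W.smul_mem c hv)) (by
    rw [h.qf.add, Q_smul, show fb B x _ = 0 from h2 _ h9 _ (W.smul_mem c hv), sq, ← hc, div_mul_cancel₀ _ h7]
    linear_combination Q x * h8)
  rw [eq_neg_of_add_eq_zero_left this]
  exact neg_mem (Submodule.smul_mem _ _ (Submodule.mem_span_singleton_self v))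

theorem imprim (hI : Irr H) {p : Prop}
    (h1 : (∃ (t k : ℕ) (D : Fin t → Submodule F (ι → F)),
      IsNondegenerateMDecomposition (fb B) k D ∧ H ⊔ scalars ι F ≤ decompositionStabilizer D ∧
        TrDec (H ⊔ scalars ι F) D) ∨
    (∃ (k : ℕ) (D : Fin 2 → Submodule F (ι → F)), IsMDecomposition k D ∧
      (∀ i, IsTotallySingularFor (fb B) (D i)) ∧ H ⊔ scalars ι F ≤ decompositionStabilizer D ∧
      ∃ e, e + adj (RingHom.id F) B e = 1 ∧ ∀ g ∈ H ⊔ scalars ι F, cj g e = e ∨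
        cj g e = adj (RingHom.id F) B e) ∨ p) : OG Q H ∨ p := by
  rcases h1 with ⟨t, k, D, h1, h2, h3⟩ | ⟨k, D, h1, h2, h3, -⟩ | h1
  · exact .inl (h.dec hI (h.qf.orthDec h.iso h1 h3) (le_sup_left.trans h2))
  · exact .inl (h.pair hI h1 h2 (le_sup_left.trans h3))
  · exact .inr h1

variable {K C : Subalgebra F (Matrix ι ι F)}

theorem uni (hI : Irr H) (hC : FldD (RingHom.id F) B (H ⊔ scalars ι F) C)
    (h1 : IsFieldSubalgebra 2 C) (h2 : ∀ x ∈ C, adj (RingHom.id F) B x = x → ∃ c : F, x = c • 1) :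
    OG Q H := by
  haveI := h.nonempty
  have hF := h.qf.fd
  have h3 := hC.uni_mul h.qf h.qs (hI.mono le_sup_left) h.two_le h2
  obtain ⟨z, hz, hz'⟩ := hC.ex
  exact ⟨_, .uni C (even_iff_two_dvd.2 (IsFieldSubalgebra.dvd_card h1)) h1
    (h.qf.polar ▸ hF.isAdjointClosedFor hC.ac) (h.qf.polar ▸ fun h4 =>
      hz' (h2 z hz (hF.isSelfAdjointFor_iff.1 h4 z hz))) h3 (h.qf.two_mul_dvd h1 hC.ac h3),
    le_sup_left.trans hC.nrm.le_normalizer⟩

theorem fld' (hI : Irr H) {r : ℕ} (hr : r.Prime) (hK : IsFieldSubalgebra r K)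
    (hN : Nrm (H ⊔ scalars ι F) K) (hs : ∀ k ∈ K, adj (RingHom.id F) B k = k)
    (hp : ∀ k ∈ K, k ^ (Fintype.card F ^ r) = k) (ho : Odd r → 2 * r ≠ Fintype.card ι) :
    OG Q H := by
  haveI := h.nonempty
  have hF := h.qf.fd
  refine ⟨_, .fld r K hr (IsFieldSubalgebra.dvd_card hK) ?_ ho (fun he => ?_) hK
    (h.qf.polar ▸ hF.isSelfAdjointFor_iff.2 hs), le_sup_left.trans hN.le_normalizer⟩
  · rintro rfl
    exact h.qf.not_field_card h.iso h.det hI (hr.odd_of_ne_two (by have := h.seven; omega))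
      h.two_le hK fun g hg => hN g (Subgroup.mem_sup_left hg)
  · exact hF.two_mul_dvd hK (fun k hk => by rwa [hs k hk]) fun k hk => alt_mul_of_selfadj
      (h.qf.alt (two_eq_zero_of_even he)) hF.unit hr.ne_zero (hs k hk) (hp k hk)

theorem fld (hI : Irr H) (hC : FldD (RingHom.id F) B (H ⊔ scalars ι F) C) : OG Q H := by
  haveI := h.nonempty
  have hF := h.qf.fd
  rcases hC.bilin hF h.sim with ⟨r, K, h1, h2, h3, h4, h5⟩ | ⟨h1, h3⟩
  swap
  · exact h.uni hI hC h1 h3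
  by_cases ho : Odd r → 2 * r ≠ Fintype.card ι
  · exact h.fld' hI h1 h2 h3 h4 h5 ho
  push Not at ho
  obtain ⟨C', h6, h7, h8, h9⟩ := h.qf.exists_comm h.qs h2 ho.2.symm h1.pos h3 h4
  refine (h.imprim hI (hF.imprim (hI.mono le_sup_left) h.sim h7 h8 h9)).elim id fun h10 => ?_
  obtain ⟨z, hz, hz'⟩ := SetLike.exists_of_lt h6
  have h11 : FldD (RingHom.id F) B (H ⊔ scalars ι F) C' :=
    ⟨h7, h8, h9, h10, z, hz, fun ⟨c, hc⟩ => hz' (hc ▸ K.smul_mem (one_mem _) c)⟩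
  have h12 : IsFieldSubalgebra _ C' := ⟨h9, h10, rfl⟩
  obtain ⟨a, ha⟩ := IsFieldSubalgebra.dvd_card h12
  have h13 : r < finrank F C' := h2.finrank_eq ▸ Submodule.finrank_lt_finrank_of_lt
    (s := K.toSubmodule) (t := C'.toSubmodule) h6
  obtain rfl : a = 1 := by
    have := h.seven
    rcases a with _ | _ | a
    · omega
    · rfl
    · nlinarith
  obtain ⟨L, h14, h15, h16, h17, h18⟩ := h11.sub hF (d := 2) ⟨r, by omega⟩
  rcases sa_two hF h14 with h19 | h19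
  · exact h.fld' hI Nat.prime_two h14 h15 h19 h18 fun e => absurd e (by decide)
  refine h.uni hI ⟨h16, h15, h14.comm, h14.inv, ?_⟩ h14 h19
  by_contra! h20
  have : L = ⊥ := eq_bot_iff.2 fun x hx => by
    obtain ⟨c, rfl⟩ := h20 x hx; exact Subalgebra.smul_mem _ (one_mem _) _
  have h21 := h14.finrank_eq
  rw [this, Subalgebra.finrank_bot] at h21
  omega

theorem tenA (hG : PG (RingHom.id F) B (H ⊔ scalars ι F)) {m : ℕ} {e : ι ≃ Fin 2 × Fin m}
    {P : GL ι F} {B₁ B₂} {ε₁ ε₂ : F} (hT : TenF (RingHom.id F) B (H ⊔ scalars ι F) e P B₁ B₂ ε₁ ε₂)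
    (h1 : Alt B₁) (h2 : Alt B₂) : OG Q H := by
  have hn : Fintype.card ι = 2 * m := by simpa using Fintype.card_congr e
  haveI : Nonempty (Fin m) := ⟨⟨0, by have := h.seven; omega⟩⟩
  refine ⟨_, .tenA m e P _ _ ?_ hn (by simpa using h2.even_card hT.fd₂.unit)
    (hT.plus h.qf h.qs hG.irr h.two_le h1 h2) (h1.isSymplecticForm hT.fd₁.unit)
    (h2.isSymplecticForm hT.fd₂.unit) ⟨1 * 1, by simp, h.qf.polar ▸ hT.tensorForm
      (one_smul _ _).symm (one_smul _ _).symm⟩ (hT.pure h.qf h.qs hG.irr h.two_le h1 h2),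
    le_sup_left.trans hT.le_tensor⟩
  by_contra h3
  have h4 : Fintype.card F = 2 := by have := Fintype.one_lt_card (α := F); omega
  exact (hT.pgL h.qf.fd hG).not_noP hT.fd₁ (by simpa using Nat.prime_two)
    (by rw [Fintype.card_fin]; exact cast_eq_zero_of_card (k := 1) h4) (noP_GL2 (by omega) _)

theorem tenS (hG : PG (RingHom.id F) B (H ⊔ scalars ι F)) (h2 : (2 : F) ≠ 0) {d m : ℕ}
    {e : ι ≃ Fin d × Fin m} {P : GL ι F} {B₁ B₂}
    (hT : TenF (RingHom.id F) B (H ⊔ scalars ι F) e P B₁ B₂ 1 1) (hd : 2 ≤ d) (hm : d ≤ m) :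
    OG Q H := by
  have hn : Fintype.card ι = d * m := by simpa using Fintype.card_congr e
  have hF := h.qf.fd
  haveI : Nonempty (Fin d) := ⟨⟨0, by omega⟩⟩
  haveI : Nonempty (Fin m) := ⟨⟨0, by omega⟩⟩
  have h1 : 3 ≤ d := hd.lt_of_ne (by rintro rfl; exact PG.not_O2 hT.fd₁ h2 (hT.pgL hF hG))
  have h3 : d = 3 → Fintype.card F ≠ 3 := fun e h3 => (hT.pgL hF hG).not_O3 hT.fd₁ h3 (by simpa)
  rcases hm.eq_or_lt with rfl | hm
  · obtain ⟨P', h4, h5⟩ := hT.exists_power h2 (Nat.not_even_iff_odd.1 fun he => by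
      have := h.small (hn ▸ he.mul_right _)
      obtain ⟨a, rfl⟩ := he
      have : 2 ≤ a := by omega
      nlinarith)
    exact ⟨_, .wr d 2 _ P' _ (odd_of_two h2) (by rw [hn, sq]) h1 le_rfl (fun e => h3 e.2 e.1)
      hT.fd₁.symmForm (h.qf.polar ▸ h4), le_sup_left.trans h5⟩
  by_cases h4 : m = 4 → ¬ IsPlusTypeOn (fun v => fb B₂ v v) ⊤
  · exact ⟨_, .tenS d m e P _ _ (odd_of_two h2) hn h1 hm (fun e => five_le_of_ne_three h2 (h3 e))
      (fun e => ⟨h4 e, fun hp => h4 e (hT.plus_iff h.qf h2 (by simp; omega) (by simpa) hp)⟩)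
      hT.fd₁.symmForm hT.fd₂.symmForm ⟨1 * 1, by simp, h.qf.polar ▸ hT.tensorForm
        (one_smul _ _).symm (one_smul _ _).symm⟩, le_sup_left.trans hT.le_tensor⟩
  push Not at h4
  obtain ⟨rfl, h4⟩ := h4
  obtain rfl : d = 3 := by omega
  obtain ⟨e', P', h5⟩ := hT.o4 h2 (by simp) h4
  obtain ⟨e'', h6⟩ := h5.reassoc hF hG h2 (by simp) fun g hg c hc => by
    haveI := h.nonempty
    obtain ⟨s, hs, z, hz, rfl⟩ := cen_scalars.mem_sup.1 hg
    obtain ⟨z, rfl⟩ := exists_sc hz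
    rw [← sc_comm] at hc ⊢
    rw [hc.unique hF.unit ((mul_of_Iso (h.qf.isoQ_le (h.iso hs))).sc z), Units.val_mul, det_mul,
      h.det s hs, sc_val, det_smul, hn]
    simp; ring
  have h7 := h6.reindex (Fintype.equivOfCardEq (β := Fin 6) (by simp))
  exact h.tenA hG h7 alt_J2 (h7.fd₂.alt h2)

theorem ten (hG : PG (RingHom.id F) B (H ⊔ scalars ι F)) {d m : ℕ} {e : ι ≃ Fin d × Fin m}
    {P : GL ι F} {B₁ B₂} {ε₁ ε₂ : F} (hT : TenF (RingHom.id F) B (H ⊔ scalars ι F) e P B₁ B₂ ε₁ ε₂)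
    (hd : 2 ≤ d) (hm : 2 ≤ m) : OG Q H := by
  have hn : Fintype.card ι = d * m := by simpa using Fintype.card_congr e
  have hF := h.qf.fd
  haveI : Nonempty (Fin d) := ⟨⟨0, by omega⟩⟩
  haveI : Nonempty (Fin m) := ⟨⟨0, by omega⟩⟩
  have key : Alt B₁ → Alt B₂ → OG Q H := fun h1 h2 => by
    obtain ⟨a, ha⟩ := h1.even_card hT.fd₁.unit
    obtain ⟨b, hb⟩ := h2.even_card hT.fd₂.unit
    rw [Fintype.card_fin] at ha hb
    have h3 := h.small (hn ▸ Even.mul_right ⟨a, ha⟩ _)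
    by_cases h4 : d = 2
    · subst h4; exact h.tenA hG hT h1 h2
    obtain rfl : m = 2 := by
      by_contra h5
      have : 4 ≤ d := by omega
      have : 4 ≤ m := by omega
      nlinarith
    exact h.tenA hG hT.swap h2 h1
  by_cases h2 : (2 : F) = 0
  · exact key ((hT.pgL hF hG).alt_of_two hT.fd₁ (by simpa) h2)
      ((hT.pgR hF hG).alt_of_two hT.fd₂ (by simpa) h2)
  have := hT.eps_mul hF
  rcases hT.fd₁.eps_or with rfl | rfl
  · obtain rfl : ε₂ = 1 := by simpa using this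
    rcases le_total d m with h3 | h3
    exacts [h.tenS hG h2 hT hd h3, h.tenS hG h2 hT.swap hm h3]
  · obtain rfl : ε₂ = -1 := by linear_combination -this
    exact key (hT.fd₁.alt h2) (hT.fd₂.alt h2)

theorem wr (hI : Irr (H ⊔ scalars ι F)) {e : ι ≃ (Fin t → Fin k)} {P : GL ι F}
    (hW : WrD (H ⊔ scalars ι F) e P) : OG Q H := by
  have hn : Fintype.card ι = k ^ t := by simpa using Fintype.card_congr e
  have hF := h.qf.fd
  have hk := hW.two_k
  have ht := hW.two_t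
  have h7 := h.seven
  haveI : Nonempty (Fin k) := ⟨⟨0, by omega⟩⟩
  obtain ⟨B₁, ε₁, c, h1⟩ := hW.wrF hF h.sim
  have key : Alt B₁ → k = 2 ∧ t = 3 := fun hA => by
    have h2 : Even k := by simpa using hA.even_card h1.fd.unit
    have h3 := h.small (hn ▸ (Nat.even_pow' (by omega)).2 h2)
    refine wreath_small' hk (ht.lt_of_ne ?_) hn h3
    rintro rfl
    obtain ⟨a, rfl⟩ := h2
    rcases (show a = 1 ∨ 2 ≤ a by omega) with rfl | h4
    · omega
    · nlinarith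
  by_cases h2 : (2 : F) = 0
  · have hA : Alt B₁ := by
      obtain ⟨T, h3, -, h4⟩ := h1.perf
      refine h4.irr.alt_of_two (by simpa) h2 ?_ (h3.trans (Iso_le_sim _))
      rcases h1.fd.eps_or with rfl | rfl
      · simpa using h1.fd.transpose
      · rw [h1.fd.transpose, neg_eq_of_two h2, one_smul]
    obtain ⟨rfl, rfl⟩ := key hA
    exact (h.eight hn (h1.plus hW h.qf h.qs hI h2 hA)).elim
  rcases h1.fd.eps_or with rfl | rfl
  · exact ⟨_, .wr k t e P _ (odd_of_two h2) hn (hk.lt_of_ne (by rintro rfl; exact h2 h1.not_O2)) ht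
      (fun e => h1.not_noP (by simpa) (noP_O3 h1.fd.unit (by simpa using h1.fd.transpose) e.1
        (by simpa using e.2))) h1.fd.symmForm
      (h.qf.polar ▸ h1.powerForm one_ne_zero (one_smul _ _).symm), le_sup_left.trans hW.le_wreath⟩
  obtain ⟨rfl, rfl⟩ := key (h1.fd.alt h2)
  exact (h2 (by linear_combination -h1.eps hF)).elim

/-- Aschbacher's theorem, orthogonal case. -/
theorem main : OG Q H ∨ InOrthogonalResidualClass H := by
  haveI := h.nonempty
  have hF := h.qf.fd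
  by_cases hI : Irr H
  swap
  · exact .inl (h.red hI)
  have hI' := hI.mono (le_sup_left (b := scalars ι F))
  rcases h.imprim hI (hF.level1 le_sup_right h.sim hI') with h1 | ⟨C, hC⟩ | hP
  · exact .inl h1
  · exact .inl (h.fld hI hC)
  rcases hP.core hF h.two_le with ⟨d, m, e, P, N, hT⟩ | ⟨N, h1, h2, h3⟩ | ⟨P, hQ⟩ | ⟨k, t, e, P, hW⟩
  · obtain ⟨B₁, B₂, ε₁, ε₂, h1⟩ := hT.tenF hF h.sim
    exact .inl (h.ten hP h1 hT.two_d hT.two_m)
  · obtain ⟨r, R, h4⟩ := h2.extD hF.unit h.sim h1 h3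
    obtain ⟨R, h4⟩ := h4.extI hF hP h.two_le
    obtain ⟨k, h5, -⟩ := h4.card hF.unit
    have h7 := h.seven
    have h6 := h.small (h5 ▸ (Nat.even_pow' (by rintro rfl; omega)).2 even_two)
    have h8 : Fintype.card ι = 8 := by
      have : k < 4 := (Nat.pow_lt_pow_iff_right one_lt_two).1 (by omega)
      interval_cases k <;> omega
    exact (h.eight h8 (h4.plus h.qf h8)).elim
  · by_cases h5 : C5D (RingHom.id F) B (H ⊔ scalars ι F)
    · exact .inl (h.c5D hI h5)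
    exact .inr ⟨P, hQ.core (hQ.not_rat hF h.sim h5), hQ.not_unitary hF h.sim h5⟩
  · exact .inl (h.wr hI' hW)

end OH

end H23.As
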