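import Cfsg.Agent.H23.As29

/-!
Aschbacher's theorem, part 30: maximal subgroups of orthogonal groups.
-/

set_option autoImplicit false

namespace H23.As

open Matrix Module Cfsg Cfsg.Geo H23.Form
open scoped MatrixGroups commutatorElement Kronecker

variable {ι : Type} [Fintype ι] [DecidableEq ι] {F : Type*} [Field F] [Fintype F]
variable {Q : (ι → F) → F} {H : Subgroup (GL ι F)}

theorem orC_or_residual (hQ : IsNondegenerateQuadraticForm Q) (hH : H ≤ omegaGL Q)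
    (h7 : 7 ≤ Fintype.card ι) (h15 : Even (Fintype.card ι) → Fintype.card ι ≤ 15)
    (h8 : Fintype.card ι = 8 → ¬ IsPlusTypeOn Q ⊤)
    (hr : Odd (Fintype.card ι) → ∀ F₁ : Subfield F, ∀ u, (∀ i, u i ∈ F₁) → Q u ∈ F₁) :
    OG Q H ∨ InOrthogonalResidualClass H := by
  obtain ⟨Q, B, rfl, h⟩ := exists_QF hQ
  refine OH.main ⟨h, hH.trans (omegaGL_le _), fun g hg => det_of_omegaGL (hH hg), h7, h15, h8,
    fun ho F₁ => Rat.det fun i j => ?_⟩
  have h1 : ∀ i j, (Pi.single i 1 : ι → F) j ∈ F₁ := fun i j => by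
    rw [Pi.single_apply]; split_ifs
    exacts [one_mem _, zero_mem _]
  rw [← fog_single (σ := RingHom.id F) B, ← show _ = formOfGram _ B from h.polar]
  exact sub_mem (sub_mem (hr ho F₁ _ fun k => add_mem (h1 i k) (h1 j k)) (hr ho F₁ _ (h1 i)))
    (hr ho F₁ _ (h1 j))

theorem OrC.not_le (hQ : IsNondegenerateQuadraticForm Q) (h7 : 7 ≤ Fintype.card ι)
    (hn : Fintype.card ι ≤ 15) {M : Subgroup (GL ι F)} (hM : OrC Q M) : ¬ omegaGL Q ≤ M := by
  obtain ⟨Q, B, rfl, hB⟩ := exists_QF hQ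
  have h := amb_omega hB.nondeg (by omega)
  haveI := h.nonempty
  cases hM with
  | ts W h0 h1 => exact h.not_le_stab h0 (FD.ne_top_of_ts hB.unit (hB.ts_for h1))
  | pt v _ h1 =>
    have h0 : v ≠ 0 := by rintro rfl; exact h1 (map_zero _)
    exact h.not_le_stab (by simpa) (ne_top_of_finrank_lt (by rw [finrank_span_singleton h0]; omega))
  | nd W h0 h1 => exact h.not_le_stab h0 h1
  | half k D _ _ h1 => exact h.not_le_dec h1.decomp
  | dec t k D h1 => exact h.not_le_dec h1.decomp.decomp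
  | pair k D _ h1 => exact h.not_le_dec h1
  | fld r K h0 _ _ _ _ h1 => exact h.not_le_field h1 h0.ne_one
  | uni K _ h1 => exact h.not_le_field h1 (by decide)
  | tenS a b e P _ _ _ _ ha hb => exact h.not_le_tensor (by omega) (by omega) e P
  | tenA b e P => exact h.not_le_tensor le_rfl (by omega) e P
  | sub F₀ r P ζ h0 h1 => exact h.not_le_subfield (ne_top_of_card h0 h1) P
  | wr k t e P _ _ h0 hk ht =>
    obtain ⟨rfl, rfl⟩ := wreath_small hk ht h0 hn
    exact h.not_le_wreath (by omega) (by omega) (by omega) e P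

theorem orC_max (hQ : IsNondegenerateQuadraticForm Q) (hH : IsMaximalIn (omegaGL Q) H)
    (h7 : 7 ≤ Fintype.card ι) (h15 : Fintype.card ι ≤ 15)
    (h8 : Fintype.card ι = 8 → ¬ IsPlusTypeOn Q ⊤)
    (hr : Odd (Fintype.card ι) → ∀ F₁ : Subfield F, ∀ u, (∀ i, u i ∈ F₁) → Q u ∈ F₁) :
    (∃ M, OrC Q M ∧ H = M ⊓ omegaGL Q) ∨ InOrthogonalResidualClass H :=
  (orC_or_residual hQ hH.1.le h7 (fun _ => h15) h8 hr).imp_left fun ⟨M, h1, h2⟩ =>
    ⟨M, h1, IsMaximalIn.eq_inf hH h2 (h1.not_le hQ h7 h15)⟩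

theorem IsMaximalIn.not_between {Γ : Type*} [Group Γ] {S H : Subgroup Γ} (h : IsMaximalIn S H) :
    ¬ ∃ K, H < K ∧ K < S := fun ⟨K, h1, h2⟩ => (h.2 K h1.le h2.le).elim h1.ne' h2.ne

theorem ts_ne_of_max (hQ : IsNondegenerateQuadraticForm Q) (h5 : 5 ≤ Fintype.card ι)
    (hp : IsPlusTypeOn Q ⊤) {W : Submodule F (ι → F)} (hW : IsTotallySingularQuad Q W)
    (h : IsMaximalIn (omegaGL Q) (subspaceStabilizer W ⊓ omegaGL Q)) :
    2 * (finrank F W + 1) ≠ Fintype.card ι := fun hd => by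
  obtain ⟨Q, rfl, hΦ⟩ := exists_quad hQ
  exact IsMaximalIn.not_between h (exists_between_stab_of_E (fun _ => mem_omegaGL_iff_E hΦ h5)
    (exists_between_totSing hΦ rfl (by simpa) (totSing_ofQuad.2 hW) (by simpa using hd)
      (isPlusTypeOn_top_iff.1 hp)))

theorem pair_even_of_max (hQ : IsNondegenerateQuadraticForm Q) (h5 : 5 ≤ Fintype.card ι) {k : ℕ}
    {D : Fin 2 → Submodule F (ι → F)} (hD : IsMDecomposition k D)
    (hs : ∀ i, IsTotallySingularQuad Q (D i))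
    (h : IsMaximalIn (omegaGL Q) (decompositionStabilizer D ⊓ omegaGL Q)) : ¬ Odd k := fun hk => by
  obtain ⟨Q, rfl, hΦ⟩ := exists_quad hQ
  exact IsMaximalIn.not_between h (exists_between_dec_of_E (fun _ => mem_omegaGL_iff_E hΦ h5)
    (exists_between_tsPair hΦ rfl (by simpa) (totSing_ofQuad.2 (hs 0)) (totSing_ofQuad.2 (hs 1))
      (isCompl_of_isMDecomposition hD) (by rwa [hD.finrank_eq])))

omit [Fintype F] in
theorem isNondeg_of_quad {Q : QuadraticForm F (ι → F)} (h : (ofQuad Q).Nondeg) :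
    IsNondegenerateQuadraticForm Q := by
  have h1 : ∀ v : ι → F, v ≠ 0 → ∃ x, QuadraticMap.polar Q v x ≠ 0 := fun v hv => by
    by_contra! h1; exact hv (h v h1)
  exact ⟨Q_smul, ⟨Q.polar_add_left, Q.polar_smul_left, Q.polar_add_right, Q.polar_smul_right⟩,
    fun v hv => ⟨(h1 v hv).imp fun x hx => by rwa [QuadraticMap.polar_comm], h1 v hv⟩⟩

theorem isNondeg_odd (ho : Odd (Fintype.card F)) (m : ℕ) :
    IsNondegenerateQuadraticForm (quadFormOdd m F) :=
  isNondeg_of_quad (H22.qOdd_nondeg (two_ne_zero_of_odd_card ho) m)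

omit [Fintype F] in
theorem quadFormOdd_mem (m : ℕ) (F₁ : Subfield F) (u : Unit ⊕ (Fin m ⊕ Fin m) → F)
    (h : ∀ i, u i ∈ F₁) : quadFormOdd m F u ∈ F₁ :=
  add_mem (pow_mem (h _) _) (sum_mem fun _ _ => mul_mem (h _) (h _))

theorem card_odd_index (m : ℕ) : Fintype.card (Unit ⊕ (Fin m ⊕ Fin m)) = 2 * m + 1 := by
  simp; ring

theorem orC_odd (ho : Odd (Fintype.card F)) {m : ℕ} (hm : 3 ≤ m)
    {H : Subgroup (GL (Unit ⊕ (Fin m ⊕ Fin m)) F)} (hH : H ≤ omegaGL (quadFormOdd m F)) :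
    OG (quadFormOdd m F) H ∨ InOrthogonalResidualClass H :=
  have := card_odd_index m
  orC_or_residual (isNondeg_odd ho m) hH (by omega) (fun h => by grind) (by omega)
    fun _ => quadFormOdd_mem m

theorem orC_odd_max (ho : Odd (Fintype.card F)) {m : ℕ} (hm : 3 ≤ m) (hm' : m ≤ 7)
    {H : Subgroup (GL (Unit ⊕ (Fin m ⊕ Fin m)) F)}
    (hH : IsMaximalIn (omegaGL (quadFormOdd m F)) H) :
    (∃ M, OrC (quadFormOdd m F) M ∧ H = M ⊓ omegaGL (quadFormOdd m F)) ∨
      InOrthogonalResidualClass H :=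
  have := card_odd_index m
  orC_max (isNondeg_odd ho m) hH (by omega) (by omega) (by omega) fun _ => quadFormOdd_mem m

theorem orC_even_max {n : ℕ} {Q : (Fin n → F) → F} (hQ : IsNondegenerateQuadraticForm Q)
    {H : Subgroup (GL (Fin n) F)} (hH : IsMaximalIn (omegaGL Q) H) (h7 : 7 ≤ n) (h15 : n ≤ 15)
    (he : Even n) (h8 : n = 8 → ¬ IsPlusTypeOn Q ⊤) :
    (∃ M, OrC Q M ∧ H = M ⊓ omegaGL Q) ∨ InOrthogonalResidualClass H :=
  orC_max hQ hH (by simpa) (by simpa) (by simpa) fun h => by grind [Fintype.card_fin]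

end H23.As
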