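import Cfsg.Agent.H23.As4

/-!
Aschbacher's theorem, part 5: minimal normal subgroups modulo a central subgroup.
-/

set_option autoImplicit false

namespace H23.As

open scoped commutatorElement

variable {Γ : Type*} [Group Γ]

/-- Conjugate subgroup. -/
def cg (g : Γ) (T : Subgroup Γ) : Subgroup Γ := T.map (MulAut.conj g).toMonoidHom

theorem mem_cg {g x : Γ} {T : Subgroup Γ} : x ∈ cg g T ↔ g⁻¹ * x * g ∈ T := by
  constructor
  · rintro ⟨y, hy, rfl⟩; simpa [mul_assoc] using hy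
  · intro h; exact ⟨_, h, by simp [mul_assoc]⟩

theorem conj_mem_cg {g x : Γ} {T : Subgroup Γ} (h : x ∈ T) : g * x * g⁻¹ ∈ cg g T := ⟨x, h, rfl⟩

theorem cg_mul (g h : Γ) (T : Subgroup Γ) : cg (g * h) T = cg g (cg h T) := by
  ext x; simp [mem_cg, mul_assoc]

@[simp] theorem cg_one (T : Subgroup Γ) : cg 1 T = T := by ext x; simp [mem_cg]

theorem cg_mono {g : Γ} {T T' : Subgroup Γ} (h : T ≤ T') : cg g T ≤ cg g T' := Subgroup.map_mono h

theorem NG.cg_eq {G S : Subgroup Γ} (h : NG G S) {g : Γ} (hg : g ∈ G) : cg g S = S := by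
  ext x
  rw [mem_cg]
  refine ⟨fun hx => ?_, fun hx => by simpa using h _ (inv_mem hg) _ hx⟩
  simpa [mul_assoc] using h _ hg _ hx

theorem NG.commutator {G S : Subgroup Γ} (h : NG G S) : NG G ⁅S, S⁆ := by
  intro g hg x hx
  have : cg g ⁅S, S⁆ = ⁅S, S⁆ := by
    rw [cg, Subgroup.map_commutator]; exact congrArg₂ _ (h.cg_eq hg) (h.cg_eq hg)
  exact this ▸ conj_mem_cg hx

variable {Z : Subgroup Γ}

/-- `Z` is central. -/
def Cen (Z : Subgroup Γ) : Prop := ∀ z ∈ Z, ∀ g, z * g = g * z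

theorem Cen.normal (h : Cen Z) : Z.Normal :=
  ⟨fun z hz g => by rw [← h z hz, mul_inv_cancel_right]; exact hz⟩

theorem Cen.mem_sup (h : Cen Z) {S : Subgroup Γ} {x : Γ} :
    x ∈ S ⊔ Z ↔ ∃ s ∈ S, ∃ z ∈ Z, s * z = x :=
  haveI := h.normal
  Subgroup.mem_sup_of_normal_right

theorem Cen.ng (h : Cen Z) (G : Subgroup Γ) : NG G Z := fun g _ z hz => h.normal.conj_mem z hz g

theorem Cen.ng' (h : Cen Z) (S : Subgroup Γ) : NG Z S := fun z hz x hx => by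
  rw [h z hz, mul_inv_cancel_right]; exact hx

theorem NG.sup_left {G G' S : Subgroup Γ} (h : NG G S) (h' : NG G' S) : NG (G ⊔ G') S :=
  (ng_normalizer S).mono (sup_le h.le_normalizer h'.le_normalizer)

theorem Cen.ng_sup (h : Cen Z) {G S : Subgroup Γ} (hS : NG G S) : NG G (S ⊔ Z) := by
  intro g hg x hx
  obtain ⟨s, hs, z, hz, rfl⟩ := h.mem_sup.1 hx
  refine h.mem_sup.2 ⟨_, hS g hg s hs, z, hz, ?_⟩
  rw [mul_assoc _ _ z, ← h z hz]; simp only [mul_assoc]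

theorem Cen.commutatorElement_mul (h : Cen Z) {z z' : Γ} (hz : z ∈ Z) (hz' : z' ∈ Z) (a b : Γ) :
    ⁅a * z, b * z'⁆ = ⁅a, b⁆ := by
  simp only [commutatorElement_def, mul_inv_rev]
  have h1 := h z hz
  have h2 := h z' hz'
  have h3 := h _ (inv_mem hz)
  have h4 := h _ (inv_mem hz')
  calc a * z * (b * z') * (z⁻¹ * a⁻¹) * (z'⁻¹ * b⁻¹)
      = a * (z * (b * z')) * z⁻¹ * a⁻¹ * z'⁻¹ * b⁻¹ := by simp only [mul_assoc]
    _ = a * b * (z' * a⁻¹) * z'⁻¹ * b⁻¹ := by rw [h1]; simp only [mul_assoc, mul_inv_cancel_left]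
    _ = _ := by rw [h2]; simp only [mul_assoc, mul_inv_cancel_left]

theorem Cen.commutator_sup_le (h : Cen Z) (S : Subgroup Γ) : ⁅S ⊔ Z, S ⊔ Z⁆ ≤ ⁅S, S⁆ := by
  rw [Subgroup.commutator_le]
  intro x hx y hy
  obtain ⟨s, hs, z, hz, rfl⟩ := h.mem_sup.1 hx
  obtain ⟨s', hs', z', hz', rfl⟩ := h.mem_sup.1 hy
  rw [h.commutatorElement_mul hz hz']
  exact Subgroup.commutator_mem_commutator hs hs'

theorem Cen.comm_of_commutator (h : Cen Z) {T : Subgroup Γ} {y : Γ} (hy : ∀ x ∈ T, ⁅y, x⁆ ∈ Z) :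
    ∀ x ∈ ⁅T, T⁆, x * y = y * x := by
  have : ⁅T, T⁆ ≤ Subgroup.centralizer {y} := by
    rw [Subgroup.commutator_le]
    intro a ha b hb
    rw [Subgroup.mem_centralizer_singleton_iff]
    have h1 : ∀ x ∈ T, y * x * y⁻¹ = x * ⁅y, x⁆ := fun x hx => by
      rw [← h _ (hy x hx), commutatorElement_def]; group
    have h2 : y * ⁅a, b⁆ * y⁻¹ = ⁅a, b⁆ := by
      rw [conjugate_commutatorElement, h1 a ha, h1 b hb, h.commutatorElement_mul (hy a ha) (hy b hb)]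
    conv_lhs => rw [← h2]
    group
  intro x hx
  exact Subgroup.mem_centralizer_singleton_iff.1 (this hx)

/-- `N / Z` is a minimal `G`-invariant subgroup. -/
structure MinN (Z G N : Subgroup Γ) : Prop where
  lt : Z < N
  ng : NG G N
  min : ∀ N', Z ≤ N' → N' ≤ N → NG G N' → N' = Z ∨ N' = N

theorem exists_minN [Finite Γ] {G N₀ : Subgroup Γ} (h : Z < N₀) (hN : NG G N₀) :
    ∃ N ≤ N₀, MinN Z G N := by
  obtain ⟨N, hN, hmin⟩ := (wellFounded_lt (α := Subgroup Γ)).has_min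
    {N | N ≤ N₀ ∧ Z < N ∧ NG G N} ⟨N₀, le_rfl, h, hN⟩
  refine ⟨N, hN.1, hN.2.1, hN.2.2, fun N' h1 h2 h3 => ?_⟩
  by_contra! hc
  exact hmin N' ⟨h2.trans hN.1, lt_of_le_of_ne h1 hc.1.symm, h3⟩ (lt_of_le_of_ne h2 hc.2)

theorem MinN.dichotomy (hZ : Cen Z) {G N : Subgroup Γ} (h : MinN Z G N) :
    (∀ x ∈ N, ∀ y ∈ N, ⁅x, y⁆ ∈ Z) ∨ N = ⁅N, N⁆ ⊔ Z := by
  rcases h.min (⁅N, N⁆ ⊔ Z) le_sup_right (sup_le (Subgroup.commutator_le_self N) h.lt.le)
    (hZ.ng_sup h.ng.commutator) with h1 | h1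
  · left
    intro x hx y hy
    rw [← h1]
    exact Subgroup.mem_sup_left (Subgroup.commutator_mem_commutator hx hy)
  · exact Or.inr h1.symm

theorem MinN.exists_prime [Finite Γ] (hZ : Cen Z) {G N : Subgroup Γ} (h : MinN Z G N)
    (hc : ∀ x ∈ N, ∀ y ∈ N, ⁅x, y⁆ ∈ Z) : ∃ r : ℕ, r.Prime ∧ ∀ x ∈ N, x ^ r ∈ Z := by
  haveI := hZ.normal
  obtain ⟨x, hx, hxZ⟩ := SetLike.exists_of_lt h.lt
  have h1 : orderOf (x : Γ ⧸ Z) ≠ 1 := by
    rwa [Ne, orderOf_eq_one_iff, QuotientGroup.eq_one_iff]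
  obtain ⟨r, hr, c, hc'⟩ := Nat.exists_prime_and_dvd h1
  let N' : Subgroup Γ :=
    { carrier := {x | x ∈ N ∧ x ^ r ∈ Z}
      mul_mem' := fun {a b} ha hb => ⟨mul_mem ha.1 hb.1, by
        have : Commute (a : Γ ⧸ Z) (b : Γ ⧸ Z) := by
          rw [← commutatorElement_eq_one_iff_commute]
          exact (QuotientGroup.eq_one_iff _).2 (hc a ha.1 b hb.1)
        rw [← QuotientGroup.eq_one_iff, QuotientGroup.mk_pow, QuotientGroup.mk_mul, this.mul_pow,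
          ← QuotientGroup.mk_pow, ← QuotientGroup.mk_pow, (QuotientGroup.eq_one_iff _).2 ha.2,
          (QuotientGroup.eq_one_iff _).2 hb.2, one_mul]⟩
      one_mem' := ⟨one_mem _, by simp⟩
      inv_mem' := fun ha => ⟨inv_mem ha.1, by rw [inv_pow]; exact inv_mem ha.2⟩ }
  refine ⟨r, hr, ?_⟩
  rcases h.min N' (fun z hz => ⟨h.lt.le hz, pow_mem hz r⟩) (fun z hz => hz.1)
    (fun g hg y hy => ⟨h.ng g hg y hy.1, by rw [conj_pow]; exact hZ.ng G g hg _ hy.2⟩) with h2 | h2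
  · exfalso
    have h3 : x ^ c ∈ N' := ⟨pow_mem hx c, by
      rw [← pow_mul, mul_comm, ← hc', ← QuotientGroup.eq_one_iff, QuotientGroup.mk_pow,
        pow_orderOf_eq_one]⟩
    rw [h2, ← QuotientGroup.eq_one_iff, QuotientGroup.mk_pow, ← orderOf_dvd_iff_pow_eq_one, hc'] at h3
    have h4 : 0 < r * c := hc' ▸ orderOf_pos _
    have := Nat.le_of_dvd (Nat.pos_of_mul_pos_left h4) h3
    have := hr.two_le
    nlinarith [Nat.pos_of_mul_pos_left h4]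
  · intro y hy
    exact (show y ∈ N' from h2 ▸ hy).2

theorem MinN.cg {G N T : Subgroup Γ} (hZ : Cen Z) (h : MinN Z N T) (hN : NG G N) {g : Γ}
    (hg : g ∈ G) : MinN Z N (cg g T) := by
  have hZ' : ∀ g, As.cg g Z = Z := fun g => (hZ.ng ⊤).cg_eq (Subgroup.mem_top g)
  have hng : ∀ {g : Γ}, g ∈ G → ∀ {T : Subgroup Γ}, NG N T → NG N (As.cg g T) := by
    intro g hg T hT n hn x hx
    rw [mem_cg] at hx ⊢
    have := hT _ (hN _ (inv_mem hg) _ hn) _ hx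
    simpa [mul_assoc] using this
  refine ⟨lt_of_le_of_ne (hZ' g ▸ cg_mono h.lt.le) fun h1 => h.lt.ne ?_, hng hg h.ng,
    fun N' h1 h2 h3 => ?_⟩
  · rw [← hZ' g⁻¹, h1, ← cg_mul, inv_mul_cancel, cg_one]
  · rcases h.min (As.cg g⁻¹ N') (hZ' g⁻¹ ▸ cg_mono h1)
      (by simpa [← cg_mul] using cg_mono (g := g⁻¹) h2) (hng (inv_mem hg) h3) with h4 | h4
    · left; rw [← hZ' g, ← h4, ← cg_mul, mul_inv_cancel, cg_one]
    · right; rw [← h4, ← cg_mul, mul_inv_cancel, cg_one]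

theorem MinN.eq_or {N T T' : Subgroup Γ} (h : MinN Z N T) (h' : MinN Z N T') (hT : T ≤ N)
    (hT' : T' ≤ N) : T = T' ∨ ∀ x ∈ T, ∀ y ∈ T', ⁅x, y⁆ ∈ Z := by
  have hng : NG N (T ⊓ T') := fun g hg x hx => ⟨h.ng g hg x hx.1, h'.ng g hg x hx.2⟩
  rcases h.min (T ⊓ T') (le_inf h.lt.le h'.lt.le) inf_le_left hng with h1 | h1
  · right
    intro x hx y hy
    rw [← h1]
    refine ⟨?_, T'.mul_mem (h'.ng x (hT hx) y hy) (T'.inv_mem hy)⟩
    have := mul_mem hx (h.ng y (hT' hy) _ (inv_mem hx))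
    simpa [commutatorElement_def, mul_assoc] using this
  · rcases h'.min (T ⊓ T') (le_inf h.lt.le h'.lt.le) inf_le_right hng with h2 | h2
    · exact absurd (h1.symm.trans h2).symm h.lt.ne
    · exact Or.inl (h1.symm.trans h2)

/-- A component of `N / Z`. -/
structure Comp (Z G N T : Subgroup Γ) : Prop where
  lt : Z < T
  ng : NG N T
  sup : T = ⁅T, T⁆ ⊔ Z
  simple : ∀ S, Z ≤ S → S ≤ T → NG T S → S = Z ∨ S = T
  conj : ∀ g ∈ G, cg g T = T ∨ ∀ x ∈ cg g T, ∀ y ∈ T, x * y = y * x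
  gen : ∀ K, (∀ g ∈ G, cg g T ≤ K) → N ≤ K
  conj_le : ∀ g ∈ G, cg g T ≤ N

theorem MinN.exists_comp [Finite Γ] (hZ : Cen Z) {G N : Subgroup Γ} (h : MinN Z G N)
    (hN : N = ⁅N, N⁆ ⊔ Z) : ∃ T, Comp Z G N T := by
  haveI := hZ.normal
  obtain ⟨T, hTN, hT⟩ := exists_minN h.lt (NG.self N)
  have hle : ∀ g ∈ G, As.cg g T ≤ N := fun g hg => h.ng.cg_eq hg ▸ cg_mono hTN
  have hgen : ∀ K, (∀ g ∈ G, As.cg g T ≤ K) → N ≤ K := by
    intro K hK
    have h1 : T ≤ ⨆ g ∈ G, As.cg g T := by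
      simpa using le_iSup₂ (f := fun g (_ : g ∈ G) => As.cg g T) 1 (one_mem G)
    rcases h.min (⨆ g ∈ G, As.cg g T) (hT.lt.le.trans h1) (iSup₂_le hle) (by
      intro k hk x hx
      have : (⨆ g ∈ G, As.cg g T) ≤ As.cg k⁻¹ (⨆ g ∈ G, As.cg g T) := iSup₂_le fun g hg => by
        have := cg_mono (g := k⁻¹) (le_iSup₂ (f := fun g (_ : g ∈ G) => As.cg g T) _ (mul_mem hk hg))
        rwa [← cg_mul, inv_mul_cancel_left] at this
      simpa using mem_cg.1 (this hx)) with h2 | h2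
    · exact absurd (h2 ▸ h1) hT.lt.not_ge
    · exact h2 ▸ iSup₂_le hK
  have hsup : T = ⁅T, T⁆ ⊔ Z := by
    refine (hT.dichotomy hZ).resolve_left fun hc => h.lt.not_ge ?_
    have h1 : ∀ g ∈ G, ∀ k ∈ G, ∀ x ∈ As.cg g T, ∀ y ∈ As.cg k T, ⁅x, y⁆ ∈ Z := by
      intro g hg k hk
      rcases (hT.cg hZ h.ng hg).eq_or (hT.cg hZ h.ng hk) (hle g hg) (hle k hk) with h1 | h1
      · rw [← h1]
        rintro _ ⟨x, hx, rfl⟩ _ ⟨y, hy, rfl⟩
        rw [← map_commutatorElement]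
        exact hZ.ng G g hg _ (hc x hx y hy)
      · exact h1
    have h2 : ∀ y : Γ, ∀ x, x ∈ (Subgroup.centralizer {(y : Γ ⧸ Z)}).comap (QuotientGroup.mk' Z) ↔
        ⁅x, y⁆ ∈ Z := fun y x => by
      rw [Subgroup.mem_comap, Subgroup.mem_centralizer_singleton_iff, ← QuotientGroup.eq_one_iff,
        ← commutatorElement_eq_one_iff_mul_comm]
      rfl
    have h3 : ∀ k ∈ G, ∀ y ∈ As.cg k T, ∀ x ∈ N, ⁅y, x⁆ ∈ Z := fun k hk y hy x hx => by
      rw [← commutatorElement_inv]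
      exact inv_mem ((h2 y x).1 (hgen _ (fun g hg a ha => (h2 y a).2 (h1 g hg k hk a ha y hy)) hx))
    rw [hN]
    refine sup_le (Subgroup.commutator_le.2 fun y hy x hx => ?_) le_rfl
    exact (h2 x y).1 (hgen _ (fun k hk a ha => (h2 x a).2 (h3 k hk a ha x hx)) hy)
  have hconj : ∀ g ∈ G, As.cg g T = T ∨ ∀ x ∈ As.cg g T, ∀ y ∈ T, x * y = y * x := by
    intro g hg
    refine ((hT.cg hZ h.ng hg).eq_or hT (hle g hg) hTN).imp_right fun h1 x hx y hy => ?_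
    rw [hsup] at hy
    obtain ⟨s, hs, z, hz, rfl⟩ := hZ.mem_sup.1 hy
    rw [← mul_assoc, ← hZ.comm_of_commutator (h1 x hx) s hs, mul_assoc, ← hZ z hz, mul_assoc]
  refine ⟨T, hT.lt, hT.ng, hsup, fun S h1 h2 h3 => hT.min S h1 h2 ?_, hconj, hgen, hle⟩
  refine (ng_normalizer S).mono (hgen _ fun g hg => ?_)
  rcases hconj g hg with h4 | h4
  · rw [h4]; exact h3.le_normalizer
  · exact NG.le_normalizer fun x hx y hy => by rw [h4 x hx y (h2 hy), mul_inv_cancel_right]; exact hy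

theorem Cen.perfect (hZ : Cen Z) {T : Subgroup Γ} (h : T = ⁅T, T⁆ ⊔ Z) :
    ⁅⁅T, T⁆, ⁅T, T⁆⁆ = ⁅T, T⁆ := by
  refine le_antisymm (Subgroup.commutator_le_self _) ?_
  conv_lhs => rw [h]
  exact hZ.commutator_sup_le _

theorem isSimpleGroup_quot (hZ : Cen Z) [Z.Normal] {T P : Subgroup Γ} (hlt : Z < T) (h : T = P ⊔ Z)
    (hs : ∀ S, Z ≤ S → S ≤ T → NG T S → S = Z ∨ S = T) : IsSimpleGroup (P ⧸ Z.subgroupOf P) := by
  have hP : ¬ P ≤ Z := fun hP => hlt.not_ge (h ▸ sup_le hP le_rfl)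
  obtain ⟨x, hx, hxZ⟩ := SetLike.not_le_iff_exists.1 hP
  haveI : Nontrivial (P ⧸ Z.subgroupOf P) :=
    ⟨⟨(⟨x, hx⟩ : P), 1, fun h => hxZ ((QuotientGroup.eq_one_iff (⟨x, hx⟩ : P)).1 h)⟩⟩
  refine ⟨fun S hS => ?_⟩
  let S' : Subgroup Γ := (S.comap (QuotientGroup.mk' _)).map P.subtype
  have h1 : S' ≤ P := Subgroup.map_subtype_le _
  have h2 : NG P S' := by
    rintro g hg _ ⟨y, hy, rfl⟩
    exact ⟨⟨g, hg⟩ * y * ⟨g, hg⟩⁻¹, (hS.comap _).conj_mem _ hy _, rfl⟩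
  rcases hs (S' ⊔ Z) le_sup_right (h ▸ sup_le_sup_right h1 _)
    (hZ.ng_sup (h ▸ h2.sup_left (hZ.ng' _))) with h3 | h3
  · left
    rw [eq_bot_iff]
    intro y hy
    obtain ⟨y, rfl⟩ := QuotientGroup.mk_surjective y
    have : (y : Γ) ∈ S' ⊔ Z := Subgroup.mem_sup_left ⟨y, hy, rfl⟩
    rw [h3] at this
    exact (QuotientGroup.eq_one_iff _).2 this
  · right
    rw [eq_top_iff]
    intro y _
    obtain ⟨y, rfl⟩ := QuotientGroup.mk_surjective y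
    have : (y : Γ) ∈ S' ⊔ Z := by rw [h3, h]; exact Subgroup.mem_sup_left y.2
    obtain ⟨_, ⟨s, hs, rfl⟩, z, hz, h4⟩ := hZ.mem_sup.1 this
    have : (y : P ⧸ Z.subgroupOf P) = s := by
      rw [eq_comm, QuotientGroup.eq, Subgroup.mem_subgroupOf, Subgroup.coe_mul, ← h4]
      simpa using hz
    rw [this]; exact hs

theorem not_comm_quot [Z.Normal] {P : Subgroup Γ} (hP : ⁅P, P⁆ = P) (h : ¬ P ≤ Z) :
    ¬ IsMulCommutative (P ⧸ Z.subgroupOf P) := by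
  intro hc
  apply h
  rw [← hP, Subgroup.commutator_le]
  intro x hx y hy
  have := hc.is_comm.comm ((⟨x, hx⟩ : P) : P ⧸ Z.subgroupOf P) (⟨y, hy⟩ : P)
  rw [← commutatorElement_eq_one_iff_mul_comm] at this
  exact (QuotientGroup.eq_one_iff (⁅(⟨x, hx⟩ : P), (⟨y, hy⟩ : P)⁆)).1 this

end H23.As
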