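import Cfsg.Agent.H23.As5
import Cfsg.Agent.H23.FieldSq

/-!
Aschbacher's theorem, part 6: groups of symplectic type.
-/

set_option autoImplicit false

namespace H23.As

open Matrix Module Cfsg.Geo
open scoped MatrixGroups commutatorElement

variable {ι : Type} [Fintype ι] [DecidableEq ι] {F : Type*} [Field F]

theorem cen_scalars : Cen (scalars ι F) := by
  intro z hz g
  obtain ⟨c, hc⟩ := (mem_scalars_iff z).1 hz
  exact Units.ext (by simp [hc])

theorem exists_sc {g : GL ι F} (h : g ∈ scalars ι F) : ∃ c : Fˣ, g = sc c := by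
  obtain ⟨c, rfl⟩ := h; exact ⟨c, rfl⟩

theorem sc_mul (c d : Fˣ) : (sc (c * d) : GL ι F) = sc c * sc d := map_mul (Units.map _) c d

theorem sc_pow (c : Fˣ) (k : ℕ) : (sc (c ^ k) : GL ι F) = sc c ^ k := map_pow (Units.map _) c k

theorem sc_inv (c : Fˣ) : (sc c⁻¹ : GL ι F) = (sc c)⁻¹ := map_inv (Units.map _) c

@[simp] theorem sc_one : (sc 1 : GL ι F) = 1 := map_one (Units.map _)

theorem sc_injective [Nonempty ι] : Function.Injective (sc : Fˣ → GL ι F) := by
  intro c d h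
  have := congrArg (fun g : GL ι F => (g : Matrix ι ι F) (Classical.arbitrary ι) (Classical.arbitrary ι)) h
  exact Units.ext (by simpa [sc_val] using this)

theorem sc_eq_one [Nonempty ι] {c : Fˣ} : (sc c : GL ι F) = 1 ↔ c = 1 := by
  rw [← sc_one, sc_injective.eq_iff]

theorem sc_comm (c : Fˣ) (g : GL ι F) : sc c * g = g * sc c := cen_scalars _ (sc_mem c) g

theorem isCyclic_of_le_scalars [Finite F] {A : Type*} [Group A] (f : A →* GL ι F)
    (hf : Function.Injective f) (h : ∀ a, f a ∈ scalars ι F) : IsCyclic A := by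
  haveI : IsCyclic (scalars ι F) := isCyclic_of_surjective _ (MonoidHom.rangeRestrict_surjective _)
  exact isCyclic_of_injective (f.codRestrict _ h) fun a b hab => hf (congrArg Subtype.val hab)

section grp

variable {Γ : Type*} [Group Γ]

theorem mul_pow_of_central {x y z : Γ} (hz : ∀ g, z * g = g * z) (h : y * x = z * (x * y)) (k : ℕ) :
    (x * y) ^ k = z ^ (k.choose 2) * (x ^ k * y ^ k) := by
  have hz' : ∀ (j : ℕ) g, z ^ j * g = g * z ^ j := fun j g => (Commute.pow_left (hz g) j).eq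
  have h1 : ∀ j : ℕ, y ^ j * x = z ^ j * (x * y ^ j) := by
    intro j
    induction j with
    | zero => simp
    | succ j ih =>
      rw [pow_succ', mul_assoc, ih, ← mul_assoc y, ← hz', mul_assoc, ← mul_assoc y, h, pow_succ z]
      simp only [mul_assoc]
  induction k with
  | zero => simp
  | succ k ih =>
    rw [pow_succ, ih, Nat.choose_succ_succ', Nat.choose_one_right, add_comm k, pow_add, pow_succ,
      pow_succ]
    calc z ^ k.choose 2 * (x ^ k * y ^ k) * (x * y)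
        = z ^ k.choose 2 * (x ^ k * (y ^ k * x) * y) := by simp only [mul_assoc]
      _ = z ^ k.choose 2 * ((x ^ k * z ^ k) * (x * y ^ k) * y) := by rw [h1]; simp only [mul_assoc]
      _ = _ := by rw [← hz']; simp only [mul_assoc]

theorem Cen.commutator_pow {Z : Subgroup Γ} (hZ : Cen Z) {x y : Γ} {r : ℕ} (h : ⁅y, x⁆ ∈ Z)
    (hx : x ^ r ∈ Z) : ⁅y, x⁆ ^ r = 1 := by
  have h1 : y * x * y⁻¹ = ⁅y, x⁆ * x := by rw [commutatorElement_def]; group
  have h2 := congrArg (· ^ r) h1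
  simp only [conj_pow] at h2
  rw [← hZ _ hx, mul_inv_cancel_right, Commute.mul_pow (hZ _ h x)] at h2
  simpa using h2.symm

end grp

/-- An absolutely irreducible group that is abelian modulo scalars. -/
structure Ext (R : Subgroup (GL ι F)) : Prop where
  ai : AI R
  comm : ∀ x ∈ R, ∀ y ∈ R, ⁅x, y⁆ ∈ scalars ι F

variable [Nonempty ι] {R : Subgroup (GL ι F)}

theorem Ext.exists_comm (h : Ext R) {x : GL ι F} (hx : x ∈ R) (hxZ : x ∉ scalars ι F) :
    ∃ y ∈ R, ∃ c : Fˣ, c ≠ 1 ∧ ⁅y, x⁆ = sc c := by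
  by_contra! hc
  refine hxZ (h.ai.mem_scalars fun y hy => ?_)
  obtain ⟨c, hc'⟩ := exists_sc (h.comm y hy x hx)
  obtain rfl : c = 1 := by by_contra h1; exact hc y hy c h1 hc'
  exact (commutatorElement_eq_one_iff_mul_comm.1 (hc'.trans sc_one)).symm

theorem Ext.trace_eq_zero (h : Ext R) {x : GL ι F} (hx : x ∈ R) (hxZ : x ∉ scalars ι F) :
    (x : Matrix ι ι F).trace = 0 := by
  obtain ⟨y, -, c, hc, hc'⟩ := h.exists_comm hx hxZ
  have h1 : y * x * y⁻¹ = sc c * x := by rw [← hc', commutatorElement_def]; group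
  have h2 := trace_cj y (x : Matrix ι ι F)
  rw [cj_val, h1, Units.val_mul, sc_val, smul_mul_assoc, Matrix.one_mul, trace_smul, smul_eq_mul,
    ← sub_eq_zero, ← sub_one_mul, mul_eq_zero, sub_eq_zero] at h2
  exact h2.resolve_left fun h3 => hc (Units.ext h3)

theorem trace_sc (c : Fˣ) : ((sc c : GL ι F) : Matrix ι ι F).trace = c * Fintype.card ι := by
  simp [sc_val]

theorem Ext.card_ne_zero (h : Ext R) : (Fintype.card ι : F) ≠ 0 := by
  intro h0
  refine one_ne_zero (h.ai.eq_zero_of_trace (D := 1) fun x hx => ?_)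
  rw [Matrix.one_mul]
  by_cases hxZ : x ∈ scalars ι F
  · obtain ⟨c, rfl⟩ := exists_sc hxZ
    rw [trace_sc, h0, mul_zero]
  · exact h.trace_eq_zero hx hxZ

theorem Ext.index [Finite F] (h : Ext R) :
    ((scalars ι F).subgroupOf R).index = Fintype.card ι ^ 2 := by
  classical
  letI := Fintype.ofFinite (R ⧸ (scalars ι F).subgroupOf R)
  let v : R ⧸ (scalars ι F).subgroupOf R → Matrix ι ι F := fun q => ((q.out : R) : GL ι F)
  have h1 : LinearIndependent F v := by
    rw [Fintype.linearIndependent_iff]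
    intro c hc q
    have := congrArg (fun M => ((((q.out : R) : GL ι F)⁻¹ : GL ι F) * M : Matrix ι ι F).trace) hc
    simp only [Finset.mul_sum, trace_sum, mul_smul_comm, trace_smul, mul_zero, trace_zero, v] at this
    rw [Finset.sum_eq_single q, Units.inv_mul, trace_one, smul_eq_mul, mul_eq_zero] at this
    · exact this.resolve_right h.card_ne_zero
    · intro q' _ hq
      rw [← Units.val_mul, h.trace_eq_zero (mul_mem (inv_mem q.out.2) q'.out.2), smul_zero]
      intro h2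
      apply hq
      rw [← q.out_eq, ← q'.out_eq, eq_comm]
      exact QuotientGroup.eq.2 h2
    · simp
  have h2 : ⊤ ≤ Submodule.span F (Set.range v) := fun X _ =>
    h.ai.induction (p := fun X => X ∈ Submodule.span F (Set.range v)) (fun x hx => by
      obtain ⟨z, hz⟩ := QuotientGroup.mk_out_eq_mul ((scalars ι F).subgroupOf R) ⟨x, hx⟩
      obtain ⟨c, hc⟩ := exists_sc (inv_mem z.2 : _ ∈ scalars ι F)
      have : (x : Matrix ι ι F) = (c : F) • v (⟨x, hx⟩ : R) := by
        simp only [v, hz]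
        rw [← Matrix.mul_one (_ • _), smul_mul_assoc, ← mul_smul_comm, ← sc_val, ← hc, ← Units.val_mul]
        simp
      rw [this]
      exact Submodule.smul_mem _ _ (Submodule.subset_span ⟨_, rfl⟩)) (zero_mem _)
      (fun X Y => add_mem) (fun c X => Submodule.smul_mem _ c) X
  have := finrank_eq_card_basis (Basis.mk h1 h2)
  rw [Subgroup.index, Nat.card_eq_fintype_card, ← this, finrank_matrix]
  simp [sq]

theorem AI.center_eq (h : AI R) : Subgroup.center R = (scalars ι F).subgroupOf R := by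
  ext x
  rw [Subgroup.mem_center_iff, Subgroup.mem_subgroupOf]
  refine ⟨fun hx => h.mem_scalars fun y hy => (congrArg Subtype.val (hx ⟨y, hy⟩)).symm,
    fun hx y => Subtype.ext (cen_scalars _ hx _).symm⟩

theorem Ext.card_eq [Finite F] (h : Ext R) :
    Nat.card R = Nat.card (Subgroup.center R) * Fintype.card ι ^ 2 := by
  rw [← h.index, h.ai.center_eq, Subgroup.card_mul_index]

theorem cyclic_of_characteristic [Finite F] {G : Subgroup (GL ι F)} (hG : NG G R)
    (hP : ∀ A ≤ R, NG G A → (∀ x ∈ A, ∀ y ∈ A, x * y = y * x) → A ≤ scalars ι F)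
    (A : Subgroup R) (hA : A.Characteristic) (hc : IsMulCommutative A) : IsCyclic A := by
  have := hP (A.map R.subtype) (Subgroup.map_subtype_le _) (by
    rintro g hg _ ⟨x, hx, rfl⟩
    have h1 := hA.fixed (R.normalizerMonoidHom ⟨g, hG.le_normalizer hg⟩)
    rw [← h1] at hx
    exact ⟨_, hx, rfl⟩) (by
    rintro _ ⟨x, hx, rfl⟩ _ ⟨y, hy, rfl⟩
    exact congrArg (fun a : A => ((a : R) : GL ι F)) (hc.is_comm.comm ⟨x, hx⟩ ⟨y, hy⟩))
  exact isCyclic_of_le_scalars (R.subtype.comp A.subtype)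
    (Subtype.val_injective.comp Subtype.val_injective) fun a => this ⟨a, a.2, rfl⟩

theorem Ext.exists_root (h : Ext R) (hR : ¬ R ≤ scalars ι F) {r : ℕ} (hr : r.Prime)
    (hp : ∀ x ∈ R, x ^ r ∈ scalars ι F) :
    ∃ x ∈ R, ∃ y ∈ R, ∃ c : Fˣ, orderOf c = r ∧ ⁅y, x⁆ = sc c := by
  obtain ⟨x, hx, hxZ⟩ := SetLike.not_le_iff_exists.1 hR
  obtain ⟨y, hy, c, hc, hc'⟩ := h.exists_comm hx hxZ
  haveI := Fact.mk hr
  refine ⟨x, hx, y, hy, c, orderOf_eq_prime ?_ hc, hc'⟩
  rw [← sc_eq_one (ι := ι), sc_pow, ← hc']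
  exact cen_scalars.commutator_pow (h.comm y hy x hx) (hp x hx)

theorem ne_char_of_orderOf {r p : ℕ} (hr : r.Prime) [CharP F p] {c : Fˣ} (hc : orderOf c = r) :
    r ≠ p := by
  rintro rfl
  haveI := Fact.mk hr
  have h1 : ((c : F) - 1) ^ r = 0 := by
    rw [sub_pow_char, one_pow, ← Units.val_pow_eq_pow_val, ← hc, pow_orderOf_eq_one]; simp
  have h2 : c = 1 := Units.ext (sub_eq_zero.1 (pow_eq_zero_iff hr.ne_zero |>.1 h1))
  rw [h2, orderOf_one] at hc
  exact hr.one_lt.ne hc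

theorem dvd_choose_two {r : ℕ} (hr : r.Prime) : r ∣ (r * Nat.gcd 2 r).choose 2 := by
  rcases hr.eq_two_or_odd' with rfl | h
  · decide
  · rw [Nat.Coprime.gcd_eq_one (Nat.coprime_two_left.2 h), mul_one]
    exact hr.dvd_choose_self (by omega) (by have := hr.two_le; rcases h with ⟨k, rfl⟩; omega)

/-- The subgroup of elements of order dividing `r · gcd(2, r)`. -/
theorem MinN.exists_R [Finite F] {G N : Subgroup (GL ι F)} (hN : MinN (scalars ι F) G N)
    (h : Ext N) {r : ℕ} (hr : r.Prime) (hp : ∀ x ∈ N, x ^ r ∈ scalars ι F) :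
    ∃ R : Subgroup (GL ι F), (∀ x, x ∈ R ↔ x ∈ N ∧ x ^ (r * Nat.gcd 2 r) = 1) ∧
      N ≤ R ⊔ scalars ι F := by
  set s := r * Nat.gcd 2 r with hs
  have hmul : ∀ x ∈ N, ∀ y ∈ N, (x * y) ^ s = x ^ s * y ^ s := by
    intro x hx y hy
    obtain ⟨k, hk⟩ := dvd_choose_two hr
    rw [mul_pow_of_central (cen_scalars _ (h.comm y hy x hx))
      (by rw [commutatorElement_def]; group), hk, pow_mul,
      cen_scalars.commutator_pow (h.comm y hy x hx) (hp x hx), one_pow, one_mul]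
  let R : Subgroup (GL ι F) :=
    { carrier := {x | x ∈ N ∧ x ^ s = 1}
      mul_mem' := fun {a b} ha hb => ⟨mul_mem ha.1 hb.1, by rw [hmul a ha.1 b hb.1, ha.2, hb.2, one_mul]⟩
      one_mem' := ⟨one_mem _, one_pow _⟩
      inv_mem' := fun ha => ⟨inv_mem ha.1, by rw [inv_pow, ha.2, inv_one]⟩ }
  have hR : NG G R := fun g hg x hx => ⟨hN.ng g hg x hx.1, by rw [conj_pow, hx.2]; simp⟩
  refine ⟨R, fun x => Iff.rfl, ?_⟩
  refine ((hN.min (R ⊔ scalars ι F) le_sup_right (sup_le (fun x hx => hx.1) hN.lt.le)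
    (cen_scalars.ng_sup hR)).resolve_left fun h1 => ?_).ge
  have key : ∀ u ∈ N, ∀ c : Fˣ, u ^ s = sc c ^ s → u ∈ scalars ι F := by
    intro u hu c hc
    rw [← h1]
    refine cen_scalars.mem_sup.2 ⟨u * (sc c)⁻¹, ⟨mul_mem hu (inv_mem (hN.lt.le (sc_mem c))), ?_⟩,
      sc c, sc_mem c, by simp⟩
    rw [hmul u hu _ (inv_mem (hN.lt.le (sc_mem c))), hc, inv_pow, mul_inv_cancel]
  obtain ⟨x, hx, y, hy, c, hc, hc'⟩ := h.exists_root hN.lt.not_ge hr hp
  have hne : ⁅y, x⁆ ≠ 1 := by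
    rw [hc', Ne, sc_eq_one]
    rintro rfl
    exact hr.one_lt.ne (by simpa using hc)
  obtain ⟨γ, hγ⟩ := IsCyclic.exists_monoid_generator (α := Fˣ)
  obtain ⟨a, ha⟩ := exists_sc (hp x hx)
  obtain ⟨b, hb⟩ := exists_sc (hp y hy)
  obtain ⟨i, rfl⟩ := hγ a
  obtain ⟨j, rfl⟩ := hγ b
  by_cases hi : r ∣ i
  · obtain ⟨k, rfl⟩ := hi
    have := key x hx (γ ^ k) (by rw [hs, pow_mul, ha, pow_mul, ← sc_pow _ r, ← pow_mul, mul_comm k])
    exact hne (commutatorElement_eq_one_iff_mul_comm.2 (cen_scalars _ this _).symm)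
  · obtain ⟨k, m, hk⟩ : ∃ k m : ℕ, k * i + j = m * r := by
      haveI := Fact.mk hr
      have hi' : (i : ZMod r) ≠ 0 := by rwa [Ne, ZMod.natCast_eq_zero_iff]
      have : ((((-(j : ZMod r) / i).val * i + j : ℕ)) : ZMod r) = 0 := by
        push_cast; rw [ZMod.natCast_zmod_val]; field_simp; ring
      obtain ⟨m, hm⟩ := (ZMod.natCast_eq_zero_iff _ _).1 this
      exact ⟨_, m, by rw [hm, mul_comm]⟩
    have := key (x ^ k * y) (mul_mem (pow_mem hx k) hy) (γ ^ m) (by
      rw [hmul _ (pow_mem hx k) _ hy, hs, ← pow_mul, mul_comm k, mul_right_comm, pow_mul, pow_mul,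
        ha, pow_mul y, hb, pow_mul, ← sc_pow, ← sc_pow, ← sc_pow, ← sc_pow, ← sc_pow, ← sc_mul,
        ← mul_pow, ← pow_mul, ← pow_add, ← pow_mul γ m, mul_comm i, hk])
    apply hne
    rw [commutatorElement_eq_one_iff_mul_comm]
    have h2 := cen_scalars _ this x
    rw [mul_assoc, ← mul_assoc x, ← (Commute.self_pow x k).eq.symm, mul_assoc] at h2
    exact mul_left_cancel h2

theorem Ext.of_le {N : Subgroup (GL ι F)} (h : Ext N) (h1 : R ≤ N) (h2 : N ≤ R ⊔ scalars ι F) :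
    Ext R := ⟨h.ai.of_le_sup h2, fun x hx y hy => h.comm x (h1 hx) y (h1 hy)⟩

theorem Ext.exists_inv (h : Ext R) {σ : F →+* F} (hσ : ∀ a, σ (σ a) = a)
    (hc : ∀ c : Fˣ, sc c ∈ R → σ c * c = 1) : ∃ B : Matrix ι ι F, IsUnit B ∧ Inv σ B R := by
  refine h.ai.exists_inv hσ fun x hx => ?_
  by_cases hxZ : x ∈ scalars ι F
  · obtain ⟨c, rfl⟩ := exists_sc hxZ
    rw [← sc_inv, trace_sc, trace_sc, map_mul, map_natCast, eq_inv_of_mul_eq_one_left (hc c hx)]
    simp
  · rw [h.trace_eq_zero hx hxZ, h.trace_eq_zero (inv_mem hx) (by simpa using hxZ), map_zero]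

theorem Ext.exists_rat [Finite F] (h : Ext R) {F₀ : Subfield F}
    (hc : ∀ c : Fˣ, sc c ∈ R → (c : F) ∈ F₀) :
    ∃ P : GL ι F, ∀ x ∈ R, Rat F₀ (cj P⁻¹ (x : Matrix ι ι F)) := by
  refine h.ai.exists_rat fun x hx => ?_
  by_cases hxZ : x ∈ scalars ι F
  · obtain ⟨c, rfl⟩ := exists_sc hxZ
    rw [trace_sc]
    exact mul_mem (hc c hx) (natCast_mem _ _)
  · rw [h.trace_eq_zero hx hxZ]; exact zero_mem _

theorem AI.card_center [Finite F] (h : AI R) {s : ℕ} (hs : ∀ c : Fˣ, sc c ∈ R → c ^ s = 1) {c : Fˣ}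
    (hc : sc c ∈ R) (hc' : orderOf c = s) : Nat.card (Subgroup.center R) = s := by
  haveI : IsCyclic (Subgroup.center R) := isCyclic_of_le_scalars (R.subtype.comp (Subgroup.subtype _))
    (Subtype.val_injective.comp Subtype.val_injective) fun a =>
      h.center_eq.le a.2
  rw [← IsCyclic.exponent_eq_card]
  apply Nat.dvd_antisymm
  · rw [Monoid.exponent_dvd_iff_forall_pow_eq_one]
    rintro ⟨⟨x, hx⟩, hx'⟩
    rw [h.center_eq] at hx'
    obtain ⟨d, rfl⟩ := exists_sc hx'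
    exact Subtype.ext (Subtype.ext (by simp [← sc_pow, hs d hx]))
  · have := Monoid.order_dvd_exponent (⟨⟨sc c, hc⟩, by rw [h.center_eq]; exact sc_mem c⟩ :
      Subgroup.center R)
    rwa [← Subgroup.orderOf_coe, ← Subgroup.orderOf_coe,
      show orderOf (sc c : GL ι F) = orderOf c from orderOf_injective (Units.map _) sc_injective c,
      hc'] at this

theorem isSymplecticTypeGroup [Finite F] {G : Subgroup (GL ι F)} (hG : NG G R)
    (hP : ∀ A ≤ R, NG G A → (∀ x ∈ A, ∀ y ∈ A, x * y = y * x) → A ≤ scalars ι F) {r : ℕ}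
    (hr : r.Prime) (hs : ∀ x ∈ R, x ^ (r * Nat.gcd 2 r) = 1) {x : GL ι F} (hx : x ∈ R)
    (hx' : orderOf x = r * Nat.gcd 2 r) : IsSymplecticTypeGroup r R where
  prime := hr
  pGroup := fun g => ⟨2, Subtype.ext (by
    obtain ⟨k, hk⟩ := Nat.gcd_dvd_right 2 r
    rw [Subgroup.coe_pow, sq]
    conv_lhs => enter [2, 2]; rw [hk]
    rw [← mul_assoc, pow_mul, hs _ g.2, one_pow]; rfl)⟩
  cyclic_of_characteristic := cyclic_of_characteristic hG hP
  exponent_eq := by
    apply Nat.dvd_antisymm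
    · rw [Monoid.exponent_dvd_iff_forall_pow_eq_one]
      exact fun g => Subtype.ext (hs _ g.2)
    · have := Monoid.order_dvd_exponent (⟨x, hx⟩ : R)
      rwa [← Subgroup.orderOf_coe, hx'] at this

theorem Ext.exists_card_eq [Finite F] (h : Ext R) {r : ℕ} (hr : r.Prime) (hp : IsPGroup r R) :
    ∃ m, Fintype.card ι = r ^ m := by
  haveI := Fact.mk hr
  obtain ⟨k, hk⟩ := hp.exists_card_eq
  have : Fintype.card ι ∣ r ^ k := by
    rw [← hk, h.card_eq, sq, ← mul_assoc]; exact Dvd.intro_left _ rfl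
  obtain ⟨m, -, hm⟩ := (Nat.dvd_prime_pow hr).1 this
  exact ⟨m, hm⟩

/-! ### The field generated by roots of unity -/

theorem subfield_or_minimal [Fintype F] {p e z : ℕ} (hp : p.Prime) [CharP F p]
    (he : Fintype.card F = p ^ e) {c : Fˣ} (hc : orderOf c = z) :
    (∃ F₀ : Subfield F, F₀ ≠ ⊤ ∧ ∀ d : Fˣ, d ^ z = 1 → (d : F) ∈ F₀) ∨
      IsMinimalFieldFor z p e F := by
  by_cases h : ∃ d, 0 < d ∧ d < e ∧ z ∣ p ^ d - 1
  · left
    obtain ⟨d, hd0, hde, k, hk⟩ := h
    haveI := Fact.mk hp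
    have h1 : 1 < p ^ d := Nat.one_lt_pow hd0.ne' hp.one_lt
    refine ⟨RingHom.eqLocusField (iterateFrobenius F p d) (RingHom.id F), fun h => ?_, fun u hu => ?_⟩
    · have : Fintype.card F - 1 ∣ p ^ d - 1 := by
        rw [← FiniteField.forall_pow_eq_one_iff]
        intro x
        have h2 : (x : F) ∈ RingHom.eqLocusField (iterateFrobenius F p d) (RingHom.id F) :=
          h ▸ Subfield.mem_top _
        have h3 : x ^ p ^ d = x := Units.ext h2
        rw [← Nat.sub_add_cancel h1.le, pow_succ] at h3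
        simpa using h3
      have h2 := Nat.le_of_dvd (by omega) this
      have h3 := Nat.pow_lt_pow_right hp.one_lt hde
      omega
    · change (u : F) ^ p ^ d = u
      rw [← Nat.sub_add_cancel h1.le, pow_succ, hk, pow_mul, ← Units.val_pow_eq_pow_val, hu]
      simp
  · right
    push Not at h
    refine ⟨hp, inferInstance, he, ?_, h⟩
    rw [← hc, ← he, ← Nat.card_eq_fintype_card, ← Nat.card_units]
    exact orderOf_dvd_natCard c

theorem exists_invol_of_minimal [Fintype F] {p e z : ℕ} (h : IsMinimalFieldFor z p e F)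
    (he : Even e) (hz : z.Prime ∨ z = 4) :
    ∃ σ : F →+* F, σ ≠ RingHom.id F ∧ (∀ a, σ (σ a) = a) ∧ ∀ d : Fˣ, d ^ z = 1 → σ d * d = 1 := by
  obtain ⟨hp, -, hF, h1, h2⟩ := h
  obtain ⟨k, rfl⟩ := he
  have hF' : Fintype.card F = (p ^ k) ^ 2 := by rw [hF, pow_add, sq]
  have hk : 0 < k := by
    rcases Nat.eq_zero_or_pos k with rfl | h
    · have := Fintype.one_lt_card (α := F); simp [hF] at this
    · exact h
  have h3 := h2 k hk (by omega)
  have h4 : 1 < p ^ k := Nat.one_lt_pow hk.ne' hp.one_lt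
  obtain ⟨y, hy⟩ : ∃ y, p ^ k = y + 1 := ⟨p ^ k - 1, by omega⟩
  rw [pow_add, hy, show (y + 1) * (y + 1) - 1 = y * (y + 2) by
    rw [Nat.sub_eq_iff_eq_add (by nlinarith)]; ring] at h1
  rw [hy, Nat.add_sub_cancel] at h3
  have h5 : z ∣ y + 2 := by
    rcases hz with hz | rfl
    · exact (hz.dvd_mul.1 h1).resolve_left h3
    · have : y % 4 = 0 ∨ y % 4 = 1 ∨ y % 4 = 2 ∨ y % 4 = 3 := by omega
      have h6 := Nat.mod_eq_zero_of_dvd h1
      rw [Nat.mul_mod, Nat.add_mod] at h6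
      rcases this with h | h | h | h <;> simp [h] at h6 <;> omega
  obtain ⟨w, hw⟩ := h5
  refine ⟨conj hF', conj_ne_id hF', conj_conj hF', fun d hd => ?_⟩
  rw [conj_apply, ← pow_succ, hy, add_assoc, one_add_one_eq_two, hw, pow_mul,
    ← Units.val_pow_eq_pow_val, hd]
  simp

theorem eq_one_of_minimal_four [Fintype F] {p e : ℕ} (h : IsMinimalFieldFor 4 p e F) :
    e = 1 ∨ e = 2 := by
  obtain ⟨hp, -, hF, h1, h2⟩ := h
  have he : e ≠ 0 := by
    rintro rfl
    have := Fintype.one_lt_card (α := F); simp [hF] at this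
  have hodd : Odd p := by
    refine hp.eq_two_or_odd'.resolve_left ?_
    rintro rfl
    obtain ⟨k, rfl⟩ := Nat.exists_eq_succ_of_ne_zero he
    have : 0 < 2 ^ k := by positivity
    rw [pow_succ] at h1
    omega
  by_contra! hc
  refine h2 2 two_pos (by omega) ?_
  obtain ⟨k, rfl⟩ := hodd
  exact ⟨k * k + k, by rw [Nat.sub_eq_iff_eq_add (Nat.one_le_pow _ _ (by omega))]; ring⟩

end H23.As
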