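import Cfsg.Agent.H23.As6

/-!
Aschbacher's theorem, part 7: the structure theorem for primitive groups.
-/

set_option autoImplicit false

namespace H23.As

open Matrix Module Cfsg.Geo
open scoped MatrixGroups commutatorElement Kronecker

variable {ι : Type} [Fintype ι] [DecidableEq ι] {F : Type*} [Field F]

/-- Centres of enveloping algebras of normal subgroups are scalar. -/
def CS (G : Subgroup (GL ι F)) : Prop :=
  ∀ N ≤ G, NG G N → ∀ z ∈ alg N, (∀ a ∈ alg N, z * a = a * z) → ∃ c : F, z = c • 1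

theorem CS.le_scalars [Nonempty ι] {G : Subgroup (GL ι F)} (h : CS G) {A : Subgroup (GL ι F)}
    (hA : A ≤ G) (hn : NG G A) (hc : ∀ x ∈ A, ∀ y ∈ A, x * y = y * x) : A ≤ scalars ι F := by
  intro x hx
  obtain ⟨c, hc⟩ := h A hA hn x (mem_algK hx) fun a ha => alg_comm hc _ (mem_algK hx) _ ha
  exact mem_scalars_of_val hc

structure TensD (G : Subgroup (GL ι F)) {d m : ℕ} (e : ι ≃ Fin d × Fin m) (P : GL ι F)
    (N : Subgroup (GL ι F)) : Prop where
  two_d : 2 ≤ d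
  two_m : 2 ≤ m
  le : N ≤ G
  ng : NG G N
  alg_eq : ∀ X, X ∈ alg N ↔ ∃ Y, X = tr e P (Y ⊗ₖ (1 : Matrix (Fin m) (Fin m) F))

structure QD (G P : Subgroup (GL ι F)) : Prop where
  le : P ≤ ⁅G, G⁆
  ng : NG G P
  ai : AI P
  perfect : ⁅P, P⁆ = P
  simple : IsSimpleGroup (P ⧸ (scalars ι F).subgroupOf P)
  nonabelian : ¬ IsMulCommutative (P ⧸ (scalars ι F).subgroupOf P)

structure WrD (G : Subgroup (GL ι F)) {k t : ℕ} (e : ι ≃ (Fin t → Fin k)) (P : GL ι F) : Prop where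
  two_k : 2 ≤ k
  two_t : 2 ≤ t
  comp : ∀ i, ∃ T ≤ ⁅G, G⁆, ⁅T, T⁆ = T ∧ ∀ X, X ∈ alg T ↔ ∃ Y, X = tr e P (slot i Y)
  trans : ∀ i j, ∃ g ∈ G, ∀ X, cj g (tr e P (slot i X)) = tr e P (slot j X)
  perm : ∀ g ∈ G, ∃ σ : Equiv.Perm (Fin t), ∀ i X, ∃ Y,
    cj g (tr e P (slot i X)) = tr e P (slot (σ i) Y)

theorem cj_mem_alg_cg {T : Subgroup (GL ι F)} (g : GL ι F) {X : Matrix ι ι F} (hX : X ∈ alg T) :
    cj g X ∈ alg (cg g T) := by
  refine algK_induction (p := fun X => cj g X ∈ alg (cg g T)) (fun x hx => ?_) ?_ ?_ ?_ hX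
  · rw [cj_val]; exact mem_algK (conj_mem_cg hx)
  · simp
  · intro X Y h h'; rw [map_add]; exact add_mem h h'
  · intro c X h; rw [map_smul]; exact Subalgebra.smul_mem _ h c

theorem cg_one' {Γ : Type*} [Group Γ] (T : Subgroup Γ) : cg 1 T = T := by
  ext x; simp [mem_cg]

theorem mem_alg_cg {T : Subgroup (GL ι F)} {g : GL ι F} {X : Matrix ι ι F} :
    X ∈ alg (cg g T) ↔ ∃ Y ∈ alg T, X = cj g Y := by
  refine ⟨fun h => ⟨cj g⁻¹ X, ?_, by simp⟩, ?_⟩
  · have := cj_mem_alg_cg g⁻¹ h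
    rwa [← cg_mul, inv_mul_cancel, cg_one'] at this
  · rintro ⟨Y, hY, rfl⟩; exact cj_mem_alg_cg g hY

theorem two_le_of_range [Nonempty ι] {d : ℕ} (hd : 0 < d)
    {φ : Matrix (Fin d) (Fin d) F →ₐ[F] Matrix ι ι F} {T : Subgroup (GL ι F)}
    (h : φ.range = alg T) (hT : ¬ T ≤ scalars ι F) : 2 ≤ d := by
  by_contra hlt
  obtain rfl : d = 1 := by omega
  refine hT fun x hx => ?_
  obtain ⟨X, hX⟩ : (x : Matrix ι ι F) ∈ φ.range := h ▸ mem_algK hx
  have : X = X 0 0 • (1 : Matrix (Fin 1) (Fin 1) F) := by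
    ext i j; rw [Subsingleton.elim i 0, Subsingleton.elim j 0]; simp
  refine mem_scalars_of_val (c := X 0 0) ?_
  rw [← hX, this]; simp

/-- The centraliser of a matrix in `GL`. -/
def centG (M : Matrix ι ι F) : Subgroup (GL ι F) where
  carrier := {x | M * x = x * M}
  mul_mem' {a b} ha hb := by
    simp only [Set.mem_ofPred_eq, Units.val_mul] at *
    rw [← Matrix.mul_assoc, ha, Matrix.mul_assoc, hb, Matrix.mul_assoc]
  one_mem' := by simp
  inv_mem' {a} ha := by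
    simp only [Set.mem_ofPred_eq] at *
    rw [Units.mul_inv_eq_iff_eq_mul, Matrix.mul_assoc, ha, Units.inv_mul_cancel_left]

theorem not_le_scalars {G : Subgroup (GL ι F)} (hG : Irr G) (hn : 2 ≤ Fintype.card ι) :
    ¬ G ≤ scalars ι F := by
  intro h
  obtain ⟨i, j, hij⟩ := Fintype.exists_pair_of_one_lt_card hn
  have hW : InvS G (Submodule.span F {(Pi.single i 1 : ι → F)}) := by
    intro g hg v hv
    obtain ⟨c, hc⟩ := (mem_scalars_iff g).1 (h hg)
    rw [hc, smul_mulVec, one_mulVec]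
    exact Submodule.smul_mem _ _ hv
  rcases hG _ hW with h0 | h0
  · have := (Submodule.span_eq_bot.1 h0) _ rfl
    simpa using congrFun this i
  · have : (Pi.single j 1 : ι → F) ∈ Submodule.span F {(Pi.single i 1 : ι → F)} := by
      rw [h0]; trivial
    obtain ⟨c, hc⟩ := Submodule.mem_span_singleton.1 this
    simpa [Pi.single_apply, hij, hij.symm] using congrFun hc j

theorem wrD_of_comp [Finite F] [Nonempty ι] {G N T : Subgroup (GL ι F)} (hNG : N ≤ G)
    (hai : AI N) (h : Comp (scalars ι F) G N T) (hne : T ≠ N) :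
    ∃ (k t : ℕ) (e : ι ≃ (Fin t → Fin k)) (P : GL ι F), WrD G e P := by
  classical
  haveI : Finite (GL ι F) := inferInstance
  have hTN : T ≤ N := by simpa [cg_one'] using h.conj_le 1 (one_mem _)
  have hcent : ∀ M : Matrix ι ι F, (∀ g ∈ G, ∀ x ∈ cg g T, M * x = x * M) → ∃ c : F, M = c • 1 :=
    fun M hM => hai.scalar fun x hx => h.gen (centG M) (fun g hg y hy => hM g hg y hy) hx
  obtain ⟨k, hk, φ, hφ⟩ := exists_range_eq hai.irr h.ng.nrm (A := alg T) fun z hz hc =>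
    hcent z fun g hg x hx => by
      rcases h.conj g hg with h1 | h1
      · exact hc _ (mem_algK (h1 ▸ hx))
      · exact (alg_comm h1 _ (mem_algK hx) _ hz).symm
  have hk2 : 2 ≤ k := two_le_of_range hk hφ h.lt.not_ge
  haveI : Nonempty (Fin k) := ⟨⟨0, hk⟩⟩
  let S : Set (Subgroup (GL ι F)) := {U | ∃ g ∈ G, U = cg g T}
  let t := Nat.card S
  let en : Fin t ≃ S := (Finite.equivFin S).symm
  choose g hg hgT using fun i => (en i).2
  have hinj : ∀ i j, cg (g i) T = cg (g j) T → i = j := fun i j hij =>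
    en.injective (Subtype.ext (by rw [hgT, hgT, hij]))
  have hsurj : ∀ x ∈ G, ∃ i, cg x T = cg (g i) T := fun x hx =>
    ⟨en.symm ⟨cg x T, x, hx, rfl⟩, by rw [← hgT, Equiv.apply_symm_apply]⟩
  let ψ : Fin t → (Matrix (Fin k) (Fin k) F →ₐ[F] Matrix ι ι F) := fun i =>
    (cj (g i)).toAlgHom.comp φ
  have hψ : ∀ i X, ψ i X = cj (g i) (φ X) := fun _ _ => rfl
  have hrange : ∀ i X, X ∈ alg (cg (g i) T) ↔ ∃ Y, X = ψ i Y := fun i X => by
    rw [mem_alg_cg, ← hφ]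
    exact ⟨fun ⟨_, ⟨Y, rfl⟩, h⟩ => ⟨Y, h⟩, fun ⟨Y, h⟩ => ⟨_, ⟨Y, rfl⟩, h⟩⟩
  have hcomm : ∀ i j, i ≠ j → ∀ x ∈ cg (g i) T, ∀ y ∈ cg (g j) T, x * y = y * x := by
    intro i j hij x hx y hy
    rcases h.conj ((g j)⁻¹ * g i) (mul_mem (inv_mem (hg j)) (hg i)) with h1 | h1
    · refine (hij (hinj i j ?_)).elim
      conv_rhs => rw [← h1, ← cg_mul, mul_inv_cancel_left]
    · have := h1 ((g j)⁻¹ * x * g j) (by
        rw [mem_cg] at hx ⊢; simpa [mul_assoc] using hx) _ (mem_cg.1 hy)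
      simpa [← mul_assoc] using (by simpa [mul_assoc] using this : x * (y * g j) = y * (x * g j))
  obtain ⟨e, P, hP⟩ := exists_tr_slot ψ
    (fun i j hij X Y => alg_comm (hcomm i j hij) _ ((hrange i _).2 ⟨X, rfl⟩) _
      ((hrange j _).2 ⟨Y, rfl⟩))
    fun M hM => hcent M fun x hx y hy => by
      obtain ⟨i, hi⟩ := hsurj x hx
      obtain ⟨Y, hY⟩ := (hrange i y).1 (mem_algK (hi ▸ hy))
      rw [hY]; exact hM i Y
  refine ⟨k, t, e, P, hk2, ?_, fun i => ?_, fun i j => ?_, fun x hx => ?_⟩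
  · by_contra hlt
    refine hne (le_antisymm hTN (h.gen T fun x hx => ?_))
    obtain ⟨i, hi⟩ := hsurj x hx
    obtain ⟨j, hj⟩ := hsurj 1 (one_mem _)
    rw [hi, show i = j by ext; omega, ← hj, cg_one']
  · have hle : cg (g i) T ≤ G := (h.conj_le _ (hg i)).trans hNG
    refine ⟨cg (g i) ⁅T, T⁆, ?_, ?_, fun X => ?_⟩
    · simp only [cg, Subgroup.map_commutator]
      exact Subgroup.commutator_mono hle hle
    · simp only [cg]; rw [← Subgroup.map_commutator, cen_scalars.perfect h.sup]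
    · have : alg ⁅T, T⁆ = alg T :=
        le_antisymm (alg_mono T.commutator_le_self)
          (alg_le_of_le_sup h.sup.le)
      rw [mem_alg_cg, this, ← mem_alg_cg, hrange]
      simp only [hP]
  · refine ⟨g j * (g i)⁻¹, mul_mem (hg j) (inv_mem (hg i)), fun X => ?_⟩
    rw [← hP, ← hP, hψ, hψ, cj_mul]; simp
  · choose s hs using fun i => hsurj (x * g i) (mul_mem hx (hg i))
    have hsi : Function.Injective s := fun i j hij => hinj i j (by
      have := (hs i).trans (hij ▸ (hs j).symm)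
      rw [cg_mul, cg_mul] at this
      have := congrArg (cg x⁻¹) this
      simpa [← cg_mul, cg_one'] using this)
    refine ⟨Equiv.ofBijective s hsi.bijective_of_finite, fun i X => ?_⟩
    simp only [← hP, Equiv.ofBijective_apply]
    rw [← hrange, ← hs, cg_mul]
    exact cj_mem_alg_cg _ ((hrange i _).2 ⟨X, rfl⟩)

theorem ai_of_card [Nonempty ι] {d : ℕ} (hd : d = Fintype.card ι)
    {φ : Matrix (Fin d) (Fin d) F →ₐ[F] Matrix ι ι F} {N : Subgroup (GL ι F)}
    (h : φ.range = alg N) : AI N := by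
  have hinj := algHom_injective φ
  have hsurj : Function.Surjective φ.toLinearMap :=
    (LinearMap.injective_iff_surjective_of_finrank_eq_finrank (by
      simp [Module.finrank_matrix, hd])).1 hinj
  rw [AI, ← h, eq_top_iff]
  exact fun X _ => hsurj X

/-- The structure theorem. -/
theorem core [Finite F] {G : Subgroup (GL ι F)} (hn : 2 ≤ Fintype.card ι) (hG : Irr G)
    (hZ : scalars ι F ≤ G) (hC : CS G) :
    (∃ (d m : ℕ) (e : ι ≃ Fin d × Fin m) (P : GL ι F) (N : Subgroup (GL ι F)), TensD G e P N) ∨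
    (∃ N ≤ G, MinN (scalars ι F) G N ∧ Ext N) ∨ (∃ P, QD G P) ∨
    ∃ (k t : ℕ) (e : ι ≃ (Fin t → Fin k)) (P : GL ι F), WrD G e P := by
  haveI : Nonempty ι := Fintype.card_pos_iff.1 (by omega)
  haveI : Finite (GL ι F) := inferInstance
  obtain ⟨N, hNG, hN⟩ := exists_minN (lt_of_le_not_ge hZ (not_le_scalars hG hn)) (NG.self G)
  obtain ⟨d, hd, φ, hφ⟩ := exists_range_eq hG hN.ng.nrm (hC N hNG hN.ng)
  have hd2 := two_le_of_range hd hφ hN.lt.not_ge
  haveI : Nonempty (Fin d) := ⟨⟨0, hd⟩⟩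
  obtain ⟨m, hm⟩ := card_dvd_of_algHom φ
  rw [Fintype.card_fin] at hm
  by_cases hm2 : 2 ≤ m
  · let e : ι ≃ Fin d × Fin m := Fintype.equivOfCardEq (by simp [hm])
    obtain ⟨P, hP⟩ := exists_tr φ e
    refine Or.inl ⟨d, m, e, P, N, hd2, hm2, hNG, hN.ng, fun X => ?_⟩
    rw [← hφ]
    exact ⟨fun ⟨Y, h⟩ => ⟨Y, by rw [← hP]; exact h.symm⟩, fun ⟨Y, h⟩ => ⟨Y, by rw [h, ← hP]; rfl⟩⟩
  have hm1 : m = 1 := by
    rcases Nat.eq_zero_or_pos m with rfl | h
    · omega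
    · omega
  have hai : AI N := ai_of_card (by rw [hm, hm1, mul_one]) hφ
  rcases hN.dichotomy cen_scalars with h | h
  · exact Or.inr (Or.inl ⟨N, hNG, hN, hai, h⟩)
  obtain ⟨T, hT⟩ := hN.exists_comp cen_scalars h
  by_cases hTN : T = N
  · subst hTN
    refine Or.inr (Or.inr (Or.inl ⟨⁅T, T⁆, Subgroup.commutator_mono hNG hNG, hN.ng.commutator,
      hai.of_le_sup h.le, cen_scalars.perfect h,
      isSimpleGroup_quot cen_scalars hT.lt h hT.simple,
      not_comm_quot (cen_scalars.perfect h) fun hle => hT.lt.not_ge ?_⟩))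
    rw [h]; exact sup_le hle le_rfl
  · exact Or.inr (Or.inr (Or.inr (wrD_of_comp hNG hai hT hTN)))

theorem TensD.le_tensor {G N : Subgroup (GL ι F)} {d m : ℕ} {e : ι ≃ Fin d × Fin m} {P : GL ι F}
    (h : TensD G e P N) : G ≤ tensorProductSubgroup d m e P := fun g hg => by
  haveI : Nonempty (Fin d) := ⟨⟨0, by have := h.two_d; omega⟩⟩
  haveI : Nonempty (Fin m) := ⟨⟨0, by have := h.two_m; omega⟩⟩
  exact mem_tensorProductSubgroup_iff.2 (exists_trG_kronG fun X =>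
    (h.alg_eq _).1 (h.ng.nrm g hg _ ((h.alg_eq _).2 ⟨X, rfl⟩)))

theorem WrD.exists_eq {G : Subgroup (GL ι F)} {k t : ℕ} {e : ι ≃ (Fin t → Fin k)} {P : GL ι F}
    (h : WrD G e P) {g : GL ι F} (hg : g ∈ G) : ∃ (σ : Equiv.Perm (Fin t)) (c : Fˣ)
      (a : Fin t → GL (Fin k) F), g = trG e P (sc c * (fperm (Fin k) F σ * ptensG a)) := by
  haveI : Nonempty (Fin k) := ⟨⟨0, by have := h.two_k; omega⟩⟩
  obtain ⟨σ, hσ⟩ := h.perm g hg
  exact ⟨σ, exists_trG_ptensG σ hσ⟩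

theorem WrD.le_wreath {G : Subgroup (GL ι F)} {k t : ℕ} {e : ι ≃ (Fin t → Fin k)} {P : GL ι F}
    (h : WrD G e P) : G ≤ tensorWreathSubgroup k t e P := fun g hg => by
  haveI : NeZero t := ⟨by have := h.two_t; omega⟩
  obtain ⟨σ, c, a, rfl⟩ := h.exists_eq hg
  exact trG_mem_tensorWreathSubgroup e P c σ a

theorem QD.core [Nonempty ι] {H P : Subgroup (GL ι F)} (h : QD (H ⊔ scalars ι F) P)
    (hs : ∀ F₀ : Subfield F, F₀ ≠ ⊤ → ¬ RealisableOver F₀ (matrixSet P)) : IsResidualCore H P where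
  le := (h.le.trans (cen_scalars.commutator_sup_le H)).trans H.commutator_le_self
  normal g hg := h.ng g (Subgroup.mem_sup_left hg)
  perfect := h.perfect
  simple := h.simple
  nonabelian := h.nonabelian
  centralizer_scalar g _ hc := h.ai.mem_scalars fun x hx =>
    (cen_scalars.comm_of_commutator (T := P) hc x (by rwa [h.perfect])).symm
  absIrred := h.ai.abs
  no_subfield := hs

theorem exists_rat_of_realisable {F₀ : Subfield F} {N : Subgroup (GL ι F)}
    (h : RealisableOver F₀ (matrixSet N)) :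
    ∃ P : GL ι F, ∀ x ∈ N, Rat F₀ (cj P⁻¹ (x : Matrix ι ι F)) := by
  obtain ⟨B, hB⟩ := h
  exact ⟨B⁻¹, fun x hx => by rw [inv_inv]; exact hB _ ⟨x, hx, rfl⟩⟩

end H23.As
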