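import Cfsg.Agent.H23.As7
import Cfsg.Agent.H23.Classify

/-!
Aschbacher's theorem, part 8: types of invariant forms, transport of forms.
-/

set_option autoImplicit false

namespace H23.As

open Matrix Module Cfsg.Geo
open scoped MatrixGroups commutatorElement Kronecker

variable {ι : Type} [Fintype ι] [DecidableEq ι] {F : Type*} [Field F]

/-- The bilinear form with Gram matrix `B`. -/
abbrev fb (B : Matrix ι ι F) : (ι → F) → (ι → F) → F := formOfGram (RingHom.id F) B

/-- Alternating Gram matrix. -/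
def Alt (B : Matrix ι ι F) : Prop := ∀ v, fb B v v = 0

theorem fb_swap (B : Matrix ι ι F) (u v : ι → F) : fb B u v = fb Bᵀ v u :=
  fog_swap (σ := RingHom.id F) (fun _ => rfl) B u v

theorem fog_neg {σ : F →+* F} (B : Matrix ι ι F) (u v : ι → F) :
    formOfGram σ (-B) u v = - formOfGram σ B u v := by
  simpa using fog_smul (σ := σ) (-1) B u v

theorem fog_add {σ : F →+* F} (B B' : Matrix ι ι F) (u v : ι → F) :
    formOfGram σ (B + B') u v = formOfGram σ B u v + formOfGram σ B' u v := by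
  simp [fog_eq, add_mulVec]

theorem Alt.skew {B : Matrix ι ι F} (h : Alt B) (u v : ι → F) : fb B u v = - fb B v u := by
  have := h (u + v)
  simp only [fb, fog_add_left, fog_add_right] at this
  have h1 := h u
  have h2 := h v
  simp only [fb] at h1 h2 ⊢
  linear_combination this - h1 - h2

theorem Alt.transpose {B : Matrix ι ι F} (h : Alt B) : Bᵀ = -B :=
  fog_inj (σ := RingHom.id F) fun u v => by rw [fog_neg, ← h.skew v u]; exact (fb_swap B v u).symm

theorem Alt.diag {B : Matrix ι ι F} (h : Alt B) (i : ι) : B i i = 0 :=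
  (fog_single (σ := RingHom.id F) B i i).symm.trans (h _)

theorem alt_of_skew {B : Matrix ι ι F} (h : Bᵀ = -B) (hd : ∀ i, B i i = 0) : Alt B := by
  intro v
  have h' : ∀ i j, B j i = - B i j := fun i j => congrFun (congrFun h i) j
  simp only [fb, formOfGram, RingHom.id_apply]
  rw [← Finset.sum_product']
  refine Finset.sum_involution (fun p _ => p.swap) (fun p _ => ?_) (fun p _ hp he => hp ?_)
    (fun _ _ => by simp) (fun _ _ => rfl)
  · simp only [Prod.fst_swap, Prod.snd_swap, h' p.1 p.2]; ring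
  · have : p.1 = p.2 := by simpa using (congrArg Prod.fst he).symm
    rw [this, hd]; simp

theorem alt_of_skew' (h2 : (2 : F) ≠ 0) {B : Matrix ι ι F} (h : Bᵀ = -B) : Alt B :=
  alt_of_skew h fun i => by
    have : B i i = - B i i := congrFun (congrFun h i) i
    exact (mul_eq_zero.1 (show 2 * B i i = 0 by linear_combination this)).resolve_left h2

theorem Alt.smul {B : Matrix ι ι F} (h : Alt B) (c : F) : Alt (c • B) := fun v => by
  have := h v; simp only [fb] at this ⊢; rw [fog_smul, this, mul_zero]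

theorem Alt.isSymplecticForm {B : Matrix ι ι F} (h : Alt B) (hB : IsUnit B) :
    IsSymplecticForm (fb B) := ⟨bilin_fog B, h.skew, h, nondeg_fog hB⟩

theorem Alt.even_card {B : Matrix ι ι F} (h : Alt B) (hB : IsUnit B) : Even (Fintype.card ι) := by
  have e : ∀ u v, Matrix.toBilin' B u v = fb B u v := fun u v => by
    simp [toBilin'_apply, formOfGram]
  have := even_finrank_of_alt (B := Matrix.toBilin' B) (fun v => (e v v).trans (h v))
    fun x hx => by
      by_contra h0
      obtain ⟨y, hy⟩ := exists_fog_right (σ := RingHom.id F) hB h0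
      exact hy ((e x y).symm.trans (hx y))
  simpa using this

theorem IsSymplecticForm.gram {f : (ι → F) → (ι → F) → F} (h : IsSymplecticForm f) :
    ∃ B, IsUnit B ∧ Alt B ∧ f = fb B := by
  have e := eq_fog_of_bilin h.bilinear
  refine ⟨gramMatrix f, isUnit_of_fog (σ := RingHom.id F) fun v hv => ?_, fun v => ?_, e⟩
  · rw [← e]; exact (h.nondegenerate v hv).2
  · simp only [fb]; rw [← e]; exact h.alternating v

theorem even_card_of_symplectic {f : (ι → F) → (ι → F) → F} (h : IsSymplecticForm f) :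
    Even (Fintype.card ι) := by
  obtain ⟨B, hB, ha, -⟩ := IsSymplecticForm.gram h
  exact ha.even_card hB

theorem polar_fb {B : Matrix ι ι F} (h : Bᵀ = B) (u v : ι → F) :
    QuadraticMap.polar (fun v => fb B v v) u v = fb ((2 : F) • B) u v := by
  have := fb_swap B v u
  simp only [QuadraticMap.polar, fb, fog_add_left, fog_add_right, fog_smul, h] at this ⊢
  linear_combination this

theorem isUnit_smul {c : F} (hc : c ≠ 0) {B : Matrix ι ι F} (hB : IsUnit B) : IsUnit (c • B) := by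
  rw [← Matrix.one_mul B, ← Matrix.smul_mul, ← Units.val_mk0 hc, ← sc_val]
  exact (Units.isUnit _).mul hB

theorem isNondeg_quad {B : Matrix ι ι F} (h2 : (2 : F) ≠ 0) (h : Bᵀ = B) (hB : IsUnit B) :
    IsNondegenerateQuadraticForm fun v => fb B v v := by
  have e : QuadraticMap.polar (fun v => fb B v v) = fb ((2 : F) • B) := by
    ext u v; exact polar_fb h u v
  refine ⟨fun c v => ?_, e ▸ bilin_fog _, e ▸ nondeg_fog (isUnit_smul h2 hB)⟩
  simp only [fb, fog_smul_left, fog_smul_right, RingHom.id_apply]; ring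

theorem sim_le_quadSim (f : (ι → F) → (ι → F) → F) :
    similarityGroup f ≤ quadSimilarityGroup fun v => f v v :=
  fun _ ⟨c, hc⟩ => ⟨c, fun v => hc v v⟩

theorem quadSim_le_sim (Q : (ι → F) → F) :
    quadSimilarityGroup Q ≤ similarityGroup (QuadraticMap.polar Q) := fun g ⟨c, hc⟩ =>
  ⟨c, fun u v => by simp only [QuadraticMap.polar, ← mulVec_add, hc]; ring⟩

theorem IsNondegenerateQuadraticForm.gram {Q : (ι → F) → F} (h : IsNondegenerateQuadraticForm Q) :
    ∃ B, IsUnit B ∧ Bᵀ = B ∧ QuadraticMap.polar Q = fb B := by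
  have e := eq_fog_of_bilin h.polar_bilinear
  refine ⟨gramMatrix (QuadraticMap.polar Q), isUnit_of_fog (σ := RingHom.id F) fun v hv => ?_,
    ?_, e⟩
  · rw [← e]; exact (h.nondegenerate v hv).2
  · ext i j; exact QuadraticMap.polar_comm _ _ _

theorem fixes_polar {Q : (ι → F) → F} {S : Set (Matrix ι ι F)} (h : FixesQuadForm S Q) :
    FixesForm S (QuadraticMap.polar Q) := fun s hs u v => by
  simp only [QuadraticMap.polar, ← mulVec_add, h s hs]

theorem IsUnitaryForm.gram {σ : F ≃+* F} {f : (ι → F) → (ι → F) → F} (h : IsUnitaryForm σ f) :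
    ∃ B, IsUnit B ∧ (B.map σ)ᵀ = B ∧ f = formOfGram (σ : F →+* F) B := by
  have e := eq_fog_of_herm (σ := (σ : F →+* F)) h.involutive h.add_left h.smul_left h.herm
  refine ⟨gramMatrix f, isUnit_of_fog (σ := (σ : F →+* F)) fun v hv => ?_, ?_, e⟩
  · rw [← e]; exact (h.nondegenerate v hv).2
  · ext i j; exact (h.herm _ _).symm

/-- An involutive ring map as a ring isomorphism. -/
def invEquiv (σ : F →+* F) (hσ : ∀ a, σ (σ a) = a) : F ≃+* F :=
  { σ with invFun := σ, left_inv := hσ, right_inv := hσ }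

theorem isUnitaryForm_fog {σ : F →+* F} (hσ : ∀ a, σ (σ a) = a) (h1 : σ ≠ RingHom.id F)
    {B : Matrix ι ι F} (hB : IsUnit B) (hh : (B.map σ)ᵀ = B) :
    IsUnitaryForm (invEquiv σ hσ) (formOfGram σ B) :=
  ⟨fun h => h1 (RingHom.ext fun a => congrArg (fun e : F ≃+* F => e a) h), hσ, fog_add_left B,
    fog_smul_left B, fun v w => by
      show _ = σ _
      rw [fog_swap hσ, hh], nondeg_fog hB⟩

theorem herm_smul {σ : F →+* F} (hσ : ∀ a, σ (σ a) = a) (h1 : σ ≠ RingHom.id F)
    {B : Matrix ι ι F} {c : F} (h : (B.map σ)ᵀ = c • B) :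
    ∃ l : F, l ≠ 0 ∧ ((l • B).map σ)ᵀ = l • B := by
  have key : ∀ a : F, (((a + σ a * c) • B).map σ)ᵀ = (a + σ a * c) • B := fun a => by
    have e : (a + σ a * c) • B = a • B + σ a • (B.map σ)ᵀ := by
      rw [h, add_smul, smul_smul]
    rw [e]; ext i j; simp [hσ, add_comm]
  by_cases hc : 1 + c = 0
  · obtain ⟨a, ha⟩ : ∃ a, σ a ≠ a := by
      by_contra hh; push Not at hh; exact h1 (RingHom.ext hh)
    refine ⟨_, fun h0 => ha ?_, key a⟩
    linear_combination -h0 + σ a * hc
  · exact ⟨_, by simpa using hc, key 1⟩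

theorem sim_smul {σ : F →+* F} {c : F} (hc : c ≠ 0) (B : Matrix ι ι F) :
    similarityGroup (formOfGram σ (c • B)) = similarityGroup (formOfGram σ B) := by
  ext g
  simp only [mem_similarityGroup_fog, Matrix.mul_smul, Matrix.smul_mul]
  refine exists_congr fun d => ?_
  rw [smul_comm (d : F) c]
  exact (smul_right_injective _ hc).eq_iff

theorem AI.exists_herm {N : Subgroup (GL ι F)} (h : AI N) {σ : F →+* F} (hσ : ∀ a, σ (σ a) = a)
    (h1 : σ ≠ RingHom.id F) {B : Matrix ι ι F} (hB : IsUnit B) (hi : Inv σ B N) :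
    ∃ B' : Matrix ι ι F, IsUnit B' ∧ (B'.map σ)ᵀ = B' ∧ Inv σ B' N := by
  obtain ⟨c, hc⟩ := h.eq_smul hB hi (hi.swap hσ)
  obtain ⟨l, hl, hh⟩ := herm_smul hσ h1 hc
  exact ⟨l • B, isUnit_smul hl hB, hh, hi.smul l⟩

theorem eq_or_of_transpose_eq_smul {B : Matrix ι ι F} (hB : B ≠ 0) {c : F} (h : Bᵀ = c • B) :
    Bᵀ = B ∨ Bᵀ = -B := by
  have : (c * c - 1) • B = 0 := by
    rw [sub_smul, ← smul_smul, ← h, ← transpose_smul, ← h]; simp
  rcases mul_self_eq_one_iff.1 (sub_eq_zero.1 ((smul_eq_zero.1 this).resolve_right hB)) with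
    rfl | rfl
  · exact Or.inl (by simpa using h)
  · exact Or.inr (by simpa using h)

/-- In characteristic two, the isotropic vectors of a symmetric form form a subspace. -/
def isoSub (h2 : (2 : F) = 0) {B : Matrix ι ι F} (h : Bᵀ = B) : Submodule F (ι → F) where
  carrier := {v | fb B v v = 0}
  add_mem' {u v} hu hv := by
    have := fb_swap B v u
    simp only [Set.mem_ofPred_eq, fb, fog_add_left, fog_add_right, h] at *
    linear_combination hu + hv + this + formOfGram (RingHom.id F) B u v * h2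
  zero_mem' := by simp
  smul_mem' c v hv := by
    simp only [Set.mem_ofPred_eq, fb, fog_smul_left, fog_smul_right] at *
    rw [hv, mul_zero, mul_zero]

theorem isoSub_ne_bot [Finite F] (hn : 2 ≤ Fintype.card ι) (h2 : (2 : F) = 0) {B : Matrix ι ι F}
    (h : Bᵀ = B) : isoSub h2 h ≠ ⊥ := by
  obtain ⟨i, j, hij⟩ := Fintype.exists_pair_of_one_lt_card hn
  haveI : CharP F 2 := CharTwo.of_one_ne_zero_of_two_eq_zero one_ne_zero h2
  rw [Submodule.ne_bot_iff]
  by_cases hi : B i i = 0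
  · exact ⟨Pi.single i 1, (fog_single B i i).trans hi, fun h0 => by simpa using congrFun h0 i⟩
  obtain ⟨x, hx⟩ := isSquare_of_charTwo' (B j j / B i i)
  refine ⟨x • Pi.single i 1 + Pi.single j 1, ?_, fun h0 => by simpa [hij, hij.symm] using congrFun h0 j⟩
  have : B j i = B i j := congrFun (congrFun h i) j
  show fb B _ _ = 0
  simp only [fb, fog_add_left, fog_add_right, fog_smul_left, fog_smul_right, fog_single, this,
    RingHom.id_apply]
  field_simp at hx
  linear_combination hx + (x * x * B i i + x * B i j) * h2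

theorem Irr.alt_of_two [Finite F] {G : Subgroup (GL ι F)} (hG : Irr G) (hn : 2 ≤ Fintype.card ι)
    (h2 : (2 : F) = 0) {B : Matrix ι ι F} (h : Bᵀ = B) (hs : G ≤ similarityGroup (fb B)) :
    Alt B := by
  have := (hG (isoSub h2 h) fun g hg v hv => by
    obtain ⟨c, hc⟩ := hs hg
    show fb B _ _ = 0
    rw [hc, show fb B v v = 0 from hv, mul_zero]).resolve_left (isoSub_ne_bot hn h2 h)
  exact fun v => (this ▸ Submodule.mem_top : v ∈ isoSub h2 h)

theorem Inv.le_sim {σ : F →+* F} {B : Matrix ι ι F} {N : Subgroup (GL ι F)} (h : Inv σ B N) :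
    N ≤ similarityGroup (formOfGram σ B) :=
  fun x hx => mem_similarityGroup_fog.2 ⟨1, by simpa using h x hx⟩

theorem Irr.symm_or_alt [Finite F] {G : Subgroup (GL ι F)} (hG : Irr G) (hn : 2 ≤ Fintype.card ι)
    {B : Matrix ι ι F} (h : Bᵀ = B ∨ Bᵀ = -B) (hs : G ≤ similarityGroup (fb B)) :
    ((2 : F) ≠ 0 ∧ Bᵀ = B) ∨ Alt B := by
  by_cases h2 : (2 : F) = 0
  · refine Or.inr (hG.alt_of_two hn h2 ?_ hs)
    rcases h with h | h
    · exact h
    · rw [h]; ext i j; rw [Matrix.neg_apply]; linear_combination - B i j * h2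
  · exact h.imp (fun h => ⟨h2, h⟩) (alt_of_skew' h2)

theorem AI.symm_or_alt [Finite F] {N : Subgroup (GL ι F)} (h : AI N) (hn : 2 ≤ Fintype.card ι)
    {B : Matrix ι ι F} (hB : IsUnit B) (hi : Inv (RingHom.id F) B N) :
    ((2 : F) ≠ 0 ∧ Bᵀ = B) ∨ Alt B := by
  haveI : Nonempty ι := Fintype.card_pos_iff.1 (by omega)
  obtain ⟨c, hc⟩ := h.eq_smul hB hi (hi.swap fun _ => rfl)
  exact h.irr.symm_or_alt hn (eq_or_of_transpose_eq_smul hB.ne_zero (by simpa using hc)) hi.le_sim

/-! ### Transport of forms -/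

section TrF

variable {κ : Type} [Fintype κ] [DecidableEq κ] {σ : F →+* F}

/-- `B₀` is the Gram matrix of the form with Gram matrix `B` in the coordinates `(e, P)`. -/
def TrF (σ : F →+* F) (e : ι ≃ κ) (P : GL ι F) (B : Matrix ι ι F) (B₀ : Matrix κ κ F) : Prop :=
  ∀ x y : κ → F, formOfGram σ B ((P : Matrix ι ι F) *ᵥ (x ∘ e)) ((P : Matrix ι ι F) *ᵥ (y ∘ e)) =
    formOfGram σ B₀ x y

variable {e : ι ≃ κ} {P : GL ι F} {B : Matrix ι ι F} {B₀ : Matrix κ κ F}

theorem fog_submatrix (e : ι ≃ κ) (B₀ : Matrix κ κ F) (x y : κ → F) :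
    formOfGram σ (B₀.submatrix e e) (x ∘ e) (y ∘ e) = formOfGram σ B₀ x y := by
  simp only [formOfGram, Function.comp, submatrix_apply]
  rw [← e.sum_comp]
  exact Finset.sum_congr rfl fun _ _ => e.sum_comp fun b => x _ * B₀ _ b * σ (y b)

theorem exists_trF_left (σ : F →+* F) (e : ι ≃ κ) (P : GL ι F) (B₀ : Matrix κ κ F) :
    ∃ B, TrF σ e P B B₀ :=
  ⟨((P⁻¹ : GL ι F) : Matrix ι ι F)ᵀ * B₀.submatrix e e * ((P⁻¹ : GL ι F) : Matrix ι ι F).map σ,
    fun x y => by rw [← fog_mulVec, val_inv_mulVec_mulVec, val_inv_mulVec_mulVec, fog_submatrix]⟩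

theorem exists_trF_right (σ : F →+* F) (e : ι ≃ κ) (P : GL ι F) (B : Matrix ι ι F) :
    ∃ B₀, TrF σ e P B B₀ :=
  ⟨((P : Matrix ι ι F)ᵀ * B * (P : Matrix ι ι F).map σ).submatrix e.symm e.symm,
    fun x y => by rw [fog_mulVec, ← fog_submatrix e]; simp⟩

theorem coord_ne_zero {x : κ → F} (hx : x ≠ 0) : (P : Matrix ι ι F) *ᵥ (x ∘ e) ≠ 0 :=
  fun h => hx (coord_inj e P (by rw [h]; simp))

theorem TrF.isUnit_iff (h : TrF σ e P B B₀) : IsUnit B ↔ IsUnit B₀ := by
  refine ⟨fun hB => isUnit_of_fog (σ := σ) fun v hv => ?_,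
    fun hB => isUnit_of_fog (σ := σ) fun v hv => ?_⟩
  · obtain ⟨w, hw⟩ := exists_fog_right (σ := σ) hB (coord_ne_zero (e := e) (P := P) hv)
    obtain ⟨y, rfl⟩ := exists_coord e P w
    exact ⟨y, by rwa [← h]⟩
  · obtain ⟨x, rfl⟩ := exists_coord e P v
    obtain ⟨y, hy⟩ := exists_fog_right (σ := σ) hB (v := x) (by rintro rfl; simp at hv)
    exact ⟨_, by rwa [h]⟩

theorem TrF.smul (h : TrF σ e P B B₀) (c : F) : TrF σ e P (c • B) (c • B₀) :=
  fun x y => by rw [fog_smul, fog_smul, h]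

theorem TrF.eq_iff {B' : Matrix ι ι F} {B₀' : Matrix κ κ F} (h : TrF σ e P B B₀)
    (h' : TrF σ e P B' B₀') : B = B' ↔ B₀ = B₀' := by
  refine ⟨fun e => fog_inj (σ := σ) fun x y => by rw [← h, ← h', e],
    fun e' => fog_inj (σ := σ) fun u v => ?_⟩
  obtain ⟨x, rfl⟩ := exists_coord e P u
  obtain ⟨y, rfl⟩ := exists_coord e P v
  rw [h, h', e']

theorem TrF.swap (hσ : ∀ a, σ (σ a) = a) (h : TrF σ e P B B₀) :
    TrF σ e P (B.map σ)ᵀ (B₀.map σ)ᵀ :=
  fun x y => by rw [← fog_swap hσ, ← fog_swap hσ, h]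

theorem TrF.transpose (h : TrF (RingHom.id F) e P B B₀) : TrF (RingHom.id F) e P Bᵀ B₀ᵀ := by
  simpa using h.swap fun _ => rfl

theorem TrF.mul (h : TrF σ e P B B₀) (X Y : Matrix κ κ F) :
    TrF σ e P ((tr e P X)ᵀ * B * (tr e P Y).map σ) (Xᵀ * B₀ * Y.map σ) :=
  fun x y => by rw [← fog_mulVec, ← fog_mulVec, tr_mulVec, tr_mulVec, h]

theorem TrF.alt_iff (h : TrF (RingHom.id F) e P B B₀) : Alt B ↔ Alt B₀ := by
  refine ⟨fun hB x => (h x x).symm.trans (hB _), fun hB v => ?_⟩
  obtain ⟨x, rfl⟩ := exists_coord e P v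
  exact (h x x).trans (hB x)

theorem TrF.mem_sim_iff (h : TrF σ e P B B₀) {y : GL κ F} :
    trG e P y ∈ similarityGroup (formOfGram σ B) ↔ y ∈ similarityGroup (formOfGram σ B₀) := by
  simp only [mem_similarityGroup_fog]
  exact exists_congr fun c => (h.mul y y).eq_iff (h.smul c)

end TrF

/-! ### Tensor products of forms -/

section Tens

variable {κ : Type} [Fintype κ] [DecidableEq κ] {σ : F →+* F} {t : ℕ}

theorem fperm_mem_sim (B : Matrix κ κ F) (s : Equiv.Perm (Fin t)) :
    fperm κ F s ∈ similarityGroup (formOfGram σ (ptens fun _ : Fin t => B)) := by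
  refine mem_similarityGroup_fog.2 ⟨1, ?_⟩
  have e1 : ((fperm κ F s : GL (Fin t → κ) F) : Matrix (Fin t → κ) (Fin t → κ) F) = fpermM κ F s :=
    rfl
  have e2 : (fpermM κ F s).map σ = fpermM κ F s := by
    ext x y; simp only [fpermM, map_apply, of_apply]; split_ifs <;> simp
  ext x y
  rw [e1, e2, mul_fpermM, ← transpose_transpose (_ * _), transpose_mul, transpose_transpose,
    transpose_apply, mul_fpermM]
  simp only [transpose_apply, ptens_apply, Function.comp, Units.val_one, one_smul]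
  exact s.symm.prod_comp fun i => B (x i) (y i)

theorem ptensG_mem_sim {B : Fin t → Matrix κ κ F} {a : Fin t → GL κ F}
    (h : ∀ i, a i ∈ similarityGroup (formOfGram σ (B i))) :
    ptensG a ∈ similarityGroup (formOfGram σ (ptens B)) := by
  choose c hc using fun i => mem_similarityGroup_fog.1 (h i)
  refine mem_similarityGroup_fog.2 ⟨∏ i, c i, ?_⟩
  rw [ptensG_val, ptens_transpose, ptens_map, ptens_mul, ptens_mul]
  simp only [hc, ptens_smul, Units.coe_prod]

theorem isUnit_ptens {B : Fin t → Matrix κ κ F} (h : ∀ i, IsUnit (B i)) : IsUnit (ptens B) := by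
  choose u hu using h
  exact ⟨ptensG u, by rw [ptensG_val]; simp only [hu]⟩

/-- The standard alternating matrix in dimension two. -/
def J2 (F : Type*) [Field F] : Matrix (Fin 2) (Fin 2) F := !![0, 1; -1, 0]

theorem J2_conj (a : Matrix (Fin 2) (Fin 2) F) : aᵀ * J2 F * a = a.det • J2 F := by
  ext i j
  fin_cases i <;> fin_cases j <;> simp [J2, Matrix.mul_apply, Fin.sum_univ_two, det_fin_two] <;> ring

theorem isUnit_J2 : IsUnit (J2 F) := by
  rw [isUnit_iff_isUnit_det]; simp [J2, det_fin_two]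

theorem J2_transpose : (J2 F)ᵀ = - J2 F := by
  ext i j; fin_cases i <;> fin_cases j <;> simp [J2]

theorem J2_diag (i : Fin 2) : J2 F i i = 0 := by fin_cases i <;> simp [J2]

theorem mem_sim_J2 (a : GL (Fin 2) F) : a ∈ similarityGroup (fb (J2 F)) :=
  mem_similarityGroup_fog.2 ⟨Matrix.GeneralLinearGroup.det a, by simpa using J2_conj _⟩

theorem wreath_two_le_sim [NeZero t] (e : ι ≃ (Fin t → Fin 2)) (P : GL ι F) :
    ∃ B, IsUnit B ∧ (((2 : F) ≠ 0 ∧ Bᵀ = B) ∨ Alt B) ∧
      tensorWreathSubgroup 2 t e P ≤ similarityGroup (fb B) := by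
  obtain ⟨B, hB⟩ := exists_trF_left (RingHom.id F) e P (ptens fun _ => J2 F)
  refine ⟨B, hB.isUnit_iff.2 (isUnit_ptens fun _ => isUnit_J2), ?_, fun g hg => ?_⟩
  · have h1 : (ptens fun _ : Fin t => J2 F)ᵀ = (-1 : F) ^ t • ptens fun _ : Fin t => J2 F := by
      have := ptens_smul (fun _ : Fin t => (-1 : F)) fun _ => J2 F
      simpa [ptens_transpose, J2_transpose] using this
    have h2 : ∀ x, (ptens fun _ : Fin t => J2 F) x x = 0 := fun x => by
      rw [ptens_apply]; exact Finset.prod_eq_zero (Finset.mem_univ 0) (J2_diag _)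
    rw [hB.alt_iff, hB.transpose.eq_iff hB]
    rcases neg_one_pow_eq_or F t with h | h <;> rw [h] at h1
    · by_cases h0 : (2 : F) = 0
      · refine Or.inr (alt_of_skew ?_ h2)
        rw [h1]; ext x y; rw [one_smul, Matrix.neg_apply]
        linear_combination (ptens fun _ : Fin t => J2 F) x y * h0
      · exact Or.inl ⟨h0, by simpa using h1⟩
    · exact Or.inr (alt_of_skew (by simpa using h1) h2)
  · have := tensorWreathStandard_le (S := similarityGroup (fb (ptens fun _ : Fin t => J2 F)))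
      (fun a => ptensG_mem_sim fun i => mem_sim_J2 _) (fperm_mem_sim _) (mem_map_tr.1 hg)
    rwa [← hB.mem_sim_iff, MulEquiv.apply_symm_apply] at this

theorem tr_kron_eq_ptens (e : ι ≃ κ × κ) (P : GL ι F) (X Y : Matrix κ κ F) :
    tr e P (X ⊗ₖ Y) = tr (e.trans (finTwoArrowEquiv κ).symm) P (ptens ![X, Y]) := by
  rw [tr_apply, tr_apply]; congr 1; ext i j; simp [ptens_apply, Fin.prod_univ_two]

theorem tensor_le_wreath {d : ℕ} (e : ι ≃ Fin d × Fin d) (P : GL ι F) :
    tensorProductSubgroup d d e P ≤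
      tensorWreathSubgroup d 2 (e.trans (finTwoArrowEquiv _).symm) P := fun g hg => by
  obtain ⟨a, b, rfl⟩ := mem_tensorProductSubgroup_iff.1 hg
  have := trG_mem_tensorWreathSubgroup (e.trans (finTwoArrowEquiv _).symm) P 1 1 ![a, b]
  convert this using 1
  refine Units.ext ?_
  have e1 : fperm (Fin d) F (1 : Equiv.Perm (Fin 2)) = 1 := by
    refine Units.ext ?_
    ext x y
    show fpermM _ _ _ x y = _
    simp [fpermM, one_apply, eq_comm]
  rw [e1, sc_one, one_mul, one_mul, trG_val, trG_val, kronG_val, tr_kron_eq_ptens, ptensG_val]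
  congr 2

theorem tr_kron_swap {μ : Type} [Fintype μ] [DecidableEq μ] (e : ι ≃ κ × μ) (P : GL ι F)
    (X : Matrix κ κ F) (Y : Matrix μ μ F) :
    tr e P (X ⊗ₖ Y) = tr (e.trans (Equiv.prodComm κ μ)) P (Y ⊗ₖ X) := by
  rw [tr_apply, tr_apply]; congr 1; ext i j; simp [mul_comm]

theorem tensor_le_swap {d m : ℕ} (e : ι ≃ Fin d × Fin m) (P : GL ι F) :
    tensorProductSubgroup d m e P ≤ tensorProductSubgroup m d (e.trans (Equiv.prodComm _ _)) P :=
  fun g hg => by
    obtain ⟨a, b, rfl⟩ := mem_tensorProductSubgroup_iff.1 hg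
    exact mem_tensorProductSubgroup_iff.2 ⟨b, a, Units.ext (tr_kron_swap e P _ _)⟩

end Tens

end H23.As
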