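import Cfsg.Agent.H23.As8

/-!
Aschbacher's theorem, part 9: the linear case.
-/

set_option autoImplicit false

namespace H23.As

open Matrix Module Cfsg.Geo
open scoped MatrixGroups commutatorElement Kronecker

variable {ι : Type} [Fintype ι] [DecidableEq ι] {F : Type*} [Field F]

/-- The centre of a subalgebra. -/
def ctr (A : Subalgebra F (Matrix ι ι F)) : Subalgebra F (Matrix ι ι F) :=
  A ⊓ Subalgebra.centralizer F (A : Set (Matrix ι ι F))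

theorem mem_ctr {A : Subalgebra F (Matrix ι ι F)} {z : Matrix ι ι F} :
    z ∈ ctr A ↔ z ∈ A ∧ ∀ a ∈ A, z * a = a * z :=
  and_congr_right fun _ => ⟨fun h a ha => (h a ha).symm, fun h a ha => (h a ha).symm⟩

theorem ctr_comm (A : Subalgebra F (Matrix ι ι F)) : ∀ x ∈ ctr A, ∀ y ∈ ctr A, x * y = y * x :=
  fun _ hx _ hy => (mem_ctr.1 hx).2 _ (mem_ctr.1 hy).1

theorem Nrm.ctr {G : Subgroup (GL ι F)} {A : Subalgebra F (Matrix ι ι F)} (h : Nrm G A) :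
    Nrm G (ctr A) := fun g hg z hz => by
  rw [mem_ctr] at hz ⊢
  refine ⟨h g hg z hz.1, fun a ha => ?_⟩
  have := congrArg (cj g) (hz.2 _ (h g⁻¹ (inv_mem hg) a ha))
  simpa [map_mul] using this

theorem finrank_ne_one {C : Subalgebra F (Matrix ι ι F)} {z : Matrix ι ι F} (hz : z ∈ C)
    (hz' : ¬ ∃ c : F, z = c • 1) : finrank F C ≠ 1 := fun h => by
  rw [Subalgebra.eq_bot_of_finrank_one h, Algebra.mem_bot] at hz
  obtain ⟨c, rfl⟩ := hz
  exact hz' ⟨c, Algebra.algebraMap_eq_smul_one c⟩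

theorem Nrm.exists_field [Fintype F] [Nonempty ι] {G : Subgroup (GL ι F)}
    {C : Subalgebra F (Matrix ι ι F)} (hn : Nrm G C) (hc : ∀ x ∈ C, ∀ y ∈ C, x * y = y * x)
    (hf : ∀ x ∈ C, x ≠ 0 → ∃ y ∈ C, x * y = 1) {d : ℕ} (hd : d ∣ finrank F C) :
    ∃ K : Subalgebra F (Matrix ι ι F), IsFieldSubalgebra d K ∧ Nrm G K ∧
      ∀ x, x ∈ K ↔ x ∈ C ∧ x ^ (Fintype.card F ^ d) = x := by
  obtain ⟨K, hK, hK'⟩ := exists_fieldSubalgebra hc hf hd
  refine ⟨K, hK, fun g hg x hx => ?_, hK'⟩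
  rw [hK'] at hx ⊢
  exact ⟨hn g hg x hx.1, by rw [← map_pow, hx.2]⟩

theorem AI.exists_c5 [Fintype F] [Nonempty ι] {G N : Subgroup (GL ι F)} (h : AI N) (hn : NG G N)
    {F₀ : Subfield F} (hF : F₀ ≠ ⊤) {P : GL ι F} (hP : ∀ x ∈ N, Rat F₀ (cj P⁻¹ (x : Matrix ι ι F))) :
    ∃ (F₁ : Subfield F) (r : ℕ), r.Prime ∧ Fintype.card F = Nat.card F₁ ^ r ∧ F₀ ≤ F₁ ∧
      G ≤ subfieldSubgroup F₁ P := by
  obtain ⟨F₁, r, h1, h2, h3⟩ := exists_subfield_prime hF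
  exact ⟨F₁, r, h2, h3, h1, fun g hg =>
    subfieldSubgroup_mono h1 P (h.mem_subfieldSubgroup hP (hn g hg))⟩

/-- Containment in a geometric subgroup, linear case. -/
def LinG [Fintype F] (G : Subgroup (GL ι F)) : Prop :=
  (∃ W : Submodule F (ι → F), W ≠ ⊥ ∧ W ≠ ⊤ ∧ G ≤ subspaceStabilizer W) ∨
  (∃ (t m : ℕ) (D : Fin t → Submodule F (ι → F)), IsMDecomposition m D ∧
    G ≤ decompositionStabilizer D) ∨
  (∃ (r : ℕ) (K : Subalgebra F (Matrix ι ι F)), r.Prime ∧ IsFieldSubalgebra r K ∧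
    G ≤ subalgebraNormalizer K) ∨
  (∃ (n₁ n₂ : ℕ) (e : ι ≃ Fin n₁ × Fin n₂) (P : GL ι F), 2 ≤ n₁ ∧ n₁ < n₂ ∧
    G ≤ tensorProductSubgroup n₁ n₂ e P) ∨
  (∃ (F₀ : Subfield F) (r : ℕ) (P : GL ι F), r.Prime ∧ Fintype.card F = Nat.card F₀ ^ r ∧
    G ≤ subfieldSubgroup F₀ P) ∨
  (∃ (r : ℕ) (R : Subgroup (GL ι F)) (k : ℕ), IsLinearSymplecticTypeData r R ∧
    Fintype.card ι = r ^ k ∧ G ≤ subgroupNormalizer R) ∨
  (∃ (m t : ℕ) (e : ι ≃ (Fin t → Fin m)) (P : GL ι F), 3 ≤ m ∧ 2 ≤ t ∧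
    G ≤ tensorWreathSubgroup m t e P) ∨
  (∃ f : (ι → F) → (ι → F) → F, IsSymplecticForm f ∧ G ≤ similarityGroup f) ∨
  (∃ (σ : F ≃+* F) (f : (ι → F) → (ι → F) → F), IsUnitaryForm σ f ∧ G ≤ similarityGroup f) ∨
  (Odd (Fintype.card F) ∧ ∃ Q : (ι → F) → F, IsNondegenerateQuadraticForm Q ∧
    G ≤ quadSimilarityGroup Q)

variable [Fintype F] {G : Subgroup (GL ι F)}

theorem LinG.mono {H : Subgroup (GL ι F)} (h : LinG G) (hle : H ≤ G) : LinG H := by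
  rcases h with ⟨W, h1, h2, h⟩ | ⟨t, m, D, h1, h⟩ | ⟨r, K, h1, h2, h⟩ | ⟨a, b, e, P, h1, h2, h⟩ |
    ⟨F₀, r, P, h1, h2, h⟩ | ⟨r, R, k, h1, h2, h⟩ | ⟨a, b, e, P, h1, h2, h⟩ | ⟨f, h1, h⟩ |
    ⟨σ, f, h1, h⟩ | ⟨h0, Q, h1, h⟩ <;> have h' := hle.trans h
  · exact .inl ⟨W, h1, h2, h'⟩
  · exact .inr (.inl ⟨t, m, D, h1, h'⟩)
  · exact .inr (.inr (.inl ⟨r, K, h1, h2, h'⟩))
  · exact .inr (.inr (.inr (.inl ⟨a, b, e, P, h1, h2, h'⟩)))
  · exact .inr (.inr (.inr (.inr (.inl ⟨F₀, r, P, h1, h2, h'⟩))))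
  · exact .inr (.inr (.inr (.inr (.inr (.inl ⟨r, R, k, h1, h2, h'⟩)))))
  · exact .inr (.inr (.inr (.inr (.inr (.inr (.inl ⟨a, b, e, P, h1, h2, h'⟩))))))
  · exact .inr (.inr (.inr (.inr (.inr (.inr (.inr (.inl ⟨f, h1, h'⟩)))))))
  · exact .inr (.inr (.inr (.inr (.inr (.inr (.inr (.inr (.inl ⟨σ, f, h1, h'⟩))))))))
  · exact .inr (.inr (.inr (.inr (.inr (.inr (.inr (.inr (.inr ⟨h0, Q, h1, h'⟩))))))))

theorem linG_of_gram {B : Matrix ι ι F} (hB : IsUnit B) (h : ((2 : F) ≠ 0 ∧ Bᵀ = B) ∨ Alt B)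
    (hG : G ≤ similarityGroup (fb B)) : LinG G := by
  rcases h with ⟨h2, h⟩ | h
  · exact .inr (.inr (.inr (.inr (.inr (.inr (.inr (.inr (.inr
      ⟨Nat.odd_iff.2 (odd_card_of_two_ne_zero h2), _, isNondeg_quad h2 h hB,
        hG.trans (sim_le_quadSim _)⟩))))))))
  · exact .inr (.inr (.inr (.inr (.inr (.inr (.inr (.inl ⟨_, h.isSymplecticForm hB, hG⟩)))))))

theorem AI.linG_of_bilin {N : Subgroup (GL ι F)} (h : AI N) (hn : NG G N)
    (h2 : 2 ≤ Fintype.card ι) {B : Matrix ι ι F} (hB : IsUnit B) (hi : Inv (RingHom.id F) B N) :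
    LinG G := by
  haveI : Nonempty ι := Fintype.card_pos_iff.1 (by omega)
  exact linG_of_gram hB (h.symm_or_alt h2 hB hi) fun g hg => h.mem_sim hB hi (hn g hg)

theorem AI.linG_of_herm [Nonempty ι] {N : Subgroup (GL ι F)} (h : AI N) (hn : NG G N)
    {σ : F →+* F} (hσ : ∀ a, σ (σ a) = a) (h1 : σ ≠ RingHom.id F) {B : Matrix ι ι F}
    (hB : IsUnit B) (hi : Inv σ B N) : LinG G := by
  obtain ⟨B', h2, h3, h4⟩ := h.exists_herm hσ h1 hB hi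
  exact .inr (.inr (.inr (.inr (.inr (.inr (.inr (.inr (.inl
    ⟨_, _, isUnitaryForm_fog hσ h1 h2 h3, fun g hg => h.mem_sim h2 h4 (hn g hg)⟩))))))))

theorem AI.linG_of_rat [Nonempty ι] {N : Subgroup (GL ι F)} (h : AI N) (hn : NG G N)
    {F₀ : Subfield F} (hF : F₀ ≠ ⊤) {P : GL ι F}
    (hP : ∀ x ∈ N, Rat F₀ (cj P⁻¹ (x : Matrix ι ι F))) : LinG G := by
  obtain ⟨F₁, r, h1, h2, -, h3⟩ := h.exists_c5 hn hF hP
  exact .inr (.inr (.inr (.inr (.inl ⟨F₁, r, P, h1, h2, h3⟩))))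

theorem linG_of_wreath {k t : ℕ} (hk : 2 ≤ k) (ht : 2 ≤ t) {e : ι ≃ (Fin t → Fin k)} {P : GL ι F}
    (h : G ≤ tensorWreathSubgroup k t e P) : LinG G := by
  rcases hk.eq_or_lt with rfl | hk
  · haveI : NeZero t := ⟨by omega⟩
    obtain ⟨B, h1, h2, h3⟩ := wreath_two_le_sim e P
    exact linG_of_gram h1 h2 (h.trans h3)
  · exact .inr (.inr (.inr (.inr (.inr (.inr (.inl ⟨k, t, e, P, hk, ht, h⟩))))))

theorem linG_of_tensor {d m : ℕ} (hd : 2 ≤ d) (hm : 2 ≤ m) {e : ι ≃ Fin d × Fin m} {P : GL ι F}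
    (h : G ≤ tensorProductSubgroup d m e P) : LinG G := by
  rcases lt_trichotomy d m with h1 | rfl | h1
  · exact .inr (.inr (.inr (.inl ⟨d, m, e, P, hd, h1, h⟩)))
  · exact linG_of_wreath hd le_rfl (h.trans (tensor_le_wreath e P))
  · exact .inr (.inr (.inr (.inl ⟨m, d, _, P, hm, h1, h.trans (tensor_le_swap e P)⟩)))

theorem linG_or_cs [Nonempty ι] (hG : Irr G) : LinG G ∨ CS G := by
  rw [or_iff_not_imp_right]
  intro h
  simp only [CS, not_forall] at h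
  obtain ⟨N, -, hN, z, hz, hz', hzs⟩ := h
  rcases field_or_PI hG hN.nrm.ctr (ctr_comm _) with hf | ⟨e, he, he1⟩
  · obtain ⟨r, hr, hd⟩ := Nat.exists_prime_and_dvd (finrank_ne_one (mem_ctr.2 ⟨hz, hz'⟩) hzs)
    obtain ⟨K, h1, h2, -⟩ := hN.nrm.ctr.exists_field (ctr_comm _) hf hd
    exact .inr (.inr (.inl ⟨r, K, hr, h1, h2.le_normalizer⟩))
  · obtain ⟨t, m, ε, -, -, h1, h2⟩ := exists_decomp hG he.idem he.ne he1 fun g hg =>
      he.eq_or (ctr_comm _) (he.cj hN.nrm.ctr hg)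
    exact .inr (.inl ⟨t, m, _, h1, h2⟩)

/-- The data extracted from an extraspecial-type minimal normal subgroup. -/
theorem MinN.ext_data [Nonempty ι] {N : Subgroup (GL ι F)} (hN : MinN (scalars ι F) G N)
    (h : Ext N) : ∃ (r : ℕ) (R : Subgroup (GL ι F)), r.Prime ∧
      (∀ x, x ∈ R ↔ x ∈ N ∧ x ^ (r * Nat.gcd 2 r) = 1) ∧ N ≤ R ⊔ scalars ι F ∧ Ext R ∧ NG G R ∧
      (∀ x ∈ N, x ^ r ∈ scalars ι F) ∧
      ∃ x ∈ R, ∃ y ∈ R, ∃ c : Fˣ, orderOf c = r ∧ ⁅y, x⁆ = sc c := by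
  obtain ⟨r, hr, hp⟩ := hN.exists_prime cen_scalars h.comm
  obtain ⟨R, hR, hR'⟩ := hN.exists_R h hr hp
  have hle : R ≤ N := fun x hx => ((hR x).1 hx).1
  have hE := h.of_le hle hR'
  refine ⟨r, R, hr, hR, hR', hE, fun g hg x hx => ?_, hp,
    hE.exists_root (fun h' => hN.lt.not_ge (hR'.trans (sup_le h' le_rfl))) hr
      fun x hx => hp x (hle hx)⟩
  rw [hR] at hx ⊢
  exact ⟨hN.ng g hg x hx.1, by rw [conj_pow, hx.2]; simp⟩

theorem exists_char_pow (F : Type*) [Field F] [Fintype F] :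
    ∃ p e : ℕ, p.Prime ∧ CharP F p ∧ Fintype.card F = p ^ e := by
  obtain ⟨p, hp, e, h1, h2⟩ := FiniteField.card' F
  exact ⟨p, e, h1, hp, h2⟩

theorem linG_of_ext (hn : 3 ≤ Fintype.card ι) (hC : CS G) {N : Subgroup (GL ι F)} (hNG : N ≤ G)
    (hN : MinN (scalars ι F) G N) (h : Ext N) : LinG G := by
  haveI : Nonempty ι := Fintype.card_pos_iff.1 (by omega)
  obtain ⟨r, R, hr, hR, -, hE, hGR, -, x, hx, y, hy, c, hc, hxy⟩ := hN.ext_data h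
  have hcR : sc c ∈ R := hxy ▸ R.mul_mem (R.mul_mem (R.mul_mem hy hx) (inv_mem hy)) (inv_mem hx)
  have hs : ∀ d : Fˣ, sc d ∈ R → d ^ (r * Nat.gcd 2 r) = 1 := fun d hd =>
    sc_eq_one.1 ((sc_pow d _).trans ((hR _).1 hd).2)
  obtain ⟨p, e, hp, hchar, he⟩ := exists_char_pow F
  have hP : ∀ A ≤ R, NG G A → (∀ x ∈ A, ∀ y ∈ A, x * y = y * x) → A ≤ scalars ι F :=
    fun A hA => hC.le_scalars (hA.trans fun x hx => hNG ((hR x).1 hx).1)
  by_cases hz : ∃ d : Fˣ, orderOf d = r * Nat.gcd 2 r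
  · obtain ⟨d, hd⟩ := hz
    have hdR : sc d ∈ R := (hR _).2 ⟨hN.lt.le (sc_mem d), by rw [← sc_pow, ← hd]; simp⟩
    have hST := isSymplecticTypeGroup hGR hP hr (fun x hx => ((hR x).1 hx).2) hdR
      ((orderOf_injective (Units.map _) sc_injective d).trans hd)
    have hZ := hE.ai.card_center hs hdR hd
    obtain ⟨k, hk⟩ := hE.exists_card_eq hr hST.pGroup
    rcases subfield_or_minimal hp he hd with ⟨F₀, h1, h2⟩ | hmin
    · obtain ⟨P, hP⟩ := hE.exists_rat fun d hd => h2 d (hs d hd)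
      exact hE.ai.linG_of_rat hGR h1 hP
    have hz' : (r * Nat.gcd 2 r).Prime ∨ r * Nat.gcd 2 r = 4 := by
      rcases hr.eq_two_or_odd' with rfl | ho
      · exact Or.inr rfl
      · rw [(Nat.coprime_two_left.2 ho).gcd_eq_one, mul_one]; exact Or.inl hr
    rcases Nat.even_or_odd e with hev | hod
    · obtain ⟨σ, h1, h2, h3⟩ := exists_invol_of_minimal hmin hev hz'
      obtain ⟨B, h4, h5⟩ := hE.exists_inv h2 fun d hd => h3 d (hs d hd)
      exact hE.ai.linG_of_herm hGR h2 h1 h4 h5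
    refine .inr (.inr (.inr (.inr (.inr (.inl ⟨r, R, k, ⟨hST, hE.ai.abs, p, e,
      ne_char_of_orderOf hr hc, hZ ▸ hmin, ?_⟩, hk, hGR.le_normalizer⟩)))))
    have hcard := hE.card_eq
    rw [hZ, hk] at hcard
    rcases hr.eq_two_or_odd' with rfl | ho
    · refine Or.inr (Or.inl ⟨rfl, ?_, hZ, ?_, k, by rw [hcard]; ring⟩)
      · rcases eq_one_of_minimal_four hmin with rfl | rfl
        · rfl
        · exact absurd hod (by decide)
      · rw [hk] at hn ⊢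
        match k, hn with
        | k + 2, _ => rw [pow_add]; have := Nat.one_le_two_pow (n := k); omega
    · rw [(Nat.coprime_two_left.2 ho).gcd_eq_one, mul_one] at hZ hcard
      refine Or.inl ⟨ho, hod, hZ, k, ?_, by rw [hcard]; ring⟩
      rcases k with _ | k
      · simp at hk; omega
      · omega
  · obtain rfl : r = 2 := by
      rcases hr.eq_two_or_odd' with rfl | ho
      · rfl
      · exact (hz ⟨c, by rw [(Nat.coprime_two_left.2 ho).gcd_eq_one, mul_one, hc]⟩).elim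
    obtain ⟨B, h4, h5⟩ := hE.exists_inv (σ := RingHom.id F) (fun _ => rfl) fun d hd => by
      have h1 : orderOf d ∣ 2 ^ 2 := orderOf_dvd_of_pow_eq_one (hs d hd)
      obtain ⟨j, hj, h2⟩ := (Nat.dvd_prime_pow Nat.prime_two).1 h1
      have h3 : orderOf d ∣ 2 := by
        interval_cases j
        · simp [h2]
        · simp [h2]
        · exact (hz ⟨d, h2⟩).elim
      have := congrArg Units.val (orderOf_dvd_iff_pow_eq_one.1 h3)
      simpa [sq] using this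
    exact hE.ai.linG_of_bilin hGR (by omega) h4 h5

/-- Aschbacher's theorem, linear case. -/
theorem linG_or_residual (hn : 3 ≤ Fintype.card ι) (H : Subgroup (GL ι F)) :
    LinG H ∨ InLinearResidualClass H := by
  haveI : Nonempty ι := Fintype.card_pos_iff.1 (by omega)
  rw [or_iff_not_imp_left]
  intro h0
  have h : ¬ LinG (H ⊔ scalars ι F) := fun h => h0 (h.mono le_sup_left)
  have hG : Irr (H ⊔ scalars ι F) := fun W hW => by
    by_contra hh; push Not at hh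
    exact h (.inl ⟨W, hh.1, hh.2, hW.le_stab⟩)
  rcases core (by omega) hG le_sup_right ((linG_or_cs hG).resolve_left h) with
    ⟨d, m, e, P, N, hT⟩ | ⟨N, h1, h2, h3⟩ | ⟨P, hP⟩ | ⟨k, t, e, P, hW⟩
  · exact (h (linG_of_tensor hT.two_d hT.two_m hT.le_tensor)).elim
  · exact (h (linG_of_ext hn ((linG_or_cs hG).resolve_left h) h1 h2 h3)).elim
  · refine ⟨P, hP.core fun F₀ hF hr => ?_, ?_, ?_, ?_⟩
    · obtain ⟨P', hP'⟩ := exists_rat_of_realisable hr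
      exact h (hP.ai.linG_of_rat hP.ng hF hP')
    · rintro ⟨Q, hQ, hf⟩
      obtain ⟨B, h1, -, h2⟩ := IsNondegenerateQuadraticForm.gram hQ
      exact h (hP.ai.linG_of_bilin hP.ng (by omega) h1 (inv_iff_fixes.2 (by
        have := fixes_polar hf; rwa [h2] at this)))
    · rintro ⟨f, hQ, hf⟩
      obtain ⟨B, h1, -, rfl⟩ := IsSymplecticForm.gram hQ
      exact h (hP.ai.linG_of_bilin hP.ng (by omega) h1 (inv_iff_fixes.2 hf))
    · rintro ⟨σ, f, hQ, hf⟩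
      obtain ⟨B, h1, -, rfl⟩ := IsUnitaryForm.gram hQ
      exact h (hP.ai.linG_of_herm hP.ng hQ.involutive
        (fun e => hQ.ne_refl (RingEquiv.ext fun a => congrArg (fun f : F →+* F => f a) e)) h1
        (inv_iff_fixes.2 hf))
  · exact (h (linG_of_wreath hW.two_k hW.two_t hW.le_wreath)).elim

theorem LinG.exists_class {n : ℕ} (hn : 3 ≤ n) {H : Subgroup (GL (Fin n) F)} (h : LinG H) :
    ∃ M, InLinearClass n F M ∧ H ≤ M := by
  rcases h with ⟨W, h1, h2, h⟩ | ⟨t, m, D, h1, h⟩ | ⟨r, K, h1, h2, h⟩ | ⟨a, b, e, P, h1, h2, h⟩ |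
    ⟨F₀, r, P, h1, h2, h⟩ | ⟨r, R, k, h1, h2, h⟩ | ⟨a, b, e, P, h1, h2, h⟩ | ⟨f, h1, h⟩ |
    ⟨σ, f, h1, h⟩ | ⟨h0, Q, h1, h⟩ <;> refine ⟨_, ?_, h⟩
  · exact .inl ⟨W, h1, h2, rfl⟩
  · exact .inr (.inr (.inr (.inl ⟨t, m, D, h1, rfl⟩)))
  · exact .inr (.inr (.inr (.inr (.inl ⟨r, K, h1, h2, rfl⟩))))
  · exact .inr (.inr (.inr (.inr (.inr (.inl ⟨a, b, e, P, h1, h2, rfl⟩)))))
  · exact .inr (.inr (.inr (.inr (.inr (.inr (.inl ⟨F₀, r, P, h1, h2, rfl⟩))))))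
  · exact .inr (.inr (.inr (.inr (.inr (.inr (.inr (.inl ⟨r, R, h1, rfl⟩)))))))
  · exact .inr (.inr (.inr (.inr (.inr (.inr (.inr (.inr (.inl ⟨a, b, e, P, h1, h2, rfl⟩))))))))
  · have := even_card_of_symplectic h1
    rw [Fintype.card_fin] at this
    exact .inr (.inr (.inr (.inr (.inr (.inr (.inr (.inr (.inr (.inl
      ⟨f, h1, this, by obtain ⟨a, rfl⟩ := this; omega, rfl⟩)))))))))
  · exact .inr (.inr (.inr (.inr (.inr (.inr (.inr (.inr (.inr (.inr (.inl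
      ⟨σ, f, h1, hn, rfl⟩))))))))))
  · exact .inr (.inr (.inr (.inr (.inr (.inr (.inr (.inr (.inr (.inr (.inr
      ⟨Q, h1, h0, hn, rfl⟩))))))))))

end H23.As
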