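import Cfsg.Agent.H3.S8h
import Cfsg.Prelude.Def_Local
import Cfsg.Agent.H5.Fstar

/-! The case `F*(G) = A₅ × A₅`. -/

set_option autoImplicit false
open Subgroup Equiv H3S

namespace H23.D5

variable {G : Type*} [Group G] [Finite G] {σ t : G} {θ : A5 × A5 →* G}

theorem outer (m : A5) (h : ∀ a, m * τ a = a * m) : False := by
  have k : ∀ m : Perm (Fin 5), m * (swap 3 4 * (swap 0 1 * swap 1 2) * (swap 3 4)⁻¹) = (swap 0 1 * swap 1 2) * m →
      m * (swap 3 4 * (swap 0 3 * swap 1 4) * (swap 3 4)⁻¹) = (swap 0 3 * swap 1 4) * m → Perm.sign m = -1 := by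
    decide +kernel
  have := k m.1 (congrArg Subtype.val (h c5)) (congrArg Subtype.val (h f5))
  rw [Perm.mem_alternatingGroup.1 m.2] at this
  exact absurd this (by decide)

theorem cen (m : A5) (h : ∀ a, m * a = a * m) : m = 1 := by
  have k : ∀ m : Perm (Fin 5), m * (swap 0 1 * swap 1 2) = (swap 0 1 * swap 1 2) * m →
      m * (swap 0 3 * swap 1 4) = (swap 0 3 * swap 1 4) * m → m = 1 := by
    decide +kernel
  exact Subtype.ext (k m.1 (congrArg Subtype.val (h c5)) (congrArg Subtype.val (h f5)))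

theorem c5ne : c5 ≠ 1 := fun e => absurd (congrArg Subtype.val e) (by decide)

omit [Finite G] in
theorem not_cent (h : H2 θ t σ) (m : A5 × A5) (hc : ∀ x, θ m * t * θ x = θ x * (θ m * t)) : False := by
  refine outer m.1 fun a => ?_
  have e : θ (m * (τ a, τ 1)) = θ ((a, 1) * m) := by
    rw [map_mul, map_mul, ← h.ta]
    calc θ m * (t * θ (a, 1) * t) = θ m * t * θ (a, 1) * t := by simp only [mul_assoc]
      _ = θ (a, 1) * θ m * (t * t) := by rw [hc]; simp only [mul_assoc]
      _ = _ := by rw [h.tt, mul_one]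
  exact congrArg Prod.fst (h.inj e)

omit [Finite G] in
theorem cent (h : H2 θ t σ) : centralizer (θ.range : Set G) = ⊥ := by
  refine eq_bot_iff.2 fun g hg => ?_
  have c : ∀ x, g * θ x = θ x * g := fun x => (mem_centralizer_iff.1 hg (θ x) ⟨x, rfl⟩).symm
  obtain ⟨m, rfl | rfl⟩ := h.nz g (by rw [c, mul_inv_cancel_right]; exact mem_zpowers _)
  · have e : ∀ x, m * x = x * m := fun x => h.inj (by rw [map_mul, map_mul, c])
    have : m = 1 := Prod.ext (cen _ fun a => congrArg Prod.fst (e (a, 1)))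
      (cen _ fun a => congrArg Prod.snd (e (1, a)))
    rw [this, map_one]; exact one_mem _
  · exact (not_cent h m c).elim

omit [Finite G] in
theorem tn (h : H2 θ t σ) : t ∉ θ.range := by
  rintro ⟨m, hm⟩
  refine not_cent h m⁻¹ fun x => ?_
  rw [map_inv, hm, inv_mul_cancel, one_mul, mul_one]

omit [Finite G] in
theorem sn (h : H2 θ t σ) : σ ∉ θ.range := by
  rintro ⟨m, hm⟩
  have e : ∀ a, m.2 * 1 * m.2 = a := fun a => congrArg Prod.snd (h.inj
    (show θ (m * (a, 1) * m) = θ (1, a) by rw [map_mul, map_mul, hm, h.sa]))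
  exact c5ne ((e c5).symm.trans (e 1))

omit [Finite G] in
theorem tsn (h : H2 θ t σ) : t * σ ∉ θ.range := by
  rintro ⟨m, hm⟩
  have e : ∀ a, m.2 * 1 * m.2 = τ a := fun a => congrArg Prod.snd (h.inj
    (show θ (m * (a, 1) * m) = θ (τ 1, τ a) by
      rw [map_mul, map_mul, hm, ← h.ta, ← h.sa a 1]
      calc t * σ * θ (a, 1) * (t * σ) = t * σ * θ (a, 1) * (σ * t) := by rw [h.ts]
        _ = _ := by simp only [mul_assoc]))
  exact c5ne (τ.injective ((e c5).symm.trans (e 1)))

theorem fst_le (K : Subgroup (A5 × A5)) [K.Normal] {a b : A5} (hab : (a, b) ∈ K) (ha : a ≠ 1) (x : A5) :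
    (x, 1) ∈ K := by
  have hs : IsSimpleGroup A5 := inferInstance
  rcases (Normal.comap ‹K.Normal› (MonoidHom.inl A5 A5)).eq_bot_or_eq_top with e | e
  · refine absurd (cen a fun y => ?_) ha
    have : (y * a * y⁻¹ * a⁻¹) ∈ K.comap (MonoidHom.inl A5 A5) := by
      have := K.mul_mem (‹K.Normal›.conj_mem _ hab (y, 1)) (K.inv_mem hab)
      simpa [mem_comap] using this
    rw [e, mem_bot] at this
    rw [mul_inv_eq_one, mul_inv_eq_iff_eq_mul] at this
    exact this.symm
  · exact (e.ge (mem_top x) : x ∈ K.comap (MonoidHom.inl A5 A5))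

omit [Finite G] in
theorem minN (h : H2 θ t σ) (K : Subgroup G) (hK : K.Normal) (hl : K ≤ θ.range) : K = ⊥ ∨ K = θ.range := by
  refine or_iff_not_imp_left.2 fun hb => le_antisymm hl ?_
  obtain ⟨g, hg, g1⟩ := (K.bot_or_exists_ne_one).resolve_left hb
  obtain ⟨⟨a, b⟩, rfl⟩ := hl hg
  have si : σ⁻¹ = σ := inv_eq_of_mul_eq_one_right h.ss
  have sw : ∀ a b, θ (a, b) ∈ K → θ (b, a) ∈ K := fun a b hab => by
    have := hK.conj_mem _ hab σ
    rwa [si, h.sa] at this
  have : (K.comap θ).Normal := hK.comap θ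
  have f : ∀ x, θ (x, 1) ∈ K := by
    by_cases ha : a = 1
    · have hb : b ≠ 1 := by
        rintro rfl
        exact g1 (by rw [ha]; exact map_one θ)
      exact fst_le (K.comap θ) (sw _ _ hg) hb
    · exact fst_le (K.comap θ) hg ha
  rintro _ ⟨⟨x, y⟩, rfl⟩
  have := K.mul_mem (f x) (sw _ _ (f y))
  rwa [← map_mul, Prod.mk_mul_mk, mul_one, one_mul] at this

theorem fstar (h : H2 θ t σ) [θ.range.Normal] : Cfsg.generalizedFittingSubgroup G = θ.range := by
  have hC := cent h
  have le : Cfsg.generalizedFittingSubgroup G ≤ θ.range := by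
    refine sup_le (sSup_le fun L hL => ?_) (sSup_le fun K hK => ?_)
    · have hL' := H5.compOf_top_iff.2 hL
      exact (hL'.le_or_commutator_eq_bot_of_le_normalizer le_top (normalizer_eq_top θ.range ▸ le_top)).resolve_right
        fun h0 => hL'.ne_bot (eq_bot_iff.2 (hC ▸ commutator_eq_bot_iff_le_centralizer.1 h0))
    · obtain ⟨k1, k2⟩ := hK
      rcases minN h (K ⊓ θ.range) inferInstance inf_le_right with e | e
      · exact le_trans (hC ▸ commutator_eq_bot_iff_le_centralizer.1 (eq_bot_iff.2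
          ((commutator_le_inf K θ.range).trans e.le))) bot_le
      · exfalso
        have hl : θ.range ≤ K := e.ge.trans inf_le_left
        have s : Group.IsSolvable A5 := Group.isSolvable_of_isSolvable_injective
          (f := ((θ.comp (MonoidHom.inl A5 A5)).codRestrict K fun x => hl ⟨_, rfl⟩))
          fun x y e => congrArg Prod.fst (h.inj (congrArg Subtype.val e))
        have hs : IsSimpleGroup A5 := inferInstance
        exact c5ne (cen c5 (IsSimpleGroup.comm_iff_isSolvable.2 s c5))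
  refine (minN h _ inferInstance le).resolve_left fun e => tn h ?_
  have := H5.centralizer_fstar_le (G := G)
  rw [e] at this
  have t1 : t ∈ (⊥ : Subgroup G) := this (mem_centralizer_iff.2 fun x hx => by
    rw [mem_bot.1 hx, one_mul, mul_one])
  rw [mem_bot.1 t1]; exact one_mem _

theorem d5 (h : H2 θ t σ) (h2 : ¬ 128 ∣ Nat.card G) [θ.range.Normal] (hp : IsPGroup 2 (G ⧸ θ.range)) : ∃ N : Subgroup G, N.Normal ∧ Cfsg.generalizedFittingSubgroup G = N ∧ Nonempty (N ≃* alternatingGroup (Fin 5) × alternatingGroup (Fin 5)) ∧ (∀ K : Subgroup G, K.Normal → K ≤ N → K = ⊥ ∨ K = N) ∧ N.index = 4 ∧ ∀ g : G, g ^ 2 ∈ N := by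
  classical
  have : Fact (Nat.Prime 2) := ⟨Nat.prime_two⟩
  obtain ⟨k, hk⟩ := IsPGroup.iff_card.1 hp
  have c60 : Nat.card A5 = 60 := by
    have := two_mul_nat_card_alternatingGroup (α := Fin 5)
    rw [Nat.card_perm, Nat.card_fin] at this
    have e : Nat.factorial 5 = 120 := rfl
    rw [e] at this
    change 2 * Nat.card A5 = 120 at this
    omega
  have cN : Nat.card θ.range = 3600 := by
    rw [← Nat.card_congr (MonoidHom.ofInjective h.inj).toEquiv, Nat.card_prod, c60]
  have cG : Nat.card G = 2 ^ k * 3600 := by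
    rw [card_eq_card_quotient_mul_card_subgroup θ.range, hk, cN]
  have k2 : k ≤ 2 := by
    by_contra hh
    obtain ⟨j, rfl⟩ := Nat.exists_eq_add_of_le (show 3 ≤ k by omega)
    exact h2 ⟨2 ^ j * 225, by rw [cG, pow_add]; ring⟩
  have le4 : Nat.card (G ⧸ θ.range) ≤ 4 := by
    rw [hk]; exact Nat.pow_le_pow_right (by norm_num) k2
  let π := QuotientGroup.mk' θ.range
  have p1 : ∀ x, π x = 1 ↔ x ∈ θ.range := fun x => QuotientGroup.eq_one_iff x
  have a1 : π t ≠ 1 := fun e => tn h ((p1 _).1 e)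
  have b1 : π σ ≠ 1 := fun e => sn h ((p1 _).1 e)
  have ab1 : π t * π σ ≠ 1 := fun e => tsn h ((p1 _).1 (by rw [map_mul, e]))
  have aa : π t * π t = 1 := by rw [← map_mul, h.tt, map_one]
  have bb : π σ * π σ = 1 := by rw [← map_mul, h.ss, map_one]
  have ab : π t * π σ = π σ * π t := by rw [← map_mul, h.ts, map_mul]
  have := Fintype.ofFinite (G ⧸ θ.range)
  have c4 : ({1, π t, π σ, π t * π σ} : Finset (G ⧸ θ.range)).card = 4 := by
    have n1 : π t ≠ π σ := fun e => ab1 (by rw [← e, aa])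
    have n2 : π t ≠ π t * π σ := fun e => b1 (by simpa using e)
    have n3 : π σ ≠ π t * π σ := fun e => a1 (by simpa using e)
    rw [Finset.card_insert_of_notMem (by simp [a1.symm, b1.symm, ab1.symm]),
      Finset.card_insert_of_notMem (by simp [n1, b1]), Finset.card_pair n3]
  have un : ({1, π t, π σ, π t * π σ} : Finset (G ⧸ θ.range)) = Finset.univ :=
    Finset.eq_univ_of_card _ (le_antisymm (Finset.card_le_univ _) (by
      rw [c4, ← Nat.card_eq_fintype_card]; exact le4))
  refine ⟨θ.range, ‹_›, fstar h, ⟨(MonoidHom.ofInjective h.inj).symm⟩, minN h, ?_, fun g => (p1 _).1 ?_⟩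
  · rw [index_eq_card, Nat.card_eq_fintype_card, ← Finset.card_univ, ← un, c4]
  · have : π g ∈ ({1, π t, π σ, π t * π σ} : Finset (G ⧸ θ.range)) := un ▸ Finset.mem_univ _
    rw [map_pow, pow_two]
    simp only [Finset.mem_insert, Finset.mem_singleton] at this
    rcases this with e | e | e | e <;> rw [e]
    · exact mul_one _
    · exact aa
    · exact bb
    · calc π t * π σ * (π t * π σ) = π t * π σ * (π σ * π t) := by rw [ab]
        _ = π t * (π σ * π σ) * π t := by simp only [mul_assoc]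
        _ = 1 := by rw [bb, mul_one, aa]

end H23.D5
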