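import Cfsg.Agent.H23.Sm3
import Cfsg.Agent.H23.Od1

/-! Lifting forms to extension fields. -/

set_option autoImplicit false

namespace H23

open Module H22 Cfsg Cfsg.Geo Form

variable {F E V : Type*} [Field F] [Field E] [Algebra F E] [Finite E] [AddCommGroup V] [Module F V]
  [Module E V] [IsScalarTower F E V] {σ : F →+* F} {τ : E →+* E}

theorem tr_ext {x y : E} (h : ∀ k, Algebra.trace F E (x * k) = Algebra.trace F E (y * k)) :
    x = y := by
  have : Finite F := Finite.of_injective _ (algebraMap F E).injective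
  have : FiniteDimensional F E := Module.Finite.of_finite
  exact sub_eq_zero.1 ((traceForm_nondegenerate F E).1 _ fun k => by simp [sub_mul, h])

theorem exists_tr_rep (φ : E →ₗ[F] F) : ∃ x, ∀ k, Algebra.trace F E (x * k) = φ k := by
  have : Finite F := Finite.of_injective _ (algebraMap F E).injective
  have : FiniteDimensional F E := Module.Finite.of_finite
  exact ⟨_, fun k => LinearMap.BilinForm.apply_toDual_symm_apply
    (hB := traceForm_nondegenerate F E) φ k⟩

theorem tr_map (hσ : ∀ a, σ (σ a) = a) (h : ∀ c, τ (algebraMap F E c) = algebraMap F E (σ c))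
    (x : E) : Algebra.trace F E (τ x) = σ (Algebra.trace F E x) := by
  have := Algebra.trace_eq_of_equiv_equiv (RingEquiv.ofRingHom σ σ (RingHom.ext hσ) (RingHom.ext hσ))
    (RingEquiv.ofBijective τ (Finite.injective_iff_bijective.1 τ.injective))
    (RingHom.ext fun c => (h c).symm) x
  rw [this]; exact (hσ _).symm

/-- `τ` is the adjoint map on scalars from `E`. -/
structure AdjE (Φ : Form σ V) (τ : E →+* E) : Prop where
  nd : Φ.Nondeg
  nt : Nontrivial V
  adj : ∀ (k : E) (u v : V), Φ.B (k • u) v = Φ.B u (τ k • v)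

namespace AdjE

variable {Φ : Form σ V} (h : AdjE Φ τ)
include h

omit [Finite E] [IsScalarTower F E V] [Algebra F E] in
theorem ext {a b : E} (e : ∀ u v : V, Φ.B u (a • v) = Φ.B u (b • v)) : a = b := by
  have := h.nt
  obtain ⟨v, hv⟩ := exists_ne (0 : V)
  exact smul_left_injective E hv (h.nd.eq_of_forall' fun u => e u v)

omit [Finite E] in
theorem alg (c : F) : τ (algebraMap F E c) = algebraMap F E (σ c) :=
  h.ext fun u v => by rw [← h.adj, algebraMap_smul, algebraMap_smul, B_smul_left, B_smul_right]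

omit [Finite E] [IsScalarTower F E V] [Algebra F E] in
theorem invol (k : E) : τ (τ k) = k :=
  h.ext fun u v => by rw [← h.adj, Φ.symm v, ← h.adj, ← Φ.symm]

theorem exists_B : ∃ B : V →ₛₗ[τ] V →ₗ[E] E,
    (∀ u v (k : E), Algebra.trace F E (B u v * k) = Φ.B u (k • v)) ∧
      ∀ u v, B v u = algebraMap F E Φ.ε * τ (B u v) := by
  choose b hb using fun u v : V =>
    exists_tr_rep (Φ.B u ∘ₗ (LinearMap.toSpanSingleton E V v).restrictScalars F)
  replace hb : ∀ u v (k : E), Algebra.trace F E (b u v * k) = Φ.B u (k • v) := hb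
  refine ⟨LinearMap.mk₂'ₛₗ τ (RingHom.id E) b (fun u u' v => tr_ext (F := F) fun k => ?_)
    (fun c u v => tr_ext (F := F) fun k => ?_) (fun u v v' => tr_ext (F := F) fun k => ?_)
    (fun c u v => tr_ext (F := F) fun k => ?_), hb, fun u v => tr_ext (F := F) fun k => ?_⟩
  · simp [add_mul, hb]
  · rw [hb, h.adj, smul_smul, smul_eq_mul, mul_comm (τ c) (b u v), mul_assoc, hb]
  · simp [add_mul, hb]
  · rw [hb, smul_smul, RingHom.id_apply, smul_eq_mul, mul_comm c (b u v), mul_assoc, hb, mul_comm c]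
  · change Algebra.trace F E (b v u * k) = Algebra.trace F E (_ * τ (b u v) * k)
    rw [hb, Φ.symm, h.adj, ← hb, ← tr_map Φ.invol h.alg, map_mul, h.invol, mul_assoc,
      ← Algebra.smul_def, map_smul, smul_eq_mul]

end AdjE

/-- `Ψ` is the lift of `Φ` to the field `E`. -/
structure Lift (Φ : Form σ V) (Ψ : Form τ V) : Prop extends AdjE Φ τ where
  tr : ∀ u v (k : E), Algebra.trace F E (Ψ.B u v * k) = Φ.B u (k • v)
  eps : Ψ.ε = algebraMap F E Φ.ε

theorem AdjE.exists_lift {Φ : Form σ V} (h : AdjE Φ τ)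
    (ht : (∃ t : E, t + τ t = 1) ∨ ∀ (k : E) v, Φ.B v (k • v) = 0) :
    ∃ Ψ : Form τ V, Lift Φ Ψ ∧ Ψ.κ = 0 := by
  obtain ⟨B, h1, h2⟩ := h.exists_B
  refine ⟨⟨algebraMap F E Φ.ε, 0, B, fun _ => 0, h.invol, ?_, h2, by simp, by simp, by simp, by simp,
    fun v => ?_⟩, ⟨h, h1, rfl⟩, rfl⟩
  · rw [h.alg, ← map_mul, Φ.eps, map_one]
  · rcases ht with ⟨t, ht⟩ | ht
    · exact ⟨t * B v v, by rw [map_mul]; linear_combination -B v v * ht + τ t * h2 v v, by simp⟩
    · exact ⟨0, by simpa using tr_ext (F := F) (y := 0) fun k => by simp [h1, ht], by simp⟩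

theorem AdjE.exists_lift_quad {Φ : Form (RingHom.id F) V} (h : AdjE Φ (RingHom.id E))
    (hε : Φ.ε = 1) (h2 : (2 : E) ≠ 0) : ∃ Ψ : Form (RingHom.id E) V, Lift Φ Ψ ∧ Ψ.κ = 1 := by
  obtain ⟨B, h1, h3⟩ := h.exists_B
  simp only [hε, map_one, one_mul, RingHom.id_apply] at h3
  refine ⟨⟨1, 1, B, fun v => B v v / 2, fun _ => rfl, by simp, by simpa using h3, by simp, by simp,
    fun x y => ?_, fun c x => ?_, fun v => ⟨B v v / 2, by simp; field_simp; ring, by simp⟩⟩,
    ⟨h, h1, by simp [hε]⟩, rfl⟩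
  · simp only [map_add, LinearMap.add_apply, h3 x y]; field_simp; ring
  · simp only [map_smul, LinearMap.smul_apply, LinearMap.map_smulₛₗ, smul_eq_mul, RingHom.id_apply]
    ring

namespace Lift

variable {Φ : Form σ V} {Ψ : Form τ V} (h : Lift Φ Ψ)
include h

omit [Finite E] [IsScalarTower F E V] in
theorem B_eq (u v : V) : Φ.B u v = Algebra.trace F E (Ψ.B u v) := by simpa using (h.tr u v 1).symm

omit [Finite E] [IsScalarTower F E V] in
theorem nondeg : Ψ.Nondeg := fun x hx => h.nd x fun y => by simp [h.B_eq, hx]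

omit [IsScalarTower F E V] in
theorem B_eq_zero {u v : V} : Ψ.B u v = 0 ↔ ∀ k : E, Φ.B u (k • v) = 0 :=
  ⟨fun e k => by simp [← h.tr, e], fun e => tr_ext (F := F) fun k => by simp [h.tr, e]⟩

/-- Semilinear isometries. -/
theorem B_semi {g : V ≃ₗ[F] V} (hg : ∀ x y, Φ.B (g x) (g y) = Φ.B x y) {α : E →+* E}
    (hα : ∀ (k : E) v, g (k • v) = α k • g v) (u v : V) : Ψ.B (g u) (g v) = α (Ψ.B u v) := by
  have h1 : ∀ c, α (algebraMap F E c) = algebraMap F E (RingHom.id F c) := fun c => by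
    have := h.nt
    obtain ⟨w, hw⟩ := exists_ne (0 : V)
    refine smul_left_injective E (g.map_ne_zero_iff.2 hw) ?_
    simp only [← hα, algebraMap_smul, map_smul, RingHom.id_apply]
  refine tr_ext (F := F) fun k => ?_
  obtain ⟨k, rfl⟩ := Finite.injective_iff_surjective.1 α.injective k
  rw [h.tr, ← hα, hg, ← map_mul, tr_map (fun _ => rfl) h1, h.tr]; rfl

end Lift

omit [Finite E] [IsScalarTower F E V] [Algebra F E] in
theorem exists_semi [Nontrivial V] {g : V ≃ₗ[F] V}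
    (h : ∀ k : E, ∃ k' : E, ∀ v, g (k • v) = k' • g v) :
    ∃ α : E →+* E, ∀ (k : E) v, g (k • v) = α k • g v := by
  choose α hα using h
  obtain ⟨w, hw⟩ := exists_ne (0 : V)
  have hi := smul_left_injective E (g.map_ne_zero_iff.2 hw)
  exact ⟨⟨⟨⟨α, hi (by simp [← hα])⟩, fun a b => hi (by simp [← hα, mul_smul])⟩,
    hi (by simp [← hα]), fun a b => hi (by simp [← hα, add_smul])⟩, hα⟩

section Bridge

open Matrix

variable {ι : Type} [Fintype ι] [DecidableEq ι] [Nonempty ι]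

theorem exists_adjE {Φ : Form σ (ι → F)} (hΦ : Φ.Nondeg) {r : ℕ} {K : Subalgebra F (Matrix ι ι F)}
    (hK : IsFieldSubalgebra r K) (h : ∀ k ∈ K, ∃ k' ∈ K, ∀ u v, Φ.B (k *ᵥ u) v = Φ.B u (k' *ᵥ v)) :
    letI := (As.IsFieldSubalgebra.isField hK).toField
    ∃ τ : K →+* K, AdjE Φ τ := by
  letI := (As.IsFieldSubalgebra.isField hK).toField
  have h1 : ∀ k : K, ∃ k' : K, ∀ u v, Φ.B (k • u) v = Φ.B u (k' • v) := fun k =>
    let ⟨k', h1, h2⟩ := h k k.2; ⟨⟨k', h1⟩, h2⟩
  choose τ hτ using h1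
  obtain ⟨w, hw⟩ := exists_ne (0 : ι → F)
  have hi : ∀ {a b : K}, (∀ u, Φ.B u (a • w) = Φ.B u (b • w)) → a = b := fun e =>
    smul_left_injective K hw (hΦ.eq_of_forall' e)
  exact ⟨⟨⟨⟨τ, hi fun u => by simp [← hτ]⟩, fun a b => hi fun u => by
      rw [← hτ, mul_smul, mul_smul, ← hτ, ← hτ, smul_comm a b]⟩,
    hi fun u => by simp [← hτ], fun a b => hi fun u => by simp [← hτ, add_smul]⟩,
    hΦ, inferInstance, hτ⟩

omit [Nonempty ι] in
theorem semi_of_mem_normalizer {K : Subalgebra F (Matrix ι ι F)} {g : GL ι F}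
    (hg : g ∈ subalgebraNormalizer K) (k : K) :
    ∃ k' : K, ∀ v, glE ι F g (k • v) = k' • glE ι F g v :=
  ⟨⟨_, (hg k).1 k.2⟩, fun v => (As.cj_mulVec g k v).symm⟩

omit [Nonempty ι] in
theorem mem_normalizer_iff_semi [Finite F] {K : Subalgebra F (Matrix ι ι F)} {g : GL ι F} :
    g ∈ subalgebraNormalizer K ↔ ∀ k : K, ∃ k' : K, ∀ v, glE ι F g (k • v) = k' • glE ι F g v := by
  refine ⟨semi_of_mem_normalizer, fun h => ?_⟩
  have h1 : ∀ k ∈ K, As.cj g k ∈ K := fun k hk => by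
    obtain ⟨k', h1⟩ := h ⟨k, hk⟩
    have : As.cj g k = k' := As.cj_eq_iff.2 (As.ext_mulVec fun v => by
      simp only [← mulVec_mulVec]; exact h1 v)
    exact this ▸ k'.2
  refine fun k => ⟨h1 k, fun hk => ?_⟩
  obtain ⟨⟨k', h2⟩, h3⟩ := (Finite.injective_iff_surjective (f := fun k : K => (⟨_, h1 k k.2⟩ : K))).1
    (fun a b e => Subtype.ext ((As.cj g).injective (congrArg Subtype.val e))) ⟨_, hk⟩
  exact (As.cj g).injective (congrArg Subtype.val h3) ▸ h2

end Bridge

end H23
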