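import Cfsg.Agent.H23.Tn1

/-!
Stabilisers of tensor decompositions in `SL(V)` are maximal.
-/

set_option autoImplicit false

namespace H23.Tn

open Module Sf

variable {F S W V : Type*} [Field F] [AddCommGroup S] [Module F S] [AddCommGroup W] [Module F W]
  [AddCommGroup V] [Module F V] {t : S →ₗ[F] W →ₗ[F] V}

theorem scalar_or (z : S →ₗ[F] S) : (∃ c : F, ∀ x, z x = c • x) ∨ ∃ x, z x ∉ F ∙ x := by
  by_cases h : ∃ x, z x ∉ F ∙ x
  · exact Or.inr h
  push Not at h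
  obtain ⟨c, hc⟩ := z.exists_eq_smul_id_of_forall_notLinearIndependent fun v hv => by
    obtain ⟨a, ha⟩ := Submodule.mem_span_singleton.1 (h v)
    exact one_ne_zero (LinearIndependent.pair_iff.1 hv (-a) 1 (by simp [ha])).2
  exact Or.inl ⟨c, fun x => by simp [hc]⟩

theorem eq_top_of_rank_one [FiniteDimensional F S] (Λ : Subring (End F S))
    (h1 : ∀ c : F, ∀ z ∈ Λ, c • z ∈ Λ) (h2 : ∀ (χ : Dual F S) (y : S), χ y = 0 → ∀ z ∈ Λ,
      (1 + χ.smulRight y) * z * (1 - χ.smulRight y) ∈ Λ) {χ : Dual F S} {x y₀ : S} (hx : x ≠ 0)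
    (h3 : χ x = 0) (h4 : χ y₀ = 1) (h5 : χ.smulRight x ∈ Λ) (z : End F S) : z ∈ Λ := by
  have a1 : ∀ (ξ : Dual F S) y, χ y = 1 → ξ x = 1 → ξ y = 0 →
      ξ.smulRight x ∈ Λ ∧ ξ.smulRight y ∈ Λ ∧ χ.smulRight y ∈ Λ := fun ξ y b1 b2 b3 => by
    have b4 := h2 ξ y b3 _ h5
    have b5 : ξ.smulRight x ∈ Λ := by
      convert sub_mem h5 (mul_mem h5 b4) using 1
      ext v; simp [b1, b2, b3, h3, sub_smul]
    have b6 : ξ.smulRight y ∈ Λ := by
      convert neg_mem (add_mem (mul_mem b4 b5) b5) using 1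
      ext v; simp [b1, b2, b3, h3, sub_smul]
    refine ⟨b5, b6, ?_⟩
    convert add_mem (add_mem (sub_mem b4 h5) b5) b6 using 1
    ext v; simp [b1, b2, b3, h3, sub_smul]; abel
  have a2 : ∀ y, χ y = 1 → χ.smulRight y ∈ Λ := fun y hy => by
    obtain ⟨ξ, b1, b2⟩ := exists_dual_pair (F := F) (u := y) (x := x) fun h => by
      obtain ⟨c, rfl⟩ := Submodule.mem_span_singleton.1 h
      exact hx (by simp [show c = 0 by simpa [hy] using h3])
    exact (a1 ξ y hy b2 b1).2.2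
  have a3 : ∀ y, χ.smulRight y ∈ Λ := fun y => by
    convert add_mem (a2 (y + (1 - χ y) • y₀) (by simp [h4])) (h1 (χ y - 1) _ (a2 y₀ h4)) using 1
    ext v; simp; module
  have a4 : ∀ ξ : Dual F S, ξ x = 1 → ξ.smulRight x ∈ Λ ∧ ξ.smulRight (y₀ - ξ y₀ • x) ∈ Λ :=
    fun ξ h => let h := a1 ξ (y₀ - ξ y₀ • x) (by simp [h3, h4]) h (by simp [h]); ⟨h.1, h.2.1⟩
  obtain ⟨f, hf⟩ := exists_dual_one (F := F) hx
  have a5 : ∀ ξ : Dual F S, ξ.smulRight x ∈ Λ := fun ξ => by
    convert add_mem (a4 (ξ + (1 - ξ x) • f) (by simp [hf])).1 (h1 (ξ x - 1) _ (a4 f hf).1) using 1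
    ext v; simp; module
  have a6 : ∀ (ξ : Dual F S) y, ξ.smulRight y ∈ Λ := fun ξ y => by
    convert mul_mem (mul_mem (a3 y) (a4 f hf).2) (a5 ξ) using 1
    ext v; simp [hf, h3, h4]
  let b := Module.finBasis F S
  have : z = ∑ i, (b.coord i).smulRight (z (b i)) := b.ext fun i => by
    simp [Finsupp.single_apply]
  exact this ▸ sum_mem fun i _ => a6 _ _

theorem hr_tensor [Fintype F] [FiniteDimensional F S]
    (h : 3 ≤ Fintype.card F ∨ 3 ≤ finrank F S) : HR F F S := by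
  rintro Λ h1 h2 ⟨z, hz, h3⟩
  have a1 : ∀ c : F, ∀ z ∈ Λ, c • z ∈ Λ := fun c z hz => mul_mem (h1 c) hz
  have a2 : ∀ (χ : Dual F S) (y : S), χ y = 0 → ∀ z ∈ Λ,
      (1 + χ.smulRight y) * z * (1 - χ.smulRight y) ∈ Λ := fun χ y h =>
    h2 (χ.smulRight y) (by simp [h])
  obtain ⟨x, hx⟩ := (scalar_or z).resolve_left fun ⟨c, hc⟩ => (h3 c).elim fun x hx => hx (hc x)
  have hx0 : x ≠ 0 := by rintro rfl; simp at hx
  obtain ⟨ξ, a3, a4⟩ := exists_dual_pair hx
  rcases h with h | h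
  · obtain ⟨c, h4, h5⟩ := exists_ne_zero_one h
    refine eq_top_of_rank_one Λ a1 a2 hx0 a3 a4 ?_
    convert a1 (c - c ^ 2)⁻¹ _ (sub_mem (sub_mem (a2 (c • ξ) x (by simp [a3]) z hz) hz)
      (a1 c _ (sub_mem (a2 ξ x a3 z hz) hz))) using 1
    have h6 : c - c ^ 2 ≠ 0 := by
      rw [show c - c ^ 2 = c * (1 - c) by ring]; exact mul_ne_zero h4 (sub_ne_zero.2 h5.symm)
    ext v
    simp only [LinearMap.smul_apply, LinearMap.sub_apply, End.mul_apply, LinearMap.add_apply,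
      End.one_apply, LinearMap.smulRight_apply, map_sub, map_smul, smul_eq_mul, a4]
    rw [eq_inv_smul_iff₀ h6]
    module
  · obtain ⟨χ, b1, b2, y, -, b3⟩ := exists_dual_two (W := (⊤ : Submodule F S)) (by simpa) x (z x)
    refine eq_top_of_rank_one Λ a1 a2 hx0 b1 b3 ?_
    have b4 := sub_mem (a2 χ x b1 z hz) hz
    convert sub_mem b4 (a2 ξ x a3 _ b4) using 1
    ext v
    simp [a3, a4, b1, b2]
    abel

theorem h3_tensor [FiniteDimensional F S] [FiniteDimensional F V] (ht : IsTensorProduct t)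
    (h0 : 0 < finrank F S) (h : finrank F S < finrank F W) : H3 F t := by
  intro N h1 h2 h3
  obtain ⟨g, ⟨a, b, h4⟩, h5⟩ := h3 1
  have h6 : ∀ x w, N (t x w) = t (a x) (b w) - t x w := fun x w => by simp [← h4, h5]
  rcases scalar_or a.toLinearMap with ⟨c, hc⟩ | ⟨x, hx⟩
  · have a1 : ∀ x w, N (t x w) = t x (c • b w - w) := fun x w => by
      simp [h6, show a x = c • x from hc x]
    by_contra! a2
    have a3 : N = 0 := LinearMap.ext (ext_t ht fun x w => by
      by_contra a3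
      obtain ⟨y, hy⟩ := a2 (c • b w - w) fun h => a3 (by simp [a1, h])
      exact hy ⟨_, a1 y w⟩)
    subst a3
    rw [LinearMap.range_zero, finrank_bot] at h2; omega
  have a1 := LinearMap.finrank_le_finrank_of_injective (f := N.rangeRestrict ∘ₗ t x)
    ((injective_iff_map_eq_zero _).2 fun w hw => by_contra fun a1 => by
      obtain ⟨f, hf⟩ := exists_dual_one (F := F) a1
      have a2 := congrArg (cov F ht f) ((h6 x w).symm.trans (congrArg Subtype.val hw))
      simp only [map_sub, cov_t, hf, one_smul, ZeroMemClass.coe_zero, map_zero, sub_eq_zero] at a2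
      have a3 : f (b w) ≠ 0 := fun h => hx (by simp [h] at a2; simp [← a2])
      exact hx ((Submodule.smul_mem_iff _ a3).1 (by
        rw [show f (b w) • a.toLinearMap x = x from a2]; exact Submodule.mem_span_singleton_self x)))
  omega

/-- The contraction of a fixed tensor. -/
noncomputable def covL (ht : IsTensorProduct t) (v : V) : Dual F W →ₗ[F] S where
  toFun ψ := cov F ht ψ v
  map_add' _ _ := cov_add ht _ _ v
  map_smul' _ _ := cov_smul_left ht _ _ v

theorem exists_ker_ne {M N : Type*} [AddCommGroup M] [Module F M] [AddCommGroup N] [Module F N]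
    [FiniteDimensional F M] [FiniteDimensional F N] (f : M →ₗ[F] N) (h : finrank F N < finrank F M) :
    ∃ x ≠ 0, f x = 0 := by
  obtain ⟨x, h1, h2⟩ := (LinearMap.ker f).exists_mem_ne_zero_of_ne_bot
    (LinearMap.ker_ne_bot_of_finrank_lt h)
  exact ⟨x, h2, h1⟩

theorem isMaximalIn_Tg [Fintype F] [FiniteDimensional F S] [FiniteDimensional F W]
    [FiniteDimensional F V] (ht : IsTensorProduct t) (h1 : 2 ≤ finrank F S)
    (h2 : finrank F S < finrank F W) (h : 3 ≤ Fintype.card F ∨ 3 ≤ finrank F S) :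
    Cfsg.Geo.IsMaximalIn (SLv F V) (Tg F t ⊓ SLv F V) := by
  have : Nontrivial S := Module.nontrivial_of_finrank_pos (R := F) (by omega)
  have : Finite W := Module.finite_of_finite F
  refine isMaximalIn_of inf_le_right ?_ fun K hM hK g hg hg' => by_contra fun a1 => hg' ⟨?_, hK hg⟩
  · obtain ⟨x, hx⟩ := exists_ne (0 : S)
    obtain ⟨y, -, hy⟩ := exists_notMem_span (W := (⊤ : Submodule F S)) (by simpa) x
    obtain ⟨χ, a1, a2⟩ := exists_dual_pair hy
    obtain ⟨g, a3, a4⟩ := exists_not_mem_Tg ht (by omega) (z := χ.smulRight x) fun c => ⟨y, fun h =>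
      hx (by
        have := congrArg χ h
        simp [a1, a2] at this h
        simpa [← this] using h)⟩
    exact ⟨g, a3, fun h => a4 h.1⟩
  refine mem_Tg ht (by omega) le_rfl hM hK
    (by_contra fun a2 => a1 (win (hr_tensor h) (by omega) hM ht a2)) (h3_tensor ht (by omega) h2)
    (fun v => exists_ker_ne (covL ht v) (by simpa)) (fun u x hx v => ?_) hg
  obtain ⟨ψ, a2, a3⟩ := exists_ker_ne ((Dual.eval F W u).prod ((F ∙ x).mkQ ∘ₗ covL ht v)) (by
    have := (F ∙ x).finrank_quotient_add_finrank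
    simp [finrank_span_singleton hx] at this ⊢; omega)
  exact ⟨ψ, a2, congrArg Prod.fst a3,
    (Submodule.Quotient.mk_eq_zero _).1 (congrArg Prod.snd a3)⟩

section Bridge

open Matrix Cfsg.Geo
open scoped Kronecker

variable {ι κ μ : Type} [Fintype ι] [DecidableEq ι] [Fintype κ] [DecidableEq κ] [Fintype μ]
  [DecidableEq μ]

/-- The tensor structure attached to `e` and `P`. -/
def tP (e : ι ≃ κ × μ) (P : GL ι F) : (κ → F) →ₗ[F] (μ → F) →ₗ[F] (ι → F) :=
  LinearMap.mk₂ F (fun x w => (P : Matrix ι ι F) *ᵥ ((fun p : κ × μ => x p.1 * w p.2) ∘ e))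
    (fun _ _ _ => by rw [← mulVec_add]; congr 1; ext; simp [add_mul])
    (fun _ _ _ => by rw [← mulVec_smul]; congr 1; ext; simp [mul_assoc])
    (fun _ _ _ => by rw [← mulVec_add]; congr 1; ext; simp [mul_add])
    (fun _ _ _ => by rw [← mulVec_smul]; congr 1; ext; simp [mul_left_comm])

theorem tP_apply (e : ι ≃ κ × μ) (P : GL ι F) (x : κ → F) (w : μ → F) :
    tP e P x w = (P : Matrix ι ι F) *ᵥ ((fun p : κ × μ => x p.1 * w p.2) ∘ e) := rfl

theorem isTensorProduct_tP (e : ι ≃ κ × μ) (P : GL ι F) : IsTensorProduct (tP e P) :=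
  IsTensorProduct.of_equiv (((Pi.basisFun F κ).tensorProduct (Pi.basisFun F μ)).equivFun ≪≫ₗ
    LinearEquiv.funCongrLeft F F e ≪≫ₗ glE ι F P) fun x w => by
      rw [tP_apply]
      refine congrArg ((P : Matrix ι ι F) *ᵥ ·) (funext fun i => ?_)
      simp [Basis.tensorProduct_repr_tmul_apply (i := (e i).1) (j := (e i).2), mul_comm]

theorem kron_mulVec (A : Matrix κ κ F) (B : Matrix μ μ F) (x : κ → F) (w : μ → F) :
    (A ⊗ₖ B) *ᵥ (fun p : κ × μ => x p.1 * w p.2) = fun p => (A *ᵥ x) p.1 * (B *ᵥ w) p.2 := by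
  ext p
  simp only [mulVec, dotProduct, Fintype.sum_prod_type, Finset.sum_mul_sum, kroneckerMap_apply]
  exact Finset.sum_congr rfl fun _ _ => Finset.sum_congr rfl fun _ _ => by ring

theorem trG_kronG_tP (e : ι ≃ κ × μ) (P : GL ι F) (a : GL κ F) (b : GL μ F) (x : κ → F)
    (w : μ → F) : glE ι F (As.trG e P (As.kronG a b)) (tP e P x w) =
      tP e P (glE κ F a x) (glE μ F b w) := by
  rw [tP_apply, tP_apply, glE_apply, As.trG_val, As.tr_mulVec, As.kronG_val, kron_mulVec]; rfl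

theorem exists_linear_of_Tg (ht : IsTensorProduct t) [Nontrivial S] {g : V ≃ₗ[F] V}
    (hg : g ∈ Tg F t) : ∃ (a : S ≃ₗ[F] S) (b : W ≃ₗ[F] W), ∀ x w, g (t x w) = t (a x) (b w) := by
  obtain ⟨a, b, h⟩ := hg
  obtain ⟨x, hx⟩ := exists_ne (0 : S)
  have hx' : a x ≠ 0 := by simpa
  exact ⟨a, { b with
    map_add' := fun w w' => t_inj ht hx' (by simp [← h])
    map_smul' := fun c w => t_inj ht hx' (by simp [← h]) }, h⟩

theorem mem_tensorProductSubgroup_iff_Tg {n₁ n₂ : ℕ} (h1 : 0 < n₁) {e : ι ≃ Fin n₁ × Fin n₂}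
    {P g : GL ι F} : g ∈ tensorProductSubgroup n₁ n₂ e P ↔ glE ι F g ∈ Tg F (tP e P) := by
  rw [As.mem_tensorProductSubgroup_iff]
  constructor
  · rintro ⟨a, b, rfl⟩
    exact ⟨glE _ F a, glE _ F b, trG_kronG_tP e P a b⟩
  · intro hg
    have : Nonempty (Fin n₁) := ⟨⟨0, h1⟩⟩
    obtain ⟨a, b, h⟩ := exists_linear_of_Tg (isTensorProduct_tP e P) hg
    obtain ⟨a, rfl⟩ := (glE _ F).surjective a
    obtain ⟨b, rfl⟩ := (glE _ F).surjective b
    exact ⟨a, b, (glE _ F).injective (LinearEquiv.ext (ext_t (isTensorProduct_tP e P)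
      (f := (glE ι F g).toLinearMap) (f' := (glE ι F _).toLinearMap) fun x w =>
        (h x w).trans (trG_kronG_tP e P a b x w).symm))⟩

theorem isMaximalIn_tensor_SL [Fintype F] {n₁ n₂ : ℕ} (h1 : 2 ≤ n₁) (h12 : n₁ < n₂)
    (h : 3 ≤ Fintype.card F ∨ 3 ≤ n₁) (e : ι ≃ Fin n₁ × Fin n₂) (P : GL ι F) :
    IsMaximalIn (specialLinear ι F) (tensorProductSubgroup n₁ n₂ e P ⊓ specialLinear ι F) :=
  isMaximalIn_of_iff (glE _ F) (isMaximalIn_Tg (isTensorProduct_tP e P) (by simpa) (by simpa)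
    (by simpa)) (fun _ => mem_specialLinear_iff) fun _ =>
      and_congr (mem_tensorProductSubgroup_iff_Tg (by omega)) mem_specialLinear_iff

end Bridge

end H23.Tn
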