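import Cfsg.Agent.H23.Lf1
import Cfsg.Agent.H23.Tn2
import Cfsg.Agent.H23.As30

/-! Tools for showing that geometric subgroups are not maximal. -/

set_option autoImplicit false

namespace H23

open Module H22 Cfsg Cfsg.Geo Form
open scoped commutatorElement

theorem between {Γ : Type*} [Group Γ] {S H M : Subgroup Γ} (h1 : H ⊓ S ≤ M) (h2 : ¬ S ≤ M)
    (h3 : ¬ M ⊓ S ≤ H) : ∃ K, H ⊓ S < K ∧ K < S :=
  ⟨M ⊓ S, lt_of_le_not_ge (le_inf h1 inf_le_right) fun h => h3 (h.trans inf_le_left),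
    lt_of_le_not_ge inf_le_right fun h => h2 (h.trans inf_le_left)⟩

variable {F V : Type*} [Field F] {σ : F →+* F} [AddCommGroup V] [Module F V]
variable {ι κ : Type*} [Fintype ι] [Fintype κ] {D : ι → Submodule F V} {π : ι → V →ₗ[F] V}
  {D' : κ → Submodule F V} {π' : κ → V →ₗ[F] V}

theorem Prj.ext (h : Prj D π) {g k : V ≃ₗ[F] V} (e : ∀ i, ∀ x ∈ D i, g x = k x) : g = k :=
  LinearEquiv.ext fun x => by
    rw [← h.sum x, map_sum, map_sum]
    exact Finset.sum_congr rfl fun i _ => e i _ (h.mem i x)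

theorem decL_mem {g : V ≃ₗ[F] V} {s : Equiv.Perm ι} (hs : ∀ i, (D i).map g.toLinearMap = D (s i))
    {i : ι} {x : V} (hx : x ∈ D i) : g x ∈ D (s i) := hs i ▸ ⟨x, hx, rfl⟩

/-- An element of order three and small support fixes every block. -/
theorem Prj.stab_of_cube [FiniteDimensional F V] (h : Prj D π) {m : ℕ}
    (hm : ∀ i, finrank F (D i) = m) {g : V ≃ₗ[F] V} (hg : g ∈ decL D) (h3 : g ^ 3 = 1)
    {W : Submodule F V} (hW : finrank F W < 2 * m) (h1 : ∀ x, g x - x ∈ W) (a : ι) {x : V}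
    (hx : x ∈ D a) : g x ∈ D a := by
  obtain ⟨s, hs⟩ := hg
  by_contra hc
  have h2 : s a ≠ a := fun e => hc (e ▸ decL_mem hs hx)
  have h4 : s (s (s a)) = a := by
    obtain ⟨y, hy, hy0⟩ := Submodule.exists_mem_ne_zero_of_ne_bot (p := D a) fun e => by
      have := hm a; rw [e, finrank_bot] at this; omega
    have h5 := decL_mem hs (decL_mem hs (decL_mem hs hy))
    have : g (g (g y)) = y := by
      have := congrArg (fun k : V ≃ₗ[F] V => k y) h3
      simpa [pow_succ] using this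
    exact h.eq_of_mem hy0 (this ▸ h5) hy
  have h5 : s (s a) ≠ a := fun e => h2 (by rw [e] at h4; exact h4)
  let L : (D a × D (s a)) →ₗ[F] W := LinearMap.codRestrict W ((g.toLinearMap - LinearMap.id) ∘ₗ
    ((D a).subtype.coprod (D (s a)).subtype)) fun p => h1 _
  have h6 : Function.Injective L := LinearMap.ker_eq_bot.1 (LinearMap.ker_eq_bot'.2 fun p hp => by
    have h7 : g p.1 + g p.2 = p.1 + p.2 := by
      have := congrArg Subtype.val hp
      simpa [L, sub_eq_zero] using this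
    have h8 : (p.1 : V) = 0 := by
      have := congrArg (π a) h7
      rwa [map_add, map_add, h.zero a _ h2.symm _ (decL_mem hs p.1.2),
        h.zero a _ h5.symm _ (decL_mem hs p.2.2), h.self a _ p.1.2, h.zero a _ h2.symm _ p.2.2,
        add_zero, add_zero, eq_comm] at this
    have h9 : (p.2 : V) = 0 := by
      have := congrArg (π (s a)) h7
      rwa [h8, map_zero, zero_add, zero_add, h.self _ _ p.2.2,
        h.zero _ _ (s.injective.ne h2).symm _ (decL_mem hs p.2.2), eq_comm] at this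
    exact Prod.ext (Subtype.ext h8) (Subtype.ext h9))
  have := LinearMap.finrank_le_finrank_of_injective h6
  rw [finrank_prod, hm, hm] at this
  omega

variable (D') in
/-- A three-cycle of blocks. -/
structure Cyc (i j l : κ) (g : V ≃ₗ[F] V) : Prop where
  cube : g ^ 3 = 1
  one : ∀ x ∈ D' i, g x ∈ D' j
  two : ∀ x ∈ D' j, g x ∈ D' l
  three : ∀ x ∈ D' l, g x ∈ D' i
  fix : ∀ p, p ≠ i → p ≠ j → p ≠ l → ∀ x ∈ D' p, g x = x

theorem Cyc.sub_mem {i j l : κ} {g : V ≃ₗ[F] V} (h : Cyc D' i j l g) (h' : Prj D' π') (x : V) :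
    g x - x ∈ D' i ⊔ D' j ⊔ D' l := by
  have h1 : D' i ≤ D' i ⊔ D' j ⊔ D' l := le_sup_left.trans le_sup_left
  have h2 : D' j ≤ D' i ⊔ D' j ⊔ D' l := le_sup_right.trans le_sup_left
  have h3 : D' l ≤ D' i ⊔ D' j ⊔ D' l := le_sup_right
  rw [← h'.sum x, map_sum, ← Finset.sum_sub_distrib]
  refine Submodule.sum_mem _ fun p _ => ?_
  have := h'.mem p x
  by_cases e1 : p = i
  · subst e1; exact Submodule.sub_mem _ (h2 (h.one _ this)) (h1 this)
  by_cases e2 : p = j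
  · subst e2; exact Submodule.sub_mem _ (h3 (h.two _ this)) (h2 this)
  by_cases e3 : p = l
  · subst e3; exact Submodule.sub_mem _ (h1 (h.three _ this)) (h3 this)
  rw [h.fix p e1 e2 e3 _ this, sub_self]; exact zero_mem _

theorem cyc_false [FiniteDimensional F V] (h : Prj D π) {m : ℕ} (hm : ∀ i, finrank F (D i) = m)
    (h' : Prj D' π') {m' : ℕ} (hm' : ∀ i, finrank F (D' i) = m') (h0 : 0 < m')
    (h1 : 3 * m' < 2 * m) (h2 : m + 3 < Fintype.card κ)
    (hg : ∀ i j l, i ≠ j → j ≠ l → i ≠ l → ∃ g ∈ decL D, Cyc D' i j l g) : False := by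
  classical
  have h3 : ∀ {i j l g}, g ∈ decL D → Cyc D' i j l g → ∀ a, ∀ x ∈ D a, g x - x ∈ D a :=
    fun {i j l g} h3 h4 a x hx => sub_mem (h.stab_of_cube hm h3 h4.cube (by
      have := finrank_sup_le (D' i ⊔ D' j) (D' l)
      have := finrank_sup_le (D' i) (D' j)
      rw [hm'] at *; rw [hm'] at this; omega) (h4.sub_mem h') a hx) hx
  obtain ⟨i, j, l, hij, hil, hjl⟩ := Fintype.two_lt_card_iff.1 (show 2 < Fintype.card κ by omega)
  obtain ⟨g, h4, h5⟩ := hg i j l hij hjl hil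
  obtain ⟨z, hz, hz0⟩ := Submodule.exists_mem_ne_zero_of_ne_bot (p := D' i) fun e => by
    have := hm' i; rw [e, finrank_bot] at this; omega
  obtain ⟨a, ha⟩ : ∃ a, g (π a z) - π a z ≠ 0 := by
    by_contra! hc
    have : g z = z := by
      conv => lhs; rw [← h.sum z, map_sum]
      conv => rhs; rw [← h.sum z]
      exact Finset.sum_congr rfl fun a _ => sub_eq_zero.1 (hc a)
    exact hij (h'.eq_of_mem hz0 hz (this ▸ h5.one z hz))
  have h6 := h3 h4 h5 a _ (h.mem a z)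
  have h7 := h5.sub_mem h' (π a z)
  generalize g (π a z) - π a z = y at ha h6 h7
  let T : Finset κ := {i, j, l}
  have h8 : ∀ p ∉ T, π' p y = 0 := fun p hp => by
    simp only [T, Finset.mem_insert, Finset.mem_singleton, not_or] at hp
    refine (show D' i ⊔ D' j ⊔ D' l ≤ LinearMap.ker (π' p) from ?_) h7
    exact sup_le (sup_le (h'.zero p i hp.1) (h'.zero p j hp.2.1)) (h'.zero p l hp.2.2)
  obtain ⟨r, hr⟩ : ∃ r, π' r y ≠ 0 := by by_contra! hc; exact ha (h'.eq_zero hc)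
  have hrT : r ∈ T := by by_contra hc; exact hr (h8 r hc)
  have hT : T.card ≤ 3 := Finset.card_le_three
  have h9 : ∀ p : {p // p ∉ T}, ∃ w : D a, π' p w ≠ 0 ∧ ∀ p' ∉ T, p' ≠ p → π' p' w = 0 := by
    rintro ⟨p, hp⟩
    obtain ⟨q, hq⟩ : ∃ q, q ∉ insert p T := by
      by_contra! hc
      have := Finset.card_le_card (show Finset.univ ⊆ insert p T from fun q _ => hc q)
      have := Finset.card_insert_le p T
      rw [Finset.card_univ] at *; omega
    rw [Finset.mem_insert, not_or] at hq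
    have hrp : r ≠ p := fun e => hp (e ▸ hrT)
    obtain ⟨k, h10, h11⟩ := hg r p q hrp (Ne.symm hq.1) fun e => hq.2 (e ▸ hrT)
    have h12 : k y - y = k (π' r y) - π' r y := by
      conv => lhs; rw [← h'.sum y, map_sum, ← Finset.sum_sub_distrib]
      refine Finset.sum_eq_single r (fun c _ hc => ?_) (by simp)
      by_cases e1 : c ∈ T
      · rw [h11.fix c hc (fun e => hp (e ▸ e1)) (fun e => hq.2 (e ▸ e1)) _ (h'.mem c y), sub_self]
      · simp [h8 c e1]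
    have h13 := h11.one _ (h'.mem r y)
    refine ⟨⟨_, h3 h10 h11 a y h6⟩, ?_, fun p' h14 h15 => ?_⟩
    · simpa [h12, h'.self p _ h13, h'.orth hrp.symm] using hr
    · simp [h12, h'.zero p' p h15 _ h13, h'.orth (show p' ≠ r from fun e => h14 (e ▸ hrT))]
  choose w h10 h11 using h9
  have h12 : LinearIndependent F w := Fintype.linearIndependent_iff.2 fun c hc p => by
    have := congrArg (fun x : D a => π' p x) hc
    simp only [Submodule.coe_sum, map_sum, Submodule.coe_smul, map_smul, Submodule.coe_zero,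
      map_zero] at this
    rw [Finset.sum_eq_single p (fun p' _ hp => by
      rw [h11 p' p p.2 (fun e => hp (Subtype.ext e.symm)), smul_zero]) (by simp)] at this
    exact (smul_eq_zero.1 this).resolve_right (h10 p)
  have := h12.fintype_card_le_finrank
  rw [hm, Fintype.card_subtype_compl, Fintype.card_coe] at this
  omega

variable {Φ : Form σ V}

theorem ODec.exists_cyc [FiniteDimensional F V] (h : ODec Φ D' π') (hΦ : Φ.Nondeg) {m : ℕ}
    (hm : ∀ i, finrank F (D' i) = m) (hi : ∀ i j, ∃ k ∈ Φ.O, (D' i).map k.toLinearMap = D' j)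
    {i j l : κ} (hij : i ≠ j) (hjl : j ≠ l) (hil : i ≠ l) :
    ∃ g ∈ decL D' ⊓ ⁅Φ.O, Φ.O⁆, Cyc D' i j l g := by
  obtain ⟨k, h1, h2⟩ := hi i l
  obtain ⟨k', h3, h4⟩ := hi l j
  obtain ⟨s, a0, a1, a2, a3⟩ := h.exists_swap hΦ hm hil h1 h2
  obtain ⟨s', b0, b1, b2, b3⟩ := h.exists_swap hΦ hm hjl.symm h3 h4
  have c1 : ∀ x ∈ D' i, k x ∈ D' l := fun x hx => h2 ▸ ⟨x, hx, rfl⟩
  have c2 : ∀ x ∈ D' l, k' x ∈ D' j := fun x hx => h4 ▸ ⟨x, hx, rfl⟩
  have c3 : ∀ x ∈ D' l, k⁻¹ x ∈ D' i := fun x hx => by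
    rw [← h2] at hx; obtain ⟨y, hy, rfl⟩ := hx; simpa using hy
  have c4 : ∀ x ∈ D' j, k'⁻¹ x ∈ D' l := fun x hx => by
    rw [← h4] at hx; obtain ⟨y, hy, rfl⟩ := hx; simpa using hy
  have d1 : s⁻¹ = s := inv_eq_of_mul_eq_one_right (h.ext fun p x hx => by
    by_cases e1 : p = i
    · subst e1; simp [a1 x hx, a2 _ (c1 x hx)]
    by_cases e2 : p = l
    · subst e2; rw [LinearEquiv.mul_apply, a2 x hx, a1 _ (c3 x hx)]; simp
    simp [a3 p e1 e2 x hx])
  have d2 : s'⁻¹ = s' := inv_eq_of_mul_eq_one_right (h.ext fun p x hx => by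
    by_cases e1 : p = l
    · subst e1; simp [b1 x hx, b2 _ (c2 x hx)]
    by_cases e2 : p = j
    · subst e2; rw [LinearEquiv.mul_apply, b2 x hx, b1 _ (c4 x hx)]; simp
    simp [b3 p e1 e2 x hx])
  have d3 : ∀ x, ⁅s, s'⁆ x = s (s' (s (s' x))) := fun x => by
    rw [commutatorElement_def, d1, d2]; rfl
  have e1 : ∀ x ∈ D' i, ⁅s, s'⁆ x = k' (k x) := fun x hx => by
    rw [d3, b3 i hil hij x hx, a1 x hx, b1 _ (c1 x hx), a3 j hij.symm hjl _ (c2 _ (c1 x hx))]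
  have e2 : ∀ x ∈ D' j, ⁅s, s'⁆ x = k'⁻¹ x := fun x hx => by
    rw [d3, b2 x hx, a2 _ (c4 x hx), b3 i hil hij _ (c3 _ (c4 x hx)), a1 _ (c3 _ (c4 x hx))]
    simp
  have e3 : ∀ x ∈ D' l, ⁅s, s'⁆ x = k⁻¹ x := fun x hx => by
    rw [d3, b1 x hx, a3 j hij.symm hjl _ (c2 x hx), b2 _ (c2 x hx)]
    simp [a2 x hx]
  have e4 : ∀ p, p ≠ i → p ≠ j → p ≠ l → ∀ x ∈ D' p, ⁅s, s'⁆ x = x := fun p h5 h6 h7 x hx => by
    rw [d3, b3 p h7 h6 x hx, a3 p h5 h7 x hx, b3 p h7 h6 x hx, a3 p h5 h7 x hx]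
  refine ⟨⁅s, s'⁆, ⟨?_, Subgroup.commutator_mem_commutator a0.2 b0.2⟩, h.ext fun p x hx => ?_,
    fun x hx => e1 x hx ▸ c2 _ (c1 x hx), fun x hx => e2 x hx ▸ c4 x hx,
    fun x hx => e3 x hx ▸ c3 x hx, e4⟩
  · rw [commutatorElement_def, d1, d2]
    exact mul_mem (mul_mem (mul_mem a0.1 b0.1) a0.1) b0.1
  change ⁅s, s'⁆ (⁅s, s'⁆ (⁅s, s'⁆ x)) = x
  by_cases f1 : p = i
  · subst f1
    rw [e1 x hx, e2 _ (c2 _ (c1 x hx)), LinearEquiv.coe_inv, LinearEquiv.symm_apply_apply,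
      e3 _ (c1 x hx)]
    simp
  by_cases f2 : p = j
  · subst f2
    rw [e2 x hx, e3 _ (c4 x hx), e1 _ (c3 _ (c4 x hx))]; simp
  by_cases f3 : p = l
  · subst f3
    rw [e3 x hx, e1 _ (c3 x hx), LinearEquiv.coe_inv, LinearEquiv.apply_symm_apply,
      e2 _ (c2 x hx)]
    simp
  rw [e4 p f1 f2 f3 x hx, e4 p f1 f2 f3 x hx, e4 p f1 f2 f3 x hx]

theorem ODec.not_le_decL [FiniteDimensional F V] (h : Prj D π) {m : ℕ}
    (hm : ∀ i, finrank F (D i) = m) (h' : ODec Φ D' π') (hΦ : Φ.Nondeg) {m' : ℕ}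
    (hm' : ∀ i, finrank F (D' i) = m') (h0 : 0 < m') (h1 : 3 * m' < 2 * m)
    (h2 : m + 3 < Fintype.card κ) (hi : ∀ i j, ∃ k ∈ Φ.O, (D' i).map k.toLinearMap = D' j) :
    ¬ decL D' ⊓ ⁅Φ.O, Φ.O⁆ ≤ decL D := fun hle =>
  cyc_false h hm h'.toPrj hm' h0 h1 h2 fun _ _ _ hij hjl hil =>
    have ⟨g, h3, h4⟩ := h'.exists_cyc hΦ hm' hi hij hjl hil
    ⟨g, hle h3, h4⟩

theorem Prj.isMDec {α : Type} [Fintype α] [DecidableEq α] {t m : ℕ}
    {D : Fin t → Submodule F (α → F)} {π : Fin t → (α → F) →ₗ[F] (α → F)} (h : Prj D π)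
    (ht : 2 ≤ t) (hm0 : 0 < m) (hm : ∀ i, finrank F (D i) = m) : IsMDecomposition m D :=
  ⟨ht, hm0, hm, fun i => Submodule.disjoint_def.2 fun x hx hx' => (h.self i x hx).symm.trans
    ((show ⨆ j, ⨆ (_ : j ≠ i), D j ≤ LinearMap.ker (π i) from
      iSup₂_le fun j hj => h.zero i j hj.symm) hx'),
    eq_top_iff.2 fun x _ => h.sum x ▸ Submodule.sum_mem _ fun i _ =>
      Submodule.mem_iSup_of_mem i (h.mem i x)⟩

theorem exists_ED_not_line [FiniteDimensional F V] (hΦ : Φ.Nondeg) (h3 : Φ.Iso3)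
    {W : Submodule F V} (hW : Disjoint W (Φ.perp W)) (hd : 3 ≤ finrank F W) :
    ∃ g ∈ Φ.ED W, ∃ v ∈ W, g v ∉ F ∙ v := by
  obtain ⟨u, h1, h2, h4⟩ := h3 W hd
  obtain ⟨e, h5, h6⟩ : ∃ e ∈ W ⊓ Φ.perp (F ∙ u), e ∉ F ∙ u := by
    by_contra! hc
    have := Submodule.finrank_mono (show W ⊓ Φ.perp (F ∙ u) ≤ F ∙ u from hc)
    have := hΦ.finrank_le_inf_perp W (F ∙ u)
    rw [finrank_span_singleton h2] at *; omega
  obtain ⟨v, h7, h8, h9⟩ := exists_mem_perp_eq_one hΦ (D := W) (S := F ∙ u) (x := e) fun h => by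
    obtain ⟨z, hz, y, hy, rfl⟩ := Submodule.mem_sup.1 h
    have : z ∈ W := by
      simpa using W.sub_mem h5.1 ((Submodule.span_singleton_le_iff_mem _ _).2 h1 hy)
    exact h6 (by rwa [Submodule.disjoint_def.1 hW z this hz, zero_add])
  have h10 := Φ.mem_perp_span_singleton.1 h5.2
  obtain ⟨s, hs⟩ := exists_eichData h4 h10
  obtain ⟨g, h11, h12⟩ := eIn_ED hΦ h1 h5.1 hs
  refine ⟨g, h11, v, h7, fun h => ?_⟩
  obtain ⟨c, hc⟩ := Submodule.mem_span_singleton.1 h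
  rw [h12, eichler_apply, h8 u (Submodule.mem_span_singleton_self u), h9] at hc
  have h13 := congrArg (Φ.B e) hc
  simp [h9, Φ.B_eq_zero_symm h10] at h13
  simp [h13, h2] at hc

section Tensor

open Tn

variable {S W : Type*} [AddCommGroup S] [Module F S] [AddCommGroup W] [Module F W]
  {t : S →ₗ[F] W →ₗ[F] V}

theorem Tg_line (ht : IsTensorProduct t) [Nontrivial S] {g : V ≃ₗ[F] V} (hg : g ∈ Tg F t) {y₀ : W}
    (hy : y₀ ≠ 0) (h : ∀ x, g (t x y₀) = t x y₀) (x : S) (y : W) : ∃ y', g (t x y) = t x y' := by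
  obtain ⟨a, b, hab⟩ := exists_linear_of_Tg ht hg
  obtain ⟨ψ, hψ⟩ := Module.Projective.exists_dual_eq_one F hy
  have h1 : ∀ x, ψ (b y₀) • a x = x := fun x => by
    simpa [hab, hψ] using congrArg (cov F ht ψ) (h x)
  have h2 : ψ (b y₀) ≠ 0 := fun e => by
    obtain ⟨x, hx⟩ := exists_ne (0 : S)
    exact hx (by simpa [e] using (h1 x).symm)
  refine ⟨(ψ (b y₀))⁻¹ • b y, ?_⟩
  conv => rhs; rw [← h1 x]
  simp [hab, smul_smul, h2]

variable (t) in
/-- The blocks `S ⊗ b i`. -/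
noncomputable def tD {k : ℕ} (b : Basis (Fin k) F W) (i : Fin k) : Submodule F V :=
  LinearMap.range (vec F t (b i))

variable {k : ℕ} (b : Basis (Fin k) F W) (ht : IsTensorProduct t)
include ht

theorem prj_tD : Prj (tD t b) fun i => vec F t (b i) ∘ₗ cov F ht (b.coord i) where
  mem _ _ := ⟨_, rfl⟩
  self i := by rintro _ ⟨x, rfl⟩; simp
  zero i j hij := by rintro _ ⟨x, rfl⟩; simp [hij.symm]
  sum x := by simpa using sum_cov ht b x

theorem finrank_tD (i : Fin k) : finrank F (tD t b i) = finrank F S :=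
  LinearMap.finrank_range_of_inj (LinearMap.ker_eq_bot.1 (LinearMap.ker_eq_bot'.2 fun _ hx =>
    t_eq_zero ht (b.ne_zero i) hx))

theorem Tg_mem_decL [FiniteDimensional F V] [FiniteDimensional F S] [Nontrivial S]
    {f : V → V → F} {f₁ : S → S → F} {f₂ : W → W → F}
    (hf : ∀ x w x' w', f (t x w) (t x' w') = f₁ x x' * f₂ w w') (h1 : ∃ x x', f₁ x x' ≠ 0)
    (hb : ∀ (β : W ≃ₗ[F] W) (a c : F), c ≠ 0 → (∀ w w', a * f₂ (β w) (β w') = c * f₂ w w') →
      ∀ i, ∃ j, β (b i) ∈ F ∙ b j) {g : V ≃ₗ[F] V} (hg : g ∈ Tg F t)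
    (h : ∀ u v, f (g u) (g v) = f u v) : g ∈ decL (tD t b) := by
  obtain ⟨α, β, h2⟩ := exists_linear_of_Tg ht hg
  obtain ⟨x, x', h1⟩ := h1
  refine (prj_tD b ht).mem_decL (finrank_tD b ht) finrank_pos ?_
  rintro i _ ⟨y, rfl⟩
  obtain ⟨j, h3⟩ := hb β (f₁ (α x) (α x')) _ h1 (fun w w' => by rw [← hf, ← hf, ← h2, ← h2, h]) i
  obtain ⟨c, hc⟩ := Submodule.mem_span_singleton.1 h3
  exact ⟨j, c • α y, by simp [h2, ← hc]⟩

theorem not_le_Tg [FiniteDimensional F V] [FiniteDimensional F S] (hΦ : Φ.Nondeg) (h3 : Φ.Iso3)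
    (hk : 2 ≤ k) (hS : 3 ≤ finrank F S)
    (h : ∀ i j, i ≠ j → ∀ x x', Φ.B (t x (b i)) (t x' (b j)) = 0) :
    ¬ decL (tD t b) ⊓ Φ.E ≤ Tg F t := fun hle => by
  have hD : ODec Φ _ _ := ⟨prj_tD b ht, by rintro i j hij _ ⟨x, rfl⟩ _ ⟨y, rfl⟩; exact h i j hij x y⟩
  have : Nontrivial S := Module.nontrivial_of_finrank_pos (R := F) (by omega)
  obtain ⟨i, j, hij⟩ := Fintype.exists_pair_of_one_lt_card (α := Fin k) (by simpa)
  obtain ⟨g, h1, _, ⟨x, rfl⟩, h2⟩ := exists_ED_not_line hΦ h3 (hD.disjoint hΦ i)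
    (by rwa [finrank_tD b ht])
  have h4 : ∀ l, l ≠ i → tD t b l ≤ Φ.perp (tD t b i) := fun l hl y hy z hz =>
    hD.orth i l hl.symm z hz y hy
  have h5 : ∀ l, g ∈ stabL (tD t b l) := fun l => by
    by_cases e : l = i
    · exact e ▸ ED_le_stabL le_rfl h1
    · exact ED_le_stabL_of_le_perp (h4 l e) h1
  obtain ⟨y, hy⟩ := Tg_line ht (hle ⟨mem_decL_of_stab h5, ED_le_E _ h1⟩) (b.ne_zero j)
    (fun x => ED_fix h1 (h4 j hij.symm ⟨x, rfl⟩)) x (b i)
  obtain ⟨x', hx'⟩ := mem_stabL_of_le.1 (h5 i) _ ⟨x, rfl⟩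
  have h6 := congrArg (cov F ht (b.coord i)) (hx'.trans hy)
  refine h2 (Submodule.mem_span_singleton.2 ⟨b.coord i y, ?_⟩)
  rw [← hx', show x' = b.coord i y • x by simpa using h6]; simp

end Tensor

end H23
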