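import Cfsg.Agent.H23.Nm1

/-! Geometric subgroups that are not maximal: tensor products and decompositions. -/

set_option autoImplicit false

namespace H23.As

open Matrix Module Cfsg Cfsg.Geo Tn Form
open scoped MatrixGroups Kronecker commutatorElement

variable {ι : Type} [Fintype ι] [DecidableEq ι] {F : Type*} [Field F] {σ : F →+* F}

/-- The quasisimple classical group of a form. -/
structure Am (Φ : Form σ (ι → F)) (f : (ι → F) → (ι → F) → F) (S : Subgroup (GL ι F)) : Prop where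
  nd : Φ.Nondeg
  iso : Φ.Iso3
  amb : ∃ Rt, Amb S Rt
  mem : ∀ g, g ∈ S ↔ glE ι F g ∈ Φ.E
  frm : (∀ u v, f u v = Φ.B u v) ∨ ∀ u v, f u v = Φ.B v u
  com : ⁅Φ.O, Φ.O⁆ ≤ Φ.E

theorem am_Sp [Fintype F] {m : ℕ} (hm : 3 ≤ m) : Am (H23.spForm m F) (sympForm m F) (spGL m F) :=
  ⟨H23.spForm_nondeg m, iso3_alt rfl rfl, ⟨_, amb_Sp (by omega) (by omega)⟩,
    fun _ => mem_spGL_iff_E, .inl fun u v => (H23.spForm_B m u v).symm, by
      rw [E_alt (H23.spForm_nondeg m) rfl rfl]; exact Subgroup.commutator_le_self _⟩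

theorem am_SU [Fintype F] {q n : ℕ} (hF : Fintype.card F = q ^ 2) (hn : 4 ≤ n) :
    Am (huForm hF n) (hermForm n F q) (GU n F q ⊓ specialLinear (Fin n) F) :=
  ⟨huForm_nondeg hF n, iso3_herm (conj_ne_id hF) rfl, ⟨_, amb_SU hF (by omega) (by omega)⟩,
    fun _ => mem_SU_iff_E hF hn, .inr fun _ _ => rfl, by
      rw [E_herm (conj_ne_id hF) (huForm_nondeg hF n) rfl (by simpa)]
      exact le_inf (Subgroup.commutator_le_self _) (Subgroup.commutator_le.2 fun a _ b _ => by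
        rw [mem_SLv, commutatorElement_def]
        simp [← LinearEquiv.coe_det, mul_assoc, mul_left_comm (LinearEquiv.det b : F)])⟩

theorem am_omega [Finite F] {Q : QuadraticForm F (ι → F)} (hQ : (ofQuad Q).Nondeg)
    (hn : 5 ≤ Fintype.card ι) : Am (ofQuad Q) (QuadraticMap.polar Q) (omegaGL Q) :=
  ⟨hQ, iso3_quad rfl, ⟨_, amb_omega hQ hn⟩, fun _ => mem_omegaGL_iff_E hQ hn, .inl fun _ _ => rfl,
    by rw [E_quad hQ rfl (by simpa), Subgroup.map_subtype_commutator]⟩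

variable {Φ : Form σ (ι → F)} {f : (ι → F) → (ι → F) → F} {S : Subgroup (GL ι F)}

theorem Am.zero (h : Am Φ f S) (u v : ι → F) (e : f u v = 0) : Φ.B u v = 0 :=
  h.frm.elim (fun h => h u v ▸ e) fun h => Φ.B_eq_zero_symm (h u v ▸ e)

theorem Am.inv (h : Am Φ f S) {g : GL ι F} (hg : g ∈ S) (u v : ι → F) :
    f (glE ι F g u) (glE ι F g v) = f u v := by
  have := (Form.E_le_O ((h.mem g).1 hg)).1
  rcases h.frm with h | h <;> rw [h, h, this]

theorem Am.exists_mem (h : Am Φ f S) {k : (ι → F) ≃ₗ[F] (ι → F)} (hk : k ∈ Φ.E) :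
    ∃ g ∈ S, glE ι F g = k := ⟨(glE ι F).symm k, (h.mem _).2 (by simpa), by simp⟩

theorem Am.dec_between (h : Am Φ f S) {t m t' m' : ℕ} {D : Fin t → Submodule F (ι → F)}
    {D' : Fin t' → Submodule F (ι → F)} (hD : IsMDecomposition m D)
    (hD' : IsNondegenerateMDecomposition f m' D') (h1 : 3 * m' < 2 * m) (h2 : m + 3 < t')
    (hi : ∀ i j, ∃ k ∈ Φ.O, (D' i).map k.toLinearMap = D' j)
    (hle : decompositionStabilizer D ⊓ S ≤ decompositionStabilizer D') :
    ∃ K, decompositionStabilizer D ⊓ S < K ∧ K < S := by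
  obtain ⟨π, hπ⟩ := exists_prj hD.indep hD.iSup_eq_top
  obtain ⟨π', hπ'⟩ := exists_oDec h.zero hD'
  obtain ⟨_, hA⟩ := h.amb
  refine between hle (hA.not_le_dec hD'.decomp) fun h3 => hπ'.not_le_decL hπ hD.finrank_eq h.nd
    hD'.decomp.finrank_eq hD'.decomp.pos h1 (by simpa) hi fun k hk => ?_
  obtain ⟨g, hg, rfl⟩ := h.exists_mem (h.com hk.2)
  exact h3 ⟨hk.1, hg⟩

theorem exists_O_of_isometric {Q : QuadraticForm F (ι → F)} (hQ : (ofQuad Q).Nondeg)
    {W W' : Submodule F (ι → F)} (h : AreIsometricFor Q W W') :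
    ∃ k ∈ (ofQuad Q).O, W.map k.toLinearMap = W' := by
  obtain ⟨e, he⟩ := h
  refine hQ.exists_map_of_basis (finBasis F W) ((finBasis F W).map e) (fun i j => ?_)
    fun i => (he _).symm
  simp only [ofQuad_B, QuadraticMap.polar, Basis.map_apply, ← Submodule.coe_add, ← map_add, he]

theorem omega_dec_between [Finite F] {Q : QuadraticForm F (ι → F)} (hQ : (ofQuad Q).Nondeg)
    {t m t' m' : ℕ} {D : Fin t → Submodule F (ι → F)} {D' : Fin t' → Submodule F (ι → F)}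
    (hD : IsOrthogonalMDecomposition Q m D) (h1 : 3 * m' < 2 * m) (h2 : m + 3 < t')
    (h : IsOrthogonalMDecomposition Q m' D' ∧
      decompositionStabilizer D ⊓ omegaGL Q ≤ decompositionStabilizer D') :
    ∃ K, decompositionStabilizer D ⊓ omegaGL Q < K ∧ K < omegaGL Q :=
  (am_omega hQ (by
    have := IsMDecomposition.card_eq h.1.decomp.decomp
    have := h.1.decomp.decomp.pos
    nlinarith)).dec_between hD.decomp.decomp h.1.decomp h1 h2
      (fun i j => exists_O_of_isometric hQ (h.1.isometric i j)) h.2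

section Tensor

variable {κ μ : Type} [Fintype κ] [DecidableEq κ] [Fintype μ] [DecidableEq μ]

omit [DecidableEq κ] [DecidableEq μ] in
theorem fog_kron (B₁ : Matrix κ κ F) (B₂ : Matrix μ μ F) (x x' : κ → F) (y y' : μ → F) :
    formOfGram σ (B₁ ⊗ₖ B₂) (fun a => x a.1 * y a.2) (fun a => x' a.1 * y' a.2) =
      formOfGram σ B₁ x x' * formOfGram σ B₂ y y' := by
  simp only [formOfGram, Fintype.sum_prod_type, kroneckerMap_apply, map_mul, Finset.sum_mul_sum]
  exact Finset.sum_congr rfl fun a _ => Finset.sum_congr rfl fun b _ =>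
    Finset.sum_congr rfl fun c _ => Finset.sum_congr rfl fun d _ => by ring

theorem tP_swap (e : ι ≃ κ × μ) (P : GL ι F) (x : κ → F) (w : μ → F) :
    tP (e.trans (Equiv.prodComm _ _)) P w x = tP e P x w := by
  rw [tP_apply, tP_apply]; congr 1; ext; simp [mul_comm]

theorem tensor_eq_swap {d m : ℕ} (e : ι ≃ Fin d × Fin m) (P : GL ι F) :
    tensorProductSubgroup d m e P = tensorProductSubgroup m d (e.trans (Equiv.prodComm _ _)) P :=
  le_antisymm (tensor_le_swap e P) (tensor_le_swap (e.trans (Equiv.prodComm _ _)) P)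

/-- Similarities of the standard form are monomial. -/
def MonS (σ : F →+* F) (k : ℕ) : Prop := ∀ (y : Fin k → Fin k → F) (c : F), c ≠ 0 →
  (∀ i j, formOfGram σ 1 (y i) (y j) = c * (1 : Matrix (Fin k) (Fin k) F) i j) →
    ∀ i, ∃ j a, y i = Pi.single j a

theorem Am.tensor_between [Finite F] (h : Am Φ f S) {n₁ k : ℕ} (h1 : 3 ≤ n₁) (hk : 2 ≤ k)
    (e : ι ≃ Fin n₁ × Fin k) (P : GL ι F) {B₁ : Matrix (Fin n₁) (Fin n₁) F}
    {B₂ : Matrix (Fin k) (Fin k) F} (hB : IsUnit B₁) {c d : F} (hc : c ≠ 0) (hd : d ≠ 0)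
    (hT : ∀ x w x' w', f (tP e P x w) (tP e P x' w') =
      c * formOfGram σ B₁ x x' * formOfGram σ B₂ w w')
    {R : GL (Fin k) F} (hR : gP σ B₂ R = d • 1) (hM : MonS σ k) :
    ∃ K, tensorProductSubgroup n₁ k e P ⊓ S < K ∧ K < S := by
  have ht := isTensorProduct_tP e P
  haveI : Nonempty (Fin n₁) := ⟨⟨0, by omega⟩⟩
  let b := (Pi.basisFun F (Fin k)).map (glE _ F R)
  have hb : ∀ i, b i = R.1 *ᵥ Pi.single i 1 := fun i => by simp [b]
  have h2 : ∀ x y, formOfGram σ B₂ (R.1 *ᵥ x) (R.1 *ᵥ y) =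
      d * formOfGram σ 1 x y := fun x y => by rw [← fog_gP, hR, fog_smul]
  obtain ⟨_, hA⟩ := h.amb
  refine between (M := decompositionStabilizer (tD (tP e P) b)) (fun g hg => ?_)
    (hA.not_le_dec ((prj_tD b ht).isMDec hk finrank_pos (finrank_tD b ht))) fun h3 =>
    not_le_Tg b ht h.nd h.iso hk (by simpa) (fun i j hij x x' => h.zero _ _ (by
      rw [hT, hb, hb, h2, fog_single, one_apply_ne hij]; simp)) fun k hk => ?_
  · refine Tg_mem_decL b ht hT ?_ (fun β a c' h3 h4 i => ?_)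
      ((mem_tensorProductSubgroup_iff_Tg (by omega)).1 hg.1) (h.inv hg.2)
    · obtain ⟨x, hx⟩ := exists_ne (0 : Fin n₁ → F)
      obtain ⟨y, hy⟩ := exists_fog_right (σ := σ) hB hx
      exact ⟨x, y, mul_ne_zero hc hy⟩
    have h5 : ∀ i j, a * formOfGram σ 1 (R⁻¹.1 *ᵥ β (b i)) (R⁻¹.1 *ᵥ β (b j)) =
        c' * (1 : Matrix (Fin k) (Fin k) F) i j := fun i j => mul_left_cancel₀ hd (by
      rw [mul_left_comm, ← h2, val_mulVec_inv_mulVec, val_mulVec_inv_mulVec, h4, hb, hb, h2,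
        fog_single, mul_left_comm])
    have h6 : a ≠ 0 := fun e => h3 (by simpa [e] using (h5 i i).symm)
    obtain ⟨j, z, h7⟩ := hM (fun i => R⁻¹.1 *ᵥ β (b i)) (a⁻¹ * c')
      (mul_ne_zero (inv_ne_zero h6) h3) (fun i j => by
        rw [mul_assoc, ← h5, inv_mul_cancel_left₀ h6]) i
    refine ⟨j, Submodule.mem_span_singleton.2 ⟨z, ?_⟩⟩
    rw [← val_mulVec_inv_mulVec R (β (b i)), h7, hb, ← mulVec_smul, ← Pi.single_smul]; simp
  · obtain ⟨g, hg, rfl⟩ := h.exists_mem hk.2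
    exact (mem_tensorProductSubgroup_iff_Tg (by omega)).1 (h3 ⟨hk.1, hg⟩)

theorem tensor_pure {n₁ n₂ : ℕ} {e : ι ≃ Fin n₁ × Fin n₂} {P : GL ι F} {f₁ f₂}
    (h : IsTensorFormStructure σ f f₁ f₂ e P) : ∃ c, c ≠ 0 ∧ ∀ x w x' w',
      f (tP e P x w) (tP e P x' w') =
        c * formOfGram σ (gramMatrix f₁) x x' * formOfGram σ (gramMatrix f₂) w w' :=
  h.imp fun c hc => ⟨hc.1, fun x w x' w' => by rw [tP_apply, tP_apply, hc.2, fog_kron, mul_assoc]⟩

theorem Am.tensor_right [Finite F] (h : Am Φ f S) {n₁ k : ℕ} (h1 : 3 ≤ n₁) (hk : 2 ≤ k)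
    {e : ι ≃ Fin n₁ × Fin k} {P : GL ι F} {f₁ f₂} (hT : IsTensorFormStructure σ f f₁ f₂ e P)
    (hB : IsUnit (gramMatrix f₁)) (hR : ∃ R, ∃ d : F, d ≠ 0 ∧ gP σ (gramMatrix f₂) R = d • 1)
    (hM : MonS σ k) : ∃ K, tensorProductSubgroup n₁ k e P ⊓ S < K ∧ K < S :=
  have ⟨_, hc, h2⟩ := tensor_pure hT
  have ⟨_, _, hd, h3⟩ := hR
  h.tensor_between h1 hk e P hB hc hd h2 h3 hM

theorem Am.tensor_left [Finite F] (h : Am Φ f S) {n₂ k : ℕ} (h1 : 3 ≤ n₂) (hk : 2 ≤ k)
    {e : ι ≃ Fin k × Fin n₂} {P : GL ι F} {f₁ f₂} (hT : IsTensorFormStructure σ f f₁ f₂ e P)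
    (hB : IsUnit (gramMatrix f₂)) (hR : ∃ R, ∃ d : F, d ≠ 0 ∧ gP σ (gramMatrix f₁) R = d • 1)
    (hM : MonS σ k) : ∃ K, tensorProductSubgroup k n₂ e P ⊓ S < K ∧ K < S := by
  obtain ⟨c, hc, h2⟩ := tensor_pure hT
  obtain ⟨_, _, hd, h3⟩ := hR
  rw [tensor_eq_swap]
  exact h.tensor_between h1 hk _ P hB hc hd (fun x w x' w' => by
    rw [tP_swap, tP_swap, h2, mul_right_comm]) h3 hM

variable [Fintype F]

theorem monS_three (h3 : Fintype.card F = 3) : MonS (RingHom.id F) 3 := fun y c hc h i => by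
  have h0 : (3 : F) = 0 := cast_eq_zero_of_card (k := 1) h3
  have h4 := @sq_eq_one_of_le_three F _ _ h3.le
  have h1 : Matrix.of y * (Matrix.of y)ᵀ = c • 1 := Matrix.ext fun i j => by
    have := h i j
    rw [fog_eq] at this
    simpa [mul_apply, dotProduct] using this
  have h2 := congrArg det h1
  rw [det_mul, det_transpose, det_smul, det_one, Fintype.card_fin, ← sq, pow_succ c, h4 hc] at h2
  rw [h4 fun e => hc (by simpa [e] using h2.symm)] at h2
  have hx : y i 0 ^ 2 + y i 1 ^ 2 + y i 2 ^ 2 = 1 := by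
    have := h i i
    simp only [fog_eq, one_mulVec, dotProduct, Fin.sum_univ_three, one_apply_eq] at this
    simp only [Function.comp, RingHom.id_apply] at this
    linear_combination this - h2
  generalize y i = x at hx
  by_cases h5 : x 0 = 0 <;> by_cases h6 : x 1 = 0 <;> by_cases h7 : x 2 = 0
  · simp [h5, h6, h7] at hx
  · exact ⟨2, x 2, by ext a; fin_cases a <;> simp [h5, h6]⟩
  · exact ⟨1, x 1, by ext a; fin_cases a <;> simp [h5, h7]⟩
  · simp [h5, h4 h6, h4 h7] at hx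
  · exact ⟨0, x 0, by ext a; fin_cases a <;> simp [h6, h7]⟩
  · simp [h6, h4 h5, h4 h7] at hx
  · simp [h7, h4 h5, h4 h6] at hx
  · exact (one_ne_zero (α := F) (by linear_combination h0 - hx + h4 h5 + h4 h6 + h4 h7)).elim

theorem monS_four (h4 : Fintype.card F = 2 ^ 2) : MonS (conj h4) 2 := fun y c hc h i => by
  refine single_of_two (by_contra fun h1 => hc ?_)
  rw [not_or] at h1
  have := h i i
  simp only [fog_eq, one_mulVec, dotProduct, Fin.sum_univ_two, one_apply_eq, Function.comp,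
    conj_apply] at this
  linear_combination -this + pow_card_pred (k := 3) h4 h1.1 + pow_card_pred (k := 3) h4 h1.2 +
    (cast_eq_zero_of_card h4 : ((2 : ℕ) : F) = 0)

omit [Fintype F] in
theorem fd_of_symm {f : (κ → F) → (κ → F) → F} (h : IsSymmetricForm f) :
    FD (RingHom.id F) (gramMatrix f) 1 :=
  ⟨fun _ => rfl, isUnit_of_fog (σ := RingHom.id F) fun v hv => by
    rw [← eq_fog_of_bilin h.bilinear]; exact (h.nondegenerate v hv).2,
    Matrix.ext fun a b => by simpa [gramMatrix] using h.symm _ _, one_ne_zero⟩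

theorem fd_of_uni {q : ℕ} (hF : Fintype.card F = q ^ 2) {f : (κ → F) → (κ → F) → F}
    (h : IsUnitaryFormPow q f) : FD (conj hF) (gramMatrix f) 1 :=
  ⟨conj_conj hF, isUnit_of_fog (σ := conj hF) fun v hv => by
    rw [← eq_fog_of_herm (conj_conj hF) h.add_left h.smul_left h.herm]
    exact (h.nondegenerate v hv).2,
    Matrix.ext fun a b => by simpa [gramMatrix] using (h.herm _ _).symm, one_ne_zero⟩

theorem exists_gP_three (h3 : Fintype.card F = 3) {B : Matrix (Fin 3) (Fin 3) F}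
    (h : FD (RingHom.id F) B 1) : ∃ R, ∃ d : F, d ≠ 0 ∧ gP (RingHom.id F) B R = d • 1 := by
  have h1 := IsUnit.det_ne h.unit
  obtain ⟨P, hP⟩ := h.exists_trF (two_ne_zero_of_odd_card (by rw [h3]; decide))
    (B₀ := B.det • 1) (FD.smul ⟨fun _ => rfl, isUnit_one, by simp, one_ne_zero⟩ h1) (Equiv.refl _)
    ⟨B.det ^ 2, by simp; ring⟩
  exact ⟨P, _, h1, trF_iff_gP.1 hP⟩

end Tensor

end H23.As
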