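import Cfsg.Agent.H23.Tn3

/-!
Normalisers of extension fields of prime degree are maximal in the linear groups.
-/

set_option autoImplicit false

namespace H23.Tn

open Module Sf

variable {F E V : Type*} [Field F] [Field E] [Algebra F E] [AddCommGroup V] [Module E V]
  [Module F V] [IsScalarTower F E V] {K G : Subgroup (V ≃ₗ[F] V)} {g : V ≃ₗ[F] V} {u w : V}

variable (E V) in
/-- `V` as `E ⊗[E] V`. -/
abbrev ls : E →ₗ[E] V →ₗ[E] V := LinearMap.lsmul E V

variable (E V) in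
theorem isTP_ls : IsTensorProduct (ls E V) :=
  IsTensorProduct.of_equiv (TensorProduct.lid E V) (by simp)

theorem cov_ls (ψ : Dual E V) (v : V) : cov F (isTP_ls E V) ψ v = ψ v := by
  simpa using cov_t (F := F) (isTP_ls E V) ψ 1 v

theorem semi_of_Tg (hg : g ∈ Tg F (ls E V)) (y : E) : ∃ y' : E, ∀ v, g (y • v) = y' • g v := by
  obtain ⟨a, b, h⟩ := hg
  have a1 : a 1 ≠ 0 := by simp
  refine ⟨a y / a 1, fun v => ?_⟩
  have a2 := h 1 v
  simp only [LinearMap.lsmul_apply, one_smul] at h a2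
  rw [h, a2, smul_smul, div_mul_cancel₀ _ a1]

theorem mem_Tg_of_semi [Nontrivial V] [FiniteDimensional F E]
    (h : ∀ y : E, ∃ y' : E, ∀ v, g (y • v) = y' • g v) : g ∈ Tg F (ls E V) := by
  choose τ hτ using h
  obtain ⟨v, hv⟩ := exists_ne (0 : V)
  have inj := smul_left_injective E (show g v ≠ 0 by simpa)
  let a : E →ₗ[F] E :=
    { toFun := τ
      map_add' := fun x y => inj (by simp only [← hτ, add_smul, map_add])
      map_smul' := fun c y => inj (by simp only [← hτ, smul_assoc, map_smul, RingHom.id_apply]) }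
  exact ⟨LinearEquiv.ofInjectiveEndo a fun x y h => smul_left_injective E hv (g.injective (by
    simp only [hτ]; exact congrArg (· • g v) h)), g.toEquiv, fun x w => hτ x w⟩

variable [Finite F] [Finite E] [Finite V] [FiniteDimensional E V]

omit [Finite F] [Finite V] in
theorem exists_dil_Tg (hu : u ≠ 0) {c : E} (hc : c ≠ 0) : ∃ g ∈ Tg F (ls E V),
    LinearMap.det g.toLinearMap = Algebra.norm F c ∧ (∀ x : E, g (x • u) = (c * x) • u) ∧
      ∀ v, ∃ x : E, g v = v + x • u := by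
  obtain ⟨f, hf⟩ := exists_dual_one (F := E) hu
  obtain ⟨g, h1, h2⟩ := exists_dilation hf hc
  exact ⟨g.restrictScalars F, ⟨1, g.toEquiv, fun x w => g.map_smul x w⟩,
    by rw [← h1, ← LinearMap.det_restrictScalars]; rfl, fun x => by
      simp [h2, hf, smul_smul, ← add_smul]; ring_nf, fun v => ⟨_, h2 v⟩⟩

variable (K u) in
/-- The left multipliers of the block transvections with centre `u`. -/
def Lm : Subring (End F E) where
  carrier := {l | ∀ φ : V →ₗ[F] E, (∀ x : E, φ (x • u) = 0) → BT (ls E V) K u φ →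
    BT (ls E V) K u (l ∘ₗ φ)}
  mul_mem' := fun {a b} ha hb φ h0 h => ha _ (by simp [h0]) (hb φ h0 h)
  one_mem' := fun _ _ h => h
  add_mem' := fun {a b} ha hb φ h0 h =>
    ((ha φ h0 h).add (hb φ h0 h) (by simp [h0])).congr (by simp)
  zero_mem' := fun _ _ _ => endIn_zero (by simp)
  neg_mem' := fun {a} ha φ h0 h => ((ha φ h0 h).neg (by simp [h0])).congr (by simp)

omit [Finite F] [Finite V] in
theorem lsmul_mem_Lm (h1 : 1 < finrank F E) (hM : Tg F (ls E V) ⊓ SLv F V ≤ K) (hu : u ≠ 0)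
    (c : E) : (LinearMap.lsmul E E c).restrictScalars F ∈ Lm K u := by
  refine mem_of_norm h1 ((Lm K u).comap (Algebra.lsmul F F E (A := E)).toRingHom)
    (fun c hc φ h0 h => ?_) c
  obtain ⟨g, a1, a2, a3, a4⟩ := exists_dil_Tg (F := F) hu (c := c) (by rintro rfl; simp at hc)
  refine (h.conj (hM ⟨a1, mem_SLv.2 (a2.trans hc)⟩) (a := Algebra.lsmul F F E c) a3).congr
    fun v => ?_
  obtain ⟨v, rfl⟩ := g.surjective v
  obtain ⟨x, hx⟩ := a4 v
  simp only [LinearMap.comp_apply, LinearEquiv.coe_coe, LinearEquiv.symm_apply_apply]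
  rw [hx, map_add, h0, add_zero]; rfl

theorem SLv_le_of_bt_one (h2 : 2 ≤ finrank E V) (hM : Tg F (ls E V) ⊓ SLv F V ≤ K) (hu : u ≠ 0)
    (h : ∀ φ : V →ₗ[F] E, (∀ x : E, φ (x • u) = 0) → BT (ls E V) K u φ) : SLv F V ≤ K := by
  refine SLv_le_of_bt (isTP_ls E V) h2 fun w hw φ h0 => ?_
  obtain ⟨m, c1, b, c2, rfl⟩ := exists_trans (F := F) (isTP_ls E V) h2 hu hw
  exact ((h (φ ∘ₗ m.toLinearMap) fun x => (congrArg φ (c2 x u)).trans (h0 x)).conj (hM c1)
    (a := 1) (c2 · u)).congr (by simp)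

theorem semi_of_stab (hP : PD (fr F E)) (h1 : 1 < finrank F E) (h2 : 2 ≤ finrank E V)
    (hM : Tg F (ls E V) ⊓ SLv F V ≤ K) (hK : ¬ SLv F V ≤ K) (hu : u ≠ 0) (hg : g ∈ K)
    {a : E → E} (h : ∀ x, g (x • u) = a x • u) (d : E) : ∃ d', ∀ x, a (d * x) = d' * a x := by
  obtain ⟨a', h3⟩ := exists_blockEquiv (isTP_ls E V) hu fun x => ⟨a x, h x⟩
  obtain rfl : a = a' := funext fun x => smul_left_injective E hu ((h x).symm.trans (h3 x))
  have h4 : ∀ x : E, g.symm (x • u) = a'.symm x • u := fun x => by rw [g.symm_apply_eq, h]; simp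
  by_contra! h5
  refine hK (SLv_le_of_bt_one h2 hM hu fun φ => bt_of_all (isTP_ls E V) hu fun z ψ h6 =>
    hr_field hP (Lm K u) (lsmul_mem_Lm h1 hM hu) (fun n hn z hz => ?_)
      ⟨a'.toLinearMap ∘ₗ (LinearMap.lsmul E E d).restrictScalars F ∘ₗ a'.symm.toLinearMap,
        fun φ h0 h7 => ?_, fun c => ?_⟩ z _ (by simp [cov_ls, h6])
      ((bt_rat (isTP_ls E V) h6).mono hM))
  · have : n = 0 := by
      ext
      have a1 := n.map_smul (n 1) 1
      rw [smul_eq_mul, mul_one, hn, smul_eq_mul, eq_comm, mul_self_eq_zero] at a1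
      simpa using a1
    simpa [this]
  · have a1 : g⁻¹.symm = g := rfl
    exact ((lsmul_mem_Lm h1 hM hu d _ (by simp [a1, h, h0]) (h7.conj (K.inv_mem hg)
      (a := a'.symm.toLinearMap) h4)).conj hg (a := a'.toLinearMap) h).congr (by simp [a1])
  · obtain ⟨x, hx⟩ := h5 c
    exact ⟨a' x, by simpa using hx⟩

theorem block_of_HA (hP : PD (fr F E)) (hA : HA F E) (h1 : 1 < finrank F E) (h2 : 2 ≤ finrank E V)
    (hM : Tg F (ls E V) ⊓ SLv F V ≤ K) (hK : ¬ SLv F V ≤ K) (hg : g ∈ K) (hu : u ≠ 0) (x : E) :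
    ∃ y : E, g (x • u) = y • g u := by
  have key : ∀ X : Submodule F E, X ≠ ⊥ → ∀ g ∈ K, ∀ w : V,
      (∀ x ∈ X, ∃ y : E, g (x • u) = y • w) → ∀ x : E, ∃ y : E, g (x • u) = y • w := fun X => by
    induction X using WellFoundedGT.induction with
    | ind X ih =>
    intro hX g hg w h x₁
    by_cases a2 : x₁ ∈ X
    · exact h x₁ a2
    by_contra a1
    obtain ⟨x₀, a3, a4⟩ := X.exists_mem_ne_zero_of_ne_bot hX
    obtain ⟨y₀, a5⟩ := h x₀ a3
    obtain ⟨ψ, b1, b2⟩ := exists_dual_pair (F := E) (u := w) (x := g (x₁ • u)) fun h => a1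
      ((Submodule.mem_span_singleton.1 h).imp fun _ h => h.symm)
    let N : V →ₗ[F] V := g.symm.toLinearMap ∘ₗ (ψ.smulRight (y₀ • w)).restrictScalars F ∘ₗ
      g.toLinearMap
    have b3 : ∀ c : F, ∃ k ∈ K, (∀ v, k v = v + c • N v) ∧ ∀ x : E, ∃ y : E, k (x • u) = y • u :=
      fun c => by
        obtain ⟨k, hk, b3⟩ := EndIn.conj (EndIn.mono (bt_rat (isTP_ls E V)
          (ψ := (algebraMap F E c * y₀) • ψ) (u := w) (by simp [b1])) hM) (K.inv_mem hg)
        have b4 : ∀ v, k v = v + c • N v := fun v => by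
          rw [b3]
          change v + g.symm (cov F (isTP_ls E V) _ (g v) • w) = v + c • g.symm (ψ (g v) • y₀ • w)
          rw [← map_smul, cov_ls, ← algebraMap_smul E c]
          simp [smul_smul, mul_comm, mul_left_comm, mul_assoc]
        refine ⟨k, hk, b4, ih (X ⊔ F ∙ x₁) (SetLike.lt_iff_le_and_exists.2 ⟨le_sup_left, x₁,
          Submodule.mem_sup_right (Submodule.mem_span_singleton_self _), a2⟩)
          (fun h => hX (eq_bot_iff.2 (h ▸ le_sup_left))) k hk u fun x hx => ?_⟩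
        obtain ⟨x, hx', _, hz, rfl⟩ := Submodule.mem_sup.1 hx
        obtain ⟨e, rfl⟩ := Submodule.mem_span_singleton.1 hz
        obtain ⟨y, hy⟩ := h x hx'
        exact ⟨x + e • x₁ + (c * e) • x₀, by
          simp [b4, N, add_smul, hy, b1, b2, ← a5, smul_smul]⟩
    obtain ⟨f, hf⟩ := exists_dual_one (F := E) hu
    let n : E →ₗ[F] E := f.restrictScalars F ∘ₗ N ∘ₗ vec F (ls E V) u
    have b4 : ∀ x : E, N (x • u) = n x • u := fun x => by
      obtain ⟨k, -, b4, b5⟩ := b3 1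
      obtain ⟨y, hy⟩ := b5 x
      rw [b4, one_smul, ← eq_sub_iff_add_eq', ← sub_smul] at hy
      simp [n, hy, hf]
    have b5 : ∀ x, n (n x) = 0 := fun x => smul_left_injective E hu (by
      simp only [← b4]; simp [N, b1])
    have b6 := lin_of_semi hP hA b5 fun c y => by
      obtain ⟨k, hk, b6, -⟩ := b3 c
      simpa using semi_of_stab hP h1 h2 hM hK hu hk (a := fun x => x + c • n x)
        (fun x => by simp [b6, b4, add_smul]) y
    have b7 : n 1 = 0 := by
      have := b6 (n 1) 1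
      simpa [b5] using this
    have b8 := b4 x₁
    rw [show n x₁ = 0 by simpa [b7] using b6 x₁ 1] at b8
    simp [N, b2, ← a5, a4, hu] at b8
  refine key (F ∙ 1) (by simp) g hg _ (fun x hx => ?_) x
  obtain ⟨c, rfl⟩ := Submodule.mem_span_singleton.1 hx
  exact ⟨c • 1, by simp⟩

omit [Finite F] [Finite E] [Finite V] [FiniteDimensional E V] in
theorem nwt_of_block (h : ∀ g ∈ K, ∀ u ≠ 0, ∀ x : E, ∃ y : E, g (x • u) = y • g u) :
    NWT (ls E V) K := by
  rintro u hu φ h0 ⟨g, hg, h1⟩ w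
  by_cases h2 : w ∈ E ∙ u
  · obtain ⟨c, rfl⟩ := Submodule.mem_span_singleton.1 h2
    exact ⟨0, fun x => by simpa [smul_smul] using h0 (c * x)⟩
  obtain ⟨ψ, h3, h4⟩ := exists_dual_pair h2
  refine ⟨φ w, fun x => ?_⟩
  obtain ⟨y, hy⟩ := h g hg w (fun h => h2 (h ▸ zero_mem _)) x
  obtain rfl : x = y := by simpa [h1, h3, h4] using congrArg ψ hy
  refine smul_left_injective E hu ?_
  simpa [h1, smul_smul, mul_comm] using hy

theorem nwt_of_two (h1 : 1 < finrank F E) (h2 : finrank E V = 2) {θ : E}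
    (hθ : ∀ c, ∃ a ∈ fr F E, ∃ b ∈ fr F E, c = a + b * θ) (hM : Tg F (ls E V) ⊓ SLv F V ≤ K)
    (hK : ¬ SLv F V ≤ K) : NWT (ls E V) K := by
  intro u hu φ h0 h3 y
  by_contra! h4
  simp only [LinearMap.lsmul_apply, smul_eq_mul] at h0 h4
  have a1 : ∀ χ : V →ₗ[F] E, ∀ a b : F, χ ((algebraMap F E a + algebraMap F E b * θ) • y) =
      algebraMap F E a * χ y + algebraMap F E b * χ (θ • y) := fun χ a b => by
    simp [add_smul, mul_smul, Algebra.smul_def]
  have a2 : φ (θ • y) - θ * φ y ≠ 0 := fun h => by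
    obtain ⟨x, hx⟩ := h4 (φ y)
    obtain ⟨_, ⟨a, rfl⟩, _, ⟨b, rfl⟩, rfl⟩ := hθ x
    exact hx (by rw [a1]; linear_combination algebraMap F E b * h)
  have a3 : y ∉ E ∙ u := fun h => by
    obtain ⟨c, rfl⟩ := Submodule.mem_span_singleton.1 h
    simp [smul_smul, h0] at a2
  obtain ⟨ψ, a4, a5⟩ := exists_dual_pair a3
  have a6 : ∀ v, ∃ a b : E, a • u + b • y = v := fun v => Submodule.mem_span_pair.1 (by
    have := ((LinearIndependent.pair_iff' hu).2 fun a h => a3
      (Submodule.mem_span_singleton.2 ⟨a, h⟩)).span_eq_top_of_card_eq_finrank (by simp [h2])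
    rw [Matrix.range_cons, Matrix.range_cons, Matrix.range_empty, Set.union_empty,
      Set.singleton_union] at this
    exact this ▸ Submodule.mem_top)
  refine hK (SLv_le_of_bt_one h2.ge hM hu fun χ a7 => ?_)
  set e := (χ (θ • y) - θ * χ y) / (φ (θ • y) - θ * φ y) with he
  refine ((lsmul_mem_Lm h1 hM hu e φ h0 h3).add ((bt_rat (isTP_ls E V)
    (ψ := (χ y - e * φ y) • ψ) (by simp [a4])).mono hM) (by simp [h0])).congr fun v => ?_
  obtain ⟨a, b, rfl⟩ := a6 v
  obtain ⟨_, ⟨c, rfl⟩, _, ⟨d, rfl⟩, rfl⟩ := hθ b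
  rw [eq_div_iff a2] at he
  simp only [LinearMap.add_apply, LinearMap.comp_apply, map_add, h0, a7, a1, cov_ls, map_smul,
    LinearMap.smul_apply, a4, a5, LinearMap.restrictScalars_apply, LinearMap.lsmul_apply,
    smul_eq_mul]
  linear_combination algebraMap F E d * he

theorem mem_Tg_four (h01 : ∀ c : F, c = 0 ∨ c = 1) (h2 : finrank E V = 2) {θ : E}
    (hθ : ∀ c, ∃ a ∈ fr F E, ∃ b ∈ fr F E, c = a + b * θ) (hθ' : θ ∉ fr F E)
    (hM : Tg F (ls E V) ⊓ SLv F V ≤ K) (hN : NWT (ls E V) K) (hg : g ∈ K) :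
    g ∈ Tg F (ls E V) := by
  have : FiniteDimensional F E := Module.Finite.of_finite
  have : Nontrivial V := Module.nontrivial_of_finrank_pos (R := E) (by omega)
  have hS : ∀ g, g ∈ SLv F V := fun g => mem_SLv.2 ((h01 _).resolve_left g.isUnit_det'.ne_zero)
  have hB : ∀ g ∈ K, ∀ u ≠ 0, ∀ w : V, (∀ x : E, ∃ y : E, g (x • u) = y • w) →
      g ∈ Tg F (ls E V) := fun g hg u hu w =>
    block (isTP_ls E V) h2.ge le_rfl hM (fun g _ => hS g) hN hu hg
  have a1 : (2 : E) = 0 := by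
    rcases h01 2 with h | h
    · rw [← map_ofNat (algebraMap F E) 2, h, map_zero]
    · exact (one_ne_zero (by linear_combination h : (1 : F) = 0)).elim
  have a2 : ∀ c, c = 0 ∨ c = 1 ∨ c = θ ∨ c = 1 + θ := fun c => by
    obtain ⟨_, ⟨a, rfl⟩, _, ⟨b, rfl⟩, rfl⟩ := hθ c
    rcases h01 a with rfl | rfl <;> rcases h01 b with rfl | rfl <;> simp
  have a3 : θ ≠ 0 := fun h => hθ' (h ▸ zero_mem _)
  have a4 : θ ≠ 1 := fun h => hθ' (h ▸ one_mem _)
  have a5 : θ * θ = 1 + θ := by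
    rcases a2 (θ * θ) with h | h | h | h
    · exact (mul_ne_zero a3 a3 h).elim
    · exact (pow_ne_zero 2 (sub_ne_zero.2 a4) (by linear_combination h + (1 - θ) * a1)).elim
    · exact (mul_ne_zero a3 (sub_ne_zero.2 a4) (by linear_combination h)).elim
    · exact h
  have hB' : ∀ g ∈ K, ∀ u ≠ 0, ∀ w : V, ∀ y y' : E, g u = y • w → g (θ • u) = y' • w →
      g ∈ Tg F (ls E V) := fun g hg u hu w y y' b1 b2 => hB g hg u hu w fun x => by
    rcases a2 x with rfl | rfl | rfl | rfl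
    exacts [⟨0, by simp⟩, ⟨y, by simpa⟩, ⟨y', b2⟩, ⟨y + y', by simp [add_smul, b1, b2]⟩]
  obtain ⟨u, hu⟩ := exists_ne (0 : V)
  by_contra a6
  have a7 : LinearIndependent E ![g u, g (θ • u)] := (LinearIndependent.pair_iff' (by simpa)).2
    fun a h => a6 (hB' g hg u hu (g u) 1 a (by simp) h.symm)
  let b := basisOfLinearIndependentOfCardEqFinrank a7 (by simp [h2])
  have b0 : g u = b 0 := by simp [b]
  have b1 : g (θ • u) = b 1 := by simp [b]
  obtain ⟨δ, d0, d1⟩ := exists_dual_pair (F := F) (u := (1 : E)) (x := θ) fun h => by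
    obtain ⟨c, hc⟩ := Submodule.mem_span_singleton.1 h
    exact hθ' ⟨c, by rw [← hc, Algebra.smul_def, mul_one]⟩
  have d2 : ∀ c, algebraMap F E (δ c) = c * c - c := fun c => by
    rcases a2 c with rfl | rfl | rfl | rfl <;> simp [d0, d1]
    · linear_combination -a5
    · linear_combination -a5 - θ * a1
  let c₀ := δ ∘ₗ (b.coord 0).restrictScalars F
  let c₁ := δ ∘ₗ (b.coord 1).restrictScalars F
  let χ : V →ₗ[F] E := (c₀.smulRight 1 + c₁.smulRight θ) ∘ₗ g.toLinearMap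
  have c1 : ∀ x : E, χ (x • u) = 0 := fun x => by
    rcases a2 x with rfl | rfl | rfl | rfl <;> simp [χ, c₀, c₁, add_smul, b0, b1, d0]
  have hs : ∀ (a : F) (v : V), a • v = algebraMap F E a • v := by simp
  have d3 : ∀ a : F, δ (algebraMap F E a) = 0 := fun a => by
    simp [Algebra.algebraMap_eq_smul_one, d0]
  have c2 : EndIn (Tg F (ls E V) ⊓ SLv F V) (c₀.smulRight (b 0) + c₁.smulRight (b 1)) :=
    endIn_SLv (by simp [c₀, c₁, hs, d3, -algebraMap_smul])
      fun k hk => mem_Tg_of_semi fun y => ⟨y * y, fun v => b.ext_elem fun i => by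
        fin_cases i <;> simp [hk, c₀, c₁, hs, d2, -algebraMap_smul] <;> ring⟩
  obtain ⟨ψ, c3⟩ := (hN u hu χ c1 (EndIn.congr (EndIn.conj (EndIn.mono c2 hM) (K.inv_mem hg))
    fun v => g.injective (by simp [χ, add_smul, b0, b1, show g⁻¹.symm = g from rfl]))).exists
      (isTP_ls E V)
  simp only [cov_ls] at c3
  have c4 : ψ u = 0 := by simpa [c3] using c1 1
  obtain ⟨σ, c5, c6⟩ := EndIn.conj ((bt_rat (isTP_ls E V) (ψ := θ • ψ) (u := u)
    (by simp [c4])).mono hM) hg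
  have s0 : ∀ v, σ v = v + c₀ v • b 1 + c₁ v • (b 0 + b 1) := fun v => by
    simp [c6, cov_ls, ← c3, χ, mul_add, add_smul, a5, b0, b1, add_assoc]
  have s1 : σ (b 0) = b 0 := by simp [s0, c₀, c₁, d0]
  have s2 : σ (b 1) = b 1 := by simp [s0, c₀, c₁, d0]
  have s3 : σ (θ • b 0) = θ • b 0 + b 1 := by simp [s0, c₀, c₁, d1]
  have s4 : σ (θ • b 1) = θ • b 1 + (b 0 + b 1) := by simp [s0, c₀, c₁, d1]
  obtain ⟨m, c7, c8⟩ := (bt_rat (F := F) (isTP_ls E V) (ψ := b.coord 0 + θ • b.coord 1)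
    (u := b 0 + (1 + θ) • b 1) (by simp; linear_combination a5 + (1 + θ) * a1)).mono hM
  have m1 : m (b 0) = b 1 + θ • b 1 := by
    simp [c8, cov_ls]; linear_combination (norm := module) a1 • b 0
  have m2 : m (b 1) = θ • b 0 := by
    simp [c8, cov_ls]; linear_combination (norm := module) a5 • b 1 + ((1 + θ) * a1) • b 1
  have m3 : m (θ • b 0) = b 1 := by
    simp [c8, cov_ls]
    linear_combination (norm := module) (θ * a1) • b 0 + a5 • b 1 + (θ * a1) • b 1
  have m4 : m (θ • b 1) = b 0 + θ • b 0 := by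
    simp [c8, cov_ls, a5]
    linear_combination (norm := module) a5 • b 1 + ((1 + 2 * θ) * a1) • b 1
  obtain ⟨y, hy⟩ := semi_of_Tg (hB' _ (mul_mem (mul_mem c5 c7) c5) (b 0 + b 1) (fun h => by
    simpa using congrArg (b.coord 0) h) (b 0 + b 1) (1 + θ) θ (by
      simp [s1, s2, s3, s4, m1, m2]
      linear_combination (norm := module) a1 • b 1) (by
      simp [s1, s2, s3, s4, m1, m2, m3, m4]
      linear_combination (norm := module) a1 • (b 0 + θ • b 0 + b 1 + b 1 + b 1))) θ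
  have e1 := hy (b 0)
  simp only [LinearEquiv.mul_apply, s1, s2, s3, s4, m1, m2, m3, map_add] at e1
  have e2 := congrArg (b.coord 0) e1
  have e3 := congrArg (b.coord 1) e1
  simp at e2 e3
  subst e2
  exact mul_ne_zero a3 a3 (by linear_combination -e3 + (1 - θ) * a1)

theorem field_main (hP : PD (fr F E)) (h2 : 2 ≤ finrank E V) (hG : SLv F V ≤ G)
    (hM : Tg F (ls E V) ⊓ G ≤ K) (hK : K ≤ G) (h : ¬ SLv F V ≤ K) (hg : g ∈ K) :
    g ∈ Tg F (ls E V) := by
  have : FiniteDimensional F E := Module.Finite.of_finite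
  have : FiniteDimensional F V := Module.Finite.of_finite
  have : Nontrivial V := Module.nontrivial_of_finrank_pos (R := E) (by omega)
  have hM' : Tg F (ls E V) ⊓ SLv F V ≤ K := (inf_le_inf_left _ hG).trans hM
  have h1 : 1 < finrank F E := by
    by_contra! h1
    obtain ⟨c, hc⟩ := hP.1
    obtain ⟨a, ha⟩ := (finrank_eq_one_iff_of_nonzero' (K := F) (1 : E) one_ne_zero).1
      (le_antisymm h1 finrank_pos) c
    exact hc ⟨a, by rw [← ha, Algebra.smul_def, mul_one]⟩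
  by_cases hA : HA F E
  · obtain ⟨u, hu⟩ := exists_ne (0 : V)
    exact block (isTP_ls E V) h2 hG hM hK (nwt_of_block fun g hg u hu =>
      block_of_HA hP hA h1 h2 hM' h hg hu) hu hg (block_of_HA hP hA h1 h2 hM' h hg hu)
  obtain ⟨a1, a2⟩ := not_or.1 hA
  obtain ⟨θ, hθ⟩ := hP.dichotomy.resolve_right a2
  rcases h2.eq_or_lt with h3 | h3
  · refine mem_Tg_four (fun c => by by_contra! h; exact a1 ⟨c, h⟩) h3.symm hθ (fun a3 => ?_) hM'
      (nwt_of_two h1 h3.symm hθ hM' h) hg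
    obtain ⟨c, hc⟩ := hP.1
    obtain ⟨a, ha, b, hb, rfl⟩ := hθ c
    exact hc (add_mem ha (mul_mem hb a3))
  have a3 : ∀ u : V, ∃ ψ : Dual E V, ψ ≠ 0 ∧ ψ u = 0 := fun u => by
    obtain ⟨w, -, h4⟩ := exists_notMem_span (W := (⊤ : Submodule E V)) (by simpa) u
    obtain ⟨ψ, h5, h6⟩ := exists_dual_pair h4
    exact ⟨ψ, by rintro rfl; simp at h6, h5⟩
  refine mem_Tg (isTP_ls E V) h2 hG hM hK (by_contra fun a4 => h (win (hr_field hP) h3 hM'
    (isTP_ls E V) a4)) (fun N _ b2 b3 => ?_) (by simpa [cov_ls] using a3) (fun u x hx v => ?_) hg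
  · obtain ⟨k, b4, b5⟩ := b3 1
    have b6 := lin_of_dim (E := E) (N := N) (by
      rw [b2, ← finrank_mul_finrank F E V]; nlinarith) fun y => by
        simpa [b5] using semi_of_Tg b4 y
    obtain ⟨_, ⟨v, rfl⟩, b7⟩ := (LinearMap.range N).exists_mem_ne_zero_of_ne_bot fun h => by
      rw [h, finrank_bot] at b2; omega
    exact ⟨_, b7, fun x => ⟨_, b6 x v⟩⟩
  · obtain ⟨ψ, b1, b2⟩ := a3 u
    by_cases b3 : ψ v = 0
    · exact ⟨ψ, b1, b2, by simp [cov_ls, b3]⟩
    · exact ⟨(x / ψ v) • ψ, smul_ne_zero (div_ne_zero hx b3) b1, by simp [b2], by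
        simp [cov_ls, b3, Submodule.mem_span_singleton_self]⟩

theorem exists_not_mem_Tg_ls (hP : PD (fr F E)) (h2 : 2 ≤ finrank E V) :
    ∃ g ∈ SLv F V, g ∉ Tg F (ls E V) := by
  have : FiniteDimensional F E := Module.Finite.of_finite
  obtain ⟨c, hc⟩ := hP.1
  obtain ⟨δ, d0, d1⟩ := exists_dual_pair (F := F) (u := (1 : E)) (x := c) fun h => by
    obtain ⟨a, ha⟩ := Submodule.mem_span_singleton.1 h
    exact hc ⟨a, by rw [← ha, Algebra.smul_def, mul_one]⟩
  refine exists_not_mem_Tg (isTP_ls E V) h2 (z := δ.smulRight 1) fun d => ?_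
  by_contra! h
  have := h c
  simp [show d = 0 by simpa [d0] using (h 1).symm, d1] at this

theorem isMaximalIn_field_SL (hP : PD (fr F E)) (h2 : 2 ≤ finrank E V) :
    Cfsg.Geo.IsMaximalIn (SLv F V) (Tg F (ls E V) ⊓ SLv F V) := by
  obtain ⟨g, a1, a2⟩ := exists_not_mem_Tg_ls (V := V) hP h2
  exact isMaximalIn_of inf_le_right ⟨g, a1, fun h => a2 h.1⟩ fun K hM hK g hg hg' =>
    by_contra fun h => hg' ⟨field_main hP h2 le_rfl hM hK h hg, hK hg⟩

theorem isMaximalIn_field_GL (hP : PD (fr F E)) (h2 : 2 ≤ finrank E V) :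
    Cfsg.Geo.IsMaximalIn ⊤ (Tg F (ls E V)) := by
  obtain ⟨g, -, a2⟩ := exists_not_mem_Tg_ls (V := V) hP h2
  refine isMaximalIn_of le_top ⟨g, trivial, a2⟩ fun K hM hK g hg hg' k _ => ?_
  have a3 : SLv F V ≤ K := by_contra fun h =>
    hg' (field_main hP h2 le_top (inf_le_left.trans hM) hK h hg)
  have : Nontrivial V := Module.nontrivial_of_finrank_pos (R := E) (by omega)
  obtain ⟨u, hu⟩ := exists_ne (0 : V)
  obtain ⟨c, hc⟩ := FiniteField.norm_surjective F E (LinearMap.det k.toLinearMap)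
  obtain ⟨d, a4, a5, -⟩ := exists_dil_Tg (F := F) hu (c := c) fun h =>
    k.isUnit_det'.ne_zero (by simpa [h] using hc.symm)
  have a6 : LinearEquiv.det d = LinearEquiv.det k := Units.ext (by simpa [a5] using hc)
  simpa using mul_mem (a3 (show k * d⁻¹ ∈ SLv F V by simp [SLv, a6])) (hM a4)

section Bridge

open Matrix Cfsg.Geo

variable {ι : Type} [Fintype ι] [DecidableEq ι] {F : Type*} [Field F] [Fintype F]

theorem isMaximalIn_normalizer {r : ℕ} (hr : r.Prime) (hlt : r < Fintype.card ι)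
    {K : Subalgebra F (Matrix ι ι F)} (hK : IsFieldSubalgebra r K) :
    IsMaximalIn ⊤ (subalgebraNormalizer K) ∧
      IsMaximalIn (specialLinear ι F) (subalgebraNormalizer K ⊓ specialLinear ι F) := by
  have : Nonempty ι := Fintype.card_pos_iff.1 (by omega)
  have h0 : IsField K := ⟨exists_pair_ne K, fun x y => Subtype.ext (hK.comm _ x.2 _ y.2),
    fun {x} hx => let ⟨y, hy, h⟩ := hK.inv _ x.2 (by simpa using hx); ⟨⟨y, hy⟩, Subtype.ext h⟩⟩
  letI := h0.toField
  have : Finite K := Subtype.finite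
  have := Fintype.ofFinite K
  have h1 := finrank_mul_finrank F K (ι → F)
  rw [hK.finrank_eq, finrank_fintype_fun_eq_card] at h1
  have h2 : 2 ≤ finrank K (ι → F) := by
    by_contra! h
    have : r * finrank K (ι → F) ≤ r * 1 := Nat.mul_le_mul_left _ (by omega)
    omega
  have hP : PD (fr F K) := pd_of_card hr (by
    rw [Module.card_eq_pow_finrank (K := F), hK.finrank_eq, ← Nat.card_eq_fintype_card]
    exact congrArg (· ^ r) (Nat.card_congr (algebraMap F K).rangeRestrictFieldEquiv.toEquiv))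
  have : Nontrivial (ι → F) := inferInstance
  have h4 : ∀ g : GL ι F, glE ι F g ∈ Tg F (ls K (ι → F)) → ∀ k ∈ K,
      (g : Matrix ι ι F) * k * ((g⁻¹ : GL ι F) : Matrix ι ι F) ∈ K := fun g hg k hk => by
    obtain ⟨y, hy⟩ := semi_of_Tg hg ⟨k, hk⟩
    have : (g : Matrix ι ι F) * k = y * g := Matrix.toLin'.injective (LinearMap.ext fun v => by
      simp only [Matrix.toLin'_apply, ← mulVec_mulVec]; exact hy v)
    simp [this]
  have h3 : ∀ g : GL ι F, g ∈ subalgebraNormalizer K ↔ glE ι F g ∈ Tg F (ls K (ι → F)) :=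
    fun g => ⟨fun hg => mem_Tg_of_semi fun y => ⟨⟨_, (hg y).1 y.2⟩, fun v => by
      change (g : Matrix ι ι F) *ᵥ y *ᵥ v = _ *ᵥ (g : Matrix ι ι F) *ᵥ v
      simp [mulVec_mulVec]⟩, fun hg k => ⟨h4 g hg k, fun hk => by
        simpa [Matrix.mul_assoc, ← Matrix.mul_assoc] using h4 g⁻¹ (by simpa) _ hk⟩⟩
  exact ⟨isMaximalIn_of_iff (glE _ F) (isMaximalIn_field_GL hP h2) (by simp) h3,
    isMaximalIn_of_iff (glE _ F) (isMaximalIn_field_SL hP h2) (fun _ => mem_specialLinear_iff)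
      fun g => and_congr (h3 g) mem_specialLinear_iff⟩

end Bridge

end H23.Tn
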