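import Cfsg.Agent.H23.Nm2
import Cfsg.Agent.H23.Tn4

/-! Geometric subgroups that are not maximal: small fields, composite degrees. -/

set_option autoImplicit false

namespace H23

open Module H22 Cfsg Cfsg.Geo Form Tn

section Abstract

variable {F V : Type*} [Field F] {σ : F →+* F} [AddCommGroup V] [Module F V]

theorem exists_not_semi [Finite F] [FiniteDimensional F V] (E₀ E : Type*) [Field E₀] [Field E]
    [Algebra F E₀] [Algebra F E] [Module E₀ V] [Module E V] [IsScalarTower F E₀ V]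
    [IsScalarTower F E V] [FiniteDimensional F E₀] (h1 : finrank F E₀ < finrank F E)
    (h2 : 2 * finrank F E₀ < finrank F V) : ∃ g ∈ SLv F V, (∀ (k : E₀) v, g (k • v) = k • g v) ∧
      ¬ ∀ y : E, ∃ y' : E, ∀ v, g (y • v) = y' • g v := by
  have : FiniteDimensional E₀ V := Module.Finite.of_restrictScalars_finite F E₀ V
  have h3 := finrank_mul_finrank F E₀ V
  have h4 : 1 < finrank E₀ V := by by_contra! h; nlinarith
  have : Nontrivial V := Module.nontrivial_of_finrank_pos (R := E₀) (by omega)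
  obtain ⟨u, hu⟩ := exists_ne (0 : V)
  obtain ⟨x, hx⟩ := exists_linearIndependent_pair_of_one_lt_finrank h4 hu
  obtain ⟨φ, h5, h6⟩ := Submodule.exists_dual_map_eq_bot_of_notMem (p := E₀ ∙ u) (x := x)
    (fun h => by
      obtain ⟨c, rfl⟩ := Submodule.mem_span_singleton.1 h
      simpa using (LinearIndependent.pair_iff.1 hx c (-1) (by simp)).2) inferInstance
  have h7 : φ u = 0 := (h6.le ⟨u, Submodule.mem_span_singleton_self u, rfl⟩ :)
  let N : V →ₗ[F] V := (φ.smulRight u).restrictScalars F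
  have h8 : ∀ v, N (N v) = 0 := fun v => by simp [N, h7]
  refine ⟨unip N h8, mem_SLv_of_sq (fun _ => rfl) h8, fun k v => by simp [unip_apply, N, smul_smul],
    fun h => ?_⟩
  have h9 : finrank F (LinearMap.range N) ≤ finrank F E₀ :=
    (Submodule.finrank_mono (t := LinearMap.range ((LinearMap.toSpanSingleton E₀ V u).restrictScalars
      F)) (by rintro _ ⟨v, rfl⟩; exact ⟨φ v, rfl⟩)).trans (LinearMap.finrank_range_le _)
  have h10 := lin_of_dim (E := E) (N := N) (by omega) fun y => (h y).imp fun y' h v => h v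
  have h11 : N x ≠ 0 := by simp [N, h5, hu]
  have : FiniteDimensional F E := Module.finite_of_finrank_pos (by omega)
  have := LinearMap.finrank_le_finrank_of_injective (f := LinearMap.codRestrict (LinearMap.range N)
    ((LinearMap.toSpanSingleton E V (N x)).restrictScalars F) fun y => ⟨y • x, h10 y x⟩)
    fun a b hab => smul_left_injective E h11 (congrArg Subtype.val hab)
  omega

variable {Φ : Form σ V} {ι : Type*} [Fintype ι] {D : ι → Submodule F V} {π : ι → V →ₗ[F] V}

theorem ODec.eich_not_mem (h : ODec Φ D π) (hΦ : Φ.Nondeg) {a b : ι} (hab : a ≠ b) {u e : V}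
    (h1 : π a u ≠ 0) (h2 : π b u = 0) (h3 : e ∈ D b) (h4 : e ≠ 0) {s : F} {g : V ≃ₗ[F] V}
    (hg : ∀ v, g v = Φ.eichler u e s v) : g ∉ decL D := fun ⟨p, hp⟩ => by
  obtain ⟨x, h5, h6⟩ := h.exists_one hΦ h3 h4
  have h7 : g x = x + u := by
    rw [hg, eichler_apply, h6, Φ.B_eq_zero_symm (h.mem_perp h2 x h5)]; simp
  have h8 := h7 ▸ decL_mem hp h5
  have h9 : ∀ c, π c (x + u) ≠ 0 → c = p b := fun c hc => by
    by_contra e; exact hc (h.zero c _ e _ h8)
  refine hab ((h9 a ?_).trans (h9 b ?_).symm)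
  · rwa [map_add, h.zero a b hab x h5, zero_add]
  · rw [map_add, h2, add_zero, h.self b x h5]; rintro rfl; simp at h6

theorem exists_plane_move [FiniteDimensional F V] (hΦ : Φ.Nondeg) (h3 : Φ.Iso3)
    {W : Submodule F V} (hW : Disjoint W (Φ.perp W)) (hd : finrank F W + 3 ≤ finrank F V) {v z : V}
    (hv : v ∈ W) (hz : z ∈ W) (h0 : z ≠ 0) (h : Φ.B z v = 0) :
    ∃ g ∈ Φ.E, g v = v ∧ g ∉ stabL W := by
  obtain ⟨u, h1, h2, h4⟩ := h3 (Φ.perp W) (by rw [hΦ.finrank_perp]; omega)
  obtain ⟨s, hs⟩ := exists_eichData h4 (Φ.B_eq_zero_symm (h1 z hz))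
  obtain ⟨g, hg⟩ := exists_eich hΦ hs
  obtain ⟨x, h5, h6⟩ := exists_mem_perp_eq_one hΦ (D := W) (S := ⊥) (x := z) fun h => by
    rw [sup_bot_eq] at h; exact h0 (Submodule.disjoint_def.1 hW z hz h)
  refine ⟨g, mem_E hs hg, by simp [hg, eichler_apply, h, Φ.B_eq_zero_symm (h1 v hv)], fun h7 => ?_⟩
  have := mem_stabL_of_le.1 h7 x h5
  rw [hg, eichler_apply, h6.2, Φ.B_eq_zero_symm (h1 x h5)] at this
  exact h2 (Submodule.disjoint_def.1 hW u (by simpa [W.add_mem_iff_right h5] using this) h1)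

theorem exists_eich_comm [FiniteDimensional F V] {Φ : Form (RingHom.id F) V} (hΦ : Φ.Nondeg)
    (hκ : Φ.κ = 1) (h2 : (2 : F) = 0) {j : V ≃ₗ[F] V} (hj : j ∈ Φ.O) (h : ∀ v, j (j v) = j v + v)
    {u : V} (hu : Φ.Q u = 0) : ∃ g ∈ Φ.E, (∀ v, g (j v) = j (g v)) ∧
      ∀ v, g v = v + Φ.B (j u) v • u - Φ.B u v • j u := by
  have hε : Φ.ε = 1 := by simpa [hκ] using Φ.kε
  have h1 : Φ.B u u = 0 := by simpa [hκ, hu] using Φ.kB_self u
  have h3 : Φ.B u (j u) = 0 := by
    have := Φ.Q_add (j u) u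
    rw [← h, hj.2, hj.2, hu, hκ] at this
    exact Φ.B_eq_zero_symm (by simpa using this.symm)
  have hs : EichData Φ u (j u) 0 := ⟨⟨h1, hu⟩, h3, by simp [hj.1, h1], by simp [hj.2, hu]⟩
  obtain ⟨g, hg⟩ := exists_eich hΦ hs
  have h4 : ∀ v, g v = v + Φ.B (j u) v • u - Φ.B u v • j u := fun v => by
    simp [hg, eichler_apply, hε, sub_eq_add_neg]
  refine ⟨g, mem_E hs hg, fun v => ?_, h4⟩
  have h5 : Φ.B u (j v) = Φ.B (j u) v + Φ.B u v := by
    have := hj.1 (j u) v
    rw [h, map_add, LinearMap.add_apply, hj.1] at this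
    linear_combination this + (Φ.B u v - Φ.B u v - Φ.B u v) * h2 + Φ.B u v * h2 - Φ.B u v * h2
  rw [h4, h4, map_sub, map_add, map_smul, map_smul, h, hj.1, h5]
  match_scalars
  · ring
  · linear_combination Φ.B u v * h2
  · linear_combination -Φ.B (j u) v * h2

end Abstract

namespace As

open Matrix
open scoped MatrixGroups Kronecker

variable {ι : Type} [Fintype ι] [DecidableEq ι] {F : Type*} [Field F] [Fintype F]

theorem composite_between {r : ℕ} (hr1 : 1 < r) (hrp : ¬ r.Prime) (hlt : r < Fintype.card ι)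
    {K : Subalgebra F (Matrix ι ι F)} (hK : IsFieldSubalgebra r K) :
    ∃ M, subalgebraNormalizer K ≤ M ∧ ¬ specialLinear ι F ≤ M ∧
      ¬ M ⊓ specialLinear ι F ≤ subalgebraNormalizer K := by
  have : Nonempty ι := Fintype.card_pos_iff.1 (by omega)
  have h1 := Nat.minFac_prime hr1.ne'
  obtain ⟨c, hc⟩ := Nat.minFac_dvd r
  obtain ⟨d, hd⟩ := IsFieldSubalgebra.dvd_card hK
  have h2 := (Nat.not_prime_iff_minFac_lt hr1).1 hrp
  generalize r.minFac = p at h1 hc h2
  have h3 : 2 * p < Fintype.card ι := by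
    have : 2 ≤ c := by by_contra! h; nlinarith
    nlinarith
  obtain ⟨K₀, h4, h5, -⟩ := (nrm_normalizer K).exists_field hK.comm hK.inv (d := p)
    ⟨c, hK.finrank_eq.trans hc⟩
  refine ⟨_, h5.le_normalizer, (amb_SL (by have := h1.two_le; omega)).not_le_field h4 h1.ne_one,
    fun h => ?_⟩
  letI := (IsFieldSubalgebra.isField hK).toField
  letI := (IsFieldSubalgebra.isField h4).toField
  obtain ⟨g, h6, h7, h8⟩ := exists_not_semi (F := F) (V := ι → F) K₀ K
    (by rwa [hK.finrank_eq, h4.finrank_eq]) (by rwa [h4.finrank_eq, finrank_fintype_fun_eq_card])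
  obtain ⟨g, rfl⟩ := (glE ι F).surjective g
  exact h8 (semi_of_mem_normalizer (h ⟨mem_normalizer_iff_semi.2 fun k => ⟨k, h7 k⟩,
    mem_specialLinear_iff.2 h6⟩))

section Two

variable {t : ℕ} {D : Fin t → Submodule F (ι → F)} {B : Matrix ι ι F}

theorem exists_quad_dec (hF : Fintype.card F = 2) {e : ι ≃ Fin 2 × Fin t} {P : GL ι F}
    (h3 : DecC D e P) (h4 : TrF (RingHom.id F) e P B (blockDiagonal fun _ => J2 F)) [Nonempty ι] :
    ∃ B', B' + B'ᵀ = B ∧ decompositionStabilizer D ≤ quadSimilarityGroup (qf B') := by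
  have h2 : (2 : F) = 0 := cast_eq_zero_of_card (k := 1) hF
  have hB := h4.isUnit_iff.2 (isUnit_blockDiagonal fun _ => isUnit_J2)
  obtain ⟨B', h6⟩ := exists_trF_left (RingHom.id F) e P (blockDiagonal fun _ => !![1, 1; 0, 1])
  have h7 : B' + B'ᵀ = B := ((h6.add h6.transpose).eq_iff h4).2 (by
    rw [blockDiagonal_transpose, ← blockDiagonal_add]
    congr 1; ext i a b
    fin_cases a <;> fin_cases b <;> simp [J2, neg_eq_of_two h2, one_add_one_eq_two, h2])
  refine ⟨B', h7, fun g hg => ?_⟩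
  obtain ⟨s, a, h8⟩ := h3.exists_blkM hg
  obtain ⟨c, hc⟩ := h4.mem_sim h8 1 (by
    rw [blkM_conj, Units.val_one, one_smul]
    congr 1; ext1 i
    have := J2_conj (a i : Matrix (Fin 2) (Fin 2) F)
    rw [(eq_zero_or_one hF _).resolve_left (a i).det_ne_zero, one_smul] at this
    simpa using this)
  refine mem_quadSim_of_span hB h7 hc (span_coord e P) ?_
  rintro _ ⟨⟨k, i⟩, rfl⟩
  simp only [qf, fb, h8, tr_mulVec, h6 _ _, fog_mulVec, fog_single, blkM_conj,
    (eq_zero_or_one hF c).resolve_left c.ne_zero, blockDiagonal_apply_eq]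
  have h9 := (a i).det_ne_zero
  rw [det_fin_two] at h9
  fin_cases k
  · rcases eq_zero_or_one hF ((a i).1 0 0) with x | x <;> rcases eq_zero_or_one hF ((a i).1 1 0) with
      y | y <;> simp_all [Matrix.mul_apply, vecMul, dotProduct, one_add_one_eq_two]
  · rcases eq_zero_or_one hF ((a i).1 0 1) with x | x <;> rcases eq_zero_or_one hF ((a i).1 1 1) with
      y | y <;> simp_all [Matrix.mul_apply, vecMul, dotProduct, one_add_one_eq_two]

theorem two_between (hF : Fintype.card F = 2) (hD : IsMDecomposition 2 D) (ht : 3 ≤ t)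
    {e : ι ≃ Fin 2 × Fin t} {P : GL ι F} (h3 : DecC D e P)
    (h4 : TrF (RingHom.id F) e P B (blockDiagonal fun _ => J2 F)) {S : Subgroup (GL ι F)}
    (hS : Iso (fb B) ≤ S) : ∃ K, decompositionStabilizer D ⊓ S < K ∧ K < S := by
  have hn := IsMDecomposition.card_eq hD
  have : Nonempty ι := Fintype.card_pos_iff.1 (by omega)
  have hB := h4.isUnit_iff.2 (isUnit_blockDiagonal fun _ => isUnit_J2)
  obtain ⟨B', h5, h6⟩ := exists_quad_dec hF h3 h4
  obtain ⟨Q, B'', h7, h8⟩ := exists_QF (isNondeg_qf h5 hB)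
  have h9 : fb B'' = fb B := by rw [← h8.polar, h7]; ext; exact polar_qf h5 _ _
  refine between (inf_le_left.trans h6) (fun h => Iso_not_le_quadSim (h4.alt_iff.2
    (alt_blockDiagonal fun _ => alt_J2)) hB (by omega) (isNondeg_qf h5 hB) (polar_qf h5)
    (hS.trans h)) fun h => (amb_omega h8.nondeg (by omega)).not_le_dec hD (le_trans ?_ h)
  exact (omegaGL_le Q).trans (le_inf (h7 ▸ isoQ_le_qs Q) (h8.isoQ_le.trans (h9 ▸ hS)))

theorem sp_two_between (hF : Fintype.card F = 2) (hA : Alt B) (hB : IsUnit B)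
    (hD : IsNondegenerateMDecomposition (fb B) 2 D) (ht : 3 ≤ t) :
    ∃ K, decompositionStabilizer D ⊓ Iso (fb B) < K ∧ K < Iso (fb B) := by
  obtain ⟨e, P, h3⟩ := exists_decC hD.decomp
  obtain ⟨A, h4⟩ := h3.trF hD.orthogonal
  obtain rfl : A = fun _ => J2 F := funext fun i => by
    have h5 := ((h4.alt_iff.1 hA).block i).eq_J2
    rcases eq_zero_or_one hF (A i 0 1) with h6 | h6 <;> rw [h6] at h5
    · exact ((isUnit_block (h4.isUnit_iff.1 hB) i).ne_zero (by simpa using h5)).elim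
    · simpa using h5
  exact two_between hF hD.decomp ht h3 h4 le_rfl

theorem le_SL_two (hF : Fintype.card F = 2) (S : Subgroup (GL ι F)) : S ≤ specialLinear ι F :=
  fun g _ => mem_SL_iff.2 ((eq_zero_or_one hF _).resolve_left g.det_ne_zero)

theorem sl_two_between (hF : Fintype.card F = 2) (hD : IsMDecomposition 2 D) (ht : 3 ≤ t) :
    ∃ K, decompositionStabilizer D ⊓ specialLinear ι F < K ∧ K < specialLinear ι F :=
  have ⟨e, P, h3⟩ := exists_decC hD
  have ⟨_, h4⟩ := exists_trF_left (RingHom.id F) e P (blockDiagonal fun _ => J2 F)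
  two_between hF hD ht h3 h4 (le_SL_two hF _)

omit [Fintype F] in
theorem frame_between {σ : F →+* F} (h6 : (6 : F) = 0) (hσ : ∀ x, x ≠ 0 → x * σ x = 1)
    (hD : IsMDecomposition 1 D) (ht : 5 ≤ t) :
    ∃ K, decompositionStabilizer D ⊓ specialLinear ι F < K ∧ K < specialLinear ι F := by
  have hn := IsMDecomposition.card_eq hD
  obtain ⟨e, P, -, h1⟩ := exists_frame hD fun i => finBasisOfFinrankEq F _ (hD.finrank_eq i)
  obtain ⟨B, hB⟩ := exists_trF_left σ e P 1
  refine between (M := similarityGroup (formOfGram σ B)) (fun g hg => ?_)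
    (SL_not_le_sim (by omega) (hB.isUnit_iff.2 isUnit_one)) fun h => ?_
  · obtain ⟨s, a, h2⟩ := h1 g hg.1
    have h3 : ∀ i, a i ≠ 0 := fun i h => g.det_ne_zero (by
      rw [h2, det_tr, det_mono, Finset.prod_eq_zero (Finset.mem_univ i) h, mul_zero])
    refine hB.mem_sim h2 1 (Matrix.ext fun i j => ?_)
    rw [mul_one, mul_apply, ← Equiv.sum_comp s]
    by_cases hij : i = j
    · simp [mono, diagonal_apply, apply_ite σ, hij, hσ _ (h3 j)]
    · simp [mono, diagonal_apply, apply_ite σ, hij, Ne.symm hij]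
  obtain ⟨t, rfl⟩ : ∃ t', t = t' + 5 := ⟨t - 5, by omega⟩
  let u : Fin (t + 5) → F := fun i => if i.1 < 4 then 1 else 0
  let d : Fin (t + 5) → F := Function.update 1 (Fin.last _) (-1)
  have h2 : u ⬝ᵥ u = 4 := by
    simp [u, dotProduct, Fin.sum_univ_succ, show ∀ x, ¬ x + 1 + 1 + 1 + 1 < 4 by omega]; norm_num
  have h3 : ∀ i, σ (u i) = u i := fun i => by simp [u, apply_ite σ]
  have h4 : (diagonal d * (1 + vecMulVec u u)).det = 1 := by
    rw [det_mul, vecMulVec_eq Unit, det_one_add_replicateCol_mul_replicateRow, h2, det_diagonal,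
      Finset.prod_update_of_mem (Finset.mem_univ _)]
    simp only [Pi.one_apply, Finset.prod_const_one]
    linear_combination -h6
  obtain ⟨g, hg⟩ := exists_trG e P (h4.trans_ne one_ne_zero)
  have h5 : diagonal d * (diagonal d).map σ = 1 := by
    rw [diagonal_map (map_zero σ), diagonal_mul_diagonal, ← diagonal_one]
    congr 1; ext i
    by_cases hi : i = Fin.last _ <;> simp [d, hi]
  obtain ⟨s, a, h7⟩ := h1 g (h ⟨Iso_le_sim _ ((hB.mem_Iso hg).2 (by
    rw [mul_one, transpose_mul, Matrix.map_mul, mul_assoc, diagonal_transpose,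
      ← mul_assoc (diagonal d), h5, one_mul, Matrix.map_add _ (map_add σ), Matrix.map_one _
      (map_zero σ) (map_one σ), show (vecMulVec u u).map σ = vecMulVec u u from Matrix.ext
        fun i j => by simp [vecMulVec_apply, h3]]
    simp only [transpose_add, transpose_one, transpose_vecMulVec, add_mul, mul_add, one_mul,
      mul_one, vecMulVec_mul_vecMulVec, h2]
    ext i j
    simp only [Matrix.add_apply, vecMulVec_apply, Pi.smul_apply, smul_eq_mul]
    linear_combination u i * u j * h6)), mem_SL_iff.2 (by rw [hg, det_tr, h4])⟩)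
  refine not_mono (hg.symm.trans h7) (i := ⟨1, by omega⟩) (j := ⟨2, by omega⟩) (k := ⟨0, by omega⟩)
    (by simp [Fin.ext_iff]) ?_ ?_ <;>
  simp [d, u, vecMulVec_apply, one_apply, Fin.ext_iff, Function.update_apply]

end Two

end As

end H23
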