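import Cfsg.Agent.H23.Nm3

/-! Geometric subgroups that are not maximal: planes, two-dimensional tensor factors. -/

set_option autoImplicit false

namespace H23.As

open Matrix Module H22 Cfsg Cfsg.Geo Form Tn
open scoped MatrixGroups Kronecker

variable {ι : Type} [Fintype ι] [DecidableEq ι] {F : Type*} [Field F] [Fintype F]
variable {B : Matrix ι ι F} {Q : QuadraticForm F (ι → F)} {W : Submodule F (ι → F)}
variable {t : ℕ} {D : Fin t → Submodule F (ι → F)}

theorem su_two_between {n : ℕ} (hF : Fintype.card F = 2 ^ 2) (hn : 6 ≤ n)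
    {D : Fin t → Submodule F (Fin n → F)}
    (hD : IsNondegenerateMDecomposition (hermForm n F 2) 2 D) :
    ∃ K, decompositionStabilizer D ⊓ (GU n F 2 ⊓ specialLinear (Fin n) F) < K ∧
      K < GU n F 2 ⊓ specialLinear (Fin n) F := by
  have hA := am_SU hF (show 4 ≤ n by omega)
  have h0 := IsMDecomposition.card_eq hD.decomp
  rw [Fintype.card_fin] at h0
  rw [hermForm_eq hF] at hD hA
  choose b hb using fun i => exists_orthonormal_of_nondeg (fd_one hF) (conj_ne_id hF)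
    (hD.nondegenerate i) (hD.decomp.finrank_eq i)
  obtain ⟨D', h2, h3, h4⟩ := refine_frame (G := decompositionStabilizer D ⊓ (GU n F 2 ⊓
    specialLinear (Fin n) F)) hD b (by simp [hb]) (fun i k l hkl => by
    simp [hb, hkl.symm]) inf_le_left fun g hg i k j hj => by
      have h5 := hA.inv hg.2 (b i k) (b i k)
      have h6 := congrArg Subtype.val ((b j).sum_repr ⟨_, hj⟩)
      simp only [Fin.sum_univ_two, Submodule.coe_add, Submodule.coe_smul] at h6
      rw [glE_apply, ← h6] at h5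
      rw [← h6]
      generalize (b j).repr _ 0 = x at h5 ⊢
      generalize (b j).repr _ 1 = y at h5 ⊢
      by_cases hx : x = 0
      · exact ⟨1, by simp [hx, Submodule.smul_mem, Submodule.mem_span_singleton_self]⟩
      by_cases hy : y = 0
      · exact ⟨0, by simp [hy, Submodule.smul_mem, Submodule.mem_span_singleton_self]⟩
      have h7 := pow_card_pred (k := 3) hF hx
      have h8 := pow_card_pred (k := 3) hF hy
      simp [fog_add_left, fog_add_right, fog_smul_left, fog_smul_right, hb] at h5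
      exact (one_ne_zero (α := F) (by linear_combination h5 - h7 - h8)).elim
  refine hA.dec_between hD.decomp h2 (by omega) (by omega) (fun i j => ?_) h3
  obtain ⟨a, k, h5⟩ := h4 i
  obtain ⟨a', k', h6⟩ := h4 j
  have h7 : ∀ a k, (b a k : Fin n → F) ≠ 0 := fun a k => by simpa using (b a).ne_zero k
  have h8 : ∀ a k, (huForm hF n).B (b a k) (b a k) = 1 := fun a k => by
    rw [huForm_B, hermForm_eq hF, hb, if_pos rfl]
  rw [h5, h6]
  exact (huForm_nondeg hF n).exists_map_of_basis (FiniteDimensional.basisSingleton Unit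
    (finrank_span_singleton (h7 a k)) ⟨_, Submodule.mem_span_singleton_self _⟩ (by simp [h7]))
    (FiniteDimensional.basisSingleton Unit (finrank_span_singleton (h7 a' k'))
      ⟨_, Submodule.mem_span_singleton_self _⟩ (by simp [h7])) (fun _ _ => by simp only
        [FiniteDimensional.basisSingleton_apply, h8]) fun _ => rfl

theorem QF.plane_between (hQ : QF Q B) (h3 : Fintype.card F ≤ 3) (hn : 5 ≤ Fintype.card ι)
    (hW : IsNondegenerateOn (QuadraticMap.polar Q) W) (h2 : finrank F W = 2)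
    (h : IsPlusTypeOn Q W) : ∃ K, subspaceStabilizer W ⊓ omegaGL Q < K ∧ K < omegaGL Q := by
  rw [hQ.polar] at hW
  obtain ⟨v, h1, h4, h5, z, h6, h7, h8⟩ := hQ.plane h3 hW h2 h
  have h9 : v ≠ 0 := by rintro rfl; simp at h4
  have hA := am_omega hQ.nondeg hn
  refine between (M := subspaceStabilizer (F ∙ v)) (InvS.le_stab fun g hg w hw => ?_)
    ((amb_omega hQ.nondeg hn).not_le_stab (by simpa) (ne_top_of_finrank_lt (by
      rw [finrank_span_singleton h9]; omega))) fun hle => ?_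
  · obtain ⟨c, rfl⟩ := Submodule.mem_span_singleton.1 hw
    rw [mulVec_smul]
    exact Submodule.smul_mem _ _ (h5 _ (mem_stabL_of_le.1 (mem_subspaceStabilizer_iff.1 hg.1) v h1)
      ((mem_isoQ.1 (omegaGL_le Q hg.2) v).trans h4))
  obtain ⟨g, a1, a2, a3⟩ := exists_plane_move hQ.nondeg hA.iso (hQ.ndOn_iff.1 hW)
    (by simp; omega) h1 h6 h7 (by rw [hQ.B_eq, hQ.symm, h8])
  obtain ⟨g, hg, rfl⟩ := hA.exists_mem a1
  refine a3 (mem_subspaceStabilizer_iff.1 (hle ⟨mem_subspaceStabilizer_iff.2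
    (mem_stabL_of_le.2 fun w hw => ?_), hg⟩))
  obtain ⟨c, rfl⟩ := Submodule.mem_span_singleton.1 hw
  rwa [map_smul, a2]

theorem QF.planes_between (hQ : QF Q B) (h3 : Fintype.card F ≤ 3) (ht : 4 ≤ t)
    (hD : IsOrthogonalMDecomposition Q 2 D) (hp : ∀ i, IsPlusTypeOn Q (D i)) :
    ∃ K, decompositionStabilizer D ⊓ omegaGL Q < K ∧ K < omegaGL Q := by
  have hD' := hQ.nondegDec hD
  have hn := IsMDecomposition.card_eq hD'.decomp
  have hA := am_omega hQ.nondeg (by omega)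
  choose v h1 h2 h4 z h5 h6 h7 using fun i =>
    hQ.plane h3 (hD'.nondegenerate i) (hD'.decomp.finrank_eq i) (hp i)
  have h0 : ∀ i, v i ≠ 0 := fun i e => by simpa [e] using h2 i
  let W := Submodule.span F {v | (∃ j, v ∈ D j) ∧ Q v = 1}
  have h8 : ∀ i, v i ∈ W := fun i => Submodule.subset_span ⟨⟨i, h1 i⟩, h2 i⟩
  obtain ⟨t, rfl⟩ : ∃ t', t = t' + 4 := ⟨t - 4, by omega⟩
  refine between (M := subspaceStabilizer W) (InvS.le_stab (invS_span fun g hg v ⟨⟨j, hj⟩, hv⟩ =>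
    ⟨(exists_mem_of_dec hg.1 j).imp fun _ h => h v hj,
      (mem_isoQ.1 (omegaGL_le Q hg.2) v).trans hv⟩))
    ((amb_omega hQ.nondeg (by omega)).not_le_stab (fun e => h0 0 (by simpa [e] using h8 0))
      fun e => ?_) fun hle => ?_
  · refine hQ.fd.prp_ne_top (W := F ∙ z 0) (by simpa using h6 0)
      (eq_top_iff.2 (e.ge.trans (Submodule.span_le.2 ?_)))
    rintro x ⟨⟨j, hj⟩, hx⟩ w hw
    obtain ⟨a, rfl⟩ := Submodule.mem_span_singleton.1 hw
    by_cases hij : j = 0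
    · obtain ⟨b, rfl⟩ := Submodule.mem_span_singleton.1 (h4 0 x (hij ▸ hj) hx)
      rw [fog_smul_left, fog_smul_right, show formOfGram _ B (v 0) (z 0) = 0 from h7 0]; simp
    · exact hD'.orthogonal j 0 hij x hj _ ((D 0).smul_mem a (h5 0))
  obtain ⟨π, hπ⟩ := exists_oDec hA.zero hD.decomp
  obtain ⟨c, hc⟩ : ∃ c : F, 2 + c ^ 2 = 0 := by
    have := Fintype.one_lt_card (α := F)
    rcases (show Fintype.card F = 2 ^ 1 ∨ Fintype.card F = 3 ^ 1 by omega) with h | h
    · exact ⟨0, by simpa using cast_eq_zero_of_card h⟩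
    · exact ⟨1, by linear_combination (cast_eq_zero_of_card h : ((3 : ℕ) : F) = 0)⟩
  let i : Fin 4 → Fin (t + 4) := Fin.castLE (by omega)
  have hi : ∀ a b, a ≠ b → i a ≠ i b := fun a b h => (Fin.castLE_injective _).ne h
  have h9 : ∀ a b, a ≠ b → π (i a) (v (i b)) = 0 := fun a b h => hπ.zero _ _ (hi a b h) _ (h1 _)
  have h10 : ∀ a b, a ≠ b → (ofQuad Q).B (v (i a)) (v (i b)) = 0 := fun a b h =>
    hπ.orth _ _ (hi a b h) _ (h1 _) _ (h1 _)
  let u := v (i 0) + v (i 1) + c • v (i 2)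
  have hu : u ∈ W := add_mem (add_mem (h8 _) (h8 _)) (W.smul_mem _ (h8 _))
  obtain ⟨s, hs⟩ := exists_eichData (Φ := ofQuad Q) (u := u) (e := v (i 3)) ((sing_quad rfl).2 (by
    rw [Q_add_smul, (ofQuad Q).Q_add]
    simp only [map_add, LinearMap.add_apply, h10 0 1 (by decide),
      h10 0 2 (by decide), h10 1 2 (by decide), ofQuad_Q, h2]
    linear_combination hc)) (by
      simp only [u, map_add, LinearMap.add_apply, B_smul_left, h10 0 3 (by decide),
        h10 1 3 (by decide), h10 2 3 (by decide), mul_zero, add_zero])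
  obtain ⟨g, a1, a2⟩ := eIn_ED hQ.nondeg hu (h8 _) hs
  obtain ⟨g, hg, rfl⟩ := hA.exists_mem (ED_le_E _ a1)
  exact hπ.eich_not_mem hQ.nondeg (hi 0 3 (by decide))
    (by simp [u, h9, hπ.self _ _ (h1 _), h0]) (by simp [u, h9]) (h1 _) (h0 _) a2
    (hle ⟨mem_subspaceStabilizer_iff.2 (ED_le_stabL le_rfl a1), hg⟩)

theorem QF.plane_four (hQ : QF Q B) (h4 : Fintype.card F = 4) (hW : IsNondegenerateOn (fb B) W)
    (h2 : finrank F W = 2) (h : IsPlusTypeOn Q W) :
    (∃ v ∈ W, ∃ x ∈ W, Q v = 1 ∧ Q x = 1 ∧ fb B v x = 1) ∧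
      ∀ a ∈ W, ∀ b ∈ W, Q a = 1 → Q b = 1 → fb B a b = 0 ∨ fb B a b = 1 := by
  obtain ⟨e, he⟩ := hQ.mdl_plus hW (m := 1) h2 h
  simp only [quadFormPlus, Fin.sum_univ_one] at he
  have h0 : (2 : F) = 0 := cast_eq_zero_of_card (k := 2) h4
  have h1 : ∀ x y, fb B (e x) (e y) = x (.inl 0) * y (.inr 0) + x (.inr 0) * y (.inl 0) :=
    fun x y => by
      have := hQ.add (e x) (e y)
      rw [← Submodule.coe_add, ← map_add, he, he, he] at this
      simp only [Pi.add_apply] at this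
      linear_combination -this
  obtain ⟨w, hw⟩ := exists_omega h4
  refine ⟨⟨e 1, (e _).2, e (Sum.elim (fun _ => w) fun _ => w ^ 2), (e _).2, by simp [he], ?_, ?_⟩,
    fun a ha b hb h5 h6 => ?_⟩
  · simp only [he, Sum.elim_inl, Sum.elim_inr]; linear_combination (w - 1) * hw
  · simp only [h1, Sum.elim_inl, Sum.elim_inr, Pi.one_apply]; linear_combination hw - h0
  obtain ⟨x, hx⟩ := e.surjective ⟨a, ha⟩
  obtain ⟨y, hy⟩ := e.surjective ⟨b, hb⟩
  obtain rfl : (e x : ι → F) = a := congrArg Subtype.val hx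
  obtain rfl : (e y : ι → F) = b := congrArg Subtype.val hy
  rw [he] at h5 h6
  rw [h1, ← sub_eq_zero (b := 1), ← mul_eq_zero]
  have h7 := pow_card_pred (k := 3) h4 (mul_ne_zero (left_ne_zero_of_mul_eq_one h5)
    (right_ne_zero_of_mul_eq_one h6))
  generalize x (.inl 0) = p, x (.inr 0) = p', y (.inl 0) = r, y (.inr 0) = r' at *
  have h8 : p' * r = (p * r') ^ 2 := by
    linear_combination -p' * r * h7 + (p * r') ^ 2 * (r * r' * h5 + h6)
  rw [h8]
  linear_combination p * r' * h7 + (p * r') ^ 3 * h0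

theorem QF.four_between (hQ : QF Q B) (h4 : Fintype.card F = 4) (ht : 3 ≤ t)
    (hD : IsOrthogonalMDecomposition Q 2 D) (hp : ∀ i, IsPlusTypeOn Q (D i)) :
    ∃ K, decompositionStabilizer D ⊓ omegaGL Q < K ∧ K < omegaGL Q := by
  have hD' := hQ.nondegDec hD
  have hn := IsMDecomposition.card_eq hD'.decomp
  have hA := am_omega hQ.nondeg (by omega)
  have h0 : (2 : F) = 0 := cast_eq_zero_of_card (k := 2) h4
  have h1 := fun i => hQ.plane_four h4 (hD'.nondegenerate i) (hD'.decomp.finrank_eq i) (hp i)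
  choose v a1 x a2 a3 a4 a5 using fun i => (h1 i).1
  let A := AddSubgroup.closure {v | (∃ j, v ∈ D j) ∧ Q v = 1}
  have b1 : ∀ i, v i ∈ A := fun i => AddSubgroup.subset_closure ⟨⟨i, a1 i⟩, a3 i⟩
  have b2 : ∀ i, x i ∈ A := fun i => AddSubgroup.subset_closure ⟨⟨i, a2 i⟩, a4 i⟩
  have b3 : ∀ a ∈ A, ∀ b ∈ A, (ofQuad Q).B a b ∈ F2 h0 := fun a ha b hb => by
    refine AddSubgroup.closure_induction₂ (p := fun a b _ _ => (ofQuad Q).B a b ∈ F2 h0)
      (fun a b c1 c3 => ?_) (by simp) (by simp)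
      (fun _ _ _ _ _ _ c1 c2 => by rw [map_add, LinearMap.add_apply]; exact add_mem c1 c2)
      (fun _ _ _ _ _ _ c1 c2 => by rw [map_add]; exact add_mem c1 c2)
      (fun _ _ _ _ c1 => by rw [map_neg, LinearMap.neg_apply]; exact neg_mem c1)
      (fun _ _ _ _ c1 => by rw [map_neg]; exact neg_mem c1) ha hb
    obtain ⟨⟨i, c1⟩, c2⟩ := c1
    obtain ⟨⟨j, c3⟩, c4⟩ := c3
    rw [hQ.B_eq]
    by_cases hij : i = j
    · exact (h1 j).2 a (hij ▸ c1) b c3 c2 c4
    · exact .inl (hD'.orthogonal i j hij a c1 b c3)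
  have b4 : ∀ c ∈ F2 h0, ∀ a ∈ A, c • a ∈ A := by
    rintro c (rfl | rfl) a ha
    · simp
    · simpa
  obtain ⟨π, hπ⟩ := exists_oDec hA.zero hD.decomp
  let i : Fin 3 → Fin t := Fin.castLE ht
  have hi : ∀ a b, a ≠ b → i a ≠ i b := fun a b h => (Fin.castLE_injective _).ne h
  have h9 : ∀ a b, a ≠ b → π (i a) (v (i b)) = 0 := fun a b h => hπ.zero _ _ (hi a b h) _ (a1 _)
  have h10 : ∀ a b, a ≠ b → ∀ y ∈ D (i b), (ofQuad Q).B (v (i a)) y = 0 := fun a b h =>
    hπ.orth _ _ (hi a b h) _ (a1 _)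
  let u := v (i 0) + v (i 1)
  have hu : u ∈ A := add_mem (b1 _) (b1 _)
  have h5 : ∀ y ∈ D (i 2), (ofQuad Q).B u y = 0 := fun y hy => by
    simp only [u, map_add, LinearMap.add_apply, h10 0 2 (by decide) y hy, h10 1 2 (by decide) y hy,
      add_zero]
  have h6 : Sing (ofQuad Q) u := (sing_quad rfl).2 (by
    simp only [u, (ofQuad Q).Q_add, h10 0 1 (by decide) _ (a1 _), ofQuad_Q, a3]
    linear_combination h0)
  have h7 : ∀ c : F, ∃ g ∈ omegaGL Q, ∃ s, s = c ^ 2 ∧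
      ∀ y, glE ι F g y = (ofQuad Q).eichler u (c • v (i 2)) s y := fun c => by
    obtain ⟨s, hs⟩ := exists_eichData h6 (h5 _ ((D _).smul_mem c (a1 _)))
    obtain ⟨g, hg⟩ := exists_eich hQ.nondeg hs
    obtain ⟨g, h8, rfl⟩ := hA.exists_mem (mem_E hs hg)
    exact ⟨g, h8, s, by simpa [Q_smul, a3, sq] using hs.trQ, hg⟩
  refine between (M := relS fun y _ => y ∈ A) (fun g hg => mem_relS_of fun y _ hy => ?_)
    (fun hle => ?_) fun hle => ?_
  · refine (show A ≤ A.comap (glE ι F g).toLinearMap.toAddMonoidHom from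
      (AddSubgroup.closure_le _).2 fun v ⟨⟨j, hj⟩, hv⟩ => AddSubgroup.subset_closure ?_) hy
    exact ⟨(exists_mem_of_dec hg.1 j).imp fun _ h => h v hj,
      (mem_isoQ.1 (omegaGL_le Q hg.2) v).trans hv⟩
  · obtain ⟨w, hw⟩ := exists_omega h4
    obtain ⟨g, c1, s, -, c2⟩ := h7 w
    have c3 := (hle c1 (x (i 2)) 0).2 (b2 _)
    rw [← glE_apply, c2, eichler_apply, h5 _ (a2 _), B_smul_left, hQ.B_eq, a5] at c3
    have c4 := b3 _ ((A.add_mem_cancel_left (b2 _)).1 (by simpa using c3)) _ (b2 (i 0))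
    rw [B_smul_left, map_add, LinearMap.add_apply, h10 1 0 (by decide) _ (a2 _), hQ.B_eq, a5,
      add_zero, mul_one, RingHom.id_apply] at c4
    rcases c4 with rfl | rfl
    · simp at hw
    · exact one_ne_zero (α := F) (by linear_combination hw - h0)
  obtain ⟨g, c1, s, rfl, c2⟩ := h7 1
  rw [one_smul] at c2
  refine hπ.eich_not_mem hQ.nondeg (hi 0 2 (by decide)) (by
    simpa [u, h9, hπ.self _ _ (a1 _)] using fun e => by simpa [e] using a3 (i 0)) (by simp [u, h9])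
    (a1 _) (fun e => by simpa [e] using a3 (i 2)) c2 (hle ⟨mem_relS_of fun y _ hy => ?_, c1⟩)
  rw [← glE_apply, c2, eichler_apply]
  exact add_mem (add_mem hy (b4 _ (sub_mem (b3 _ (b1 _) _ hy) (by simpa using b3 _ hu _ hy)) _ hu))
    (b4 _ (neg_mem (by simpa using b3 _ hu _ hy)) _ (b1 _))

section Tensor

variable {n : ℕ} (e : ι ≃ Fin 2 × Fin n) (P : GL ι F)

omit [Fintype F] in
theorem tr_kron_tP {κ μ : Type} [Fintype κ] [DecidableEq κ] [Fintype μ] [DecidableEq μ]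
    (e : ι ≃ κ × μ) (P : GL ι F) (X : Matrix κ κ F) (Y : Matrix μ μ F) (x : κ → F) (w : μ → F) :
    tr e P (X ⊗ₖ Y) *ᵥ tP e P x w = tP e P (X *ᵥ x) (Y *ᵥ w) := by
  rw [tP_apply, tr_mulVec, kron_mulVec, tP_apply]

theorem exists_field_two [Nonempty ι] (hF : Fintype.card F = 2) :
    ∃ (K : Subalgebra F (Matrix ι ι F)) (Y : GL (Fin 2) F), IsFieldSubalgebra 2 K ∧
      tensorProductSubgroup 2 n e P ≤ subalgebraNormalizer K ∧ (∀ x, Y.1 *ᵥ Y.1 *ᵥ x = Y.1 *ᵥ x + x) ∧
      ∀ g : GL ι F, (∀ v, g.1 *ᵥ tr e P (Y.1 ⊗ₖ 1) *ᵥ v = tr e P (Y.1 ⊗ₖ 1) *ᵥ g.1 *ᵥ v) →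
        g ∈ subalgebraNormalizer K := by
  obtain ⟨K, h1, h2, h3⟩ := exists_field_of_range_two hF
    ((tr e P).toAlgHom.comp (kronL (Fin 2) (Fin n) F))
  have h0 : (2 : F) = 0 := cast_eq_zero_of_card (k := 1) hF
  obtain ⟨j, h4, h5, h6⟩ : ∃ j ∈ K, (¬ ∃ c : F, j = c • 1) ∧ ∀ k ∈ K, ∃ a b : F, k = a • 1 + b • j := by
    obtain ⟨j, hj⟩ := exists_linearIndependent_pair_of_one_lt_finrank (R := F) (M := K)
      (by rw [h1.finrank_eq]; decide) one_ne_zero
    refine ⟨j, j.2, fun ⟨c, hc⟩ => by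
      simpa using (LinearIndependent.pair_iff.1 hj c (-1) (Subtype.ext (by simp [hc]))).2,
      fun k hk => ?_⟩
    obtain ⟨c, hc⟩ := (Submodule.mem_span_range_iff_exists_fun F).1
      ((hj.span_eq_top_of_card_eq_finrank' (by simp [h1.finrank_eq])).ge
        (Submodule.mem_top (x := ⟨k, hk⟩)))
    exact ⟨c 0, c 1, by simpa using congrArg Subtype.val hc.symm⟩
  obtain ⟨Y, rfl⟩ := h2 h4
  generalize hφ : (tr e P).toAlgHom.comp (kronL (Fin 2) (Fin n) F) = φ at h3 h4 h5 h6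
  have h7 : ∀ c : F, IsUnit (Y - c • 1) := fun c => by
    obtain ⟨y, h7, h8⟩ := h1.inv (φ (Y - c • 1)) (by
      rw [map_sub, map_smul, map_one]; exact sub_mem h4 (K.smul_mem K.one_mem c)) fun h =>
        h5 ⟨c, by rwa [map_sub, map_smul, map_one, sub_eq_zero] at h⟩
    obtain ⟨Z, rfl⟩ := h2 h7
    rw [hφ] at h8
    exact IsUnit.of_mul_eq_one Z (algHom_injective φ (by rw [map_mul, map_one]; exact h8))
  have h8 : ∀ c : F, (Y - c • 1).det = 1 := fun c =>
    (eq_zero_or_one hF _).resolve_left (IsUnit.det_ne (h7 c))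
  have h9 := h8 0
  have h10 := h8 1
  rw [zero_smul, sub_zero] at h9
  have h11 : Y.trace = 1 := by
    simp only [det_fin_two, trace_fin_two, Matrix.sub_apply, Matrix.smul_apply, one_apply_eq,
      one_apply_ne (show (0 : Fin 2) ≠ 1 by decide), one_apply_ne (show (1 : Fin 2) ≠ 0 by decide),
      smul_eq_mul] at h9 h10 ⊢
    linear_combination h9 - h10
  refine ⟨K, GeneralLinearGroup.mkOfDetNeZero Y (h9.trans_ne one_ne_zero), h1, (h3 _ (hφ ▸ nrm_tensor e P)).le_normalizer,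
    fun x => ?_, fun g hg => mem_normalizer_iff_semi.2 fun k => ⟨k, fun v => ?_⟩⟩
  · change Y *ᵥ Y *ᵥ x = Y *ᵥ x + x
    rw [mulVec_mulVec, mul_self_two, h9, h11, one_smul, one_smul, sub_mulVec, one_mulVec,
      sub_eq_add_neg, ← neg_one_smul F, neg_eq_of_two h0, one_smul]
  · obtain ⟨a, b, h12⟩ := h6 k k.2
    change g.1 *ᵥ k.1 *ᵥ v = k.1 *ᵥ g.1 *ᵥ v
    subst hφ
    simp only [h12, add_mulVec, smul_mulVec, one_mulVec, mulVec_add, mulVec_smul]
    exact congrArg (a • g.1 *ᵥ v + b • ·) (hg v)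

omit [Fintype F] in
theorem not_mem_line {Y : Matrix (Fin 2) (Fin 2) F} (hF : ∀ c : F, c = 0 ∨ c = 1) (h0 : (2 : F) = 0)
    (hY : ∀ x, Y *ᵥ Y *ᵥ x = Y *ᵥ x + x) {x : Fin 2 → F} (hx : x ≠ 0) (c : F) : Y *ᵥ x ≠ c • x :=
  fun h => by
    have := hY x
    rcases hF c with rfl | rfl
    · simp [h, hx.symm] at this
    · simp [h, hx] at this

theorem sl_tensor_between (hF : Fintype.card F = 2) (hn : 2 ≤ n) :
    ∃ K, tensorProductSubgroup 2 n e P ⊓ specialLinear ι F < K ∧ K < specialLinear ι F := by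
  have h1 := Fintype.card_congr e
  simp only [Fintype.card_prod, Fintype.card_fin] at h1
  have : Nonempty ι := Fintype.card_pos_iff.1 (by omega)
  obtain ⟨K, Y, h2, h3, h4, h5⟩ := exists_field_two e P hF
  refine between (inf_le_left.trans h3) ((amb_SL (by omega)).not_le_field h2 (by decide))
    fun hle => ?_
  obtain ⟨a, b, hab⟩ := Fintype.exists_pair_of_one_lt_card (α := Fin n) (by simpa)
  let N := tr e P (Y.1 ⊗ₖ single a b 1)
  have h6 : N * N = 0 := by
    rw [← map_mul, ← mul_kronecker_mul, single_mul_single_of_ne _ _ _ _ hab.symm, kronecker_zero,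
      map_zero]
  obtain ⟨g, hg⟩ := (glE ι F).surjective (unip (toLin' N) fun v => by
    simp [mulVec_mulVec, h6])
  have h7 : ∀ v, g.1 *ᵥ v = v + N *ᵥ v := fun v => by rw [← glE_apply, hg]; rfl
  have ht := isTensorProduct_tP e P
  obtain ⟨y, hy⟩ := Tg_line ht ((mem_tensorProductSubgroup_iff_Tg two_pos).1 (hle
    ⟨h5 g fun v => by
      simp only [h7, mulVec_add, mulVec_mulVec, N, ← map_mul, ← mul_kronecker_mul, mul_one, one_mul],
    le_SL_two hF ⊤ trivial⟩)) (y₀ := Pi.single a 1) (by simp) (fun x => by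
      rw [glE_apply, h7, tr_kron_tP, single_mulVec]; simp [hab.symm]) 1 (Pi.single b 1)
  have h8 := congrArg (cov F ht (LinearMap.proj a)) hy
  simp [h7, N, tr_kron_tP, single_mulVec, hab] at h8
  exact not_mem_line (eq_zero_or_one hF) (cast_eq_zero_of_card (k := 1) hF) h4 one_ne_zero _
    (by simpa using h8)

theorem QF.sp_tensor_between (hQ : QF Q B) (hF : Fintype.card F = 2) (hn : 3 ≤ n) {f₁ f₂}
    (hf₁ : IsSymplecticForm f₁) (hf₂ : IsSymplecticForm f₂)
    (hT : IsTensorFormStructure id (QuadraticMap.polar Q) f₁ f₂ e P)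
    (hp : ∀ x w, Q (tP e P x w) = 0) :
    ∃ K, tensorProductSubgroup 2 n e P ⊓ omegaGL Q < K ∧ K < omegaGL Q := by
  have h1 := Fintype.card_congr e
  simp only [Fintype.card_prod, Fintype.card_fin] at h1
  have : Nonempty ι := Fintype.card_pos_iff.1 (by omega)
  have h0 : (2 : F) = 0 := cast_eq_zero_of_card (k := 1) hF
  obtain ⟨K, Y, h2, h3, h4, h5⟩ := exists_field_two e P hF
  have hA := am_omega hQ.nondeg (by omega)
  refine between (inf_le_left.trans h3) ((amb_omega hQ.nondeg (by omega)).not_le_field h2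
    (by decide)) fun hle => ?_
  obtain ⟨B₁, a1, a2, rfl⟩ := IsSymplecticForm.gram hf₁
  obtain ⟨B₂, a3, a4, rfl⟩ := IsSymplecticForm.gram hf₂
  obtain ⟨c, a5, a6⟩ := tensor_pure (σ := RingHom.id F) hT
  obtain rfl := (eq_zero_or_one hF c).resolve_left a5
  simp only [gram_fog, one_mul] at a6
  replace a6 : ∀ x w x' w', (ofQuad Q).B (tP e P x w) (tP e P x' w') = fb B₁ x x' * fb B₂ w w' := a6
  have ht := isTensorProduct_tP e P
  let j := glE ι F (trG e P (kronG Y 1))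
  have b1 : ∀ x w, j (tP e P x w) = tP e P (Y.1 *ᵥ x) w := fun x w => by
    rw [trG_kronG_tP, map_one]; rfl
  have b2 : ∀ x y, fb B₁ (Y.1 *ᵥ x) (Y.1 *ᵥ y) = fb B₁ x y := fun x y => by
    rw [fb, fog_mulVec, a2.eq_J2, Matrix.mul_smul, Matrix.smul_mul, RingHom.coe_id, Matrix.map_id,
      J2_conj, (eq_zero_or_one hF _).resolve_left Y.det_ne_zero, one_smul]
  have b3 : ∀ u v, (ofQuad Q).B (j u) (j v) = (ofQuad Q).B u v := fun u v =>
    ext_t ht (f := (ofQuad Q).B (j u) ∘ₗ j.toLinearMap) (f' := (ofQuad Q).B u) (fun x w => ext_t ht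
      (f := ((ofQuad Q).B.flip (j (tP e P x w))) ∘ₗ j.toLinearMap)
      (f' := (ofQuad Q).B.flip (tP e P x w))
      (fun x' w' => by simp only [LinearMap.comp_apply, LinearEquiv.coe_coe, LinearMap.flip_apply,
        b1, a6, b2]) u) v
  have b4 : j ∈ (ofQuad Q).O := ⟨b3, fun v => ht.inductionOn v (by simp)
    (fun x w => by simp [b1, hp]) fun u v hu hv => by
      rw [map_add, (ofQuad Q).Q_add, (ofQuad Q).Q_add, hu, hv, b3]⟩
  have : Nonempty (Fin n) := ⟨⟨0, by omega⟩⟩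
  obtain ⟨Ψ, c1, c2, c3, c4⟩ := exists_form_of_isSymplecticForm hf₂
  obtain ⟨w₁, c5⟩ := exists_ne (0 : Fin n → F)
  obtain ⟨w₂, c6, c7⟩ : ∃ w ∈ Ψ.perp (F ∙ w₁), w ∉ F ∙ w₁ := by
    by_contra! hc
    have := Submodule.finrank_mono (show Ψ.perp (F ∙ w₁) ≤ F ∙ w₁ from hc)
    rw [c1.finrank_perp, finrank_span_singleton c5] at this
    simp at this; omega
  rw [mem_perp_span_singleton, ← c4] at c6
  obtain ⟨y, c8, c9⟩ := c1.exists_perp_eq_one c7
  replace c8 := c8 w₁ (Submodule.mem_span_singleton_self _)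
  rw [← c4] at c8 c9
  let x : Fin 2 → F := 1
  obtain ⟨g, d1, d2, d3⟩ := exists_eich_comm hQ.nondeg rfl h0 b4 (ext_t ht
    (f := j.toLinearMap ∘ₗ j.toLinearMap) (f' := j.toLinearMap + LinearMap.id) fun x w => by
      simp only [LinearMap.comp_apply, LinearEquiv.coe_coe, b1, h4, map_add, LinearMap.add_apply,
        LinearMap.id_apply]) (u := tP e P x w₁ + tP e P (Y.1 *ᵥ x) w₂) (by
      rw [(ofQuad Q).Q_add, a6, c6]; simp [hp])
  obtain ⟨g, d4, rfl⟩ := hA.exists_mem d1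
  have d5 : fb B₂ w₁ y = 0 := by rw [a4.skew, c8, neg_zero]
  have d6 : fb B₂ w₂ y = 1 := by rw [a4.skew, c9, neg_eq_of_two h0]
  obtain ⟨z, hz⟩ := Tg_line ht ((mem_tensorProductSubgroup_iff_Tg two_pos).1 (hle ⟨h5 g d2, d4⟩))
    c5 (fun x => by simp only [d3, map_add, LinearMap.add_apply, b1, a6, a4 w₁, a4.skew w₂, c6]; simp)
    (Y.1 *ᵥ x) y
  obtain ⟨ψ, d7, d8⟩ := Submodule.exists_dual_map_eq_bot_of_notMem (p := F ∙ w₂) (x := w₁)
    (fun h => c7 (by
      obtain ⟨c, rfl⟩ := Submodule.mem_span_singleton.1 h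
      rcases eq_zero_or_one hF c with rfl | rfl
      · simp at c5
      · simp)) inferInstance
  have d9 : ψ w₂ = 0 := (d8.le ⟨w₂, Submodule.mem_span_singleton_self _, rfl⟩ :)
  have d10 := congrArg (cov F ht ψ) hz
  have d11 : fb B₁ x (Y.1 *ᵥ x) ≠ 0 := fun h => by
    obtain ⟨r, hr⟩ := exists_fog_right (σ := RingHom.id F) a1 (show x ≠ 0 from one_ne_zero)
    obtain ⟨c, rfl⟩ := (Submodule.mem_span_range_iff_exists_fun F).1
      ((LinearIndependent.span_eq_top_of_card_eq_finrank' (b := ![x, Y.1 *ᵥ x])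
        ((LinearIndependent.pair_iff' one_ne_zero).2 fun c hc => not_mem_line (eq_zero_or_one hF)
          h0 h4 one_ne_zero c hc.symm) (by simp)).ge (Submodule.mem_top (x := r)))
    refine hr ?_
    rw [Fin.sum_univ_two, fog_add_right, fog_smul_right, fog_smul_right]
    exact (congrArg₂ (_ * · + _ * ·) (a2 x) h).trans (by simp)
  simp only [d3, map_add, map_sub, map_smul, LinearMap.add_apply, b1, a6, d5, d6, cov_t, d9, b2,
    a2 x] at d10
  refine not_mem_line (eq_zero_or_one hF) h0 h4 (x := Y.1 *ᵥ x) (fun h => d11 (by simp [h]))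
    (ψ z - ψ y + 1) ?_
  rw [(eq_zero_or_one hF _).resolve_left d7, a2.skew, (eq_zero_or_one hF _).resolve_left d11,
    neg_eq_of_two h0] at d10
  rw [h4, add_smul, sub_smul, ← d10]; simp [add_comm]

end Tensor

end H23.As
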