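import Cfsg.Agent.H23.Mx1
import Cfsg.Agent.H4.Dk6
import Cfsg.Agent.H6.Inv

/-!
Tools for the maximality of subfield subgroups.
-/

set_option autoImplicit false

namespace H23.Sf

open Module
open scoped MatrixGroups

variable {F V : Type*} [Field F] [AddCommGroup V] [Module F V]

/-- `F` is a minimal ring extension of the subfield `F₀`. -/
def PD (F₀ : Subfield F) : Prop :=
  (∃ c, c ∉ F₀) ∧ ∀ Λ : Subring F, (∀ a ∈ F₀, a ∈ Λ) → (∃ c ∈ Λ, c ∉ F₀) → ∀ c, c ∈ Λ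

theorem pd_of_card [Fintype F] {F₀ : Subfield F} {r : ℕ} (hr : r.Prime)
    (hcard : Fintype.card F = Nat.card F₀ ^ r) : PD F₀ := by
  rw [← Nat.card_eq_fintype_card] at hcard
  refine ⟨?_, fun Λ h1 ⟨c, hc, hc'⟩ => ?_⟩
  · by_contra! h
    exact H4.ne_top_of_card hr.one_lt.ne' hcard (eq_top_iff.2 fun c _ => h c)
  let E : Subfield F :=
    { Λ with
      inv_mem' := fun x hx => by
        by_cases h0 : x = 0
        · rw [h0, inv_zero]; exact Λ.zero_mem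
        · have h2 : x ^ (Fintype.card F - 2) * x = 1 := by
            have := Fintype.one_lt_card (α := F)
            rw [← pow_succ, show Fintype.card F - 2 + 1 = Fintype.card F - 1 by omega]
            exact FiniteField.pow_card_sub_one_eq_one x h0
          rw [← eq_inv_of_mul_eq_one_left h2]
          exact Λ.pow_mem hx _ }
  rcases H4.subfield_eq_or (E' := E) hr hcard h1 with h | h
  · exact (hc' (h ▸ (hc : c ∈ E))).elim
  · intro d
    exact (h ▸ Subfield.mem_top d : d ∈ E)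

theorem PD.dichotomy {F₀ : Subfield F} (h : PD F₀) :
    (∃ θ, ∀ c, ∃ a ∈ F₀, ∃ b ∈ F₀, c = a + b * θ) ∨
      ∀ y, ∀ a ∈ F₀, ∀ b ∈ F₀, y ^ 2 = a * y + b → y ∈ F₀ := by
  by_cases h1 : ∀ y, ∀ a ∈ F₀, ∀ b ∈ F₀, y ^ 2 = a * y + b → y ∈ F₀
  · exact Or.inr h1
  push Not at h1
  obtain ⟨y, a, ha, b, hb, h2, h3⟩ := h1
  let Λ : Subring F :=
    { carrier := {c | ∃ a ∈ F₀, ∃ b ∈ F₀, c = a + b * y}
      mul_mem' := by
        rintro _ _ ⟨c, hc, d, hd, rfl⟩ ⟨c', hc', d', hd', rfl⟩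
        exact ⟨c * c' + d * d' * b, add_mem (mul_mem hc hc') (mul_mem (mul_mem hd hd') hb),
          c * d' + d * c' + d * d' * a, add_mem (add_mem (mul_mem hc hd') (mul_mem hd hc'))
            (mul_mem (mul_mem hd hd') ha), by linear_combination d * d' * h2⟩
      one_mem' := ⟨1, one_mem _, 0, zero_mem _, by ring⟩
      add_mem' := by
        rintro _ _ ⟨c, hc, d, hd, rfl⟩ ⟨c', hc', d', hd', rfl⟩
        exact ⟨c + c', add_mem hc hc', d + d', add_mem hd hd', by ring⟩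
      zero_mem' := ⟨0, zero_mem _, 0, zero_mem _, by ring⟩
      neg_mem' := by
        rintro _ ⟨c, hc, d, hd, rfl⟩
        exact ⟨-c, neg_mem hc, -d, neg_mem hd, by ring⟩ }
  exact Or.inl ⟨y, h.2 Λ (fun a ha => ⟨a, ha, 0, zero_mem _, by ring⟩)
    ⟨y, ⟨0, zero_mem _, 1, one_mem _, by ring⟩, h3⟩⟩

/-- `1 + X` belongs to `K`. -/
def EndIn (K : Subgroup (V ≃ₗ[F] V)) (X : V →ₗ[F] V) : Prop := ∃ g ∈ K, ∀ v, g v = v + X v

/-- Dickson's lemma for a pair of root elements. -/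
theorem endIn_of_pair [Finite F] (h2 : (2 : F) ≠ 0) {K : Subgroup (V ≃ₗ[F] V)}
    {X Y : V →ₗ[F] V} {β : F} (hβ : β ≠ 0) (hX : ∀ v, X (X v) = 0) (hY : ∀ v, Y (Y v) = 0)
    (hXYX : ∀ v, X (Y (X v)) = β • X v) (hYXY : ∀ v, Y (X (Y v)) = β • Y v) (h1 : EndIn K X)
    (h3 : EndIn K Y) : EndIn K (β • X) ∨ β ^ 2 = -1 := by
  obtain ⟨Z, rfl⟩ : ∃ Z : V →ₗ[F] V, X = β • Z := ⟨β⁻¹ • X, by simp [smul_smul, hβ]⟩
  have a1 : ∀ v, Z (Z v) = 0 := fun v => by simpa [hβ] using hX v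
  have a2 : ∀ v, Z (Y (Z v)) = Z v := fun v => by
    simpa [hβ, smul_smul, smul_right_injective V (mul_ne_zero hβ hβ) |>.eq_iff] using hXYX v
  have a3 : ∀ v, Y (Z (Y v)) = Y v := fun v => by
    simpa [hβ, smul_right_injective V hβ |>.eq_iff] using hYXY v
  let E : Subfield F := Subfield.closure {β}
  let l : E := ⟨β, Subfield.subset_closure rfl⟩
  have := Fintype.ofFinite E
  let act : SL(2, E) → V → V := fun A v => v + ((A.1 0 0 : F) - 1) • Z (Y v) + (A.1 0 1 : F) • Z v +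
    (A.1 1 0 : F) • Y v + ((A.1 1 1 : F) - 1) • Y (Z v)
  have hmul : ∀ A B v, act A (act B v) = act (A * B) v := fun A B v => by
    simp only [act, map_add, map_smul, a1, a2, a3, hY, map_zero, H4.sl2_mul_apply,
      Subfield.coe_add, Subfield.coe_mul]
    module
  have hone : ∀ v, act 1 v = v := fun v => by simp [act]
  let S : Subgroup SL(2, E) :=
    { carrier := {A | ∃ g ∈ K, ∀ v, g v = act A v}
      mul_mem' := by
        rintro A B ⟨g, hg, hA⟩ ⟨k, hk, hB⟩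
        exact ⟨g * k, mul_mem hg hk, fun v => by rw [← hmul, ← hB, ← hA]; rfl⟩
      one_mem' := ⟨1, one_mem _, fun v => (hone v).symm⟩
      inv_mem' := by
        rintro A ⟨g, hg, hA⟩
        refine ⟨g⁻¹, inv_mem hg, fun v => g.injective ?_⟩
        rw [hA (act _ _), hmul, mul_inv_cancel, hone]
        exact g.apply_symm_apply v }
  have hgen : Subfield.closure ({l} : Set E) = ⊤ := eq_top_iff.2 fun x _ => by
    have h4 : E ≤ (Subfield.closure ({l} : Set E)).map E.subtype :=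
      Subfield.closure_le.2 (Set.singleton_subset_iff.2 ⟨l, Subfield.subset_closure rfl, rfl⟩)
    obtain ⟨y, hy, h5⟩ := h4 x.2
    rwa [← Subtype.ext h5]
  have hup : ∀ t : E, ∀ v, act (H4.upT t) v = v + (t : F) • Z v := fun t v => by
    simp [act, H4.coe_upT]
  rcases H4.gen_cases (S := S) (l := l) (fun h => h2 (congrArg Subtype.val h))
    (fun h => hβ (congrArg Subtype.val h)) hgen
    (h3.imp fun g hg => ⟨hg.1, fun v => by simp [hg.2, act, H4.coe_loT]⟩)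
    (h1.imp fun g hg => ⟨hg.1, fun v => by rw [hg.2, hup]; rfl⟩) with h | ⟨-, h⟩
  · obtain ⟨g, hg, h4⟩ : H4.upT (l * l) ∈ S := h ▸ Subgroup.mem_top _
    exact Or.inl ⟨g, hg, fun v => by simp [h4, hup, l, smul_smul]⟩
  · exact Or.inr (congrArg Subtype.val h)

/-- A strongly embedded subgroup has a single class of involutions. -/
theorem le_of_strong {G : Type*} [Group G] [Finite G] {K M : Subgroup G} (hMK : M ≤ K)
    (hU : ∀ g ∈ K, ∀ z ∈ M, z * z = 1 → z ≠ 1 → g⁻¹ * z * g ∈ M → g ∈ M) {a b : G}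
    (ha : a ∈ M) (hb : b ∈ M) (ha2 : a * a = 1) (hb2 : b * b = 1) (ha1 : a ≠ 1) (hb1 : b ≠ 1)
    (hn : ∀ k ∈ K, k * a * k⁻¹ ≠ b) : K ≤ M := fun g hg => by
  have hb' : (g * b * g⁻¹) * (g * b * g⁻¹) = 1 := by
    rw [show (g * b * g⁻¹) * (g * b * g⁻¹) = g * (b * b) * g⁻¹ by group, hb2]; simp
  have hab : a * (g * b * g⁻¹) ∈ K := mul_mem (hMK ha) (mul_mem (mul_mem hg (hMK hb)) (inv_mem hg))
  rcases Nat.even_or_odd (orderOf (a * (g * b * g⁻¹))) with he | ho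
  · obtain ⟨h1, h2, h3⟩ := H6.exists_central_inv ha2 hb' he
    have hz := pow_mem hab (orderOf (a * (g * b * g⁻¹)) / 2)
    generalize (a * (g * b * g⁻¹)) ^ (orderOf (a * (g * b * g⁻¹)) / 2) = z at h1 h2 h3 hz
    obtain ⟨h4, h5⟩ := H6.ord2_iff.1 h1
    refine hU g hg z (hU z hz a ha ha2 ha1 ?_) h4 h5
      (hU _ (mul_mem (mul_mem (inv_mem hg) hz) hg) b hb hb2 hb1 ?_)
    · rwa [mul_assoc, ← h2.eq, inv_mul_cancel_left]
    · rwa [show (g⁻¹ * z * g)⁻¹ * b * (g⁻¹ * z * g) = g⁻¹ * (z⁻¹ * ((g * b * g⁻¹) * z)) * g by group,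
        ← h3.eq, show g⁻¹ * (z⁻¹ * (z * (g * b * g⁻¹))) * g = b by group]
  · obtain ⟨k, hk⟩ := H6.exists_pow_conj_of_odd ha2 hb' ho
    refine (hn (g⁻¹ * (a * (g * b * g⁻¹)) ^ k) (mul_mem (inv_mem hg) (pow_mem hab k)) ?_).elim
    generalize (a * (g * b * g⁻¹)) ^ k = y at hk
    rw [show g⁻¹ * y * a * (g⁻¹ * y)⁻¹ = g⁻¹ * (y * a * y⁻¹) * g by group, hk]; group

theorem finite_equiv [Finite V] : Finite (V ≃ₗ[F] V) :=
  Finite.of_injective (fun g : V ≃ₗ[F] V => (g : V → V)) DFunLike.coe_injective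

variable {F₀ : Subfield F}

/-- The maps preserving an `F₀`-structure up to a scalar. -/
def Mg (V₀ : Submodule F₀ V) : Subgroup (V ≃ₗ[F] V) where
  carrier := {g | ∃ c : F, c ≠ 0 ∧ ∀ v, c • g v ∈ V₀ ↔ v ∈ V₀}
  mul_mem' := by
    rintro a b ⟨c, hc, h1⟩ ⟨d, hd, h2⟩
    refine ⟨c * d, mul_ne_zero hc hd, fun v => ?_⟩
    rw [← h2 v, ← h1 (d • b v), map_smul, smul_smul]; rfl
  one_mem' := ⟨1, one_ne_zero, by simp⟩
  inv_mem' := by
    rintro a ⟨c, hc, h1⟩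
    refine ⟨c⁻¹, inv_ne_zero hc, fun v => ?_⟩
    rw [← h1, map_smul, smul_smul, mul_inv_cancel₀ hc, one_smul]
    exact Iff.of_eq (congrArg (· ∈ V₀) (a.apply_symm_apply v))

variable {V₀ : Submodule F₀ V} {g : V ≃ₗ[F] V}

theorem mem_Mg : g ∈ Mg V₀ ↔ ∃ c : F, c ≠ 0 ∧ ∀ v, c • g v ∈ V₀ ↔ v ∈ V₀ := Iff.rfl

theorem mem_Mg_of [Finite V] {c : F} (hc : c ≠ 0) (h : ∀ v ∈ V₀, c • g v ∈ V₀) : g ∈ Mg V₀ := by
  refine ⟨c, hc, fun v => ⟨fun hv => ?_, h v⟩⟩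
  have h1 : Function.Injective fun v : V₀ => (⟨c • g v, h v v.2⟩ : V₀) := fun a b hab =>
    Subtype.ext (g.injective (smul_right_injective V hc (congrArg Subtype.val hab)))
  obtain ⟨w, hw⟩ := Finite.injective_iff_surjective.1 h1 ⟨_, hv⟩
  exact g.injective (smul_right_injective V hc (congrArg Subtype.val hw)) ▸ w.2

theorem mem_Mg_of_rat [Finite V] (h : ∀ v ∈ V₀, g v ∈ V₀) : g ∈ Mg V₀ :=
  mem_Mg_of one_ne_zero (by simpa using h)

theorem smul_mem₀ {c : F} (hc : c ∈ F₀) {v : V} (hv : v ∈ V₀) : c • v ∈ V₀ :=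
  V₀.smul_mem ⟨c, hc⟩ hv

/-- Scalars are detected by rational vectors. -/
def Sc (V₀ : Submodule F₀ V) : Prop := ∀ u ∈ V₀, u ≠ 0 → ∀ c : F, c • u ∈ V₀ → c ∈ F₀

theorem Sc.rat_of_fix (h : Sc V₀) (hg : g ∈ Mg V₀) {u : V} (hu : u ∈ V₀) (h0 : u ≠ 0)
    (h1 : g u = u) : ∀ v ∈ V₀, g v ∈ V₀ := fun v hv => by
  obtain ⟨c, hc, h2⟩ := hg
  have h3 := h u hu h0 c (by simpa [h1] using (h2 u).2 hu)
  simpa [smul_smul, hc] using smul_mem₀ (inv_mem h3) ((h2 v).2 hv)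

theorem exists_sq_eq [Finite F] (h2 : (2 : F) = 0) {a : F} (ha : a ∈ F₀) : ∃ c ∈ F₀, c ^ 2 = a := by
  have hi : Function.Injective fun a : F₀ => a ^ 2 := fun a b hab => by
    have h7 : a.1 ^ 2 = b.1 ^ 2 := congrArg Subtype.val hab
    exact Subtype.ext (sub_eq_zero.1 (pow_eq_zero_iff two_ne_zero |>.1
      (by linear_combination h7 + (b.1 ^ 2 - a.1 * b.1) * h2)))
  obtain ⟨c, hc⟩ := Finite.injective_iff_surjective.1 hi ⟨a, ha⟩
  exact ⟨c, c.2, congrArg Subtype.val hc⟩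

theorem Sc.rat_of_invol [Finite F] (h : Sc V₀) (h2 : (2 : F) = 0) (hg : g ∈ Mg V₀)
    (hg2 : g * g = 1) : ∀ v ∈ V₀, g v ∈ V₀ := fun v hv => by
  by_cases h0 : v = 0
  · simp [h0]
  obtain ⟨c, hc, h1⟩ := hg
  have h3 : c * c ∈ F₀ := h v hv h0 _ (by
    have := (h1 _).2 ((h1 v).2 hv)
    rwa [map_smul, smul_smul, show g (g v) = v from DFunLike.congr_fun hg2 v] at this)
  obtain ⟨d, hd, h4⟩ := exists_sq_eq h2 h3
  have h5 : c = d := sub_eq_zero.1 (pow_eq_zero_iff two_ne_zero |>.1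
    (by linear_combination -h4 + (d ^ 2 - c * d) * h2))
  simpa [smul_smul, hc] using smul_mem₀ (inv_mem (h5 ▸ hd : c ∈ F₀)) ((h1 v).2 hv)

theorem exists_rat_ne (hs : Submodule.span F (V₀ : Set V) = ⊤) {W : Type*} [AddCommGroup W]
    [Module F W] {f : V →ₗ[F] W} (hf : f ≠ 0) : ∃ v ∈ V₀, f v ≠ 0 := by
  by_contra! h
  exact hf (LinearMap.ker_eq_top.1 (eq_top_iff.2 (hs ▸ Submodule.span_le.2 h)))

theorem exists_two_rat (hs : Submodule.span F (V₀ : Set V) = ⊤) {θ : F}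
    (hθ : ∀ c, ∃ a ∈ F₀, ∃ b ∈ F₀, c = a + b * θ) (w : V) :
    ∃ a ∈ V₀, ∃ b ∈ V₀, w = a + θ • b := by
  have hw : w ∈ Submodule.span F (V₀ : Set V) := hs ▸ Submodule.mem_top
  induction hw using Submodule.span_induction with
  | mem x hx => exact ⟨x, hx, 0, zero_mem _, by simp⟩
  | zero => exact ⟨0, zero_mem _, 0, zero_mem _, by simp⟩
  | add x y _ _ hx hy =>
    obtain ⟨a, ha, b, hb, rfl⟩ := hx
    obtain ⟨a', ha', b', hb', rfl⟩ := hy
    exact ⟨a + a', add_mem ha ha', b + b', add_mem hb hb', by module⟩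
  | smul c x _ hx =>
    obtain ⟨a, ha, b, hb, rfl⟩ := hx
    obtain ⟨c1, h1, c2, h2, h3⟩ := hθ c
    obtain ⟨d1, h4, d2, h5, h6⟩ := hθ (c * θ)
    refine ⟨c1 • a + d1 • b, add_mem (smul_mem₀ h1 ha) (smul_mem₀ h4 hb), c2 • a + d2 • b,
      add_mem (smul_mem₀ h2 ha) (smul_mem₀ h5 hb), ?_⟩
    rw [smul_add, smul_smul, h6]
    nth_rw 1 [h3]
    module

end H23.Sf
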