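import Cfsg.Agent.H23.Sf1
import Cfsg.Agent.H23.As4

/-!
Subfield subgroups of `SL(V)` are maximal.
-/

set_option autoImplicit false

namespace H23.Sf

open Module

variable {F V : Type*} [Field F] [AddCommGroup V] [Module F V] {F₀ : Subfield F}

/-- `V₀` is an `F₀`-structure on `V`. -/
structure RL (V₀ : Submodule F₀ V) : Prop where
  span : Submodule.span F (V₀ : Set V) = ⊤
  ext : ∀ φ : Dual F₀ V₀, ∃ ψ : Dual F V, ∀ v : V₀, ψ v = φ v

/-- rational linear forms -/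
def RD (V₀ : Submodule F₀ V) (ψ : Dual F V) : Prop := ∀ v ∈ V₀, ψ v ∈ F₀

variable {V₀ : Submodule F₀ V} {K : Subgroup (V ≃ₗ[F] V)} {g : V ≃ₗ[F] V} {u w x y : V}
  {φ ψ : Dual F V}

theorem RD.smul (h : RD V₀ ψ) {c : F} (hc : c ∈ F₀) : RD V₀ (c • ψ) := fun v hv =>
  mul_mem hc (h v hv)

theorem RD.sub (h : RD V₀ ψ) (h' : RD V₀ φ) : RD V₀ (ψ - φ) := fun v hv =>
  sub_mem (h v hv) (h' v hv)

theorem RL.dual (h : RL V₀) {U : Submodule F V} (hx : x ∈ V₀) (hxU : x ∉ U) :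
    ∃ ψ, RD V₀ ψ ∧ (∀ y ∈ V₀, y ∈ U → ψ y = 0) ∧ ψ x = 1 := by
  obtain ⟨φ, h1, h2⟩ := exists_dual_eq_one (W := (U.restrictScalars F₀).comap V₀.subtype)
    (x := ⟨x, hx⟩) hxU
  obtain ⟨ψ, h3⟩ := h.ext φ
  exact ⟨ψ, fun v hv => (h3 ⟨v, hv⟩) ▸ (φ _).2, fun y hy hy' => by
    rw [h3 ⟨y, hy⟩, h1 ⟨y, hy⟩ hy']; rfl, by rw [h3 ⟨x, hx⟩, h2]; rfl⟩

theorem RL.dual_one (h : RL V₀) (hx : x ∈ V₀) (h0 : x ≠ 0) : ∃ ψ, RD V₀ ψ ∧ ψ x = 1 :=
  (h.dual (U := ⊥) hx h0).imp fun _ h => ⟨h.1, h.2.2⟩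

theorem RL.dual_two (h : RL V₀) (hu : u ∈ V₀) (hx : x ∈ V₀) (h0 : x ∉ F ∙ u) :
    ∃ ψ, RD V₀ ψ ∧ ψ u = 0 ∧ ψ x = 1 :=
  (h.dual hx h0).imp fun _ h => ⟨h.1, h.2.1 u hu (Submodule.mem_span_singleton_self u), h.2.2⟩

theorem RL.dual_three (h : RL V₀) (hu : u ∈ V₀) (hy : y ∈ V₀) (hx : x ∈ V₀)
    (h0 : x ∉ Submodule.span F {u, y}) : ∃ ψ, RD V₀ ψ ∧ ψ u = 0 ∧ ψ y = 0 ∧ ψ x = 1 :=
  (h.dual hx h0).imp fun _ h => ⟨h.1, h.2.1 u hu (Submodule.subset_span (by simp)),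
    h.2.1 y hy (Submodule.subset_span (by simp)), h.2.2⟩

theorem RL.sc (h : RL V₀) : Sc V₀ := fun u hu h0 c hc => by
  obtain ⟨ψ, h1, h2⟩ := h.dual_one hu h0
  simpa [h2] using h1 _ hc

theorem RL.exists_coord [Finite V] (h : RL V₀) : ∃ (n : ℕ) (b : Fin n → V) (ψ : Fin n → Dual F V),
    (∀ i, b i ∈ V₀) ∧ (∀ i, RD V₀ (ψ i)) ∧ ∀ v, ∑ i, ψ i v • b i = v := by
  let b := Module.finBasis F₀ V₀
  choose ψ hψ using fun i => h.ext (b.coord i)
  refine ⟨_, fun i => b i, ψ, fun i => (b i).2, fun i v hv => (hψ i ⟨v, hv⟩) ▸ (b.coord i _).2,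
    fun v => ?_⟩
  have h1 : ∑ i, (ψ i).smulRight (b i : V) = LinearMap.id := LinearMap.ext_on h.span fun v hv => by
    simp only [LinearMap.sum_apply, LinearMap.smulRight_apply, hψ _ ⟨v, hv⟩]
    have := congrArg Subtype.val (b.sum_repr ⟨v, hv⟩)
    rw [Submodule.coe_sum] at this
    exact this
  simpa using DFunLike.congr_fun h1 v

theorem RL.mem_of [Finite V] (h : RL V₀) (hx : ∀ ψ, RD V₀ ψ → ψ x ∈ F₀) : x ∈ V₀ := by
  obtain ⟨n, b, ψ, h1, h2, h3⟩ := h.exists_coord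
  rw [← h3 x]
  exact sum_mem fun i _ => smul_mem₀ (hx _ (h2 i)) (h1 i)

theorem exists_rat_notMem (hs : Submodule.span F (V₀ : Set V) = ⊤) {U : Submodule F V}
    (hU : finrank F U < finrank F V) : ∃ x ∈ V₀, x ∉ U := by
  by_contra! h
  rw [eq_top_iff.2 (hs ▸ Submodule.span_le.2 h : ⊤ ≤ U), finrank_top] at hU
  exact hU.false

theorem finrank_span_pair_le (a b : V) : finrank F (Submodule.span F {a, b}) ≤ 2 := by
  classical
  exact (finrank_span_le_card ({a, b} : Set V)).trans (by simpa using Finset.card_le_two)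

theorem finrank_span_one_le (a : V) : finrank F (F ∙ a) ≤ 1 := by
  simpa using finrank_span_le_card (R := F) ({a} : Set V)

theorem RL.exists_ker (h : RL V₀) (h3 : 3 ≤ finrank F V) (hψ : RD V₀ ψ) (u : V) :
    ∃ z ∈ V₀, ψ z = 0 ∧ z ∉ F ∙ u := by
  by_cases h0 : ψ = 0
  · obtain ⟨x, hx, h1⟩ := exists_rat_notMem h.span ((finrank_span_one_le u).trans_lt (by omega))
    exact ⟨x, hx, by simp [h0], h1⟩
  obtain ⟨y, hy, h1⟩ := exists_rat_ne h.span h0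
  obtain ⟨x, hx, h2⟩ := exists_rat_notMem h.span ((finrank_span_pair_le u y).trans_lt (by omega))
  refine ⟨ψ y • x - ψ x • y, sub_mem (smul_mem₀ (hψ y hy) hx) (smul_mem₀ (hψ x hx) hy),
    by simp [mul_comm], fun h4 => h2 ?_⟩
  obtain ⟨c, hc⟩ := Submodule.mem_span_singleton.1 h4
  refine Submodule.mem_span_pair.2 ⟨c / ψ y, ψ x / ψ y, smul_right_injective V h1 ?_⟩
  simp only [smul_add, smul_smul, mul_div_cancel₀ _ h1, hc, sub_add_cancel]

theorem RL.exists_dual_kill (h : RL V₀) (h3 : 3 ≤ finrank F V) (hu : u ∈ V₀) (hy : y ∈ V₀) :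
    ∃ ψ, RD V₀ ψ ∧ ψ u = 0 ∧ ψ y = 0 ∧ ∃ x ∈ V₀, ψ x = 1 := by
  obtain ⟨x, hx, h2⟩ := exists_rat_notMem h.span ((finrank_span_pair_le u y).trans_lt (by omega))
  exact (h.dual_three hu hy hx h2).imp fun _ h => ⟨h.1, h.2.1, h.2.2.1, x, hx, h.2.2.2⟩

variable [Finite V] [FiniteDimensional F V]

theorem tv_rat (hu : u ∈ V₀) (hψ : RD V₀ ψ) (h0 : ψ u = 0) (h : ∀ v, g v = v + ψ v • u) :
    g ∈ Mg V₀ ⊓ SLv F V :=
  ⟨mem_Mg_of_rat fun v hv => h v ▸ add_mem hv (smul_mem₀ (hψ v hv) hu), by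
    rw [show g = tv ψ u h0 from LinearEquiv.ext h]; exact tv_mem_SLv h0⟩

theorem tIn_rat (hu : u ∈ V₀) (hψ : RD V₀ ψ) (h0 : ψ u = 0) : TIn (Mg V₀ ⊓ SLv F V) ψ u :=
  tIn_of_forall h0 fun _ => tv_rat hu hψ h0

theorem RL.trans (h : RL V₀) (h2 : 2 ≤ finrank F V) (hu : u ∈ V₀) (hw : w ∈ V₀) (hu0 : u ≠ 0)
    (hw0 : w ≠ 0) : ∃ m ∈ Mg V₀ ⊓ SLv F V, (∀ v ∈ V₀, m v ∈ V₀) ∧ m u = w := by
  have key : ∀ u ∈ V₀, ∀ w ∈ V₀, u ≠ 0 → w ∉ F ∙ u →
      ∃ m ∈ Mg V₀ ⊓ SLv F V, (∀ v ∈ V₀, m v ∈ V₀) ∧ m u = w := fun u hu w hw hu0 h1 => by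
    obtain ⟨ψ, h3, h4, h5⟩ := h.dual_two (sub_mem hw hu) hu fun h3 => by
      obtain ⟨c, hc⟩ := Submodule.mem_span_singleton.1 h3
      have hc0 : c ≠ 0 := by rintro rfl; exact hu0 (by simpa using hc.symm)
      refine h1 (Submodule.mem_span_singleton.2 ⟨(1 + c) / c, smul_right_injective V hc0 ?_⟩)
      simp only [smul_smul, mul_div_cancel₀ _ hc0, add_smul, one_smul]
      nth_rw 1 [← hc]; module
    exact ⟨tv ψ _ h4, tv_rat (sub_mem hw hu) h3 h4 fun _ => rfl,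
      fun v hv => add_mem hv (smul_mem₀ (h3 v hv) (sub_mem hw hu)), by simp [tv_apply, h5]⟩
  by_cases h1 : w ∈ F ∙ u
  · obtain ⟨x, hx, h3⟩ := exists_rat_notMem h.span ((finrank_span_one_le u).trans_lt (by omega))
    obtain ⟨m, a1, a2, a3⟩ := key u hu x hx hu0 h3
    obtain ⟨k, b1, b2, b3⟩ := key x hx w hw (fun h => h3 (h ▸ zero_mem _)) fun h4 => by
      obtain ⟨c, rfl⟩ := Submodule.mem_span_singleton.1 h4
      exact h3 ((Submodule.smul_mem_iff _ (left_ne_zero_of_smul hw0)).1 h1)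
    exact ⟨k * m, mul_mem b1 a1, fun v hv => b2 _ (a2 v hv), by rw [← b3, ← a3]; rfl⟩
  · exact key u hu w hw hu0 h1

/-- No new transvections with a rational centre. -/
def NWL (V₀ : Submodule F₀ V) (K : Subgroup (V ≃ₗ[F] V)) : Prop :=
  ∀ u ∈ V₀, u ≠ 0 → ∀ φ : Dual F V, φ u = 0 → TIn K φ u → RD V₀ φ

theorem RL.win (h : RL V₀) (hF : PD F₀) (h3 : 3 ≤ finrank F V) (hM : Mg V₀ ⊓ SLv F V ≤ K)
    (hK : ¬ NWL V₀ K) : SLv F V ≤ K := by
  simp only [NWL, RD, not_forall] at hK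
  obtain ⟨u, hu, hu0, φ, h0, h1, y, hy, hc⟩ := hK
  have ht : ∀ u ∈ V₀, ∀ ψ, RD V₀ ψ → ψ u = 0 → TIn K ψ u := fun u hu ψ h1 h2 =>
    (tIn_rat hu h1 h2).mono hM
  let Λ : Subring F :=
    { carrier := {c | ∀ u ∈ V₀, ∀ ψ, RD V₀ ψ → ψ u = 0 → TIn K (c • ψ) u}
      mul_mem' := fun {c d} hc hd u hu ψ h1 h2 => by
        obtain ⟨w, hw, h4, h5⟩ := h.exists_ker h3 h1 u
        obtain ⟨χ, h6, h7, h8⟩ := h.dual_two hu hw h5
        simpa [h8, smul_smul] using (hc u hu χ h6 h7).comm (hd w hw ψ h1 h4) (by simp [h7])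
          (by simp [h4]) (by simp [h2])
      one_mem' := by simpa using ht
      add_mem' := fun {c d} hc hd u hu ψ h1 h2 => by
        simpa [add_smul] using (hc u hu ψ h1 h2).add_left (hd u hu ψ h1 h2) (by simp [h2])
      zero_mem' := fun u _ ψ _ _ => by simpa using tIn_zero_left K u
      neg_mem' := fun {c} hc u hu ψ h1 h2 => by
        exact neg_smul c ψ ▸ (hc u hu ψ h1 h2).neg (by simp [h2]) }
  have h4 : φ y ∈ Λ := by
    have a1 : ∀ ψ, RD V₀ ψ → ψ u = 0 → ψ y = 0 → TIn K (φ y • ψ) u := fun ψ h4 h5 h6 =>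
      h1.comm (ht y hy ψ h4 h6) h0 h6 h5
    obtain ⟨χ, a2, a3, a4, x, hx, a5⟩ := h.exists_dual_kill h3 hu hy
    have a6 : ∀ ψ, RD V₀ ψ → ψ u = 0 → ψ x = 0 → TIn K (φ y • ψ) u := fun ψ h4 h5 h6 => by
      simpa [a5] using (a1 χ a2 a3 a4).comm (ht x hx ψ h4 h6) (by simp [a3]) h6 h5
    obtain ⟨ξ, b1, b2, b3, b4⟩ := h.dual_three hu hx hy fun h4 => by
      obtain ⟨a, b, rfl⟩ := Submodule.mem_span_pair.1 h4
      obtain rfl : b = 0 := by simpa [a3, a5] using a4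
      exact hc (by simp [h0])
    have a7 : ∀ ψ, RD V₀ ψ → ψ u = 0 → TIn K (φ y • ψ) u := fun ψ h4 h5 => by
      have := (a1 (ψ - ψ y • ξ) (h4.sub (b1.smul (h4 y hy))) (by simp [h5, b2])
        (by simp [b4])).add_left (a6 (ψ y • ξ) (b1.smul (h4 y hy)) (by simp [b2]) (by simp [b3]))
        (by simp [h5, b2])
      rwa [← smul_add, sub_add_cancel] at this
    intro w hw ψ h4 h5
    by_cases hw0 : w = 0
    · exact hw0 ▸ tIn_zero_right K _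
    obtain ⟨m, c1, c2, rfl⟩ := h.trans (by omega) hu hw hu0 hw0
    exact ((a7 (ψ ∘ₗ m.toLinearMap) (fun v hv => h4 _ (c2 v hv)) h5).conj (hM c1)).congr
      fun x => by simp
  have h5 := hF.2 Λ (fun a ha u hu ψ h1 h2 => ht u hu _ (h1.smul ha) (by simp [h2])) ⟨_, h4, hc⟩
  refine SLv_le_of_TC (eq_top_iff.2 (h.span ▸ Submodule.span_le.2 fun w hw => ?_))
  refine mem_TC_iff.2 fun χ hχ => ?_
  by_cases hw0 : w = 0
  · exact hw0 ▸ tIn_zero_right K _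
  obtain ⟨f, a1, a2⟩ := h.dual_one hw hw0
  obtain ⟨n, b, ψ, b1, b2, b3⟩ := h.exists_coord
  refine (TIn.sum_left Finset.univ (f := fun i => χ (b i) • (ψ i - ψ i w • f))
    (fun i _ => h5 _ w hw _ ((b2 i).sub (a1.smul (b2 i w hw))) (by simp [a2]))
    fun i _ => by simp [a2]).congr fun x => ?_
  have a3 := congrArg χ (b3 x)
  have a4 := congrArg χ (b3 w)
  simp only [map_sum, map_smul, smul_eq_mul, hχ] at a3 a4
  congr 1
  simp only [LinearMap.sum_apply, LinearMap.smul_apply, LinearMap.sub_apply,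
    smul_eq_mul, mul_sub, Finset.sum_sub_distrib, ← mul_assoc, ← Finset.sum_mul]
  simp only [mul_comm (χ (b _)), a3, a4, zero_mul, sub_zero]

theorem RL.stab (h : RL V₀) (hM : Mg V₀ ⊓ SLv F V ≤ K) (hK : K ≤ SLv F V) (hN : NWL V₀ K)
    (hu : u ∈ V₀) (hu0 : u ≠ 0) (hg : g ∈ K) {c : F} (h1 : g u = c • u) : g ∈ Mg V₀ := by
  have hc : c ≠ 0 := by rintro rfl; exact hu0 (by simpa using h1)
  obtain ⟨f, a1, a2⟩ := h.dual_one hu hu0
  have a3 : g.symm u = c⁻¹ • u := by rw [g.symm_apply_eq, map_smul, h1, smul_smul]; simp [hc]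
  have a4 : ∀ ψ, RD V₀ ψ → ψ u = 0 → ∀ v ∈ V₀, c * ψ (g.symm v) ∈ F₀ := fun ψ h2 h3 => by
    refine hN u hu hu0 (c • ψ ∘ₗ g.symm.toLinearMap) (by simp [a3, h3]) (tIn_smul.2 ?_)
    exact h1 ▸ ((tIn_rat hu h2 h3).mono hM).conj hg
  set χ : Dual F V := c⁻¹ • f ∘ₗ g.toLinearMap - f
  have a5 : χ u = 0 := by simp [χ, h1, a2, hc]
  have a6 : tv χ u a5 * g⁻¹ ∈ Mg V₀ := mem_Mg_of hc fun v hv => h.mem_of fun ψ h2 => by
    have := add_mem (a4 (ψ - ψ u • f) (h2.sub (a1.smul (h2 u hu))) (by simp [a2]) v hv)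
      (mul_mem (a1 v hv) (h2 u hu))
    convert this using 1
    simp [tv_apply, χ]
    field_simp
    ring
  have a7 : tv χ u a5 ∈ K := by
    simpa using mul_mem (hM ⟨a6, mul_mem (tv_mem_SLv a5) (Subgroup.inv_mem _ (hK hg))⟩) hg
  have a8 := (tv_rat hu (hN u hu hu0 χ a5 (tIn_of_tv a7)) a5 (g := tv χ u a5) fun _ => rfl).1
  simpa using mul_mem (inv_mem a6) a8

theorem RL.line (h : RL V₀) (h2 : 2 ≤ finrank F V) (hM : Mg V₀ ⊓ SLv F V ≤ K) (hK : K ≤ SLv F V)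
    (hN : NWL V₀ K) (hu : u ∈ V₀) (hu0 : u ≠ 0) (hw : w ∈ V₀) (hg : g ∈ K) {c : F}
    (h1 : g u = c • w) : g ∈ Mg V₀ := by
  obtain ⟨m, c1, -, c2⟩ := h.trans h2 hw hu (by rintro rfl; exact hu0 (by simpa using h1)) hu0
  have := h.stab hM hK hN hu hu0 (mul_mem (hM c1) hg) (c := c) (by simp [h1, c2])
  simpa using mul_mem ((Mg V₀).inv_mem c1.1) this

theorem RL.kill (h : RL V₀) (h3 : 3 ≤ finrank F V) (hM : Mg V₀ ⊓ SLv F V ≤ K) (hK : K ≤ SLv F V)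
    (hN : NWL V₀ K) (hw : w ∈ V₀) (hw0 : w ≠ 0) (hg : g ∈ K) (hψ : RD V₀ ψ) (hψ0 : ψ ≠ 0)
    (h1 : ψ (g w) = 0) : g ∈ Mg V₀ := by
  obtain ⟨u, hu, a1, a2⟩ := h.exists_ker h3 hψ 0
  have hu0 : u ≠ 0 := fun h => a2 (by rw [h]; exact zero_mem _)
  obtain ⟨k, hk, a3⟩ := ((tIn_rat hu hψ a1).mono hM).conj' hg
  have a4 : k w = w := by simp [a3, h1]
  have a5 := h.sc.rat_of_fix (h.stab hM hK hN hw hw0 hk (c := 1) (by simpa using a4)) hw hw0 a4
  obtain ⟨v, hv, a6⟩ := exists_rat_ne h.span (f := ψ ∘ₗ g.toLinearMap) fun h => hψ0 (by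
    ext x; simpa using DFunLike.congr_fun h (g.symm x))
  have a7 := sub_mem (a5 v hv) hv
  rw [a3, add_sub_cancel_left] at a7
  exact h.line (by omega) hM hK hN a7 (smul_ne_zero a6 (by simpa using hu0)) hu hg
    (by rw [map_smul, g.apply_symm_apply])

theorem RL.le_of_odd [Finite F] (h : RL V₀) (h3 : 3 ≤ finrank F V) (hM : Mg V₀ ⊓ SLv F V ≤ K)
    (hK : K ≤ SLv F V) (hN : NWL V₀ K) (h2 : (2 : F) ≠ 0)
    (hq : ∀ y, ∀ a ∈ F₀, ∀ b ∈ F₀, y ^ 2 = a * y + b → y ∈ F₀) (hg : g ∈ K) : g ∈ Mg V₀ := by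
  obtain ⟨w, hw, a0⟩ := exists_rat_notMem h.span (U := ⊥) (by simp; omega)
  have hw0 : w ≠ 0 := a0
  obtain ⟨χ, a1, a2, -, y, hy, a3⟩ := h.exists_dual_kill h3 hw hw
  have a4 := ((tIn_rat hw a1 a2).mono hM).conj hg
  set φ := χ ∘ₗ g.symm.toLinearMap
  have a5 : φ (g w) = 0 := by simp [φ, a2]
  obtain ⟨u, hu, a6⟩ := exists_rat_ne h.span (f := φ) fun h => by
    simpa [φ, a3] using DFunLike.congr_fun h (g y)
  have hu0 : u ≠ 0 := by rintro rfl; simp at a6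
  have a7 : ∀ ψ, RD V₀ ψ → ψ u = 0 → ψ (g w) * φ u ∈ F₀ := fun ψ b1 b2 => by
    by_cases b3 : ψ (g w) = 0
    · simp [b3]
    rcases endIn_of_pair h2 (X := ψ.smulRight u) (Y := φ.smulRight (g w)) (β := ψ (g w) * φ u)
      (mul_ne_zero b3 a6) (by simp [b2]) (by simp [a5])
      (fun v => by simp [smul_smul]; congr 1; ring) (fun v => by simp [smul_smul]; congr 1; ring)
      ((tIn_rat hu b1 b2).mono hM) a4 with b4 | b4
    · obtain ⟨v, hv, b5⟩ := exists_rat_ne h.span (f := ψ) (by rintro rfl; simp at b3)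
      have b6 := hN u hu hu0 ((ψ (g w) * φ u) • ψ) (by simp [b2])
        (b4.imp fun k hk => ⟨hk.1, fun x => by simp [hk.2, smul_smul]⟩) v hv
      simpa [b5] using div_mem b6 (b1 v hv)
    · exact hq _ 0 (zero_mem _) (-1) (neg_mem (one_mem _)) (by simp [b4])
  obtain ⟨x₁, hx₁, b1⟩ := exists_rat_notMem h.span ((finrank_span_one_le u).trans_lt (by omega))
  obtain ⟨x₂, hx₂, b2⟩ := exists_rat_notMem h.span ((finrank_span_pair_le u x₁).trans_lt (by omega))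
  obtain ⟨ψ₁, c1, c2, c3⟩ := h.dual_two hu hx₁ b1
  obtain ⟨ψ₂, c4, c5, c6, c7⟩ := h.dual_three hu hx₁ hx₂ b2
  by_cases c8 : ψ₂ (g w) = 0
  · exact h.kill h3 hM hK hN hw hw0 hg c4 (by rintro rfl; simp at c7) c8
  refine h.kill h3 hM hK hN hw hw0 hg ((c1.smul (a7 _ c4 c5)).sub (c4.smul (a7 _ c1 c2)))
    (fun h => ?_) (by simp; ring)
  simpa [c3, c6, c8, a6] using DFunLike.congr_fun h x₁

theorem RL.le_of_even [Finite F] (h : RL V₀) (h4 : 4 ≤ finrank F V) (hM : Mg V₀ ⊓ SLv F V ≤ K)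
    (hK : K ≤ SLv F V) (hN : NWL V₀ K) (h2 : (2 : F) = 0) : K ≤ Mg V₀ ⊓ SLv F V := by
  have := finite_equiv (F := F) (V := V)
  have h2' : ∀ v : V, v + v = 0 := fun v => by rw [← two_smul F, h2, zero_smul]
  obtain ⟨u, hu, a0⟩ := exists_rat_notMem h.span (U := ⊥) (by simp; omega)
  obtain ⟨w, hw, a1⟩ := exists_rat_notMem h.span ((finrank_span_one_le u).trans_lt (by omega))
  obtain ⟨x, hx, a2⟩ := exists_rat_notMem h.span ((finrank_span_pair_le u w).trans_lt (by omega))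
  obtain ⟨y, hy, a3⟩ := exists_rat_notMem h.span (U := Submodule.span F {u, w, x}) (by
    classical
    exact ((finrank_span_le_card ({u, w, x} : Set V)).trans
      (by simpa using Finset.card_le_three)).trans_lt h4)
  obtain ⟨φ, b1, b2, b3, b4⟩ := h.dual_three hu hw hx a2
  obtain ⟨ψ, b5, b6, b7⟩ := h.dual hy a3
  have b8 := b6 u hu (Submodule.subset_span (by simp))
  have b9 := b6 w hw (Submodule.subset_span (by simp))
  have b10 := b6 x hx (Submodule.subset_span (by simp))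
  have c1 := tv_rat hu b1 b2 (g := tv φ u b2) fun _ => rfl
  have c2 := tv_rat hw b5 b9 (g := tv ψ w b9) fun _ => rfl
  refine le_of_strong hM (fun g hg z hz z1 z2 hz' => ⟨?_, hK hg⟩) c1 (mul_mem c1 c2)
    (LinearEquiv.ext fun v => by simp [tv_apply, b2, add_assoc, h2'])
    (LinearEquiv.ext fun v => ?_) (fun h => a0 ?_) (fun h => a0 ?_) fun k _ h => a1 ?_
  · have d1 := h.sc.rat_of_invol h2 hz.1 z1
    have d2 := h.sc.rat_of_invol h2 hz'.1 (by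
      rw [show g⁻¹ * z * g * (g⁻¹ * z * g) = g⁻¹ * (z * z) * g by group, z1]; simp)
    have d3 : z.toLinearMap - LinearMap.id ≠ 0 := fun h => z2 (by
      ext v; simpa [sub_eq_zero] using DFunLike.congr_fun h v)
    obtain ⟨v, hv, d4⟩ := exists_rat_ne h.span d3
    obtain ⟨v', hv', d5⟩ := exists_rat_ne h.span (f := (z.toLinearMap - LinearMap.id) ∘ₗ g.toLinearMap)
      fun h => d3 (by ext x; simpa using DFunLike.congr_fun h (g.symm x))
    obtain ⟨χ, d6, d7⟩ := h.dual_one (sub_mem (d1 v hv) hv) d4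
    refine h.kill (by omega) hM hK hN (sub_mem (d2 v' hv') hv') (fun h => d5 ?_) hg
      (ψ := χ ∘ₗ (z.toLinearMap - LinearMap.id)) (fun x hx => d6 _ (sub_mem (d1 x hx) hx))
      (fun h => ?_) ?_
    · simpa using congrArg g h
    · exact one_ne_zero (d7.symm.trans (DFunLike.congr_fun h v))
    · have d8 : ∀ x, z (z x) = x := fun x => DFunLike.congr_fun z1 x
      simp [d8, sub_eq_add_neg, neg_eq_of_add_eq_zero_left (h2' _)]
      linear_combination (χ (g v') + χ (z (g v'))) * h2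
  · simp only [LinearEquiv.mul_apply, tv_apply, map_add, map_smul, b2, b3, b8, b9, smul_eq_mul,
      mul_zero, add_zero, LinearEquiv.coe_one, id]
    linear_combination (norm := module) h2' (φ v • u) + h2' (ψ v • w)
  · simpa [tv_apply, b4] using DFunLike.congr_fun h x
  · simpa [tv_apply, b4, b10] using DFunLike.congr_fun h x
  · have d1 := DFunLike.congr_fun h x
    have d2 := DFunLike.congr_fun h y
    simp only [LinearEquiv.mul_apply, tv_apply, map_add, map_smul, b2, b3, b4, b7, b10, smul_eq_mul,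
      mul_zero, add_zero, LinearEquiv.coe_inv, LinearEquiv.apply_symm_apply, zero_smul, one_smul,
      add_right_inj, add_assoc] at d1 d2
    have d3 : φ (k.symm x) ≠ 0 := fun h => a0 (by simpa [h] using d1.symm)
    refine Submodule.mem_span_singleton.2 ⟨φ (k.symm y) / φ (k.symm x) - φ y, ?_⟩
    rw [sub_smul, sub_eq_iff_eq_add, add_comm w, ← d2]
    nth_rw 1 [← d1]
    rw [smul_smul, div_mul_cancel₀ _ d3]

theorem RL.isMaximalIn [Finite F] (h : RL V₀) (hF : PD F₀) (h4 : 4 ≤ finrank F V) :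
    Cfsg.Geo.IsMaximalIn (SLv F V) (Mg V₀ ⊓ SLv F V) := by
  obtain ⟨u, hu, a0⟩ := exists_rat_notMem h.span (U := ⊥) (by simp; omega)
  obtain ⟨ψ, a1, a2, -, x, hx, a3⟩ := h.exists_dual_kill (by omega) hu hu
  refine isMaximalIn_of inf_le_right ?_ fun K hM hK g hg hg' => ?_
  · obtain ⟨c, hc⟩ := hF.1
    have a4 : (c • ψ) u = 0 := by simp [a2]
    refine ⟨tv _ u a4, tv_mem_SLv a4, fun h1 => hc (h.sc u hu a0 c ?_)⟩
    simpa [tv_apply, a3] using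
      sub_mem (h.sc.rat_of_fix h1.1 hu a0 (by simp [tv_apply, a2]) x hx) hx
  by_contra h1
  have hN : NWL V₀ K := by_contra fun h2 => h1 (h.win hF (by omega) hM h2)
  rcases hF.dichotomy with ⟨θ, hθ⟩ | hq
  · obtain ⟨a, ha, b, hb, h2⟩ := exists_two_rat h.span hθ (g u)
    obtain ⟨χ, b1, b2, b3, y, -, b4⟩ := h.exists_dual_kill (by omega) ha hb
    exact hg' ⟨h.kill (by omega) hM hK hN hu a0 hg b1 (by rintro rfl; simp at b4)
      (by simp [h2, b2, b3]), hK hg⟩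
  by_cases h2 : (2 : F) = 0
  · exact hg' (h.le_of_even h4 hM hK hN h2 hg)
  · exact hg' ⟨h.le_of_odd (by omega) hM hK hN h2 hq hg, hK hg⟩

section Bridge

open Matrix Cfsg.Geo

variable {ι : Type} [Fintype ι] [DecidableEq ι]

/-- The rational structure spanned by the columns of `P`. -/
def colS (F₀ : Subfield F) (P : GL ι F) : Submodule F₀ (ι → F) where
  carrier := {v | ∃ x : ι → F, (∀ i, x i ∈ F₀) ∧ v = (P : Matrix ι ι F) *ᵥ x}
  add_mem' := by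
    rintro _ _ ⟨x, hx, rfl⟩ ⟨y, hy, rfl⟩
    exact ⟨x + y, fun i => add_mem (hx i) (hy i), (mulVec_add _ _ _).symm⟩
  zero_mem' := ⟨0, fun _ => zero_mem _, by simp⟩
  smul_mem' := by
    rintro c _ ⟨x, hx, rfl⟩
    exact ⟨(c : F) • x, fun i => mul_mem c.2 (hx i), (mulVec_smul _ _ _).symm⟩

theorem single_mem_colS (P : GL ι F) (i : ι) :
    (P : Matrix ι ι F) *ᵥ Pi.single i 1 ∈ colS F₀ P :=
  ⟨_, fun j => by rw [Pi.single_apply]; split_ifs; exacts [one_mem _, zero_mem _], rfl⟩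

theorem eq_sum_col (P : GL ι F) (x : ι → F) :
    (P : Matrix ι ι F) *ᵥ x = ∑ i, x i • (P : Matrix ι ι F) *ᵥ Pi.single i 1 := by
  simp only [← mulVec_smul, ← mulVec_sum, ← Pi.single_smul', smul_eq_mul, mul_one,
    Finset.univ_sum_single]

theorem span_colS (P : GL ι F) : Submodule.span F (colS F₀ P : Set (ι → F)) = ⊤ :=
  eq_top_iff.2 fun v _ => by
    rw [← As.val_mulVec_inv_mulVec P v, eq_sum_col]
    exact sum_mem fun i _ => Submodule.smul_mem _ _ (Submodule.subset_span (single_mem_colS P i))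

theorem rl_colS (P : GL ι F) : RL (colS F₀ P) := ⟨span_colS P, fun φ => by
  refine ⟨(∑ i, (φ ⟨_, single_mem_colS P i⟩ : F) • LinearMap.proj i) ∘ₗ
    ((P⁻¹ : GL ι F) : Matrix ι ι F).mulVecLin, ?_⟩
  rintro ⟨_, x, hx, rfl⟩
  have h1 : (⟨_, x, hx, rfl⟩ : colS F₀ P) = ∑ i, (⟨x i, hx i⟩ : F₀) • ⟨_, single_mem_colS P i⟩ :=
    Subtype.ext (by rw [Submodule.coe_sum]; exact eq_sum_col P x)
  have h2 := congrArg φ h1
  simp only [map_sum, map_smul] at h2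
  rw [h2]
  simp only [LinearMap.comp_apply, mulVecLin_apply, As.val_inv_mulVec_mulVec]
  simp [mul_comm]⟩

theorem mem_subfieldSubgroup_iff_Mg [Finite F] {P g : GL ι F} :
    g ∈ subfieldSubgroup F₀ P ↔ glE ι F g ∈ Mg (colS F₀ P) := by
  rw [As.mem_subfieldSubgroup_iff]
  have h0 : ∀ (c : F) x, c • glE ι F g ((P : Matrix ι ι F) *ᵥ x) =
      (P : Matrix ι ι F) *ᵥ ((c • As.cj P⁻¹ (g : Matrix ι ι F)) *ᵥ x) := fun c x => by
    rw [As.cj_apply, inv_inv, smul_mulVec, mulVec_smul, ← mulVec_mulVec, ← mulVec_mulVec,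
      As.val_mulVec_inv_mulVec]; rfl
  constructor
  · rintro ⟨c, hc, h⟩
    refine mem_Mg_of hc ?_
    rintro _ ⟨x, hx, rfl⟩
    exact ⟨_, fun i => sum_mem fun j _ => mul_mem (h i j) (hx j), h0 c x⟩
  · rintro ⟨c, hc, h⟩
    refine ⟨c, hc, fun i j => ?_⟩
    obtain ⟨x, hx, h1⟩ := (h _).2 (single_mem_colS P j)
    have h2 := congrArg (fun v => (((P⁻¹ : GL ι F) : Matrix ι ι F) *ᵥ v) i) ((h0 c _).symm.trans h1)
    simp only [As.val_inv_mulVec_mulVec, mulVec_single_one, col_apply] at h2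
    exact h2 ▸ hx i

end Bridge

end H23.Sf
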