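import Cfsg.Agent.H23.As26

/-! Small exceptions: the Singer normaliser in `SL₃(4)`. -/

set_option autoImplicit false

namespace H23.As

open Matrix Module Cfsg Cfsg.Geo

variable {ι : Type} [Fintype ι] [DecidableEq ι] {F : Type*} [Field F]

/-- The prime field in characteristic two. -/
def F2 (h : (2 : F) = 0) : Subfield F where
  carrier := {x | x = 0 ∨ x = 1}
  mul_mem' := by rintro a b (rfl | rfl) (rfl | rfl) <;> simp
  one_mem' := .inr rfl
  add_mem' := by rintro a b (rfl | rfl) (rfl | rfl) <;> simp [one_add_one_eq_two, h]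
  zero_mem' := .inl rfl
  neg_mem' := by
    rintro a (rfl | rfl)
    · simp
    · exact .inr (by linear_combination -h)
  inv_mem' := by rintro a (rfl | rfl) <;> simp

theorem mem_F2 {h : (2 : F) = 0} {x : F} : x ∈ F2 h ↔ x = 0 ∨ x = 1 := Iff.rfl

theorem card_F2 (h : (2 : F) = 0) : Nat.card (F2 h) = 2 := by
  have : ((F2 h : Set F)) = {0, 1} := rfl
  rw [← SetLike.coe_sort_coe, this, Nat.card_coe_set_eq, Set.ncard_pair zero_ne_one]

theorem f8_cases {K : Type*} [Field K] (h2 : (2 : K) = 0) {l y : K} (hl : l ^ 3 = l + 1)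
    (hy : y ^ 8 = y) : ∃ a b c : K, (a = 0 ∨ a = 1) ∧ (b = 0 ∨ b = 1) ∧ (c = 0 ∨ c = 1) ∧
      y = a + b * l + c * l ^ 2 := by
  have h1 : y * (y - 1) * ((y - l) * (y - l ^ 2) * (y - (l + l ^ 2))) *
      ((y - (1 + l)) * (y - (1 + l ^ 2)) * (y - (1 + l + l ^ 2))) = 0 := by
    have e1 : (y - l) * (y - l ^ 2) * (y - (l + l ^ 2)) = y ^ 3 + y + 1 := by grind
    have e2 : (y - (1 + l)) * (y - (1 + l ^ 2)) * (y - (1 + l + l ^ 2)) = y ^ 3 + y ^ 2 + 1 := by
      grind
    rw [e1, e2]; grind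
  simp only [mul_eq_zero, sub_eq_zero] at h1
  rcases h1 with ((h | h) | (h | h) | h) | (h | h) | h
  exacts [⟨0, 0, 0, by simp [h]⟩, ⟨1, 0, 0, by simp [h]⟩, ⟨0, 1, 0, by simp [h]⟩,
    ⟨0, 0, 1, by simp [h]⟩, ⟨0, 1, 1, by simp [h]⟩, ⟨1, 1, 0, by simp [h]⟩,
    ⟨1, 0, 1, by simp [h]⟩, ⟨1, 1, 1, by simp [h]⟩]

theorem exists_omega [Fintype F] (hF : Fintype.card F = 4) : ∃ w : F, w ^ 2 + w + 1 = 0 := by
  classical
  obtain ⟨w, h0, h1⟩ : ∃ w : F, w ≠ 0 ∧ w ≠ 1 := by
    by_contra! hc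
    have : (Finset.univ : Finset F) ⊆ {0, 1} := fun c _ => by
      by_cases h7 : c = 0 <;> simp [h7, hc]
    have h8 := (Finset.card_le_card this).trans Finset.card_le_two
    rw [Finset.card_univ] at h8; omega
  have h3 := pow_card_pred (k := 3) hF h0
  exact ⟨w, mul_left_cancel₀ (sub_ne_zero.2 h1) (by linear_combination h3)⟩

theorem singer_four_aux [Fintype F] (hF : Fintype.card F = 4) (K : Type*) [Field K] [Algebra F K]
    [Fintype K] [Module K (Fin 3 → F)] [IsScalarTower F K (Fin 3 → F)] (hK : finrank F K = 3) :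
    ∃ (F₀ : Subfield F) (P : GL (Fin 3) F), Nat.card F₀ = 2 ∧ ∀ g ∈ specialLinear (Fin 3) F,
      (∀ y : K, ∃ z : K, ∀ w, (g : Matrix (Fin 3) (Fin 3) F) *ᵥ (y • w) =
        z • (g : Matrix (Fin 3) (Fin 3) F) *ᵥ w) → g ∈ subfieldSubgroup F₀ P := by
  have h2 : (2 : F) = 0 := two_eq_zero_of_even (by rw [hF]; decide)
  have h2' : (2 : K) = 0 := by rw [← map_ofNat (algebraMap F K) 2, h2, map_zero]
  have hc : Fintype.card K = 64 := by
    rw [Module.card_eq_pow_finrank (K := F), hK, hF]; rfl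
  have h4 : ∀ c : F, algebraMap F K c ^ 4 = algebraMap F K c := fun c => by
    rw [← map_pow, ← hF, FiniteField.pow_card]
  obtain ⟨l, hl⟩ : ∃ l : K, l ^ 3 = l + 1 := by
    classical
    have : Fact (Nat.Prime 7) := ⟨by norm_num⟩
    obtain ⟨u, hu⟩ := exists_prime_orderOf_dvd_card (G := Kˣ) 7 (by rw [Fintype.card_units, hc]; decide)
    have h5 : (u : K) ^ 7 = 1 := by rw [← Units.val_pow_eq_pow_val, ← hu, pow_orderOf_eq_one]; rfl
    have h6 : (u : K) - 1 ≠ 0 := fun h => by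
      rw [sub_eq_zero, Units.val_eq_one] at h; simp [h] at hu
    have h7 : ((u : K) ^ 3 + u + 1) * ((u : K) ^ 3 + u ^ 2 + 1) = 0 :=
      mul_left_cancel₀ h6 (by grind)
    rcases mul_eq_zero.1 h7 with h | h
    · exact ⟨u, by grind⟩
    · exact ⟨u + 1, by grind⟩
  let v : Fin 3 → F := Pi.single 0 1
  have hv : v ≠ 0 := by simp [v]
  let L : (Fin 3 → F) →ₗ[F] K :=
    ∑ i : Fin 3, (LinearMap.proj i : (Fin 3 → F) →ₗ[F] F).smulRight (l ^ (i : ℕ))
  have hL : ∀ x, L x = algebraMap F K (x 0) + algebraMap F K (x 1) * l +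
      algebraMap F K (x 2) * l ^ 2 := fun x => by simp [L, Fin.sum_univ_three, Algebra.smul_def]
  let S : K →ₗ[F] (Fin 3 → F) := (LinearMap.toSpanSingleton K _ v).restrictScalars F
  have hS : Function.Injective S := smul_left_injective K hv
  have hL' : Function.Injective L := (injective_iff_map_eq_zero _).2 fun x hx => by
    rw [hL] at hx
    have e0 := h4 (x 0)
    have e1 := h4 (x 1)
    have e2 := h4 (x 2)
    have hinj := (algebraMap F K).injective
    generalize h0 : algebraMap F K (x 0) = a at *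
    generalize h1 : algebraMap F K (x 1) = b at *
    generalize h3 : algebraMap F K (x 2) = c at *
    have f1 : a + b * l ^ 4 + c * l = 0 := by
      have := congrArg (· ^ 4) hx; grind
    have f2 : a + b * l ^ 2 + c * l ^ 4 = 0 := by
      have := congrArg (· ^ 4) f1; grind
    have : a = 0 ∧ b = 0 ∧ c = 0 := by grind
    ext i
    fin_cases i
    exacts [hinj (by simp [h0, this.1]), hinj (by simp [h1, this.2.1]),
      hinj (by simp [h3, this.2.2])]
  obtain ⟨P, hP⟩ := exists_GL_of_equiv (LinearEquiv.ofInjectiveEndo (S ∘ₗ L) (hS.comp hL'))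
    (Equiv.refl _)
  replace hP : ∀ x, (P : Matrix (Fin 3) (Fin 3) F) *ᵥ x = L x • v := hP
  have key : ∀ X : Matrix (Fin 3) (Fin 3) F, (∀ y : K, y ^ 8 = y → ∃ y' : K, y' ^ 8 = y' ∧
      X *ᵥ (y • v) = y' • v) → Rat (F2 h2) (cj P⁻¹ X) := fun X hX i j => by
    obtain ⟨y, h5, h6⟩ := hX (L (Pi.single j 1)) (by
      rw [hL]; fin_cases j <;> simp <;> grind)
    obtain ⟨x, h7, h8⟩ : ∃ x : Fin 3 → F, (∀ i, x i ∈ F2 h2) ∧ y = L x := by
      obtain ⟨a, b, c, ha, hb, hc, rfl⟩ := f8_cases h2' hl h5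
      have : ∀ a : K, (a = 0 ∨ a = 1) → ∃ x ∈ F2 h2, a = algebraMap F K x := by
        rintro a (rfl | rfl)
        exacts [⟨0, zero_mem _, by simp⟩, ⟨1, one_mem _, by simp⟩]
      obtain ⟨a, ha, rfl⟩ := this a ha
      obtain ⟨b, hb, rfl⟩ := this b hb
      obtain ⟨c, hc, rfl⟩ := this c hc
      exact ⟨![a, b, c], fun i => by fin_cases i <;> simpa, by simp [hL]⟩
    rw [h8, ← hP, ← hP] at h6
    have h9 := congrArg (fun w => (((P⁻¹ : GL (Fin 3) F) : Matrix (Fin 3) (Fin 3) F) *ᵥ w) i) h6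
    simp only [val_inv_mulVec_mulVec] at h9
    rw [mulVec_mulVec, mulVec_mulVec, mulVec_single_one, col_apply] at h9
    rw [cj_apply, inv_inv, h9]
    exact h7 i
  refine ⟨F2 h2, P, card_F2 h2, fun g hg hg' => ?_⟩
  obtain ⟨a, ha⟩ : ∃ a : K, (g : Matrix (Fin 3) (Fin 3) F) *ᵥ v = a • v :=
    ⟨L _, by rw [← hP, val_mulVec_inv_mulVec]⟩
  have ha0 : a ≠ 0 := fun h => hv (by
    rw [← val_inv_mulVec_mulVec g v, ha, h, zero_smul, mulVec_zero])
  have h63 : a ^ 63 = 1 := pow_card_pred hc ha0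
  obtain ⟨b, hb⟩ : ∃ b : K, b = a ^ 35 := ⟨_, rfl⟩
  have hb0 : b ≠ 0 := by simp [hb, ha0]
  let M : Matrix (Fin 3) (Fin 3) F :=
    LinearMap.toMatrix' ((b • (LinearMap.id : (Fin 3 → F) →ₗ[K] _)).restrictScalars F)
  have hM : ∀ w, M *ᵥ w = b • w := fun w => by simp [M, LinearMap.toMatrix'_mulVec]
  have h5 := key (M * g) fun y hy => by
    obtain ⟨z, hz⟩ := hg' y
    have h6 : ∀ n : ℕ, (g : Matrix (Fin 3) (Fin 3) F) *ᵥ (y ^ n • v) = (z ^ n * a) • v := by
      intro n
      induction n with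
      | zero => simpa using ha
      | succ n ih => rw [pow_succ', mul_smul, hz, ih, smul_smul, pow_succ', mul_assoc]
    have h7 := h6 8
    rw [hy, hz, ha, smul_smul] at h7
    refine ⟨z * (b * a), ?_, ?_⟩
    · rw [mul_pow, ← mul_right_cancel₀ ha0 (smul_left_injective K hv h7), hb, ← pow_succ, ← pow_mul,
        show (35 + 1) * 8 = 63 * 4 + (35 + 1) by rfl, pow_add, pow_mul, h63, one_pow, one_mul]
    · rw [← mulVec_mulVec, hz, ha, hM, smul_smul, smul_smul]
      exact congrArg (· • v) (by ring)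
  have h6 := h5.det
  have hd : (g : Matrix (Fin 3) (Fin 3) F).det = 1 := by
    simpa using congrArg Units.val (show Matrix.GeneralLinearGroup.det g = 1 from hg)
  have hd' : M.det = Algebra.norm F b := by
    have h1 := finrank_mul_finrank F K (Fin 3 → F)
    rw [hK, finrank_fintype_fun_eq_card, Fintype.card_fin] at h1
    rw [LinearMap.det_toMatrix', LinearMap.det_restrictScalars, LinearMap.det_smul,
      show finrank K (Fin 3 → F) = 1 by omega, LinearMap.det_id, pow_one, mul_one]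
  rw [cj_apply, inv_inv, det_units_conj', det_mul, hd, mul_one, hd'] at h6
  have h7 := FiniteField.algebraMap_norm_eq_pow (K := F) (x := b)
  rw [Nat.card_eq_fintype_card, Nat.card_eq_fintype_card, hc, hF] at h7
  obtain ⟨w, hw⟩ := exists_omega hF
  obtain ⟨c, h8⟩ : ∃ c : F, b = algebraMap F K c := by
    have h9 : b ^ 3 = 1 := by
      rcases h6 with h6 | h6
      · rw [h6, map_zero] at h7; exact absurd h7.symm (by simp [hb0])
      · rw [h6, map_one] at h7
        have : b ^ 9 = 1 := by rw [hb, ← pow_mul, show 35 * 9 = 63 * 5 by rfl, pow_mul, h63, one_pow]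
        norm_num at h7
        grind
    have hw' := congrArg (algebraMap F K) hw
    simp only [map_add, map_pow, map_one, map_zero] at hw'
    have : (b - 1) * (b - algebraMap F K w) * (b - algebraMap F K w ^ 2) = 0 := by
      clear hb; grind
    simp only [mul_eq_zero, sub_eq_zero] at this
    rcases this with (h | h) | h
    exacts [⟨1, by simp [h]⟩, ⟨w, h⟩, ⟨w ^ 2, by simp [h]⟩]
  refine mem_subfieldSubgroup_iff.2 ⟨c, fun h => ?_, ?_⟩
  · simp [h, hb0] at h8
  · rwa [show M = c • 1 from ext_mulVec fun w => by simp [hM, h8, smul_mulVec], smul_mul_assoc,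
      one_mul, map_smul] at h5

theorem singer_four [Fintype F] (hF : Fintype.card F = 4)
    {K : Subalgebra F (Matrix (Fin 3) (Fin 3) F)} (hK : IsFieldSubalgebra 3 K) :
    ∃ (F₀ : Subfield F) (P : GL (Fin 3) F), Nat.card F₀ = 2 ∧
      subalgebraNormalizer K ⊓ specialLinear (Fin 3) F ≤ subfieldSubgroup F₀ P := by
  letI := (IsFieldSubalgebra.isField hK).toField
  have : Finite K := Subtype.finite
  have := Fintype.ofFinite K
  obtain ⟨F₀, P, h1, h2⟩ := singer_four_aux hF K hK.finrank_eq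
  exact ⟨F₀, P, h1, fun g hg => h2 g hg.2 fun y => ⟨⟨_, (hg.1 _).1 y.2⟩, fun w =>
    (cj_mulVec g y w).symm⟩⟩

end H23.As
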