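import Cfsg.Agent.H23.Sm1
import Cfsg.Agent.H22.IsoE

/-! Small exceptions: stabilisers of relations, frames in dimension four. -/

set_option autoImplicit false

namespace H23.As

open Matrix Module Cfsg Cfsg.Geo

variable {ι : Type} [Fintype ι] [DecidableEq ι] {F : Type*} [Field F]

/-- The stabiliser of a relation on vectors. -/
def relS (X : (ι → F) → (ι → F) → Prop) : Subgroup (GL ι F) where
  carrier := {g | ∀ u v, X ((g : Matrix ι ι F) *ᵥ u) ((g : Matrix ι ι F) *ᵥ v) ↔ X u v}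
  mul_mem' {a b} ha hb u v := by
    rw [Units.val_mul, ← mulVec_mulVec, ← mulVec_mulVec, ha, hb]
  one_mem' u v := by simp
  inv_mem' {a} ha u v := by rw [← ha, val_mulVec_inv_mulVec, val_mulVec_inv_mulVec]

theorem mem_relS_of [Finite F] {X : (ι → F) → (ι → F) → Prop} {g : GL ι F}
    (h : ∀ u v, X u v → X ((g : Matrix ι ι F) *ᵥ u) ((g : Matrix ι ι F) *ᵥ v)) : g ∈ relS X := by
  have key : ∀ n u v, X u v → X (((g ^ n : GL ι F) : Matrix ι ι F) *ᵥ u)
      (((g ^ n : GL ι F) : Matrix ι ι F) *ᵥ v) := fun n => by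
    induction n with
    | zero => simp
    | succ n ih =>
      intro u v huv
      rw [pow_succ', Units.val_mul, ← mulVec_mulVec, ← mulVec_mulVec]
      exact h _ _ (ih u v huv)
  refine fun u v => ⟨fun h1 => ?_, h u v⟩
  have := key (orderOf g - 1) _ _ h1
  rwa [mulVec_mulVec, mulVec_mulVec, ← Units.val_mul, ← pow_succ,
    Nat.sub_add_cancel (orderOf_pos g), pow_orderOf_eq_one, Units.val_one, one_mulVec,
    one_mulVec] at this

theorem IsMaximalIn.false_of {Γ : Type*} [Group Γ] {S H M : Subgroup Γ} (h : IsMaximalIn S H)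
    (h1 : H ≤ M) (h2 : ¬ S ≤ M) {g : Γ} (hg : g ∈ S) (hM : g ∈ M) (hH : g ∉ H) : False :=
  hH (IsMaximalIn.eq_inf h h1 h2 ▸ ⟨hM, hg⟩)

variable {κ : Type} [Fintype κ] [DecidableEq κ]

/-- A relation in coordinates. -/
def relC (e : ι ≃ κ) (P : GL ι F) (X : (κ → F) → (κ → F) → Prop) (u v : ι → F) : Prop :=
  ∃ x y, X x y ∧ u = (P : Matrix ι ι F) *ᵥ (x ∘ e) ∧ v = (P : Matrix ι ι F) *ᵥ (y ∘ e)

variable {e : ι ≃ κ} {P g : GL ι F} {X : (κ → F) → (κ → F) → Prop} {Y : Matrix κ κ F}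

theorem mem_relS_tr [Finite F] (hg : (g : Matrix ι ι F) = tr e P Y)
    (h : ∀ x y, X x y → X (Y *ᵥ x) (Y *ᵥ y)) : g ∈ relS (relC e P X) :=
  mem_relS_of <| by
    rintro _ _ ⟨x, y, h1, rfl, rfl⟩
    exact ⟨_, _, h x y h1, by rw [hg, tr_mulVec], by rw [hg, tr_mulVec]⟩

theorem rel_of_mem_relS (hg : (g : Matrix ι ι F) = tr e P Y) (h : g ∈ relS (relC e P X))
    {x y : κ → F} (h1 : X x y) : X (Y *ᵥ x) (Y *ᵥ y) := by
  obtain ⟨x', y', h2, h3, h4⟩ := (h _ _).2 ⟨x, y, h1, rfl, rfl⟩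
  rw [hg, tr_mulVec] at h3 h4
  rwa [coord_inj e P h3, coord_inj e P h4]

theorem exists_trG (e : ι ≃ κ) (P : GL ι F) (hY : Y.det ≠ 0) :
    ∃ g : GL ι F, (g : Matrix ι ι F) = tr e P Y :=
  ⟨trG e P (Matrix.GeneralLinearGroup.mkOfDetNeZero Y hY), rfl⟩

theorem mem_SL_iff : g ∈ specialLinear ι F ↔ (g : Matrix ι ι F).det = 1 :=
  ⟨fun h => by simpa using congrArg Units.val (show Matrix.GeneralLinearGroup.det g = 1 from h),
    fun h => Units.ext h⟩

theorem TrF.mem_Iso {σ : F →+* F} {B : Matrix ι ι F} {B₀ : Matrix κ κ F} (h : TrF σ e P B B₀)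
    (hg : (g : Matrix ι ι F) = tr e P Y) :
    g ∈ Iso (formOfGram σ B) ↔ Yᵀ * B₀ * Y.map σ = B₀ := by
  rw [mem_Iso_fog, hg]; exact (h.mul Y Y).eq_iff h

/-- Monomial matrices. -/
def mono (a : κ → F) (s : Equiv.Perm κ) : Matrix κ κ F := (diagonal a).submatrix s.symm id

theorem mono_mulVec (a : κ → F) (s : Equiv.Perm κ) (x : κ → F) (i : κ) :
    (mono a s *ᵥ x) (s i) = a i * x i := by
  simp [mono, mulVec, dotProduct, diagonal_apply]

theorem det_mono (a : κ → F) (s : Equiv.Perm κ) :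
    (mono a s).det = ((Equiv.Perm.sign s : ℤ) : F) * ∏ i, a i := by
  rw [mono, det_permute, det_diagonal, Equiv.Perm.sign_symm]

theorem mono_conj {σ : F →+* F} {a : κ → F} {s : Equiv.Perm κ}
    (h : (mono a s)ᵀ * 1 * (mono a s).map σ = 1) (i : κ) : a i * σ (a i) = 1 := by
  have := congrFun (congrFun h i) i
  rw [mul_one, mul_apply, ← Equiv.sum_comp s] at this
  simpa [mono, diagonal_apply, apply_ite σ] using this

theorem exists_frame {t : ℕ} {D : Fin t → Submodule F (ι → F)} (hD : IsMDecomposition 1 D)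
    (b : ∀ i, Basis (Fin 1) F (D i)) : ∃ (e : ι ≃ Fin t) (P : GL ι F),
      (∀ i, (P : Matrix ι ι F) *ᵥ ((Pi.single i 1 : Fin t → F) ∘ e) = b i 0) ∧
      ∀ g ∈ decompositionStabilizer D, ∃ s a, (g : Matrix ι ι F) = tr e P (mono a s) := by
  obtain ⟨e, P, hc, h1⟩ := exists_decC_of_basis hD b
  refine ⟨e.trans (Equiv.uniqueProd _ _), P, fun i => ?_, fun g hg => ?_⟩
  · rw [← h1]; congr 1; ext j
    obtain ⟨⟨k, l⟩, rfl⟩ := e.symm.surjective j
    simp [Pi.single_apply, Subsingleton.elim k 0]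
  · obtain ⟨s, a, ha⟩ := hc.exists_blkM hg
    refine ⟨s, fun i => (a i : Matrix (Fin 1) (Fin 1) F) 0 0, ha.trans ?_⟩
    rw [tr_apply, tr_apply]; congr 1; ext j j'
    obtain ⟨⟨k, l⟩, rfl⟩ := e.symm.surjective j
    obtain ⟨⟨k', l'⟩, rfl⟩ := e.symm.surjective j'
    simp only [blkM_apply, mono, diagonal_apply, Subsingleton.elim k 0, Subsingleton.elim k' 0,
      submatrix_apply, Equiv.apply_symm_apply, Equiv.trans_apply, Equiv.uniqueProd_apply, id,
      Equiv.symm_apply_eq]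
    split_ifs with h
    · simp [h]
    · rfl

theorem exists_frame_herm [Finite F] {σ : F →+* F} {B : Matrix ι ι F} (hF : FD σ B 1)
    (hσ : σ ≠ RingHom.id F) {t : ℕ} {D : Fin t → Submodule F (ι → F)}
    (hD : IsNondegenerateMDecomposition (formOfGram σ B) 1 D) :
    ∃ (e : ι ≃ Fin t) (P : GL ι F), TrF σ e P B 1 ∧
      ∀ g ∈ decompositionStabilizer D, ∃ s a, (g : Matrix ι ι F) = tr e P (mono a s) := by
  choose b hb using fun i => exists_orthonormal_of_nondeg hF hσ (hD.nondegenerate i)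
    (hD.decomp.finrank_eq i)
  obtain ⟨e, P, h1, h2⟩ := exists_frame hD.decomp b
  obtain ⟨B₀, h3⟩ := exists_trF_right σ e P B
  refine ⟨e, P, ?_, h2⟩
  convert h3
  ext i j
  rw [← fog_single (σ := σ) B₀, ← h3, h1, h1, one_apply]
  split_ifs with h
  · subst h; simp [hb]
  · exact (hD.orthogonal i j h _ (b i 0).2 _ (b j 0).2).symm

theorem not_mono {a : κ → F} {s : Equiv.Perm κ} (h : tr e P Y = tr e P (mono a s)) {i j k : κ}
    (hij : i ≠ j) (hi : Y i k ≠ 0) (hj : Y j k ≠ 0) : False := by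
  rw [(tr e P).injective h] at hi hj
  simp only [mono, submatrix_apply, diagonal_apply, id, ne_eq, ite_eq_right_iff, not_forall] at hi hj
  exact hij (s.symm.injective (hi.1.trans hj.1.symm))

/-- The sixty points. -/
def X4 {R : Type*} [CommRing R] (x : Fin 4 → R) : Prop :=
  (∀ i j, x i * x j * (x i ^ 4 - x j ^ 4) = 0) ∧ (∀ i, x i = 0 → ∏ j ∈ Finset.univ.erase i, x j = 0) ∧
    (∏ i, x i) ^ 2 * ((∏ i, x i) ^ 2 - 1) = 0

instance {R : Type*} [CommRing R] [DecidableEq R] (x : Fin 4 → R) : Decidable (X4 x) := by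
  unfold X4; infer_instance

theorem x4_map {R S : Type*} [CommRing R] [CommRing S] (φ : R ≃+* S) (x : Fin 4 → R) :
    X4 (φ ∘ x) ↔ X4 x := by
  simp only [X4, Function.comp, ← map_pow, ← map_sub, ← map_mul, ← map_prod, ← map_one φ,
    map_eq_zero_iff φ φ.injective]

/-- A Hadamard matrix. -/
def had (R : Type*) [CommRing R] : Matrix (Fin 4) (Fin 4) R :=
  !![1, 1, 1, 1; 1, -1, 1, -1; 1, 1, -1, -1; 1, -1, -1, 1]

theorem x4_mono {a : Fin 4 → F} {s : Equiv.Perm (Fin 4)} (h1 : ∀ i, a i ^ 4 = 1)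
    (h2 : (mono a s).det = 1) {x : Fin 4 → F} (h : X4 x) : X4 (mono a s *ᵥ x) := by
  have h3 : (∏ i, a i) ^ 2 = 1 := by
    rw [det_mono] at h2
    rcases Int.units_eq_one_or (Equiv.Perm.sign s) with h | h <;> simp [h] at h2
    · simp [h2]
    · rw [← neg_sq, h2, one_pow]
  have h0 : ∀ i, a i ≠ 0 := fun i h => by simpa [h] using h1 i
  refine ⟨fun i j => ?_, fun i hi => ?_, ?_⟩
  · obtain ⟨i, rfl⟩ := s.surjective i
    obtain ⟨j, rfl⟩ := s.surjective j
    simp only [mono_mulVec, mul_pow, h1]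
    linear_combination a i * a j * h.1 i j
  · obtain ⟨i, rfl⟩ := s.surjective i
    rw [mono_mulVec, mul_eq_zero, or_iff_right (h0 i)] at hi
    obtain ⟨j, hj, h4⟩ := Finset.prod_eq_zero_iff.1 (h.2.1 i hi)
    exact Finset.prod_eq_zero (i := s j) (by simpa using hj) (by rw [mono_mulVec, h4, mul_zero])
  · rw [← Equiv.prod_comp s]
    simp only [mono_mulVec, Finset.prod_mul_distrib, mul_pow, h3, one_mul]
    exact h.2.2

theorem x4_had_of {K : Type*} [Field K] (φ : F ≃+* K) {c : F}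
    (h : ∀ x : Fin 4 → K, X4 x → X4 ((φ c • had K) *ᵥ x)) {x : Fin 4 → F} (hx : X4 x) :
    X4 ((c • had F) *ᵥ x) := by
  rw [← x4_map φ] at hx ⊢
  convert h _ hx using 1
  ext i
  fin_cases i <;> simp [had, mulVec, dotProduct, Fin.sum_univ_four]

theorem frame4_false [Finite F] {S H : Subgroup (GL ι F)} (hH : IsMaximalIn S H) {e : ι ≃ Fin 4}
    (h1 : ∀ g ∈ H, ∃ s a, (g : Matrix ι ι F) = tr e P (mono a s) ∧ (∀ i, a i ^ 4 = 1) ∧
      (mono a s).det = 1) {c : F} (hc : c ≠ 0) (h2 : ∀ x, X4 x → X4 ((c • had F) *ᵥ x))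
    (h3 : ∃ g ∈ S, (g : Matrix ι ι F) = tr e P (c • had F))
    (h4 : ∃ g ∈ S, ∃ Y, (g : Matrix ι ι F) = tr e P Y ∧ Y 3 0 = 0 ∧ Y 0 0 * Y 1 0 * Y 2 0 ≠ 0) :
    False := by
  obtain ⟨g, hg, h5⟩ := h3
  refine IsMaximalIn.false_of hH (M := relS (relC e P fun x _ => X4 x)) (fun k hk => ?_)
    (fun hle => ?_) hg (mem_relS_tr h5 fun x _ => h2 x) fun h6 => ?_
  · obtain ⟨s, a, h6, h7, h8⟩ := h1 k hk
    exact mem_relS_tr h6 fun x _ => x4_mono h7 h8
  · obtain ⟨k, hk, Y, h6, h7, h8⟩ := h4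
    have := (rel_of_mem_relS h6 (hle hk) (x := Pi.single 0 1) (y := 0) (by
      refine ⟨fun i j => ?_, fun i => ?_, ?_⟩
      · fin_cases i <;> fin_cases j <;> simp
      · intro hi
        obtain ⟨j, h1, h2⟩ : ∃ j : Fin 4, j ≠ i ∧ j ≠ 0 := by clear hi; revert i; decide
        exact Finset.prod_eq_zero (i := j) (by simpa) (by simp [h2])
      · simp [Fin.prod_univ_four])).2.1 3 (by simpa using h7)
    rw [show Finset.univ.erase (3 : Fin 4) = {0, 1, 2} by decide] at this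
    simp [mul_assoc] at this h8
    tauto
  · obtain ⟨s, a, h7, -⟩ := h1 g h6
    exact not_mono (h5.symm.trans h7) (i := 0) (j := 1) (k := 0) (by decide) (by simpa [had])
      (by simpa [had])

theorem det_had : (had F).det = 16 := by
  simp [had, det_succ_row_zero, Fin.sum_univ_succ, Fin.succAbove]; norm_num

theorem x4_had_five : ∀ x : Fin 4 → ZMod 5, X4 x → X4 (((3 : ZMod 5) • had (ZMod 5)) *ᵥ x) := by
  decide +kernel

theorem frame_SL4_five [Fintype F] (hF : Fintype.card F = 5) {D : Fin 4 → Submodule F (ι → F)}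
    (hD : IsMDecomposition 1 D) :
    ¬ IsMaximalIn (specialLinear ι F) (decompositionStabilizer D ⊓ specialLinear ι F) := fun hH => by
  have : Fact (Nat.Prime 5) := ⟨by norm_num⟩
  obtain ⟨e, P, -, h1⟩ := exists_frame hD fun i => finBasisOfFinrankEq F _ (hD.finrank_eq i)
  have h5 : (5 : F) = 0 := by simpa [hF] using FiniteField.cast_card_eq_zero F
  have hd : ((3 : F) • had F).det = 1 := by
    rw [det_smul, det_had, Fintype.card_fin]; linear_combination 259 * h5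
  refine frame4_false hH (e := e) (P := P) (fun g hg => ?_) (c := 3)
    (fun h => one_ne_zero (by linear_combination 2 * h - h5 : (1 : F) = 0))
    (fun x => x4_had_of (H22.zmodEquiv hF) (by rw [map_ofNat]; exact x4_had_five)) ?_ ?_
  · obtain ⟨s, a, h2⟩ := h1 g hg.1
    have h3 := mem_SL_iff.1 hg.2
    rw [h2, det_tr] at h3
    refine ⟨s, a, h2, fun i => pow_card_pred hF fun h => ?_, h3⟩
    rw [det_mono, Finset.prod_eq_zero (Finset.mem_univ i) h] at h3
    simp at h3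
  · obtain ⟨g, hg⟩ := exists_trG e P (hd.trans_ne one_ne_zero)
    exact ⟨g, mem_SL_iff.2 (by rw [hg, det_tr, hd]), hg⟩
  · have hd' : (!![1, 0, 0, 0; 1, 1, 0, 0; 1, 0, 1, 0; 0, 0, 0, 1] : Matrix (Fin 4) (Fin 4) F).det = 1 := by
      simp [det_succ_row_zero, Fin.sum_univ_succ, Fin.succAbove]
    obtain ⟨g, hg⟩ := exists_trG e P (hd'.trans_ne one_ne_zero)
    exact ⟨g, mem_SL_iff.2 (by rw [hg, det_tr, hd']), _, hg, by simp, by simp⟩

theorem planes_SL4_three [Fintype F] (hF : Fintype.card F = 3) {D : Fin 2 → Submodule F (ι → F)}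
    (hD : IsMDecomposition 2 D) : ∃ B : Matrix ι ι F, IsUnit B ∧ Alt B ∧
      decompositionStabilizer D ⊓ specialLinear ι F ≤ similarityGroup (fb B) := by
  obtain ⟨e, P, hc⟩ := exists_decC hD
  obtain ⟨B, hB⟩ := exists_trF_left (RingHom.id F) e P (blockDiagonal fun _ => J2 F)
  refine ⟨B, hB.isUnit_iff.2 (isUnit_blockDiagonal fun _ => isUnit_J2),
    hB.alt_iff.2 (alt_blockDiagonal fun _ => alt_J2), fun g hg => ?_⟩
  obtain ⟨s, a, ha⟩ := hc.exists_blkM hg.1
  have h1 := mem_SL_iff.1 hg.2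
  rw [ha, det_tr, det_blkM, ← Int.cast_pow, ← Units.val_pow_eq_pow_val, Int.units_sq,
    Fin.prod_univ_two] at h1
  have h2 := pow_card_pred hF (a 0).det_ne_zero
  refine hB.mem_sim ha (Matrix.GeneralLinearGroup.det (a 0)) ?_
  rw [blkM_conj, ← blockDiagonal_smul]
  congr 1; funext i
  have := J2_conj (a i : Matrix (Fin 2) (Fin 2) F)
  simp only [RingHom.coe_id, Matrix.map_id, this, Pi.smul_apply]
  congr 1
  fin_cases i
  · rfl
  · simp at h1 ⊢
    linear_combination (a 0).1.det * h1 - (a 1).1.det * h2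

end H23.As
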