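import Cfsg.Agent.H23.Sm2

/-! Small exceptions in `SU₄` and `Sp₄`. -/

set_option autoImplicit false

namespace H23.As

open Matrix Module Cfsg Cfsg.Geo

variable {ι : Type} [Fintype ι] [DecidableEq ι] {F : Type*} [Field F]

instance fact_gf9 : Fact (∀ r : ZMod 3, r ^ 2 ≠ -1 + 0 * r) := ⟨by decide⟩

/-- The field with nine elements. -/
abbrev GF9 : Type := QuadraticAlgebra (ZMod 3) (-1) 0

instance : Fintype GF9 := Fintype.ofEquiv _ (QuadraticAlgebra.equivProd (-1) 0).symm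

theorem card_GF9 : Fintype.card GF9 = 9 := rfl

theorem x4_smul {c : F} (hc : c ^ 8 = 1) {x : Fin 4 → F} (h : X4 x) : X4 (c • x) := by
  have h0 : c ≠ 0 := by rintro rfl; simp at hc
  refine ⟨fun i j => ?_, fun i hi => ?_, ?_⟩
  · simp only [Pi.smul_apply, smul_eq_mul]
    linear_combination c ^ 6 * h.1 i j
  · obtain ⟨j, hj, h4⟩ := Finset.prod_eq_zero_iff.1 (h.2.1 i (by simpa [h0] using hi))
    exact Finset.prod_eq_zero hj (by simp [h4])
  · have := h.2.2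
    simp only [Fin.prod_univ_four, Pi.smul_apply, smul_eq_mul] at this ⊢
    linear_combination c ^ 8 * this + c ^ 8 * (x 0 * x 1 * x 2 * x 3) ^ 4 * hc

set_option maxRecDepth 100000 in
theorem x4_had_nine_aux : ∀ a : GF9, a ^ 5 = a → ∀ b : GF9, b ^ 5 = b → ∀ c : GF9, c ^ 5 = c →
    ∀ d : GF9, d ^ 5 = d → X4 ![a, b, c, d] → X4 (((-1 : GF9) • had GF9) *ᵥ ![a, b, c, d]) := by
  decide +kernel

theorem x4_had_nine (x : Fin 4 → GF9) (h : X4 x) : X4 (((-1 : GF9) • had GF9) *ᵥ x) := by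
  by_cases h0 : x = 0
  · rw [h0, mulVec_zero]; exact h0 ▸ h
  obtain ⟨i, hi⟩ := Function.ne_iff.1 h0
  have h8 := pow_card_pred (k := 8) card_GF9 hi
  have h1 : ∀ j, ((x i)⁻¹ • x) j ^ 5 = ((x i)⁻¹ • x) j := fun j => by
    have := h.1 i j
    simp only [Pi.smul_apply, smul_eq_mul, Pi.zero_apply] at hi ⊢
    field_simp
    exact mul_left_cancel₀ hi (by linear_combination -this)
  have h2 := x4_smul (c := (x i)⁻¹) (by rw [inv_pow, h8, inv_one]) h
  generalize hy : (x i)⁻¹ • x = y at h1 h2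
  have h3 : y = ![y 0, y 1, y 2, y 3] := funext fun j => by fin_cases j <;> rfl
  have h4 := x4_smul h8 (x4_had_nine_aux _ (h1 0) _ (h1 1) _ (h1 2) _ (h1 3) (h3 ▸ h2))
  rwa [← h3, ← mulVec_smul, ← hy, smul_inv_smul₀ hi] at h4

theorem GU_eq_Iso [Fintype F] {q : ℕ} (hF : Fintype.card F = q ^ 2) (n : ℕ) :
    GU n F q = Iso (formOfGram (conj hF) 1) := by
  ext g; rw [mem_Iso, ← hermForm_eq hF]; rfl

theorem exists_skew {σ : F →+* F} (hσ : σ ≠ RingHom.id F) (h : ∀ a, σ (σ a) = a) :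
    ∃ c, c ≠ 0 ∧ σ c = -c := by
  obtain ⟨a, ha⟩ : ∃ a, σ a ≠ a := by
    by_contra! hc
    exact hσ (RingHom.ext hc)
  exact ⟨σ a - a, sub_ne_zero.2 ha, by rw [map_sub, h, neg_sub]⟩

theorem frame_SU4_three [Fintype F] (hF : Fintype.card F = 3 ^ 2)
    {D : Fin 4 → Submodule F (Fin 4 → F)}
    (hD : IsNondegenerateMDecomposition (hermForm 4 F 3) 1 D) :
    ¬ IsMaximalIn (GU 4 F 3 ⊓ specialLinear (Fin 4) F)
      (decompositionStabilizer D ⊓ (GU 4 F 3 ⊓ specialLinear (Fin 4) F)) := fun hH => by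
  rw [hermForm_eq hF] at hD
  rw [GU_eq_Iso hF] at hH
  obtain ⟨e, P, hT, h1⟩ := exists_frame_herm (fd_one hF) (conj_ne_id hF) hD
  have h3 : (3 : F) = 0 := cast_eq_zero_of_card (p := 3) hF
  have hd : ((-1 : F) • had F).det = 1 := by
    rw [det_smul, det_had, Fintype.card_fin]; linear_combination 5 * h3
  refine frame4_false hH (e := e) (P := P) (fun g hg => ?_) (c := -1) (by simp)
    (fun x => x4_had_of (FiniteField.ringEquivOfCardEq (hF.trans card_GF9.symm))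
      (by simpa using x4_had_nine)) ?_ ?_
  · obtain ⟨s, a, h2⟩ := h1 g hg.1
    refine ⟨s, a, h2, fun i => ?_, by rw [← mem_SL_iff.1 hg.2.2, h2, det_tr]⟩
    rw [← mono_conj ((hT.mem_Iso h2).1 hg.2.1) i, pow_succ']; rfl
  · obtain ⟨g, hg⟩ := exists_trG e P (hd.trans_ne one_ne_zero)
    refine ⟨g, ⟨(hT.mem_Iso hg).2 ?_, mem_SL_iff.2 (by rw [hg, det_tr, hd])⟩, hg⟩
    ext i j
    fin_cases i <;> fin_cases j <;> simp [had, mul_apply, Fin.sum_univ_four] <;> grind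
  · obtain ⟨c, h0, hc⟩ := exists_skew (conj_ne_id hF) (conj_conj hF)
    have hd' : (!![1 + c, c, c, 0; c, 1 + c, c, 0; c, c, 1 + c, 0; 0, 0, 0, 1] :
        Matrix (Fin 4) (Fin 4) F).det = 1 := by
      simp [det_succ_row_zero, Fin.sum_univ_succ, Fin.succAbove]; linear_combination c * h3
    obtain ⟨g, hg⟩ := exists_trG e P (hd'.trans_ne one_ne_zero)
    refine ⟨g, ⟨(hT.mem_Iso hg).2 ?_, mem_SL_iff.2 (by rw [hg, det_tr, hd'])⟩, _, hg, by simp, ?_⟩
    · generalize conj hF = σ at hc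
      ext i j
      fin_cases i <;> fin_cases j <;> simp [mul_apply, Fin.sum_univ_four, hc] <;>
        linear_combination -c ^ 2 * h3
    · have : 1 + c ≠ 0 := fun h => by
        rw [show c = -1 by linear_combination h, map_neg, map_one] at hc
        exact one_ne_zero (by linear_combination hc + h3 : (1 : F) = 0)
      simp [h0, this]

/-! ### Pairs of totally singular subspaces -/

/-- Coordinates adapted to a decomposition into two subspaces. -/
def Two {k : ℕ} (D : Fin 2 → Submodule F (ι → F)) (e : ι ≃ Fin k ⊕ Fin k) (P : GL ι F) : Prop :=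
  (∀ x, (P : Matrix ι ι F) *ᵥ (x ∘ e) ∈ D 0 ↔ ∀ l, x (.inr l) = 0) ∧
    ∀ x, (P : Matrix ι ι F) *ᵥ (x ∘ e) ∈ D 1 ↔ ∀ l, x (.inl l) = 0

variable {k : ℕ} {D : Fin 2 → Submodule F (ι → F)} {e : ι ≃ Fin k ⊕ Fin k} {P : GL ι F}

theorem exists_two (hD : IsMDecomposition k D) : ∃ (e : ι ≃ Fin k ⊕ Fin k) (P : GL ι F),
    Two D e P := by
  obtain ⟨e, P, h⟩ := exists_decC hD
  let u : Fin k × Fin 2 ≃ Fin k ⊕ Fin k :=
    ⟨fun p => if p.2 = 0 then .inl p.1 else .inr p.1, Sum.elim (·, 0) (·, 1),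
      by rintro ⟨a, b⟩; fin_cases b <;> simp, by rintro (a | a) <;> simp⟩
  exact ⟨e.trans u, P, fun x => (h 0 (x ∘ u)).trans (by simp [u, Fin.forall_fin_two]),
    fun x => (h 1 (x ∘ u)).trans (by simp [u, Fin.forall_fin_two])⟩

theorem Two.cases (h : Two D e P) {g : GL ι F} (hg : g ∈ decompositionStabilizer D) :
    ∃ a c : Matrix (Fin k) (Fin k) F, (g : Matrix ι ι F) = tr e P (fromBlocks a 0 0 c) ∨
      (g : Matrix ι ι F) = tr e P (fromBlocks 0 c a 0) := by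
  obtain ⟨Y, hY⟩ := (tr e P).surjective g
  have h0 : ∀ {i j}, (D i).map (toLin' (g : Matrix ι ι F)) = D j → ∀ x,
      (P : Matrix ι ι F) *ᵥ (x ∘ e) ∈ D i → (P : Matrix ι ι F) *ᵥ ((Y *ᵥ x) ∘ e) ∈ D j :=
    fun h1 x hx => by rw [← tr_mulVec, hY, ← h1]; exact ⟨_, hx, rfl⟩
  have h1 : ∀ l, (P : Matrix ι ι F) *ᵥ ((Pi.single (.inl l) 1 : _ → F) ∘ e) ∈ D 0 :=
    fun l => (h.1 _).2 (by simp)
  have h2 : ∀ l, (P : Matrix ι ι F) *ᵥ ((Pi.single (.inr l) 1 : _ → F) ∘ e) ∈ D 1 :=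
    fun l => (h.2 _).2 (by simp)
  rw [← hY, ← fromBlocks_toBlocks Y]
  rcases mem_decL_two.1 (mem_decompositionStabilizer_iff.1 hg) with ⟨h3, h4⟩ | ⟨h3, h4⟩
  · refine ⟨_, _, .inl (congrArg _ (fromBlocks_inj.2 ⟨rfl, ?_, ?_, rfl⟩))⟩ <;> ext i j
    · simpa [toBlocks₁₂] using (h.2 _).1 (h0 h4 _ (h2 j)) i
    · simpa [toBlocks₂₁] using (h.1 _).1 (h0 h3 _ (h1 j)) i
  · refine ⟨_, _, .inr (congrArg _ (fromBlocks_inj.2 ⟨?_, rfl, rfl, ?_⟩))⟩ <;> ext i j
    · simpa [toBlocks₁₁] using (h.2 _).1 (h0 h3 _ (h1 j)) i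
    · simpa [toBlocks₂₂] using (h.1 _).1 (h0 h4 _ (h2 j)) i

theorem exists_ts_coord {σ : F →+* F} {B : Matrix ι ι F} {ε : F} (hF : FD σ B ε)
    (hD : IsMDecomposition k D) (hT : ∀ i, IsTotallySingularFor (formOfGram σ B) (D i)) :
    ∃ (e : ι ≃ Fin k ⊕ Fin k) (P : GL ι F), Two D e P ∧
      TrF σ e P B (fromBlocks 0 1 (ε⁻¹ • 1) 0) := by
  obtain ⟨e, P, h⟩ := exists_two hD
  obtain ⟨B₀, hB⟩ := exists_trF_right σ e P B
  have h1 : B₀ = fromBlocks 0 B₀.toBlocks₁₂ B₀.toBlocks₂₁ 0 := by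
    rw [← fromBlocks_toBlocks B₀]
    refine fromBlocks_inj.2 ⟨?_, by simp, by simp, ?_⟩ <;> ext i j
    · exact (fog_single (σ := σ) B₀ _ _).symm.trans ((hB _ _).symm.trans
        (hT 0 _ ((h.1 _).2 (by simp)) _ ((h.1 _).2 (by simp))))
    · exact (fog_single (σ := σ) B₀ _ _).symm.trans ((hB _ _).symm.trans
        (hT 1 _ ((h.2 _).2 (by simp)) _ ((h.2 _).2 (by simp))))
  generalize B₀.toBlocks₁₂ = C, B₀.toBlocks₂₁ = C' at h1
  subst h1
  obtain ⟨Z, hZ⟩ := (hB.fd hF).unit.exists_right_inv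
  rw [← fromBlocks_toBlocks Z, fromBlocks_multiply, ← fromBlocks_one, fromBlocks_inj] at hZ
  have h2 : C * Z.toBlocks₂₁ = 1 := by simpa using hZ.1
  generalize Z.toBlocks₂₁ = N at h2
  have h3 : (fromBlocks 1 0 0 (N.map σ) : Matrix (Fin k ⊕ Fin k) (Fin k ⊕ Fin k) F).det ≠ 0 := by
    rw [det_fromBlocks_zero₂₁, det_one, one_mul, ← RingHom.mapMatrix_apply, ← RingHom.map_det,
      map_ne_zero]
    exact right_ne_zero_of_mul_eq_one (by rw [← det_mul, h2, det_one])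
  have h4 := hB.change (Matrix.GeneralLinearGroup.mkOfDetNeZero _ h3)
  have h5 : ∀ x, ((trG e P (Matrix.GeneralLinearGroup.mkOfDetNeZero _ h3) * P : GL ι F) :
      Matrix ι ι F) *ᵥ (x ∘ e) = (P : Matrix ι ι F) *ᵥ ((fromBlocks 1 0 0 (N.map σ) *ᵥ x) ∘ e) :=
    fun x => by rw [Units.val_mul, ← mulVec_mulVec, trG_val, tr_mulVec]; rfl
  refine ⟨e, trG e P (Matrix.GeneralLinearGroup.mkOfDetNeZero _ h3) * P,
    ⟨fun x => ?_, fun x => by rw [h5, h.2]; simp [fromBlocks_mulVec]⟩, ?_⟩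
  · rw [h5, h.1]
    simp only [fromBlocks_mulVec, zero_mulVec, zero_add, Sum.elim_inr]
    refine ⟨fun h6 l => ?_, fun h6 l => by rw [show x ∘ Sum.inr = 0 from funext h6]; simp⟩
    have := congrArg (C.map σ *ᵥ ·) (funext h6 : N.map σ *ᵥ (x ∘ Sum.inr) = 0)
    simp only [mulVec_mulVec, ← Matrix.map_mul, h2, mulVec_zero] at this
    simpa using congrFun this l
  · have h6 : gP σ (fromBlocks 0 C C' 0) (Matrix.GeneralLinearGroup.mkOfDetNeZero _ h3) =
        fromBlocks 0 1 ((N.map σ)ᵀ * C') 0 := by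
      simp [gP, fromBlocks_transpose, fromBlocks_map, fromBlocks_multiply, h2,
        show (N.map σ).map σ = N from by ext; simp [hF.invol]]
    rw [h6] at h4
    convert h4
    have h7 := (h4.fd hF).herm
    rw [fromBlocks_map, fromBlocks_transpose, fromBlocks_smul, fromBlocks_inj] at h7
    have h8 : ε • ((N.map σ)ᵀ * C') = 1 := by simpa using h7.2.2.1.symm
    rw [← h8, inv_smul_smul₀ hF.eps]

theorem J2_of_inv {a c : Matrix (Fin 2) (Fin 2) F} (h : aᵀ * c = 1) :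
    a * J2 F = a.det • (J2 F * c) := by
  rw [← smul_mul_assoc, ← det_transpose, ← J2_conj, transpose_transpose, Matrix.mul_assoc, h,
    Matrix.mul_one]

/-- The semilinear involution attached to a pair of totally singular planes. -/
def thM (F : Type*) [Field F] : Matrix (Fin 2 ⊕ Fin 2) (Fin 2 ⊕ Fin 2) F :=
  fromBlocks 0 (-J2 F) (J2 F) 0

theorem ts_comm {σ : F →+* F} (hσ : ∀ a, σ (σ a) = a) {ε : F} (hε : ε = 1 ∨ ε = -1)
    (hq : ∀ x, σ x = x → x ≠ 0 → x * x = 1) {a c : Matrix (Fin 2) (Fin 2) F}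
    (h : ε • (aᵀ * c.map σ) = 1) (hd : σ = RingHom.id F ∨ a.det * c.det = 1) :
    ∃ μ : F, μ * μ = 1 ∧ a * J2 F = μ • (J2 F * c.map σ) ∧ c * J2 F = μ • (J2 F * a.map σ) := by
  have h0 : ε * ε = 1 ∧ σ ε = ε := by rcases hε with rfl | rfl <;> simp
  have h1 : a.det * σ c.det = 1 := by
    have := congrArg det h
    rw [det_smul, det_mul, det_transpose, ← RingHom.mapMatrix_apply, ← RingHom.map_det, det_one,
      Fintype.card_fin] at this
    linear_combination this - a.det * σ c.det * h0.1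
  have h2 : σ c.det = c.det := by
    rcases hd with rfl | hd
    · rfl
    · exact mul_left_cancel₀ (left_ne_zero_of_mul_eq_one hd) (h1.trans hd.symm)
  rw [h2] at h1
  have h3 := hq _ h2 (right_ne_zero_of_mul_eq_one h1)
  have h4 : a.det = c.det := by linear_combination c.det * h1 - a.det * h3
  have h5 : cᵀ * (ε • a.map σ) = 1 := by
    have := congrArg (fun M => (M.map σ)ᵀ) h
    simp only [Matrix.map_smul' _ _ _ σ.map_mul, h0.2, Matrix.map_mul, transpose_smul, transpose_mul,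
      ← transpose_map, transpose_transpose, Matrix.map_one σ σ.map_zero σ.map_one,
      transpose_one] at this
    rw [Matrix.mul_smul, ← this]
    congr 2; ext; simp [hσ]
  refine ⟨c.det * ε, by linear_combination ε * ε * h3 + h0.1, ?_, ?_⟩
  · rw [J2_of_inv (c := ε • c.map σ) (by rw [Matrix.mul_smul, h]), Matrix.mul_smul, smul_smul, h4]
  · rw [J2_of_inv h5, Matrix.mul_smul, smul_smul]

theorem thM_inv {σ : F →+* F} {Y : Matrix (Fin 2 ⊕ Fin 2) (Fin 2 ⊕ Fin 2) F} {μ : F}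
    (hμ : μ * μ = 1) (h : Y * thM F = μ • (thM F * Y.map σ)) (x : Fin 2 ⊕ Fin 2 → F)
    (hx : ∃ ν : F, thM F *ᵥ (σ ∘ x) = ν • x) : ∃ ν : F, thM F *ᵥ (σ ∘ (Y *ᵥ x)) = ν • Y *ᵥ x := by
  obtain ⟨ν, hx⟩ := hx
  refine ⟨μ * ν, ?_⟩
  rw [comp_mulVec, mulVec_mulVec, mul_smul, ← mulVec_smul, ← hx, mulVec_mulVec, h, smul_mulVec,
    smul_smul, hμ, one_smul]

theorem ts_false [Finite F] {σ : F →+* F} {B : Matrix ι ι F} {ε : F} (hF : FD σ B ε)
    (hε : ε = 1 ∨ ε = -1) (hq : ∀ x, σ x = x → x ≠ 0 → x * x = 1) {c : F} (hc0 : c ≠ 0)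
    (hc : σ c = -ε * c) (hD : IsMDecomposition 2 D)
    (hT : ∀ i, IsTotallySingularFor (formOfGram σ B) (D i)) {S : Subgroup (GL ι F)}
    (h1 : S ≤ Iso (formOfGram σ B)) (h2 : σ = RingHom.id F ∨ S ≤ specialLinear ι F)
    (h3 : Iso (formOfGram σ B) ⊓ specialLinear ι F ≤ S) :
    ¬ IsMaximalIn S (decompositionStabilizer D ⊓ S) := fun hH => by
  obtain ⟨e, P, h4, h5⟩ := exists_ts_coord hF hD hT
  have h0 : ε * ε = 1 ∧ σ ε = ε ∧ ε⁻¹ = ε := by rcases hε with rfl | rfl <;> simp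
  rw [h0.2.2] at h5
  have h6 : ∀ Y : Matrix (Fin 2 ⊕ Fin 2) (Fin 2 ⊕ Fin 2) F, Y.det = 1 →
      Yᵀ * fromBlocks 0 1 (ε • 1) 0 * Y.map σ = fromBlocks 0 1 (ε • 1) 0 →
      ∃ g ∈ S, (g : Matrix ι ι F) = tr e P Y := fun Y h7 h8 => by
    obtain ⟨g, hg⟩ := exists_trG e P (h7.trans_ne one_ne_zero)
    exact ⟨g, h3 ⟨(h5.mem_Iso hg).2 h8, mem_SL_iff.2 (by rw [hg, det_tr, h7])⟩, hg⟩
  obtain ⟨g, hg, h7⟩ := h6 (fromBlocks !![1, -ε * c; 0, 1] !![c, 0; 0, 0] !![0, 0; 0, ε * c]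
    !![1, 0; -c, 1]) (by
      rw [← det_submatrix_equiv_self finSumFinEquiv.symm]
      simp [det_succ_row_zero, Fin.sum_univ_succ, Fin.succAbove, finSumFinEquiv, Fin.addCases])
    (by
      ext (i | i) (j | j) <;> fin_cases i <;> fin_cases j <;>
        simp [mul_apply, Fintype.sum_sum_type, hc, h0.2.1] <;> grind)
  refine IsMaximalIn.false_of hH (M := relS (relC e P fun x _ => ∃ ν : F, thM F *ᵥ (σ ∘ x) = ν • x))
    (fun k hk => ?_) (fun hle => ?_) hg (mem_relS_tr h7 fun x _ => thM_inv (μ := 1) (by simp) ?_ x)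
    fun h8 => ?_
  · obtain ⟨a, b, h8 | h8⟩ := h4.cases hk.1
    · have h9 := (h5.mem_Iso h8).1 (h1 hk.2)
      simp only [fromBlocks_transpose, fromBlocks_map, fromBlocks_multiply, fromBlocks_inj] at h9
      obtain ⟨μ, h10, h11, h12⟩ := ts_comm hF.invol (.inl rfl) hq (a := a) (c := b)
        (by simpa using h9.2.1) (h2.imp_right fun h => by
          rw [← mem_SL_iff.1 (h hk.2), h8, det_tr, det_fromBlocks_zero₂₁])
      exact mem_relS_tr h8 fun x _ => thM_inv h10 (by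
        simp [thM, fromBlocks_map, fromBlocks_multiply, fromBlocks_smul, h11, h12]) x
    · have h9 := (h5.mem_Iso h8).1 (h1 hk.2)
      simp only [fromBlocks_transpose, fromBlocks_map, fromBlocks_multiply, fromBlocks_inj] at h9
      obtain ⟨μ, h10, h11, h12⟩ := ts_comm hF.invol hε hq (a := a) (c := b)
        (by simpa using h9.2.1) (h2.imp_right fun h => by
          rw [← mem_SL_iff.1 (h hk.2), h8, det_tr, ← det_submatrix_equiv_self finSumFinEquiv.symm]
          simp [det_succ_row_zero, Fin.sum_univ_succ, Fin.succAbove, finSumFinEquiv, Fin.addCases]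
          ring)
      exact mem_relS_tr h8 fun x _ => thM_inv (μ := -μ) (by simpa) (by
        simp [thM, fromBlocks_map, fromBlocks_multiply, fromBlocks_smul, fromBlocks_neg, h11, h12]) x
  · obtain ⟨k, hk, h8⟩ := h6 (fromBlocks 1 0 !![0, -ε; 1, 0] 1) (by simp) (by
      ext (i | i) (j | j) <;> fin_cases i <;> fin_cases j <;>
        simp [mul_apply, Fintype.sum_sum_type, h0.2.1, h0.1])
    obtain ⟨ν, h9⟩ := rel_of_mem_relS h8 (hle hk) (x := Sum.elim ![1, 0] ![0, -1]) (y := 0) ⟨1, by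
      ext (i | i) <;> fin_cases i <;> simp [thM, J2, mulVec, dotProduct, Fintype.sum_sum_type]⟩
    simpa [thM, J2, mulVec, dotProduct, Fintype.sum_sum_type] using congrFun h9 (.inr 1)
  · ext (i | i) (j | j) <;> fin_cases i <;> fin_cases j <;>
      simp [thM, J2, mul_apply, Fintype.sum_sum_type, hc, h0.2.1] <;> grind
  · obtain ⟨a, b, h9 | h9⟩ := h4.cases h8.1 <;>
      have := fromBlocks_inj.1 ((tr e P).injective (h7.symm.trans h9))
    · simpa [hc0] using congrFun (congrFun this.2.1 0) 0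
    · simpa using congrFun (congrFun this.1 0) 0

/-! ### The unitary group `GU₂(3)` in `Sp₄(3)` -/

/-- The standard alternating form on four coordinates. -/
def f4 {R : Type*} [CommRing R] (x y : Fin 4 → R) : R := x 0 * y 1 - x 1 * y 0 + x 2 * y 3 - x 3 * y 2

/-- The spread of ten lines. -/
def E4 {R : Type*} [CommRing R] (x y : Fin 4 → R) : Prop :=
  f4 x y ≠ 0 ∧ ((x ⬝ᵥ x ≠ 0 ∧ (x ⬝ᵥ x) * (y ⬝ᵥ y) = (x ⬝ᵥ y) ^ 2 + f4 x y ^ 2) ∨
    (x ⬝ᵥ x = 0 ∧ y ⬝ᵥ y = 0 ∧ x ⬝ᵥ y = 0))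

instance {R : Type*} [CommRing R] [DecidableEq R] (x y : Fin 4 → R) : Decidable (E4 x y) := by
  unfold E4; infer_instance

/-- An element of `2^(1+4).A₅`. -/
def g4 (R : Type*) [CommRing R] : Matrix (Fin 4) (Fin 4) R :=
  !![0, 0, 1, 1; 0, 0, 1, -1; 0, -1, 0, 0; 1, 0, 0, 0]

theorem e4_g4_aux : ∀ a b c d a' b' c' d' : ZMod 3, E4 ![a, b, c, d] ![a', b', c', d'] →
    E4 ![c + d, c - d, -b, a] ![c' + d', c' - d', -b', a'] := by decide +kernel

theorem e4_map {R S : Type*} [CommRing R] [CommRing S] (φ : R ≃+* S) (x y : Fin 4 → R) :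
    E4 (φ ∘ x) (φ ∘ y) ↔ E4 x y := by
  have h1 : ∀ x y : Fin 4 → R, (φ ∘ x) ⬝ᵥ (φ ∘ y) = φ (x ⬝ᵥ y) := fun x y => by simp [dotProduct]
  have h2 : f4 (φ ∘ x) (φ ∘ y) = φ (f4 x y) := by simp [f4]
  simp only [E4, h1, h2, ← map_pow, ← map_mul, ← map_add, ne_eq, map_eq_zero_iff φ φ.injective,
    φ.injective.eq_iff]

theorem e4_g4 [Fintype F] (hF : Fintype.card F = 3) (x y : Fin 4 → F) (h : E4 x y) :
    E4 (g4 F *ᵥ x) (g4 F *ᵥ y) := by
  have : Fact (Nat.Prime 3) := ⟨by norm_num⟩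
  rw [← e4_map (H22.zmodEquiv hF)] at h ⊢
  generalize H22.zmodEquiv hF = φ at h
  convert e4_g4_aux _ _ _ _ _ _ _ _ (show E4 ![φ (x 0), φ (x 1), φ (x 2), φ (x 3)]
    ![φ (y 0), φ (y 1), φ (y 2), φ (y 3)] by
      convert h using 1 <;> funext i <;> fin_cases i <;> rfl) using 1 <;> funext i <;>
    fin_cases i <;> simp [g4, mulVec, dotProduct, Fin.sum_univ_four, sub_eq_add_neg]

theorem exists_trF_of_gram {κ : Type} [Fintype κ] [DecidableEq κ] {σ : F →+* F} {B : Matrix ι ι F}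
    (e : ι ≃ κ) (w : κ → ι → F) {B₀ : Matrix κ κ F} (hB : B₀.det ≠ 0)
    (h : ∀ p p', formOfGram σ B (w p) (w p') = B₀ p p') : ∃ P : GL ι F, TrF σ e P B B₀ ∧
      ∀ p, (P : Matrix ι ι F) *ᵥ ((Pi.single p 1 : κ → F) ∘ e) = w p := by
  let M : Matrix ι ι F := Matrix.of fun i j => w (e j) i
  have h1 : ∀ j, M *ᵥ Pi.single j 1 = w (e j) := fun j => by ext i; simp [M]
  have h2 : Mᵀ * B * M.map σ = B₀.submatrix e e := by
    ext i j; rw [← fog_single (σ := σ) (Mᵀ * B * M.map σ), ← fog_mulVec, h1, h1, h]; rfl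
  have h3 : M.det ≠ 0 := fun h0 => hB (by
    rw [← det_submatrix_equiv_self e, ← h2, det_mul, det_mul, det_transpose, h0]; simp)
  refine ⟨Matrix.GeneralLinearGroup.mkOfDetNeZero M h3, fun x y => ?_, fun p => ?_⟩
  · rw [fog_mulVec, ← fog_submatrix e, ← h2]; rfl
  · rw [← e.apply_symm_apply p, ← h1]; congr 1; ext j; simp [Pi.single_apply, Equiv.eq_symm_apply]

theorem exists_unit_j [Fintype F] (hF : Fintype.card F = 3) {B j : Matrix ι ι F}
    (h : FD (RingHom.id F) B (-1)) (h1 : j * j = -1) (h2 : adj (RingHom.id F) B j = -j)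
    {W : Submodule F (ι → F)} (hW : Disjoint W (prp (RingHom.id F) B W)) (h0 : W ≠ ⊥)
    (hj : ∀ w ∈ W, j *ᵥ w ∈ W) : ∃ v ∈ W, formOfGram (RingHom.id F) B v (j *ᵥ v) = 1 := by
  have h3 : (3 : F) = 0 := by simpa [hF] using FiniteField.cast_card_eq_zero F
  have hs : ∀ u v, formOfGram (RingHom.id F) B u v = -formOfGram (RingHom.id F) B v u := 
    fun u v => (h.swap u v).trans (neg_one_mul _)
  have ha : ∀ u v, formOfGram (RingHom.id F) B (j *ᵥ u) v = -formOfGram (RingHom.id F) B u (j *ᵥ v) := fun u v => by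
    rw [h.fog_adj, h2, ← neg_one_smul F j, smul_mulVec, fog_smul_right]; simp
  have hjj : ∀ u, j *ᵥ (j *ᵥ u) = (-1 : F) • u := fun u => by simp [h1, neg_mulVec]
  obtain ⟨v, hv, h4⟩ : ∃ v ∈ W, formOfGram (RingHom.id F) B v (j *ᵥ v) ≠ 0 := by
    by_contra! hc
    obtain ⟨w, hw, hw0⟩ := (Submodule.ne_bot_iff W).1 h0
    refine hw0 (Submodule.disjoint_def.1 hW w hw fun u hu => ?_)
    have h5 := hc _ (W.add_mem hw (hj u hu))
    rw [mulVec_add, fog_add_left, fog_add_right, fog_add_right, hc w hw, hc _ (hj u hu), ha u,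
      hjj, hjj, fog_smul_right, fog_smul_right, hs u w] at h5
    simp only [RingHom.id_apply] at h5
    linear_combination h5 + formOfGram (RingHom.id F) B w u * h3
  have h5 := pow_card_pred hF h4
  rcases sq_eq_one_iff.1 h5 with h6 | h6
  · exact ⟨v, hv, h6⟩
  · refine ⟨v + j *ᵥ v, W.add_mem hv (hj v hv), ?_⟩
    have h7 := hs v v
    rw [mulVec_add, fog_add_left, fog_add_right, fog_add_right, ha, ha, hjj, mulVec_smul]
    simp only [fog_smul_right, RingHom.id_apply, h6]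
    linear_combination -h3

theorem exists_skew_gen [Nonempty ι] {B : Matrix ι ι F} {ε : F} (h : FD (RingHom.id F) B ε)
    (h2 : (2 : F) ≠ 0) {K : Subalgebra F (Matrix ι ι F)} (hK : IsFieldSubalgebra 2 K)
    (ha : IsAdjointClosedFor (fb B) K) (hs : ¬ IsSelfAdjointFor (fb B) K) :
    ∃ (j : Matrix ι ι F) (a : F), adj (RingHom.id F) B j = -j ∧ j * j = a • 1 ∧ ¬ IsSquare a ∧
      (∀ k, k ∈ K ↔ ∃ x y : F, k = x • 1 + y • j) ∧
      ∀ g ∈ similarityGroup (fb B), g ∈ subalgebraNormalizer K ↔ cj g j = j ∨ cj g j = -j := by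
  have hA : AC (RingHom.id F) B K := fun k hk =>
    let ⟨_, h1, h3⟩ := ha k hk; h.adj_eq h3 ▸ h1
  obtain ⟨k, hk, h1⟩ : ∃ k ∈ K, adj (RingHom.id F) B k ≠ k := by
    by_contra! hc
    exact hs (h.isSelfAdjointFor_iff.2 hc)
  have hj : k - adj (RingHom.id F) B k ∈ K := sub_mem hk (hA k hk)
  have h3 : adj (RingHom.id F) B (k - adj (RingHom.id F) B k) = -(k - adj (RingHom.id F) B k) := by
    rw [adj_sub, h.adj_adj, neg_sub]
  have h0 : k - adj (RingHom.id F) B k ≠ 0 := sub_ne_zero.2 h1.symm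
  generalize k - adj (RingHom.id F) B k = j at hj h3 h0
  have h4 : ∀ x y : F, adj (RingHom.id F) B (x • 1 + y • j) = x • 1 - y • j := fun x y => by
    simp [adj_add, adj_smul, h.adj_one, h3, sub_eq_add_neg]
  have h5 : ∀ x y : F, x • (1 : Matrix ι ι F) + y • j = 0 → x = 0 ∧ y = 0 := fun x y h5 => by
    have h6 := h4 x y
    rw [h5, adj_zero] at h6
    have h7 : (2 * y) • j = 0 := by linear_combination (norm := module) h5 + h6
    obtain rfl : y = 0 := by simpa [h0, h2] using h7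
    simpa using h5
  have h6 : ∀ k ∈ K, ∃ x y : F, k = x • 1 + y • j := fun k hk => by
    have h7 : LinearIndependent F ![(1 : K), ⟨j, hj⟩] :=
      LinearIndependent.pair_iff.2 fun x y h7 => h5 x y (congrArg Subtype.val h7)
    have h8 := (basisOfLinearIndependentOfCardEqFinrank h7 (by simp [hK.finrank_eq])).sum_repr ⟨k, hk⟩
    rw [Fin.sum_univ_two, coe_basisOfLinearIndependentOfCardEqFinrank] at h8
    exact ⟨_, _, (congrArg Subtype.val h8).symm⟩
  have h7 : ∀ k, k ∈ K ↔ ∃ x y : F, k = x • 1 + y • j := fun k => ⟨h6 k, by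
    rintro ⟨x, y, rfl⟩; exact add_mem (K.smul_mem (one_mem _) _) (K.smul_mem hj _)⟩
  have h8 : ∀ k ∈ K, ∀ c : F, c ≠ 0 → ∃ x y : F, k = x • 1 + y • j ∧
      (adj (RingHom.id F) B k = k → y = 0) ∧ (adj (RingHom.id F) B k = -k → x = 0) := by
    intro k hk _ _
    obtain ⟨x, y, rfl⟩ := h6 k hk
    refine ⟨x, y, rfl, fun e => ?_, fun e => ?_⟩ <;> rw [h4] at e
    · simpa [h2] using (h5 0 (2 * y) (by linear_combination (norm := module) -e)).2
    · simpa [h2] using (h5 (2 * x) 0 (by linear_combination (norm := module) e)).1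
  obtain ⟨a, b, h9, h10, -⟩ := h8 _ (mul_mem hj hj) 1 one_ne_zero
  obtain rfl := h10 (by rw [h.adj_mul, h3, neg_mul_neg])
  rw [zero_smul, add_zero] at h9
  refine ⟨j, a, h3, h9, ?_, h7, fun g hg => ⟨fun hg' => ?_, fun hg' => ?_⟩⟩
  · rintro ⟨r, rfl⟩
    obtain ⟨z, -, hz⟩ := hK.inv (r • 1 + (1 : F) • j) ((h7 _).2 ⟨_, _, rfl⟩) fun e => by simpa using (h5 _ _ e).2
    have : (r • (1 : Matrix ι ι F) + (-1 : F) • j) * (r • 1 + (1 : F) • j) = 0 := by
      simp only [add_mul, mul_add, smul_mul_smul_comm, one_mul, mul_one, h9]; module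
    have h11 := congrArg (· * z) this
    simp only [Matrix.mul_assoc, hz, Matrix.mul_one, Matrix.zero_mul] at h11
    simpa using (h5 _ _ h11).2
  · obtain ⟨x, y, h11, -, h12⟩ := h8 _ (nrm_normalizer K g hg' j hj) 1 one_ne_zero
    obtain rfl := h12 (by rw [h.adj_cj hg, h3, map_neg])
    rw [zero_smul, zero_add] at h11
    have h13 := congrArg (cj g) h9
    rw [map_mul, h11, map_smul, map_one, smul_mul_smul_comm, ← h9] at h13
    obtain ⟨z, -, hz⟩ := hK.inv j hj h0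
    have h14 := congrArg (fun w => w * z * z) h13
    simp only [smul_mul_assoc, Matrix.mul_assoc, hz, Matrix.mul_one] at h14
    have h15 : y * y = 1 := by
      have := (h5 (y * y - 1) 0 (by linear_combination (norm := module) h14)).1
      linear_combination this
    rcases mul_self_eq_one_iff.1 h15 with rfl | rfl <;> simp [h11]
  · have fwd : ∀ g : GL ι F, cj g j = j ∨ cj g j = -j → ∀ k ∈ K, cj g k ∈ K := fun g hg k hk => by
      obtain ⟨x, y, rfl⟩ := h6 k hk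
      rcases hg with e | e
      · exact (h7 _).2 ⟨x, y, by simp [e]⟩
      · exact (h7 _).2 ⟨x, -y, by simp [e]⟩
    have e : ∀ X, cj g⁻¹ (cj g X) = X := fun X => by rw [← cj_mul]; simp [cj_apply]
    refine fun k => ⟨fwd g hg' k, fun hk => e k ▸ fwd g⁻¹ ?_ _ hk⟩
    have e1 := e j
    rcases hg' with e' | e' <;> rw [e'] at e1
    · exact .inl e1
    · exact .inr (by rw [← neg_eq_iff_eq_neg, ← map_neg, e1])

theorem uni_Sp4_three [Fintype F] (hF : Fintype.card F = 3) {B : Matrix ι ι F} (hA : Alt B)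
    (hB : IsUnit B) (hn : Fintype.card ι = 4) {K : Subalgebra F (Matrix ι ι F)}
    (hK : IsFieldSubalgebra 2 K) (ha : IsAdjointClosedFor (fb B) K)
    (hs : ¬ IsSelfAdjointFor (fb B) K) :
    ¬ IsMaximalIn (Iso (fb B)) (subalgebraNormalizer K ⊓ Iso (fb B)) := fun hH => by
  have : Nonempty ι := Fintype.card_pos_iff.1 (by omega)
  have h3 : (3 : F) = 0 := by simpa [hF] using FiniteField.cast_card_eq_zero F
  have h := hA.fd hB
  obtain ⟨j, a, h1, h2, h4, -, h5⟩ := exists_skew_gen h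
    (fun e => one_ne_zero (by linear_combination h3 - e : (1 : F) = 0)) hK ha hs
  obtain rfl : a = -1 := by
    have := pow_card_pred hF (x := a) fun e => h4 (by simp [e])
    exact (sq_eq_one_iff.1 this).resolve_left fun e => h4 (by simp [e])
  rw [neg_one_smul] at h2
  have hs : ∀ u v, formOfGram (RingHom.id F) B u v = -formOfGram (RingHom.id F) B v u := hA.skew
  have ha : ∀ u v, formOfGram (RingHom.id F) B (j *ᵥ u) v = -formOfGram (RingHom.id F) B u (j *ᵥ v) :=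
    fun u v => by rw [h.fog_adj, h1, ← neg_one_smul F j, smul_mulVec, fog_smul_right]; simp
  have hjj : ∀ u, j *ᵥ (j *ᵥ u) = (-1 : F) • u := fun u => by simp [h2, neg_mulVec]
  have e3 : ∀ u, formOfGram (RingHom.id F) B u u = 0 := hA
  obtain ⟨u, -, hu⟩ := exists_unit_j hF h h2 h1 (W := ⊤) (by
    refine Submodule.disjoint_def.2 fun x _ hx => by_contra fun h0 => ?_
    obtain ⟨w, hw⟩ := exists_fog_right (σ := RingHom.id F) hB h0
    exact hw (hx w trivial)) top_ne_bot fun _ _ => trivial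
  have hd : Disjoint (Submodule.span F {u, j *ᵥ u})
      (prp (RingHom.id F) B (Submodule.span F {u, j *ᵥ u})) := Submodule.disjoint_def.2 fun x hx hx' => by
    obtain ⟨α, β, rfl⟩ := Submodule.mem_span_pair.1 hx
    have e1 := hx' u (Submodule.subset_span (by simp))
    have e2 := hx' (j *ᵥ u) (Submodule.subset_span (by simp))
    rw [fog_add_left, fog_smul_left, fog_smul_left] at e1 e2
    rw [hs (j *ᵥ u), hu, e3] at e1
    rw [hu, e3] at e2
    simp [show α = 0 by simpa using e2, show β = 0 by simpa using e1]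
  obtain ⟨v, hv, hv'⟩ := exists_unit_j hF h h2 h1 (h.disjoint_prp hd) (prp_ne_bot fun e => by
    classical
    have := (finrank_span_finset_le_card (R := F) {u, j *ᵥ u}).trans Finset.card_le_two
    rw [Set.finrank, Finset.coe_pair, e, finrank_top, finrank_fintype_fun_eq_card] at this
    omega) fun w hw x hx => by
      obtain ⟨α, β, rfl⟩ := Submodule.mem_span_pair.1 hx
      rw [ha, hw, neg_zero]
      rw [mulVec_add, mulVec_smul, mulVec_smul, hjj]
      exact Submodule.mem_span_pair.2 ⟨-β, α, by module⟩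
  have e1 := hv u (Submodule.subset_span (by simp))
  have e2 := hv (j *ᵥ u) (Submodule.subset_span (by simp))
  obtain ⟨P, hT, hP⟩ := exists_trF_of_gram (σ := RingHom.id F) (B := B)
    (Fintype.equivFinOfCardEq hn) ![u, j *ᵥ u, v, j *ᵥ v]
    (B₀ := !![0, 1, 0, 0; -1, 0, 0, 0; 0, 0, 0, 1; 0, 0, -1, 0])
    (by simp [det_succ_row_zero, Fin.sum_univ_succ, Fin.succAbove]) fun p p' => by
      fin_cases p <;> fin_cases p' <;>
        simp [-RingHom.coe_id, -neg_smul, e3, hu, hv', ha, hjj, hs u v, hs u (j *ᵥ v), fog_smul_right,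
          e1, e2]
  generalize Fintype.equivFinOfCardEq hn = e at hT hP
  have h6 : j = tr e P !![0, -1, 0, 0; 1, 0, 0, 0; 0, 0, 0, -1; 0, 0, 1, 0] := by
    refine eq_tr_of_forall fun x => ?_
    have h7 : ∀ x : Fin 4 → F, (P : Matrix ι ι F) *ᵥ (x ∘ e) =
        x 0 • u + x 1 • j *ᵥ u + x 2 • v + x 3 • j *ᵥ v := fun x => by
      have : x ∘ e = ∑ p, x p • ((Pi.single p 1 : Fin 4 → F) ∘ e) := by
        ext i; simp [Pi.single_apply]
      rw [this, mulVec_sum]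
      simp only [mulVec_smul, hP, Fin.sum_univ_four]; rfl
    rw [h7, h7]
    simp only [mulVec_add, mulVec_smul, hjj]
    simp [mulVec, dotProduct, Fin.sum_univ_four]
    module
  have h7 : ∀ x y : Fin 4 → F, formOfGram (RingHom.id F)
      !![0, 1, 0, 0; -1, 0, 0, 0; 0, 0, 0, 1; 0, 0, -1, 0] x y = f4 x y := fun x y => by
    simp [formOfGram, f4, Fin.sum_univ_four]; ring
  have h8 : ∀ x y : Fin 4 → F,
      f4 x (!![0, -1, 0, 0; 1, 0, 0, 0; 0, 0, 0, -1; 0, 0, 1, 0] *ᵥ y) = x ⬝ᵥ y := fun x y => by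
    simp [f4, mulVec, dotProduct, Fin.sum_univ_four]
  obtain ⟨g, hg⟩ := exists_trG e P (Y := g4 F) (by
    simp [g4, det_succ_row_zero, Fin.sum_univ_succ, Fin.succAbove]
    exact fun e => one_ne_zero (by linear_combination h3 + e : (1 : F) = 0))
  have hg' : g ∈ Iso (fb B) := (hT.mem_Iso hg).2 (by
    ext p p'; fin_cases p <;> fin_cases p' <;> simp [g4, mul_apply, Fin.sum_univ_four] <;> grind)
  have h9 : ∀ {g : GL ι F} {Y}, (g : Matrix ι ι F) = tr e P Y → g ∈ Iso (fb B) →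
      g ∈ subalgebraNormalizer K → ∃ μ : F, μ * μ = 1 ∧ Y * !![0, -1, 0, 0; 1, 0, 0, 0; 0, 0, 0, -1; 0, 0, 1, 0] =
        μ • (!![0, -1, 0, 0; 1, 0, 0, 0; 0, 0, 0, -1; 0, 0, 1, 0] * Y) := fun hg h9 h10 => by
    rcases (h5 _ (Iso_le_sim _ h9)).1 h10 with h11 | h11 <;> rw [cj_eq_iff, hg, h6] at h11
    · exact ⟨1, by simp, (tr e P).injective (by rwa [one_smul, map_mul, map_mul])⟩
    · exact ⟨-1, by simp, (tr e P).injective (by
        rwa [neg_one_smul, map_neg, map_mul, map_mul, ← Matrix.neg_mul])⟩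
  refine IsMaximalIn.false_of hH (M := relS (relC e P E4)) (fun k hk => ?_) (fun hle => ?_) hg'
    (mem_relS_tr hg (e4_g4 hF)) fun h10 => ?_
  · obtain ⟨Y, hY⟩ := (tr e P).surjective k
    obtain ⟨μ, h10, h11⟩ := h9 hY.symm hk.2 hk.1
    have h12 : ∀ x y, f4 (Y *ᵥ x) (Y *ᵥ y) = f4 x y := fun x y => by
      rw [← h7, ← h7, fog_mulVec, (hT.mem_Iso hY.symm).1 hk.2]
    have h13 : ∀ x y, (Y *ᵥ x) ⬝ᵥ (Y *ᵥ y) = μ * (x ⬝ᵥ y) := fun x y => by
      rw [← h8 x, ← h12, mulVec_mulVec, h11, smul_mulVec, ← mulVec_mulVec, ← h8]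
      simp only [f4, Pi.smul_apply, smul_eq_mul]
      grind
    have h14 : μ ≠ 0 := left_ne_zero_of_mul_eq_one h10
    refine mem_relS_tr hY.symm fun x y hxy => ?_
    simp only [E4, h12, h13] at hxy ⊢
    refine ⟨hxy.1, hxy.2.imp (fun h => ⟨mul_ne_zero h14 h.1, ?_⟩) fun h => by simp [h]⟩
    linear_combination h.2 + (x ⬝ᵥ x * (y ⬝ᵥ y) - (x ⬝ᵥ y) ^ 2) * h10
  · obtain ⟨k, hk⟩ := exists_trG e P (Y := !![1, 0, 0, 0; 0, 1, -1, 0; 0, 0, 1, 0; -1, 0, 0, 1]) (by
      simp [det_succ_row_zero, Fin.sum_univ_succ, Fin.succAbove])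
    have := rel_of_mem_relS hk (hle ((hT.mem_Iso hk).2 (by
      ext p p'; fin_cases p <;> fin_cases p' <;> simp [mul_apply, Fin.sum_univ_four])))
      (x := ![1, 0, 0, 0]) (y := ![0, 1, 0, 0]) (by simp [E4, f4, dotProduct, Fin.sum_univ_four])
    simp [E4, f4, mulVec, dotProduct, Fin.sum_univ_four] at this
  · obtain ⟨μ, -, h11⟩ := h9 hg hg' h10.1
    have e4 := congrFun (congrFun h11 2) 0
    have e5 := congrFun (congrFun h11 0) 2
    simp [g4, mul_apply, Fin.sum_univ_four] at e4 e5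
    grind

end H23.As
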