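import Cfsg.Agent.H23.Sf2

/-!
Tensor structures `V = S ⊗[E] W` and the subgroups of `GL(V)` preserving them.
-/

set_option autoImplicit false

namespace H23.Tn

open Module Sf

section End

variable {F V : Type*} [Field F] [AddCommGroup V] [Module F V] {K : Subgroup (V ≃ₗ[F] V)}
  {X Y : V →ₗ[F] V} {g : V ≃ₗ[F] V}

theorem EndIn.mono {K' : Subgroup (V ≃ₗ[F] V)} (h : EndIn K X) (hle : K ≤ K') : EndIn K' X :=
  h.imp fun _ h => ⟨hle h.1, h.2⟩

theorem EndIn.congr (h : EndIn K X) (h1 : ∀ v, X v = Y v) : EndIn K Y :=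
  h.imp fun _ h => ⟨h.1, fun v => by rw [h.2, h1]⟩

theorem endIn_zero (h : ∀ v, X v = 0) : EndIn K X := ⟨1, one_mem _, by simp [h]⟩

theorem EndIn.add (h : EndIn K X) (h' : EndIn K Y) (h0 : ∀ v, X (Y v) = 0) : EndIn K (X + Y) := by
  obtain ⟨g, hg, h1⟩ := h
  obtain ⟨k, hk, h2⟩ := h'
  exact ⟨g * k, mul_mem hg hk, fun v => by simp [h1, h2, h0]; abel⟩

theorem symm_apply_of_sq (h1 : ∀ v, g v = v + X v) (h0 : ∀ v, X (X v) = 0) (v : V) :
    g.symm v = v - X v := by rw [g.symm_apply_eq, h1]; simp [h0]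

theorem EndIn.neg (h : EndIn K X) (h0 : ∀ v, X (X v) = 0) : EndIn K (-X) := by
  obtain ⟨g, hg, h1⟩ := h
  exact ⟨g⁻¹, inv_mem hg, fun v => by simp [symm_apply_of_sq h1 h0, sub_eq_add_neg]⟩

theorem EndIn.conj (h : EndIn K X) (hg : g ∈ K) :
    EndIn K (g.toLinearMap ∘ₗ X ∘ₗ g.symm.toLinearMap) := by
  obtain ⟨k, hk, h1⟩ := h
  exact ⟨g * k * g⁻¹, mul_mem (mul_mem hg hk) (inv_mem hg), fun v => by simp [h1]⟩

theorem EndIn.comm (h : EndIn K X) (h' : EndIn K Y) (hX : ∀ v, X (X v) = 0)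
    (hY : ∀ v, Y (Y v) = 0) (h0 : ∀ v, Y (X v) = 0) : EndIn K (X ∘ₗ Y) := by
  obtain ⟨g, hg, h1⟩ := h
  obtain ⟨k, hk, h2⟩ := h'
  refine ⟨g * k * g⁻¹ * k⁻¹, mul_mem (mul_mem (mul_mem hg hk) (inv_mem hg)) (inv_mem hk),
    fun v => ?_⟩
  simp [symm_apply_of_sq h1 hX, symm_apply_of_sq h2 hY, h1, h2, hX, hY, h0]
  abel

theorem EndIn.sum {ι : Type*} (s : Finset ι) {f : ι → V →ₗ[F] V} (h : ∀ i, EndIn K (f i))
    (h0 : ∀ i j v, f i (f j v) = 0) : EndIn K (∑ i ∈ s, f i) := by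
  classical
  induction s using Finset.induction_on with
  | empty => exact endIn_zero (by simp)
  | insert i s hi ih =>
    rw [Finset.sum_insert hi]
    exact EndIn.add (h i) ih fun v => by simp [h0]

/-- The unipotent map `1 + X` for `X ^ 2 = 0`. -/
def unip (X : V →ₗ[F] V) (h : ∀ v, X (X v) = 0) : V ≃ₗ[F] V :=
  LinearEquiv.ofLinearMap (LinearMap.id + X) (LinearMap.id - X) (by ext; simp [h]) (by ext; simp [h])

theorem unip_apply (h : ∀ v, X (X v) = 0) (v : V) : unip X h v = v + X v := rfl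

theorem mem_SLv_of_sq [Finite F] (h1 : ∀ v, g v = v + X v) (h0 : ∀ v, X (X v) = 0) :
    g ∈ SLv F V := by
  obtain ⟨p, hp⟩ := CharP.exists F
  have : Fact p.Prime := ⟨CharP.char_is_prime F p⟩
  have h2 : ∀ n : ℕ, ∀ v, (g ^ n) v = v + (n : F) • X v := fun n v => by
    induction n with
    | zero => simp
    | succ n ih => rw [pow_succ', LinearEquiv.mul_apply, ih, h1]; simp [h0, add_smul]; abel
  have h3 : g ^ p = 1 := LinearEquiv.ext fun v => by simp [h2]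
  have h4 := congrArg (fun g => ((LinearEquiv.det g : Fˣ) : F)) h3
  simp only [map_pow, map_one, Units.val_pow_eq_pow_val, Units.val_one] at h4
  have h5 : ((LinearEquiv.det g : Fˣ) - 1 : F) ^ p = 0 := by rw [sub_pow_char, h4]; simp
  exact Units.ext (sub_eq_zero.1 (pow_eq_zero_iff (this.out.ne_zero) |>.1 h5))

theorem endIn_SLv [Finite F] (h0 : ∀ v, X (X v) = 0) (h : ∀ g : V ≃ₗ[F] V,
    (∀ v, g v = v + X v) → g ∈ K) : EndIn (K ⊓ SLv F V) X :=
  ⟨unip X h0, ⟨h _ fun _ => rfl, mem_SLv_of_sq (fun _ => rfl) h0⟩, fun _ => rfl⟩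

end End

variable {F E S W V : Type*} [Field F] [Field E] [Algebra F E]
  [AddCommGroup S] [Module E S] [Module F S] [IsScalarTower F E S] [AddCommGroup W] [Module E W]
  [AddCommGroup V] [Module E V] [Module F V] [IsScalarTower F E V] {t : S →ₗ[E] W →ₗ[E] V}

variable (F t) in
/-- The map `x ↦ x ⊗ u`. -/
def vec (u : W) : S →ₗ[F] V := (t.flip u).restrictScalars F

@[simp] theorem vec_apply (u : W) (x : S) : vec F t u x = t x u := rfl

theorem t_smul (c : F) (x : S) (u : W) : t (c • x) u = c • t x u := (vec F t u).map_smul c x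

variable (F) in
/-- The contraction with a linear form on `W`. -/
noncomputable def cov (ht : IsTensorProduct t) (ψ : Dual E W) : V →ₗ[F] S :=
  (ht.lift (LinearMap.mk₂ E (fun x w => ψ w • x) (by simp) (fun c x w => smul_comm _ _ _)
    (by simp [add_smul]) (by simp [smul_smul]))).restrictScalars F

variable (F) in
/-- The maps preserving the tensor structure. -/
def Tg (t : S →ₗ[E] W →ₗ[E] V) : Subgroup (V ≃ₗ[F] V) where
  carrier := {g | ∃ (a : S ≃ₗ[F] S) (b : W ≃ W), ∀ x w, g (t x w) = t (a x) (b w)}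
  mul_mem' := by
    rintro g k ⟨a, b, h⟩ ⟨a', b', h'⟩
    exact ⟨a * a', b'.trans b, fun x w => by simp [h, h']⟩
  one_mem' := ⟨1, 1, fun _ _ => rfl⟩
  inv_mem' := by
    rintro g ⟨a, b, h⟩
    exact ⟨a⁻¹, b.symm, fun x w => g.injective (by simp [h])⟩

variable (ht : IsTensorProduct t) {K G : Subgroup (V ≃ₗ[F] V)} {g : V ≃ₗ[F] V} {u w y : W}
  {ψ : Dual E W} {φ : V →ₗ[F] S}

@[simp] theorem cov_t (ψ : Dual E W) (x : S) (w : W) : cov F ht ψ (t x w) = ψ w • x :=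
  ht.lift_eq _ x w

theorem cov_smul (ψ : Dual E W) (c : E) (v : V) : cov F ht ψ (c • v) = c • cov F ht ψ v :=
  (ht.lift _).map_smul c v

include ht in
theorem ext_t {M : Type*} [AddCommGroup M] [Module F M] {f f' : V →ₗ[F] M}
    (h : ∀ x w, f (t x w) = f' (t x w)) (v : V) : f v = f' v :=
  ht.inductionOn v (by simp) h fun a b ha hb => by simp [ha, hb]

theorem cov_add (ψ ψ' : Dual E W) (v : V) :
    cov F ht (ψ + ψ') v = cov F ht ψ v + cov F ht ψ' v :=
  ext_t ht (f' := cov F ht ψ + cov F ht ψ') (by simp [add_smul]) v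

theorem cov_sub (ψ ψ' : Dual E W) (v : V) :
    cov F ht (ψ - ψ') v = cov F ht ψ v - cov F ht ψ' v :=
  ext_t ht (f' := cov F ht ψ - cov F ht ψ') (by simp [sub_smul]) v

theorem cov_smul_left (c : E) (ψ : Dual E W) (v : V) : cov F ht (c • ψ) v = c • cov F ht ψ v :=
  ht.inductionOn v (by simp) (by simp [smul_smul]) fun a b ha hb => by simp [ha, hb]

theorem cov_zero (v : V) : cov F ht 0 v = 0 := ext_t ht (f' := 0) (by simp) v

include ht in
theorem t_eq_zero {x : S} (hu : u ≠ 0) (h : t x u = 0) : x = 0 := by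
  obtain ⟨f, hf⟩ := exists_dual_one (F := E) hu
  simpa [hf] using congrArg (cov E ht f) h

include ht in
theorem t_inj {x : S} (hx : x ≠ 0) (h : t x u = t x w) : u = w := by
  by_contra h1
  exact hx (t_eq_zero ht (sub_ne_zero.2 h1) (by simp [h]))

theorem sum_cov {ι : Type*} [Fintype ι] (b : Basis ι E W) (v : V) :
    ∑ i, t (cov F ht (b.coord i) v) (b i) = v := by
  have := ext_t ht (F := F) (f := ∑ i, vec F t (b i) ∘ₗ cov F ht (b.coord i)) (f' := LinearMap.id)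
    (fun x w => by
      have := congrArg (t x) (b.sum_repr w)
      simpa only [map_sum, map_smul, LinearMap.sum_apply, LinearMap.comp_apply, vec_apply, cov_t,
        Basis.coord_apply, LinearMap.smul_apply, LinearMap.id_apply] using this) v
  simpa using this

theorem exists_vec [FiniteDimensional E W] {α : Type*} {e : α → V} {a : α → S}
    (h : ∀ ψ, ∃ c : E, ∀ x, cov F ht ψ (e x) = c • a x) : ∃ w, ∀ x, e x = t (a x) w := by
  let b := Module.finBasis E W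
  choose c hc using fun i => h (b.coord i)
  exact ⟨∑ i, c i • b i, fun x => by rw [← sum_cov ht (F := F) b (e x)]; simp [hc]⟩

include ht in
theorem mem_Tg_of [Nontrivial S] [Finite W] (a : S ≃ₗ[F] S)
    (h : ∀ w, ∃ w', ∀ x, g (t x w) = t (a x) w') : g ∈ Tg F t := by
  choose b hb using h
  obtain ⟨x, hx⟩ := exists_ne (0 : S)
  have h1 : Function.Injective b := fun w w' h =>
    t_inj ht hx (g.injective (by rw [hb, hb, h]))
  exact ⟨a, Equiv.ofBijective b (Finite.injective_iff_bijective.1 h1), fun x w => hb w x⟩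

variable (t) in
/-- `E`-linear contractions. -/
def RC (φ : V →ₗ[F] S) : Prop := ∀ w, ∃ c : E, ∀ x, φ (t x w) = c • x

theorem RC.exists [Nontrivial S] (h : RC t φ) : ∃ ψ, ∀ v, φ v = cov F ht ψ v := by
  choose c hc using h
  obtain ⟨x, hx⟩ := exists_ne (0 : S)
  refine ⟨⟨⟨c, fun a b => smul_left_injective E hx ?_⟩, fun d a => smul_left_injective E hx ?_⟩,
    ext_t ht fun x w => by simp [hc]⟩
  · simp only [add_smul, ← hc, map_add]
  · simp only [RingHom.id_apply, smul_eq_mul, mul_comm d, mul_smul, ← hc, map_smul,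
      LinearMap.smul_apply]

variable (t) in
/-- The block transvection with centre `u` and functional `φ` lies in `K`. -/
def BT (K : Subgroup (V ≃ₗ[F] V)) (u : W) (φ : V →ₗ[F] S) : Prop := EndIn K (vec F t u ∘ₗ φ)

theorem BT.mono (h : BT t K u φ) (hle : K ≤ G) : BT t G u φ := EndIn.mono h hle

theorem BT.congr {φ' : V →ₗ[F] S} (h : BT t K u φ) (h1 : ∀ v, φ v = φ' v) : BT t K u φ' :=
  EndIn.congr h fun v => by simp [h1]

theorem BT.add {φ' : V →ₗ[F] S} (h : BT t K u φ) (h' : BT t K u φ') (h0 : ∀ x, φ (t x u) = 0) :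
    BT t K u (φ + φ') := EndIn.congr (EndIn.add h h' (by simp [h0])) (by simp)

theorem BT.neg (h : BT t K u φ) (h0 : ∀ x, φ (t x u) = 0) : BT t K u (-φ) :=
  EndIn.congr (EndIn.neg h (by simp [h0])) (by simp)

theorem BT.comm {φ' : V →ₗ[F] S} (h : BT t K u φ) (h' : BT t K w φ') (h0 : ∀ x, φ (t x u) = 0)
    (h1 : ∀ x, φ' (t x w) = 0) (h2 : ∀ x, φ' (t x u) = 0) :
    BT t K u (φ ∘ₗ vec F t w ∘ₗ φ') :=
  EndIn.congr (EndIn.comm h h' (by simp [h0]) (by simp [h1]) (by simp [h2])) (by simp)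

theorem BT.conj (h : BT t K u φ) (hg : g ∈ K) {a : S →ₗ[F] S} (h1 : ∀ x, g (t x u) = t (a x) w) :
    BT t K w (a ∘ₗ φ ∘ₗ g.symm.toLinearMap) := EndIn.congr (EndIn.conj h hg) (by simp [h1])

variable [Finite F] [Nontrivial S] [Finite W] [FiniteDimensional E W]

theorem tv_mem_Tg (h : ∀ v, g v = v + t (cov F ht ψ v) u) : g ∈ Tg F t :=
  mem_Tg_of ht 1 fun w => ⟨w + ψ w • u, fun x => by simp [h]⟩

theorem bt_rat (h0 : ψ u = 0) : BT t (Tg F t ⊓ SLv F V) u (cov F ht ψ) :=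
  endIn_SLv (by simp [h0]) fun _ => tv_mem_Tg ht

include ht in
theorem exists_trans (h2 : 2 ≤ finrank E W) (hu0 : u ≠ 0) (hw0 : w ≠ 0) :
    ∃ m ∈ Tg F t ⊓ SLv F V, ∃ b : W →ₗ[E] W, (∀ x y, m (t x y) = t x (b y)) ∧ b u = w := by
  have key : ∀ u w : W, u ≠ 0 → w ∉ E ∙ u → ∃ m ∈ Tg F t ⊓ SLv F V, ∃ b : W →ₗ[E] W,
      (∀ x y, m (t x y) = t x (b y)) ∧ b u = w := fun u w hu0 h1 => by
    obtain ⟨ψ, h4, h5⟩ := exists_dual_pair (F := E) (u := w - u) (x := u) fun h3 => by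
      obtain ⟨c, hc⟩ := Submodule.mem_span_singleton.1 h3
      have hc0 : c ≠ 0 := by rintro rfl; exact hu0 (by simpa using hc.symm)
      refine h1 (Submodule.mem_span_singleton.2 ⟨(1 + c) / c, smul_right_injective W hc0 ?_⟩)
      simp only [smul_smul, mul_div_cancel₀ _ hc0, add_smul, one_smul]
      nth_rw 1 [← hc]; module
    obtain ⟨m, hm, h6⟩ := bt_rat (F := F) ht h4
    exact ⟨m, hm, LinearMap.id + ψ.smulRight (w - u), fun x y => by simp [h6], by simp [h5]⟩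
  by_cases h1 : w ∈ E ∙ u
  · obtain ⟨x, -, h3⟩ := exists_notMem_span (W := (⊤ : Submodule E W)) (by simpa) u
    obtain ⟨m, a1, b, a2, a3⟩ := key u x hu0 h3
    obtain ⟨k, b1, b', b2, b3⟩ := key x w (fun h => h3 (h ▸ zero_mem _)) fun h4 => by
      obtain ⟨c, rfl⟩ := Submodule.mem_span_singleton.1 h4
      exact h3 ((Submodule.smul_mem_iff _ (left_ne_zero_of_smul hw0)).1 h1)
    exact ⟨k * m, mul_mem b1 a1, b' ∘ₗ b, fun x y => by simp [a2, b2], by simp [a3, b3]⟩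
  · exact key u w hu0 h1

omit [Finite F] [Finite W] in
include ht in
theorem SLv_le_of_bt [FiniteDimensional F V] (h2 : 2 ≤ finrank E W)
    (h : ∀ u ≠ 0, ∀ φ : V →ₗ[F] S, (∀ x, φ (t x u) = 0) → BT t K u φ) : SLv F V ≤ K := by
  have h1 : ∀ u ≠ 0, ∀ x, ∀ χ : Dual F V, (∀ y, χ (t y u) = 0) → TIn K χ (t x u) :=
    fun u hu x χ h3 => h u hu (χ.smulRight x) (by simp [h3]) |>.imp fun g hg =>
      ⟨hg.1, fun v => by simp [hg.2, t_smul]⟩
  refine SLv_le_of_TC (eq_top_iff.2 fun v _ => ht.inductionOn v (zero_mem _) (fun x u => ?_)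
    fun _ _ => add_mem)
  by_cases hu : u = 0
  · simp [hu]
  refine mem_TC_iff.2 fun χ h3 => ?_
  obtain ⟨w, -, h4⟩ := exists_notMem_span (W := (⊤ : Submodule E W)) (by simpa) u
  have hw : w ≠ 0 := fun h => h4 (h ▸ zero_mem _)
  obtain ⟨ψ, h5, h6⟩ := exists_dual_pair h4
  obtain ⟨f, h7, h8⟩ := exists_dual_pair (F := E) (u := w) (x := u) fun h => by
    obtain ⟨c, rfl⟩ := Submodule.mem_span_singleton.1 h
    exact hu (by simpa [h6] using congrArg (· • w) h5)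
  obtain ⟨y, hy⟩ := exists_ne (0 : S)
  obtain ⟨ξ, h9⟩ := exists_dual_one (F := F) hy
  have a1 := (h1 u hu x (ξ ∘ₗ cov F ht ψ) (by simp [h5])).comm
    (h1 w hw y (χ ∘ₗ vec F t u ∘ₗ cov F ht f) (by simp [h7])) (by simp [h5]) (by simp [h7])
    (by simp [h8, h3])
  simpa [h6, h9] using a1.add_left (h1 u hu x (χ - χ ∘ₗ vec F t u ∘ₗ cov F ht f) (by simp [h8]))
    (by simp [h8, h3])

variable (t) in
/-- No new block transvections. -/
def NWT (K : Subgroup (V ≃ₗ[F] V)) : Prop :=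
  ∀ u ≠ 0, ∀ φ : V →ₗ[F] S, (∀ x, φ (t x u) = 0) → BT t K u φ → RC t φ

variable (F E S) in
/-- The scalars are maximal among the invariant subrings of `End S`. -/
def HR : Prop := ∀ Λ : Subring (End F S), (∀ c : E, (LinearMap.lsmul E S c).restrictScalars F ∈ Λ) →
  (∀ n : S →ₗ[E] S, (∀ x, n (n x) = 0) → ∀ z ∈ Λ,
    (1 + n.restrictScalars F) * z * (1 - n.restrictScalars F) ∈ Λ) →
  (∃ z ∈ Λ, ∀ c : E, ∃ x, z x ≠ c • x) → ∀ z, z ∈ Λ

omit [Finite F] [Nontrivial S] [Finite W] in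
theorem bt_of_all (hu : u ≠ 0) (h : ∀ z : End F S, ∀ ψ, ψ u = 0 → BT t K u (z ∘ₗ cov F ht ψ))
    (h0 : ∀ x, φ (t x u) = 0) : BT t K u φ := by
  obtain ⟨f, hf⟩ := exists_dual_one (F := E) hu
  let b := Module.finBasis E W
  refine EndIn.congr (EndIn.sum Finset.univ (fun i => h (φ ∘ₗ vec F t (b i))
    (b.coord i - b.coord i u • f) (by simp [hf])) fun i j v => by simp [hf]) fun v => ?_
  have a1 := sum_cov (F := F) ht b v
  have a2 := sum_cov (F := F) ht b (t (cov F ht f v) u)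
  simp only [cov_t] at a2
  rw [LinearMap.sum_apply]
  change ∑ i, vec F t u (φ (t (cov F ht (b.coord i - b.coord i u • f) v) (b i))) = vec F t u (φ v)
  simp only [cov_sub, cov_smul_left, map_sub, LinearMap.sub_apply, Finset.sum_sub_distrib,
    ← map_sum, a1, a2, h0, map_zero, sub_zero]

theorem win [FiniteDimensional F V] (hR : HR F E S) (h3 : 3 ≤ finrank E W)
    (hM : Tg F t ⊓ SLv F V ≤ K) (ht : IsTensorProduct t) (hK : ¬ NWT t K) : SLv F V ≤ K := by
  simp only [NWT, RC, not_forall, not_exists] at hK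
  obtain ⟨u, hu0, φ, h0, h1, y, hc⟩ := hK
  have hT : ∀ u ψ, ψ u = 0 → BT t K u (cov F ht ψ) := fun u ψ h => (bt_rat ht h).mono hM
  let Λ : Subring (End F S) :=
    { carrier := {z | ∀ u (ψ : Dual E W), ψ u = 0 → BT t K u (z ∘ₗ cov F ht ψ)}
      mul_mem' := fun {c d} hc hd u ψ h2 => by
        obtain ⟨w, h4, h5⟩ := exists_notMem_span (W := LinearMap.ker ψ) (by
          have := ψ.finrank_range_add_finrank_ker
          have := (LinearMap.range ψ).finrank_le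
          simp at this; omega) u
        obtain ⟨χ, h7, h8⟩ := exists_dual_pair h5
        exact ((hc u χ h7).comm (hd w ψ h4) (by simp [h7]) (by simp [LinearMap.mem_ker.1 h4])
          (by simp [h2])).congr (by simp [h8])
      one_mem' := hT
      add_mem' := fun {c d} hc hd u ψ h2 => (hc u ψ h2).add (hd u ψ h2) (by simp [h2])
      zero_mem' := fun u ψ _ => endIn_zero (by simp)
      neg_mem' := fun {c} hc u ψ h2 => (hc u ψ h2).neg (by simp [h2]) }
  have h4 : φ ∘ₗ vec F t y ∈ Λ := by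
    have a1 : ∀ ψ, ψ u = 0 → ψ y = 0 → BT t K u ((φ ∘ₗ vec F t y) ∘ₗ cov F ht ψ) :=
      fun ψ h5 h6 => h1.comm (hT y ψ h6) h0 (by simp [h6]) (by simp [h5])
    obtain ⟨χ, a3, a4, x, -, a5⟩ := exists_dual_two (W := (⊤ : Submodule E W)) (by simpa) u y
    have a6 : ∀ ψ, ψ u = 0 → ψ x = 0 → BT t K u ((φ ∘ₗ vec F t y) ∘ₗ cov F ht ψ) :=
      fun ψ h5 h6 => ((a1 χ a3 a4).comm (hT x ψ h6) (by simp [a3]) (by simp [h6])
        (by simp [h5])).congr (by simp [a5])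
    obtain ⟨ξ, b1, b4⟩ := exists_dual_eq_one (W := Submodule.span E {u, x}) (x := y) fun h4 => by
      obtain ⟨a, b, rfl⟩ := Submodule.mem_span_pair.1 h4
      obtain rfl : b = 0 := by simpa [a3, a5] using a4
      obtain ⟨z, hz⟩ := hc 0
      exact hz (by simpa using h0 (a • z))
    have b2 := b1 u (Submodule.subset_span (by simp))
    have b3 := b1 x (Submodule.subset_span (by simp))
    have a7 : ∀ ψ, ψ u = 0 → BT t K u ((φ ∘ₗ vec F t y) ∘ₗ cov F ht ψ) := fun ψ h5 =>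
      ((a1 (ψ - ψ y • ξ) (by simp [h5, b2]) (by simp [b4])).add (a6 (ψ y • ξ) (by simp [b2])
        (by simp [b3])) (by simp [h5, b2])).congr (by simp [cov_sub])
    intro w ψ h5
    by_cases hw0 : w = 0
    · exact endIn_zero (by simp [hw0])
    obtain ⟨m, c1, b, c2, rfl⟩ := exists_trans (F := F) ht (by omega) hu0 hw0
    refine ((a7 (ψ ∘ₗ b) h5).conj (hM c1) (a := 1) (c2 · u)).congr fun v => ?_
    obtain ⟨v, rfl⟩ := m.surjective v
    have := ext_t ht (f := cov F ht (ψ ∘ₗ b)) (f' := cov F ht ψ ∘ₗ m.toLinearMap) (by simp [c2]) v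
    simp [this]
  have h5 := hR Λ (fun c u ψ h => (hT u (c • ψ) (by simp [h])).congr (by simp [cov_smul_left]))
    (fun n hn z hz u ψ h => ?_) ⟨_, h4, hc⟩
  · exact SLv_le_of_bt ht (by omega) fun w hw χ => bt_of_all ht hw fun z => h5 z w
  let N := (ht.map ht n LinearMap.id).restrictScalars F
  have a1 : ∀ v, N (N v) = 0 := ext_t ht (f := N ∘ₗ N) (f' := 0) (by simp [N, hn])
  obtain ⟨g, hg, a2⟩ := endIn_SLv (K := Tg F t) a1 fun g hg =>
    mem_Tg_of ht (unip (n.restrictScalars F) hn) fun w => ⟨w, fun x => by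
      rw [unip_apply (X := n.restrictScalars F) hn]; simp [hg, N]⟩
  refine ((hz u ψ h).conj (hM hg) (a := 1 + n.restrictScalars F) (by simp [a2, N])).congr fun v => ?_
  have := ext_t ht (f := cov F ht ψ ∘ₗ g.symm.toLinearMap)
    (f' := (1 - n.restrictScalars F) ∘ₗ cov F ht ψ)
    (by simp [symm_apply_of_sq a2 a1, N, smul_sub]) v
  simpa using congrArg (fun x => z x + n (z x)) this

omit [Finite F] [Nontrivial S] [Finite W] [FiniteDimensional E W] in
include ht in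
theorem exists_blockEquiv [FiniteDimensional F S] (hu : u ≠ 0)
    (h : ∀ x, ∃ y, g (t x u) = t y w) : ∃ a : S ≃ₗ[F] S, ∀ x, g (t x u) = t (a x) w := by
  by_cases hw : w = 0
  · refine ⟨1, fun x => ?_⟩
    obtain ⟨y, hy⟩ := h x
    simpa [hw] using hy
  obtain ⟨f, hf⟩ := exists_dual_one (F := E) hw
  have h1 : ∀ x, g (t x u) = t (cov F ht f (g (t x u))) w := fun x => by
    obtain ⟨y, hy⟩ := h x
    simp [hy, hf]
  exact ⟨LinearEquiv.ofInjectiveEndo (cov F ht f ∘ₗ g.toLinearMap ∘ₗ vec F t u)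
    ((injective_iff_map_eq_zero _).2 fun x hx => t_eq_zero ht hu (g.injective (by
      rw [h1]; simp at hx; simp [hx]))), h1⟩

include ht in
theorem norm_of_stab (h2 : 2 ≤ finrank E W) (hM : Tg F t ⊓ SLv F V ≤ K) (hN : NWT t K) (hu : u ≠ 0)
    (hg : g ∈ K) {a : S ≃ₗ[F] S} (h1 : ∀ x, g (t x u) = t (a x) u) (d : E) :
    ∃ d' : E, ∀ x, a (d • x) = d' • a x := by
  have a3 : ∀ x, g.symm (t x u) = t (a.symm x) u := fun x => by rw [g.symm_apply_eq, h1]; simp
  have a4 : ∀ ψ, ψ u = 0 → RC t (a.toLinearMap ∘ₗ cov F ht ψ ∘ₗ g.symm.toLinearMap) := fun ψ h =>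
    hN u hu _ (by simp [a3, h]) (((bt_rat ht h).mono hM).conj hg h1)
  obtain ⟨w, -, h4⟩ := exists_notMem_span (W := (⊤ : Submodule E W)) (by simpa) u
  obtain ⟨ψ, h5, h6⟩ := exists_dual_pair h4
  obtain ⟨y, hy⟩ := exists_ne (0 : S)
  obtain ⟨w', h7⟩ : ∃ w', ∃ x, cov F ht ψ (g.symm (t x w')) ≠ 0 := by
    by_contra! h7
    simpa [h6, hy] using ext_t ht (f := cov F ht ψ ∘ₗ g.symm.toLinearMap) (f' := 0)
      (fun x w => h7 w x) (g (t y w))
  obtain ⟨c, hc⟩ := a4 ψ h5 w'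
  obtain ⟨c', hc'⟩ := a4 (d • ψ) (by simp [h5]) w'
  simp only [LinearMap.comp_apply, LinearEquiv.coe_coe, cov_smul_left] at hc hc'
  have h8 : c ≠ 0 := by
    rintro rfl
    obtain ⟨x, hx⟩ := h7
    exact hx (by simpa using hc x)
  refine ⟨c' / c, fun x => ?_⟩
  have h9 := hc (c⁻¹ • a x)
  rw [smul_inv_smul₀ h8, a.injective.eq_iff] at h9
  rw [← h9, hc', h9, smul_smul, div_eq_mul_inv]

include ht in
theorem stab [FiniteDimensional F S] (h2 : 2 ≤ finrank E W) (hG : SLv F V ≤ G)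
    (hM : Tg F t ⊓ G ≤ K) (hK : K ≤ G) (hN : NWT t K) (hu : u ≠ 0) (hg : g ∈ K)
    (h : ∀ x, ∃ y, g (t x u) = t y u) : g ∈ Tg F t := by
  have hM' : Tg F t ⊓ SLv F V ≤ K := (inf_le_inf_left _ hG).trans hM
  obtain ⟨a, h1⟩ := exists_blockEquiv ht hu h
  obtain ⟨f, a2⟩ := exists_dual_one (F := E) hu
  have a3 : ∀ x, g.symm (t x u) = t (a.symm x) u := fun x => by rw [g.symm_apply_eq, h1]; simp
  have a4 := norm_of_stab ht h2 hM' hN hu (K.inv_mem hg) (a := a.symm) a3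
  set χ : V →ₗ[F] S := a.symm.toLinearMap ∘ₗ cov F ht f ∘ₗ g.toLinearMap - cov F ht f
  have a5 : ∀ x, χ (t x u) = 0 := by simp [χ, h1, a2]
  have a5' : ∀ v, (vec F t u ∘ₗ χ) ((vec F t u ∘ₗ χ) v) = 0 := by simp [a5]
  have a6 : unip _ a5' * g⁻¹ ∈ Tg F t := mem_Tg_of ht a.symm fun w => exists_vec (F := F) ht
    fun ψ => by
      obtain ⟨c, hc⟩ := hN u hu _ (by simp [a3, a2]) (((bt_rat ht (ψ := ψ - ψ u • f)
        (by simp [a2])).mono hM').conj hg h1) w
      obtain ⟨c₁, h3⟩ := a4 c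
      obtain ⟨c₂, h4⟩ := a4 (f w)
      refine ⟨c₁ + ψ u * c₂, fun x => ?_⟩
      have h5 := congrArg a.symm (hc x)
      simp only [LinearMap.comp_apply, LinearEquiv.coe_coe, LinearEquiv.symm_apply_apply, h3,
        cov_sub, cov_smul_left] at h5
      simp [unip_apply, χ, h4, add_smul, ← h5, smul_sub, mul_smul, cov_smul, smul_comm c₂]
      abel
  have a7 : unip _ a5' ∈ K := by
    simpa using mul_mem (hM ⟨a6, mul_mem (hG (mem_SLv_of_sq (fun _ => rfl) a5'))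
      (Subgroup.inv_mem _ (hK hg))⟩) hg
  obtain ⟨ψ, hψ⟩ := (hN u hu χ a5 ⟨_, a7, fun _ => rfl⟩).exists ht
  have a8 := tv_mem_Tg ht (g := unip _ a5') (u := u) (ψ := ψ) fun v => by simp [unip_apply, hψ]
  simpa using mul_mem ((Tg F t).inv_mem a6) a8

include ht in
theorem block [FiniteDimensional F S] (h2 : 2 ≤ finrank E W) (hG : SLv F V ≤ G)
    (hM : Tg F t ⊓ G ≤ K) (hK : K ≤ G) (hN : NWT t K) (hu : u ≠ 0) (hg : g ∈ K)
    (h : ∀ x, ∃ y, g (t x u) = t y w) : g ∈ Tg F t := by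
  obtain ⟨x, hx⟩ := exists_ne (0 : S)
  obtain ⟨m, c1, b, c2, c3⟩ := exists_trans (F := F) ht h2 (u := w) (by
    rintro rfl
    obtain ⟨y, hy⟩ := h x
    exact hx (t_eq_zero ht hu (by simpa using hy))) hu
  have := stab ht h2 hG hM hK hN hu (mul_mem (hM ⟨c1.1, hG c1.2⟩) hg) fun x =>
    (h x).imp fun y hy => by simp [hy, c2, c3]
  simpa using mul_mem ((Tg F t).inv_mem c1.1) this

variable (F t) in
/-- Square-zero maps of the right rank whose exponentials preserve the structure are rational. -/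
def H3 : Prop := ∀ N : V →ₗ[F] V, (∀ v, N (N v) = 0) →
  finrank F (LinearMap.range N) = finrank F S →
  (∀ c : F, ∃ g ∈ Tg F t, ∀ v, g v = v + c • N v) →
  ∃ u ≠ 0, ∀ x, t x u ∈ LinearMap.range N

include ht in
theorem mem_Tg_of_conj [FiniteDimensional F S] (h2 : 2 ≤ finrank E W) (hG : SLv F V ≤ G)
    (hM : Tg F t ⊓ G ≤ K) (hK : K ≤ G) (hN : NWT t K) (h3 : H3 F t) (hg : g ∈ K) (hu : u ≠ 0)
    (hψ : ψ ≠ 0) (h0 : ψ u = 0) (h : ∀ c : F, ∀ k ∈ K,
      (∀ v, k v = v + c • g.symm (t (cov F ht ψ (g v)) u)) → k ∈ Tg F t) : g ∈ Tg F t := by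
  obtain ⟨w, hw, h4⟩ := h3 (g.symm.toLinearMap ∘ₗ vec F t u ∘ₗ cov F ht ψ ∘ₗ g.toLinearMap)
    (by simp [h0]) (by
      obtain ⟨y, hy⟩ := DFunLike.ne_iff.1 hψ
      have h5 : LinearMap.range (cov F ht ψ ∘ₗ g.toLinearMap) = ⊤ := LinearMap.range_eq_top.2
        fun x => ⟨g.symm (t ((ψ y)⁻¹ • x) y), by simp at hy; simp [hy, cov_smul]⟩
      rw [← LinearMap.comp_assoc, LinearMap.range_comp, h5, Submodule.map_top]
      exact LinearMap.finrank_range_of_inj ((injective_iff_map_eq_zero _).2 fun x hx =>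
        t_eq_zero ht hu (by simpa using hx))) fun c => by
      obtain ⟨k, hk, h5⟩ := EndIn.conj (EndIn.mono (bt_rat ht (ψ := algebraMap F E c • ψ) (u := u)
        (by simp [h0])) ((inf_le_inf_left _ hG).trans hM)) (K.inv_mem hg)
      have h6 : ∀ v, k v = v + c • g.symm (t (cov F ht ψ (g v)) u) := fun v => by
        rw [h5, LinearMap.comp_apply, LinearMap.comp_apply, LinearMap.comp_apply, vec_apply,
          cov_smul_left, algebraMap_smul, t_smul, map_smul]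
        rfl
      exact ⟨k, h c k hk h6, h6⟩
  refine block ht h2 hG hM hK hN hw hg (w := u) fun x => ?_
  obtain ⟨v, hv⟩ := h4 x
  exact ⟨_, by rw [← hv]; exact g.apply_symm_apply _⟩

theorem mem_Tg [FiniteDimensional F S] (h2 : 2 ≤ finrank E W) (hG : SLv F V ≤ G)
    (hM : Tg F t ⊓ G ≤ K) (hK : K ≤ G) (hN : NWT t K) (h3 : H3 F t)
    (h4 : ∀ v, ∃ ψ ≠ 0, cov F ht ψ v = 0)
    (h5 : ∀ u, ∀ x : S, x ≠ 0 → ∀ v, ∃ ψ ≠ 0, ψ u = 0 ∧ cov F ht ψ v ∈ F ∙ x) (hg : g ∈ K) :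
    g ∈ Tg F t := by
  have key : ∀ X : Submodule F S, X ≠ ⊥ → ∀ g ∈ K, ∀ u ≠ 0, ∀ w,
      (∀ x ∈ X, ∃ y, g (t x u) = t y w) → g ∈ Tg F t := fun X => by
    induction X using WellFoundedGT.induction with
    | ind X ih =>
    intro hX g hg u hu w h
    by_cases a1 : X = ⊤
    · exact block ht h2 hG hM hK hN hu hg fun x => h x (a1 ▸ Submodule.mem_top)
    obtain ⟨x₁, a2⟩ : ∃ x₁, x₁ ∉ X := by
      by_contra! a2
      exact a1 (eq_top_iff.2 fun x _ => a2 x)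
    obtain ⟨x₀, a3, a4⟩ := X.exists_mem_ne_zero_of_ne_bot hX
    obtain ⟨y₀, a5⟩ := h x₀ a3
    have a6 : t y₀ w ≠ 0 := fun h => a4 (t_eq_zero ht hu (by simpa [h] using a5))
    obtain ⟨ψ, b1, b2, b3⟩ := h5 w y₀ (by rintro rfl; simp at a6) (g (t x₁ u))
    obtain ⟨d, b3⟩ := Submodule.mem_span_singleton.1 b3
    refine mem_Tg_of_conj ht h2 hG hM hK hN h3 hg (by rintro rfl; simp at a6) b1 b2
      fun c k hk b4 => ih (X ⊔ F ∙ x₁) (SetLike.lt_iff_le_and_exists.2 ⟨le_sup_left, x₁,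
        Submodule.mem_sup_right (Submodule.mem_span_singleton_self _), a2⟩)
        (fun h => hX (eq_bot_iff.2 (h ▸ le_sup_left))) k hk u hu u fun x hx => ?_
    obtain ⟨x, hx', _, hz, rfl⟩ := Submodule.mem_sup.1 hx
    obtain ⟨e, rfl⟩ := Submodule.mem_span_singleton.1 hz
    obtain ⟨y, hy⟩ := h x hx'
    exact ⟨x + e • x₁ + (c * e * d) • x₀, by
      simp [b4, t_smul, hy, b2, ← b3, ← a5, smul_smul, mul_assoc]⟩
  obtain ⟨x, hx⟩ := exists_ne (0 : S)
  obtain ⟨u, -, hu⟩ := exists_notMem_span (W := (⊤ : Submodule E W)) (by simpa) 0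
  obtain ⟨ψ, a1, a2⟩ := h4 (g (t x u))
  obtain ⟨w, a3, a4⟩ := (LinearMap.ker ψ).exists_mem_ne_zero_of_ne_bot fun h => by
    have h6 := ψ.finrank_range_add_finrank_ker
    have := (LinearMap.range ψ).finrank_le
    rw [h, finrank_bot] at h6
    simp at this; omega
  refine mem_Tg_of_conj ht h2 hG hM hK hN h3 hg a4 a1 a3 fun c k hk b4 =>
    key (F ∙ x) (by simpa) k hk u (by simpa using hu) u fun y hy => ?_
  obtain ⟨e, rfl⟩ := Submodule.mem_span_singleton.1 hy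
  exact ⟨e • x, by simp [b4, t_smul, a2]⟩

omit [Finite W] in
include ht in
theorem exists_not_mem_Tg [FiniteDimensional F S] (h2 : 2 ≤ finrank E W) {z : End F S}
    (hz : ∀ c : E, ∃ x, z x ≠ c • x) : ∃ g ∈ SLv F V, g ∉ Tg F t := by
  obtain ⟨u, -, hu⟩ := exists_notMem_span (W := (⊤ : Submodule E W)) (by simpa) 0
  have hu0 : u ≠ 0 := by simpa using hu
  obtain ⟨w, -, h4⟩ := exists_notMem_span (W := (⊤ : Submodule E W)) (by simpa) u
  obtain ⟨ψ, h5, h6⟩ := exists_dual_pair h4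
  obtain ⟨f, h7, h8⟩ := exists_dual_pair (F := E) (u := w) (x := u) fun h => by
    obtain ⟨c, rfl⟩ := Submodule.mem_span_singleton.1 h
    exact hu0 (by simpa [h6] using congrArg (· • w) h5)
  have a1 : ∀ v, (vec F t u ∘ₗ z ∘ₗ cov F ht ψ) ((vec F t u ∘ₗ z ∘ₗ cov F ht ψ) v) = 0 := by
    simp [h5]
  refine ⟨unip _ a1, mem_SLv_of_sq (fun _ => rfl) a1, fun ⟨a, b, h⟩ => ?_⟩
  simp only [unip_apply, LinearMap.comp_apply, vec_apply, cov_t] at h
  obtain ⟨x, hx⟩ := hz (f (b w) / ψ (b w))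
  have a2 := fun x => congrArg (cov F ht ψ) (h x w)
  have a3 := congrArg (cov F ht f) (h x w)
  simp only [map_add, cov_t, h5, h6, h7, h8, one_smul, zero_smul, add_zero, zero_add] at a2 a3
  obtain ⟨y, hy⟩ := exists_ne (0 : S)
  have a4 : ψ (b w) ≠ 0 := fun h => hy (by simpa [h] using a2 y)
  refine hx ?_
  rw [a3, a2 x, smul_smul, div_mul_cancel₀ _ a4, ← a2 x]

end H23.Tn
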