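import Cfsg.Agent.H23.Tn2

/-!
Normalisers of extension fields of prime degree: field-theoretic tools.
-/

set_option autoImplicit false

namespace H23.Tn

open Module Sf

variable {F E U : Type*} [Field F] [Field E] [Algebra F E] [AddCommGroup U] [Module E U]
  [Module F U] [IsScalarTower F E U]

variable (F E) in
/-- The image of `F` in `E`. -/
abbrev fr : Subfield E := (algebraMap F E).fieldRange

variable (F E) in
/-- Either `F` has more than two elements, or `E` has no quadratic elements over `F`. -/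
def HA : Prop := (∃ c : F, c ≠ 0 ∧ c ≠ 1) ∨
  ∀ y, ∀ a ∈ fr F E, ∀ b ∈ fr F E, y ^ 2 = a * y + b → y ∈ fr F E

theorem hr_field [Finite E] (hP : PD (fr F E)) : HR F E E := by
  classical
  rintro Λ h1 - ⟨z, hz, h3⟩ w
  have : IsSimpleModule Λ E := isSimpleModule_iff_toSpanSingleton_surjective.2
    ⟨inferInstance, fun x hx y => ⟨⟨_, h1 (y / x)⟩, by
      change (y / x) • x = y
      simp [hx]⟩⟩
  let C : Subring E :=
    { carrier := {c | ∀ l ∈ Λ, ∀ x, l (c * x) = c * l x}
      mul_mem' := fun {a b} ha hb l hl x => by rw [mul_assoc, ha l hl, hb l hl, mul_assoc]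
      one_mem' := by simp
      add_mem' := fun {a b} ha hb l hl x => by rw [add_mul, map_add, ha l hl, hb l hl, add_mul]
      zero_mem' := by simp
      neg_mem' := fun {a} ha l hl x => by rw [neg_mul, map_neg, ha l hl, neg_mul] }
  have a1 : ∀ c ∈ C, c ∈ fr F E := fun c hc => by_contra fun a1 => by
    have a2 := hP.2 C (by
      rintro _ ⟨a, rfl⟩ l hl x
      simp [← Algebra.smul_def]) ⟨c, hc, a1⟩
    obtain ⟨x, hx⟩ := h3 (z 1)
    exact hx (by simpa [mul_comm] using a2 x z hz 1)
  have a2 : ∀ e : End Λ E, ∃ a : F, ∀ x, e x = a • x := fun e => by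
    have a3 : ∀ x, e x = e 1 * x := fun x => by
      have : e (x * 1) = x * e 1 := e.map_smul (⟨_, h1 x⟩ : Λ) 1
      rw [mul_comm, ← this, mul_one]
    obtain ⟨a, ha⟩ := a1 (e 1) fun l hl x => by
      rw [← a3, ← a3]; exact (e.map_smul (⟨l, hl⟩ : Λ) x).symm
    exact ⟨a, fun x => by rw [a3, Algebra.smul_def, ← ha]⟩
  have := Fintype.ofFinite E
  obtain ⟨r, hr⟩ := jacobson_density (R := Λ) (M := E)
    { toFun := w
      map_add' := w.map_add
      map_smul' := fun e x => by
        obtain ⟨a, ha⟩ := a2 e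
        simp [ha] } Finset.univ
  have : w = r := LinearMap.ext fun x => hr x (Finset.mem_univ x)
  exact this ▸ r.2

theorem lin_of_semi (hP : PD (fr F E)) (hA : HA F E) {N : U →ₗ[F] U} (h0 : ∀ v, N (N v) = 0)
    (h : ∀ c : F, ∀ y : E, ∃ y' : E, ∀ v, y • v + c • N (y • v) = y' • (v + c • N v)) (y : E)
    (v : U) : N (y • v) = y • N v := by
  by_cases a1 : ∀ v, N v = 0
  · simp [a1]
  push Not at a1
  obtain ⟨v₁, a1⟩ := a1
  set v₀ := N v₁
  have a2 : N v₀ = 0 := h0 v₁
  choose τ hτ using h
  have inj := smul_left_injective E a1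
  have a3 : ∀ y, N (y • v₀) = (τ 1 y - y) • v₀ := fun y => by
    have := hτ 1 y v₀
    simp only [one_smul, a2, add_zero] at this
    rw [sub_smul, ← this]; abel
  have a4 : ∀ c y, τ c y = y + algebraMap F E c * (τ 1 y - y) := fun c y => inj (by
    have := hτ c y v₀
    simp only [a2, smul_zero, add_zero, a3] at this
    simp only [← this, add_smul, mul_smul, algebraMap_smul])
  have a5 : ∀ c y y', τ c (y * y') = τ c y * τ c y' := fun c y y' => inj (by
    have b1 := hτ c (y * y') v₀
    have b2 := hτ c y (y' • v₀)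
    have b3 := hτ c y' v₀
    simp only [a2, smul_zero, add_zero] at b1 b3
    simp only [← b1, mul_smul, b2, ← b3])
  have a6 : ∀ y y', τ 1 (y + y') = τ 1 y + τ 1 y' := fun y y' => inj (by
    have b1 := a3 (y + y')
    rw [add_smul, map_add, a3, a3] at b1
    linear_combination (norm := module) -b1)
  suffices a7 : τ 1 y = y by simpa [a7] using hτ 1 y v
  by_contra a7
  by_cases a8 : ∃ c : F, c ≠ 0 ∧ c ≠ 1
  · obtain ⟨c, b1, b2⟩ := a8
    have b3 := a5 c y y
    rw [a4 c y, a4 c, a5] at b3
    have b4 : algebraMap F E c * (1 - algebraMap F E c) * (τ 1 y - y) ^ 2 = 0 := by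
      linear_combination b3
    refine mul_ne_zero (mul_ne_zero (by simpa) (sub_ne_zero.2 fun h => b2 ?_))
      (pow_ne_zero 2 (sub_ne_zero.2 a7)) b4
    exact (algebraMap F E).injective (by rw [← h, map_one])
  have b1 := hA.resolve_left a8
  have b2 : (2 : E) = 0 := by
    push Not at a8
    by_contra b2
    have := a8 2 fun h => b2 (by rw [← map_ofNat (algebraMap F E) 2, h, map_zero])
    exact one_ne_zero (by linear_combination this : (1 : F) = 0)
  let C : Subring E :=
    { carrier := {y | τ 1 y = y}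
      mul_mem' := fun {a b} ha hb => by simp only [Set.mem_ofPred_eq] at *; rw [a5, ha, hb]
      one_mem' := inj (by simpa [a2] using (hτ 1 1 v₀).symm)
      add_mem' := fun {a b} ha hb => by simp only [Set.mem_ofPred_eq] at *; rw [a6, ha, hb]
      zero_mem' := inj (by simpa [a2] using (hτ 1 0 v₀).symm)
      neg_mem' := fun {a} ha => by
        simp only [Set.mem_ofPred_eq] at *
        rwa [show -a = a by linear_combination -a * b2] }
  have b3 : ∀ a ∈ fr F E, a ∈ C := by
    rintro _ ⟨a, rfl⟩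
    exact inj (by simpa [a2] using (hτ 1 (algebraMap F E a) v₀).symm)
  have b4 : ∀ a ∈ C, a ∈ fr F E := fun a ha => by_contra fun b4 => a7 (hP.2 C b3 ⟨a, ha, b4⟩ y)
  have b5 : τ 1 y - y ∈ C := by
    have := h0 (y • v₀)
    rw [a3, a3] at this
    exact sub_eq_zero.1 ((smul_eq_zero.1 this).resolve_right a1)
  have b6 : τ 1 (τ 1 y) = y := by
    have := a6 y (τ 1 y - y)
    rw [add_sub_cancel, show τ 1 (τ 1 y - y) = _ from b5] at this
    linear_combination this + (τ 1 y - y) * b2
  have b7 : y * τ 1 y ∈ C := by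
    change τ 1 _ = _
    rw [a5, b6, mul_comm]
  exact a7 (b3 y (b1 y _ (b4 _ b5) _ (b4 _ b7) (by linear_combination (y ^ 2 - y * τ 1 y) * b2)))

theorem lin_of_dim [FiniteDimensional F U] {N : U →ₗ[F] U}
    (h0 : 2 * finrank F (LinearMap.range N) < finrank F U)
    (h : ∀ y : E, ∃ y' : E, ∀ v, y • v + N (y • v) = y' • (v + N v)) (y : E) (v : U) :
    N (y • v) = y • N v := by
  obtain ⟨y', h⟩ := h y
  suffices a7 : y' = y by simpa [a7] using h v
  by_contra a1
  have a2 := LinearMap.finrank_le_finrank_of_injective (f := (LinearMap.ker N).subtype.coprod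
    ((LinearMap.lsmul E U y).restrictScalars F ∘ₗ (LinearMap.ker N).subtype))
    ((injective_iff_map_eq_zero _).2 fun ⟨⟨a, ha⟩, ⟨b, hb⟩⟩ h1 => by
      have h2 : y • b = -a := eq_neg_of_add_eq_zero_right h1
      have h3 := h b
      rw [LinearMap.mem_ker] at ha hb
      rw [h2, map_neg, ha, hb, neg_zero, add_zero, add_zero, ← h2, eq_comm, ← sub_eq_zero,
        ← sub_smul] at h3
      obtain rfl : b = 0 := (smul_eq_zero.1 h3).resolve_left (sub_ne_zero.2 a1)
      obtain rfl : a = 0 := by simpa using h2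
      rfl)
  have := N.finrank_range_add_finrank_ker
  rw [finrank_prod] at a2
  omega

theorem mem_of_norm [Finite E] (h : 1 < finrank F E) (Λ : Subring E)
    (h1 : ∀ c, Algebra.norm F c = 1 → c ∈ Λ) (c : E) : c ∈ Λ := by
  have := Fintype.ofFinite E
  have := Finite.of_injective _ (algebraMap F E).injective
  have := Fintype.ofFinite F
  let σ := FiniteField.frobeniusAlgHom F E
  have a1 : ∀ x ∈ Λ, x⁻¹ ∈ Λ := fun x hx => by
    by_cases h0 : x = 0
    · rw [h0, inv_zero]; exact Λ.zero_mem
    have h2 : x ^ (Fintype.card E - 2) * x = 1 := by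
      have := Fintype.one_lt_card (α := E)
      rw [← pow_succ, show Fintype.card E - 2 + 1 = Fintype.card E - 1 by omega]
      exact FiniteField.pow_card_sub_one_eq_one x h0
    rw [← eq_inv_of_mul_eq_one_left h2]
    exact Λ.pow_mem hx _
  have a2 : ∀ x ≠ 0, ∃ α ∈ Λ, σ x = α * x := fun x hx => ⟨x ^ (Fintype.card F - 1), h1 _ (by
    rw [map_pow, FiniteField.pow_card_sub_one_eq_one _ (by simpa)]), by
      rw [← pow_succ, Nat.sub_add_cancel Fintype.card_pos]; rfl⟩
  have a3 : ∀ x, σ x ≠ x → x ∈ Λ := fun x hx => by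
    obtain ⟨α, b1, b2⟩ := a2 x (by rintro rfl; simp at hx)
    obtain ⟨β, b3, b4⟩ := a2 (x + 1) fun h => hx (by simp [eq_neg_of_add_eq_zero_left h])
    rw [map_add, map_one, b2] at b4
    have b5 : β - α ≠ 0 := fun h => hx (by
      obtain rfl : β = α := sub_eq_zero.1 h
      rw [b2, show β = 1 by linear_combination -b4, one_mul])
    rw [show x = (1 - β) * (β - α)⁻¹ by field_simp; linear_combination -b4]
    exact mul_mem (sub_mem (one_mem _) b3) (a1 _ (sub_mem b3 b1))
  by_cases a4 : σ c = c
  · obtain ⟨y, hy⟩ : ∃ y, σ y ≠ y := by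
      by_contra! hy
      have := FiniteField.orderOf_frobeniusAlgHom F E
      rw [show FiniteField.frobeniusAlgHom F E = 1 from AlgHom.ext hy, orderOf_one] at this
      omega
    simpa using sub_mem (a3 (c + y) (by simpa [a4])) (a3 y hy)
  · exact a3 c a4

end H23.Tn
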